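import Cfsg.Agent.H6.R1

/-! Perfect absolutely irreducible subgroups of `SL₃`: the exceptional cases. -/

set_option autoImplicit false

namespace Cfsg.Agent.H6.M3

open Matrix Subgroup Cfsg.Geo Cfsg.Agent.H4 Cfsg.Agent.H4.CABasic Cfsg.Agent.H6.MG
open scoped commutatorElement MatrixGroups

variable {k : Type*} [Field k] {F : Type*} [Field F]

theorem adj_inv {x : GL (Fin 3) F} (d : x.1.det = 1) (ι : F →+* k) :
    (x.1.map ι).adjugate.trace = ι (x⁻¹).1.trace := by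
  rw [adj_of_mul (A' := (x⁻¹).1.map ι) (by rw [det_map, d, map_one])
    (by rw [← Matrix.map_mul, Units.mul_inv, map_one']), trace_map]

theorem card_of_fix [Finite F] (p : ℕ) [Fact p.Prime] [CharP F p] :
    ((∀ a : F, a ^ p = a) → Nat.card F = p) ∧
      ((∀ a : F, a ^ p ^ 2 = a) → Nat.card F = p ∨ Nat.card F = p ^ 2) := by
  obtain ⟨n, hn, e⟩ := FF.card_eq_pow (F := F) p
  have hp := (Fact.out : p.Prime).one_lt
  have key : ∀ m, m ≠ 0 → (∀ a : F, a ^ p ^ m = a) → n ≤ m := fun m hm h => by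
    have h1 := Nat.one_lt_pow hm hp
    have h2 := Nat.le_of_dvd (by omega) (card_dvd_of_pow (F := F) (m := 1) (n := p ^ m - 1)
      fun a => by rw [Nat.add_sub_cancel' h1.le, h, pow_one])
    exact (Nat.pow_le_pow_iff_right hp).1 (by omega)
  refine ⟨fun h => ?_, fun h => ?_⟩
  · have := key 1 one_ne_zero (by simpa using h)
    rw [e, show n = 1 by omega, pow_one]
  · have := key 2 two_ne_zero h
    rcases (by omega : n = 1 ∨ n = 2) with rfl | rfl <;> simp [e]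

namespace PR

section K

variable {Γ : Type*} [Group Γ] {ρ : PR Γ k} {g : Γ} {A : Mt k} {n m : ℕ} {t : k}

theorem tr_dec (hA : ρ.L g A) (d : A.det = 1) (hn : g ^ n = 1) (h3 : ¬ 3 ∣ n) :
    ∃ c t t' : k, c ^ 3 = 1 ∧ ρ.Ch g n t ∧ ρ.Ch g⁻¹ n t' ∧ A.trace = c * t ∧
      A.adjugate.trace = c ^ 2 * t' := by
  obtain ⟨B, hB, d', e⟩ := ex_pow hA d hn h3
  obtain ⟨c, hc, rfl⟩ := cube_of hB hA d' d
  exact ⟨c, _, _, hc, ⟨B, hB, d', e, rfl⟩, ⟨_, ρ.inv_adj hB, by simp [det_adjugate, d'], by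
    rw [← adjugate_pow, e, adjugate_one], rfl⟩, by simp, by simp [adj_smul3]⟩

theorem RP.lift [IsAlgClosed k] {c : Γ} (h : ρ.RP g c) (hA : ρ.L g A) (d : A.det = 1) :
    A ^ 3 = 1 := by
  obtain ⟨B, B', hB, ω, -, -, o2, -, e, -⟩ := h.std
  have e1 := congrArg Matrix.det hB
  rw [det_mul, det_one] at e1
  obtain ⟨r, hr, rfl⟩ := cube_of (show ρ.L g _ from e) hA (by
    rw [det_mul, det_mul, dm3]; grind) d
  have : dg 1 ω (ω ^ 2) * dg 1 ω (ω ^ 2) * dg 1 ω (ω ^ 2) = 1 := by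
    simp only [mul_fin_three, one_fin_three, em3]; grind
  rw [smul_pow, hr, one_smul]
  calc _ = B * (dg 1 ω (ω ^ 2) * (B' * B) * dg 1 ω (ω ^ 2) * (B' * B) * dg 1 ω (ω ^ 2)) * B' := by
        simp only [pow_succ, pow_zero, one_mul, mul_assoc]
    _ = 1 := by rw [mul_eq_one_comm.1 hB, mul_one, mul_one, this, mul_one, hB]

variable (p : ℕ) [Fact p.Prime] [CharP k p] [IsAlgClosed k]

theorem Ch.three (h3 : ¬ 3 ∣ n) (h : ρ.Ch g n t) (hp : g ^ p = 1) : t = 3 := by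
  have := h.frob p 1
  rw [pow_one, hp] at this
  refine frobenius_inj k p ((this.uniq h3 ⟨1, ρ.one, det_one, one_pow _, rfl⟩).trans ?_)
  simp [map_ofNat]

theorem three_pow : (3 : k) ^ p ^ m = 3 := map_ofNat (iterateFrobenius k p m) 3

theorem fx_of (hA : ρ.L g A) (d : A.det = 1) (hn : g ^ n = 1) (h3 : ¬ 3 ∣ n) (hm : p ^ m % 3 = 1)
    (h : IsConj (g ^ p ^ m) g ∨ g ^ p = 1) : A.trace ^ p ^ m = A.trace := by
  obtain ⟨c, t, t', hc, h1, -, e, -⟩ := tr_dec hA d hn h3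
  rw [e, mul_pow, pow_eq_pow_mod _ hc, hm, pow_one]
  rcases h with h | h
  · rw [((h1.frob p m).conj h).uniq h3 h1]
  · rw [h1.three p h3 h, three_pow]

theorem tw_of (hA : ρ.L g A) (d : A.det = 1) (hn : g ^ n = 1) (h3 : ¬ 3 ∣ n) (hm : p ^ m % 3 = 2)
    (h : IsConj (g ^ p ^ m) g⁻¹ ∨ g ^ p = 1) : A.adjugate.trace = A.trace ^ p ^ m := by
  obtain ⟨c, t, t', hc, h1, h2, e, e'⟩ := tr_dec hA d hn h3
  rw [e, e', mul_pow, pow_eq_pow_mod (p ^ m) hc, hm]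
  rcases h with h | h
  · rw [((h1.frob p m).conj h).uniq h3 h2]
  · rw [h1.three p h3 h, three_pow, h2.three p h3 (by rw [inv_pow, h, inv_one])]

theorem _root_.Cfsg.Agent.H6.M3.fx_pow (hn : A ^ n = 1) (hm : p ^ m % n = 1) :
    A.trace ^ p ^ m = A.trace := by
  rw [← trace_pow_char, pow_eq_pow_mod _ hn, hm, pow_one]

theorem _root_.Cfsg.Agent.H6.M3.tw_pow (d : A.det = 1) (hn : A ^ n = 1) (hm : (p ^ m + 1) % n = 0) :
    A.adjugate.trace = A.trace ^ p ^ m := by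
  rw [← trace_pow_char, adj_of_mul d (A' := A ^ p ^ m) (by
    rw [← pow_succ', pow_eq_pow_mod _ hn, hm, pow_zero])]

theorem St.cube [Fintype Γ] [IsSimpleGroup Γ] (S : St p ρ) {x c : Γ} (h : ρ.RP x c)
    (h3 : g ^ 3 = 1) (hA : ρ.L g A) (d : A.det = 1) : A ^ 3 = 1 := by
  by_cases h1 : g = 1
  · obtain ⟨r, hr, rfl⟩ := cube_of (h1 ▸ ρ.one) hA det_one d
    rw [smul_pow, hr, one_pow, one_smul]
  haveI : Fact (Nat.Prime 3) := ⟨Nat.prime_three⟩
  obtain ⟨Q, hQ⟩ := S.sylow h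
  obtain ⟨Q', hQ'⟩ := (Basic.isPGroup_zpowers (p := 3) (k := 1) (g := g) h3).exists_le_sylow
  obtain ⟨y, rfl⟩ := MulAction.exists_smul_eq Γ Q Q'
  obtain ⟨z, hz, rfl⟩ := hQ' (mem_zpowers g)
  obtain ⟨c', h', -⟩ := h.exists (y := z) (hQ ▸ hz) (by rintro rfl; simp at h1)
  exact (h'.conj y).lift hA d

end K

variable {Γ : Type*} [Group Γ] {ρ : PR Γ F} {ι : F →+* k} {H P : Subgroup (GL (Fin 3) F)}
  (p : ℕ) [Fact p.Prime] [CharP F p] [CharP k p] [IsAlgClosed k] [Finite F]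

omit [Finite F] [IsAlgClosed k] [CharP F p] in
theorem Cov.tw (h : ρ.Cov P) {m : ℕ} (e : ∀ g A, (ρ.up ι).L g A → A.det = 1 →
    A.adjugate.trace = A.trace ^ m) : Tw P m := fun x hx => ι.injective (by
  obtain ⟨g, hg⟩ := h.mem x hx
  rw [← adj_inv (h.det x hx), e g _ (up_of hg) (by rw [det_map, h.det x hx, map_one]), trace_map,
    map_pow])

omit [Finite F] [IsAlgClosed k] [CharP F p] in
theorem Core.fx (h : ρ.Core P P) {m : ℕ} (e : ∀ g A, (ρ.up ι).L g A → A.det = 1 →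
    A.trace ^ p ^ m = A.trace) (a : F) : a ^ p ^ m = a := ι.injective (by
  rw [map_pow]
  refine h.eq ((iterateFrobenius k p m).comp ι) ι (fun x hx => ?_) a
  obtain ⟨g, hg⟩ := h.cov.mem x hx
  simpa only [trace_map, RingHom.comp_apply, iterateFrobenius_def] using e g _ (up_of hg)
    (by rw [det_map, h.cov.det x hx, map_one]))

variable [Fintype Γ] [IsSimpleGroup Γ] (S : St p (ρ.up ι))
include S

omit [CharP F p] [Finite F] in
theorem St.seven {g0 : Γ} (h : (ρ.up ι).XX g0) (hd : dd g0 = 7) (hw : ww g0 = 3) {g : Γ}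
    (hg : g ∈ cj' g0) : g ^ 7 = 1 ∧ IsConj g (g ^ 2) := by
  obtain ⟨h1, h2, -⟩ := S.cyc h (by norm_num) hd
  obtain ⟨y, -, -, hy⟩ := S.frob21 h hd hw
  obtain ⟨z, a, ha, -, rfl⟩ := mem_conjs.1 hg
  obtain ⟨j, rfl⟩ := h2 a (mem_centralizer_singleton_iff.1 ha)
  refine ⟨by rw [conj_pow, ← pow_mul, mul_comm j, pow_mul, h1]; simp, ?_⟩
  have e : IsConj (g0 ^ j) (z * g0 ^ j * z⁻¹) := isConj_iff.2 ⟨z, rfl⟩
  refine e.symm.trans (IsConj.trans ?_ (e.pow 2))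
  rw [← pow_mul, mul_comm, pow_mul]
  exact (isConj_iff.2 ⟨y, hy⟩).pow j

theorem O168.res (hp : p ≠ 2) (h : ρ.Core P P) {t g0 : Γ} {K : Subgroup Γ}
    (H : (ρ.up ι).O168 t K g0) : (∀ z ∈ P, ρ.L 1 z.1 → z = 1) ∧
      ((p % 7 = 1 ∨ p % 7 = 2 ∨ p % 7 = 4) ∧ Nat.card F = p ∨
        (p % 7 = 3 ∨ p % 7 = 5 ∨ p % 7 = 6) ∧ Tw P p) := by
  have hz : ∀ z ∈ P, ρ.L 1 z.1 → z = 1 := fun z hz => h.cov.scal p S.sa H.rp (by rwa [h.perf])
  have hc : ∀ x ∈ P, ∀ y ∈ P, ∀ g g', ρ.L g x.1 → ρ.L g' y.1 → IsConj g g' →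
      x.1.trace = y.1.trace := fun x hx y hy g g' h1 h2 e => by
    obtain ⟨s, rfl⟩ := isConj_iff.1 e
    obtain ⟨C, hC, e⟩ := h.cov.ex s
    have := ρ.mul (ρ.conj e C.mul_inv h1) (ρ.inv h2 y.mul_inv)
    rw [mul_inv_cancel] at this
    have := hz (C * x * C⁻¹ * y⁻¹)
      (P.mul_mem (P.mul_mem (P.mul_mem hC hx) (P.inv_mem hC)) (P.inv_mem hy)) this
    rw [← mul_inv_eq_one.1 this]
    exact (trace_units_conj C x.1).symm
  have h1 : ∀ x : GL (Fin 3) F, (x ^ p).1.trace = x.1.trace ^ p := fun x => by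
    simpa using tpc p x.1 1
  have h2 : ∀ x ∈ P, ∀ g, ρ.L g x.1 → g ^ p = 1 → x.1.trace = 3 := fun x hx g hg e => by
    refine frobenius_inj F p ?_
    rw [map_ofNat, frobenius_def, ← h1, hz _ (P.pow_mem hx p) (e ▸ ρ.pow hg p)]
    simp
  have h3 : (3 : F) ^ p = 3 := map_ofNat (frobenius F p) 3
  have hp2 := (Fact.out : p.Prime).eq_two_or_odd.resolve_left hp
  have h4 : ∀ g, g ∉ cj' g0 → IsConj (g ^ p) g ∧ IsConj (g ^ p) g⁻¹ ∨ g ^ p = 1 := fun g hg => by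
    obtain ⟨e | e, e'⟩ := H.ord g hg
    · exact Or.inl (conj_real e e' (by omega))
    · by_cases h3 : 3 ∣ p
      · exact Or.inr ((Nat.prime_dvd_prime_iff_eq Nat.prime_three Fact.out).1 h3 ▸ e)
      · exact Or.inl (conj_real e e' (by omega))
  have h5 := fun g hg => conj_seven (r := p) (S.seven p H.xx H.d7 H.w3 (g := g) hg).1
    (S.seven p H.xx H.d7 H.w3 hg).2
  have h7 : ¬ 7 ∣ p := fun e => H.reg.pow p
    ((Nat.prime_dvd_prime_iff_eq (by norm_num) Fact.out).1 e ▸ (S.cyc H.xx (by norm_num) H.d7).1)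
  refine ⟨hz, (by omega : (p % 7 = 1 ∨ p % 7 = 2 ∨ p % 7 = 4) ∨
    (p % 7 = 3 ∨ p % 7 = 5 ∨ p % 7 = 6)).imp (fun e => ⟨e, (card_of_fix p).1
      (h.eq (frobenius F p) (RingHom.id F) fun x hx => ?_)⟩) fun e => ⟨e, fun x hx => ?_⟩⟩ <;>
    obtain ⟨g, hg⟩ := h.cov.mem x hx
  · rcases (show IsConj (g ^ p) g ∨ g ^ p = 1 from
      (em _).elim (fun e' => Or.inl ((h5 g e').1 e)) fun e' => (h4 g e').imp_left And.left) with e | e
    · exact (h1 x).symm.trans (hc _ (P.pow_mem hx p) _ hx _ _ (ρ.pow hg p) hg e)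
    · rw [h2 x hx g hg e]; exact h3
  · rcases (show IsConj (g ^ p) g⁻¹ ∨ g ^ p = 1 from
      (em _).elim (fun e' => Or.inl ((h5 g e').2 e)) fun e' => (h4 g e').imp_left And.right) with e | e
    · rw [← h1, hc _ (P.pow_mem hx p) _ (P.inv_mem hx) _ _ (ρ.pow hg p) (ρ.inv hg x.mul_inv) e]
    · rw [h2 x hx g hg e, h3, h2 _ (P.inv_mem hx) _ (ρ.inv hg x.mul_inv) (by rw [inv_pow, e, inv_one])]

theorem O360.res (hp : p ≠ 2) (h : ρ.Core P P) {t x c g0 : Γ} {K : Subgroup Γ}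
    (H : (ρ.up ι).O360 t K x c g0) : (p % 15 = 1 ∨ p % 15 = 4) ∧ Nat.card F = p ∨
      (p % 15 = 11 ∨ p % 15 = 14 ∨ p = 5) ∧ Tw P p ∨
      (p % 5 = 2 ∨ p % 5 = 3) ∧ p ≠ 3 ∧ Nat.card F = p ^ 2 ∧ ¬ Tw P p := by
  obtain ⟨α, hα, hF⟩ := FF.card_eq_pow (F := F) p
  have hp2 := Nat.odd_iff.2 ((Fact.out : p.Prime).eq_two_or_odd.resolve_left hp)
  have h3 : ¬ 3 ∣ p := fun e => by
    have := RP.dvd (h.cov.slr.trF ι) H.rp
    have := e.trans (hF ▸ dvd_pow_self p hα)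
    omega
  have fx : ∀ m, p ^ m % 3 = 1 → p ^ m % 5 = 1 ∨ p ^ m % 5 = 4 → ∀ a : F, a ^ p ^ m = a :=
    fun m h1 h2 => h.fx (ι := ι) p fun g A hA d => by
      have := Nat.odd_iff.1 (hp2.pow (n := m))
      obtain ⟨e | e | e, e'⟩ := H.ord g
      · exact fx_of p hA d e (by norm_num) h1 (Or.inl (conj_real e e' (by omega)).1)
      · exact fx_pow p (S.cube p H.rp e hA d) h1
      · exact fx_of p hA d e (by norm_num) h1 (Or.inl (conj_real e e' (by omega)).1)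
  have tw : p % 3 = 2 → p % 5 = 1 ∨ p % 5 = 4 ∨ p = 5 → Tw P p :=
    fun h1 h2 => h.cov.tw (ι := ι) fun g A hA d => by
      have := Nat.odd_iff.1 hp2
      rw [← pow_one p] at h1 ⊢
      obtain ⟨e | e | e, e'⟩ := H.ord g
      · exact tw_of p hA d e (by norm_num) h1 (Or.inl (conj_real e e' (by rw [pow_one]; omega)).2)
      · exact tw_pow p d (S.cube p H.rp e hA d) (by omega)
      · exact tw_of p hA d e (by norm_num) h1 ((or_assoc.2 h2).imp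
          (fun _ => (conj_real e e' (by rw [pow_one]; omega)).2) fun e5 => by rw [e5, e])
  by_cases h5 : 5 ∣ p
  · obtain rfl := (Nat.prime_dvd_prime_iff_eq (by norm_num) Fact.out).1 h5
    exact Or.inr (Or.inl ⟨by simp, tw rfl (by simp)⟩)
  by_cases h6 : p % 5 = 1 ∨ p % 5 = 4
  · by_cases h7 : p % 3 = 1
    · exact Or.inl ⟨by omega, (card_of_fix p).1 (by simpa using fx 1 (by simpa) (by simpa))⟩
    · exact Or.inr (Or.inl ⟨by omega, tw (by omega) (by omega)⟩)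
  have g5 := (S.cyc H.xx (by norm_num) H.d5).1
  have hg := (reg_or_jb p S.sa H.xx.sq).resolve_right fun hj => H.xx.ne (by
    simpa [(Nat.Prime.coprime_iff_not_dvd (by norm_num)).2 h5] using
      pow_gcd_eq_one.2 ⟨g5, hj.pow p S.sa (self_mem_T0 g0)⟩)
  have r := isConj_iff.2 (H.ord g0).2
  have h8 := field5 (ι := ι) h.cov.slr hF hg g5 r
  refine Or.inr (Or.inr ⟨by omega, by omega, ((card_of_fix p).2 (fx 2 ?_ ?_)).resolve_left
    (by omega), fun ht => ?_⟩)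
  · rcases (by omega : p % 3 = 1 ∨ p % 3 = 2) with e | e <;> simp [Nat.pow_mod, e]
  · rcases (by omega : p % 5 = 2 ∨ p % 5 = 3) with e | e <;> simp [Nat.pow_mod, e]
  obtain ⟨y, hy, e⟩ := h.cov.ex g0
  have d := h.cov.det y hy
  obtain ⟨s, hr, e1⟩ := cube_of (g5 ▸ ρ.one) (ρ.pow e 5) det_one (by rw [det_pow, d, one_pow])
  have e2 : (y ^ 6) ^ 5 = 1 := Units.ext (by
    rw [← pow_mul, mul_comm, pow_mul, Units.val_pow_eq_pow_val, Units.val_pow_eq_pow_val, e1,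
      smul_pow, show s ^ 6 = 1 by linear_combination (s ^ 3 + 1) * hr]; simp)
  have e3 : ρ.L g0 (y ^ 6).1 := by simpa [pow_eq_pow_mod 6 g5] using ρ.pow e 6
  have := P.pow_mem hy 6
  generalize y ^ 6 = z at *
  have key : ∀ z ∈ P, ∀ g, ρ.L g z.1 → z ^ 5 = 1 → (ρ.up ι).Ch g 5 (ι z.1.trace) :=
    fun z hz g hg e => ⟨_, up_of hg, by rw [det_map, h.cov.det z hz, map_one], by
      rw [← Matrix.map_pow, ← Units.val_pow_eq_pow_val, e, Units.val_one, map_one'], trace_map _ _⟩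
  have c1 := key z this _ e3 e2
  have c2 := key _ (P.inv_mem this) _ (ρ.inv e3 z.mul_inv) (by rw [inv_pow, e2, inv_one])
  have c3 := c1.frob p 1
  rw [ht z this, map_pow] at c2
  rw [pow_one, c2.uniq (by norm_num) (c1.conj r), pow_eq_pow_mod _ g5] at c3
  refine hg.no_ch (by norm_num) c1 (c1.conj r) ?_
  rcases (by omega : p % 5 = 2 ∨ p % 5 = 3) with e | e <;> rw [e] at c3
  · exact c3
  · refine c3.conj ?_
    rw [eq_inv_of_mul_eq_one_left (show g0 ^ 3 * g0 ^ 2 = 1 by rw [← pow_add, g5]), ← inv_pow]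
    exact (r.pow 2).symm

omit [Finite F] [CharP F p] in
theorem O2520.res [DecidableEq Γ] (h : ρ.Cov P) {t t1 x c g0 : Γ}
    (H : (ρ.up ι).O2520 p t t1 x c g0) : Tw P p := h.tw (ι := ι) fun g A hA d => by
  obtain rfl := H.p5
  rw [← pow_one 5]
  by_cases hg : g ∈ cj' g0
  · obtain ⟨e, e'⟩ := S.seven 5 H.xx H.d7 H.w3 hg
    exact tw_of 5 hA d e (by norm_num) rfl (Or.inl ((conj_seven e e').2 (by simp)))
  obtain ⟨e | e | e, e'⟩ := H.ord g hg
  · exact tw_of 5 hA d e (by norm_num) rfl (Or.inl (conj_real e e' (by simp)).2)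
  · refine tw_pow 5 d (n := 2 * 3) ?_ rfl
    rw [pow_mul]
    exact S.cube 5 H.ee.rp (by rw [← pow_mul, e]) ((ρ.up ι).pow hA 2) (by rw [det_pow, d, one_pow])
  · exact tw_of 5 hA d e (by norm_num) rfl (Or.inr e)

end PR

end Cfsg.Agent.H6.M3
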