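import Cfsg.Agent.H6.R2

/-! Perfect absolutely irreducible subgroups of `SL₃`: the list. -/

set_option autoImplicit false

namespace Cfsg.Agent.H6.M3

open Matrix Subgroup Cfsg.Geo Cfsg.Agent.H4 Cfsg.Agent.H4.CABasic Cfsg.Agent.H6.MG Cfsg.Agent.Asch
open scoped commutatorElement MatrixGroups

variable {k : Type*} [Field k] {F : Type*} [Field F] {H P : Subgroup (GL (Fin 3) F)}

theorem Tw.quad [Finite F] (h : Tw P 1) (ha : AbsIrr P) :
    ∃ Q : (Fin 3 → F) → F, IsNondegenerateQuadraticForm Q ∧ FixesQuadForm (matrixSet P) Q := by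
  letI := Fintype.ofFinite F
  obtain ⟨G, hG, hf⟩ := ha.exists_gram_of_trace (σ := RingEquiv.refl F) (fun _ => rfl)
    fun x hx => by simpa using h x hx
  rcases ha.irred.symplectic_or_quad (by simp) hG (ha.symm_or_skew hG hf)
    (ha.le_similarityGroup (fun _ hg _ hx => P.mul_mem (P.mul_mem hg hx) (P.inv_mem hg)) hG hf)
    with e | ⟨e1, e2⟩
  · exact absurd (even_card_of_symplectic e) (by decide)
  · exact ⟨_, isNondegenerateQuadraticForm_gf (odd_card_iff.1 e1) hG e2,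
      fun s hs v => (fixesGram_iff _ _ _).1 hf s hs v v⟩

theorem card_a6 : Nat.card (alternatingGroup (Fin 6)) = 360 := by
  have := two_mul_nat_card_alternatingGroup (α := Fin 6)
  rw [Nat.card_perm, Nat.card_fin] at this
  simp only [Nat.factorial] at this
  omega

theorem core_of_res [Finite F] (h : IsResidualCore H P) : (∀ x ∈ P, x.1.det = 1) ∧
    (∀ L : Subfield F, (∀ x ∈ P, x.1.trace ∈ L) → L = ⊤) ∧
    ¬ ∀ x y : P ⧸ (scalars (Fin 3) F).subgroupOf P, x * y = y * x :=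
  ⟨fun x hx => congrArg Units.val (H9.perfect_hom_eq_one h.perfect
    (GeneralLinearGroup.det.comp P.subtype) ⟨x, hx⟩), fun L hL => by_contra fun e =>
      h.no_subfield L e ((absIrr_of_acts h.absIrred).realisableOver L hL),
    fun e => h.nonabelian ⟨⟨e⟩⟩⟩

namespace PR

variable {Γ : Type*} [Group Γ] {ρ : PR Γ F} (ι : F →+* k)
  (p : ℕ) [Fact p.Prime] [CharP F p] [Finite F]

theorem Core.forms (h : ρ.Core H P) (ha : AbsIrr P) {n : ℕ} (ht : Tw P (p ^ n)) :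
    (∃ Q : (Fin 3 → F) → F, IsNondegenerateQuadraticForm Q ∧ FixesQuadForm (matrixSet P) Q) ∨
    ∃ (σ : F ≃+* F) (f : (Fin 3 → F) → (Fin 3 → F) → F), IsUnitaryForm σ f ∧
      FixesForm (matrixSet P) f := by
  have h1 : ∀ a, iterateFrobeniusEquiv F p n (iterateFrobeniusEquiv F p n a) = a :=
    h.eq ((iterateFrobenius F p n).comp (iterateFrobenius F p n)) (RingHom.id F) fun x hx => by
      have := ht _ (P.inv_mem hx)
      rw [ht x hx, inv_inv] at this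
      exact this.symm
  by_cases e : iterateFrobeniusEquiv F p n = RingEquiv.refl F
  · exact Or.inl (Tw.quad (fun x hx => by
      rw [ht x hx, pow_one]; exact DFunLike.congr_fun e _) ha)
  obtain ⟨G, hG, hf⟩ := ha.exists_gram_of_trace h1 ht
  obtain ⟨G', -, h2, h3⟩ := ha.exists_unitary h1 e hG hf
  exact Or.inr ⟨_, _, h3, (fixesGram_iff _ _ _).1 h2⟩

variable [CharP k p] [IsAlgClosed k] [Fintype Γ] [IsSimpleGroup Γ]

theorem Core.cases (h : ρ.Core P P) (ha : AbsIrr P) (hna : ¬ ∀ x y : Γ, x * y = y * x) :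
    specialLinear (Fin 3) F ≤ P ∨
    (∃ n, Tw P (p ^ n) ∧ ∀ X : Subgroup (GL (Fin 3) F), (∀ y, y ∈ X ↔ y.1.det = 1 ∧
      (y.1.map (iterateFrobenius F p n))ᵀ * y.1 = 1) → P ≤ X → X ≤ P) ∨ Tw P 1 ∨
    (p ≠ 2 ∧ St p (ρ.up ι) ∧ (∃ t K g, (ρ.up ι).O168 t K g) ∧ (∀ z ∈ P, ρ.L 1 z.1 → z = 1) ∧
      ((p % 7 = 1 ∨ p % 7 = 2 ∨ p % 7 = 4) ∧ Nat.card F = p ∨
        (p % 7 = 3 ∨ p % 7 = 5 ∨ p % 7 = 6) ∧ Tw P p)) ∨
    (Nonempty (Γ ≃* alternatingGroup (Fin 6)) ∧ ((p % 15 = 1 ∨ p % 15 = 4) ∧ Nat.card F = p ∨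
      (p % 15 = 11 ∨ p % 15 = 14 ∨ p = 5) ∧ Tw P p ∨
      (p % 5 = 2 ∨ p % 5 = 3) ∧ p ≠ 3 ∧ Nat.card F = p ^ 2 ∧ (p = 2 ∨ ¬ Tw P p))) ∨
    Nonempty (Γ ≃* alternatingGroup (Fin 7)) ∧ p = 5 ∧ Tw P p := by
  classical
  have hi := h.cov.irr (ι := ι) ha
  have hP : ⁅(⊤ : Subgroup Γ), (⊤ : Subgroup Γ)⁆ = ⊤ := by
    obtain ⟨π, h1, -⟩ := h.cov.hom
    rw [← map_top_of_surjective π h1]
    exact perfect_map π (perfect_top h.perf)
  by_cases hp : p = 2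
  · subst hp
    rcases trich_two hna hi with e | ⟨n, -, e⟩ | ⟨e, B, B', hB, e'⟩
    · exact Or.inl (h.lin 2 e)
    · exact Or.inr (Or.inl ⟨n, h.uni 2 e⟩)
    iterate 4 right
    refine Or.inl ⟨e, Or.inr (Or.inr ⟨by simp, by simp, ((card_of_fix 2).2 fun a => ι.injective (by
      rw [map_pow]; exact h.fix hB (iterateFrobenius k 2 2) e' a)).resolve_left fun e2 => ?_,
      Or.inl rfl⟩)⟩
    obtain ⟨π, h1, -⟩ := h.cov.hom
    letI := Fintype.ofFinite F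
    have h2 := (Nat.card_le_card_of_surjective π h1).trans P.card_le_card_group
    rw [Nat.card_congr e.some.toEquiv, card_a6, card_GL_field, ← Nat.card_eq_fintype_card, e2] at h2
    revert h2; decide
  rcases trichotomy hp hi hP top_ne_bot with e | ⟨n, -, e⟩ | hs
  · exact Or.inl (h.lin p e)
  · exact Or.inr (Or.inl ⟨n, h.uni p e⟩)
  have S : St p (ρ.up ι) := ⟨hs, hna⟩
  right; right
  rcases S.main with H | ⟨t, K, g, H⟩ | ⟨t, K, x, c, g, H⟩ | ⟨t, t1, x, c, g, t2, t3, H⟩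
  · exact Or.inl fun x hx => by
      rw [pow_one]; exact Real.form (ι := ι) p h.cov hP hs H (by rwa [h.perf])
  · exact Or.inr (Or.inl ⟨hp, S, ⟨t, K, g, H⟩, H.res p S hp h⟩)
  · exact Or.inr (Or.inr (Or.inl ⟨H.iso, (H.res p S hp h).imp_right fun e => e.imp_right
      fun e => ⟨e.1, e.2.1, e.2.2.1, Or.inr e.2.2.2⟩⟩))
  · exact Or.inr (Or.inr (Or.inr ⟨H.iso S t2 t3, H.p5, H.res p S h.cov⟩))

end PR

theorem res_linear [Finite F] (p : ℕ) [Fact p.Prime] [CharP F p] (h : IsResidualCore H P)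
    (h0 : ¬ specialLinear (Fin 3) F ≤ P)
    (h1 : ¬ ∃ Q : (Fin 3 → F) → F, IsNondegenerateQuadraticForm Q ∧ FixesQuadForm (matrixSet P) Q)
    (h2 : ¬ ∃ (σ : F ≃+* F) (f : (Fin 3 → F) → (Fin 3 → F) → F), IsUnitaryForm σ f ∧
      FixesForm (matrixSet P) f) :
    (Nonempty ((P ⧸ (scalars (Fin 3) F).subgroupOf P) ≃* PSL(3, ZMod 2)) ∧
      Nat.card F = p ∧ p ≠ 2 ∧ (p % 7 = 1 ∨ p % 7 = 2 ∨ p % 7 = 4)) ∨
    (Nonempty ((P ⧸ (scalars (Fin 3) F).subgroupOf P) ≃* alternatingGroup (Fin 6)) ∧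
      ((Nat.card F = p ∧ (p % 15 = 1 ∨ p % 15 = 4)) ∨
        (Nat.card F = p ^ 2 ∧ p ≠ 3 ∧ (p % 5 = 2 ∨ p % 5 = 3)))) := by
  obtain ⟨k1, k2, k3⟩ := core_of_res h
  have C : (PR.quo P).Core P P := ⟨PR.quo_cov k1, le_rfl, h.perfect, k2⟩
  have ha := absIrr_of_acts h.absIrred
  haveI := h.simple
  letI := Fintype.ofFinite (P ⧸ (scalars (Fin 3) F).subgroupOf P)
  have nt : ∀ n, ¬ Tw P (p ^ n) := fun n e => (C.forms p ha e).elim h1 h2
  have n1 : ¬ Tw P p := by simpa using nt 1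
  rcases C.cases (algebraMap F (AlgebraicClosure F)) p ha k3 with e | ⟨n, e, -⟩ | e |
    ⟨e1, -, ⟨t, K, g, e2⟩, -, e | e⟩ | ⟨e1, e | e | e⟩ | e
  exacts [absurd e h0, absurd e (nt n), absurd e (by simpa using nt 0),
    Or.inl ⟨simple168' e2.card, e.2, e1, e.1⟩, absurd e.2 n1, Or.inr ⟨e1, Or.inl e.symm⟩,
    absurd e.2 n1, Or.inr ⟨e1, Or.inr ⟨e.2.2.1, e.2.1, e.1⟩⟩, absurd e.2.2 n1]

end Cfsg.Agent.H6.M3
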