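import Mathlib

/-! Binary affine actions: basic lemmas. -/

set_option autoImplicit false

namespace Cfsg.Agent.H6.Bin

variable {H V : Type*} [Group H] [AddCommGroup V] [DistribMulAction H V]

/-- Same orbit. -/
def o (H : Type*) {V : Type*} [Group H] [AddCommGroup V] [DistribMulAction H V] (a b : V) : Prop :=
  ∃ h : H, h • a = b

theorem o.rfl {a : V} : o H a a := ⟨1, one_smul _ _⟩

theorem o.symm {a b : V} (h : o H a b) : o H b a := by
  obtain ⟨g, rfl⟩ := h
  exact ⟨g⁻¹, inv_smul_smul _ _⟩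

theorem o.trans {a b c : V} (h : o H a b) (h' : o H b c) : o H a c := by
  obtain ⟨g, rfl⟩ := h
  obtain ⟨g', rfl⟩ := h'
  exact ⟨g' * g, mul_smul _ _ _⟩

theorem o.neg {a b : V} (h : o H a b) : o H (-a) (-b) := by
  obtain ⟨g, rfl⟩ := h
  exact ⟨g, smul_neg _ _⟩

theorem o.smul (g : H) (a : V) : o H a (g • a) := ⟨g, _root_.rfl⟩

theorem o.eq_zero {a : V} (h : o H 0 a) : a = 0 := by
  obtain ⟨g, rfl⟩ := h
  exact smul_zero _

/-- The hypotheses on the linear action of a point stabiliser. -/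
structure Hyp (H V : Type*) [Group H] [AddCommGroup V] [DistribMulAction H V] : Prop where
  ext : ∀ (S : Set V) (f : V → V), 0 ∈ S → f 0 = 0 →
    (∀ x ∈ S, ∀ y ∈ S, o H (x - y) (f x - f y)) → ∃ h : H, ∀ x ∈ S, h • x = f x
  faith : ∀ h : H, (∀ x : V, h • x = x) → h = 1
  irr : ∀ W : AddSubgroup V, (∀ h : H, ∀ x ∈ W, h • x ∈ W) → W = ⊥ ∨ W = ⊤

/-- `x ↦ x - h • x`. -/
def D (V : Type*) [AddCommGroup V] [DistribMulAction H V] (h : H) : V →+ V where
  toFun x := x - h • x
  map_zero' := by simp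
  map_add' x y := by rw [smul_add]; abel

/-- Fixed space. -/
def B (V : Type*) [AddCommGroup V] [DistribMulAction H V] (h : H) : AddSubgroup V := (D V h).ker

/-- Commutator space. -/
def N (V : Type*) [AddCommGroup V] [DistribMulAction H V] (h : H) : AddSubgroup V := (D V h).range

theorem D_apply (h : H) (x : V) : D V h x = x - h • x := rfl

theorem mem_B {h : H} {x : V} : x ∈ B V h ↔ h • x = x := by
  change x - h • x = 0 ↔ _
  rw [sub_eq_zero, eq_comm]

theorem mem_N {h : H} {x : V} : x ∈ N V h ↔ ∃ y, y - h • y = x := Iff.rfl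

theorem sub_mem_N (h : H) (y : V) : y - h • y ∈ N V h := ⟨y, rfl⟩

theorem card_BN (h : H) : Nat.card (B V h) * Nat.card (N V h) = Nat.card V := by
  rw [B, N, ← AddSubgroup.index_ker, AddSubgroup.card_mul_index]

theorem smul_mem_N {g t : H} {n : V} (hn : n ∈ N V t) : g • n ∈ N V (g * t * g⁻¹) := by
  obtain ⟨y, rfl⟩ := mem_N.1 hn
  exact mem_N.2 ⟨g • y, by simp [mul_smul, smul_sub]⟩

theorem smul_mem_B {g t : H} {n : V} (hn : n ∈ B V t) : g • n ∈ B V (g * t * g⁻¹) := by
  rw [mem_B] at hn ⊢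
  simp [mul_smul, hn]

theorem smul_mem_N_of_comm {g t : H} (h : g * t = t * g) {n : V} (hn : n ∈ N V t) :
    g • n ∈ N V t := by
  have := smul_mem_N (g := g) hn
  rwa [h, mul_inv_cancel_right] at this

theorem smul_smul_self {t : H} (ht : t * t = 1) (x : V) : t • t • x = x := by
  rw [smul_smul, ht, one_smul]

theorem smul_N {t : H} (ht : t * t = 1) {n : V} (hn : n ∈ N V t) : t • n = -n := by
  obtain ⟨y, rfl⟩ := mem_N.1 hn
  rw [smul_sub, smul_smul_self ht, neg_sub]

theorem add_mem_B {t : H} (ht : t * t = 1) (x : V) : x + t • x ∈ B V t := by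
  rw [mem_B, smul_add, smul_smul_self ht, add_comm]

variable (hb : Hyp H V)
include hb

theorem N_ne_bot {t : H} (ht : t ≠ 1) : ∃ n ∈ N V t, n ≠ 0 := by
  by_contra hc
  push Not at hc
  exact ht (hb.faith t fun x => (sub_eq_zero.1 (hc _ (sub_mem_N t x))).symm)

theorem eq_of_smul {g h : H} (e : ∀ x : V, g • x = h • x) : g = h := by
  have := hb.faith (h⁻¹ * g) fun x => by rw [mul_smul, e, inv_smul_smul]
  exact (inv_mul_eq_one.1 this).symm

theorem swap0 {a b : V} (hab : o H a b) : ∃ h : H, h • a = b ∧ h • b = a := by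
  classical
  by_cases ha : a = 0
  · subst ha
    exact ⟨1, by simp [hab.eq_zero], by simp [hab.eq_zero]⟩
  have hb0 : b ≠ 0 := fun h => ha (by subst h; exact hab.symm.eq_zero)
  have h1 : a + b ≠ a := by simpa using hb0
  obtain ⟨h, hh⟩ := hb.ext {0, a, a + b} (fun x => if x = a then b else x) (by simp)
    (by simp [Ne.symm ha]) (by
      intro x hx y hy
      simp only [Set.mem_insert_iff, Set.mem_singleton_iff] at hx hy
      rcases hx with rfl | rfl | rfl <;> rcases hy with rfl | rfl | rfl <;>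
        simp [Ne.symm ha, h1, o.rfl, hab, hab.neg, hab.symm, hab.symm.neg])
  have e1 := hh a (by simp)
  have e2 := hh (a + b) (by simp)
  simp only [if_true, h1, if_false] at e1 e2
  refine ⟨h, e1, ?_⟩
  rw [smul_add, e1, add_comm a b] at e2
  exact add_left_cancel e2

/-- The reflection in the bisector. -/
theorem swap {a b : V} (hab : o H a b) : ∃ σ : H, σ • a = b ∧ σ • b = a ∧
    ∀ x, o H (x - a) (x - b) → σ • x = x := by
  classical
  by_cases e : a = b
  · subst e
    exact ⟨1, by simp, by simp, by simp⟩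
  have h0 : o H (0 - a) (0 - b) := by simpa using hab.neg
  have na : ∀ x, o H (x - a) (x - b) → x ≠ a := by
    rintro x hx rfl
    rw [sub_self] at hx
    exact e (sub_eq_zero.1 hx.eq_zero)
  have nb : ∀ x, o H (x - a) (x - b) → x ≠ b := by
    rintro x hx rfl
    rw [sub_self] at hx
    exact e (sub_eq_zero.1 hx.symm.eq_zero).symm
  have hs : o H (a - b) (b - a) := by
    obtain ⟨h, h1, h2⟩ := swap0 hb hab
    exact ⟨h, by rw [smul_sub, h1, h2]⟩
  let f : V → V := fun x => if x = a then b else if x = b then a else x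
  have fa : f a = b := by simp [f]
  have fb : f b = a := by simp [f, Ne.symm e]
  have fx : ∀ x, o H (x - a) (x - b) → f x = x := fun x hx => by simp [f, na x hx, nb x hx]
  obtain ⟨h, hh⟩ := hb.ext {x | x = a ∨ x = b ∨ o H (x - a) (x - b)} f (Or.inr (Or.inr h0))
    (fx 0 h0) (by
      rintro x (rfl | rfl | hx) y (rfl | rfl | hy)
      · simp [o.rfl]
      · rw [fa, fb]; exact hs
      · rw [fa, fx y hy]; simpa using hy.neg
      · rw [fa, fb]; exact hs.symm
      · simp [o.rfl]
      · rw [fb, fx y hy]; simpa using hy.symm.neg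
      · rw [fa, fx x hx]; exact hx
      · rw [fb, fx x hx]; exact hx.symm
      · rw [fx x hx, fx y hy]; exact o.rfl)
  exact ⟨h, by rw [hh a (Or.inl rfl), fa], by rw [hh b (Or.inr (Or.inl rfl)), fb],
    fun x hx => by rw [hh x (Or.inr (Or.inr hx)), fx x hx]⟩

theorem swap' (g : H) (a : V) : ∃ σ : H, σ • a = g • a ∧ σ • g • a = a ∧
    (∀ x, o H (x - a) (x - g • a) → σ • x = x) ∧ B V g ≤ B V σ := by
  obtain ⟨σ, h1, h2, h3⟩ := swap hb (o.smul g a)
  refine ⟨σ, h1, h2, h3, fun x hx => mem_B.2 (h3 x ⟨g, by rw [smul_sub, mem_B.1 hx]⟩)⟩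

omit hb in
/-- Reflections. -/
def R (V : Type*) [AddCommGroup V] [DistribMulAction H V] (t : H) : Prop :=
  t ≠ 1 ∧ ∀ a : V, t • a ≠ a → ∀ x, o H (x - a) (x - t • a) → t • x = x

theorem R.sq {t : H} (ht : R V t) : t * t = 1 := by
  refine hb.faith _ fun a => ?_
  rw [mul_smul]
  by_cases h : t • a = a
  · rw [h, h]
  have := ht.2 a h (a + t • a) (by simpa using (o.smul t a).symm)
  rw [smul_add, add_comm a] at this
  exact add_left_cancel this

omit hb in
theorem R.conj {t : H} (ht : R V t) (g : H) : R V (g * t * g⁻¹) := by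
  refine ⟨fun h => ht.1 (by simpa using h), fun a ha x hx => ?_⟩
  have h1 : t • g⁻¹ • a ≠ g⁻¹ • a := by
    intro h
    apply ha
    rw [mul_smul, mul_smul, h, smul_inv_smul]
  have := ht.2 _ h1 (g⁻¹ • x) (by
    have e1 : o H (g⁻¹ • x - g⁻¹ • a) (x - a) := ⟨g, by simp [smul_sub]⟩
    have e2 : o H (x - (g * t * g⁻¹) • a) (g⁻¹ • x - t • g⁻¹ • a) :=
      ⟨g⁻¹, by simp [smul_sub, mul_smul]⟩
    exact e1.trans (hx.trans e2))
  rw [mul_smul, mul_smul, this, smul_inv_smul]

theorem R.star {t : H} (ht : R V t) {a b : V} (hab : o H a b) (hn : a - b ∈ N V t) (h0 : a ≠ b) :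
    t • a = b := by
  obtain ⟨u, hu⟩ := mem_N.1 hn
  have h1 : t • u ≠ u := by
    intro h
    rw [h, sub_self] at hu
    exact h0 (sub_eq_zero.1 hu.symm)
  have e : u + b - t • u = a := by
    have : u + b - t • u = (u - t • u) + b := by abel
    rw [this, hu, sub_add_cancel]
  have := ht.2 u h1 (u + b) (by rw [e]; simpa using hab.symm)
  have h2 : t • b = a := by
    rw [smul_add] at this
    rw [← e, ← this]; abel
  rw [← h2, smul_smul_self (ht.sq hb)]

/-- Reflections whose commutator spaces meet agree on a coset. -/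
theorem R.meet {s t : H} (hs : R V s) (ht : R V t) {n : V} (h1 : n ∈ N V s) (h2 : n ∈ N V t)
    (h0 : n ≠ 0) : B V t ≤ B V s ∧ ∃ a : V, t • a ≠ a ∧ s • a = t • a := by
  obtain ⟨a, rfl⟩ := mem_N.1 h2
  have key : ∀ y ∈ B V t, s • (a + y) = t • (a + y) := by
    intro y hy
    have e : a + y - t • (a + y) = a - t • a := by rw [smul_add, mem_B.1 hy]; abel
    refine hs.star hb (o.smul t _) (e ▸ h1) fun h => h0 ?_
    rw [← e, ← h, sub_self]
  have k0 : s • a = t • a := by simpa using key 0 (zero_mem _)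
  refine ⟨fun y hy => mem_B.2 ?_, a, fun h => h0 (by rw [h, sub_self]), k0⟩
  have := key y hy
  rw [smul_add, smul_add, k0, mem_B.1 hy] at this
  exact add_left_cancel this

/-- Pointwise stabilisers are generated by reflections. -/
theorem gen [Finite V] (K : Subgroup H) (W : Set V) (hK : ∀ t, R V t → W ⊆ B V t → t ∈ K)
    (h : H) (hW : W ⊆ B V h) : h ∈ K := by
  induction e : B V h using WellFoundedGT.induction generalizing h with
  | ind X ih =>
    subst e
    by_cases h1 : h = 1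
    · exact h1 ▸ K.one_mem
    by_cases hr : R V h
    · exact hK h hr hW
    have : ∃ a : V, h • a ≠ a ∧ ∃ x, o H (x - a) (x - h • a) ∧ h • x ≠ x := by
      by_contra hc
      push Not at hc
      exact hr ⟨h1, hc⟩
    obtain ⟨a, ha, x, hx, hx'⟩ := this
    obtain ⟨σ, s1, s2, s3, s4⟩ := swap' hb h a
    have l1 : B V h < B V σ :=
      lt_of_le_of_ne s4 fun e => hx' (mem_B.1 (e ▸ mem_B.2 (s3 x hx)))
    have le2 : B V h ≤ B V (σ * h) := fun y hy =>
      mem_B.2 (by rw [mul_smul, mem_B.1 hy, mem_B.1 (s4 hy)])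
    have l2 : B V h < B V (σ * h) :=
      lt_of_le_of_ne le2 fun e => ha (mem_B.1 (e ▸ mem_B.2 (by rw [mul_smul, s2])))
    have m1 := ih _ l1 σ (hW.trans s4) rfl
    have m2 := ih _ l2 (σ * h) (hW.trans le2) rfl
    simpa using K.mul_mem (K.inv_mem m1) m2

end Cfsg.Agent.H6.Bin
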