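import Cfsg.Agent.H6.Bin1

/-! Binary affine actions: odd characteristic. -/

set_option autoImplicit false

namespace Cfsg.Agent.H6.Bin

variable {H V : Type*} [Group H] [AddCommGroup V] [DistribMulAction H V]

/-- The final configuration. -/
structure Fin2 (V : Type*) [AddCommGroup V] [DistribMulAction H V] (S : Set H) : Prop where
  sq : ∀ t ∈ S, t * t = 1
  ne : (1 : H) ∉ S
  conj : ∀ t ∈ S, ∀ g : H, g * t * g⁻¹ ∈ S
  mul : ∀ s ∈ S, ∀ t ∈ S, s * t ∉ S
  cov : ∃ t ∈ S, ∀ h : H, h ∈ S ∨ h * t ∈ S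
  fix : ∀ x : V, x ≠ 0 → ∃ t ∈ S, t • x = x

theorem card_dvd_of_orbits [Finite V] (k : ℕ)
    (hk : ∀ a : V, a ≠ 0 → Nat.card {b : V // o H a b} = k) : k ∣ Nat.card V - 1 := by
  classical
  letI := Fintype.ofFinite V
  let s : Setoid V := ⟨o H, ⟨fun _ => o.rfl, o.symm, o.trans⟩⟩
  let P : Finset V := Finset.univ.erase 0
  have hP : P.card = Nat.card V - 1 := by simp [P, Finset.card_erase_of_mem]
  rw [← hP, Finset.card_eq_sum_card_image (fun a => Quotient.mk s a) P]
  refine Finset.dvd_sum fun c hc => ?_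
  obtain ⟨a, ha, rfl⟩ := Finset.mem_image.1 hc
  have ha0 : a ≠ 0 := (Finset.mem_erase.1 ha).1
  rw [← hk a ha0, Nat.card_eq_fintype_card, Fintype.card_subtype]
  refine dvd_of_eq (congrArg _ ?_)
  ext b
  simp only [Finset.mem_filter, Finset.mem_univ, true_and, P, Finset.mem_erase, and_true]
  refine ⟨fun h => ⟨fun e => ha0 (by subst e; exact h.symm.eq_zero), Quotient.sound h.symm⟩,
    fun h => o.symm (Quotient.exact h.2)⟩

section odd

variable (hb : Hyp H V) (h2 : ∀ x : V, x + x = 0 → x = 0)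
include hb h2

theorem noTrans {h : H} {a c : V} (ha : h • a = a + c) (hc : h • c = c) : c = 0 := by
  obtain ⟨σ, s1, s2, -, s4⟩ := swap' hb h a
  rw [ha, smul_add, s1, ha, mem_B.1 (s4 (mem_B.2 hc)), add_assoc] at s2
  exact h2 c (by simpa using s2)

theorem NB_self {t : H} (ht : R V t) {n : V} (h1 : n ∈ N V t) (h3 : n ∈ B V t) : n = 0 := by
  have := smul_N (ht.sq hb) h1
  rw [mem_B.1 h3] at this
  exact h2 n (by nth_rewrite 1 [this]; simp)

theorem eq_of_B {s t : H} (hs : R V s) (ht : R V t) (e : B V s = B V t) : s = t := by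
  have : s * t = 1 := hb.faith _ fun a => by
    have m1 := add_mem_B (ht.sq hb) a
    have m2 := add_mem_B (hs.sq hb) a
    have m3 : t • a - s • a ∈ B V s := by
      have := sub_mem (e ▸ m1) m2
      simpa using this
    have e1 : (s * t) • a = a + (t • a - s • a) := by
      have := mem_B.1 (e ▸ m1 : a + t • a ∈ B V s)
      rw [smul_add] at this
      rw [mul_smul, ← add_sub_assoc, ← this]; abel
    have e2 : (s * t) • (t • a - s • a) = t • a - s • a := by
      rw [mul_smul, mem_B.1 (e ▸ m3 : _ ∈ B V t), mem_B.1 m3]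
    rw [e1, noTrans hb h2 e1 e2, add_zero]
  rw [eq_inv_of_mul_eq_one_left this, inv_eq_of_mul_eq_one_right (ht.sq hb)]

theorem eq_of_N {s t : H} (hs : R V s) (ht : R V t) {n : V} (h1 : n ∈ N V s) (h3 : n ∈ N V t)
    (h0 : n ≠ 0) : s = t :=
  eq_of_B hb h2 hs ht (le_antisymm (ht.meet hb hs h3 h1 h0).1 (hs.meet hb ht h1 h3 h0).1)

theorem comm_of_NB {s t : H} (hs : R V s) {n : V} (h1 : n ∈ N V s) (h3 : n ∈ B V t)
    (h0 : n ≠ 0) : s * t = t * s := by
  have := smul_mem_N (g := t) h1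
  rw [mem_B.1 h3] at this
  have e := eq_of_N hb h2 (hs.conj t) hs this h1 h0
  rw [mul_inv_eq_iff_eq_mul] at e
  exact e.symm

theorem N_le_B {s t : H} (hs : R V s) (ht : R V t) (hc : s * t = t * s) (hne : s ≠ t) {n : V}
    (h1 : n ∈ N V s) : n ∈ B V t := by
  by_contra h
  have m : n - t • n ∈ N V s := sub_mem h1 (smul_mem_N_of_comm hc.symm h1)
  exact hne (eq_of_N hb h2 hs ht m (sub_mem_N t n) fun e => h (mem_B.2 (sub_eq_zero.1 e).symm))

theorem sum_BB {s t : H} (hs : R V s) (ht : R V t) {n m : V} (hn : n ∈ N V s) (hm : m ∈ N V t)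
    (h1 : n + m ∈ B V s) (h3 : n + m ∈ B V t) : n + m = 0 := by
  have e1 : t • n = n + m + m := by
    have := mem_B.1 h3
    rw [smul_add, smul_N (ht.sq hb) hm] at this
    rw [← this]; abel
  have e2 : s • m = n + m + n := by
    have := mem_B.1 h1
    rw [smul_add, smul_N (hs.sq hb) hn] at this
    rw [← this]; abel
  have e3 : (s * t) • n = n + ((n + m) + (n + m)) := by
    rw [mul_smul, e1, smul_add, mem_B.1 h1, e2]; abel
  have e4 : (s * t) • ((n + m) + (n + m)) = (n + m) + (n + m) := by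
    rw [mul_smul, smul_add, smul_add, mem_B.1 h3, mem_B.1 h1]
  exact h2 _ (noTrans hb h2 e3 e4)

variable [Finite V]

theorem surj_D {s t : H} (hs : R V s) (ht : R V t) (hc : s * t ≠ t * s) {m : V} (hm : m ∈ N V t) :
    ∃ n ∈ N V s, n - t • n = m := by
  let f : N V s → N V t := fun n => ⟨D V t n, sub_mem_N t _⟩
  let g : N V t → N V s := fun n => ⟨D V s n, sub_mem_N s _⟩
  have hf : Function.Injective f := by
    intro a b e
    have e' : D V t a = D V t b := congrArg Subtype.val e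
    by_contra hne
    refine hc (comm_of_NB hb h2 hs (sub_mem a.2 b.2) ?_ fun h => hne (Subtype.ext (sub_eq_zero.1 h)))
    change D V t _ = 0
    rw [map_sub, e', sub_self]
  have hg : Function.Injective g := by
    intro a b e
    have e' : D V s a = D V s b := congrArg Subtype.val e
    by_contra hne
    refine hc (comm_of_NB hb h2 ht (sub_mem a.2 b.2) ?_
      fun h => hne (Subtype.ext (sub_eq_zero.1 h))).symm
    change D V s _ = 0
    rw [map_sub, e', sub_self]
  have := (Finite.injective_iff_surjective.1 (hf.comp hg)).of_comp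
  obtain ⟨n, hn⟩ := this ⟨m, hm⟩
  exact ⟨n, n.2, congrArg Subtype.val hn⟩

theorem card_N_le {s t : H} (hs : R V s) (hc : ∀ n ∈ N V s, n ∈ B V t → n = 0) :
    Nat.card (N V s) ≤ Nat.card (N V t) := by
  let f : N V s → N V t := fun n => ⟨D V t n, sub_mem_N t _⟩
  refine Nat.card_le_card_of_injective f fun a b e => ?_
  have e' : D V t a = D V t b := congrArg Subtype.val e
  refine Subtype.ext (sub_eq_zero.1 (hc _ (sub_mem a.2 b.2) ?_))
  change D V t _ = 0
  rw [map_sub, e', sub_self]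

theorem card_N_eq {s t : H} (hs : R V s) (ht : R V t) (hc : s * t ≠ t * s) :
    Nat.card (N V s) = Nat.card (N V t) :=
  le_antisymm (card_N_le hb h2 hs fun n h1 h3 => by
    by_contra h0
    exact hc (comm_of_NB hb h2 hs h1 h3 h0)) (card_N_le hb h2 ht fun n h1 h3 => by
    by_contra h0
    exact hc (comm_of_NB hb h2 ht h1 h3 h0).symm)

theorem decomp {s t : H} (hs : R V s) (ht : R V t) (hne : s ≠ t) (x : V) :
    ∃ a ∈ N V s, ∃ b ∈ N V t, x - (a + b) ∈ B V s ∧ x - (a + b) ∈ B V t := by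
  let f : N V s × N V t →+ N V s × N V t :=
    { toFun := fun p => (⟨D V s (p.1 + p.2), sub_mem_N s _⟩, ⟨D V t (p.1 + p.2), sub_mem_N t _⟩)
      map_zero' := by ext <;> simp
      map_add' := fun p q => by
        ext <;> simp only [Prod.fst_add, Prod.snd_add, AddSubgroup.coe_add, ← map_add] <;>
          congr 1 <;> abel }
  have hf : Function.Injective f := by
    rw [injective_iff_map_eq_zero]
    rintro ⟨a, b⟩ e
    have e1 : D V s (a + b) = 0 := congrArg (fun p => (p.1 : V)) e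
    have e2 : D V t (a + b) = 0 := congrArg (fun p => (p.2 : V)) e
    have e3 := sum_BB hb h2 hs ht a.2 b.2 e1 e2
    have ha : (a : V) = 0 := by
      by_contra h0
      refine hne (eq_of_N hb h2 hs ht a.2 ?_ h0)
      rw [eq_neg_of_add_eq_zero_left e3]
      exact neg_mem b.2
    have hb' : (b : V) = 0 := by simpa [ha] using e3
    ext <;> simp [ha, hb']
  obtain ⟨⟨a, b⟩, e⟩ := Finite.injective_iff_surjective.1 hf
    (⟨D V s x, sub_mem_N s _⟩, ⟨D V t x, sub_mem_N t _⟩)
  have e1 : D V s (a + b) = D V s x := congrArg (fun p => (p.1 : V)) e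
  have e2 : D V t (a + b) = D V t x := congrArg (fun p => (p.2 : V)) e
  refine ⟨a, a.2, b, b.2, ?_, ?_⟩
  · change D V s _ = 0
    rw [map_sub, e1, sub_self]
  · change D V t _ = 0
    rw [map_sub, e2, sub_self]

theorem no_order_p {p : ℕ} (hp : p.Prime) (hpV : ∀ x : V, p • x = 0) {h : H} (hh : h ^ p = 1) :
    h = 1 := by
  classical
  haveI := Fact.mk hp
  by_contra h1
  obtain ⟨n, hn, hn0⟩ := N_ne_bot hb h1
  letI := Fintype.ofFinite (N V h)
  have hinv : ∀ x : V, (MulAction.toPerm h : Equiv.Perm V) x ∈ N V h ↔ x ∈ N V h := by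
    intro x
    refine ⟨fun hx => ?_, fun hx => smul_mem_N_of_comm rfl hx⟩
    have := smul_mem_N_of_comm (g := h⁻¹) (by simp) hx
    simpa using this
  let σ : Equiv.Perm (N V h) := (MulAction.toPerm h : Equiv.Perm V).subtypePerm hinv
  have hσ : σ ^ p ^ 1 = 1 := by
    rw [pow_one]
    ext x
    simp only [σ, Equiv.Perm.subtypePerm_pow, Equiv.Perm.subtypePerm_apply, Equiv.Perm.coe_one, id]
    rw [← MulAction.toPermHom_apply, ← map_pow, hh, map_one, Equiv.Perm.one_apply]
  have hd : p ∣ Fintype.card (N V h) := by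
    have : addOrderOf (⟨n, hn⟩ : N V h) = p :=
      addOrderOf_eq_prime (Subtype.ext (hpV n)) fun e => hn0 (congrArg Subtype.val e)
    rw [← this]
    exact addOrderOf_dvd_card
  obtain ⟨c, hc, hc0⟩ := Equiv.Perm.exists_fixed_point_of_prime' hd hσ (a := 0)
    (Subtype.ext (smul_zero h))
  obtain ⟨a, ha⟩ := mem_N.1 c.2
  have e1 : h • (c : V) = c := congrArg Subtype.val hc
  have := noTrans hb h2 (h := h) (a := a) (c := -c) (by rw [← ha]; abel) (by rw [smul_neg, e1])
  exact hc0 (Subtype.ext (neg_eq_zero.1 this))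

variable [Finite H] {p : ℕ} (hp : p.Prime) (hpV : ∀ x : V, p • x = 0)
include hp hpV

theorem N_le_U {s t u : H} (hs : R V s) (ht : R V t) (hne : s ≠ t)
    (hu : ∀ c ∈ B V s, c ∈ B V t → c ∈ B V u) {n : V} (hn : n ∈ N V u) :
    ∃ a ∈ N V s, ∃ b ∈ N V t, n = a + b := by
  classical
  haveI := Fact.mk hp
  let K : Subgroup H :=
    { carrier := {h | ∀ c ∈ B V s, c ∈ B V t → h • c = c}
      mul_mem' := fun {x y} hx hy c h1 h3 => by rw [mul_smul, hy c h1 h3, hx c h1 h3]
      one_mem' := fun c _ _ => one_smul _ _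
      inv_mem' := fun {x} hx c h1 h3 => by rw [inv_smul_eq_iff, hx c h1 h3] }
  letI := Fintype.ofFinite K
  let T : V →+ V :=
    { toFun := fun x => ∑ k : K, (k : H) • x
      map_zero' := by simp
      map_add' := fun x y => by simp [Finset.sum_add_distrib] }
  have hT : ∀ g ∈ K, ∀ m ∈ N V g, T m = 0 := by
    intro g hg m hm
    obtain ⟨y, rfl⟩ := mem_N.1 hm
    rw [map_sub, sub_eq_zero]
    change ∑ k : K, (k : H) • y = ∑ k : K, (k : H) • g • y
    exact (Fintype.sum_equiv (Equiv.mulRight (⟨g, hg⟩ : K)) _ _ fun k => by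
      simp [mul_smul]).symm
  obtain ⟨a, ha, b, hb', h1, h3⟩ := decomp hb h2 hs ht hne n
  refine ⟨a, ha, b, hb', sub_eq_zero.1 ?_⟩
  have e1 : T (n - (a + b)) = 0 := by
    rw [map_sub, map_add, hT u (fun c x y => mem_B.1 (hu c x y)) n hn,
      hT s (fun c x _ => mem_B.1 x) a ha, hT t (fun c _ y => mem_B.1 y) b hb']
    simp
  have e2 : T (n - (a + b)) = Fintype.card K • (n - (a + b)) := by
    change ∑ k : K, (k : H) • (n - (a + b)) = _
    rw [Finset.sum_congr rfl fun k _ => k.2 _ h1 h3, Finset.sum_const, Finset.card_univ]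
  by_contra h0
  have ho : addOrderOf (n - (a + b)) = p := addOrderOf_eq_prime (hpV _) h0
  have hd : p ∣ Fintype.card K := by
    rw [← ho, addOrderOf_dvd_iff_nsmul_eq_zero, ← e2, e1]
  obtain ⟨k, hk⟩ := exists_prime_orderOf_dvd_card p hd
  have : (k : H) = 1 := no_order_p hb h2 hp hpV (by
    rw [← Subgroup.coe_pow, ← hk, pow_orderOf_eq_one, Subgroup.coe_one])
  rw [show k = 1 from Subtype.ext this, orderOf_one] at hk
  exact hp.one_lt.ne hk

omit hp hpV [Finite H] in
theorem cover_B {s t : H} (hs : R V s) (ht : R V t) (hc : s * t ≠ t * s) (x : V) :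
    ∃ u : H, R V u ∧ (∀ c ∈ B V s, c ∈ B V t → c ∈ B V u) ∧ x ∈ B V u := by
  by_contra hx
  push Not at hx
  have key : ∀ h : H, (∀ c ∈ B V s, c ∈ B V t → c ∈ B V h) → h • x = x → h = 1 := by
    intro h h1 h3
    refine Subgroup.mem_bot.1 (gen hb ⊥ {y | (y ∈ B V s ∧ y ∈ B V t) ∨ y = x} ?_ h ?_)
    · intro u hu hW
      exact absurd (hW (Or.inr rfl)) (hx u hu fun c c1 c2 => hW (Or.inl ⟨c1, c2⟩))
    · rintro y (hy | rfl)
      · exact h1 y hy.1 hy.2
      · exact mem_B.2 h3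
  obtain ⟨σ, s1, s2, -, s4⟩ := swap' hb (s * t) x
  have m : ∀ c ∈ B V s, c ∈ B V t → c ∈ B V (s * t) := fun c c1 c2 =>
    mem_B.2 (by rw [mul_smul, mem_B.1 c2, mem_B.1 c1])
  have e1 := key (σ * (s * t)) (fun c c1 c2 => mem_B.2 (by
    rw [mul_smul, mem_B.1 (m c c1 c2), mem_B.1 (s4 (m c c1 c2))])) (by rw [mul_smul, s2])
  have e2 := key (σ⁻¹ * (s * t)) (fun c c1 c2 => mem_B.2 (by
    rw [mul_smul, mem_B.1 (m c c1 c2), inv_smul_eq_iff, mem_B.1 (s4 (m c c1 c2))]))
    (by rw [mul_smul, inv_smul_eq_iff, s1])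
  rw [inv_mul_eq_one] at e2
  rw [e2] at e1
  apply hc
  rw [eq_inv_of_mul_eq_one_left e1, mul_inv_rev, inv_eq_of_mul_eq_one_right (hs.sq hb),
    inv_eq_of_mul_eq_one_right (ht.sq hb)]

omit hb h2 hp hpV [Finite H] in
open Classical in
theorem card_nz [Fintype V] (W : AddSubgroup V) :
    (Finset.univ.filter fun x => x ≠ 0 ∧ x ∈ W).card + 1 = Nat.card W := by
  rw [Nat.card_eq_fintype_card, Fintype.card_subtype, ← Finset.card_insert_of_notMem (a := 0)
    (by simp)]
  congr 1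
  ext x
  by_cases h : x = 0 <;> simp [h]

omit hp hpV [Finite H] in
theorem card_BU {s t u : H} (hs : R V s) (ht : R V t) (hc : s * t ≠ t * s)
    (h0 : ∀ n ∈ N V s, n ∈ B V u → n = 0) :
    Nat.card (B V u ⊓ (N V s ⊔ N V t) : AddSubgroup V) ≤ Nat.card (N V u) := by
  refine le_trans ?_ ((card_N_eq hb h2 hs ht hc).symm.le.trans (card_N_le hb h2 hs h0))
  have : ∀ y : (B V u ⊓ (N V s ⊔ N V t) : AddSubgroup V), ∃ b : N V t, (y : V) - b ∈ N V s := by
    intro y
    obtain ⟨a, ha, b, hb', e⟩ := AddSubgroup.mem_sup.1 y.2.2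
    exact ⟨⟨b, hb'⟩, by rw [← e]; simpa using ha⟩
  choose f hf using this
  refine Nat.card_le_card_of_injective f fun y z e => Subtype.ext (sub_eq_zero.1 ?_)
  refine h0 _ ?_ (sub_mem y.2.1 z.2.1)
  have := sub_mem (hf y) (hf z)
  rw [e] at this
  simpa using this

theorem cover_N {s t : H} (hs : R V s) (ht : R V t) (hc : s * t ≠ t * s) {a b : V}
    (ha : a ∈ N V s) (hb' : b ∈ N V t) : ∃ u : H, R V u ∧ a + b ∈ N V u := by
  classical
  by_cases hab : a + b = 0
  · exact ⟨s, hs, hab ▸ zero_mem _⟩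
  letI := Fintype.ofFinite V
  letI := Fintype.ofFinite H
  have hne : s ≠ t := fun e => hc (by rw [e])
  let U := N V s ⊔ N V t
  let R0 : Finset H := Finset.univ.filter fun u => R V u ∧ ∀ c ∈ B V s, c ∈ B V t → c ∈ B V u
  let nz : AddSubgroup V → Finset V := fun W => Finset.univ.filter fun x => x ≠ 0 ∧ x ∈ W
  have h1 : nz U ⊆ R0.biUnion fun u => nz (B V u ⊓ U) := by
    intro x hx
    simp only [nz, R0, Finset.mem_filter, Finset.mem_univ, true_and, Finset.mem_biUnion] at hx ⊢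
    obtain ⟨u, u1, u2, u3⟩ := cover_B hb h2 hs ht hc x
    exact ⟨u, ⟨u1, u2⟩, hx.1, u3, hx.2⟩
  have h3 : ∀ u ∈ R0, (nz (B V u ⊓ U)).card ≤ (nz (N V u)).card := by
    intro u hu
    simp only [R0, Finset.mem_filter, Finset.mem_univ, true_and] at hu
    have e1 := card_nz (B V u ⊓ U)
    have e2 := card_nz (N V u)
    suffices Nat.card (B V u ⊓ U : AddSubgroup V) ≤ Nat.card (N V u) by
      simp only [nz]; omega
    by_cases k1 : ∀ n ∈ N V s, n ∈ B V u → n = 0
    · exact card_BU hb h2 hs ht hc k1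
    by_cases k2 : ∀ n ∈ N V t, n ∈ B V u → n = 0
    · have := card_BU hb h2 ht hs (Ne.symm hc) k2
      rwa [sup_comm] at this
    exfalso
    push Not at k1 k2
    obtain ⟨n, n1, n2, n3⟩ := k1
    obtain ⟨m, m1, m2, m3⟩ := k2
    have c1 := comm_of_NB hb h2 hs n1 n2 n3
    have c2 := comm_of_NB hb h2 ht m1 m2 m3
    have d1 : u ≠ s := fun e => n3 (NB_self hb h2 hs n1 (e ▸ n2))
    have d2 : u ≠ t := fun e => m3 (NB_self hb h2 ht m1 (e ▸ m2))
    obtain ⟨y, y1, y2⟩ := N_ne_bot hb hu.1.1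
    have b1 := N_le_B hb h2 hu.1 hs c1.symm d1 y1
    have b2 := N_le_B hb h2 hu.1 ht c2.symm d2 y1
    exact y2 (NB_self hb h2 hu.1 y1 (hu.2 y b1 b2))
  have h4 : (R0.biUnion fun u => nz (N V u)) ⊆ nz U := by
    intro x hx
    simp only [nz, R0, Finset.mem_filter, Finset.mem_univ, true_and, Finset.mem_biUnion] at hx ⊢
    obtain ⟨u, hu, x0, xu⟩ := hx
    obtain ⟨a, ha, b, hb', rfl⟩ := N_le_U hb h2 hp hpV hs ht hne hu.2 xu
    exact ⟨x0, AddSubgroup.add_mem_sup ha hb'⟩
  have h5 : (R0.biUnion fun u => nz (N V u)).card = ∑ u ∈ R0, (nz (N V u)).card := by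
    refine Finset.card_biUnion fun u hu v hv huv => ?_
    simp only [R0, Finset.coe_filter, Finset.mem_univ, true_and, Set.mem_ofPred_eq] at hu hv
    rw [Function.onFun, Finset.disjoint_left]
    intro x x1 x2
    simp only [nz, Finset.mem_filter, Finset.mem_univ, true_and] at x1 x2
    exact huv (eq_of_N hb h2 hu.1 hv.1 x1.2 x2.2 x1.1)
  have h6 := Finset.eq_of_subset_of_card_le h4 (by
    rw [h5]
    exact (Finset.card_le_card h1).trans (Finset.card_biUnion_le.trans (Finset.sum_le_sum h3)))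
  have : a + b ∈ nz U := by
    simp only [nz, Finset.mem_filter, Finset.mem_univ, true_and]
    exact ⟨hab, AddSubgroup.add_mem_sup ha hb'⟩
  rw [← h6] at this
  simp only [nz, R0, Finset.mem_filter, Finset.mem_univ, true_and, Finset.mem_biUnion] at this
  obtain ⟨u, hu, -, h⟩ := this
  exact ⟨u, hu.1, h⟩

omit hb h2 hp hpV [Finite H] [Finite V] in
/-- Distance at most two in the non-commuting graph. -/
def Near (V : Type*) [AddCommGroup V] [DistribMulAction H V] (s t : H) : Prop :=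
  s = t ∨ s * t ≠ t * s ∨ ∃ w : H, R V w ∧ w * s ≠ s * w ∧ w * t ≠ t * w

omit hb h2 hp hpV [Finite H] [Finite V] in
theorem Near.symm {s t : H} (h : Near V s t) : Near V t s := by
  rcases h with h | h | ⟨w, h1, h3, h4⟩
  · exact Or.inl h.symm
  · exact Or.inr (Or.inl h.symm)
  · exact Or.inr (Or.inr ⟨w, h1, h4, h3⟩)

theorem cover_near {t t' : H} (ht : R V t) (ht' : R V t') (hc : Near V t t') {n n' : V}
    (hn : n ∈ N V t) (hn' : n' ∈ N V t') : ∃ u : H, R V u ∧ n + n' ∈ N V u := by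
  by_cases e : t = t'
  · exact ⟨t, ht, add_mem hn (e ▸ hn')⟩
  by_cases c : t * t' = t' * t
  swap
  · exact cover_N hb h2 hp hpV ht ht' c hn hn'
  obtain ⟨s, hs, c1, c2⟩ := (hc.resolve_left e).resolve_left (not_not.2 c)
  by_cases n0 : n = 0
  · exact ⟨t', ht', by simpa [n0] using hn'⟩
  -- decompose `n = n1 + n2`
  obtain ⟨y, hy⟩ : ∃ y : V, y + y = n :=
    (Finite.injective_iff_surjective (f := fun y : V => y + y)).1 (fun a b e =>
      sub_eq_zero.1 (h2 _ (by
        have e' : a + a = b + b := e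
        calc a - b + (a - b) = (a + a) - (b + b) := by abel
          _ = 0 := by rw [e', sub_self]))) n
  have m1 := add_mem_B (hs.sq hb) y
  have m2 := sub_mem_N s y
  have en : n = (y + s • y) + (y - s • y) := by rw [← hy]; abel
  obtain ⟨u, hu, mu⟩ := cover_N hb h2 hp hpV ht hs (Ne.symm c1) hn (neg_mem m2)
  have e1 : n + -(y - s • y) = y + s • y := by rw [← hy]; abel
  rw [e1] at mu
  have z1 : y + s • y ≠ 0 := fun h => by
    rw [h, zero_add] at en
    exact c1 (by rw [eq_of_N hb h2 hs ht (en ▸ m2) hn n0])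
  have z2 : y - s • y ≠ 0 := fun h => by
    rw [h, add_zero] at en
    exact c1 (comm_of_NB hb h2 ht hn (en ▸ m1) n0).symm
  have cu := comm_of_NB hb h2 hu mu m1 z1
  have nu : s ≠ u := fun h => z1 (NB_self hb h2 hs (h ▸ mu) m1)
  obtain ⟨w, hw, mw⟩ := cover_N hb h2 hp hpV hs ht' c2 m2 hn'
  have e2 : n + n' = (y + s • y) + (y - s • y + n') := by rw [← add_assoc, ← en]
  rw [e2]
  by_cases uw : u = w
  · exact ⟨u, hu, add_mem mu (uw ▸ mw)⟩
  by_cases cw : u * w = w * u
  swap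
  · exact cover_N hb h2 hp hpV hu hw cw mu mw
  by_cases n'0 : n' = 0
  · rw [← e2]
    exact ⟨t, ht, by simpa [n'0] using hn⟩
  exfalso
  have b1 := N_le_B hb h2 hw hu cw.symm (Ne.symm uw) mw
  have b2 := N_le_B hb h2 hs hu cu.symm nu m2
  have b3 : n' ∈ B V u := by simpa using sub_mem b1 b2
  have c3 := comm_of_NB hb h2 ht' hn' b3 n'0
  have d3 : u ≠ t' := fun h => n'0 (NB_self hb h2 ht' hn' (h ▸ b3))
  have b4 := N_le_B hb h2 hu ht' c3.symm d3 mu
  have b5 := N_le_B hb h2 ht ht' c e hn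
  have b6 : y - s • y ∈ B V t' := by
    have := sub_mem b5 b4
    rw [en] at this
    simpa using this
  exact c2 (comm_of_NB hb h2 hs m2 b6 z2)

theorem Near.step {t0 t w : H} (h0 : R V t0) (ht : R V t) (hw : R V w) (h : Near V t0 t)
    (hc : t * w ≠ w * t) : Near V t0 w := by
  by_contra hn
  simp only [Near, not_or, not_not, not_exists, not_and] at hn
  obtain ⟨e1, c1, hn⟩ := hn
  rcases h with rfl | h | ⟨s, hs, c2, c3⟩
  · exact hc c1
  · exact hc (hn t ht h.symm)
  have c4 := hn s hs c2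
  have c5 : t * t0 = t0 * t := by
    by_contra h
    exact hc (hn t ht h)
  have d1 : t ≠ t0 := fun e => hc (e ▸ c1)
  have d2 : s ≠ w := fun e => c2 (e ▸ c1.symm)
  obtain ⟨n, n1, n0⟩ := N_ne_bot hb hs.1
  obtain ⟨m, m1, m0⟩ := N_ne_bot hb ht.1
  obtain ⟨u, hu, mu⟩ := cover_N hb h2 hp hpV hs ht c3 n1 m1
  have k1 : n + m ∉ B V t0 := fun h => c2 (comm_of_NB hb h2 hs n1
    (by simpa using sub_mem h (N_le_B hb h2 ht h0 c5 d1 m1)) n0)
  have k2 : n + m ∉ B V w := fun h => hc (comm_of_NB hb h2 ht m1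
    (by simpa using sub_mem h (N_le_B hb h2 hs hw c4 d2 n1)) m0)
  have l1 : u * t0 ≠ t0 * u := fun c => by
    by_cases e : u = t0
    · exact k2 (N_le_B hb h2 h0 hw c1 e1 (e ▸ mu))
    · exact k1 (N_le_B hb h2 hu h0 c e mu)
  have c6 := hn u hu l1
  by_cases e : u = w
  · exact k1 (N_le_B hb h2 hw h0 c1.symm (Ne.symm e1) (e ▸ mu))
  · exact k2 (N_le_B hb h2 hu hw c6 e mu)

theorem Near.trans {t0 t w : H} (h0 : R V t0) (ht : R V t) (hw : R V w) (h : Near V t0 t)
    (h' : Near V t w) : Near V t0 w := by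
  rcases h' with rfl | h' | ⟨s, hs, c1, c2⟩
  · exact h
  · exact h.step hb h2 hp hpV h0 ht hw h'
  · exact (h.step hb h2 hp hpV h0 ht hs c1.symm).step hb h2 hp hpV h0 hs hw c2

theorem cover_all {t0 : H} (h0 : R V t0) (x : V) : ∃ u, R V u ∧ Near V t0 u ∧ x ∈ N V u := by
  let W : AddSubgroup V :=
    { carrier := {x | ∃ u, R V u ∧ Near V t0 u ∧ x ∈ N V u}
      zero_mem' := ⟨t0, h0, Or.inl rfl, zero_mem _⟩
      neg_mem' := fun ⟨u, a, b, c⟩ => ⟨u, a, b, neg_mem c⟩
      add_mem' := by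
        rintro n n' ⟨u, hu, a1, a2⟩ ⟨u', hu', b1, b2⟩
        obtain ⟨w, hw, mw⟩ := cover_near hb h2 hp hpV hu hu'
          (a1.symm.trans hb h2 hp hpV hu h0 hu' b1) a2 b2
        by_cases k : Near V t0 w
        · exact ⟨w, hw, k, mw⟩
        have f : ∀ v, R V v → Near V t0 v → ∀ m ∈ N V v, m ∈ B V w := by
          intro v hv hv' m hm
          refine N_le_B hb h2 hv hw ?_ (fun e => k (e ▸ hv')) hm
          by_contra c
          exact k (hv'.step hb h2 hp hpV h0 hv hw c)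
        rw [NB_self hb h2 hw mw (add_mem (f u hu a1 n a2) (f u' hu' b1 n' b2))]
        exact ⟨t0, h0, Or.inl rfl, zero_mem _⟩ }
  let K : Subgroup H :=
    { carrier := {h | ∀ x, x ∈ W ↔ h • x ∈ W}
      one_mem' := fun x => by simp
      mul_mem' := fun {a b} ha hb x => by rw [mul_smul, ← ha, ← hb]
      inv_mem' := fun {a} ha x => by rw [ha (a⁻¹ • x), smul_inv_smul] }
  have hR : ∀ r : H, R V r → ∀ x ∈ W, r • x ∈ W := by
    rintro r hr x ⟨u, hu, a1, a2⟩
    refine ⟨_, hu.conj r, ?_, smul_mem_N a2⟩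
    by_cases c : u * r = r * u
    · rwa [← c, mul_inv_cancel_right]
    refine (a1.step hb h2 hp hpV h0 hu hr c).step hb h2 hp hpV h0 hr (hu.conj r) fun e => c ?_
    rw [inv_mul_cancel_right, ← mul_assoc, ← mul_assoc, hr.sq hb, one_mul,
      mul_inv_eq_iff_eq_mul, mul_assoc] at e
    have : r * u = r * (r * (u * r)) := by rw [← e]
    rw [this, ← mul_assoc, hr.sq hb, one_mul]
  have hK : ∀ h : H, h ∈ K := fun h => gen hb K ∅ (fun r hr _ x => ⟨hR r hr x, fun hx => by
    have := hR r hr _ hx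
    rwa [smul_smul_self (hr.sq hb)] at this⟩) h (Set.empty_subset _)
  rcases hb.irr W (fun h x hx => (hK h x).1 hx) with e | e
  · obtain ⟨n, n1, n0⟩ := N_ne_bot hb h0.1
    have : n ∈ W := ⟨t0, h0, Or.inl rfl, n1⟩
    rw [e] at this
    exact absurd this n0
  · have : x ∈ W := e ▸ AddSubgroup.mem_top x
    exact this

theorem near_all {s t : H} (hs : R V s) (ht : R V t) : Near V s t := by
  obtain ⟨n, n1, n0⟩ := N_ne_bot hb ht.1
  obtain ⟨u, hu, a, b⟩ := cover_all hb h2 hp hpV hs n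
  rwa [← eq_of_N hb h2 hu ht b n1 n0]

theorem card_N_all {s t : H} (hs : R V s) (ht : R V t) : Nat.card (N V s) = Nat.card (N V t) := by
  rcases near_all hb h2 hp hpV hs ht with rfl | h | ⟨w, hw, c1, c2⟩
  · rfl
  · exact card_N_eq hb h2 hs ht h
  · rw [← card_N_eq hb h2 hw hs c1, card_N_eq hb h2 hw ht c2]

theorem card_orbit {t : H} (ht : R V t) {a : V} (ha : a ∈ N V t) (a0 : a ≠ 0) :
    Nat.card {b : V // o H a b} = Nat.card (B V t) + 1 := by
  choose u hu using cover_all hb h2 hp hpV ht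
  have aB : a ∉ B V t := fun h => a0 (NB_self hb h2 ht ha h)
  have k1 : ∀ y ∈ B V t, u (a + y) • a ≠ a := by
    intro y hy e
    have c := comm_of_NB hb h2 ht ha (mem_B.2 e) a0
    have d : u (a + y) ≠ t := fun h => aB (mem_B.2 (h ▸ e))
    exact aB (by simpa using sub_mem (N_le_B hb h2 (hu _).1 ht c.symm d (hu _).2.2) hy)
  let f : Option (B V t) → {b : V // o H a b} := fun y =>
    y.elim ⟨a, o.rfl⟩ fun y => ⟨u (a + y) • a, o.smul _ _⟩
  rw [← Finite.card_option]
  refine (Nat.card_eq_of_bijective f ⟨?_, ?_⟩).symm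
  · rintro (_ | y) (_ | z) e
    · rfl
    · exact absurd (congrArg Subtype.val e).symm (k1 z z.2)
    · exact absurd (congrArg Subtype.val e) (k1 y y.2)
    have e' : u (a + y) • a = u (a + z) • a := congrArg Subtype.val e
    have e1 : u (a + y) = u (a + z) := eq_of_N hb h2 (hu _).1 (hu _).1 (sub_mem_N _ a)
      (e' ▸ sub_mem_N _ a) fun h => k1 y y.2 (sub_eq_zero.1 h).symm
    congr 1
    refine Subtype.ext (sub_eq_zero.1 ?_)
    by_contra h0
    have m : (y : V) - z ∈ N V (u (a + y)) := by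
      have := sub_mem (hu (a + y)).2.2 (show a + z ∈ _ from e1 ▸ (hu (a + z)).2.2)
      rwa [add_sub_add_left_eq_sub] at this
    have c := comm_of_NB hb h2 (hu _).1 m (sub_mem y.2 z.2) h0
    by_cases d : t = u (a + y)
    · rw [← d] at m
      exact h0 (NB_self hb h2 ht m (sub_mem y.2 z.2))
    · exact k1 y y.2 (mem_B.1 (N_le_B hb h2 ht (hu _).1 c.symm d ha))
  · rintro ⟨b, hab⟩
    by_cases e : a = b
    · exact ⟨none, Subtype.ext e⟩
    have e1 := (hu (a - b)).1.star hb hab (hu _).2.2 e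
    obtain ⟨y, hy, hy'⟩ : ∃ y ∈ B V t, a + y ∈ N V (u (a - b)) := by
      by_cases d : t = u (a - b)
      · exact ⟨0, zero_mem _, by simpa [← d] using ha⟩
      have c : u (a - b) * t ≠ t * u (a - b) := fun c =>
        e (e1 ▸ (mem_B.1 (N_le_B hb h2 ht (hu _).1 c.symm d ha)).symm)
      obtain ⟨x, x1, x2⟩ := surj_D hb h2 (hu (a - b)).1 ht c (sub_mem_N t a)
      refine ⟨x - a, ?_, by simpa using x1⟩
      change D V t _ = 0
      rw [map_sub, D_apply, D_apply, x2, sub_self]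
    refine ⟨some ⟨y, hy⟩, Subtype.ext ?_⟩
    change u (a + y) • a = b
    rw [eq_of_N hb h2 (hu (a + y)).1 (hu (a - b)).1 (hu _).2.2 hy' fun h => aB (by
      rw [eq_neg_of_add_eq_zero_left h]; exact neg_mem hy), e1]

omit hp hpV [Finite H] in
theorem inj_add {s t : H} (hs : R V s) (ht : R V t) (hne : s ≠ t) :
    Function.Injective fun p : N V s × N V t => (p.1 : V) + p.2 := by
  rintro ⟨a, b⟩ ⟨c, d⟩ e
  have e' : (a : V) + b = c + d := e
  have e1 : (a : V) - c = d - b := by rw [sub_eq_sub_iff_add_eq_add, e', add_comm]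
  have : (a : V) - c = 0 := by
    by_contra h0
    exact hne (eq_of_N hb h2 hs ht (sub_mem a.2 c.2) (e1 ▸ sub_mem d.2 b.2) h0)
  rw [this] at e1
  exact Prod.ext (Subtype.ext (sub_eq_zero.1 this)) (Subtype.ext (sub_eq_zero.1 e1.symm).symm)

theorem card_sq {s t : H} (hs : R V s) (ht : R V t) (hne : s ≠ t) :
    Nat.card (B V t) = Nat.card (N V t) := by
  have hB : ∀ u : H, R V u → Nat.card (B V u) = Nat.card (B V t) := by
    intro u hu
    have e1 := card_BN (V := V) u
    rw [← card_BN (V := V) t, card_N_all hb h2 hp hpV hu ht] at e1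
    exact Nat.eq_of_mul_eq_mul_right Nat.card_pos e1
  have hd := card_dvd_of_orbits (H := H) (V := V) (Nat.card (B V t) + 1) fun a a0 => by
    obtain ⟨u, hu, -, m⟩ := cover_all hb h2 hp hpV ht a
    rw [card_orbit hb h2 hp hpV hu m a0, hB u hu]
  have h1 := Nat.card_le_card_of_injective _ (inj_add hb h2 hs ht hne)
  rw [Nat.card_prod, card_N_all hb h2 hp hpV hs ht, ← card_BN (V := V) t] at h1
  rw [← card_BN (V := V) t] at hd
  have q0 : 0 < Nat.card (N V t) := Nat.card_pos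
  have b0 : 0 < Nat.card (B V t) := Nat.card_pos
  generalize Nat.card (N V t) = q at *
  generalize Nat.card (B V t) = b at *
  have h3 : q ≤ b := Nat.le_of_mul_le_mul_right h1 q0
  have h4 : b + 1 ∣ q + 1 := by
    have : (b + 1) * q = (b * q - 1) + (q + 1) := by
      have := Nat.mul_pos b0 q0
      rw [add_mul]; omega
    exact (Nat.dvd_add_right hd).1 (this ▸ Dvd.intro _ rfl)
  have := Nat.le_of_dvd (by omega) h4
  omega

theorem BB_zero {s t : H} (hs : R V s) (ht : R V t) (hne : s ≠ t) {x : V} (h1 : x ∈ B V s)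
    (h3 : x ∈ B V t) : x = 0 := by
  have := (inj_add hb h2 hs ht hne).bijective_of_nat_card_le (by
    rw [Nat.card_prod, card_N_all hb h2 hp hpV hs ht, ← card_BN (V := V) t,
      card_sq hb h2 hp hpV hs ht hne])
  obtain ⟨⟨a, b⟩, rfl⟩ := this.2 x
  exact sum_BB hb h2 hs ht a.2 b.2 h1 h3

theorem odd_final {s t : H} (hs : R V s) (ht : R V t) (hne : s ≠ t) :
    Fin2 V {r : H | R V r} := by
  obtain ⟨s', t', hs', ht', c⟩ : ∃ s' t' : H, R V s' ∧ R V t' ∧ s' * t' ≠ t' * s' := by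
    rcases near_all hb h2 hp hpV hs ht with e | h | ⟨w, hw, c1, c2⟩
    · exact absurd e hne
    · exact ⟨s, t, hs, ht, h⟩
    · exact ⟨w, s, hw, hs, c1⟩
  have fx : ∀ x : V, ∃ u : H, R V u ∧ u • x = x := fun x => by
    obtain ⟨u, hu, -, h⟩ := cover_B hb h2 hs' ht' c x
    exact ⟨u, hu, mem_B.1 h⟩
  refine ⟨fun r hr => R.sq hb hr, fun h => h.1 rfl, fun r hr g => R.conj hr g, ?_, ?_,
    fun x _ => fx x⟩
  · intro a ha b hb' hab
    have hab' : R V (a * b) := hab
    have d : a ≠ b := fun e => hab'.1 (e ▸ R.sq hb ha)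
    obtain ⟨w, hw, dw⟩ : ∃ w, R V w ∧ w ≠ a * b := by
      by_cases e : s = a * b
      · exact ⟨t, ht, fun e' => hne (e.trans e'.symm)⟩
      · exact ⟨s, hs, e⟩
    have e := card_sq hb h2 hp hpV hw hab' dw
    obtain ⟨n, n1, n0⟩ := N_ne_bot hb hab'.1
    haveI : Nontrivial (N V (a * b)) := ⟨⟨n, n1⟩, 0, fun h => n0 (congrArg Subtype.val h)⟩
    haveI : Nontrivial (B V (a * b)) := Finite.one_lt_card_iff_nontrivial.1
      (e ▸ Finite.one_lt_card)
    obtain ⟨x, x0⟩ := exists_ne (0 : B V (a * b))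
    have e1 : a • (x : V) = b • (x : V) := by
      have := mem_B.1 x.2
      nth_rewrite 1 [← this]
      rw [mul_smul, smul_smul_self (R.sq hb ha)]
    have e2 : (x : V) - a • (x : V) = 0 := by
      by_contra h0
      exact d (eq_of_N hb h2 ha hb' (sub_mem_N a _) (e1 ▸ sub_mem_N b _) h0)
    have e3 : a • (x : V) = x := (sub_eq_zero.1 e2).symm
    exact x0 (Subtype.ext (BB_zero hb h2 hp hpV ha hb' d (mem_B.2 e3) (mem_B.2 (e1 ▸ e3))))
  · obtain ⟨a, -, a0⟩ := N_ne_bot hb hs.1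
    obtain ⟨t0, h0, e0⟩ := fx a
    have st : ∀ h : H, h • a = a → h = 1 ∨ h = t0 := by
      intro h hh
      let K : Subgroup H :=
        { carrier := {h | h = 1 ∨ h = t0}
          one_mem' := Or.inl rfl
          mul_mem' := by
            rintro a b (rfl | rfl) (rfl | rfl) <;> simp [R.sq hb h0]
          inv_mem' := by
            rintro a (rfl | rfl) <;> simp [inv_eq_of_mul_eq_one_right (R.sq hb h0)] }
      refine gen hb K {a} (fun r hr hW => Or.inr ?_) h (by simpa using mem_B.2 hh)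
      by_contra d
      exact a0 (BB_zero hb h2 hp hpV hr h0 d (by simpa using hW) (mem_B.2 e0))
    refine ⟨t0, h0, fun h => ?_⟩
    by_cases e : a = h • a
    · rcases st h e.symm with rfl | rfl
      · right; simpa using h0
      · exact Or.inl h0
    obtain ⟨u, hu, -, m⟩ := cover_all hb h2 hp hpV hs (a - h • a)
    have e1 := hu.star hb (o.smul h a) m e
    rcases st (u * h) (by rw [mul_smul, ← e1, smul_smul_self (hu.sq hb)]) with e2 | e2
    · left
      rw [eq_inv_of_mul_eq_one_right e2, inv_eq_of_mul_eq_one_right (hu.sq hb)]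
      exact hu
    · right
      have : h * t0 = u := by
        rw [← inv_mul_cancel_left u h, e2, inv_eq_of_mul_eq_one_right (hu.sq hb), mul_assoc,
          R.sq hb h0, mul_one]
      rw [this]
      exact hu

end odd

end Cfsg.Agent.H6.Bin
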