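import Cfsg.Agent.H6.Bin2
import Cfsg.Agent.H5.Invol

/-! Binary affine actions: characteristic two. -/

set_option autoImplicit false

namespace Cfsg.Agent.H6.Bin

variable {H V : Type*} [Group H] [AddCommGroup V] [DistribMulAction H V]

/-- Elements with maximal fixed space. -/
def R2 (V : Type*) [AddCommGroup V] [DistribMulAction H V] (t : H) : Prop :=
  t ≠ 1 ∧ ∀ h : H, B V t < B V h → h = 1

theorem R2.conj {t : H} (ht : R2 V t) (g : H) : R2 V (g * t * g⁻¹) := by
  refine ⟨fun h => ht.1 (by simpa using h), fun h hh => ?_⟩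
  have := ht.2 (g⁻¹ * h * g⁻¹⁻¹) (by
    refine lt_of_le_of_ne (fun x hx => ?_) fun e => hh.not_ge fun x hx => ?_
    · simpa using smul_mem_B (g := g⁻¹) (hh.le (smul_mem_B (g := g) hx))
    · have := smul_mem_B (g := g⁻¹) hx
      rw [← e] at this
      simpa using smul_mem_B (g := g) this)
  rw [mul_inv_eq_one, inv_mul_eq_iff_eq_mul, mul_inv_cancel] at this
  exact this

theorem exists_R2 [Finite V] {h : H} (h1 : h ≠ 1) : ∃ t : H, R2 V t ∧ B V h ≤ B V t := by
  induction e : B V h using WellFoundedGT.induction generalizing h with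
  | ind X ih =>
    subst e
    by_cases hr : R2 V h
    · exact ⟨h, hr, le_rfl⟩
    have : ∃ g : H, B V h < B V g ∧ g ≠ 1 := by
      by_contra hc
      push Not at hc
      exact hr ⟨h1, hc⟩
    obtain ⟨g, l, g1⟩ := this
    obtain ⟨t, ht, l'⟩ := ih _ l g1 rfl
    exact ⟨t, ht, l.le.trans l'⟩

theorem R2.eq_one {t : H} (ht : R2 V t) {h : H} (l : B V t ≤ B V h) {a : V} (ha : t • a ≠ a)
    (ha' : h • a = a) : h = 1 :=
  ht.2 h (lt_of_le_of_ne l fun e => ha (mem_B.1 (e ▸ mem_B.2 ha')))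

theorem comm_of_sq {s t : H} (hs : s * s = 1) (ht : t * t = 1) (h : s * t * (s * t) = 1) :
    s * t = t * s := by
  rw [eq_inv_of_mul_eq_one_left h, mul_inv_rev, inv_eq_of_mul_eq_one_right hs,
    inv_eq_of_mul_eq_one_right ht]

variable (hb : Hyp H V)
include hb

theorem R2.toR {t : H} (ht : R2 V t) : R V t := by
  refine ⟨ht.1, fun a ha x hx => ?_⟩
  obtain ⟨σ, s1, s2, s3, s4⟩ := swap' hb t a
  have := ht.eq_one (h := σ * t) (fun y hy => mem_B.2 (by
    rw [mul_smul, mem_B.1 hy, mem_B.1 (s4 hy)])) ha (by rw [mul_smul, s2])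
  rw [eq_inv_of_mul_eq_one_right this, inv_smul_eq_iff, s3 x hx]

theorem R2.sq {t : H} (ht : R2 V t) : t * t = 1 := (ht.toR hb).sq hb

theorem eq_of_N2 {s t : H} (hs : R2 V s) (ht : R2 V t) {n : V} (h1 : n ∈ N V s) (h3 : n ∈ N V t)
    (h0 : n ≠ 0) : s = t := by
  obtain ⟨l, a, a1, a2⟩ := (hs.toR hb).meet hb (ht.toR hb) h1 h3 h0
  have := ht.eq_one (h := s * t) (fun y hy => mem_B.2 (by
    rw [mul_smul, mem_B.1 hy, mem_B.1 (l hy)])) a1 (by
    rw [mul_smul, ← a2, smul_smul_self (hs.sq hb)])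
  rw [eq_inv_of_mul_eq_one_left this, inv_eq_of_mul_eq_one_right (ht.sq hb)]

theorem comm_of_fix {g t : H} (ht : R2 V t) {n : V} (h1 : n ∈ N V t) (h3 : g • n = n)
    (h0 : n ≠ 0) : g * t = t * g := by
  have := smul_mem_N (g := g) h1
  rw [h3] at this
  have e := eq_of_N2 hb (ht.conj g) ht this h1 h0
  rwa [mul_inv_eq_iff_eq_mul] at e

variable (h2 : ∀ x : V, x + x = 0)
include h2

omit hb in
theorem neg2 (x : V) : -x = x := neg_eq_of_add_eq_zero_left (h2 x)

theorem fix_of_comm {g t : H} (ht : R2 V t) (hc : g * t = t * g) {n : V} (h1 : n ∈ N V t) :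
    g • n = n := by
  by_contra h
  have := (ht.toR hb).star hb (o.smul g n) (sub_mem h1 (smul_mem_N_of_comm hc h1)) (Ne.symm h)
  rw [smul_N (ht.sq hb) h1, neg2 h2] at this
  exact h this.symm

theorem G4 {t t' : H} (ht : R2 V t) (ht' : R2 V t') (hc : t * t' = t' * t) (hne : t ≠ t') {z : V}
    (hz : o H (z - t • z) (z - t' • z)) : t' • z = z := by
  by_cases e : z - t • z = z - t' • z
  · by_contra h
    exact hne (eq_of_N2 hb ht ht' (e ▸ sub_mem_N t z) (sub_mem_N t' z) fun h0 =>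
      h (sub_eq_zero.1 h0).symm)
  exfalso
  obtain ⟨σ, s1, -, s3⟩ := swap hb hz
  have e1 := s3 z (by
    rw [sub_sub_cancel, sub_sub_cancel]
    exact (o.smul t z).symm.trans (o.smul t' z))
  have e2 := s3 (t • z) (by
    have a1 : t • z - (z - t • z) = z := by
      have : t • z - (z - t • z) = (t • z + t • z) + -z := by abel
      rw [this, h2, neg2 h2, zero_add]
    have a2 : t • z - (z - t' • z) = (t * t') • z := by
      nth_rewrite 1 [← fix_of_comm hb h2 ht' hc (sub_mem_N t' z)]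
      rw [← smul_sub, sub_sub_cancel, mul_smul]
    rw [a1, a2]
    exact o.smul _ _)
  rw [smul_sub, e1, e2] at s1
  exact e s1

theorem G5 {t : H} (ht : R2 V t) (h : H) (hc : t * (h * t * h⁻¹) = (h * t * h⁻¹) * t) :
    h * t * h⁻¹ = t := by
  by_contra hne
  have ht' := ht.conj h
  set t' := h * t * h⁻¹ with e'
  obtain ⟨n, n1, n0⟩ := N_ne_bot hb ht.1
  have n1' : h • n ∈ N V t' := smul_mem_N n1
  have n0' : h • n ≠ 0 := fun e => n0 (by rw [← inv_smul_smul h n, e, smul_zero])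
  obtain ⟨σ, s1, s2⟩ := swap0 hb (o.smul h n)
  have c1 : σ * t * σ⁻¹ = t' := eq_of_N2 hb (ht.conj σ) ht' (s1 ▸ smul_mem_N n1) n1' n0'
  have c2 : σ * σ * t' = t' * (σ * σ) := comm_of_fix hb ht' n1' (by rw [mul_smul, s2, s1]) n0'
  have key : ∀ z : V, z - σ • z ∈ B V t' → t' • z = z := by
    intro z hz
    refine G4 hb h2 ht ht' hc (Ne.symm hne) ⟨σ, ?_⟩
    have := mem_B.1 hz
    rw [smul_sub] at this
    rw [smul_sub, ← mul_smul, mul_inv_eq_iff_eq_mul.1 c1, mul_smul, sub_eq_sub_iff_sub_eq_sub,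
      ← neg_sub, ← this, neg_sub]
  obtain ⟨a, ha⟩ : ∃ a : V, t' • a ≠ a := by
    by_contra hc
    push Not at hc
    exact ht'.1 (hb.faith _ hc)
  refine ha (key a (mem_B.2 (key _ ?_)))
  have e1 : a - σ • a - σ • (a - σ • a) = a - (σ * σ) • a := by
    have : a - σ • a - σ • (a - σ • a) = a - (σ • a + σ • a) + (σ * σ) • a := by
      rw [smul_sub, mul_smul]; abel
    rw [this, h2, sub_zero, sub_eq_add_neg, neg2 h2]
  rw [e1, mem_B, smul_sub, ← mul_smul, ← c2, mul_smul (σ * σ), sub_eq_sub_iff_sub_eq_sub,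
    ← smul_sub, ← neg_sub, smul_neg, fix_of_comm hb h2 ht' c2 (sub_mem_N t' a)]

variable [Finite H]

theorem conj_of_ne {s t : H} (hs : R2 V s) (ht : R2 V t) (hc : s * t ≠ t * s) :
    ∃ g : H, g * s * g⁻¹ = t := by
  have ss := hs.sq hb
  have tt := ht.sq hb
  rcases Nat.even_or_odd (orderOf (s * t)) with ⟨m, hm⟩ | ho
  swap
  · obtain ⟨k, k1, k2⟩ := H5.Invol.exists_conj_involution ss tt ho
    exact ⟨_, by rw [inv_eq_of_mul_eq_one_right k1, k2]⟩
  exfalso
  set y := s * t with hy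
  have hpos : 0 < orderOf y := orderOf_pos _
  have z1 : y ^ m ≠ 1 := pow_ne_one_of_lt_orderOf (by omega) (by omega)
  have z2 : y ^ m * y ^ m = 1 := by rw [← pow_add, ← hm, pow_orderOf_eq_one]
  have cs : ∀ k : ℕ, y ^ k * s * (y ^ k)⁻¹ = y ^ (k + k) * s := by
    intro k
    have := H5.Invol.conj_pow_mul ss tt k
    rw [← hy] at this
    rw [pow_add, mul_assoc, mul_assoc, ← this, ← mul_assoc s, ← mul_assoc s, ss, one_mul]
  have yt : y * t = s := by rw [hy, mul_assoc, tt, mul_one]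
  have ct : ∀ k : ℕ, y ^ k * t * (y ^ k)⁻¹ = y ^ (k + k) * t := by
    intro k
    have e : y⁻¹ * s = t := by rw [← yt, inv_mul_cancel_left]
    have c : Commute (y ^ k) y⁻¹ := (Commute.refl y).inv_right.pow_left k
    have c' : Commute (y ^ (k + k)) y⁻¹ := (Commute.refl y).inv_right.pow_left _
    rw [← e, ← mul_assoc, c.eq, mul_assoc, mul_assoc, ← mul_assoc (y ^ k), cs, ← mul_assoc,
      ← c'.eq, mul_assoc]
  have zs : y ^ m * s = s * y ^ m := by
    have := cs m
    rw [pow_add, z2, one_mul, mul_inv_eq_iff_eq_mul] at this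
    exact this
  have zt : y ^ m * t = t * y ^ m := by
    have := ct m
    rw [pow_add, z2, one_mul, mul_inv_eq_iff_eq_mul] at this
    exact this
  rcases Nat.even_or_odd m with ⟨j, hj⟩ | ⟨j, hj⟩
  · have := G5 hb h2 hs (y ^ j) (by rw [cs, ← hj, ← mul_assoc, ← zs])
    rw [cs, ← hj] at this
    exact z1 (by simpa using this)
  have r1 : R2 V (y ^ m * s) := by
    have := ht.conj (y ^ (j + 1))
    rwa [ct, show j + 1 + (j + 1) = m + 1 by omega, pow_succ, mul_assoc, yt] at this
  have r2 : R2 V (y ^ m * t) := by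
    have := hs.conj (y ^ j)
    rwa [cs, ← yt, ← mul_assoc, ← pow_succ, show j + j + 1 = m by omega] at this
  set z := y ^ m with hz
  have gm : (z * y) ^ m = 1 := by
    rw [hz, ← pow_succ, ← pow_mul, ← orderOf_dvd_iff_pow_eq_one, hm]
    exact ⟨j + 1, by rw [hj]; ring⟩
  obtain ⟨x, hx⟩ : ∃ x : V, z • x ≠ x := by
    by_contra hc
    push Not at hc
    exact z1 (hb.faith _ hc)
  have hD : ∀ w : V, D V z ((z * y) • w) = D V z w := by
    intro w
    rw [eq_comm, ← sub_eq_zero, ← map_sub]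
    change _ ∈ B V z
    have : w - (z * y) • w = (w - t • w) + (t • w - (z * s) • t • w) := by
      rw [hy, ← mul_assoc, mul_smul (z * s)]; abel
    rw [this]
    refine add_mem (mem_B.2 (fix_of_comm hb h2 ht zt (sub_mem_N _ _)))
      (mem_B.2 (fix_of_comm hb h2 r1 ?_ (sub_mem_N _ _)))
    rw [mul_assoc, zs]
  have hDk : ∀ k : ℕ, D V z ((z * y) ^ k • x) = D V z x := by
    intro k
    induction k with
    | zero => simp
    | succ k ih => rw [pow_succ', mul_smul, hD, ih]
  let x' : V := ∑ i ∈ Finset.range m, (z * y) ^ i • x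
  have f1 : (z * y) • x' = x' := by
    have a1 := Finset.sum_range_succ (fun i => (z * y) ^ i • x) m
    have a2 := Finset.sum_range_succ' (fun i => (z * y) ^ i • x) m
    rw [a1, gm, pow_zero, add_left_inj] at a2
    simp only [x']
    rw [Finset.smul_sum]
    refine Eq.trans ?_ a2.symm
    exact Finset.sum_congr rfl fun i _ => by rw [pow_succ', mul_smul (z * y)]
  have f2 : D V z x' = D V z x := by
    simp only [x']
    rw [map_sum, Finset.sum_congr rfl fun i _ => hDk i, Finset.sum_const, Finset.card_range, hj,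
      add_smul, one_smul, mul_smul, two_smul, h2, zero_add]
  have fx : ∀ u v : H, R2 V u → R2 V v → u ≠ v → (u * v) • x' = x' → u • x' = x' := by
    intro u v hu hv d e
    have e1 : u • x' = v • x' := by
      nth_rewrite 1 [← e]
      rw [mul_smul, smul_smul_self (hu.sq hb)]
    by_contra h
    exact d (eq_of_N2 hb hu hv (sub_mem_N u x') (e1 ▸ sub_mem_N v x') fun h0 =>
      h (sub_eq_zero.1 h0).symm)
  have d1 : z * s ≠ t := fun e => hc (by
    have : z = t * s := by rw [← e, mul_assoc, ss, mul_one]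
    rw [this] at z2
    exact (comm_of_sq tt ss z2).symm)
  have d2 : s ≠ z * t := fun e => hc (by
    have : z = s * t := by rw [e, mul_assoc, tt, mul_one]
    rw [this] at z2
    exact comm_of_sq ss tt z2)
  have g1 := fx _ _ r1 ht d1 (by rw [mul_assoc]; exact f1)
  have g2 := fx _ _ hs r2 d2 (by rw [← mul_assoc, ← zs, mul_assoc]; exact f1)
  rw [mul_smul, g2] at g1
  apply hx
  have : D V z x = 0 := by rw [← f2, D_apply, g1, sub_self]
  exact mem_B.1 this

theorem eq_of_comm {s t : H} (hs : R2 V s) (ht : R2 V t) (hc : s * t = t * s) : s = t := by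
  by_cases h : ∃ g : H, g * s * g⁻¹ = t
  · obtain ⟨g, rfl⟩ := h
    exact (G5 hb h2 hs g hc).symm
  exfalso
  let W : AddSubgroup V :=
    { carrier := {x | ∀ g : H, s • g • x = g • x}
      zero_mem' := fun g => by simp
      add_mem' := fun {a b} ha hb g => by rw [smul_add, smul_add, ha, hb]
      neg_mem' := fun {a} ha g => by rw [smul_neg, smul_neg, ha] }
  rcases hb.irr W (fun k x hx g => by rw [← mul_smul g, hx]) with e | e
  · obtain ⟨n, n1, n0⟩ := N_ne_bot hb ht.1
    have : n ∈ W := fun g => fix_of_comm hb h2 (ht.conj g) (by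
      by_contra c
      obtain ⟨k, hk⟩ := conj_of_ne hb h2 hs (ht.conj g) c
      exact h ⟨g⁻¹ * k, by
        rw [mul_inv_rev, inv_inv, mul_assoc g⁻¹, mul_assoc g⁻¹, ← mul_assoc _ k⁻¹, hk]
        group⟩) (smul_mem_N n1)
    rw [e] at this
    exact n0 this
  · exact hs.1 (hb.faith s fun x => by
      have : x ∈ W := e ▸ AddSubgroup.mem_top x
      simpa using this 1)

variable [Finite V]

theorem B_le_of_comm {g t : H} (ht : R2 V t) (hc : g * t = t * g) (g1 : g ≠ 1) :
    B V g ≤ B V t := by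
  obtain ⟨r, hr, l⟩ := exists_R2 (V := V) g1
  obtain ⟨n, n1, n0⟩ := N_ne_bot hb ht.1
  rwa [← eq_of_comm hb h2 hr ht (comm_of_fix hb ht n1
    (mem_B.1 (l (mem_B.2 (fix_of_comm hb h2 ht hc n1)))) n0)]

theorem eq_of_cent {g s t : H} (hs : R2 V s) (ht : R2 V t) (c1 : g * s = s * g)
    (c2 : g * t = t * g) (g1 : g ≠ 1) : s = t := by
  obtain ⟨n, n1, n0⟩ := N_ne_bot hb ht.1
  exact eq_of_comm hb h2 hs ht (comm_of_fix hb ht n1
    (mem_B.1 (B_le_of_comm hb h2 hs c1 g1 (mem_B.2 (fix_of_comm hb h2 ht c2 n1)))) n0)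

omit [Finite H] [Finite V] in
theorem exists_other {t : H} (ht : R2 V t) : ∃ s : H, R2 V s ∧ s ≠ t := by
  by_contra hc
  push Not at hc
  rcases hb.irr (N V t) (fun h x hx => hc _ (ht.conj h) ▸ smul_mem_N hx) with e | e
  · obtain ⟨n, n1, n0⟩ := N_ne_bot hb ht.1
    rw [e] at n1
    exact n0 n1
  · exact ht.1 (hb.faith t fun x => fix_of_comm hb h2 ht rfl (e ▸ AddSubgroup.mem_top x))

theorem cent {g t : H} (ht : R2 V t) (hc : g * t = t * g) : g = 1 ∨ g = t := by
  by_cases g1 : g = 1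
  · exact Or.inl g1
  right
  obtain ⟨a, ha⟩ : ∃ a : V, t • a ≠ a := by
    by_contra hc
    push Not at hc
    exact ht.1 (hb.faith _ hc)
  have key : ∀ h : H, h * t = t * h → h • a = a → h = 1 := fun h c e => by
    by_contra h1
    exact ha (mem_B.1 (B_le_of_comm hb h2 ht c h1 (mem_B.2 e)))
  have gg : g * g = 1 := by
    obtain ⟨σ, s1, s2, -, s4⟩ := swap' hb g a
    obtain ⟨n, n1, n0⟩ := N_ne_bot hb ht.1
    have c := comm_of_fix hb ht n1 (mem_B.1 (s4 (mem_B.2 (fix_of_comm hb h2 ht hc n1)))) n0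
    have e := key (σ * g) (by rw [mul_assoc, hc, ← mul_assoc, c, mul_assoc]) (by rw [mul_smul, s2])
    refine key _ (by rw [mul_assoc, hc, ← mul_assoc, hc, mul_assoc]) ?_
    rw [mul_smul, ← s1, eq_inv_of_mul_eq_one_left e, smul_inv_smul]
  obtain ⟨s, hs, d⟩ := exists_other hb h2 ht
  rcases Nat.even_or_odd (orderOf (s * g)) with he | ho
  · obtain ⟨z, z1, z2, z3, z4⟩ := H5.Invol.exists_central_involution (hs.sq hb) gg he
    have := eq_of_cent hb h2 (ht.conj z) ht (g := g) (by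
      have c1 : Commute g z := z4.symm
      have c2 : Commute g t := hc
      exact ((c1.mul_right c2).mul_right c1.inv_right).eq) hc g1
    rw [mul_inv_eq_iff_eq_mul] at this
    exact absurd (eq_of_cent hb h2 hs ht z3 this z1) d
  · obtain ⟨k, k1, k2⟩ := H5.Invol.exists_conj_involution (hs.sq hb) gg ho
    have := hs.conj ((s * g) ^ k * s)
    rw [inv_eq_of_mul_eq_one_right k1, k2] at this
    exact eq_of_comm hb h2 this ht hc

theorem R2_of_inv {u t : H} (ht : R2 V t) (u1 : u ≠ 1) (uu : u * u = 1) : R2 V u := by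
  rcases Nat.even_or_odd (orderOf (t * u)) with he | ho
  · obtain ⟨z, z1, z2, z3, z4⟩ := H5.Invol.exists_central_involution (ht.sq hb) uu he
    rw [(cent hb h2 ht z3).resolve_left z1] at z4
    rwa [(cent hb h2 ht z4.symm).resolve_left u1]
  · obtain ⟨k, k1, k2⟩ := H5.Invol.exists_conj_involution (ht.sq hb) uu ho
    have := ht.conj ((t * u) ^ k * t)
    rwa [inv_eq_of_mul_eq_one_right k1, k2] at this

theorem two_final {t : H} (ht : R2 V t) : Fin2 V {r : H | R2 V r} := by
  refine ⟨fun r hr => R2.sq hb hr, fun h => h.1 rfl, fun r hr g => R2.conj hr g, ?_,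
    ⟨t, ht, fun h => ?_⟩, fun x x0 => ?_⟩
  · intro a ha b hb' hab
    have hab' : R2 V (a * b) := hab
    have := eq_of_comm hb h2 ha hb' (comm_of_sq (R2.sq hb ha) (R2.sq hb hb') (hab'.sq hb))
    exact hab'.1 (this ▸ R2.sq hb ha)
  · have ht' := ht.conj h
    by_cases e : h * t * h⁻¹ = t
    · rcases cent hb h2 ht (mul_inv_eq_iff_eq_mul.1 e) with rfl | rfl
      · right; simpa using ht
      · exact Or.inl ht
    rcases Nat.even_or_odd (orderOf (t * (h * t * h⁻¹))) with he | ho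
    · obtain ⟨z, z1, z2, z3, z4⟩ := H5.Invol.exists_central_involution (ht.sq hb) (ht'.sq hb) he
      exact absurd (eq_of_cent hb h2 ht' ht z4 z3 z1) e
    obtain ⟨k, k1, k2⟩ := H5.Invol.exists_conj_involution (ht.sq hb) (ht'.sq hb) ho
    generalize (t * (h * t * h⁻¹)) ^ k * t = u at k1 k2
    have hu : R2 V u := R2_of_inv hb h2 ht (fun u1 => e (by simpa [u1] using k2.symm)) k1
    have c : u * h * t = t * (u * h) := by
      have : h * t = u * t * u * h := by rw [k2, inv_mul_cancel_right]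
      rw [mul_assoc, this, ← mul_assoc, ← mul_assoc, ← mul_assoc, k1, one_mul, mul_assoc]
    rcases cent hb h2 ht c with e2 | e2
    · left
      rw [eq_inv_of_mul_eq_one_right e2, inv_eq_of_mul_eq_one_right k1]
      exact hu
    · right
      have : h * t = u := by
        rw [← inv_mul_cancel_left u h, e2, inv_eq_of_mul_eq_one_right k1, mul_assoc,
          ht.sq hb, mul_one]
      rw [this]
      exact hu
  · by_contra hc
    push Not at hc
    have key : ∀ h : H, h • x = x → h = 1 := fun h e => by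
      by_contra h1
      obtain ⟨r, hr, l⟩ := exists_R2 (V := V) h1
      exact hc r hr (mem_B.1 (l (mem_B.2 e)))
    obtain ⟨s, hs, d⟩ := exists_other hb h2 ht
    obtain ⟨σ, s1, s2⟩ := swap0 hb (o.smul (s * t) x)
    have e1 := key (σ * (s * t)) (by rw [mul_smul, s2])
    have e2 := key (σ⁻¹ * (s * t)) (by rw [mul_smul, inv_smul_eq_iff, s1])
    rw [inv_mul_eq_one] at e2
    rw [e2] at e1
    exact d (eq_of_comm hb h2 hs ht (comm_of_sq (hs.sq hb) (ht.sq hb) e1))

end Cfsg.Agent.H6.Bin
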