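import Cfsg.Agent.H6.Bin3
import Cfsg.Agent.H4.Coord

/-! Binary affine actions: coordinates. -/

set_option autoImplicit false

namespace Cfsg.Agent.H6.Bin

theorem quad {E : Type} [Field E] [Finite E] (σ : E ≃+* E) (h1 : σ ≠ 1) (h2 : σ * σ = 1) :
    ∃ (F : Type) (_ : Field F) (_ : Fintype F) (_ : Algebra F E) (τ : E ≃ₐ[F] E),
      Module.finrank F E = 2 ∧ (∀ x, τ x = σ x) ∧ (∀ φ : E ≃ₐ[F] E, φ = 1 ∨ φ = τ) ∧
      ∀ a : E, Algebra.norm F a = 1 ↔ a * σ a = 1 := by
  classical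
  let G0 : Subgroup (RingAut E) := Subgroup.zpowers σ
  have hG : Nat.card G0 = 2 := by
    rw [Nat.card_zpowers]
    exact H5.Invol.orderOf_eq_two h1 h2
  haveI : Finite (RingAut E) :=
    Finite.of_injective (fun f : RingAut E => (f : E → E)) DFunLike.coe_injective
  letI := Fintype.ofFinite G0
  let F := FixedPoints.subfield G0 E
  have hr : Module.finrank F E = 2 := by
    rw [FixedPoints.finrank_eq_card, ← Nat.card_eq_fintype_card, hG]
  let τ : E ≃ₐ[F] E := { σ with commutes' := fun x => x.2 ⟨σ, Subgroup.mem_zpowers σ⟩ }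
  have τ1 : τ ≠ 1 := fun e => h1 (RingEquiv.ext fun x => DFunLike.congr_fun e x)
  have hc : Nat.card (E ≃ₐ[F] E) = 2 := by rw [IsGalois.card_aut_eq_finrank, hr]
  have hall : ∀ φ : E ≃ₐ[F] E, φ = 1 ∨ φ = τ := by
    intro φ
    obtain ⟨y, -, hy⟩ := (Nat.card_eq_two_iff' 1).1 hc
    by_cases e : φ = 1
    · exact Or.inl e
    · exact Or.inr ((hy φ e).trans (hy τ τ1).symm)
  refine ⟨F, inferInstance, Fintype.ofFinite F, inferInstance, τ, hr, fun _ => rfl, hall,
    fun a => ?_⟩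
  have := Algebra.norm_eq_prod_automorphisms F a
  rw [show (Finset.univ : Finset (E ≃ₐ[F] E)) = {1, τ} from
    (Finset.eq_univ_of_forall fun φ => by simpa using hall φ).symm, Finset.prod_pair τ1.symm] at this
  rw [← (algebraMap F E).injective.eq_iff, this, map_one]
  rfl

theorem hilbert90 {E : Type} [Field E] (σ : E ≃+* E) (h1 : σ ≠ 1) (h2 : σ * σ = 1) {a : E}
    (ha : a * σ a = 1) : ∃ y : E, y ≠ 0 ∧ a * σ y = y := by
  by_cases e : 1 + a = 0
  · obtain ⟨w, hw⟩ : ∃ w, σ w ≠ w := by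
      by_contra hc
      push Not at hc
      exact h1 (RingEquiv.ext hc)
    have : σ (σ w) = w := DFunLike.congr_fun h2 w
    refine ⟨σ w - w, sub_ne_zero.2 hw, ?_⟩
    rw [map_sub, this, eq_neg_of_add_eq_zero_right e]
    ring
  · exact ⟨1 + a, e, by rw [map_add, map_one, mul_add, ha, mul_one, add_comm]⟩

variable {H V : Type*} [Group H] [AddCommGroup V] [DistribMulAction H V]

/-- The conclusion in the non-degenerate case. -/
def Concl (H V : Type*) [Group H] [AddCommGroup V] [DistribMulAction H V] : Prop :=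
  ∃ (F E : Type) (_ : Field F) (_ : Fintype F) (_ : Field E) (_ : Fintype E) (_ : Algebra F E)
    (e : V ≃+ E), Module.finrank F E = 2 ∧
    (∀ h : H, ∃ (a : E) (φ : E ≃ₐ[F] E), Algebra.norm F a = 1 ∧ ∀ x, e (h • x) = a * φ (e x)) ∧
    ∀ (a : E) (φ : E ≃ₐ[F] E), Algebra.norm F a = 1 → ∃ h : H, ∀ x, e (h • x) = a * φ (e x)

theorem final [Finite V] [Nontrivial V] (hb : Hyp H V) {p : ℕ} (hp : p.Prime)
    (hpV : ∀ x : V, p • x = 0) {S : Set H} (hf : Fin2 V S) : Concl H V := by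
  classical
  haveI := Fact.mk hp
  obtain ⟨t0, ht0, cov⟩ := hf.cov
  have inv : ∀ r ∈ S, r⁻¹ = r := fun r hr => inv_eq_of_mul_eq_one_right (hf.sq r hr)
  have kmul : ∀ h ∉ S, ∀ k ∉ S, h * k ∉ S := by
    intro h hh k hk
    have := hf.mul _ ((cov h).resolve_left hh) _ (hf.conj _ ((cov k).resolve_left hk) t0)
    rwa [mul_assoc t0, mul_inv_cancel_right, mul_assoc, ← mul_assoc t0, hf.sq t0 ht0,
      one_mul] at this
  have kinv : ∀ k ∉ S, k⁻¹ ∉ S := fun k hk h => hk (by rw [← inv_inv k, inv _ h]; exact h)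
  have rk : ∀ r ∈ S, ∀ k ∉ S, r * k ∈ S := by
    intro r hr k hk
    by_contra h
    exact kmul _ h _ (kinv k hk) (by simpa using hr)
  have rkr : ∀ r ∈ S, ∀ k ∉ S, r * k = k⁻¹ * r := by
    intro r hr k hk
    rw [← inv _ (rk r hr k hk), mul_inv_rev, inv r hr]
  have kc : ∀ h ∉ S, ∀ k ∉ S, h * k = k * h := by
    intro h hh k hk
    have e1 := rkr t0 ht0 _ (kmul h hh k hk)
    rw [← mul_assoc, rkr t0 ht0 h hh, mul_assoc, rkr t0 ht0 k hk, ← mul_assoc, mul_left_inj,
      ← mul_inv_rev, inv_inj] at e1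
    exact e1.symm
  have kirr : ∀ W : AddSubgroup V, (∀ k ∉ S, ∀ w ∈ W, k • w ∈ W) → W = ⊥ ∨ W = ⊤ := by
    intro W hW
    by_cases h0 : W = ⊥
    · exact Or.inl h0
    right
    obtain ⟨⟨x, xW⟩, x0⟩ := AddSubgroup.ne_bot_iff_exists_ne_zero.1 h0
    have x0' : x ≠ 0 := fun e => x0 (Subtype.ext e)
    obtain ⟨r, hr, e⟩ := hf.fix x x0'
    let W' : AddSubgroup V :=
      { carrier := {y | y ∈ W ∧ r • y ∈ W}
        zero_mem' := ⟨zero_mem _, by simp⟩
        add_mem' := fun ha hb => ⟨add_mem ha.1 hb.1, by rw [smul_add]; exact add_mem ha.2 hb.2⟩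
        neg_mem' := fun ha => ⟨neg_mem ha.1, by rw [smul_neg]; exact neg_mem ha.2⟩ }
    rcases hb.irr W' (fun h y hy => by
      by_cases hh : h ∈ S
      · have e1 : h • y = (h * r) • r • y := by rw [mul_smul, smul_smul_self (hf.sq r hr)]
        exact ⟨e1 ▸ hW _ (hf.mul h hh r hr) _ hy.2, by
          rw [← mul_smul]; exact hW _ (hf.mul r hr h hh) _ hy.1⟩
      · exact ⟨hW h hh _ hy.1, by
          rw [← mul_smul, rkr r hr h hh, mul_smul]; exact hW _ (kinv h hh) _ hy.2⟩) with e' | e'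
    · have : x ∈ W' := ⟨xW, by rw [e]; exact xW⟩
      rw [e'] at this
      exact absurd this x0'
    · rw [eq_top_iff]
      intro y _
      have : y ∈ W' := e' ▸ AddSubgroup.mem_top y
      exact this.1
  obtain ⟨n, hn⟩ : ∃ n, Nat.card V = p ^ n := by
    letI : Module (ZMod p) V := AddCommGroup.zmodModule hpV
    exact ⟨_, by rw [Module.natCard_eq_pow_finrank (K := ZMod p), Nat.card_zmod]⟩
  have n0 : n ≠ 0 := by
    rintro rfl
    exact Finite.one_lt_card.ne' (hn.trans (pow_zero p))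
  let E := GaloisField p n
  letI : Fintype E := Fintype.ofFinite E
  obtain ⟨v0, hv0⟩ := exists_ne (0 : V)
  obtain ⟨r, hr, rv⟩ := hf.fix v0 hv0
  obtain ⟨e, e1, he⟩ := H4.Coord.exists_field_coord
    {α | ∃ k ∉ S, α = DistribMulAction.toAddMonoidEnd H V k} (by
      rintro _ ⟨h, hh, rfl⟩ _ ⟨k, hk, rfl⟩
      rw [← map_mul, ← map_mul, kc h hh k hk])
    (fun W hW => kirr W fun k hk w hw => hW _ ⟨k, hk, rfl⟩ w hw) hv0 E
    (by rw [hn, ← Nat.card_eq_fintype_card, GaloisField.card p n n0])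
  have he' : ∀ k ∉ S, ∃ c : E, ∀ v, e (k • v) = c * e v := fun k hk => he _ ⟨k, hk, rfl⟩
  let β : E ≃+ E := (e.symm.trans (DistribMulAction.toAddEquiv V r)).trans e
  have hβ : ∀ v, β (e v) = e (r • v) := fun v => by simp [β]
  obtain ⟨σ, hσ⟩ := H4.Coord.semilinear {c : E | ∃ k ∉ S, ∀ v, e (k • v) = c * e v} (by
    intro W hW
    rcases kirr (W.comap e.toAddMonoidHom) (fun k hk w hw => by
      obtain ⟨c, hc⟩ := he' k hk
      change e _ ∈ W
      rw [hc]
      exact hW c ⟨k, hk, hc⟩ _ hw) with h | h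
    · left
      rw [eq_bot_iff]
      intro x hx
      have : e.symm x ∈ W.comap e.toAddMonoidHom := by simpa using hx
      rw [h] at this
      simpa using this
    · right
      rw [eq_top_iff]
      intro x _
      have : e.symm x ∈ W.comap e.toAddMonoidHom := h ▸ AddSubgroup.mem_top _
      simpa using this) β (by
    rintro c ⟨k, hk, hc⟩
    obtain ⟨c', hc'⟩ := he' _ (kinv k hk)
    refine ⟨c', fun x => ?_⟩
    obtain ⟨v, rfl⟩ := e.surjective x
    rw [← hc, hβ, hβ, ← hc', ← mul_smul, rkr r hr k hk, mul_smul])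
  have b1 : β 1 = 1 := by rw [← e1, hβ, rv]
  have hs : ∀ v, e (r • v) = σ (e v) := fun v => by rw [← hβ, hσ, b1, one_mul]
  have s1 : σ ≠ 1 := fun h => hf.ne (by
    have : r = 1 := hb.faith r fun v => e.injective (by rw [hs, h]; rfl)
    exact this ▸ hr)
  have s2 : σ * σ = 1 := RingEquiv.ext fun x => by
    obtain ⟨v, rfl⟩ := e.surjective x
    change σ (σ _) = _
    rw [← hs, ← hs, smul_smul_self (hf.sq r hr)]
    rfl
  obtain ⟨F, iF, fF, aF, τ, hr2, hτ, hall, hnorm⟩ := quad σ s1 s2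
  have kn : ∀ k ∉ S, ∃ c : E, Algebra.norm F c = 1 ∧ ∀ v, e (k • v) = c * e v := by
    intro k hk
    obtain ⟨c, hc⟩ := he' k hk
    refine ⟨c, (hnorm c).2 ?_, hc⟩
    have a1 : e (k • v0) = c := by rw [hc, e1, mul_one]
    nth_rewrite 2 [← a1]
    rw [← hs, ← hc, ← mul_smul r, rkr r hr k hk, mul_smul, smul_inv_smul, rv, e1]
  have nk : ∀ a : E, Algebra.norm F a = 1 → ∃ k : H, ∀ v, e (k • v) = a * e v := by
    intro a ha
    obtain ⟨y, y0, hy⟩ := hilbert90 σ s1 s2 ((hnorm a).1 ha)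
    obtain ⟨v, rfl⟩ := e.surjective y
    obtain ⟨u, hu, uv⟩ := hf.fix v (by simpa using y0)
    obtain ⟨c, -, hc⟩ := kn _ (hf.mul u hu r hr)
    have := hc (r • v)
    rw [mul_smul, smul_smul_self (hf.sq r hr), uv, hs] at this
    have ca : c = a := mul_right_cancel₀ (by simpa using y0 : σ (e v) ≠ 0) (this.symm.trans hy.symm)
    exact ⟨u * r, ca ▸ hc⟩
  refine ⟨F, E, iF, fF, inferInstance, inferInstance, aF, e, hr2, fun h => ?_, fun a φ ha => ?_⟩
  · by_cases hh : h ∈ S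
    · obtain ⟨c, c1, hc⟩ := kn _ (hf.mul h hh r hr)
      refine ⟨c, τ, c1, fun x => ?_⟩
      rw [hτ, ← hs, ← hc, mul_smul, smul_smul_self (hf.sq r hr)]
    · obtain ⟨c, c1, hc⟩ := kn _ hh
      exact ⟨c, 1, c1, hc⟩
  · obtain ⟨k, hk⟩ := nk a ha
    rcases hall φ with rfl | rfl
    · exact ⟨k, hk⟩
    · exact ⟨k * r, fun x => by rw [mul_smul, hk, hs, hτ]⟩

theorem core [Finite V] [Finite H] [Nontrivial V] (hb : Hyp H V) :
    ((Nat.card V).Prime ∧ Nat.card H ≤ 2) ∨ Concl H V := by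
  classical
  obtain ⟨p, hp, hpV⟩ : ∃ p : ℕ, p.Prime ∧ ∀ x : V, p • x = 0 := by
    obtain ⟨p, hp, hd⟩ := Nat.exists_prime_and_dvd (Finite.one_lt_card (α := V)).ne'
    haveI := Fact.mk hp
    obtain ⟨x, hx⟩ := exists_prime_addOrderOf_dvd_card' p hd
    let W : AddSubgroup V := (nsmulAddMonoidHom p).ker
    rcases hb.irr W (fun h y hy => by
      have : p • y = 0 := hy
      change p • h • y = 0
      rw [← smul_comm, this, smul_zero]) with e | e
    · have : x ∈ W := by
        change p • x = 0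
        rw [← hx, addOrderOf_nsmul_eq_zero]
      rw [e, AddSubgroup.mem_bot] at this
      rw [this, addOrderOf_zero] at hx
      exact absurd hx hp.one_lt.ne
    · exact ⟨p, hp, fun y => (e ▸ AddSubgroup.mem_top y : y ∈ W)⟩
  have prim : (∀ (h : H) (x : V), h • x = x ∨ h • x = -x) → (Nat.card V).Prime := by
    intro hh
    haveI : IsSimpleAddGroup V := ⟨fun W _ => hb.irr W fun h x hx => by
      rcases hh h x with e | e <;> rw [e]
      · exact hx
      · exact neg_mem hx⟩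
    exact IsSimpleAddGroup.prime_card
  have triv : (∀ h : H, h = 1) → (Nat.card V).Prime ∧ Nat.card H ≤ 2 := fun hh =>
    ⟨prim fun h x => Or.inl (by rw [hh h, one_smul]), by
      haveI : Subsingleton H := ⟨fun a b => (hh a).trans (hh b).symm⟩
      rw [Nat.card_of_subsingleton (1 : H)]; norm_num⟩
  by_cases p2 : p = 2
  · subst p2
    have h2 : ∀ x : V, x + x = 0 := fun x => by rw [← two_smul ℕ, hpV]
    by_cases hh : ∀ h : H, h = 1
    · exact Or.inl (triv hh)
    push Not at hh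
    obtain ⟨h, h1⟩ := hh
    obtain ⟨t, ht, -⟩ := exists_R2 (V := V) h1
    exact Or.inr (final hb hp hpV (two_final hb h2 ht))
  have h2 : ∀ x : V, x + x = 0 → x = 0 := by
    intro x hx
    obtain ⟨k, hk⟩ := hp.odd_of_ne_two p2
    have := hpV x
    rwa [hk, add_smul, one_smul, mul_comm, mul_smul, two_smul, hx, smul_zero, zero_add] at this
  by_cases h0 : ∃ t : H, R V t
  swap
  · exact Or.inl (triv fun h => Subgroup.mem_bot.1
      (gen hb ⊥ ∅ (fun t ht _ => absurd ⟨t, ht⟩ h0) h (Set.empty_subset _)))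
  obtain ⟨t, ht⟩ := h0
  by_cases h1 : ∃ s : H, R V s ∧ s ≠ t
  · obtain ⟨s, hs, d⟩ := h1
    exact Or.inr (final hb hp hpV (odd_final hb h2 hp hpV hs ht d))
  push Not at h1
  left
  have all : ∀ h : H, h = 1 ∨ h = t := by
    intro h
    let K : Subgroup H :=
      { carrier := {h | h = 1 ∨ h = t}
        one_mem' := Or.inl rfl
        mul_mem' := by
          rintro a b (rfl | rfl) (rfl | rfl) <;> simp [R.sq hb ht]
        inv_mem' := by
          rintro a (rfl | rfl) <;> simp [inv_eq_of_mul_eq_one_right (R.sq hb ht)] }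
    exact gen hb K ∅ (fun r hr _ => Or.inr (h1 r hr)) h (Set.empty_subset _)
  refine ⟨prim fun h x => ?_, ?_⟩
  · rcases all h with rfl | rfl
    · exact Or.inl (one_smul _ _)
    right
    rcases hb.irr (N V h) (fun g x hx => h1 _ (ht.conj g) ▸ smul_mem_N hx) with e | e
    · obtain ⟨n, n1, n0⟩ := N_ne_bot hb ht.1
      rw [e] at n1
      exact absurd n1 n0
    · exact smul_N (ht.sq hb) (e ▸ AddSubgroup.mem_top x)
  · have : Function.Surjective fun b : Bool => if b then (1 : H) else t := fun h => by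
      rcases all h with rfl | rfl
      · exact ⟨true, rfl⟩
      · exact ⟨false, rfl⟩
    simpa using Nat.card_le_card_of_surjective _ this

end Cfsg.Agent.H6.Bin
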