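import Cfsg.Agent.H6.Pg2

/-! Projective representations of degree three: basic notions. -/

set_option autoImplicit false

namespace Cfsg.Agent.H6.M3

open Matrix

/-- `3 × 3` matrices -/
abbrev Mt (k : Type*) := Matrix (Fin 3) (Fin 3) k
/-- vectors -/
abbrev Vc (k : Type*) := Fin 3 → k

/-- A faithful projective representation of degree three, given by the relation
"the matrix `A` is a lift of `g`". -/
structure PR (Γ : Type*) [Group Γ] (k : Type*) [Field k] where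
  L : Γ → Mt k → Prop
  ex : ∀ g, ∃ A, L g A
  det : ∀ {g A}, L g A → A.det ≠ 0
  smul : ∀ {g A} {c : k}, L g A → c ≠ 0 → L g (c • A)
  uniq : ∀ {g A B}, L g A → L g B → ∃ c : k, B = c • A
  mul : ∀ {g h A B}, L g A → L h B → L (g * h) (A * B)
  inj : ∀ {g}, L g 1 → g = 1

variable {k : Type*} [Field k]

theorem eq9 {α : Type*} {A B : Matrix (Fin 3) (Fin 3) α} : A = B ↔
    A 0 0 = B 0 0 ∧ A 0 1 = B 0 1 ∧ A 0 2 = B 0 2 ∧ A 1 0 = B 1 0 ∧ A 1 1 = B 1 1 ∧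
      A 1 2 = B 1 2 ∧ A 2 0 = B 2 0 ∧ A 2 1 = B 2 1 ∧ A 2 2 = B 2 2 :=
  ⟨by rintro rfl; simp, fun h => by ext i j; fin_cases i <;> fin_cases j <;> simp [h]⟩

theorem eq3 {α : Type*} {u v : Fin 3 → α} : u = v ↔ u 0 = v 0 ∧ u 1 = v 1 ∧ u 2 = v 2 :=
  ⟨by rintro rfl; simp, fun h => by ext i; fin_cases i <;> simp [h]⟩

section Explicit

variable {R : Type*} [CommRing R] (a b c d e f g h i x y z a' b' c' d' e' f' g' h' i' : R)

theorem mv3 : !![a, b, c; d, e, f; g, h, i] *ᵥ ![x, y, z] =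
    ![a * x + b * y + c * z, d * x + e * y + f * z, g * x + h * y + i * z] := by
  simp only [eq3, mulVec, dotProduct, Fin.sum_univ_three]; exact ⟨rfl, rfl, rfl⟩

theorem vm3 : ![x, y, z] ᵥ* !![a, b, c; d, e, f; g, h, i] =
    ![x * a + y * d + z * g, x * b + y * e + z * h, x * c + y * f + z * i] := by
  simp only [eq3, vecMul, dotProduct, Fin.sum_univ_three]; exact ⟨rfl, rfl, rfl⟩

theorem dot3 : ![a, b, c] ⬝ᵥ ![x, y, z] = a * x + b * y + c * z := by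
  simp only [dotProduct, Fin.sum_univ_three]; rfl

theorem r13 : 1 + vecMulVec ![a, b, c] ![x, y, z] =
    !![1 + a * x, a * y, a * z; b * x, 1 + b * y, b * z; c * x, c * y, 1 + c * z] := by
  simp [eq9, vecMulVec_apply]

theorem sv3 : x • ![a, b, c] = ![x * a, x * b, x * c] := by simp [eq3]
theorem av3 : ![a, b, c] + ![x, y, z] = ![a + x, b + y, c + z] := by simp [eq3]
theorem bv3 : ![a, b, c] - ![x, y, z] = ![a - x, b - y, c - z] := by simp [eq3]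
theorem nv3 : -![a, b, c] = ![-a, -b, -c] := by simp [eq3]
theorem ev3 : ![a, b, c] = ![x, y, z] ↔ a = x ∧ b = y ∧ c = z := by simp [eq3]
theorem zv3 : ![a, b, c] = 0 ↔ a = 0 ∧ b = 0 ∧ c = 0 := by simp [eq3]

theorem sm3 : x • !![a, b, c; d, e, f; g, h, i] =
    !![x * a, x * b, x * c; x * d, x * e, x * f; x * g, x * h, x * i] := by simp [eq9]

theorem em3 : !![a, b, c; d, e, f; g, h, i] = !![a', b', c'; d', e', f'; g', h', i'] ↔
    a = a' ∧ b = b' ∧ c = c' ∧ d = d' ∧ e = e' ∧ f = f' ∧ g = g' ∧ h = h' ∧ i = i' := by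
  rw [eq9]; exact Iff.rfl

theorem tm3 : (!![a, b, c; d, e, f; g, h, i])ᵀ = !![a, d, g; b, e, h; c, f, i] := by simp [eq9]

theorem dm3 : (!![a, b, c; d, e, f; g, h, i]).det =
    a * e * i - a * f * h - b * d * i + b * f * g + c * d * h - c * e * g := by
  simp [det_fin_three]

theorem trm3 : (!![a, b, c; d, e, f; g, h, i]).trace = a + e + i := by simp [trace_fin_three]

theorem cr3 : ![a, b, c] ⨯₃ ![x, y, z] = ![b * z - c * y, c * x - a * z, a * y - b * x] := by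
  simp [cross_apply]

omit [CommRing R] in
theorem ex3 (v : Fin 3 → R) : ∃ a b c, v = ![a, b, c] := ⟨v 0, v 1, v 2, by simp [eq3]⟩

omit [CommRing R] in
theorem ex9 (A : Matrix (Fin 3) (Fin 3) R) : ∃ a b c d e f g h i, A = !![a, b, c; d, e, f; g, h, i] :=
  ⟨_, _, _, _, _, _, _, _, _, eta_fin_three A⟩

end Explicit

theorem exists_inv {A : Mt k} (h : A.det ≠ 0) : ∃ A' : Mt k, A * A' = 1 ∧ A' * A = 1 :=
  ⟨A⁻¹, mul_nonsing_inv A (Ne.isUnit h), nonsing_inv_mul A (Ne.isUnit h)⟩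

theorem cancel_left {A B C : Mt k} (h : A.det ≠ 0) (e : A * B = A * C) : B = C := by
  obtain ⟨A', -, h2⟩ := exists_inv h
  rw [← one_mul B, ← h2, mul_assoc, e, ← mul_assoc, h2, one_mul]

theorem cancel_right {A B C : Mt k} (h : A.det ≠ 0) (e : B * A = C * A) : B = C := by
  obtain ⟨A', h1, -⟩ := exists_inv h
  rw [← mul_one B, ← h1, ← mul_assoc, e, mul_assoc, h1, mul_one]

theorem ne_zero_of_det {A : Mt k} (h : A.det ≠ 0) : A ≠ 0 := by
  rintro rfl; simp at h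

theorem mulVec_ne_zero {A : Mt k} (h : A.det ≠ 0) {v : Vc k} (hv : v ≠ 0) : A *ᵥ v ≠ 0 :=
  fun e => hv (eq_zero_of_mulVec_eq_zero h e)

theorem vecMul_ne_zero {A : Mt k} (h : A.det ≠ 0) {v : Vc k} (hv : v ≠ 0) : v ᵥ* A ≠ 0 :=
  fun e => hv (eq_zero_of_vecMul_eq_zero h e)

theorem det_of_mul {B B' : Mt k} (h : B * B' = 1) : B.det ≠ 0 ∧ B'.det ≠ 0 := by
  have := congrArg Matrix.det h
  rw [det_mul, det_one] at this
  exact ⟨left_ne_zero_of_mul_eq_one this, right_ne_zero_of_mul_eq_one this⟩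

theorem smul_cancel {A : Mt k} (h : A.det ≠ 0) {c d : k} (e : c • A = d • A) : c = d :=
  smul_left_injective k (ne_zero_of_det h) e

namespace PR

variable {Γ : Type*} [Group Γ] (ρ : PR Γ k)

theorem uniq' {g : Γ} {A B : Mt k} (hA : ρ.L g A) (hB : ρ.L g B) : ∃ c : k, c ≠ 0 ∧ B = c • A := by
  obtain ⟨c, rfl⟩ := ρ.uniq hA hB
  exact ⟨c, by rintro rfl; simpa using ρ.det hB, rfl⟩

theorem one : ρ.L 1 1 := by
  obtain ⟨A, hA⟩ := ρ.ex 1
  have h := ρ.mul hA hA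
  rw [one_mul] at h
  obtain ⟨c, hc, e⟩ := ρ.uniq' hA h
  have : A = c • (1 : Mt k) := cancel_left (ρ.det hA) (by rw [e, mul_smul_comm, mul_one])
  have h2 := ρ.smul hA (inv_ne_zero hc)
  rwa [this, smul_smul, inv_mul_cancel₀ hc, one_smul] at h2

theorem scal {c : k} (hc : c ≠ 0) : ρ.L 1 (c • (1 : Mt k)) := ρ.smul ρ.one hc

theorem eq_one {g : Γ} {c : k} (h : ρ.L g (c • (1 : Mt k))) : g = 1 := by
  have hc : c ≠ 0 := by rintro rfl; simpa using ρ.det h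
  have := ρ.smul h (inv_ne_zero hc)
  rw [smul_smul, inv_mul_cancel₀ hc, one_smul] at this
  exact ρ.inj this

theorem inv {g : Γ} {A A' : Mt k} (hA : ρ.L g A) (h : A * A' = 1) : ρ.L g⁻¹ A' := by
  obtain ⟨B, hB⟩ := ρ.ex g⁻¹
  have h1 := ρ.mul hA hB
  rw [mul_inv_cancel] at h1
  obtain ⟨c, hc, e⟩ := ρ.uniq' ρ.one h1
  have : B = c • A' := cancel_left (ρ.det hA) (by rw [e, mul_smul_comm, h])
  have h2 := ρ.smul hB (inv_ne_zero hc)
  rwa [this, smul_smul, inv_mul_cancel₀ hc, one_smul] at h2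

theorem inv' {g : Γ} {A A' : Mt k} {c : k} (hA : ρ.L g A) (hc : c ≠ 0) (h : A * A' = c • 1) :
    ρ.L g⁻¹ A' := by
  have := ρ.smul (ρ.inv hA (A' := c⁻¹ • A') (by
    rw [mul_smul_comm, h, smul_smul, inv_mul_cancel₀ hc, one_smul])) hc
  rwa [smul_smul, mul_inv_cancel₀ hc, one_smul] at this

theorem inv_adj {g : Γ} {A : Mt k} (hA : ρ.L g A) : ρ.L g⁻¹ A.adjugate :=
  ρ.inv' hA (ρ.det hA) (mul_adjugate A)

theorem eq_of {g h : Γ} {A : Mt k} (hg : ρ.L g A) (hh : ρ.L h A) : g = h := by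
  obtain ⟨A', h1, h2⟩ := exists_inv (ρ.det hg)
  have := ρ.mul (ρ.inv hg h1) hh
  rw [h2] at this
  exact inv_mul_eq_one.1 (ρ.inj this)

theorem eq_of' {g h : Γ} {A : Mt k} {c : k} (hg : ρ.L g A) (hh : ρ.L h (c • A)) : g = h :=
  ρ.eq_of (ρ.smul hg (by rintro rfl; simpa using ρ.det hh)) hh

theorem eq_iff {g h : Γ} {A B : Mt k} (hg : ρ.L g A) (hh : ρ.L h B) :
    g = h ↔ ∃ c : k, B = c • A :=
  ⟨by rintro rfl; exact ρ.uniq hg hh, by rintro ⟨c, rfl⟩; exact ρ.eq_of' hg hh⟩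

theorem eq_one_iff {g : Γ} {A : Mt k} (hg : ρ.L g A) : g = 1 ↔ ∃ c : k, A = c • 1 := by
  rw [eq_comm]; exact ρ.eq_iff ρ.one hg

theorem pow {g : Γ} {A : Mt k} (hA : ρ.L g A) (n : ℕ) : ρ.L (g ^ n) (A ^ n) := by
  induction n with
  | zero => simpa using ρ.one
  | succ n ih => rw [pow_succ, pow_succ]; exact ρ.mul ih hA

theorem conj {g h : Γ} {A A' B : Mt k} (hA : ρ.L g A) (h1 : A * A' = 1) (hB : ρ.L h B) :
    ρ.L (g * h * g⁻¹) (A * B * A') := ρ.mul (ρ.mul hA hB) (ρ.inv hA h1)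

theorem comm_iff {g h : Γ} {A B : Mt k} (hA : ρ.L g A) (hB : ρ.L h B) :
    g * h = h * g ↔ ∃ c : k, B * A = c • (A * B) := ρ.eq_iff (ρ.mul hA hB) (ρ.mul hB hA)

theorem comm_of {g h : Γ} {A B : Mt k} (hA : ρ.L g A) (hB : ρ.L h B) (e : A * B = B * A) :
    g * h = h * g := (ρ.comm_iff hA hB).2 ⟨1, by rw [one_smul, e]⟩

theorem conj_iff {g h h' : Γ} {A B B' : Mt k} (hA : ρ.L g A) (hB : ρ.L h B) (hB' : ρ.L h' B') :
    g * h * g⁻¹ = h' ↔ ∃ c : k, A * B = c • (B' * A) := by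
  rw [mul_inv_eq_iff_eq_mul, eq_comm]
  exact ρ.eq_iff (ρ.mul hB' hA) (ρ.mul hA hB)

theorem split {g h : Γ} {C : Mt k} (hC : ρ.L (g * h) C) :
    ∃ A B, ρ.L g A ∧ ρ.L h B ∧ C = A * B := by
  obtain ⟨A, hA⟩ := ρ.ex g
  obtain ⟨B, hB⟩ := ρ.ex h
  obtain ⟨c, hc, rfl⟩ := ρ.uniq' (ρ.mul hA hB) hC
  exact ⟨_, B, ρ.smul hA hc, hB, by rw [smul_mul_assoc]⟩

theorem ex_det [IsAlgClosed k] (g : Γ) : ∃ A, ρ.L g A ∧ A.det = 1 := by
  obtain ⟨A, hA⟩ := ρ.ex g
  obtain ⟨c, hc⟩ := IsAlgClosed.exists_pow_nat_eq (A.det)⁻¹ (n := 3) (by norm_num)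
  have h0 : c ≠ 0 := by
    rintro rfl
    exact inv_ne_zero (ρ.det hA) (by simpa using hc.symm)
  exact ⟨c • A, ρ.smul hA h0, by simp [hc, ρ.det hA]⟩

/-- change of basis -/
def cj {B B' : Mt k} (h : B * B' = 1) : PR Γ k where
  L g A := ρ.L g (B * A * B')
  ex g := by
    obtain ⟨A, hA⟩ := ρ.ex g
    exact ⟨B' * A * B, by
      rwa [← mul_assoc, ← mul_assoc, h, one_mul, mul_assoc, h, mul_one]⟩
  det hA := by
    have := ρ.det hA
    simp only [det_mul, mul_ne_zero_iff] at this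
    exact this.1.2
  smul hA hc := by rw [mul_smul_comm, smul_mul_assoc]; exact ρ.smul hA hc
  uniq := fun {g A C} hA hC => by
    obtain ⟨c, hc⟩ := ρ.uniq hA hC
    refine ⟨c, cancel_left (det_of_mul h).1 (cancel_right (det_of_mul h).2 ?_)⟩
    rw [hc, mul_smul_comm, smul_mul_assoc]
  mul := fun {g g' A C} hA hC => by
    have := ρ.mul hA hC
    rwa [show B * A * B' * (B * C * B') = B * (A * (B' * B) * C) * B' by
      simp only [mul_assoc], mul_eq_one_comm.1 h, mul_one] at this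
  inj hA := ρ.inj (by rwa [mul_one, h] at hA)

theorem cj_L {B B' : Mt k} (h : B * B' = 1) {g : Γ} {A : Mt k} :
    (ρ.cj h).L g A ↔ ρ.L g (B * A * B') := Iff.rfl

theorem cj_L' {B B' : Mt k} (h : B * B' = 1) {g : Γ} {A : Mt k} :
    (ρ.cj h).L g (B' * A * B) ↔ ρ.L g A := by
  rw [cj_L, ← mul_assoc, ← mul_assoc, h, one_mul, mul_assoc, h, mul_one]

theorem cj_of {B B' : Mt k} (h : B * B' = 1) {g : Γ} {A C : Mt k} (hA : ρ.L g A)
    (e : A * B = B * C) : (ρ.cj h).L g C := by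
  rwa [cj_L, ← e, mul_assoc, h, mul_one]

/-- the dual representation -/
def tr : PR Γ k where
  L g A := ρ.L g⁻¹ Aᵀ
  ex g := by
    obtain ⟨A, hA⟩ := ρ.ex g⁻¹
    exact ⟨Aᵀ, hA⟩
  det hA := by simpa using ρ.det hA
  smul hA hc := by rw [transpose_smul]; exact ρ.smul hA hc
  uniq := fun {g A C} hA hC => by
    obtain ⟨c, hc⟩ := ρ.uniq hA hC
    exact ⟨c, by simpa using congrArg transpose hc⟩
  mul hA hC := by rw [_root_.mul_inv_rev, transpose_mul]; exact ρ.mul hC hA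
  inj hA := inv_eq_one.1 (ρ.inj (by rwa [transpose_one] at hA))

theorem tr_L {g : Γ} {A : Mt k} : ρ.tr.L g A ↔ ρ.L g⁻¹ Aᵀ := Iff.rfl

/-- restriction -/
def res {H : Type*} [Group H] (f : H →* Γ) (hf : Function.Injective f) : PR H k where
  L g A := ρ.L (f g) A
  ex _ := ρ.ex _
  det := ρ.det
  smul := ρ.smul
  uniq := ρ.uniq
  mul hA hC := by rw [map_mul]; exact ρ.mul hA hC
  inj hA := hf (by rw [map_one]; exact ρ.inj hA)

/-- restriction to a subgroup -/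
def sub (H : Subgroup Γ) : PR H k := ρ.res H.subtype H.subtype_injective

theorem sub_L {H : Subgroup Γ} {g : H} {A : Mt k} : (ρ.sub H).L g A ↔ ρ.L g A := Iff.rfl

/-- lifts of elements -/
def In (A : Mt k) : Prop := ∃ g, ρ.L g A

variable {ρ}

theorem In.det {A : Mt k} (h : ρ.In A) : A.det ≠ 0 := h.elim fun _ h => ρ.det h
theorem In.mul {A B : Mt k} (hA : ρ.In A) (hB : ρ.In B) : ρ.In (A * B) :=
  hA.elim fun _ h => hB.elim fun _ h' => ⟨_, ρ.mul h h'⟩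
theorem In.smul {A : Mt k} (hA : ρ.In A) {c : k} (hc : c ≠ 0) : ρ.In (c • A) :=
  hA.elim fun _ h => ⟨_, ρ.smul h hc⟩
theorem In.inv {A A' : Mt k} (hA : ρ.In A) (h : A * A' = 1) : ρ.In A' :=
  hA.elim fun _ h' => ⟨_, ρ.inv h' h⟩
theorem In.pow {A : Mt k} (hA : ρ.In A) (n : ℕ) : ρ.In (A ^ n) :=
  hA.elim fun _ h' => ⟨_, ρ.pow h' n⟩
theorem In.one : ρ.In 1 := ⟨1, ρ.one⟩

theorem in_cj {B B' : Mt k} (h : B * B' = 1) {A : Mt k} : (ρ.cj h).In A ↔ ρ.In (B * A * B') :=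
  Iff.rfl

theorem in_tr {A : Mt k} : ρ.tr.In A ↔ ρ.In Aᵀ :=
  ⟨fun ⟨g, h⟩ => ⟨g⁻¹, h⟩, fun ⟨g, h⟩ => ⟨g⁻¹, by rwa [tr_L, inv_inv]⟩⟩

variable (ρ) in
/-- `1 + v φ` is a lift -/
def R1 (v φ : Vc k) : Prop := ρ.In (1 + vecMulVec v φ)

theorem conj_r1 {A A' : Mt k} (h : A * A' = 1) (v φ : Vc k) :
    A * (1 + vecMulVec v φ) * A' = 1 + vecMulVec (A *ᵥ v) (φ ᵥ* A') := by
  rw [mul_add, add_mul, mul_one, h, mul_vecMulVec, vecMulVec_mul]

theorem R1.conj {v φ : Vc k} (h : ρ.R1 v φ) {A A' : Mt k} (hA : ρ.In A) (h1 : A * A' = 1) :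
    ρ.R1 (A *ᵥ v) (φ ᵥ* A') := by
  rw [R1, ← conj_r1 h1]; exact (hA.mul h).mul (hA.inv h1)

theorem r1_cj {B B' : Mt k} (h : B * B' = 1) {v φ : Vc k} :
    (ρ.cj h).R1 v φ ↔ ρ.R1 (B *ᵥ v) (φ ᵥ* B') := by
  rw [R1, in_cj, conj_r1 h, R1]

theorem r1_cj' {B B' : Mt k} (h : B * B' = 1) {v φ : Vc k} :
    (ρ.cj h).R1 (B' *ᵥ v) (φ ᵥ* B) ↔ ρ.R1 v φ := by
  rw [r1_cj, mulVec_mulVec, vecMul_vecMul, h, one_mulVec, vecMul_one]

theorem r1_tr {v φ : Vc k} : ρ.tr.R1 v φ ↔ ρ.R1 φ v := by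
  rw [R1, in_tr, transpose_add, transpose_one, transpose_vecMulVec, R1]

theorem R1.scale {v φ : Vc k} {c : k} : ρ.R1 (c • v) φ ↔ ρ.R1 v (c • φ) := by
  rw [R1, R1, smul_vecMulVec, vecMulVec_smul]

theorem R1.zero (φ : Vc k) : ρ.R1 0 φ := by simpa [R1] using In.one

variable (ρ) in
/-- no fixed point -/
def NoPt : Prop := ∀ v : Vc k, v ≠ 0 → ∃ A, ρ.In A ∧ ∀ c : k, A *ᵥ v ≠ c • v

variable (ρ) in
/-- irreducible -/
structure Irr : Prop where
  pt : ρ.NoPt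
  ln : ρ.tr.NoPt

theorem NoPt.cj (h : ρ.NoPt) {B B' : Mt k} (hB : B * B' = 1) : (ρ.cj hB).NoPt := fun v hv => by
  obtain ⟨A, hA, h1⟩ := h (B *ᵥ v) (mulVec_ne_zero (det_of_mul hB).1 hv)
  refine ⟨B' * A * B, hA.imp fun g hg => (ρ.cj_L' hB).2 hg, fun c hc => h1 c ?_⟩
  have := congrArg (B *ᵥ ·) hc
  simp only [mulVec_mulVec, ← mul_assoc, hB, one_mul, mulVec_smul] at this
  rwa [mulVec_mulVec]

theorem Irr.ln' (h : ρ.Irr) (φ : Vc k) (hφ : φ ≠ 0) : ∃ A, ρ.In A ∧ ∀ c : k, φ ᵥ* A ≠ c • φ := by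
  obtain ⟨A, hA, h1⟩ := h.ln φ hφ
  exact ⟨Aᵀ, in_tr.1 hA, by simpa only [vecMul_transpose] using h1⟩

theorem Irr.mk' (h1 : ρ.NoPt)
    (h2 : ∀ φ : Vc k, φ ≠ 0 → ∃ A, ρ.In A ∧ ∀ c : k, φ ᵥ* A ≠ c • φ) : ρ.Irr :=
  ⟨h1, fun φ hφ => by
    obtain ⟨A, hA, h⟩ := h2 φ hφ
    exact ⟨Aᵀ, in_tr.2 hA, by simpa only [mulVec_transpose] using h⟩⟩

theorem Irr.cj (h : ρ.Irr) {B B' : Mt k} (hB : B * B' = 1) : (ρ.cj hB).Irr := by
  refine Irr.mk' (h.pt.cj hB) fun φ hφ => ?_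
  obtain ⟨A, hA, h1⟩ := h.ln' (φ ᵥ* B') (vecMul_ne_zero (det_of_mul hB).2 hφ)
  refine ⟨B' * A * B, hA.imp fun g hg => (ρ.cj_L' hB).2 hg, fun c hc => h1 c ?_⟩
  have := congrArg (· ᵥ* B') hc
  simp only [vecMul_vecMul, mul_assoc, hB, mul_one, smul_vecMul] at this
  rwa [vecMul_vecMul]

theorem Irr.tr (h : ρ.Irr) : ρ.tr.Irr := by
  refine Irr.mk' h.ln fun φ hφ => ?_
  obtain ⟨A, hA, h1⟩ := h.pt φ hφ
  exact ⟨Aᵀ, in_tr.2 hA, by simpa only [vecMul_transpose] using h1⟩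

end PR

/-- linear independence of three vectors -/
def Ind (u v w : Vc k) : Prop := ∀ x y z : k, x • u + y • v + z • w = 0 → x = 0 ∧ y = 0 ∧ z = 0

/-- the matrix with given columns -/
def cols (u v w : Vc k) : Mt k := Matrix.of fun i j => ![u i, v i, w i] j

theorem cols_mulVec (u v w x : Vc k) : cols u v w *ᵥ x = x 0 • u + x 1 • v + x 2 • w := by
  ext i
  simp [cols, mulVec, dotProduct, Fin.sum_univ_three, mul_comm]

theorem mul_cols (A : Mt k) (u v w : Vc k) :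
    A * cols u v w = cols (A *ᵥ u) (A *ᵥ v) (A *ᵥ w) := by
  ext i j
  fin_cases j <;> simp [cols, mul_apply, mulVec, dotProduct]

theorem cols_mul (u v w : Vc k) (C : Mt k) :
    cols u v w * C = cols (C 0 0 • u + C 1 0 • v + C 2 0 • w) (C 0 1 • u + C 1 1 • v + C 2 1 • w)
      (C 0 2 • u + C 1 2 • v + C 2 2 • w) := by
  ext i j
  fin_cases j <;> simp [cols, mul_apply, Fin.sum_univ_three, mul_comm]

theorem Ind.det {u v w : Vc k} (h : Ind u v w) : (cols u v w).det ≠ 0 := fun e => by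
  obtain ⟨x, hx, e⟩ := exists_mulVec_eq_zero_iff.2 e
  rw [cols_mulVec] at e
  obtain ⟨a, b, c⟩ := h _ _ _ e
  exact hx (by ext i; fin_cases i <;> simpa)

theorem ind_of_det {u v w : Vc k} (h : (cols u v w).det ≠ 0) : Ind u v w := fun x y z e => by
  have := eq_zero_of_mulVec_eq_zero h (v := ![x, y, z]) (by rw [cols_mulVec]; exact e)
  exact ⟨congrFun this 0, congrFun this 1, congrFun this 2⟩

theorem Ind.inv {u v w : Vc k} (h : Ind u v w) : ∃ B', cols u v w * B' = 1 :=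
  (exists_inv h.det).imp fun _ h => h.1

theorem det_cols (u v w : Vc k) : (cols u v w).det = u ⬝ᵥ (v ⨯₃ w) := by
  simp [cols, det_fin_three, cross_apply, dotProduct, Fin.sum_univ_three]; ring

/-- a vector outside a given plane -/
theorem exists_dot_ne {φ : Vc k} (h : φ ≠ 0) : ∃ v : Vc k, φ ⬝ᵥ v = 1 := by
  obtain ⟨i, hi⟩ := Function.ne_iff.1 h
  exact ⟨Pi.single i (φ i)⁻¹, by rw [dotProduct_single, mul_inv_cancel₀ hi]⟩

theorem eq_smul_of_cross {u v : Vc k} (hu : u ≠ 0) (h : u ⨯₃ v = 0) : ∃ c : k, v = c • u := by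
  have h0 := congrFun h 0
  have h1 := congrFun h 1
  have h2 := congrFun h 2
  simp only [cross_apply, cons_val_zero, cons_val_one, cons_val, Pi.zero_apply] at h0 h1 h2
  obtain ⟨i, hi⟩ := Function.ne_iff.1 hu
  refine ⟨v i / u i, ?_⟩
  simp only [Pi.zero_apply] at hi
  ext j
  rw [Pi.smul_apply, smul_eq_mul, div_mul_eq_mul_div, eq_div_iff hi]
  fin_cases i <;> fin_cases j <;> simp <;> grind

theorem cross_ne_zero {u v : Vc k} (hu : u ≠ 0) (h : ∀ c : k, v ≠ c • u) : u ⨯₃ v ≠ 0 :=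
  fun e => (eq_smul_of_cross hu e).elim h

/-- the common kernel of two independent functionals -/
theorem eq_smul_cross {φ ψ v : Vc k} (h : φ ⨯₃ ψ ≠ 0) (h1 : φ ⬝ᵥ v = 0) (h2 : ψ ⬝ᵥ v = 0) :
    ∃ c : k, v = c • (φ ⨯₃ ψ) := by
  refine eq_smul_of_cross h ?_
  rw [← cross_anticomm, cross_cross_eq_smul_sub_smul', dotProduct_comm v, h1, h2]
  simp

theorem exists_third {u v : Vc k} (h : u ⨯₃ v ≠ 0) : ∃ w, Ind u v w := by
  obtain ⟨w, hw⟩ := exists_dot_ne h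
  refine ⟨w, ind_of_det ?_⟩
  rw [det_cols, ← triple_product_permutation, dotProduct_comm, hw]
  exact one_ne_zero

theorem exists_second {u : Vc k} (h : u ≠ 0) : ∃ v, u ⨯₃ v ≠ 0 := by
  by_contra hc
  push Not at hc
  obtain ⟨a, ha⟩ := eq_smul_of_cross h (hc ![1, 0, 0])
  obtain ⟨b, hb⟩ := eq_smul_of_cross h (hc ![0, 1, 0])
  have h1 := congrFun ha 0
  have h2 := congrFun ha 1
  have h3 := congrFun hb 0
  have h4 := congrFun hb 1
  simp only [cons_val_zero, cons_val_one, Pi.smul_apply, smul_eq_mul] at h1 h2 h3 h4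
  grind

theorem rank_one {N : Mt k} (h : N.adjugate = 0) : ∃ v φ : Vc k, N = vecMulVec v φ := by
  by_cases h0 : N = 0
  · exact ⟨0, 0, by simp [h0]⟩
  obtain ⟨i, j, hij⟩ : ∃ i j, N i j ≠ 0 := by
    by_contra hc
    push Not at hc
    exact h0 (by ext i j; exact hc i j)
  simp only [eq9, adjugate_fin_three, of_apply, cons_val', cons_val_zero, cons_val_one,
    cons_val, Matrix.zero_apply, cons_val_fin_one] at h
  refine ⟨fun a => N a j, fun b => N i b / N i j, ?_⟩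
  ext a b
  rw [vecMulVec_apply, ← mul_div_assoc, eq_div_iff hij]
  fin_cases i <;> fin_cases j <;> fin_cases a <;> fin_cases b <;> simp <;> grind

theorem exists_cubic [IsAlgClosed k] (t s d : k) :
    ∃ a b c : k, t = a + b + c ∧ s = a * b + a * c + b * c ∧ d = a * b * c := by
  obtain ⟨a, ha⟩ := IsAlgClosed.exists_root (Polynomial.C (1 : k) * Polynomial.X ^ 3 +
    Polynomial.C (-t) * Polynomial.X ^ 2 + Polynomial.C s * Polynomial.X + Polynomial.C (-d))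
    (by rw [Polynomial.degree_cubic one_ne_zero]; simp)
  obtain ⟨b, hb⟩ := IsAlgClosed.exists_root (Polynomial.C (1 : k) * Polynomial.X ^ 2 +
    Polynomial.C (a - t) * Polynomial.X + Polynomial.C (s - a * (t - a)))
    (by rw [Polynomial.degree_quadratic one_ne_zero]; simp)
  simp only [Polynomial.IsRoot.def, Polynomial.eval_add, Polynomial.eval_mul, Polynomial.eval_C,
    Polynomial.eval_pow, Polynomial.eval_X] at ha hb
  exact ⟨a, b, t - a - b, by ring, by grind, by grind⟩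

theorem exists_quad [IsAlgClosed k] (a b c : k) (ha : a ≠ 0) : ∃ x : k, a * x ^ 2 + b * x + c = 0 := by
  obtain ⟨x, hx⟩ := IsAlgClosed.exists_root (Polynomial.C a * Polynomial.X ^ 2 +
    Polynomial.C b * Polynomial.X + Polynomial.C c)
    (by rw [Polynomial.degree_quadratic ha]; simp)
  exact ⟨x, by simpa using hx⟩

theorem adj_eq (A : Mt k) : A.adjugate = A * A - A.trace • A + A.adjugate.trace • 1 := by
  ext i j
  fin_cases i <;> fin_cases j <;>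
    simp [adjugate_fin_three, mul_apply, Fin.sum_univ_three, trace_fin_three] <;> ring

theorem det_sub (A : Mt k) (x : k) :
    (A - x • 1).det = A.det - A.adjugate.trace * x + A.trace * x ^ 2 - x ^ 3 := by
  simp [det_fin_three, adjugate_fin_three, trace_fin_three]; ring

theorem cayley (A : Mt k) :
    A * A * A - A.trace • (A * A) + A.adjugate.trace • A - A.det • 1 = 0 := by
  rw [← mul_adjugate A]
  conv_lhs => rw [adj_eq A]
  simp only [mul_add, mul_sub, mul_smul_comm, mul_one, mul_assoc]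
  rw [← adj_eq]; abel

/-- eigenvalues -/
structure Eig (A : Mt k) (a b c : k) : Prop where
  tr : A.trace = a + b + c
  ad : A.adjugate.trace = a * b + a * c + b * c
  det : A.det = a * b * c

theorem exists_eig [IsAlgClosed k] (A : Mt k) : ∃ a b c, Eig A a b c := by
  obtain ⟨a, b, c, h1, h2, h3⟩ := exists_cubic A.trace A.adjugate.trace A.det
  exact ⟨a, b, c, h1, h2, h3⟩

theorem Eig.swap {A : Mt k} {a b c : k} (h : Eig A a b c) : Eig A b a c :=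
  ⟨by rw [h.tr]; ring, by rw [h.ad]; ring, by rw [h.det]; ring⟩

theorem Eig.rot {A : Mt k} {a b c : k} (h : Eig A a b c) : Eig A b c a :=
  ⟨by rw [h.tr]; ring, by rw [h.ad]; ring, by rw [h.det]; ring⟩

theorem Eig.vec {A : Mt k} {a b c : k} (h : Eig A a b c) : ∃ v : Vc k, v ≠ 0 ∧ A *ᵥ v = a • v := by
  obtain ⟨v, hv, e⟩ := exists_mulVec_eq_zero_iff.2
    (show (A - a • 1).det = 0 by rw [det_sub, h.tr, h.ad, h.det]; ring)
  refine ⟨v, hv, ?_⟩
  rwa [sub_mulVec, smul_mulVec, one_mulVec, sub_eq_zero] at e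

theorem Eig.ch {A : Mt k} {a b c : k} (h : Eig A a b c) :
    (A - a • 1) * (A - b • 1) * (A - c • 1) = 0 := by
  rw [← cayley A, h.tr, h.ad, h.det]
  simp only [mul_sub, sub_mul, mul_smul_comm, smul_mul_assoc, mul_one, one_mul, smul_smul, smul_sub,
    add_smul]
  module

theorem Eig.adj {A : Mt k} {a c : k} (h : Eig A a a c) :
    (A - a • 1).adjugate = (A - a • 1) * (A - c • 1) := by
  have h1 := h.tr
  have h2 := h.ad
  simp only [adjugate_fin_three, trace_fin_three, of_apply, cons_val', cons_val_zero, cons_val_one,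
    cons_val, cons_val_fin_one] at h1 h2
  ext i j
  fin_cases i <;> fin_cases j <;>
    simp [adjugate_fin_three, mul_apply, Fin.sum_univ_three] <;> grind

end Cfsg.Agent.H6.M3
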