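import Cfsg.Agent.H6.M0
import Cfsg.Agent.H6.Exc

/-! Dickson's theorem over an algebraically closed field; groups generated by two root groups. -/

set_option autoImplicit false

namespace Cfsg.Agent.H6.M3

open Matrix OnePoint MulAction Cfsg.Agent.H6.Pg
open scoped MatrixGroups

variable {F : Type*} [Field F]

theorem inv_mem_subring' (s : Subring F) [Finite s] (c : F) (hc : c ∈ s) : c⁻¹ ∈ s := by
  by_cases h : c = 0
  · simp [h]
  obtain ⟨⟨d, hd⟩, e⟩ := Finite.surjective_of_injective (f := fun x : s => (⟨c * x, mul_mem hc x.2⟩ : s))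
    (fun x y e => Subtype.ext (mul_left_cancel₀ h (congrArg Subtype.val e))) 1
  rwa [inv_eq_of_mul_eq_one_right (congrArg Subtype.val e)]

/-- the identity on the projective line -/
def ratK (x : OnePoint F) : OnePoint F := x

theorem smul_ratK (g : PGL(2, F)) (x : OnePoint F) : g • ratK x = ratK (g • x) := rfl

theorem rat_injK {x y : OnePoint F} : ratK x = ratK y ↔ x = y := Iff.rfl

variable (F) in
theorem mobFK (p : ℕ) [Fact p.Prime] [CharP F p] [IsAlgClosed F] :
    Mob p PGL(2, F) (OnePoint F) := mob p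

variable {p : ℕ} [Fact p.Prime] [CharP F p] [IsAlgClosed F]

omit [IsAlgClosed F] in
theorem exists_aff_of_PK {u : PGL(2, F)} (h1 : u • ratK (F := F) ∞ = ratK ∞) (h2 : u ^ p = 1) :
    ∃ a, aff 1 a = u := by
  obtain ⟨a, b, ha, rfl⟩ := exists_aff h1
  exact ⟨b, by rw [(aff_pow_char p ha b).1 h2]⟩

theorem aff_mem_PK {M : Subgroup PGL(2, F)} {a : F} (h : aff 1 a ∈ M) :
    (⟨_, h⟩ : M) ∈ ((mobFK F p).subgroup M).P (ratK ∞) :=
  ⟨aff_infty one_ne_zero a, Subtype.ext ((aff_pow_char p one_ne_zero a).2 rfl)⟩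

theorem coreK (M : Subgroup PGL(2, F)) [Finite M] (b : ((mobFK F p).subgroup M).Big (ratK ∞))
    (h1 : aff 1 1 ∈ M) {g0 : PGL(2, F)} (hg0 : g0 ∈ M)
    (hg : g0 • (∞ : OnePoint F) = ((0 : F) : OnePoint F)) :
    ∃ L : Subfield F, Finite L ∧ 3 ≤ Nat.card L ∧ PS L ≤ M ∧ M ≤ PG L := by
  have hadd : ∀ a b : F, aff 1 a ∈ M → aff 1 b ∈ M → aff 1 (a + b) ∈ M := fun a b ha hb => by
    have := mul_mem hb ha
    rwa [aff_mul one_ne_zero one_ne_zero, one_mul, one_mul] at this
  let L0 : Subring F :=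
    { carrier := {c | ∀ a, aff 1 a ∈ M → aff 1 (c * a) ∈ M}
      mul_mem' := fun {a b} ha hb c hc => by rw [mul_assoc]; exact ha _ (hb _ hc)
      one_mem' := fun a ha => by rwa [one_mul]
      add_mem' := fun {a b} ha hb c hc => by rw [add_mul]; exact hadd _ _ (ha _ hc) (hb _ hc)
      zero_mem' := fun a _ => by rw [zero_mul, aff_one]; exact one_mem _
      neg_mem' := fun {a} ha c hc => by
        have := inv_mem (ha c hc)
        rwa [aff_inv one_ne_zero, inv_one, one_mul, ← neg_mul] at this }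
  have hfin : Finite L0 := Finite.of_injective
    (fun c : L0 => (⟨aff 1 c, by simpa using c.2 1 h1⟩ : M)) fun s t e =>
      Subtype.ext (aff_inj one_ne_zero one_ne_zero (congrArg Subtype.val e)).2
  let L : Subfield F := L0.toSubfield (inv_mem_subring' L0)
  have : Finite L := hfin
  have hL : ∀ c, c ∈ L ↔ ∀ a, aff 1 a ∈ M → aff 1 (c * a) ∈ M := fun c => Iff.rfl
  have hLA : ∀ c ∈ L, aff 1 c ∈ M := fun c hc => by simpa using (hL c).1 hc 1 h1
  have h0O : ratK ((0 : F) : OnePoint F) ∈ Mob.O M (ratK ∞) :=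
    Mob.mem_O.2 ⟨⟨g0, hg0⟩, (smul_ratK _ _).trans (by rw [hg])⟩
  have h0ne : ratK ((0 : F) : OnePoint F) ≠ ratK ∞ := by simp [rat_injK]
  have hT : Nat.card (stabilizer M (ratK (∞ : OnePoint F)) ⊓
      stabilizer M (ratK ((0 : F) : OnePoint F)) : Subgroup M) ≤ Nat.card L - 1 := by
    rw [← Nat.card_units]
    have : ∀ t : (stabilizer M (ratK (∞ : OnePoint F)) ⊓
        stabilizer M (ratK ((0 : F) : OnePoint F)) : Subgroup M), ∃ c : Lˣ, aff (c.1 : F) 0 = t.1.1 := by
      rintro ⟨⟨t, ht⟩, h2, h3⟩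
      obtain ⟨a, c, ha, rfl⟩ := exists_aff (rat_injK.1 ((smul_ratK _ _).symm.trans h2))
      have := rat_injK.1 ((smul_ratK _ _).symm.trans h3)
      rw [aff_some ha, coe_eq_coe, mul_zero, zero_add] at this
      subst this
      refine ⟨Units.mk0 ⟨a, (hL a).2 fun c hc => ?_⟩ (fun e => ha (congrArg Subtype.val e)), rfl⟩
      have := mul_mem (mul_mem ht hc) (inv_mem ht)
      rw [aff_inv ha, aff_mul ha one_ne_zero, aff_mul (by simpa) (by simpa)] at this
      simpa [ha] using this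
    choose c hc using this
    exact Nat.card_le_card_of_injective c fun s t e =>
      Subtype.ext (Subtype.ext (by rw [← hc, e, hc]))
  have hAL : ∀ a, aff 1 a ∈ M → a ∈ L := fun a ha => by
    by_contra hn
    have h2 : Nat.card (L × L) ≤ Nat.card (((mobFK F p).subgroup M).P (ratK ∞)) :=
      Nat.card_le_card_of_injective (fun c => ⟨_, aff_mem_PK (hadd _ _ (hLA _ c.1.2)
        ((hL _).1 c.2.2 a ha))⟩) (by
      rintro ⟨⟨s, hs⟩, t, ht⟩ ⟨⟨s', hs'⟩, t', ht'⟩ e
      have e' : s + t * a = s' + t' * a :=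
        (aff_inj one_ne_zero one_ne_zero (congrArg (fun x => x.1.1) e)).2
      have : t = t' := by
        by_contra hne
        apply hn
        rw [show a = (s' - s) / (t - t') by
          rw [eq_div_iff (sub_ne_zero.2 hne)]; linear_combination e']
        exact div_mem (sub_mem hs' hs) (sub_mem ht ht')
      subst this
      simpa using e')
    have h3 := b.card_two h0O h0ne
    have h4 := b.three_le
    have h5 := Nat.card_pos (α := L)
    have h7 := b.card
    rw [← h3] at h7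
    rw [Nat.card_prod] at h2
    generalize Nat.card (((mobFK F p).subgroup M).P (ratK ∞)) = q at *
    have h6 : q - 1 ≤ 2 * (Nat.card L - 1) := by
      rcases h7 with h7 | h7
      · have := Nat.eq_of_mul_eq_mul_left (by omega) h7
        omega
      · rw [mul_left_comm] at h7
        have := Nat.eq_of_mul_eq_mul_left (by omega) h7
        omega
    generalize Nat.card L = l at *
    obtain ⟨l, rfl⟩ := Nat.exists_eq_add_of_lt h5
    simp only [zero_add, add_tsub_cancel_right] at *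
    obtain ⟨q, rfl⟩ := Nat.exists_eq_add_of_le h4
    have : 2 + q ≤ 2 * l := by omega
    nlinarith
  have hO : ∀ z ∈ Mob.O M (ratK (∞ : OnePoint F)),
      ∃ x : OnePoint L, ratK (x.map L.subtype) = z := fun z hz => by
    by_cases hz' : z = ratK ∞
    · exact ⟨∞, hz'.symm⟩
    obtain ⟨⟨u, hu⟩, ⟨h2, h3⟩, rfl⟩ := b.P_trans h0O hz h0ne hz'
    obtain ⟨a, rfl⟩ := exists_aff_of_PK h2 (congrArg Subtype.val h3)
    refine ⟨(⟨a, hAL a hu⟩ : L), Eq.trans ?_ (smul_ratK _ _).symm⟩
    rw [aff_some one_ne_zero, mul_zero, zero_add]; rfl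
  have hO' : ∀ a ∈ L, ratK (a : OnePoint F) ∈ Mob.O M (ratK (∞ : OnePoint F)) := fun a ha => by
    have := Mob.inv_O (⟨_, hLA a ha⟩ : M) _ h0O
    rwa [Subgroup.mk_smul, smul_ratK, aff_some one_ne_zero, mul_zero, zero_add] at this
  refine ⟨L, this, b.three_le.trans ?_, ?_, fun g hg => ?_⟩
  · have : ∀ u : ((mobFK F p).subgroup M).P (ratK ∞), ∃ c : L, aff 1 (c : F) = u.1.1 := by
      rintro ⟨⟨u, hu⟩, h2, h3⟩
      obtain ⟨a, rfl⟩ := exists_aff_of_PK h2 (congrArg Subtype.val h3)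
      exact ⟨⟨a, hAL a hu⟩, rfl⟩
    choose c hc using this
    exact Nat.card_le_card_of_injective c fun s t e =>
      Subtype.ext (Subtype.ext (by rw [← hc, e, hc]))
  · rintro _ ⟨_, ⟨A, rfl⟩, rfl⟩
    induction A using SL2.transvection_induction with
    | hmul A B hA hB => rw [map_mul, map_mul]; exact mul_mem hA hB
    | htransvec i j hij c =>
      rw [MonoidHom.comp_apply, ← pg_coe, map_pg]
      fin_cases i <;> fin_cases j <;> try exact absurd rfl hij
      · convert hLA c c.2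
        rw [aff]
        congr 1
        ext i j
        fin_cases i <;> fin_cases j <;> simp [SpecialLinearGroup.transvection_coe]
      · have hw : (pg !![0, 1; 1, 0] : PGL(2, F)) • (∞ : OnePoint F) = ((0 : F) : OnePoint F) := by
          rw [pg_infty (by simp)]; simp
        have key : ∀ a : F, pg !![0, 1; 1, 0] * aff 1 a * (pg !![0, 1; 1, 0])⁻¹ =
            pg !![1, 0; a, 1] := fun a => by
          rw [mul_inv_eq_iff_eq_mul, aff, pg_mul (by simp) (by simp), pg_mul (by simp) (by simp)]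
          simp
        suffices pg !![1, 0; (c : F), 1] ∈ M by
          convert this
          ext i j
          fin_cases i <;> fin_cases j <;> simp [SpecialLinearGroup.transvection_coe]
        by_cases hc : (c : F) = 0
        · rw [hc, ← key, aff_one]; simp
        obtain ⟨⟨u, hu⟩, ⟨h2, h3⟩, h4⟩ := (b.of_mem h0O).P_trans (y := ratK ∞)
          (z := ratK ((c : F)⁻¹ : F)) (by rw [Mob.O_eq h0O]; exact Mob.self_mem_O _)
          (by rw [Mob.O_eq h0O]; exact hO' _ (inv_mem c.2)) h0ne.symm (by simp [rat_injK, hc])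
        rw [Subgroup.mk_smul, smul_ratK, rat_injK] at h2 h4
        obtain ⟨a, d, ha, rfl⟩ := exists_aff' (hw.symm ▸ h2)
        have h5 := congrArg Subtype.val h3
        rw [SubgroupClass.coe_pow, conj_pow, OneMemClass.coe_one, mul_inv_eq_one, mul_eq_left,
          aff_pow_char p ha] at h5
        subst h5
        rw [key] at hu h4
        rw [pg_infty (by simp)] at h4
        by_cases hd : d = 0
        · simp [hd] at h4
        · simp only [hd, Fin.isValue, of_apply, cons_val', cons_val_zero, cons_val_one,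
            cons_val_fin_one, if_false, one_div, coe_eq_coe, _root_.inv_inj] at h4
          rwa [← h4]
  · obtain ⟨x, hx⟩ := hO _ (Mob.inv_O (⟨g, hg⟩ : M) _ (Mob.self_mem_O _))
    obtain ⟨y, hy⟩ := hO _ (Mob.inv_O (⟨g, hg⟩ : M) _ h0O)
    obtain ⟨z, hz⟩ := hO _ (Mob.inv_O (⟨g, hg⟩ : M) _ (hO' 1 (one_mem _)))
    rw [Subgroup.mk_smul, smul_ratK, rat_injK] at hx hy hz
    obtain ⟨k, k1, k2, k3⟩ := exists_smul_three (x := x) (y := y) (z := z)
      (by rintro rfl; simpa using hx.symm.trans hy) (by rintro rfl; simpa using hx.symm.trans hz)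
      (by rintro rfl; simpa using hy.symm.trans hz)
    refine ⟨k, (inv_mul_eq_one.1 (three _ ∞ ((0 : F) : OnePoint F) ((1 : F) : OnePoint F)
      (by simp) (by simp) (by simp) ?_ ?_ ?_)).symm⟩ <;> rw [mul_smul, inv_smul_eq_iff]
    · rw [← hx, ← k1, ← Pg.map_smul']; rfl
    · rw [← hy, ← k2, ← Pg.map_smul']; rfl
    · rw [← hz, ← k3, ← Pg.map_smul']; rfl


/-- lower triangular unipotent elements -/
noncomputable def low (c : F) : PGL(2, F) := pg !![1, 0; c, 1]

omit [IsAlgClosed F] in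
theorem low_pow (c : F) (n : ℕ) : low c ^ n = low (n * c) := by
  induction n with
  | zero => rw [pow_zero, low, ← pg_one]; congr 1; ext i j; fin_cases i <;> fin_cases j <;> simp
  | succ n ih => rw [pow_succ, ih, low, low, low, pg_mul (by simp) (by simp)]; simp [add_mul]

omit [IsAlgClosed F] in
theorem low_eq_one {c : F} : low c = 1 ↔ c = 0 := by
  rw [low, pg_eq_one (by simp)]; simp

omit [IsAlgClosed F] in
theorem low_zero (c : F) : low c • ((0 : F) : OnePoint F) = ((0 : F) : OnePoint F) := by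
  rw [low, pg_some (by simp)]; simp

omit [IsAlgClosed F] in
theorem mem_of_aff {L : Subfield F} {a : F} (h : aff 1 a ∈ PG L) : a ∈ L := by
  obtain ⟨A, h1, h2, e⟩ := mem_PG.1 h
  obtain ⟨c, hc⟩ := (pg_eq_iff h1 (by simp)).1 e
  have e1 := congrFun (congrFun hc 0) 0
  have e2 := congrFun (congrFun hc 0) 1
  simp at e1 e2
  rw [← e2, eq_inv_of_mul_eq_one_left e1]
  exact mul_mem (inv_mem (h2 _ _)) (h2 _ _)

omit [IsAlgClosed F] in
theorem mem_of_low {L : Subfield F} {a : F} (h : low a ∈ PG L) : a ∈ L := by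
  obtain ⟨A, h1, h2, e⟩ := mem_PG.1 h
  obtain ⟨c, hc⟩ := (pg_eq_iff h1 (by simp)).1 e
  have e1 := congrFun (congrFun hc 0) 0
  have e2 := congrFun (congrFun hc 1) 0
  simp at e1 e2
  rw [← e2, eq_inv_of_mul_eq_one_left e1]
  exact mul_mem (inv_mem (h2 _ _)) (h2 _ _)

omit [IsAlgClosed F] in
theorem low_mem_PS {L : Subfield F} {a : F} (ha : a ∈ L) : low a ∈ PS L :=
  mem_PS.2 ⟨_, by simp, fun i j => by fin_cases i <;> fin_cases j <;> simp [ha], rfl⟩

theorem a5_three : ∀ x y : alternatingGroup (Fin 5), x ^ 3 = 1 → x ≠ 1 → x * y = y * x →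
    y = 1 ∨ y = x ∨ y * x = 1 := by decide +kernel

theorem mem_O_of_P {G X : Type*} [Group G] [MulAction G X] [Finite G] {h : Mob p G X} {x y : X}
    (b : h.Big x) (hy : h.P y ≠ ⊥) : y ∈ Mob.O G x := by
  by_contra hc
  obtain ⟨y', h1, -, h2, -⟩ := b.out hc fun e => hy (le_bot_iff.1 (e ▸ h.P_le y))
  obtain ⟨⟨u, hu⟩, hu1⟩ := (Subgroup.ne_bot_iff_exists_ne_one).1 hy
  exact h1 (h.not_fix_of_P hu (fun e => hu1 (Subtype.ext e)) (h2 ▸ h.P_le y hu :)).symm

theorem two_roots (p : ℕ) [Fact p.Prime] [CharP F p] (M : Subgroup PGL(2, F)) [Finite M]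
    (h1 : aff 1 1 ∈ M) {c : F} (hc : c ≠ 0) (h2 : low c ∈ M) :
    (∃ L : Subfield F, Finite L ∧ 3 ≤ Nat.card L ∧ PS L ≤ M ∧ M ≤ PG L) ∨
      (p = 2 ∧ ∀ a, aff 1 a ∈ M → a = 0 ∨ a = 1) ∨
      (p = 3 ∧ c ^ 4 = 1 ∧ (∀ a, aff 1 a ∈ M → a ^ 3 = a) ∧ ∃ g ∈ M, g ≠ 1 ∧ g ^ 2 = 1) := by
  have m := (mobFK F p).subgroup M
  have hu : (⟨_, h1⟩ : M) ∈ m.P ∞ := aff_mem_PK h1
  have hu1 : (⟨_, h1⟩ : M) ≠ 1 := fun e => by
    simpa [aff_eq_one one_ne_zero] using congrArg Subtype.val e
  have hv : (⟨_, h2⟩ : M) ∈ m.P ((0 : F) : OnePoint F) :=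
    ⟨low_zero c, Subtype.ext (by simp [low_pow, low_eq_one])⟩
  have hv1 : (⟨_, h2⟩ : M) ≠ 1 := fun e => by
    simpa [low_eq_one, hc] using congrArg Subtype.val e
  have hdvd : p ∣ Nat.card M := by
    rw [← orderOf_eq_prime hu.2 hu1]; exact orderOf_dvd_natCard _
  have hp : p.Prime := Fact.out
  rcases m.dickson with ⟨x, hx⟩ | ⟨x, y, hxy, hx⟩ | ⟨h5, ⟨e⟩⟩ | ⟨h5, ⟨e⟩⟩ | ⟨h3, h5, ⟨e⟩⟩ | ⟨x, b⟩
  · have := (Subgroup.eq_top_iff' _).1 hx
    have e := (m.not_fix_of_P hu hu1 (this _)).symm.trans (m.not_fix_of_P hv hv1 (this _))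
    simp at e
  · have hx := (Subgroup.eq_top_iff' _).1 hx
    have key : ∀ g : M, g ∈ m.P ∞ → g ≠ 1 → g • x = y ∧ g • y = x := fun g hg hg1 =>
      (hx g).resolve_left fun h => hxy
        ((m.not_fix_of_P hg hg1 h.1).trans (m.not_fix_of_P hg hg1 h.2).symm)
    refine Or.inr (Or.inl ⟨?_, fun a ha => ?_⟩)
    · have := m.sq_of_swap hxy (key _ hu hu1).1 (key _ hu hu1).2
      have h3 : orderOf (⟨_, h1⟩ : M) = 2 := orderOf_eq_prime (by rwa [sq]) hu1
      rw [← h3, orderOf_eq_prime hu.2 hu1]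
    · by_contra hn
      push Not at hn
      have k2 := key _ (aff_mem_PK ha) fun e => by
        simpa [aff_eq_one one_ne_zero, hn.1] using congrArg Subtype.val e
      have k1 := key _ hu hu1
      have := m.pelt _ x y (mul_mem (inv_mem hu) (aff_mem_PK ha)).2 hxy
        (by rw [mul_smul, k2.1, inv_smul_eq_iff, k1.1]) (by rw [mul_smul, k2.2, inv_smul_eq_iff, k1.2])
      exact hn.2 (aff_inj one_ne_zero one_ne_zero (congrArg Subtype.val (inv_mul_eq_one.1 this))).2.symm
  · rw [Nat.card_congr e.toEquiv, card_a4] at hdvd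
    have := Nat.le_of_dvd (by norm_num) hdvd
    interval_cases p <;> first | omega | norm_num at hp
  · rw [Nat.card_congr e.toEquiv, card_s4] at hdvd
    have := Nat.le_of_dvd (by norm_num) hdvd
    interval_cases p <;> first | omega | norm_num at hp
  · rw [Nat.card_congr e.toEquiv, card_a5] at hdvd
    have hp3 : p = 3 := by
      have := Nat.le_of_dvd (by norm_num) hdvd
      interval_cases p <;> first | omega | norm_num at hp
    subst hp3
    have h30 : (3 : F) = 0 := by simpa using CharP.cast_eq_zero F 3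
    refine Or.inr (Or.inr ⟨rfl, ?_, fun a ha => ?_, ?_⟩)
    · have key : ∀ d : F, d ≠ 0 → low d ∈ M →
          (2 + d) ^ 2 = 0 ∨ (2 + d) ^ 2 = 1 ∨ ((2 + d) ^ 2) ^ 2 - 3 * (2 + d) ^ 2 + 1 = 0 := by
        intro d hd h
        have e1 : aff 1 1 * low d = pg !![1 + d, 1; d, 1] := by
          rw [aff, low, pg_mul (by simp) (by simp)]; simp
        have e2 : tau (aff 1 1 * low d) = (2 + d) ^ 2 := by
          rw [e1, tau_pg (by simp)]; simp [trace_fin_two]; ring
        have e3 : aff 1 1 * low d ≠ 1 := by rw [e1, Ne, pg_eq_one (by simp)]; simp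
        rw [← e2, ← pow_two_iff e3, ← pow_three_iff e3, ← pow_five_iff e3]
        have := order_A5 ⟨e⟩ (mul_mem h1 h)
        simpa only [orderOf_dvd_iff_pow_eq_one] using this
      have h2' : low (-c) ∈ M := by
        have := pow_mem h2 2
        rwa [low_pow, show ((2 : ℕ) : F) * c = -c by push_cast; linear_combination c * h30] at this
      have k1 := key c hc h2
      have k2 := key (-c) (neg_ne_zero.2 hc) h2'
      clear key
      grind
    · rcases a5_three (e ⟨_, h1⟩) (e ⟨_, ha⟩) (by rw [← map_pow, hu.2, map_one])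
        (by simpa using hu1) (by
          rw [← map_mul, ← map_mul, m.pcomm _ _ ∞ hu.1 (aff_mem_PK ha).1 hu.2 (aff_mem_PK ha).2])
        with h | h | h
      · have := congrArg Subtype.val (e.map_eq_one_iff.1 h)
        rw [((aff_eq_one one_ne_zero a).1 this).2]; simp
      · rw [(aff_inj one_ne_zero one_ne_zero (congrArg Subtype.val (e.injective h))).2]; simp
      · rw [← map_mul, e.map_eq_one_iff] at h
        have := congrArg Subtype.val h
        simp only [MulMemClass.mk_mul_mk, aff_mul one_ne_zero one_ne_zero, OneMemClass.coe_one,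
          aff_eq_one (mul_ne_zero one_ne_zero one_ne_zero)] at this
        grind
    · refine ⟨e.symm a5t, (e.symm a5t).2, fun h => a5d.ne (by simpa using h), ?_⟩
      rw [← SubgroupClass.coe_pow, ← map_pow, sq, a5d.sq]; simp
  · have i1 := mem_O_of_P b (y := ∞) ((Subgroup.ne_bot_iff_exists_ne_one).2
      ⟨⟨_, hu⟩, fun e => hu1 (congrArg Subtype.val e)⟩)
    have i2 := mem_O_of_P b (y := ((0 : F) : OnePoint F)) ((Subgroup.ne_bot_iff_exists_ne_one).2
      ⟨⟨_, hv⟩, fun e => hv1 (congrArg Subtype.val e)⟩)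
    rw [← Mob.O_eq i1] at i2
    obtain ⟨⟨g, hg⟩, e⟩ := Mob.mem_O.1 i2
    exact Or.inl (coreK M (b.of_mem i1) h1 hg e)

/-- homogeneous coordinates -/
def vec : OnePoint F → Fin 2 → F
  | ∞ => ![1, 0]
  | (a : F) => ![a, 1]

omit [IsAlgClosed F] in
theorem pg_smul_iff {A : Matrix (Fin 2) (Fin 2) F} (hA : A.det ≠ 0) (x y : OnePoint F) :
    pg A • x = y ↔ ∃ c : F, A *ᵥ vec x = c • vec y := by
  have h2 : ∀ u v : Fin 2 → F, u = v ↔ u 0 = v 0 ∧ u 1 = v 1 := fun u v =>
    ⟨by rintro rfl; simp, fun h => by ext i; fin_cases i <;> simp [h]⟩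
  rw [det_fin_two] at hA
  have hA' : A.det ≠ 0 := by rwa [det_fin_two]
  cases x <;> cases y <;>
    simp only [pg_infty hA', pg_some hA', vec, h2, mulVec, dotProduct, Fin.sum_univ_two,
      cons_val_zero, cons_val_one, Pi.smul_apply, smul_eq_mul, mul_one, mul_zero, add_zero] <;>
    split_ifs with h <;> simp [h, div_eq_iff, mul_comm] <;> grind

omit [IsAlgClosed F] in
theorem vec_ind {x y : OnePoint F} (h : x ≠ y) : vec x 0 * vec y 1 - vec x 1 * vec y 0 ≠ 0 := by
  cases x <;> cases y <;> simp_all [vec, sub_eq_zero]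

omit [IsAlgClosed F] in
theorem exists_vec {v : Fin 2 → F} (h : v ≠ 0) : ∃ (x : OnePoint F) (c : F), c ≠ 0 ∧ v = c • vec x := by
  by_cases h1 : v 1 = 0
  · refine ⟨∞, v 0, fun e => h ?_, ?_⟩ <;> ext i <;> fin_cases i <;> simp [*, vec]
  · refine ⟨(v 0 / v 1 : F), v 1, h1, ?_⟩
    ext i; fin_cases i <;> simp [vec, mul_div_cancel₀ _ h1]

end Cfsg.Agent.H6.M3
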