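import Cfsg.Agent.H6.M1

/-! Types of elements of `PGL₃`; restriction to `PGL₂`. -/

set_option autoImplicit false

namespace Cfsg.Agent.H6.M3

open Matrix OnePoint MulAction Cfsg.Agent.H6.Pg
open scoped MatrixGroups

variable {k : Type*} [Field k]

theorem Eig.trace_pow {A : Mt k} {a b c : k} (h : Eig A a b c) (n : ℕ) :
    (A ^ n).trace = a ^ n + b ^ n + c ^ n := by
  have key : ∀ n, (A ^ n).trace = a ^ n + b ^ n + c ^ n ∧
      (A ^ (n + 1)).trace = a ^ (n + 1) + b ^ (n + 1) + c ^ (n + 1) ∧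
      (A ^ (n + 2)).trace = a ^ (n + 2) + b ^ (n + 2) + c ^ (n + 2) := by
    intro n
    induction n with
    | zero =>
      refine ⟨by simp; norm_num, by simpa using h.tr, ?_⟩
      have := congrArg trace (adj_eq A)
      simp only [trace_add, trace_sub, trace_smul, trace_one, h.tr, h.ad, smul_eq_mul,
        Fintype.card_fin] at this
      rw [zero_add, sq]
      push_cast at this
      linear_combination -this
    | succ n ih =>
      refine ⟨ih.2.1, ih.2.2, ?_⟩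
      have := congrArg (fun X => (A ^ n * X).trace) (cayley A)
      simp only [mul_add, mul_sub, mul_smul_comm, mul_one, mul_zero, trace_add, trace_sub,
        trace_smul, trace_zero, ← mul_assoc, ← pow_succ, ih.1, ih.2.1, ih.2.2, h.tr, h.ad, h.det,
        smul_eq_mul] at this
      linear_combination this
  exact (key n).1

theorem trace_pow_char [IsAlgClosed k] (p : ℕ) [Fact p.Prime] [CharP k p] (A : Mt k) (n : ℕ) :
    (A ^ p ^ n).trace = A.trace ^ p ^ n := by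
  obtain ⟨a, b, c, h⟩ := exists_eig A
  rw [h.trace_pow, h.tr, add_pow_char_pow, add_pow_char_pow]

/-- diagonal matrices -/
abbrev dg (a b c : k) : Mt k := !![a, 0, 0; 0, b, 0; 0, 0, c]

theorem ind_eig {A : Mt k} {a b c : k} {u v w : Vc k} (hab : a ≠ b) (hac : a ≠ c) (hbc : b ≠ c)
    (hu : u ≠ 0) (hv : v ≠ 0) (hw : w ≠ 0) (h1 : A *ᵥ u = a • u) (h2 : A *ᵥ v = b • v)
    (h3 : A *ᵥ w = c • w) : Ind u v w := fun x y z e => by
  have e1 := congrArg (A *ᵥ ·) e
  simp only [mulVec_add, mulVec_smul, h1, h2, h3, mulVec_zero] at e1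
  have e2 := congrArg (A *ᵥ ·) e1
  simp only [mulVec_add, mulVec_smul, h1, h2, h3, mulVec_zero] at e2
  have k1 : (x * ((a - b) * (a - c))) • u = 0 := by
    linear_combination (norm := module) e2 - (b + c) • e1 + (b * c) • e
  have k2 : (y * ((a - b) * (b - c))) • v = 0 := by
    linear_combination (norm := module) -e2 + (a + c) • e1 - (a * c) • e
  have k3 : (z * ((a - c) * (b - c))) • w = 0 := by
    linear_combination (norm := module) e2 - (a + b) • e1 + (a * b) • e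
  simp only [smul_eq_zero, mul_eq_zero, sub_eq_zero, hab, hac, hbc, hu, hv, hw, or_false] at k1 k2 k3
  exact ⟨k1, k2, k3⟩

theorem jordan_pow (a c : k) (n : ℕ) :
    !![a, 1, 0; 0, a, 0; 0, 0, c] ^ (n + 1) =
      !![a ^ (n + 1), (n + 1) * a ^ n, 0; 0, a ^ (n + 1), 0; 0, 0, c ^ (n + 1)] := by
  induction n with
  | zero => simp
  | succ n ih => rw [pow_succ, ih]; simp [eq9]; ring_nf; simp

namespace PR

variable {Γ : Type*} [Group Γ] (ρ : PR Γ k)

/-- there are non-trivial elations -/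
def HasEl : Prop := ∃ v φ : Vc k, v ≠ 0 ∧ φ ≠ 0 ∧ φ ⬝ᵥ v = 0 ∧ ρ.R1 v φ

theorem hasEl_of_cj {B B' : Mt k} (h : B * B' = 1) (H : (ρ.cj h).HasEl) : ρ.HasEl := by
  obtain ⟨v, φ, h1, h2, h3, h4⟩ := H
  refine ⟨_, _, mulVec_ne_zero (det_of_mul h).1 h1, vecMul_ne_zero (det_of_mul h).2 h2, ?_,
    (r1_cj h).1 h4⟩
  rw [dotProduct_mulVec, vecMul_vecMul, mul_eq_one_comm.1 h, vecMul_one, h3]

theorem types (p : ℕ) [Fact p.Prime] [CharP k p] [IsAlgClosed k] [Finite Γ] {g : Γ} (hg : g ≠ 1) :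
    (∃ (B B' : Mt k) (h : B * B' = 1) (a b c : k), a ≠ b ∧ a ≠ c ∧ b ≠ c ∧
      (ρ.cj h).L g (dg a b c)) ∨
    (∃ v φ : Vc k, φ ⬝ᵥ v ≠ 0 ∧ ρ.L g (1 + vecMulVec v φ)) ∨ ρ.HasEl ∨
    ∃ (B B' : Mt k) (h : B * B' = 1), (ρ.cj h).L g !![1, 1, 0; 0, 1, 1; 0, 0, 1] := by
  obtain ⟨A, hA⟩ := ρ.ex g
  have rk : ∀ a : k, a ≠ 0 → (A - a • 1).adjugate = 0 →
      (∃ v φ : Vc k, φ ⬝ᵥ v ≠ 0 ∧ ρ.L g (1 + vecMulVec v φ)) ∨ ρ.HasEl := fun a ha h => by
    obtain ⟨v, φ, e⟩ := rank_one h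
    have h1 : ρ.L g (1 + vecMulVec v (a⁻¹ • φ)) := by
      have := ρ.smul hA (inv_ne_zero ha)
      rwa [sub_eq_iff_eq_add'.1 e, smul_add, smul_smul, inv_mul_cancel₀ ha, one_smul,
        ← vecMulVec_smul] at this
    by_cases h2 : (a⁻¹ • φ) ⬝ᵥ v = 0
    · refine Or.inr ⟨v, _, ?_, fun e => ?_, h2, g, h1⟩
      · rintro rfl; exact hg (ρ.inj (by simpa using h1))
      · exact hg (ρ.inj (by simpa [e] using h1))
    · exact Or.inl ⟨v, _, h2, h1⟩
  have dbl : ∀ a c : k, Eig A a a c → (∃ v φ : Vc k, φ ⬝ᵥ v ≠ 0 ∧ ρ.L g (1 + vecMulVec v φ)) ∨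
      ρ.HasEl ∨ ∃ (B B' : Mt k) (h : B * B' = 1), (ρ.cj h).L g !![1, 1, 0; 0, 1, 1; 0, 0, 1] := by
    intro a c e
    have hd := ρ.det hA
    rw [e.det, mul_ne_zero_iff, mul_ne_zero_iff] at hd
    by_cases h0 : (A - a • 1) * (A - c • 1) = 0
    · exact (rk a hd.1.1 (e.adj.trans h0)).imp_right Or.inl
    obtain ⟨u, hu⟩ : ∃ u : Vc k, (A - a • 1) *ᵥ ((A - c • 1) *ᵥ u) ≠ 0 := by
      by_contra hc
      push Not at hc
      exact h0 (ext_of_mulVec_single fun i => by rw [← mulVec_mulVec, hc, zero_mulVec])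
    have h1 : (A - a • 1) *ᵥ ((A - a • 1) *ᵥ ((A - c • 1) *ᵥ u)) = 0 := by
      rw [mulVec_mulVec, mulVec_mulVec, e.ch, zero_mulVec]
    have hs : ∀ (x : k) (w : Vc k), A *ᵥ w = (A - x • 1) *ᵥ w + x • w := fun x w => by
      rw [sub_mulVec, smul_mulVec, one_mulVec, sub_add_cancel]
    by_cases hac : a = c
    · subst hac
      set N := A - a • 1
      have hi : Ind (N *ᵥ (N *ᵥ u)) (a • N *ᵥ u) ((a * a) • u) := fun x y z e => by
        have e1 := congrArg (N *ᵥ ·) e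
        simp only [mulVec_add, mulVec_smul, h1, mulVec_zero, smul_zero, zero_add] at e1
        have e2 := congrArg (N *ᵥ ·) e1
        simp only [mulVec_add, mulVec_smul, h1, mulVec_zero, smul_zero, zero_add, smul_eq_zero,
          hu, mul_eq_zero, hd.2, or_false] at e2
        subst e2
        simp only [zero_smul, add_zero, smul_eq_zero, hu, hd.2, or_false] at e1
        subst e1
        simpa only [zero_smul, add_zero, smul_eq_zero, hu, or_false, and_true] using e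
      obtain ⟨B', hB⟩ := hi.inv
      refine Or.inr (Or.inr ⟨_, B', hB, ?_⟩)
      have := ρ.cj_of hB (ρ.smul hA (inv_ne_zero hd.2)) (C := !![1, 1, 0; 0, 1, 1; 0, 0, 1]) (by
        rw [mul_cols, cols_mul]
        simp only [smul_mulVec, mulVec_smul]
        rw [hs a (N *ᵥ N *ᵥ u), hs a (N *ᵥ u), hs a u, h1]
        congr 1 <;> simp <;> match_scalars <;> field_simp [hd.2])
      exact this
    · obtain ⟨w, hw, hw'⟩ := e.rot.rot.vec
      set u2 := (A - c • 1) *ᵥ u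
      set N := A - a • 1 with hN
      have hw2 : N *ᵥ w = (c - a) • w := by rw [hN, sub_mulVec, smul_mulVec, one_mulVec, hw', sub_smul]
      have hi : Ind (N *ᵥ u2) u2 w := fun x y z e => by
        have e1 := congrArg (N *ᵥ ·) e
        simp only [mulVec_add, mulVec_smul, h1, mulVec_zero, smul_zero, zero_add, hw2] at e1
        have e2 := congrArg (N *ᵥ ·) e1
        simp only [mulVec_add, mulVec_smul, h1, mulVec_zero, smul_zero, zero_add, smul_eq_zero,
          hw2, hw, sub_eq_zero, Ne.symm hac, or_false] at e2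
        subst e2
        simp only [zero_smul, add_zero, smul_eq_zero, hu, or_false] at e1
        subst e1
        simpa [hu] using e
      obtain ⟨B', hB⟩ := hi.inv
      have h2 := ρ.cj_of hB hA (C := !![a, 1, 0; 0, a, 0; 0, 0, c]) (by
        rw [mul_cols, cols_mul, hs a (N *ᵥ u2), hs a u2, h1, hw', ← hN]
        congr 1 <;> simp)
      refine Or.inr (Or.inl (ρ.hasEl_of_cj hB ?_))
      obtain ⟨j, m, hm, hn⟩ := Nat.exists_eq_pow_mul_and_not_dvd (orderOf_pos g).ne' p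
        (Fact.out : p.Prime).ne_one
      obtain ⟨n, hn'⟩ := Nat.exists_eq_add_one_of_ne_zero (orderOf_pos g).ne'
      have h3 := (ρ.cj hB).pow h2 (n + 1)
      rw [jordan_pow, ← hn', pow_orderOf_eq_one] at h3
      obtain ⟨z, hz⟩ := (ρ.cj hB).uniq (ρ.cj hB).one h3
      simp only [eq9] at hz
      have h4 : (a / c) ^ m = 1 := by
        rw [← ExpChar.pow_prime_pow_mul_eq_one_iff p j, ← hn, div_pow, div_eq_one_iff_eq
          (pow_ne_zero _ hd.2)]
        simp at hz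
        rw [hz.1, hz.2.2.2]
      obtain ⟨m, rfl⟩ := Nat.exists_eq_add_one_of_ne_zero (show m ≠ 0 by rintro rfl; simp at hm)
      have h5 := (ρ.cj hB).smul ((ρ.cj hB).pow h2 (m + 1)) (inv_ne_zero (pow_ne_zero (m + 1) hd.2))
      rw [div_pow, div_eq_one_iff_eq (pow_ne_zero _ hd.2)] at h4
      refine ⟨![(m + 1) / a, 0, 0], ![0, 1, 0], fun e => ?_, by simp, by simp, g ^ (m + 1), ?_⟩
      · have := congrFun e 0
        simp only [cons_val_zero, Pi.zero_apply, div_eq_zero_iff, hd.1.1, or_false] at this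
        exact hm ((CharP.cast_eq_zero_iff k p _).1 (by exact_mod_cast this))
      · convert h5 using 1
        rw [jordan_pow, ← h4]
        have := hd.1.1
        simp [eq9, vecMulVec_apply, this]
        field_simp
        ring
  obtain ⟨a, b, c, e⟩ := exists_eig A
  by_cases hab : a = b
  · subst hab; exact Or.inr (dbl _ _ e)
  by_cases hac : a = c
  · subst hac; exact Or.inr (dbl _ _ e.rot.rot)
  by_cases hbc : b = c
  · subst hbc; exact Or.inr (dbl _ _ e.rot)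
  obtain ⟨u, hu, h1⟩ := e.vec
  obtain ⟨v, hv, h2⟩ := e.rot.vec
  obtain ⟨w, hw, h3⟩ := e.rot.rot.vec
  obtain ⟨B', hB⟩ := (ind_eig hab hac hbc hu hv hw h1 h2 h3).inv
  exact Or.inl ⟨_, B', hB, a, b, c, hab, hac, hbc, ρ.cj_of hB hA (by
    rw [mul_cols, cols_mul, h1, h2, h3]; congr 1 <;> simp)⟩

end PR

/-- the upper left block -/
def ul (A : Mt k) : Matrix (Fin 2) (Fin 2) k := !![A 0 0, A 0 1; A 1 0, A 1 1]

theorem ul_smul (c : k) (A : Mt k) : ul (c • A) = c • ul A := by simp [ul]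

theorem ul_mul {A B : Mt k} (h : A 0 2 = 0 ∧ A 1 2 = 0 ∨ B 2 0 = 0 ∧ B 2 1 = 0) :
    ul (A * B) = ul A * ul B := by
  rcases h with h | h <;> simp [ul, mul_apply, Fin.sum_univ_three, h]

theorem det_ul {A : Mt k} (h : A 0 2 = 0 ∧ A 1 2 = 0 ∨ A 2 0 = 0 ∧ A 2 1 = 0) :
    A.det = (ul A).det * A 2 2 := by
  rcases h with h | h <;> simp [ul, det_fin_three, h] <;> ring

namespace PR

variable {Γ : Type*} [Group Γ] (ρ : PR Γ k)

theorem exists_pi (H : Subgroup Γ)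
    (h : (∀ g ∈ H, ∀ A, ρ.L g A → A 0 2 = 0 ∧ A 1 2 = 0) ∨
      (∀ g ∈ H, ∀ A, ρ.L g A → A 2 0 = 0 ∧ A 2 1 = 0)) :
    ∃ π : H →* PGL(2, k), ∀ (g : H) (A : Mt k), ρ.L g A → (ul A).det ≠ 0 ∧ π g = pg (ul A) := by
  have h1 : ∀ (g : H) A, ρ.L g A → (ul A).det ≠ 0 := fun g A hA => by
    have := ρ.det hA
    rw [det_ul (h.imp (fun h => h g g.2 A hA) fun h => h g g.2 A hA)] at this
    exact left_ne_zero_of_mul this
  choose r hr using ρ.ex
  have h2 : ∀ (g : H) A, ρ.L g A → pg (ul (r g)) = pg (ul A) := fun g A hA => by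
    obtain ⟨c, hc, rfl⟩ := ρ.uniq' (hr g) hA
    rw [ul_smul, pg_smul hc]
  refine ⟨MonoidHom.mk' (fun g => pg (ul (r g))) fun a b => ?_, fun g A hA => ⟨h1 g A hA, h2 g A hA⟩⟩
  rw [pg_mul (h1 _ _ (hr _)) (h1 _ _ (hr _)), h2 (a * b) _ (ρ.mul (hr a) (hr b)),
    ul_mul (h.imp (fun h => h a a.2 _ (hr _)) fun h => h b b.2 _ (hr _))]

/-- a subgroup given by a closed set of matrices -/
def grp [Finite Γ] (S : Mt k → Prop) (h1 : S 1) (hm : ∀ A B, S A → S B → S (A * B)) :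
    Subgroup Γ where
  carrier := {g | ∃ A, ρ.L g A ∧ S A}
  one_mem' := ⟨1, ρ.one, h1⟩
  mul_mem' := fun ⟨A, h, hA⟩ ⟨B, h', hB⟩ => ⟨_, ρ.mul h h', hm _ _ hA hB⟩
  inv_mem' := fun {g} ⟨A, h, hA⟩ => by
    have : ∀ n, S (A ^ n) := fun n => by
      induction n with
      | zero => rwa [pow_zero]
      | succ n ih => rw [pow_succ]; exact hm _ _ ih hA
    obtain ⟨n, hn⟩ := Nat.exists_eq_add_one_of_ne_zero (orderOf_pos g).ne'
    have e : g⁻¹ = g ^ n := by rw [inv_eq_iff_mul_eq_one, ← pow_succ', ← hn, pow_orderOf_eq_one]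
    exact ⟨_, e ▸ ρ.pow h n, this n⟩

theorem mem_grp [Finite Γ] {S : Mt k → Prop} {h1 : S 1} {hm : ∀ A B, S A → S B → S (A * B)}
    {g : Γ} : g ∈ ρ.grp S h1 hm ↔ ∃ A, ρ.L g A ∧ S A := Iff.rfl

end PR

end Cfsg.Agent.H6.M3
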