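import Cfsg.Agent.H6.MB3

/-! Groups without elations whose homologies are involutions: types and centralisers. -/

set_option autoImplicit false

namespace Cfsg.Agent.H6.M3

open Matrix

variable {k : Type*} [Field k]

/-- the regular unipotent Jordan block -/
abbrev jb (k : Type*) [Field k] : Mt k := !![1, 1, 0; 0, 1, 1; 0, 0, 1]

theorem eq_one_of_cube {c : k} {n : ℕ} (h3 : c ^ 3 = 1) (hn : c ^ n = 1) (h : ¬ 3 ∣ n) : c = 1 := by
  have := pow_gcd_eq_one.2 ⟨h3, hn⟩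
  rwa [(Nat.Prime.coprime_iff_not_dvd Nat.prime_three).2 h, pow_one] at this

namespace PR

variable {Γ : Type*} [Group Γ] {ρ : PR Γ k}

variable (ρ) in
/-- all perspectivities are involutory homologies -/
def SA : Prop := ∀ v φ : Vc k, ρ.R1 v φ → v ≠ 0 → φ ≠ 0 → φ ⬝ᵥ v = -2 ∧ (2 : k) ≠ 0

theorem SA.cj (hs : ρ.SA) {B B' : Mt k} (h : B * B' = 1) : (ρ.cj h).SA := fun v φ h1 h2 h3 => by
  have := hs _ _ ((r1_cj h).1 h1) (mulVec_ne_zero (det_of_mul h).1 h2)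
    (vecMul_ne_zero (det_of_mul h).2 h3)
  rwa [dot_conj h] at this

theorem SA.not_el (hs : ρ.SA) {v φ : Vc k} (h : ρ.El v φ) : v = 0 ∨ φ = 0 := by
  by_contra hc
  push Not at hc
  obtain ⟨h1, h2⟩ := hs _ _ h.2 hc.1 hc.2
  exact h2 (by linear_combination h1 - h.1)

theorem SA.small (hs : ρ.SA) : ρ.Small := fun _ _ _ h1 h2 h3 _ =>
  absurd (hs.not_el h3) (by tauto)

theorem SA.sub (hs : ρ.SA) (H : Subgroup Γ) : (ρ.sub H).SA := fun v φ ⟨g, h⟩ =>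
  hs v φ ⟨g, h⟩

theorem SA.dg3 (hs : ρ.SA) {a b : k} (h : ρ.In (dg a a b)) : a = b ∨ a = -b := by
  have d := h.det
  simp only [dm3] at d
  have a0 : a ≠ 0 := by rintro rfl; simp at d
  by_cases hab : a = b
  · exact Or.inl hab
  have := hs ![0, 0, 1] ![0, 0, b / a - 1] (by
    rw [R1, r13]
    convert h.smul (inv_ne_zero a0) using 1
    simp [eq9, a0]; field_simp) (by simp) (by
      simp only [ne_eq, zv3, true_and, sub_eq_zero, div_eq_one_iff_eq a0]; exact Ne.symm hab)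
  right
  have h1 := this.1
  simp only [dot3] at h1
  field_simp at h1
  linear_combination h1

theorem SA.dg2 (hs : ρ.SA) {a b : k} (h : ρ.In (dg a b a)) : a = b ∨ a = -b :=
  (hs.cj (B := !![1, 0, 0; 0, 0, 1; 0, 1, 0]) (B' := !![1, 0, 0; 0, 0, 1; 0, 1, 0])
    (by simp [← one_fin_three])).dg3 (by rw [in_cj]; simpa using h)

theorem SA.dg1 (hs : ρ.SA) {a b : k} (h : ρ.In (dg b a a)) : a = b ∨ a = -b :=
  (hs.cj (B := !![0, 0, 1; 0, 1, 0; 1, 0, 0]) (B' := !![0, 0, 1; 0, 1, 0; 1, 0, 0])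
    (by simp [← one_fin_three])).dg3 (by rw [in_cj]; simpa using h)

theorem SA.unip (hs : ρ.SA) {a b c a' b' c' : k} (h : ρ.In !![1, a, b; 0, 1, c; 0, 0, 1])
    (h' : ρ.In !![1, a', b'; 0, 1, c'; 0, 0, 1]) : a * c' = a' * c := by
  simpa [sub_eq_zero] using hs.not_el (comm_unip h h')

variable (ρ) in
/-- lifts commute up to the scalar `c` -/
def Pr (g h : Γ) (c : k) : Prop := ∃ A B, ρ.L g A ∧ ρ.L h B ∧ B * A = c • (A * B)

section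
variable {g h h' : Γ} {c c' : k}

theorem Pr.all (H : ρ.Pr g h c) {A B : Mt k} (hA : ρ.L g A) (hB : ρ.L h B) :
    B * A = c • (A * B) := by
  obtain ⟨A', B', h1, h2, e⟩ := H
  obtain ⟨a, rfl⟩ := ρ.uniq h1 hA
  obtain ⟨b, rfl⟩ := ρ.uniq h2 hB
  simp only [smul_mul_assoc, mul_smul_comm, e, smul_smul]
  congr 1; ring

theorem Pr.uniq (H : ρ.Pr g h c) (H' : ρ.Pr g h c') : c = c' := by
  obtain ⟨A, B, h1, h2, e⟩ := H
  exact smul_cancel (ρ.det (ρ.mul h1 h2)) (e.symm.trans (H'.all h1 h2))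

theorem Pr.comm (H : ρ.Pr g h c) : g * h = h * g := by
  obtain ⟨A, B, h1, h2, e⟩ := H
  exact (ρ.comm_iff h1 h2).2 ⟨c, e⟩

theorem exists_pr (e : g * h = h * g) : ∃ c, ρ.Pr g h c := by
  obtain ⟨A, hA⟩ := ρ.ex g
  obtain ⟨B, hB⟩ := ρ.ex h
  exact ((ρ.comm_iff hA hB).1 e).imp fun c hc => ⟨A, B, hA, hB, hc⟩

theorem Pr.cube (H : ρ.Pr g h c) : c ^ 3 = 1 := by
  obtain ⟨A, B, h1, h2, e⟩ := H
  have := congrArg Matrix.det e
  rw [det_smul, det_mul, det_mul, mul_comm B.det, Fintype.card_fin] at this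
  exact (mul_eq_right₀ (mul_ne_zero (ρ.det h1) (ρ.det h2))).1 this.symm

theorem Pr.ne (H : ρ.Pr g h c) : c ≠ 0 := by
  rintro rfl; simpa using H.cube

theorem Pr.symm (H : ρ.Pr g h c) : ρ.Pr h g c⁻¹ := by
  have := H.ne
  obtain ⟨A, B, h1, h2, e⟩ := H
  exact ⟨B, A, h2, h1, by rw [e, smul_smul, inv_mul_cancel₀ this, one_smul]⟩

theorem Pr.symm1 (H : ρ.Pr g h 1) : ρ.Pr h g 1 := by simpa using H.symm

theorem Pr.mul (H : ρ.Pr g h c) (H' : ρ.Pr g h' c') : ρ.Pr g (h * h') (c * c') := by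
  obtain ⟨A, B, h1, h2, e⟩ := H
  obtain ⟨B', h3⟩ := ρ.ex h'
  refine ⟨A, B * B', h1, ρ.mul h2 h3, ?_⟩
  rw [mul_assoc, H'.all h1 h3, mul_smul_comm, ← mul_assoc, e, smul_mul_assoc, smul_smul, mul_comm c,
    mul_assoc]

theorem Pr.one (g : Γ) : ρ.Pr g 1 1 := by
  obtain ⟨A, hA⟩ := ρ.ex g
  exact ⟨A, 1, hA, ρ.one, by simp⟩

theorem Pr.self (g : Γ) : ρ.Pr g g 1 := by
  obtain ⟨A, hA⟩ := ρ.ex g
  exact ⟨A, A, hA, hA, by simp⟩

theorem Pr.pow (H : ρ.Pr g h c) (n : ℕ) : ρ.Pr g (h ^ n) (c ^ n) := by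
  induction n with
  | zero => simpa using Pr.one g
  | succ n ih => rw [pow_succ, pow_succ]; exact ih.mul H

theorem Pr.inv (H : ρ.Pr g h c) : ρ.Pr g h⁻¹ c⁻¹ := by
  obtain ⟨d, hd⟩ := exists_pr (ρ := ρ) (show Commute g h from H.comm).inv_right.eq
  have := H.mul hd
  rw [mul_inv_cancel] at this
  rwa [← eq_inv_of_mul_eq_one_right (this.uniq (Pr.one g))]

theorem Pr.conj (H : ρ.Pr g h c) (x : Γ) : ρ.Pr (x * g * x⁻¹) (x * h * x⁻¹) c := by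
  obtain ⟨A, B, h1, h2, e⟩ := H
  obtain ⟨X, hX⟩ := ρ.ex x
  obtain ⟨X', e1, e2⟩ := exists_inv (ρ.det hX)
  refine ⟨_, _, ρ.conj hX e1 h1, ρ.conj hX e1 h2, ?_⟩
  calc X * B * X' * (X * A * X') = X * (B * (X' * X) * A) * X' := by simp only [mul_assoc]
    _ = c • (X * (A * (X' * X) * B) * X') := by
      rw [e2, mul_one, mul_one, e, mul_smul_comm, smul_mul_assoc]
    _ = _ := by simp only [mul_assoc]

theorem pr_cj {B B' : Mt k} (hB : B * B' = 1) : (ρ.cj hB).Pr g h c ↔ ρ.Pr g h c := by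
  have key : ∀ {ρ : PR Γ k} {B B' : Mt k} (hB : B * B' = 1), (ρ.cj hB).Pr g h c → ρ.Pr g h c := by
    rintro ρ B B' hB ⟨A, C, h1, h2, e⟩
    refine ⟨_, _, h1, h2, ?_⟩
    calc B * C * B' * (B * A * B') = B * (C * (B' * B) * A) * B' := by simp only [mul_assoc]
      _ = c • (B * (A * (B' * B) * C) * B') := by
        rw [mul_eq_one_comm.1 hB, mul_one, mul_one, e, mul_smul_comm, smul_mul_assoc]
      _ = _ := by simp only [mul_assoc]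
  refine ⟨key hB, fun H => key (mul_eq_one_comm.1 hB) ?_⟩
  obtain ⟨e, he⟩ := cj_cj (ρ := ρ) hB (mul_eq_one_comm.1 hB)
  rw [he]
  simpa only [hB, cj_one] using H

theorem Pr.of_pow (H : ρ.Pr g h c) {n : ℕ} (hn : h ^ n = 1) (h3 : ¬ 3 ∣ n) : c = 1 := by
  have := H.pow n
  rw [hn] at this
  exact eq_one_of_cube H.cube (this.uniq (Pr.one g)) h3

end

variable (ρ) in
/-- elements whose lifts commute with the lifts of `g` -/
def T0 (g : Γ) : Subgroup Γ where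
  carrier := {h | ρ.Pr g h 1}
  one_mem' := Pr.one g
  mul_mem' := fun h h' => by simpa using Pr.mul h h'
  inv_mem' := fun h => by simpa using Pr.inv h

theorem mem_T0 {g h : Γ} : h ∈ ρ.T0 g ↔ ρ.Pr g h 1 := Iff.rfl

theorem self_mem_T0 (g : Γ) : g ∈ ρ.T0 g := Pr.self g

theorem T0_symm {g h : Γ} (H : h ∈ ρ.T0 g) : g ∈ ρ.T0 h := Pr.symm1 H

theorem T0_comm {g h : Γ} (H : h ∈ ρ.T0 g) : g * h = h * g := Pr.comm H

theorem T0_cj {B B' : Mt k} (hB : B * B' = 1) (g : Γ) : (ρ.cj hB).T0 g = ρ.T0 g :=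
  Subgroup.ext fun _ => pr_cj hB

theorem mem_T0_of_pow {g h : Γ} (e : g * h = h * g) {n : ℕ} (hn : h ^ n = 1) (h3 : ¬ 3 ∣ n) :
    h ∈ ρ.T0 g := by
  obtain ⟨c, hc⟩ := exists_pr (ρ := ρ) e
  obtain rfl := hc.of_pow hn h3
  exact hc

theorem mem_T0_of_inv {g t : Γ} (e : g * t = t * g) (ht : t * t = 1) : t ∈ ρ.T0 g :=
  mem_T0_of_pow e (n := 2) (by rwa [sq]) (by norm_num)

theorem T0_conj {g h : Γ} (H : h ∈ ρ.T0 g) (x : Γ) : x * h * x⁻¹ ∈ ρ.T0 (x * g * x⁻¹) :=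
  Pr.conj H x

variable (ρ) in
/-- regular semisimple -/
def Reg (g : Γ) : Prop :=
  ρ.Sm fun ρ' => ∃ a b c : k, a ≠ b ∧ a ≠ c ∧ b ≠ c ∧ ρ'.L g (dg a b c)

variable (ρ) in
/-- regular unipotent -/
def Jb (g : Γ) : Prop := ρ.Sm fun ρ' => ρ'.L g (jb k)

variable (ρ) in
/-- involutory homology -/
def Iv (g : Γ) : Prop := (2 : k) ≠ 0 ∧ ρ.Sm fun ρ' => ρ'.L g (dg (-1) (-1) 1)

theorem Iv.sq {t : Γ} (h : ρ.Iv t) : t * t = 1 := by
  obtain ⟨-, B, B', hB, h⟩ := h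
  exact (ρ.cj hB).inj (by simpa [dg_one] using (ρ.cj hB).mul h h)

theorem Reg.sq {g : Γ} (h : ρ.Reg g) : g * g ≠ 1 := fun e => by
  obtain ⟨B, B', hB, a, b, c, h1, h2, h3, h⟩ := h
  obtain ⟨z, hz⟩ := ((ρ.cj hB).eq_one_iff ((ρ.cj hB).mul h h)).1 e
  simp [eq9] at hz
  grind

theorem Jb.sq (hs : ρ.SA) {g : Γ} (h : ρ.Jb g) : g * g ≠ 1 ∧ (2 : k) ≠ 0 := by
  obtain ⟨B, B', hB, h⟩ := h
  have h2 := (ρ.cj hB).mul h h
  refine ⟨fun e => ?_, fun e => ?_⟩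
  · obtain ⟨z, hz⟩ := ((ρ.cj hB).eq_one_iff h2).1 e
    simp [eq9] at hz
  · have := (hs.cj hB).not_el (v := ![1, 0, 0]) (φ := ![0, 0, 1]) ⟨by simp, g * g, by
      convert h2 using 1
      rw [r13]
      simp [eq9, one_add_one_eq_two, e]⟩
    simp at this

theorem iv_of_r1 (hs : ρ.SA) {g : Γ} {v φ : Vc k} (h0 : φ ⬝ᵥ v ≠ 0)
    (h : ρ.L g (1 + vecMulVec v φ)) : ρ.Iv g := by
  have hφ : φ ≠ 0 := by rintro rfl; simp at h0
  have hv : v ≠ 0 := by rintro rfl; simp at h0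
  obtain ⟨h1, h2⟩ := hs v φ ⟨g, h⟩ hv hφ
  obtain ⟨ψ, hψ⟩ := exists_second hφ
  obtain ⟨w, hw⟩ := exists_third hψ
  obtain ⟨C, hC⟩ := hw.inv
  have e : ∀ i j, C i ⬝ᵥ ![φ, ψ, w] j = (1 : Mt k) i j := fun i j => by
    rw [← mul_eq_one_comm.1 hC, mul_apply]
    fin_cases j <;> rfl
  have e0 : ∀ i, φ ⬝ᵥ C i = (1 : Mt k) i 0 := fun i => by rw [← e, dotProduct_comm]; rfl
  have e1 : ∀ i, ψ ⬝ᵥ C i = (1 : Mt k) i 1 := fun i => by rw [← e, dotProduct_comm]; rfl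
  have e2 : ∀ i, w ⬝ᵥ C i = (1 : Mt k) i 2 := fun i => by rw [← e, dotProduct_comm]; rfl
  have hi : Ind (C 1) (C 2) v := fun x y z h => by
    have k0 := congrArg (φ ⬝ᵥ ·) h
    simp [dotProduct_add, e0, h0] at k0
    subst k0
    have k1 := congrArg (ψ ⬝ᵥ ·) h
    have k2 := congrArg (w ⬝ᵥ ·) h
    simp [dotProduct_add, e1, e2] at k1 k2
    exact ⟨k1, k2, rfl⟩
  obtain ⟨B', hB⟩ := hi.inv
  refine ⟨h2, _, B', hB, ρ.cj_of hB (ρ.smul h (c := -1) (by simp)) ?_⟩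
  rw [mul_cols, cols_mul]
  simp only [smul_mulVec, r1_mulVec, e0, h1]
  congr 1 <;> simp
  module

theorem types' (p : ℕ) [Fact p.Prime] [CharP k p] [IsAlgClosed k] [Finite Γ] (hs : ρ.SA) {g : Γ}
    (hg : g ≠ 1) : ρ.Iv g ∨ ρ.Reg g ∨ ρ.Jb g := by
  rcases ρ.types p hg with h | ⟨v, φ, h0, h⟩ | ⟨v, φ, h1, h2, h3, h4⟩ | h
  · exact Or.inr (Or.inl h)
  · exact Or.inl (iv_of_r1 hs h0 h)
  · exact absurd (hs.not_el ⟨h3, h4⟩) (by tauto)
  · exact Or.inr (Or.inr h)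

theorem iv_of_sq (p : ℕ) [Fact p.Prime] [CharP k p] [IsAlgClosed k] [Finite Γ] (hs : ρ.SA) {g : Γ}
    (hg : g ≠ 1) (h : g * g = 1) : ρ.Iv g := by
  rcases types' p hs hg with h' | h' | h'
  · exact h'
  · exact absurd h h'.sq
  · exact absurd h (h'.sq hs).1

theorem reg_or_jb (p : ℕ) [Fact p.Prime] [CharP k p] [IsAlgClosed k] [Finite Γ] (hs : ρ.SA) {g : Γ}
    (h : g * g ≠ 1) : ρ.Reg g ∨ ρ.Jb g :=
  (types' p hs (by rintro rfl; simp at h)).resolve_left fun h' => h h'.sq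

theorem diag_of_pr {g h : Γ} {a b c : k} (h1 : a ≠ b) (h2 : a ≠ c) (h3 : b ≠ c)
    (hg : ρ.L g (dg a b c)) (H : h ∈ ρ.T0 g) : ∃ x y z, ρ.L h (dg x y z) := by
  obtain ⟨B, hB⟩ := ρ.ex h
  have := Pr.all H hg hB
  obtain ⟨b0, b1, b2, b3, b4, b5, b6, b7, b8, rfl⟩ := ex9 B
  simp [eq9] at this
  refine ⟨b0, b4, b8, ?_⟩
  convert hB using 1
  rw [em3]
  grind

theorem toep_of_pr {g h : Γ} (hg : ρ.L g (jb k)) (H : h ∈ ρ.T0 g) :
    ∃ x y, ρ.L h !![1, x, y; 0, 1, x; 0, 0, 1] := by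
  obtain ⟨B, hB⟩ := ρ.ex h
  have := Pr.all H hg hB
  have d := ρ.det hB
  obtain ⟨b0, b1, b2, b3, b4, b5, b6, b7, b8, rfl⟩ := ex9 B
  simp [eq9] at this
  rw [dm3] at d
  have b00 : b0 ≠ 0 := by rintro rfl; grind
  refine ⟨b1 / b0, b2 / b0, ?_⟩
  convert ρ.smul hB (inv_ne_zero b00) using 1
  rw [sm3, em3]
  grind

theorem T0_ab (p : ℕ) [Fact p.Prime] [CharP k p] [IsAlgClosed k] [Finite Γ] (hs : ρ.SA)
    {g h h' : Γ} (hg : g * g ≠ 1) (H : h ∈ ρ.T0 g) (H' : h' ∈ ρ.T0 g) : h' ∈ ρ.T0 h := by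
  rcases reg_or_jb p hs hg with ⟨B, B', hB, a, b, c, h1, h2, h3, e⟩ | ⟨B, B', hB, e⟩ <;>
    rw [← T0_cj hB] at *
  · obtain ⟨x, y, z, e1⟩ := diag_of_pr h1 h2 h3 e H
    obtain ⟨x', y', z', e2⟩ := diag_of_pr h1 h2 h3 e H'
    exact ⟨_, _, e1, e2, by simp [mul_comm]⟩
  · obtain ⟨x, y, e1⟩ := toep_of_pr e H
    obtain ⟨x', y', e2⟩ := toep_of_pr e H'
    exact ⟨_, _, e1, e2, by simp [eq9, add_comm]; ring⟩

theorem T0_eq (p : ℕ) [Fact p.Prime] [CharP k p] [IsAlgClosed k] [Finite Γ] (hs : ρ.SA)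
    {g h : Γ} (hg : g * g ≠ 1) (hh : h * h ≠ 1) (H : h ∈ ρ.T0 g) : ρ.T0 h = ρ.T0 g :=
  le_antisymm (fun _ H' => T0_ab p hs hh (T0_symm H) H') fun _ H' => T0_ab p hs hg H H'

theorem inv_comm (p : ℕ) [Fact p.Prime] [CharP k p] [IsAlgClosed k] [Finite Γ] (hs : ρ.SA)
    {g t t' : Γ} (hg : g * g ≠ 1) (ht : t * t = 1) (ht' : t' * t' = 1) (e : g * t = t * g)
    (e' : g * t' = t' * g) : t * t' = t' * t :=
  T0_comm (T0_ab p hs hg (mem_T0_of_inv e ht) (mem_T0_of_inv e' ht'))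

theorem Jb.pow (p : ℕ) [Fact p.Prime] [CharP k p] (hs : ρ.SA) {g h : Γ} (hg : ρ.Jb g)
    (H : h ∈ ρ.T0 g) : h ^ p = 1 := by
  have h2 := (hg.sq hs).2
  obtain ⟨B, B', hB, e⟩ := hg
  rw [← T0_cj hB] at H
  obtain ⟨x, y, e1⟩ := toep_of_pr e H
  have h3 : 3 ≤ p := by
    have := (Fact.out : p.Prime).two_le
    have : p ≠ 2 := by rintro rfl; exact h2 (CharP.cast_eq_zero k 2)
    omega
  have := (ρ.cj hB).pow e1 p
  rw [show !![1, x, y; 0, 1, x; 0, 0, 1] = (1 : Mt k) + !![0, x, y; 0, 0, x; 0, 0, 0] by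
    simp [eq9], add_pow_char_of_commute _ (Commute.one_left _), one_pow, pow_eq_zero_of_le h3
    (show !![0, x, y; 0, 0, x; 0, 0, 0] ^ 3 = (0 : Mt k) by simp [pow_succ, eq9]),
    add_zero] at this
  exact (ρ.cj hB).inj this

theorem Jb.mem_T0 (p : ℕ) [Fact p.Prime] [CharP k p] (hs : ρ.SA) {g h : Γ} (hg : ρ.Jb g)
    (e : g * h = h * g) : h ∈ ρ.T0 g := by
  obtain ⟨c, hc⟩ := exists_pr (ρ := ρ) e.symm
  have h1 := hc.pow p
  rw [hg.pow p hs (self_mem_T0 g)] at h1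
  have h2 := h1.uniq (Pr.one h)
  rw [← pow_one p, ← mul_one (p ^ 1), ExpChar.pow_prime_pow_mul_eq_one_iff, pow_one] at h2
  subst h2
  exact hc.symm1

theorem Reg.pow (p : ℕ) [Fact p.Prime] [CharP k p] {g : Γ} (hg : ρ.Reg g) : g ^ p ≠ 1 := fun e => by
  obtain ⟨B, B', hB, a, b, c, h1, h2, h3, h⟩ := hg
  obtain ⟨z, hz⟩ := ((ρ.cj hB).eq_one_iff ((ρ.cj hB).pow h p)).1 e
  rw [dg_pow] at hz
  simp [eq9] at hz
  exact h1 (frobenius_inj k p (hz.1.trans hz.2.1.symm))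

theorem jb_of_pow (p : ℕ) [Fact p.Prime] [CharP k p] [IsAlgClosed k] [Finite Γ] (hs : ρ.SA) {g : Γ}
    (hg : g ≠ 1) (h : g ^ p = 1) : ρ.Jb g := by
  rcases types' p hs hg with h' | h' | h'
  · have h2 : p ≠ 2 := by rintro rfl; exact h'.1 (CharP.cast_eq_zero k 2)
    obtain ⟨n, rfl⟩ := (Fact.out : p.Prime).odd_of_ne_two h2
    rw [pow_succ, pow_mul, pow_two, h'.sq, one_pow, one_mul] at h
    exact absurd h hg
  · exact absurd h (h'.pow p)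
  · exact h'

/-- an element of order four commutes with only one involution -/
theorem four_uniq (p : ℕ) [Fact p.Prime] [CharP k p] [IsAlgClosed k] [Finite Γ] (hs : ρ.SA)
    {g s : Γ} (hg : g * g ≠ 1) (h4 : g * g * (g * g) = 1) (h1 : s ≠ 1) (h2 : s * s = 1)
    (e : g * s = s * g) : s = g * g := by
  rcases reg_or_jb p hs hg with ⟨B, B', hB, a, b, c, n1, n2, n3, h⟩ | h
  · have H := mem_T0_of_inv (ρ := ρ) e h2
    rw [← T0_cj hB] at H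
    replace hs := hs.cj hB
    generalize ρ.cj hB = ρ at *
    obtain ⟨x, y, z, h'⟩ := diag_of_pr n1 n2 n3 h H
    obtain ⟨u, hu⟩ := (ρ.eq_one_iff (ρ.mul h' h')).1 h2
    obtain ⟨w, hw⟩ := (ρ.eq_one_iff (ρ.mul (ρ.mul h h) (ρ.mul h h))).1 h4
    have d := ρ.det h
    have d' := ρ.det h'
    have k1 := mt (ρ.eq_one_iff h').2 h1
    have k2 := mt (ρ.eq_one_iff (ρ.mul h h)).2 hg
    have k3 : ρ.In (dg (a * x) (b * y) (c * z)) := ⟨_, dg_mul a b c x y z ▸ ρ.mul h h'⟩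
    have t1 : b * y = c * z → b * y = a * x ∨ b * y = -(a * x) := fun e => hs.dg1 (by rwa [← e] at k3)
    have t2 : a * x = c * z → a * x = b * y ∨ a * x = -(b * y) := fun e => hs.dg2 (by rwa [← e] at k3)
    have t3 : a * x = b * y → a * x = c * z ∨ a * x = -(c * z) := fun e => hs.dg3 (by rwa [← e] at k3)
    rw [ρ.eq_iff h' (ρ.mul h h)]
    simp [eq9, dm3] at hu hw d d' k1 k2 ⊢
    refine ⟨a * a / x, ?_⟩
    have x0 := d'.1.1
    have a0 := d.1.1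
    have e1 : y = x ∨ y = -x := mul_self_eq_mul_self_iff.1 (hu.2.1.trans hu.1.symm)
    have e2 : z = x ∨ z = -x := mul_self_eq_mul_self_iff.1 (hu.2.2.trans hu.1.symm)
    have e3 : b * b = a * a ∨ b * b = -(a * a) :=
      mul_self_eq_mul_self_iff.1 (hw.2.1.trans hw.1.symm)
    have e4 : c * c = a * a ∨ c * c = -(a * a) :=
      mul_self_eq_mul_self_iff.1 (hw.2.2.trans hw.1.symm)
    clear hu hw hs k3 h h' H
    field_simp
    rcases e1 with rfl | rfl <;> rcases e2 with rfl | rfl <;> rcases e3 with e3 | e3 <;>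
      rcases e4 with e4 | e4 <;> grind
  · have := h.pow p hs (mem_T0_of_inv e h2)
    have h3 : p ≠ 2 := by rintro rfl; exact (h.sq hs).2 (CharP.cast_eq_zero k 2)
    obtain ⟨n, rfl⟩ := (Fact.out : p.Prime).odd_of_ne_two h3
    rw [pow_succ, pow_mul, pow_two, h2, one_pow, one_mul] at this
    exact absurd this h1

end PR

end Cfsg.Agent.H6.M3
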