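import Cfsg.Agent.H6.MA1
import Cfsg.Agent.H4.CAEven2

/-! Pairs of elements whose lifts commute up to a primitive cube root of unity. -/

set_option autoImplicit false

namespace Cfsg.Agent.H6.M3

open Matrix Subgroup

variable {k : Type*} [Field k]

theorem cube_cases {a b : k} (ha : a ^ 3 = 1) (h1 : a ≠ 1) (hb : b ^ 3 = 1) :
    b = 1 ∨ b * a = 1 ∨ b * a * a = 1 := by
  have : a ^ 2 + a + 1 = 0 := mul_left_cancel₀ (sub_ne_zero.2 h1) (by linear_combination ha)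
  have h : (b - 1) * ((b * a - 1) * (b * a * a - 1)) = 0 := by
    linear_combination (b ^ 3 - b ^ 2) * ha + hb + (b - b ^ 2) * this
  simpa [sub_eq_zero] using h

/-- common centraliser -/
def RR {Γ : Type*} [Group Γ] (x c : Γ) : Subgroup Γ := centralizer {x} ⊓ centralizer {c}

theorem mem_RR {Γ : Type*} [Group Γ] {x c n : Γ} : n ∈ RR x c ↔ n * x = x * n ∧ n * c = c * n := by
  simp only [RR, mem_inf, mem_centralizer_singleton_iff]

theorem RR_comm {Γ : Type*} [Group Γ] (x c : Γ) : RR x c = RR c x := inf_comm _ _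

namespace PR

variable {Γ : Type*} [Group Γ] {ρ : PR Γ k}

variable (ρ) in
/-- commuting elements whose lifts do not commute -/
def RP (x c : Γ) : Prop := ∃ ω : k, ω ≠ 1 ∧ ρ.Pr x c ω

variable {x c n y : Γ}

theorem RP.comm (h : ρ.RP x c) : x * c = c * x := h.elim fun _ h => h.2.comm

theorem RP.symm (h : ρ.RP x c) : ρ.RP c x :=
  h.elim fun ω h => ⟨ω⁻¹, by simpa using h.1, h.2.symm⟩

theorem RP.not_mem (h : ρ.RP x c) : c ∉ ρ.T0 x := fun H => h.elim fun _ h => h.1 (h.2.uniq H)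

theorem rp_of (e : x * c = c * x) (h : c ∉ ρ.T0 x) : ρ.RP x c := by
  obtain ⟨ω, hω⟩ := exists_pr (ρ := ρ) e
  exact ⟨ω, by rintro rfl; exact h hω, hω⟩

theorem RP.conj (h : ρ.RP x c) (g : Γ) : ρ.RP (g * x * g⁻¹) (g * c * g⁻¹) :=
  h.imp fun _ h => ⟨h.1, h.2.conj g⟩

theorem rp_cj {B B' : Mt k} (hB : B * B' = 1) : (ρ.cj hB).RP x c ↔ ρ.RP x c := by
  simp only [RP, pr_cj]

theorem RP.ne (h : ρ.RP x c) : x ≠ 1 := by
  rintro rfl; exact h.symm.not_mem (one_mem _)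

theorem RP.mem_left (h : ρ.RP x c) : x ∈ RR x c := mem_RR.2 ⟨rfl, h.comm⟩
theorem RP.mem_right (h : ρ.RP x c) : c ∈ RR x c := mem_RR.2 ⟨h.comm.symm, rfl⟩

theorem RP.cent (h : ρ.RP x c) (e : n * x = x * n) :
    n ∈ ρ.T0 x ∨ n * c ∈ ρ.T0 x ∨ n * c * c ∈ ρ.T0 x := by
  obtain ⟨ω, h1, h2⟩ := h
  obtain ⟨a, ha⟩ := exists_pr (ρ := ρ) e.symm
  rcases cube_cases h2.cube h1 ha.cube with e | e | e
  · exact Or.inl (mem_T0.2 (e ▸ ha))
  · exact Or.inr (Or.inl (mem_T0.2 (e ▸ ha.mul h2)))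
  · exact Or.inr (Or.inr (mem_T0.2 (e ▸ (ha.mul h2).mul h2)))

variable [IsAlgClosed k]

theorem RP.std (h : ρ.RP x c) : ρ.Sm fun ρ' => ∃ ω d : k, ω ≠ 1 ∧ ω ^ 2 + ω + 1 = 0 ∧ d ≠ 0 ∧
    ρ'.L x (dg 1 ω (ω ^ 2)) ∧ ρ'.L c !![0, 0, d; 1, 0, 0; 0, 1, 0] := by
  obtain ⟨ω, h1, h2⟩ := h.symm
  have h3 : ω ^ 2 + ω + 1 = 0 := mul_left_cancel₀ (sub_ne_zero.2 h1) (by linear_combination h2.cube)
  obtain ⟨C, A, hC, hA, e⟩ := h2
  obtain ⟨a, b, f, he⟩ := exists_eig A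
  obtain ⟨u, hu, e0⟩ := he.vec
  have a0 : a ≠ 0 := by rintro rfl; exact mulVec_ne_zero (ρ.det hA) hu (by simpa using e0)
  have st : ∀ (w : Vc k) (z : k), A *ᵥ w = z • w → A *ᵥ (C *ᵥ w) = (z * ω) • C *ᵥ w := fun w z h => by
    rw [mulVec_mulVec, e, smul_mulVec, ← mulVec_mulVec, h, mulVec_smul, smul_smul, mul_comm]
  have e1 := st _ _ e0
  have e2 := st _ _ e1
  have n1 := mulVec_ne_zero (ρ.det hC) hu
  obtain ⟨B', hB⟩ := (ind_eig (by grind) (by grind) (by grind) hu n1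
    (mulVec_ne_zero (ρ.det hC) n1) e0 e1 e2).inv
  have k1 := ρ.cj_of hB (ρ.smul hA (inv_ne_zero a0)) (C := dg 1 ω (ω ^ 2)) (by
    rw [mul_cols, cols_mul]
    simp only [smul_mulVec, e0, e1, e2, smul_smul]
    congr 1 <;> simp <;> match_scalars <;> field_simp)
  obtain ⟨α, β, γ, h4⟩ := ex3 (B' *ᵥ (C *ᵥ C *ᵥ C *ᵥ u))
  have k2 := ρ.cj_of hB hC (C := !![0, 0, α; 1, 0, β; 0, 1, γ]) (by
    have := congrArg (cols u (C *ᵥ u) (C *ᵥ C *ᵥ u) *ᵥ ·) h4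
    simp only [mulVec_mulVec _ _ B', hB, one_mulVec, cols_mulVec] at this
    rw [mul_cols, cols_mul, this]
    congr 1 <;> simp)
  have k3 := ((pr_cj hB).2 ⟨C, A, hC, hA, e⟩).all k2 k1
  have d := (ρ.cj hB).det k2
  simp [eq9, dm3] at k3 d
  obtain rfl : β = 0 := by grind
  obtain rfl : γ = 0 := by grind
  exact ⟨_, B', hB, ω, α, h1, h3, d, k1, k2⟩

theorem RP.cube (h : ρ.RP x c) : x ^ 3 = 1 := by
  obtain ⟨B, B', hB, ω, d, h1, h2, h3, e, -⟩ := h.std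
  have := (ρ.cj hB).pow e 3
  rw [dg_pow, show ω ^ 3 = 1 by grind, show (ω ^ 2) ^ 3 = 1 by grind, one_pow, dg_one] at this
  exact (ρ.cj hB).inj this

theorem RP.sq (h : ρ.RP x c) : x * x ≠ 1 := fun e => h.ne (by
  rw [← h.cube, pow_succ, pow_two, e, one_mul])

theorem RP.order (h : ρ.RP x c) : orderOf x = 3 :=
  haveI : Fact (Nat.Prime 3) := ⟨Nat.prime_three⟩
  orderOf_eq_prime h.cube h.ne

theorem RP.reg (h : ρ.RP x c) : ρ.Reg x := by
  obtain ⟨B, B', hB, ω, d, h1, h2, h3, e, -⟩ := h.std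
  exact ⟨B, B', hB, _, _, _, by grind, by grind, by grind, e⟩

theorem RP.of_T0 (h : ρ.RP x c) (h1 : n ∈ ρ.T0 x) (h2 : n * c = c * n) :
    n = 1 ∨ n = x ∨ n = x * x := by
  obtain ⟨B, B', hB, ω, d, o1, o2, d0, ex, ec⟩ := h.std
  rw [← T0_cj hB] at h1
  generalize ρ.cj hB = ρ at *
  obtain ⟨a, b, f, en⟩ := diag_of_pr (by grind) (by grind) (by grind) ex h1
  obtain ⟨l, hl⟩ := exists_pr (ρ := ρ) h2
  have k1 := hl.all en ec
  have a0 := ρ.det en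
  simp [eq9, dm3] at k1 a0
  rw [ρ.eq_one_iff en, eq_comm, ρ.eq_iff ex en, eq_comm, ρ.eq_iff (ρ.mul ex ex) en]
  rcases cube_cases (show ω ^ 3 = 1 by grind) o1 hl.cube with e | e | e
  · exact Or.inl ⟨a, by simp [eq9]; grind⟩
  · exact Or.inr (Or.inl ⟨a, by simp [eq9]; grind⟩)
  · exact Or.inr (Or.inr ⟨a, by simp [eq9]; grind⟩)

theorem RP.free0 (hs : ρ.SA) (h : ρ.RP x c) (h1 : n ∈ ρ.T0 x) (h2 : n * c * n⁻¹ ∈ RR x c) :
    n * c = c * n := by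
  obtain ⟨ω', -, hω⟩ := id h
  have k0 : n * c * n⁻¹ * c⁻¹ ∈ ρ.T0 x := by
    have := ((Pr.mul h1 hω).mul (Pr.inv h1)).mul hω.inv
    rwa [one_mul, inv_one, mul_one, mul_inv_cancel₀ hω.ne] at this
  have k1 := h.of_T0 k0 (mem_RR.1 (mul_mem h2 (inv_mem h.mem_right))).2
  obtain ⟨B, B', hB, ω, d, o1, o2, d0, ex, ec⟩ := h.std
  rw [← T0_cj hB] at h1
  replace hs := hs.cj hB
  generalize ρ.cj hB = ρ at *
  obtain ⟨a, b, f, en⟩ := diag_of_pr (by grind) (by grind) (by grind) ex h1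
  have a0 := ρ.det en
  have t1 : b = f → b = a ∨ b = -a := fun e => hs.dg1 ⟨n, by rwa [← e] at en⟩
  have t2 : a = f → a = b ∨ a = -b := fun e => hs.dg2 ⟨n, by rwa [← e] at en⟩
  have t3 : a = b → a = f ∨ a = -f := fun e => hs.dg3 ⟨n, by rwa [← e] at en⟩
  have key : ∀ {z Z}, ρ.L z Z → n * c * n⁻¹ * c⁻¹ = z → ∃ l : k, l ^ 3 * Z.det = 1 ∧
      dg a b f * !![0, 0, d; 1, 0, 0; 0, 1, 0] =
        l • (Z * !![0, 0, d; 1, 0, 0; 0, 1, 0] * dg a b f) := fun {z Z} hz e => by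
    rw [mul_inv_eq_iff_eq_mul, mul_inv_eq_iff_eq_mul, eq_comm,
      ρ.eq_iff (ρ.mul (ρ.mul hz ec) en) (ρ.mul en ec)] at e
    refine e.imp fun l e => ⟨?_, e⟩
    have := congrArg Matrix.det e
    simp only [det_mul, det_smul, Fintype.card_fin] at this
    exact mul_right_cancel₀ (mul_ne_zero a0 (ρ.det ec)) (by linear_combination -this)
  simp [dm3] at a0
  have o3 : ω ^ 3 = 1 := by grind
  rcases k1 with e | e | e
  · rwa [mul_inv_eq_one, mul_inv_eq_iff_eq_mul] at e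
  · obtain ⟨l, l3, e⟩ := key ex e
    simp [eq9, dm3, d0] at e l3
    rcases cube_cases o3 o1 (show l ^ 3 = 1 by grind) with e | e | e <;> grind
  · obtain ⟨l, l3, e⟩ := key (ρ.mul ex ex) e
    simp [eq9, dm3, d0] at e l3
    rcases cube_cases o3 o1 (show l ^ 3 = 1 by grind) with e | e | e <;> grind

theorem RP.free1 (hs : ρ.SA) (h : ρ.RP x c) (h1 : n * x = x * n) (h2 : n * c * n⁻¹ ∈ RR x c) :
    n ∈ RR x c := by
  refine mem_RR.2 ⟨h1, ?_⟩
  rcases h.cent h1 with e | e | e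
  · exact h.free0 hs e h2
  · have := h.free0 hs e (by simpa [mul_assoc] using h2)
    rwa [← mul_assoc, mul_left_inj] at this
  · have := h.free0 hs e (by simpa [mul_assoc] using h2)
    rwa [← mul_assoc, ← mul_assoc, mul_left_inj, mul_left_inj] at this

theorem RP.exists_pow (h : ρ.RP x c) (hn : n ∈ RR x c) :
    ∃ i j : Fin 3, n = x ^ (i : ℕ) * c ^ (j : ℕ) := by
  have key : ∀ m ∈ RR x c, m ∈ ρ.T0 x → ∃ i : Fin 3, m = x ^ (i : ℕ) := fun m h1 h2 => by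
    rcases h.of_T0 h2 (mem_RR.1 h1).2 with e | e | e
    exacts [⟨0, by simpa⟩, ⟨1, by simpa⟩, ⟨2, e.trans (pow_two x).symm⟩]
  have c3 := h.symm.cube
  rcases h.cent (mem_RR.1 hn).1 with e | e | e
  · obtain ⟨i, hi⟩ := key _ hn e
    exact ⟨i, 0, by simpa⟩
  · obtain ⟨i, hi⟩ := key _ (mul_mem hn h.mem_right) e
    exact ⟨i, 2, by rw [← hi, mul_assoc, ← pow_succ']; simp [c3]⟩
  · obtain ⟨i, hi⟩ := key _ (mul_mem (mul_mem hn h.mem_right) h.mem_right) e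
    exact ⟨i, 1, by rw [← hi, mul_assoc, mul_assoc, ← pow_succ', ← pow_succ']; simp [c3]⟩

theorem RP.ab (h : ρ.RP x c) (hn : n ∈ RR x c) (hy : y ∈ RR x c) : n * y = y * n := by
  obtain ⟨i, j, rfl⟩ := h.exists_pow hy
  obtain ⟨h1, h2⟩ := mem_RR.1 hn
  exact ((Commute.pow_right h1 _).mul_right (Commute.pow_right h2 _)).eq

theorem RP.cube' (h : ρ.RP x c) (hn : n ∈ RR x c) : n ^ 3 = 1 := by
  obtain ⟨i, j, rfl⟩ := h.exists_pow hn
  rw [(Commute.pow_pow h.comm _ _).mul_pow, ← pow_mul, ← pow_mul, mul_comm _ 3, mul_comm _ 3,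
    pow_mul, pow_mul, h.cube, h.symm.cube]
  simp

theorem RP.card (h : ρ.RP x c) : Nat.card (RR x c) = 9 := by
  have := Nat.card_eq_of_bijective (fun q : Fin 3 × Fin 3 => (⟨x ^ (q.1 : ℕ) * c ^ (q.2 : ℕ),
    mul_mem (pow_mem h.mem_left _) (pow_mem h.mem_right _)⟩ : RR x c)) ⟨?_, ?_⟩
  · rw [← this]; simp
  · rintro ⟨i, j⟩ ⟨i', j'⟩ e
    simp only [Subtype.mk.injEq] at e
    obtain ⟨ω, h1, h2⟩ := id h
    have k1 := ((Pr.self x).pow i).mul (h2.pow j)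
    have k2 := ((Pr.self x).pow i').mul (h2.pow j')
    rw [e] at k1
    have k3 := k1.uniq k2
    haveI : Fact (Nat.Prime 3) := ⟨Nat.prime_three⟩
    simp only [one_pow, one_mul] at k3
    obtain rfl : j = j' := Fin.ext (pow_injOn_Iio_orderOf (x := ω)
      (by rw [orderOf_eq_prime h2.cube h1]; exact j.2)
      (by rw [orderOf_eq_prime h2.cube h1]; exact j'.2) k3)
    obtain rfl : i = i' := Fin.ext (pow_injOn_Iio_orderOf (x := x)
      (by rw [h.order]; exact i.2) (by rw [h.order]; exact i'.2) (mul_right_cancel e))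
    rfl
  · rintro ⟨n, hn⟩
    obtain ⟨i, j, rfl⟩ := h.exists_pow hn
    exact ⟨(i, j), rfl⟩

theorem RP.eq (h : ρ.RP x c) {c' : Γ} (hy : y ∈ RR x c) (hc : c' ∈ RR x c) (h' : ρ.RP y c') :
    RR y c' = RR x c := by
  have : Finite (RR y c') := Nat.finite_of_card_ne_zero (by rw [h'.card]; norm_num)
  exact (eq_of_le_of_card_ge (fun n hn => mem_RR.2 ⟨h.ab hn hy, h.ab hn hc⟩)
    (by rw [h.card, h'.card])).symm

theorem RP.exists (h : ρ.RP x c) (hy : y ∈ RR x c) (h1 : y ≠ 1) :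
    ∃ c', ρ.RP y c' ∧ RR y c' = RR x c := by
  obtain ⟨e1, e2⟩ := mem_RR.1 hy
  by_cases k1 : x ∈ ρ.T0 y
  · by_cases k2 : c ∈ ρ.T0 y
    · rcases h.of_T0 (T0_symm k1) e2 with e | rfl | rfl
      · exact absurd e h1
      · exact absurd k2 h.not_mem
      · have := mul_mem (T0_symm k2) (T0_symm k2)
        rw [show x * x * (x * x) = x ^ 3 * x by simp [pow_succ, mul_assoc], h.cube, one_mul] at this
        exact absurd this h.symm.not_mem
    · exact ⟨c, rp_of e2 k2, h.eq hy h.mem_right (rp_of e2 k2)⟩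
  · exact ⟨x, rp_of e1 k1, h.eq hy h.mem_left (rp_of e1 k1)⟩

theorem RP.free (hs : ρ.SA) (h : ρ.RP x c) (hn : n ∈ normalizer (RR x c : Set Γ))
    (hy : y ∈ RR x c) (h1 : y ≠ 1) (e : n * y = y * n) : n ∈ RR x c := by
  obtain ⟨c', h', e'⟩ := h.exists hy h1
  rw [← e'] at hn ⊢
  exact h'.free1 hs e ((mem_normalizer_iff.1 hn _).1 h'.mem_right)

theorem RP.four (hs : ρ.SA) (h : ρ.RP x c) (hn : n ∈ normalizer (RR x c : Set Γ)) :
    n ^ 4 ∈ RR x c ∨ n ^ 6 ∈ RR x c := by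
  have fr : ∀ j : ℕ, n ^ j * x * (n ^ j)⁻¹ = x → n ^ j ∈ RR x c := fun j e =>
    h.free hs (pow_mem hn j) h.mem_left h.ne (mul_inv_eq_iff_eq_mul.1 e)
  obtain ⟨φ, hφ⟩ : ∃ φ : Γ ≃* Γ, φ = MulAut.conj n := ⟨_, rfl⟩
  have e1 : ∀ g, φ g = n * g * n⁻¹ := fun g => by rw [hφ]; rfl
  have e2 : ∀ g, n ^ 2 * g * (n ^ 2)⁻¹ = φ (φ g) := fun g => by
    simp [e1, pow_succ, mul_assoc]
  have e4 : ∀ g, n ^ 4 * g * (n ^ 4)⁻¹ = φ (φ (φ (φ g))) := fun g => by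
    simp [e1, pow_succ, mul_assoc]
  have e6 : ∀ g, n ^ 6 * g * (n ^ 6)⁻¹ = φ (φ (φ (φ (φ (φ g))))) := fun g => by
    simp [e1, pow_succ, mul_assoc]
  have m1 : ∀ g ∈ RR x c, φ g ∈ RR x c := fun g hg => e1 g ▸ (mem_normalizer_iff.1 hn _).1 hg
  have x3 : x * x = x⁻¹ := by rw [eq_inv_iff_mul_eq_one, ← h.cube, pow_succ, pow_two]
  have y1 := m1 _ h.mem_left
  by_cases k1 : φ x ∈ ρ.T0 x
  · left
    rcases h.of_T0 k1 (mem_RR.1 y1).2 with e | e | e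
    · exact absurd (φ.map_eq_one_iff.1 e) h.ne
    · exact fr 4 (by simp only [e4, e])
    · exact fr 4 (by simp only [e4, e, x3, map_inv, inv_inv])
  have h' := rp_of (mem_RR.1 y1).1.symm k1
  have y2 := m1 _ y1
  rw [← h.eq h.mem_left y1 h'] at y2
  obtain ⟨i, j, e⟩ := h'.exists_pow y2
  obtain ⟨ω, o1, o2⟩ := id h'
  have k2 := o2.conj n
  rw [← e1, ← e1, e] at k2
  have k3 := k2.uniq ((o2.symm.pow i).mul ((Pr.self _).pow j))
  have o3 := o2.cube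
  have o0 := o2.ne
  have cm := h'.comm
  obtain rfl : i = 2 := by
    fin_cases i
    · simp [o1] at k3
    · simp at k3
      exact absurd (by field_simp at k3; grind) o1
    · rfl
  have y3 : φ x * φ x = (φ x)⁻¹ := by rw [← map_mul, x3, map_inv]
  simp only [Fin.val_two, pow_two, x3] at e
  fin_cases j
  · simp at e
    exact Or.inl (fr 4 (by simp only [e4, e, map_inv, inv_inv]))
  · simp at e
    have e3 : φ (φ (φ x)) = x⁻¹ := by
      rw [e, map_mul, map_inv, e, ← mul_assoc, (show Commute x (φ x) from cm).inv_inv.symm.eq]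
      simp
    exact Or.inr (fr 6 (by simp only [e6, e3, map_inv, inv_inv]))
  · simp only [pow_two, y3] at e
    have e3 : φ (φ (φ x)) = x := by
      rw [e, map_mul, map_inv, map_inv, e]
      simp
    exact Or.inr (fr 6 (by simp only [e6, e3]))

end PR

end Cfsg.Agent.H6.M3
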