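import Cfsg.Agent.H6.MA2

/-! Normalisers of tori and of unipotent subgroups. -/

set_option autoImplicit false

namespace Cfsg.Agent.H6.M3

open Matrix Subgroup

variable {k : Type*} [Field k]

/-- monomial matrices -/
def Mon (A : Mt k) (σ : Equiv.Perm (Fin 3)) : Prop := ∀ i j, A i j ≠ 0 → i = σ j

theorem exists_mon {A : Mt k} (hA : A.det ≠ 0) {d d' : Fin 3 → k} (hd : Function.Injective d) {c : k}
    (e : A * diagonal d = c • (diagonal d' * A)) : ∃ σ, Mon A σ := by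
  rw [det_apply] at hA
  obtain ⟨σ, -, h⟩ := Finset.exists_ne_zero_of_sum_ne_zero hA
  have h1 : ∀ j, A (σ j) j ≠ 0 := fun j => Finset.prod_ne_zero_iff.1
    (right_ne_zero_of_smul h) j (Finset.mem_univ _)
  have h2 : ∀ i j, A i j ≠ 0 → d j = c * d' i := fun i j h => by
    have := congrFun (congrFun e i) j
    simp only [mul_diagonal, Matrix.smul_apply, diagonal_mul, smul_eq_mul] at this
    exact mul_left_cancel₀ h (by linear_combination this)
  refine ⟨σ, fun i j h => ?_⟩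
  obtain ⟨j', rfl⟩ := σ.surjective i
  rw [hd ((h2 _ _ h).trans (h2 _ _ (h1 j')).symm)]

theorem Mon.mul {A B : Mt k} {σ τ : Equiv.Perm (Fin 3)} (h : Mon A σ) (h' : Mon B τ) :
    Mon (A * B) (σ * τ) := fun i j e => by
  rw [mul_apply] at e
  obtain ⟨l, -, e⟩ := Finset.exists_ne_zero_of_sum_ne_zero e
  rw [h _ _ (left_ne_zero_of_mul e), h' _ _ (right_ne_zero_of_mul e)]; rfl

theorem Mon.uniq {A : Mt k} (hA : A.det ≠ 0) {σ τ : Equiv.Perm (Fin 3)} (h : Mon A σ)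
    (h' : Mon A τ) : σ = τ := Equiv.ext fun j => by
  obtain ⟨i, hi⟩ : ∃ i, A i j ≠ 0 := by
    by_contra hc
    push Not at hc
    exact hA (det_eq_zero_of_column_eq_zero j hc)
  rw [← h _ _ hi, ← h' _ _ hi]

theorem Mon.smul {A : Mt k} {σ : Equiv.Perm (Fin 3)} (h : Mon A σ) (c : k) : Mon (c • A) σ :=
  fun i j e => h i j (right_ne_zero_of_mul e)

theorem dg_eq (a b c : k) : dg a b c = diagonal ![a, b, c] := by
  ext i j; fin_cases i <;> fin_cases j <;> simp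

theorem mon_dg (a b c : k) : Mon (dg a b c) 1 := fun i j e => by
  rw [dg_eq] at e
  by_contra h
  exact e (diagonal_apply_ne _ h)

theorem Mon.dg {A : Mt k} (h : Mon A 1) : A = dg (A 0 0) (A 1 1) (A 2 2) := by
  have := fun i j (e : i ≠ j) => not_not.1 (mt (h i j) e)
  rw [eq9]
  exact ⟨rfl, this _ _ (by decide), this _ _ (by decide), this _ _ (by decide), rfl,
    this _ _ (by decide), this _ _ (by decide), this _ _ (by decide), rfl⟩

namespace PR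

variable {Γ : Type*} [Group Γ] {ρ : PR Γ k}

theorem Reg.sigma {g : Γ} (hg : ρ.Reg g) :
    ∃ σ : normalizer (ρ.T0 g : Set Γ) →* Equiv.Perm (Fin 3), ∀ n, σ n = 1 ↔ n.1 ∈ ρ.T0 g := by
  obtain ⟨B, B', hB, a, b, c, h1, h2, h3, e⟩ := hg
  rw [← T0_cj hB]
  generalize ρ.cj hB = ρ at *
  have key : ∀ n : normalizer (ρ.T0 g : Set Γ), ∃ σ, ∀ A, ρ.L n A → Mon A σ := fun n => by
    obtain ⟨A, hA⟩ := ρ.ex n
    obtain ⟨x, y, z, e'⟩ := diag_of_pr h1 h2 h3 e ((mem_normalizer_iff.1 n.2 g).1 (self_mem_T0 g))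
    obtain ⟨l, hl⟩ := (ρ.conj_iff hA e e').1 rfl
    rw [dg_eq, dg_eq] at hl
    obtain ⟨σ, hσ⟩ := exists_mon (ρ.det hA) (fun i j => by
      fin_cases i <;> fin_cases j <;> simp [*, eq_comm]) hl
    refine ⟨σ, fun A' hA' => ?_⟩
    obtain ⟨r, rfl⟩ := ρ.uniq hA hA'
    exact hσ.smul r
  choose σ hσ using key
  refine ⟨MonoidHom.mk' σ fun n m => ?_, fun n => ⟨fun h => ?_, fun h => ?_⟩⟩
  · obtain ⟨A, hA⟩ := ρ.ex n
    obtain ⟨C, hC⟩ := ρ.ex m
    exact (hσ (n * m) _ (ρ.mul hA hC)).uniq (ρ.det (ρ.mul hA hC)) ((hσ _ _ hA).mul (hσ _ _ hC))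
  · obtain ⟨A, hA⟩ := ρ.ex n
    have := hσ _ _ hA
    rw [show σ n = 1 from h] at this
    rw [this.dg] at hA
    exact ⟨_, _, e, hA, by simp [mul_comm]⟩
  · obtain ⟨x, y, z, e'⟩ := diag_of_pr h1 h2 h3 e h
    exact (hσ _ _ e').uniq (ρ.det e') (mon_dg x y z)

theorem Reg.relIndex_dvd {g : Γ} (hg : ρ.Reg g) :
    (ρ.T0 g).relIndex (normalizer (ρ.T0 g : Set Γ)) ∣ 6 := by
  obtain ⟨σ, hσ⟩ := hg.sigma
  rw [relIndex, show (ρ.T0 g).subgroupOf _ = σ.ker from Subgroup.ext fun n => (hσ n).symm,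
    index_ker]
  have := card_subgroup_dvd_card σ.range
  rwa [Nat.card_perm, Nat.card_fin] at this

section Uni

variable {u n : Γ}

theorem ut_of_norm (hu : ρ.L u (jb k)) (h : n * u * n⁻¹ ∈ ρ.T0 u) :
    ∃ μ x y z, μ ≠ 0 ∧ ρ.L n !![μ, x, y; 0, 1, z; 0, 0, μ⁻¹] := by
  obtain ⟨α, β, e⟩ := toep_of_pr hu h
  obtain ⟨A, hA⟩ := ρ.ex n
  obtain ⟨l, hl⟩ := (ρ.conj_iff hA hu e).1 rfl
  have d := ρ.det hA
  obtain ⟨a0, a1, a2, a3, a4, a5, a6, a7, a8, rfl⟩ := ex9 A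
  simp only [mul_fin_three, sm3, em3, dm3] at hl d
  obtain rfl : l = 1 := by
    by_contra h
    obtain rfl : a6 = 0 := by grind
    obtain rfl : a7 = 0 := by grind
    grind
  obtain rfl : a6 = 0 := by grind
  obtain rfl : a7 = 0 := by grind
  obtain rfl : a3 = 0 := by grind
  have a40 : a4 ≠ 0 := by grind
  refine ⟨α, a1 / a4, a2 / a4, a5 / a4, by grind, ?_⟩
  convert ρ.smul hA (inv_ne_zero a40) using 1
  rw [sm3, em3]
  grind

theorem mem_of_unip (hs : ρ.SA) (hu : ρ.L u (jb k)) {x y z : k}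
    (h : ρ.L n !![1, x, y; 0, 1, z; 0, 0, 1]) : n ∈ ρ.T0 u := by
  have := hs.unip ⟨_, hu⟩ ⟨_, h⟩
  exact ⟨_, _, hu, h, by simp [eq9]; grind⟩

theorem norm_of_ut [Finite Γ] (hs : ρ.SA) (hu : ρ.L u (jb k)) {a b c x y z : k}
    (h : ρ.L n !![a, x, y; 0, b, z; 0, 0, c]) : n ∈ normalizer (ρ.T0 u : Set Γ) :=
  mem_normalizer_fintype fun m hm => by
    obtain ⟨α, β, e⟩ := toep_of_pr hu hm
    have d := ρ.det h
    have := ρ.smul (ρ.mul (ρ.mul h e) (ρ.inv_adj h)) (inv_ne_zero d)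
    simp only [dm3] at d
    refine mem_of_unip hs hu (x := a * α / b) (z := b * α / c)
      (y := (a * b * β + b * x * α - a * z * α) / (b * c)) ?_
    convert this using 1
    have : a ≠ 0 ∧ b ≠ 0 ∧ c ≠ 0 := by grind
    simp [adjugate_fin_three, eq9, dm3]
    grind

theorem Jb.norm (p : ℕ) [Fact p.Prime] [CharP k p] [IsAlgClosed k] [Finite Γ] (hs : ρ.SA)
    (hu : ρ.Jb u) (hw : 4 ≤ (ρ.T0 u).relIndex (normalizer (ρ.T0 u : Set Γ))) :
    ∃ δ : Γ, orderOf δ = (ρ.T0 u).relIndex (normalizer (ρ.T0 u : Set Γ)) ∧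
      centralizer {δ} = zpowers δ ∧
      ∀ n : Γ, n * δ * n⁻¹ ∈ zpowers δ → n * δ * n⁻¹ = δ ∨ n * δ * n⁻¹ = δ⁻¹ := by
  have hJ := hu
  obtain ⟨B, B', hB, hu⟩ := hu
  have hP : ∀ h ∈ ρ.T0 u, h ^ p = 1 := fun h => hJ.pow p hs
  rw [← T0_cj hB] at *
  replace hs := hs.cj hB
  clear hJ
  generalize ρ.cj hB = ρ at *
  have key : ∀ n : normalizer (ρ.T0 u : Set Γ), ∃ μ : kˣ, ∃ x y z,
      ρ.L n !![μ, x, y; 0, 1, z; 0, 0, (μ : k)⁻¹] := fun n => by
    obtain ⟨μ, x, y, z, h0, h⟩ := ut_of_norm hu ((mem_normalizer_iff.1 n.2 u).1 (self_mem_T0 u))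
    exact ⟨Units.mk0 μ h0, x, y, z, h⟩
  choose μ' hμ using key
  have un : ∀ (n : normalizer (ρ.T0 u : Set Γ)) {a x y z c}, ρ.L n !![a, x, y; 0, 1, z; 0, 0, c] →
      a = μ' n := fun n a x y z c h => by
    obtain ⟨x', y', z', h'⟩ := hμ n
    obtain ⟨l, hl⟩ := ρ.uniq h' h
    simp only [sm3, em3] at hl
    grind
  obtain ⟨μ, e⟩ : ∃ μ : normalizer (ρ.T0 u : Set Γ) →* kˣ, ∀ n, μ n = μ' n :=
    ⟨MonoidHom.mk' μ' fun n m => Units.ext (by
      obtain ⟨x, y, z, h⟩ := hμ n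
      obtain ⟨x', y', z', h'⟩ := hμ m
      have := ρ.mul h h'
      simp only [mul_fin_three, mul_zero, add_zero, zero_mul, zero_add, mul_one] at this
      exact (un (n * m) this).symm), fun _ => rfl⟩
  simp only [← e] at hμ un
  have ker : ∀ n, μ n = 1 ↔ n.1 ∈ ρ.T0 u := fun n => ⟨fun h => by
    obtain ⟨x, y, z, h'⟩ := hμ n
    rw [h, Units.val_one, inv_one] at h'
    exact mem_of_unip hs hu h', fun h => by
    obtain ⟨x, y, h'⟩ := toep_of_pr hu h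
    exact Units.ext (un n h').symm⟩
  rw [relIndex, show (ρ.T0 u).subgroupOf _ = μ.ker from Subgroup.ext fun n => (ker n).symm,
    index_ker] at hw ⊢
  have : Finite μ.range := Finite.of_surjective _ μ.rangeRestrict_surjective
  obtain ⟨⟨_, δ, rfl⟩, hδ⟩ := IsCyclic.exists_generator (α := μ.range)
  have o1 : orderOf (μ δ) = Nat.card μ.range := by
    rw [← orderOf_eq_card_of_forall_mem_zpowers hδ, ← Subgroup.orderOf_coe]
  rw [← o1] at hw ⊢
  have np : ∀ j, 0 < j → j < 4 → (μ δ : k) ^ j ≠ 1 := fun j h1 h2 e => by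
    have := Nat.le_of_dvd h1 (orderOf_dvd_of_pow_eq_one (Units.ext e : μ δ ^ j = 1))
    omega
  have n1 := np 1 (by norm_num) (by norm_num)
  have n2 := np 2 (by norm_num) (by norm_num)
  have n3 := np 3 (by norm_num) (by norm_num)
  have m0 := (μ δ).ne_zero
  have d2 : δ.1 * δ.1 ≠ 1 := fun e => n2 (by
    rw [← Units.val_pow_eq_pow_val, ← map_pow, pow_two, show δ * δ = 1 from Subtype.ext e]; simp)
  obtain ⟨x, y, z, eδ⟩ := hμ δ
  have t1 : ∀ h ∈ ρ.T0 δ, h ∈ normalizer (ρ.T0 u : Set Γ) := fun h hh => by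
    obtain ⟨A, hA⟩ := ρ.ex h
    have := Pr.all hh eδ hA
    obtain ⟨a0, a1, a2, a3, a4, a5, a6, a7, a8, rfl⟩ := ex9 A
    simp only [mul_fin_three, one_smul, em3] at this
    obtain rfl : a6 = 0 := by grind
    obtain rfl : a7 = 0 := by grind
    obtain rfl : a3 = 0 := by grind
    exact norm_of_ut hs hu hA
  have inj : ∀ m m' : normalizer (ρ.T0 u : Set Γ), m.1 ∈ ρ.T0 δ → m'.1 ∈ ρ.T0 δ → μ m = μ m' →
      m = m' := fun m m' h h' e => by
    by_contra hne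
    have k1 : (m * m'⁻¹).1 ∈ ρ.T0 u := (ker _).1 (by simp [e])
    have k2 : (m * m'⁻¹).1 ≠ 1 := fun e => hne (mul_inv_eq_one.1 (Subtype.ext e))
    have k3 := ((jb_of_pow p hs k2 (hP _ k1)).sq hs).1
    have k4 := T0_symm (mul_mem h (inv_mem h'))
    rw [show m.1 * m'.1⁻¹ = (m * m'⁻¹).1 from rfl,
      T0_eq p hs ((Jb.sq hs (Sm.of hu)).1) k3 k1, ← ker] at k4
    exact n1 (by simp [k4])
  have t2 : ∀ h ∈ ρ.T0 δ, h ∈ zpowers δ.1 := fun h hh => by
    obtain ⟨j, hj⟩ := hδ ⟨_, ⟨h, t1 h hh⟩, rfl⟩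
    exact ⟨j, congrArg Subtype.val (inj (δ ^ j) ⟨h, t1 h hh⟩ (zpow_mem (self_mem_T0 _) j) hh
      (by simpa using congrArg Subtype.val hj))⟩
  refine ⟨δ, ?_, le_antisymm (fun h hh => t2 h ?_) ?_, fun n hn => ?_⟩
  · rw [Subgroup.orderOf_coe]
    refine orderOf_eq_orderOf_iff.2 fun j => ⟨fun e => by rw [← map_pow, e, map_one], fun e => ?_⟩
    exact inj _ _ (pow_mem (self_mem_T0 _) j) (one_mem _) (by simpa using e)
  · by_contra hc
    have := (rp_of (mem_centralizer_singleton_iff.1 hh).symm hc).cube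
    exact n3 (by rw [← Units.val_pow_eq_pow_val, ← map_pow, show δ ^ 3 = 1 from Subtype.ext this]; simp)
  · rw [zpowers_le, mem_centralizer_singleton_iff]
  · have k1 : n * δ * n⁻¹ ∈ ρ.T0 δ := (zpowers_le.2 (self_mem_T0 _)) hn
    obtain ⟨x', y', z', e'⟩ := hμ ⟨_, t1 _ k1⟩
    obtain ⟨A, hA⟩ := ρ.ex n
    obtain ⟨l, hl⟩ := (ρ.conj_iff hA eδ e').1 rfl
    generalize hν : μ ⟨_, t1 _ k1⟩ = ν at *
    have ν0 := ν.ne_zero
    have key : ∀ r : k, (!![(μ δ : k), x, y; 0, 1, z; 0, 0, (μ δ : k)⁻¹] - r • (1 : Mt k)).det =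
        (l • !![(ν : k), x', y'; 0, 1, z'; 0, 0, (ν : k)⁻¹] - r • (1 : Mt k)).det := fun r => by
      refine mul_left_cancel₀ (ρ.det hA) ?_
      rw [← det_mul, mul_comm A.det, ← det_mul, mul_sub, sub_mul, hl, smul_mul_assoc,
        smul_mul_assoc, mul_smul_comm, mul_one, one_mul]
    have k0 := key 0
    have k2 := key l
    have k3 := key ν
    simp [det_fin_three] at k0 k2 k3
    obtain rfl : l = 1 := by clear * - k0 k2 n3 m0 ν0; grind
    have k4 : ν = μ δ ∨ ν = (μ δ)⁻¹ := by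
      simp only [Units.ext_iff, Units.val_inv_eq_inv_val]
      have : (ν : k) ≠ 1 := fun e => by
        have := inj ⟨_, t1 _ k1⟩ 1 k1 (one_mem _) (by rw [hν, map_one]; exact Units.ext e)
        exact d2 (by simpa [mul_assoc] using congrArg (fun m => n⁻¹ * m.1 * n * (n⁻¹ * m.1 * n)) this)
      clear * - k3 this m0 ν0
      grind
    exact k4.imp (fun e => congrArg Subtype.val (inj ⟨_, t1 _ k1⟩ δ k1 (self_mem_T0 _)
      (hν.trans e))) fun e => congrArg Subtype.val (inj ⟨_, t1 _ k1⟩ δ⁻¹ k1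
        (inv_mem (self_mem_T0 _)) (by rw [hν, e, map_inv]))

end Uni

end PR

end Cfsg.Agent.H6.M3
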