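import Cfsg.Agent.H6.MA3

/-! Centralisers of involutions. -/

set_option autoImplicit false

namespace Cfsg.Agent.H6.M3

open Matrix Subgroup OnePoint Cfsg.Agent.H6.Pg
open scoped MatrixGroups

variable {k : Type*} [Field k]

theorem a4_two : ∀ y : alternatingGroup (Fin 4), y * y = 1 →
    ∃ a b : alternatingGroup (Fin 4), y = a * y * a⁻¹ * (b * y * b⁻¹) := by decide +kernel

theorem a5_two : ∀ y : alternatingGroup (Fin 5), y * y = 1 →
    ∃ a b : alternatingGroup (Fin 5), y = a * y * a⁻¹ * (b * y * b⁻¹) := by decide +kernel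

theorem s4_two : ∀ y : Equiv.Perm (Fin 4), y * y = 1 → Equiv.Perm.sign y = 1 →
    ∃ a b : Equiv.Perm (Fin 4), y = a * y * a⁻¹ * (b * y * b⁻¹) := by decide +kernel

/-- the structure of the centraliser of an involution -/
structure CI {Γ : Type*} [Group Γ] (t : Γ) (χ : centralizer {t} →* kˣ) : Prop where
  two : (-1 : kˣ) ≠ 1
  chi_t : ∀ s : centralizer {t}, s.1 = t → χ s = 1
  chi_s : ∀ s : centralizer {t}, s * s = 1 → s ≠ 1 → s.1 ≠ t → χ s = -1
  cases : (∃ s : centralizer {t}, s * s = 1 ∧ s ≠ 1 ∧ s.1 ≠ t) →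
    (∀ a b : centralizer {t}, a * b = b * a) ∨
    (∃ T : Subgroup (centralizer {t}), T.index = 2 ∧ (∀ a ∈ T, ∀ b ∈ T, a * b = b * a) ∧
      (∀ s ∉ T, s * s = 1 ∧ χ s = -1 ∨ (s * s).1 = t ∧ χ s = 1) ∧
      ∀ δ ∈ T, ∀ s ∉ T, δ * s = s * δ → δ = 1 ∨ δ.1 = t) ∨
    ∃ π : centralizer {t} →* Equiv.Perm (Fin 4), Function.Surjective π ∧
      (∀ g, π g = 1 ↔ g = 1 ∨ g.1 = t) ∧
      ∀ s : centralizer {t}, s * s = 1 → s ≠ 1 → s.1 ≠ t → Equiv.Perm.sign (π s) = -1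

namespace PR

variable {Γ : Type*} [Group Γ] {ρ : PR Γ k} {t : Γ}

theorem bk_of_comm (h2 : (2 : k) ≠ 0) (ht : ρ.L t (dg (-1) (-1) 1)) {g : Γ}
    (hg : g ∈ centralizer {t}) : ∃ A, ρ.L g A ∧ Bk A := by
  obtain ⟨A, hA⟩ := ρ.ex g
  have := Pr.all (T0_symm (mem_T0_of_inv (mem_centralizer_singleton_iff.1 hg)
    (Iv.sq ⟨h2, Sm.of ht⟩))) ht hA
  have d := ρ.det hA
  obtain ⟨a0, a1, a2, a3, a4, a5, a6, a7, a8, rfl⟩ := ex9 A
  simp only [mul_fin_three, one_smul, em3, dm3] at this d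
  obtain rfl : a2 = 0 := by grind
  obtain rfl : a5 = 0 := by grind
  obtain rfl : a6 = 0 := by grind
  obtain rfl : a7 = 0 := by grind
  have : a8 ≠ 0 := by grind
  exact ⟨_, ρ.smul hA (inv_ne_zero this), by simp [Bk, this]⟩

theorem SA.scal (hs : ρ.SA) (ht : ρ.L t (dg (-1) (-1) 1)) {g : Γ} {a : k}
    (h : ρ.L g (dg a a 1)) : g = 1 ∧ a = 1 ∨ g = t ∧ a = -1 :=
  (hs.dg3 ⟨g, h⟩).imp (by rintro rfl; exact ⟨ρ.inj (dg_one (k := k) ▸ h), rfl⟩)
    (by rintro rfl; exact ⟨ρ.eq_of h ht, rfl⟩)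

theorem Iv.ci (p : ℕ) [Fact p.Prime] [CharP k p] [IsAlgClosed k] [Finite Γ] (hs : ρ.SA)
    (h : ρ.Iv t) : ∃ χ : centralizer {t} →* kˣ, CI t χ := by
  obtain ⟨h2, B, B', hB, ht⟩ := h
  replace hs := hs.cj hB
  generalize ρ.cj hB = ρ at *
  clear hB B B'
  have hX := fun g => bk_of_comm (g := g) h2 ht
  have key : ∀ g : centralizer {t}, ∃ d : kˣ, ∀ A, ρ.L g A → Bk A → A.det = d := fun g => by
    obtain ⟨A, hA, hb⟩ := hX g g.2
    refine ⟨Units.mk0 _ (ρ.det hA), fun A' hA' hb' => ?_⟩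
    obtain ⟨c, rfl⟩ := ρ.uniq hA hA'
    have := hb'.2.2.2.2
    rw [Matrix.smul_apply, hb.2.2.2.2, smul_eq_mul, mul_one] at this
    simp [this]
  choose χ' hχ using key
  obtain ⟨χ, e⟩ : ∃ χ : centralizer {t} →* kˣ, ∀ g, χ g = χ' g :=
    ⟨MonoidHom.mk' χ' fun g h => Units.ext (by
      obtain ⟨A, hA, hb⟩ := hX g g.2
      obtain ⟨A', hA', hb'⟩ := hX h h.2
      rw [← hχ (g * h) _ (ρ.mul hA hA') (hb.mul hb'), det_mul, hχ _ _ hA hb, hχ _ _ hA' hb']; rfl),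
      fun _ => rfl⟩
  simp only [← e] at hχ
  clear e χ'
  have two : (-1 : kˣ) ≠ 1 := fun e => h2 (by
    have := congrArg Units.val e
    simp only [Units.val_neg, Units.val_one] at this
    linear_combination -this)
  have chi_t : ∀ s : centralizer {t}, s.1 = t → χ s = 1 := fun s e =>
    Units.ext (by rw [← hχ s _ (e ▸ ht) (bk3 ..)]; simp [dm3])
  have chi_s : ∀ s : centralizer {t}, s * s = 1 → s ≠ 1 → s.1 ≠ t → χ s = -1 := fun s e h1 h3 => by
    obtain ⟨A, hA, hb⟩ := hX s s.2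
    refine Units.ext ?_
    rw [← hχ s _ hA hb]
    obtain ⟨a, b, c, d, rfl⟩ := hb.ex
    obtain ⟨z, hz⟩ := (ρ.eq_one_iff (ρ.mul hA hA)).1 (congrArg Subtype.val e)
    simp [eq9] at hz
    by_cases h4 : a + d = 0
    · simp [dm3]; grind
    obtain rfl : b = 0 := by grind
    obtain rfl : c = 0 := by grind
    obtain rfl : a = d := by grind
    rcases hs.scal ht hA with e | e
    · exact absurd (Subtype.ext e.1) h1
    · exact absurd e.1 h3
  refine ⟨χ, two, chi_t, chi_s, fun ⟨s, s1, s2, s3⟩ => ?_⟩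
  obtain ⟨π, hπ⟩ := exists_pi_bk _ hX
  have ker : ∀ g, π g = 1 ↔ g = 1 ∨ g.1 = t := fun g => by
    refine ⟨fun h => ?_, ?_⟩
    · obtain ⟨A, hA, hb⟩ := hX g g.2
      obtain ⟨a, b, c, d, rfl⟩ := hb.ex
      rw [(hπ _ _ hA).2, pg_eq_one (hπ _ _ hA).1, ul3] at h
      obtain ⟨rfl, rfl, rfl⟩ : b = 0 ∧ c = 0 ∧ a = d := h
      exact (hs.scal ht hA).imp (fun e => Subtype.ext e.1) And.left
    · rintro (rfl | h)
      · exact map_one π
      · have := hπ g _ (h ▸ ht)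
        rw [this.2, pg_eq_one this.1, ul3]; simp
  have kill : ∀ {Y : Type} [Group Y] (e : π.range ≃* Y) (s : centralizer {t}), s * s = 1 → s ≠ 1 →
      s.1 ≠ t → ∀ a b : Y, e (π.rangeRestrict s) ≠
        a * e (π.rangeRestrict s) * a⁻¹ * (b * e (π.rangeRestrict s) * b⁻¹) :=
    fun e s s1 s2 s3 a b h => by
    obtain ⟨a, rfl⟩ := (e.surjective.comp π.rangeRestrict_surjective) a
    obtain ⟨b, rfl⟩ := (e.surjective.comp π.rangeRestrict_surjective) b
    simp only [Function.comp, ← map_inv, ← map_mul, EmbeddingLike.apply_eq_iff_eq] at h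
    have h' : π (s⁻¹ * (a * s * a⁻¹ * (b * s * b⁻¹))) = 1 := by
      rw [map_mul, map_inv, inv_mul_eq_one]; exact congrArg Subtype.val h
    have h3 : χ (s⁻¹ * (a * s * a⁻¹ * (b * s * b⁻¹))) = 1 :=
      ((ker _).1 h').elim (fun e => by rw [e, map_one]) (chi_t _)
    simp [chi_s s s1 s2 s3] at h3
    exact two h3
  have sq : ∀ {Y : Type} [Group Y] (e : π.range ≃* Y) (s : centralizer {t}), s * s = 1 →
      e (π.rangeRestrict s) * e (π.rangeRestrict s) = 1 := fun e s h => by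
    simp only [← map_mul, h, map_one]
  have crd : ∀ x y : OnePoint k, x ≠ y → ∃ ρ' : PR Γ k, ρ'.SA ∧ ρ'.L t (dg (-1) (-1) 1) ∧
      ∀ g : centralizer {t}, ∃ a b c d, ρ'.L g !![a, b, 0; c, d, 0; 0, 0, 1] ∧
        (χ g : k) = a * d - b * c ∧ (π g • x = x → c = 0) ∧ (π g • y = y → b = 0) ∧
        (π g • x = y → a = 0) ∧ (π g • y = x → d = 0) := fun x y hxy => by
    have i := vec_ind hxy
    obtain ⟨u0, u1, v0, v1, e1, e2⟩ : ∃ u0 u1 v0 v1, vec x = ![u0, u1] ∧ vec y = ![v0, v1] :=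
      ⟨vec x 0, vec x 1, vec y 0, vec y 1, by ext i; fin_cases i <;> rfl, by ext i; fin_cases i <;> rfl⟩
    rw [e1, e2] at i
    simp only [cons_val_zero, cons_val_one] at i
    have hB : !![u0, v0, 0; u1, v1, 0; 0, 0, 1] * !![v1 / (u0 * v1 - u1 * v0), -v0 / (u0 * v1 - u1 * v0), 0;
        -u1 / (u0 * v1 - u1 * v0), u0 / (u0 * v1 - u1 * v0), 0; 0, 0, 1] = 1 := by
      simp [eq9]; grind
    refine ⟨ρ.cj hB, hs.cj hB, ρ.cj_of hB ht (by simp), fun g => ?_⟩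
    obtain ⟨A, hA, hb⟩ := hX g g.2
    have k1 := hχ _ _ hA hb
    obtain ⟨k2, k3⟩ := hπ _ _ hA
    obtain ⟨a, b, c, d, rfl⟩ := hb.ex
    simp only [k3, pg_smul_iff k2, e1, e2, ← k1]
    simp only [ul3, dm3]
    refine ⟨(v1 * (a * u0 + b * u1) - v0 * (c * u0 + d * u1)) / (u0 * v1 - u1 * v0),
      (v1 * (a * v0 + b * v1) - v0 * (c * v0 + d * v1)) / (u0 * v1 - u1 * v0),
      (u0 * (c * u0 + d * u1) - u1 * (a * u0 + b * u1)) / (u0 * v1 - u1 * v0),
      (u0 * (c * v0 + d * v1) - u1 * (a * v0 + b * v1)) / (u0 * v1 - u1 * v0),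
      ρ.cj_of hB hA (by simp [eq9]; grind), by grind, ?_, ?_, ?_, ?_⟩
    all_goals
      rintro ⟨z, hz⟩
      have h0 := congrFun hz 0
      have h1 := congrFun hz 1
      simp [mulVec, dotProduct] at h0 h1
      grind
  rcases bk_dickson p hs.small hX hπ with ⟨x, hx⟩ | ⟨x, y, hxy, hx⟩ | ⟨-, ⟨⟨e⟩⟩ | ⟨⟨e⟩⟩ | ⟨⟨e⟩⟩⟩
  · obtain ⟨y, hy⟩ := exists_ne x
    obtain ⟨ρ', hs', ht', h⟩ := crd x y hy.symm
    refine Or.inl fun g g' => Subtype.ext ?_
    obtain ⟨a, b, c, d, h1, h3, h4, -⟩ := h g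
    obtain ⟨a', b', c', d', h1', h3', h4', -⟩ := h g'
    obtain rfl := h4 (hx g)
    obtain rfl := h4' (hx g')
    have d1 := ρ'.det h1
    have d2 := ρ'.det h1'
    have := ρ'.smul (ρ'.mul (ρ'.mul (ρ'.mul h1 h1') (ρ'.inv_adj h1)) (ρ'.inv_adj h1'))
      (inv_ne_zero (mul_ne_zero d1 d2))
    simp [dm3] at d1 d2
    have k := hs'.not_el (v := ![(a * b' + b * d' - a' * b - b' * d) / (d * d'), 0, 0])
      (φ := ![0, 1, 0]) ⟨by simp, _, by
        convert this using 1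
        rw [r13]
        simp [eq9, dm3, adjugate_fin_three]
        grind⟩
    refine ρ'.comm_of h1 h1' ?_
    simp [d1, d2] at k
    simp [eq9]
    grind
  · obtain ⟨ρ', hs', ht', h⟩ := crd x y hxy
    have dgl : ∀ g, π g • x = x → ∃ a d, ρ'.L g.1 (dg a d 1) := fun g hg => by
      obtain ⟨a, b, c, d, h1, -, h3, h4, -⟩ := h g
      obtain rfl := h3 hg
      obtain rfl := h4 ((hx g).resolve_right fun e => hxy (hg.symm.trans e.1)).2
      exact ⟨a, d, h1⟩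
    have anti : ∀ g, π g • x ≠ x → ∃ b c, ρ'.L g.1 !![0, b, 0; c, 0, 0; 0, 0, 1] ∧
        (χ g : k) = -(b * c) := fun g hg => by
      obtain ⟨a, b, c, d, h1, h3, -, -, h4, h5⟩ := h g
      have := (hx g).resolve_left fun e => hg e.1
      obtain rfl := h4 this.1
      obtain rfl := h5 this.2
      exact ⟨b, c, h1, by simpa using h3⟩
    have ab : ∀ g g', π g • x = x → π g' • x = x → g * g' = g' * g := fun g g' hg hg' => by
      obtain ⟨a, d, e⟩ := dgl g hg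
      obtain ⟨a', d', e'⟩ := dgl g' hg'
      exact Subtype.ext (ρ'.comm_of e e' (by simp [mul_comm]))
    by_cases hall : ∀ g, π g • x = x
    · exact Or.inl fun g g' => ab g g' (hall g) (hall g')
    push Not at hall
    obtain ⟨g0, hg0⟩ := hall
    refine Or.inr (Or.inl ⟨(MulAction.stabilizer _ x).comap π, index_eq_two_iff.2 ⟨g0, fun g => ?_⟩,
      fun g hg g' hg' => ab g g' hg hg', fun s hs0 => ?_, fun δ hδ s hs0 e => ?_⟩)
    · have := (hx g0).resolve_left fun e => hg0 e.1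
      simp only [mem_comap, MulAction.mem_stabilizer_iff, map_mul, mul_smul, this.1]
      rcases hx g with e | e <;> simp [e.1, e.2, hxy, hxy.symm, Xor]
    · obtain ⟨b, c, e, e'⟩ := anti s hs0
      have := ρ'.mul e e
      simp only [mul_fin_three, mul_zero, zero_mul, add_zero, zero_add, mul_one, mul_comm c b] at this
      exact (hs'.scal ht' this).imp
        (fun h => ⟨Subtype.ext h.1, Units.ext (by simp [e', h.2])⟩)
        fun h => ⟨h.1, Units.ext (by simp [e', h.2])⟩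
    · obtain ⟨b, c, e1, -⟩ := anti s hs0
      obtain ⟨a, d, e2⟩ := dgl δ hδ
      obtain ⟨z, hz⟩ := (ρ'.comm_iff e2 e1).1 (congrArg Subtype.val e)
      have d1 := ρ'.det e1
      simp [eq9, dm3] at hz d1
      obtain rfl : a = d := by grind
      exact (hs'.scal ht' e2).imp (fun e => Subtype.ext e.1) And.left
  · obtain ⟨a, b, h⟩ := a4_two _ (sq e s s1)
    exact absurd h (kill e s s1 s2 s3 a b)
  · refine Or.inr (Or.inr ⟨e.toMonoidHom.comp π.rangeRestrict,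
      e.surjective.comp π.rangeRestrict_surjective, fun g => ?_, fun s s1 s2 s3 => ?_⟩)
    · rw [← ker]
      exact e.map_eq_one_iff.trans Subtype.ext_iff
    · refine (Int.units_eq_one_or _).resolve_left fun h => ?_
      obtain ⟨a, b, h⟩ := s4_two _ (sq e s s1) h
      exact kill e s s1 s2 s3 a b h
  · obtain ⟨a, b, h⟩ := a5_two _ (sq e s s1)
    exact absurd h (kill e s s1 s2 s3 a b)

end PR

end Cfsg.Agent.H6.M3
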