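import Cfsg.Agent.H4.CAEven2
import Cfsg.Agent.H4.CAOdd2
import Cfsg.Agent.H9.GrpLemmas

/-! Counting lemmas for finite simple groups. -/

set_option autoImplicit false

namespace Cfsg.Agent.H6.MG

open Subgroup MulAction Cfsg.Agent.H4 Cfsg.Agent.H4.CABasic Cfsg.Agent.H4.FeitLow
  Cfsg.Agent.H4.Basic Cfsg.Agent.H4.Zass

variable {G : Type*} [Group G]

theorem hom_one [IsSimpleGroup G] (hna : ¬ ∀ x y : G, x * y = y * x) {A : Type*} [CommGroup A]
    (φ : G →* A) (g : G) : φ g = 1 := by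
  rcases IsSimpleGroup.eq_bot_or_eq_top_of_normal φ.ker inferInstance with h | h
  · exact absurd (fun x y => (φ.ker_eq_bot_iff.1 h) (by rw [map_mul, map_mul, mul_comm])) hna
  · exact (h ▸ mem_top g : g ∈ φ.ker)

theorem frob [Finite G] [IsSimpleGroup G] (H : Subgroup G)
    (hTI : ∀ g, g ∉ H → ∀ h ∈ H, g * h * g⁻¹ ∈ H → h = 1) : H = ⊥ ∨ H = ⊤ := by
  obtain ⟨N, hN, h⟩ := Frobenius.exists_kernel H hTI
  rcases IsSimpleGroup.eq_bot_or_eq_top_of_normal N hN with rfl | rfl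
  · right
    have h1 := H9.ncard_conjSet ((H : Set G) \ {1}) H (fun g hg s hs =>
      ⟨mul_mem (mul_mem hg hs.1) (inv_mem hg), by simpa using hs.2⟩) fun g s hs h' => by
        by_contra hg
        exact hs.2 (hTI g hg s hs.1 h'.1)
    have h2 : H9.conjSet ((H : Set G) \ {1}) = ({1} : Set G)ᶜ := by
      ext x
      refine ⟨by rintro ⟨g, s, hs, rfl⟩; simpa using hs.2, fun hx => ?_⟩
      have := mt (h x).2 (by simpa using hx)
      push Not at this
      obtain ⟨g, hg⟩ := this.2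
      exact ⟨g⁻¹, _, ⟨hg, by simpa using hx⟩, by group⟩
    have h3 := Set.ncard_add_ncard_compl ({1} : Set G)
    have h4 := Set.ncard_sdiff_singleton_add_one (s := (H : Set G)) H.one_mem
    have h5 := H.index_mul_card
    rw [← h2, h1, Set.ncard_singleton, ← h5, show Nat.card H = (H : Set G).ncard from rfl, ← h4,
      mul_add] at h3
    exact index_eq_one.1 (by omega)
  · left
    exact (eq_bot_iff_forall _).2 fun x hx => ((h x).1 (mem_top x)).resolve_right fun e =>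
      e 1 (by simpa using hx)

theorem tt [Finite G] [IsSimpleGroup G] (hna : ¬ ∀ x y : G, x * y = y * x) (H : Subgroup G)
    (hH : Odd H.index) {A : Type*} [CommGroup A] (φ : H →* A) {z : A} (hz : z ≠ 1)
    (hz2 : z * z = 1) (y : G)
    (h : ∀ (x : G) (n : ℕ) (hx : x⁻¹ * y ^ n * x ∈ H), φ ⟨_, hx⟩ = z ^ n) : False := by
  have := Fintype.ofFinite (Quotient (orbitRel (zpowers y) (G ⧸ H)))
  have h1 := hom_one hna (MonoidHom.transfer φ) y
  rw [MonoidHom.transfer_eq_prod_quotient_orbitRel_zpowers_quot] at h1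
  simp only [h] at h1
  obtain ⟨m, hm⟩ := hH
  rw [Finset.prod_pow_eq_pow_sum, ← index_eq_sum_minimalPeriod H y, hm, pow_succ, pow_mul, pow_two,
    hz2, one_pow, one_mul] at h1
  exact hz h1

theorem exists_central [Finite G] (h : Even (Nat.card G)) :
    ∃ t : G, t * t = 1 ∧ t ≠ 1 ∧ Odd (centralizer {t}).index := by
  haveI : Fact (Nat.Prime 2) := ⟨Nat.prime_two⟩
  obtain ⟨S⟩ : Nonempty (Sylow 2 G) := inferInstance
  haveI : Nontrivial S := (Subgroup.nontrivial_iff_ne_bot _).2 (S.ne_bot_of_dvd_card h.two_dvd)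
  haveI := S.isPGroup'.center_nontrivial
  obtain ⟨n, hn, e⟩ := (S.isPGroup'.to_subgroup (center S)).nontrivial_iff_card.1 inferInstance
  obtain ⟨t, ht⟩ := exists_prime_orderOf_dvd_card' (G := center S) 2
    (e ▸ dvd_pow_self 2 hn.ne')
  rw [← Subgroup.orderOf_coe, ← Subgroup.orderOf_coe, Basic.orderOf_eq_two_iff] at ht
  refine ⟨_, ht.1, ht.2, Nat.odd_iff.2 (Nat.two_dvd_ne_zero.1 fun h => S.not_dvd_index
    (h.trans (index_dvd_of_le fun g hg => mem_centralizer_singleton_iff.2 ?_)))⟩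
  exact congrArg Subtype.val (mem_center_iff.1 t.2 ⟨g, hg⟩)

theorem inverts {A : Subgroup G} (hA : IsCA A) {n : G} (hn : n ∈ normalizer (A : Set G))
    (h1 : n ∉ A) (h2 : n * n ∈ A) {a : G} (ha : a ∈ A) : n * a * n⁻¹ = a⁻¹ := by
  have h3 := (mem_normalizer_iff.1 hn a).1 ha
  by_contra h
  refine h1 ((hA.cent (a * (n * a * n⁻¹)) (mul_mem ha h3)
    (fun e => h (eq_inv_of_mul_eq_one_right e)) n).1 ?_)
  calc n * (a * (n * a * n⁻¹)) = n * a * n⁻¹ * (n * n * a) * n⁻¹ := by group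
    _ = n * a * n⁻¹ * a * n := by rw [hA.comm _ h2 _ ha]; group
    _ = _ := by rw [hA.comm _ h3 _ ha]

theorem two_le [Finite G] [IsSimpleGroup G] (hna : ¬ ∀ x y : G, x * y = y * x) {A : Subgroup G}
    (hA : IsCA A) : 2 ≤ A.relIndex (normalizer (A : Set G)) := by
  by_contra h
  have h0 : A.relIndex (normalizer (A : Set G)) ≠ 0 := index_ne_zero_of_finite
  have h1 := relIndex_eq_one.1 (show A.relIndex (normalizer (A : Set G)) = 1 by omega)
  rcases frob A fun g hg a ha h => by_contra fun e => hg (h1 (hA.mem_norm ha e h)) with e | e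
  · exact hA.ne_bot e
  · exact hna fun x y => hA.comm x (e ▸ mem_top x) y (e ▸ mem_top y)

theorem pow_relIndex {A : Subgroup G} {n : G} (hn : n ∈ normalizer (A : Set G)) :
    n ^ A.relIndex (normalizer (A : Set G)) ∈ A :=
  Subgroup.pow_index_mem (A.subgroupOf (normalizer (A : Set G))) ⟨n, hn⟩

theorem mem_of_pows {A : Subgroup G} {n : G} {a b : ℕ} (ha : n ^ a ∈ A) (hb : n ^ b ∈ A)
    (h : a.Coprime b) : n ∈ A := by
  have := Nat.gcd_eq_gcd_ab a b
  rw [h, Nat.cast_one] at this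
  rw [← zpow_one n, this, zpow_add, zpow_mul, zpow_mul, zpow_natCast, zpow_natCast]
  exact mul_mem (zpow_mem ha _) (zpow_mem hb _)

theorem ca_coprime [Finite G] {A : Subgroup G} (hA : IsCA A) :
    (A.relIndex (normalizer (A : Set G))).Coprime (Nat.card A) :=
  Nat.Coprime.coprime_dvd_left hA.index_dvd
    ((Nat.coprime_self_sub_left Nat.card_pos).2 (Nat.coprime_one_left _))

theorem zlem [Finite G] {A : Subgroup G} (hA : IsCA A)
    (hidx : (normalizer (A : Set G)).index = Nat.card A + 1) :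
    IsKer ((1 : G) : G ⧸ normalizer (A : Set G)) A ∧ Sharp3 G (G ⧸ normalizer (A : Set G)) := by
  have hA2 : ∀ n ∈ normalizer (A : Set G), n ^ Nat.card A = 1 → n ∈ A := fun n hn h =>
    mem_of_pows (pow_relIndex hn) (h ▸ A.one_mem) (ca_coprime hA)
  set H := normalizer (A : Set G) with hH
  let a : G ⧸ H := ((1 : G) : G ⧸ H)
  have hst : ∀ g : G, g • a = a ↔ g ∈ H := fun g => by
    rw [← mem_stabilizer_iff, stabilizer_quotient]
  have hfree : ∀ k ∈ A, ∀ y : G ⧸ H, y ≠ a → k • y = y → k = 1 := by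
    intro k hk y hy h
    obtain ⟨g, rfl⟩ := exists_smul_eq G a y
    by_contra hk1
    have h1 : g⁻¹ * k * g⁻¹⁻¹ ∈ H := by
      rw [← hst, inv_inv, mul_smul, mul_smul, h, inv_smul_smul]
    have h2 := hA.mem_norm hk hk1 (hA2 _ h1 (by
      rw [conj_pow, show k ^ Nat.card A = 1 from
        congrArg Subtype.val (pow_card_eq_one' (x := (⟨k, hk⟩ : A)))]; simp))
    exact hy ((hst g).2 (by simpa using H.inv_mem h2))
  have hK : IsKer a A := by
    refine ⟨fun k hk => (hst k).2 (Subgroup.le_normalizer hk),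
      fun g hg k hk => (Subgroup.mem_normalizer_iff.1 ((hst g).1 hg) k).1 hk, fun y z hy hz => ?_⟩
    let φ : A → {w : G ⧸ H // w ≠ a} := fun k => ⟨(k : G) • y, fun h => hy (smul_left_cancel (k : G)
      (h.trans ((hst k).2 (Subgroup.le_normalizer k.2)).symm))⟩
    have hφ : Function.Injective φ := fun k l e => by
      have e' : (k : G) • y = (l : G) • y := congrArg Subtype.val e
      have := hfree _ (l⁻¹ * k).2 y hy (by
        rw [Subgroup.coe_mul, mul_smul, e', Subgroup.coe_inv, inv_smul_smul])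
      exact (inv_mul_eq_one.1 (Subtype.ext this : l⁻¹ * k = 1)).symm
    have hb := hφ.bijective_of_nat_card_le (by
      have := Set.ncard_add_ncard_compl ({a} : Set (G ⧸ H))
      rw [Set.ncard_singleton, ← Subgroup.index_eq_card, hidx] at this
      have h1 : Nat.card {w : G ⧸ H // w ≠ a} = ({a}ᶜ : Set (G ⧸ H)).ncard := rfl
      omega)
    obtain ⟨k, hk, hk'⟩ := hb.existsUnique ⟨z, hz⟩
    exact ⟨k, congrArg Subtype.val hk, fun l hl => hk' l (Subtype.ext hl)⟩
  refine ⟨hK, ?_⟩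
  intro g p q r hpq hqr hpr hp hq hr
  obtain ⟨c, rfl⟩ := exists_smul_eq G a p
  have e1 : ∀ w : G ⧸ H, g • w = w → (c⁻¹ * g * c) • c⁻¹ • w = c⁻¹ • w := fun w hw => by
    rw [mul_smul, mul_smul, smul_inv_smul, hw]
  have e2 : ∀ w : G ⧸ H, c • a ≠ w → c⁻¹ • w ≠ a := fun w hw e => hw (by rw [← e, smul_inv_smul])
  have hp' := e1 _ hp
  rw [inv_smul_smul] at hp'
  obtain ⟨k, hk, hk'⟩ := hK.exists_smul (e2 q hpq) (e2 r hpr)
  have hk1 : k ≠ 1 := by
    rintro rfl
    rw [one_smul] at hk'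
    exact hqr (smul_left_cancel _ hk')
  have h1 := hK.eq_of_smul_eq (hK.norm _ hp' k hk) hk (e2 q hpq) (by
    rw [mul_smul, mul_smul, (inv_smul_eq_iff.2 (e1 q hq).symm), hk', e1 r hr])
  have h2 := hK.eq_one ((hA.cent k hk hk1 _).1 (mul_inv_eq_iff_eq_mul.1 h1)) (e2 q hpq) (e1 q hq)
  calc g = c * (c⁻¹ * g * c) * c⁻¹ := by group
    _ = 1 := by rw [h2]; group

theorem cube_le {Ω : Type*} [MulAction G Ω] [Finite Ω] (h3 : Sharp3 G Ω) (a : Ω) (Y : Finset G)
    (hY : ∀ g ∈ Y, g ^ 3 = 1 ∧ g • a ≠ a) : Y.card ≤ Nat.card Ω * Nat.card Ω := by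
  rw [← Nat.card_prod, ← Nat.card_eq_finsetCard]
  refine Nat.card_le_card_of_injective (fun g => (g.1 • a, g.1 • g.1 • a)) fun g h e => ?_
  simp only [Prod.mk.injEq] at e
  have k : ∀ g ∈ Y, g • g • g • a = a := fun g hg => by
    rw [← mul_smul, ← mul_smul, ← pow_three', (hY g hg).1, one_smul]
  have n := (hY g g.2).2
  refine Subtype.ext (h3.eq_of_agree (a := a) (b := g.1 • a) (c := g.1 • g.1 • a) n.symm
    (fun e => n (smul_left_cancel _ e).symm) (fun e => n ?_) e.1 (by rw [e.2, e.1]) ?_)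
  · exact (congrArg (g.1 • ·) e).trans (k g g.2)
  · rw [k g g.2, e.2, k h h.2]

variable [Fintype G]

theorem ca_num {A : Subgroup G} (hA : IsCA A) :
    Nat.card G = Nat.card A * A.relIndex (normalizer (A : Set G)) * (normalizer (A : Set G)).index ∧
      (conjs A).card = (normalizer (A : Set G)).index * (Nat.card A - 1) := by
  have h1 := hA.card_conjs
  have h2 := (normalizer (A : Set G)).card_mul_index
  refine ⟨by rw [card_mul_relIndex, h2], Nat.eq_of_mul_eq_mul_left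
    (Nat.card_pos (α := normalizer (A : Set G))) ?_⟩
  rw [h1, ← h2, mul_assoc]

theorem conj_mem_conjs {A : Subgroup G} {x : G} (h : x ∈ conjs A) (g : G) :
    g * x * g⁻¹ ∈ conjs A := by
  obtain ⟨y, a, ha, h1, rfl⟩ := mem_conjs.1 h
  exact mem_conjs.2 ⟨g * y, a, ha, h1, by group⟩

theorem mem_conjs_self {A : Subgroup G} {x : G} (h : x ∈ A) (h1 : x ≠ 1) : x ∈ conjs A :=
  mem_conjs.2 ⟨1, x, h, h1, by simp⟩

variable [DecidableEq G]

theorem card_invs {t : G} (ht : t ∈ invs G) (h1 : ∀ s ∈ invs G, IsConj t s) :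
    (invs G).card * Nat.card (centralizer {t}) = Nat.card G := by
  rw [← class_mul_cc t, ← Set.ncard_coe_finset]
  congr 2
  ext s
  refine ⟨h1 s, fun h => ?_⟩
  obtain ⟨g, rfl⟩ := isConj_iff.1 h
  exact (conj_mem_invs g).2 ht

theorem pair_count {t : G} (h1 : ∀ s ∈ invs G, IsConj t s) (Y : Finset G)
    (hY : ∀ g, ∀ y ∈ Y, g * y * g⁻¹ ∈ Y) (r : ℕ)
    (hr : ∀ y ∈ Y, ((invs G).filter fun s => y * s = s * y).card = r) :
    Y.card * r = (invs G).card * (Y.filter fun y => y * t = t * y).card := by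
  rw [← smul_eq_mul, ← Finset.sum_const, ← Finset.sum_congr rfl hr, ← smul_eq_mul, ← Finset.sum_const]
  simp only [Finset.card_filter]
  rw [Finset.sum_comm]
  refine Finset.sum_congr rfl fun s hs => ?_
  obtain ⟨g, rfl⟩ := isConj_iff.1 (h1 s hs)
  simp only [← Finset.card_filter]
  symm
  refine Finset.card_nbij' (fun u => g * u * g⁻¹) (fun u => g⁻¹ * u * g) ?_ ?_ ?_ ?_
  · intro u hu
    simp only [Finset.coe_filter, Set.mem_ofPred_eq] at hu ⊢
    refine ⟨hY _ _ hu.1, ?_⟩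
    calc _ = g * (u * t) * g⁻¹ := by group
      _ = _ := by rw [hu.2]; group
  · intro u hu
    simp only [Finset.coe_filter, Set.mem_ofPred_eq] at hu ⊢
    refine ⟨by simpa using hY g⁻¹ _ hu.1, ?_⟩
    calc _ = g⁻¹ * (u * (g * t * g⁻¹)) * g := by group
      _ = _ := by rw [hu.2]; group
  · intro u _
    simp [mul_assoc]
  · intro u _
    simp [mul_assoc]

theorem pairs_le {A : Subgroup G} (hA : IsCA A) {s : G} (hs : s * s = 1)
    (hn : s ∈ normalizer (A : Set G)) (h1 : s ∉ A) :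
    (conjs A).card * Nat.card A ≤ (invs G).card ^ 2 := by
  rw [← sum_jj, ← smul_eq_mul, ← Finset.sum_const]
  refine (Finset.sum_le_sum fun x hx => ?_).trans (Finset.sum_le_sum_of_subset (Finset.subset_univ _))
  obtain ⟨y, a, ha, -, rfl⟩ := mem_conjs.1 hx
  have key : ∀ b ∈ A, s * b ∈ invs G := fun b hb => mem_invs.2 ⟨by
    have := inverts hA hn h1 (hs ▸ A.one_mem) hb
    calc s * b * (s * b) = s * b * s⁻¹ * (s * s) * b := by group
      _ = 1 := by rw [this, hs]; simp, fun e => h1 (eq_inv_of_mul_eq_one_left e ▸ inv_mem hb)⟩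
  rw [jj_conj, jj, ← Nat.card_eq_finsetCard]
  exact Nat.card_le_card_of_injective (fun b => ⟨s * b, Finset.mem_filter.2 ⟨key _ b.2,
    mul_assoc s b a ▸ key _ (mul_mem b.2 ha)⟩⟩) fun b c e =>
      Subtype.ext (mul_left_cancel (congrArg Subtype.val e))

end Cfsg.Agent.H6.MG
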