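import Cfsg.Agent.H6.MA4
import Cfsg.Agent.H6.MG1

/-! Simple groups without elations whose homologies are involutions: local structure. -/

set_option autoImplicit false

namespace Cfsg.Agent.H6.M3

open Subgroup Cfsg.Agent.H4 Cfsg.Agent.H4.CABasic Cfsg.Agent.H4.FeitLow Cfsg.Agent.H6.MG

variable {k : Type*} [Field k]

theorem icj_one {G : Type*} [Group G] {g t : G} : g⁻¹ * t * g = 1 ↔ t = 1 := by
  simpa using conj_eq_one_iff (a := g⁻¹) (b := t)

theorem icj_mul {G : Type*} [Group G] (g s t : G) :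
    g⁻¹ * s * g * (g⁻¹ * t * g) = g⁻¹ * (s * t) * g := by group

theorem icj_comm {G : Type*} [Group G] {y g t : G} :
    g * (y * t * y⁻¹) = y * t * y⁻¹ * g ↔ y⁻¹ * g * y * t = t * (y⁻¹ * g * y) := by
  rw [← mul_left_inj y, ← mul_right_inj y⁻¹]; simp only [mul_assoc, inv_mul_cancel_left,
    inv_mul_cancel, mul_one]

theorem inverts' {G : Type*} [Group G] {A : Subgroup G} (hA : ∀ a ∈ A, ∀ b ∈ A, a * b = b * a)
    {z : G} (hn : ∀ a ∈ A, z * a * z⁻¹ ∈ A) (hz : z * z = 1) {a : G} (ha : a ∈ A) :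
    z * (a * (z * a * z⁻¹)) = a * (z * a * z⁻¹) * z := by
  calc z * (a * (z * a * z⁻¹)) = z * a * z⁻¹ * (z * z * a) * z⁻¹ := by group
    _ = z * a * z⁻¹ * a * z := by rw [hz, one_mul, inv_eq_of_mul_eq_one_right hz]
    _ = _ := by rw [hA _ (hn a ha) _ ha]

theorem two_pow_cases {G : Type*} [Group G] (f : ℕ) : ∀ g : G, g ^ 2 ^ f = 1 →
    g * g = 1 ∨ ∃ h ∈ zpowers g, h * h ≠ 1 ∧ h * h * (h * h) = 1 := by
  induction f with
  | zero => intro g h; simp_all
  | succ f ih =>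
    intro g h
    by_cases h1 : g * g = 1
    · exact Or.inl h1
    rcases ih (g * g) (by rwa [← pow_two, ← pow_mul, ← pow_succ']) with e | ⟨h, h2, e⟩
    · exact Or.inr ⟨g, mem_zpowers g, h1, e⟩
    · exact Or.inr ⟨h, zpowers_le.2 (mul_mem (mem_zpowers g) (mem_zpowers g)) h2, e⟩

namespace PR

variable {Γ : Type*} [Group Γ] {ρ : PR Γ k}

/-- standing assumptions -/
structure St (p : ℕ) (ρ : PR Γ k) : Prop where
  sa : ρ.SA
  na : ¬ ∀ x y : Γ, x * y = y * x

variable (ρ) in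
/-- elements whose centraliser is an abelian group of odd order -/
structure XX (g : Γ) : Prop where
  sq : g * g ≠ 1
  inv : ∀ t, t * t = 1 → g * t = t * g → t = 1
  rp : ∀ c, ¬ ρ.RP g c

variable (ρ) in
/-- the orthogonal case -/
structure Real : Prop where
  rp : ∀ x c, ¬ ρ.RP x c
  real : ∀ g, ρ.Reg g → ∃ h, h * g * h⁻¹ = g⁻¹

variable {p : ℕ} [Fact p.Prime] [CharP k p] [IsAlgClosed k] [Fintype Γ] [IsSimpleGroup Γ]
  (S : St p ρ) {x c g t : Γ}
include S

theorem St.other (h1 : t * t = 1) (h2 : t ≠ 1) :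
    ∃ s : centralizer {t}, s * s = 1 ∧ s ≠ 1 ∧ s.1 ≠ t := by
  by_contra hc
  push Not at hc
  have key : ∀ s, s * s = 1 → s ≠ 1 → s * t = t * s → s = t := fun s e1 e2 e3 =>
    hc ⟨s, mem_centralizer_singleton_iff.2 e3⟩ (Subtype.ext e1) fun e => e2 (congrArg Subtype.val e)
  rcases frob (centralizer {t}) fun g hg h hh h' => by_contra fun h3 => hg (by
    rw [mem_centralizer_singleton_iff] at *
    have e1 : g⁻¹ * t * g * (g⁻¹ * t * g) = 1 := by simp [mul_assoc, ← mul_assoc t t, h1]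
    have e2 : h * (g⁻¹ * t * g) = g⁻¹ * t * g * h := by
      calc _ = g⁻¹ * (g * h * g⁻¹ * t) * g := by group
        _ = _ := by rw [h']; group
    have e3 : g⁻¹ * t * g * t = t * (g⁻¹ * t * g) := by
      by_cases h4 : h * h = 1
      · rw [key h h4 h3 hh] at e2; exact e2.symm
      · exact inv_comm p S.sa h4 e1 h1 e2 hh
    have := key _ e1 (mt icj_one.1 h2) e3
    calc g * t = g * (g⁻¹ * t * g) := by rw [this]
      _ = _ := by group) with e | e
  · exact h2 ((eq_bot_iff_forall _).1 e t (mem_centralizer_singleton_iff.2 rfl))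
  · rcases IsSimpleGroup.eq_bot_or_eq_top_of_normal (center Γ) inferInstance with e' | e'
    · exact h2 ((eq_bot_iff_forall _).1 e' t (mem_center_iff.2 fun g =>
        mem_centralizer_singleton_iff.1 (e ▸ mem_top g)))
    · exact S.na fun x y => mem_center_iff.1 (e' ▸ mem_top y) x

theorem St.one_class (h1 : t * t = 1) (h2 : t ≠ 1) (h3 : Odd (centralizer {t}).index) {s : Γ}
    (e1 : s * s = 1) (e2 : s ≠ 1) : IsConj t s := by
  by_contra hc
  obtain ⟨χ, h⟩ := (iv_of_sq p S.sa h2 h1).ci p S.sa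
  refine tt S.na _ h3 χ h.two (by simp) s fun x n hx => ?_
  rcases Nat.even_or_odd' n with ⟨n, rfl | rfl⟩
  · simp only [pow_mul, pow_two, e1, one_pow, mul_one, inv_mul_cancel, neg_mul_neg]
    exact map_one χ
  · simp only [pow_succ, pow_mul, pow_zero, e1, one_pow, one_mul, neg_mul_neg] at hx ⊢
    exact h.chi_s _ (Subtype.ext (by simp [mul_assoc, ← mul_assoc s s, e1]))
      (fun e => e2 (icj_one.1 (congrArg Subtype.val e)))
      fun e => hc (isConj_iff.2 ⟨x, by simp [← e, mul_assoc]⟩)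

theorem St.rdvd (h : ρ.RP x c) : (RR x c).relIndex (normalizer (RR x c : Set Γ)) ∣ 8 := by
  letI : MulAction (normalizer (RR x c : Set Γ)) (RR x c) :=
    MulAction.compHom _ (RR x c).normalizerMonoidHom
  have := dvd_of_orbits (H := normalizer (RR x c : Set Γ)) (1 : RR x c)
    (fun h => map_one ((RR x c).normalizerMonoidHom h))
    ((RR x c).relIndex (normalizer (RR x c : Set Γ))) fun y hy => by
      rw [Subgroup.relIndex]
      congr 1
      ext n
      rw [MulAction.mem_stabilizer_iff, Subgroup.mem_subgroupOf, Subtype.ext_iff]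
      exact mul_inv_eq_iff_eq_mul.trans ⟨h.free S.sa n.2 y.2 fun e => hy (Subtype.ext e),
        fun hn => h.ab hn y.2⟩
  rwa [h.card] at this

theorem St.sylow (h : ρ.RP x c) [Fact (Nat.Prime 3)] : ∃ P : Sylow 3 Γ, P = RR x c := by
  refine ⟨(IsPGroup.of_card (n := 2) h.card).toSylow fun h3 => ?_, rfl⟩
  have h1 := Sylow.prime_pow_dvd_card_normalizer (p := 3) (n := 2) (H := RR x c) (by
    rw [← (RR x c).card_mul_index, h.card]; exact mul_dvd_mul_left 9 h3) h.card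
  rw [← card_mul_relIndex, h.card] at h1
  exact absurd ((Nat.dvd_of_mul_dvd_mul_left (k := 9) (by norm_num) h1).trans (S.rdvd h))
    (by norm_num)

theorem St.exists_W (h : ρ.RP x c) : ∃ W : Subgroup Γ, W ≤ normalizer (RR x c : Set Γ) ∧
    Nat.card W = (RR x c).relIndex (normalizer (RR x c : Set Γ)) ∧ (∀ w ∈ W, w ^ 4 = 1) ∧
    ∃ z ∈ W, z * z = 1 ∧ z ≠ 1 ∧ (∀ a ∈ RR x c, z * a * z⁻¹ = a⁻¹) ∧
      ∀ w ∈ W, w * z = z * w ∧ (w * w = 1 → w = 1 ∨ w = z) := by
  haveI : Fact (Nat.Prime 3) := ⟨Nat.prime_three⟩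
  haveI : Fact (Nat.Prime 2) := ⟨Nat.prime_two⟩
  obtain ⟨j, -, hj⟩ := (Nat.dvd_prime_pow (m := 3) Nat.prime_two).1 (S.rdvd h)
  have j0 : j ≠ 0 := by
    rintro rfl
    obtain ⟨P, hP⟩ := S.sylow h
    have h1 : normalizer (P : Set Γ) ≤ centralizer (P : Set Γ) := by
      rw [← P.coe_coe, hP]
      exact fun n hn => mem_centralizer_iff.2 fun a ha => h.ab ha (relIndex_eq_one.1 hj hn)
    have h2 := MonoidHom.ker_transferSylow_disjoint P h1 P P.2
    have : IsMulCommutative P := ⟨⟨fun a b => Subtype.ext (h1 (le_normalizer b.2) a a.2)⟩⟩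
    rw [show (MonoidHom.transferSylow P h1).ker = ⊤ from
      eq_top_iff.2 fun g _ => open scoped IsMulCommutative in hom_one S.na _ g, top_disjoint, hP] at h2
    exact h.ne ((eq_bot_iff_forall _).1 h2 x h.mem_left)
  obtain ⟨K, hK⟩ := Sylow.exists_subgroup_card_pow_prime (G := normalizer (RR x c : Set Γ)) 2
    (n := j) (by rw [← card_mul_relIndex, hj]; exact dvd_mul_left _ _)
  rw [← card_subtype _ K] at hK
  have hle : K.map (normalizer (RR x c : Set Γ)).subtype ≤ _ := map_subtype_le K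
  generalize K.map (normalizer (RR x c : Set Γ)).subtype = W at *
  have k1 : ∀ w ∈ W, w ∈ RR x c → w = 1 := fun w hw hw' =>
    orderOf_eq_one_iff.1 (Nat.eq_one_of_dvd_coprimes ((Nat.coprime_primes Nat.prime_two
      Nat.prime_three).2 (by norm_num) |>.pow_left j) (hK ▸ orderOf_dvd_natCard _ hw)
      (orderOf_dvd_of_pow_eq_one (h.cube' hw')))
  have k2 : ∀ z ∈ W, z * z = 1 → z ≠ 1 → ∀ a ∈ RR x c, z * a * z⁻¹ = a⁻¹ := fun z hz z1 z2 a ha => by
    have hn := fun a => (mem_normalizer_iff.1 (hle hz) a).1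
    by_contra e
    exact z2 (k1 z hz (h.free S.sa (hle hz) (mul_mem ha (hn a ha))
      (fun e' => e (eq_inv_of_mul_eq_one_right e')) (inverts' (fun _ h1 _ h2 => h.ab h1 h2) hn z1 ha)))
  obtain ⟨z, hz, z1, z2⟩ := Basic.exists_involution_of_even W (by
    rw [hK]; exact (Nat.even_pow' j0).2 even_two)
  have k3 : ∀ w ∈ W, w * w = 1 → w = 1 ∨ w = z := fun w hw e => by
    refine or_iff_not_imp_left.2 fun e' => (inv_mul_eq_one.1 (k1 _ (mul_mem (inv_mem hz) hw)
      (h.free S.sa (hle (mul_mem (inv_mem hz) hw)) h.mem_left h.ne ?_))).symm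
    calc z⁻¹ * w * x = z⁻¹ * (w * x * w⁻¹) * w := by group
      _ = _ := by rw [k2 w hw e e' x h.mem_left, ← k2 z hz z1 z2 x h.mem_left]; group
  refine ⟨W, hle, hK.trans hj.symm, fun w hw => ?_, z, hz, z1, z2, k2 z hz z1 z2,
    fun w hw => ⟨?_, k3 w hw⟩⟩
  · rcases h.four S.sa (hle hw) with e | e
    · exact k1 _ (pow_mem hw _) e
    · have e2 : w ^ 8 = 1 := orderOf_dvd_iff_pow_eq_one.1
        ((orderOf_dvd_natCard _ hw).trans (by rw [hK, ← hj]; exact S.rdvd h))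
      have e3 := k1 _ (pow_mem hw _) e
      have := pow_gcd_eq_one.2 ⟨e3, e2⟩
      rw [show 4 = Nat.gcd 6 8 * 2 from rfl, pow_mul, this, one_pow]
  · rcases k3 (w * z * w⁻¹) (mul_mem (mul_mem hw hz) (inv_mem hw))
      (by simp [mul_assoc, ← mul_assoc z z, z1]) with e | e
    · exact absurd (by simpa using e) z2
    · exact mul_inv_eq_iff_eq_mul.1 e

omit [IsSimpleGroup Γ] in
theorem St.l9 (hg : g * g ≠ 1) {z a : Γ} (hz : z * z = 1) (e : z * g * z⁻¹ = g⁻¹)
    (ha : a ∈ ρ.T0 g) : a * (z * a * z⁻¹) ∈ ρ.T0 g ∧ z * (a * (z * a * z⁻¹)) = a * (z * a * z⁻¹) * z ∧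
      a * (z * a * z⁻¹) * (a * (z * a * z⁻¹)) = 1 := by
  have hn : ∀ a ∈ ρ.T0 g, z * a * z⁻¹ ∈ ρ.T0 g := fun a ha => by
    have := T0_conj ha z
    rwa [e, T0_eq p S.sa hg (by rwa [← mul_inv_rev, ne_eq, inv_eq_one]) (inv_mem (self_mem_T0 g))]
      at this
  have h1 := inverts' (fun _ h1 _ h2 => T0_comm (T0_ab p S.sa hg h1 h2)) hn hz ha
  have h2 := mul_mem ha (hn a ha)
  refine ⟨h2, h1, by_contra fun h3 => hg ?_⟩
  have := T0_comm (T0_ab p S.sa h3 (mem_T0_of_inv h1.symm hz) (T0_symm h2))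
  rw [this, mul_inv_cancel_right] at e
  exact mul_eq_one_iff_eq_inv.2 e

theorem St.cent_eq (h : ρ.RP x c) (hi : ∀ t, t * t = 1 → x * t = t * x → t = 1) :
    centralizer {x} = RR x c := by
  obtain ⟨-, -, -, -, z, -, z1, -, z2, -⟩ := S.exists_W h
  have key : ∀ z, z * z = 1 → z * x * z⁻¹ = x⁻¹ → ∀ a ∈ ρ.T0 x, z * a * z⁻¹ = a⁻¹ :=
    fun z h1 h2 a ha => eq_inv_of_mul_eq_one_right
      (hi _ (S.l9 h.sq h1 h2 ha).2.2 (T0_comm (S.l9 h.sq h1 h2 ha).1))
  have k1 : ∀ a ∈ ρ.T0 x, a ∈ RR x c := fun a ha => by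
    refine mem_RR.2 ⟨(T0_comm ha).symm, ?_⟩
    have e1 := key z z1 (z2 x h.mem_left) a ha
    have e2 := key (c * z * c⁻¹) (by simp [mul_assoc, ← mul_assoc z z, z1]) (by
      calc _ = c * (z * (c⁻¹ * x * c) * z⁻¹) * c⁻¹ := by group
        _ = x⁻¹ := by
          rw [mul_assoc c⁻¹, h.comm, inv_mul_cancel_left, z2 x h.mem_left,
            (show Commute x c from h.comm).inv_left.symm.eq, mul_inv_cancel_right]) a ha
    have e3 : c * z * c⁻¹ = c⁻¹ * z := by
      have := z2 c⁻¹ (inv_mem h.mem_right)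
      calc _ = c * (z * c⁻¹ * z⁻¹) * z := by group
        _ = c ^ 3 * c⁻¹ * z := by rw [this, inv_inv, pow_succ, pow_two]; group
        _ = _ := by rw [h.symm.cube, one_mul]
    rw [e3, mul_inv_rev, inv_inv, show c⁻¹ * z * a * (z⁻¹ * c) = c⁻¹ * (z * a * z⁻¹) * c by group,
      e1] at e2
    calc a * c = c * (c⁻¹ * a⁻¹ * c)⁻¹ := by group
      _ = _ := by rw [e2, inv_inv]
  refine le_antisymm (fun n hn => ?_) inf_le_left
  rcases h.cent (mem_centralizer_singleton_iff.1 hn) with e | e | e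
  · exact k1 _ e
  · exact (mul_mem_cancel_right h.mem_right).1 (k1 _ e)
  · exact (mul_mem_cancel_right h.mem_right).1 ((mul_mem_cancel_right h.mem_right).1 (k1 _ e))

omit S [IsSimpleGroup Γ] [IsAlgClosed k] [Fintype Γ] in
theorem XX.cent (h : ρ.XX g) : centralizer {g} = ρ.T0 g :=
  Subgroup.ext fun n => mem_centralizer_singleton_iff.trans
    ⟨fun e => by_contra fun h' => h.rp n (rp_of e.symm h'), fun e => (T0_comm e).symm⟩

omit S [IsSimpleGroup Γ] [IsAlgClosed k] [Fintype Γ] in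
theorem XX.ne (h : ρ.XX g) : g ≠ 1 := by rintro rfl; simpa using h.sq

omit S [IsSimpleGroup Γ] [IsAlgClosed k] [Fintype Γ] in
theorem XX.conj (h : ρ.XX g) (y : Γ) : ρ.XX (y * g * y⁻¹) where
  sq := by simpa using h.sq
  inv t h1 h2 := by
    exact icj_one.1 (h.inv (y⁻¹ * t * y) (by rw [icj_mul, h1, icj_one]) (icj_comm.1 h2.symm).symm)
  rp c e := h.rp _ (by simpa [mul_assoc] using e.conj y⁻¹)

theorem St.xx (h : ρ.XX g) {a : Γ} (ha : a ∈ centralizer {g}) (h1 : a ≠ 1) :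
    ρ.XX a ∧ centralizer {a} = centralizer {g} := by
  rw [h.cent] at ha
  have h2 : a * a ≠ 1 := fun e => h1 (h.inv a e (T0_comm ha))
  have h3 := T0_eq p S.sa h.sq h2 ha
  have h4 : ∀ t, t * t = 1 → a * t = t * a → t = 1 := fun t e1 e2 =>
    h.inv t e1 (T0_comm (h3 ▸ mem_T0_of_inv e2 e1))
  have : ρ.XX a := ⟨h2, h4, fun c hc => by
    obtain ⟨c', h', -⟩ := hc.exists (S.cent_eq hc h4 ▸ mem_centralizer_singleton_iff.2
      (T0_comm ha)) h.ne
    exact h.rp c' h'⟩
  exact ⟨this, by rw [this.cent, h.cent, h3]⟩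

theorem St.ca (h : ρ.XX g) : IsCA (centralizer {g}) where
  ne_bot e := h.ne ((eq_bot_iff_forall _).1 e g (mem_centralizer_singleton_iff.2 rfl))
  cent a ha h1 n := by rw [← (S.xx h ha h1).2, mem_centralizer_singleton_iff]

theorem St.xx_conjs (h : ρ.XX g) {a : Γ} (ha : a ∈ conjs (centralizer {g})) : ρ.XX a := by
  obtain ⟨y, b, hb, h1, rfl⟩ := mem_conjs.1 ha
  exact (S.xx h hb h1).1.conj y

omit S [IsSimpleGroup Γ] [IsAlgClosed k] in
theorem XX.odd (h : ρ.XX g) : Odd (Nat.card (centralizer {g})) := by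
  rw [← Nat.not_even_iff_odd]
  intro e
  obtain ⟨t, ht, h1, h2⟩ := Basic.exists_involution_of_even _ e
  exact h2 (h.inv t h1 (mem_centralizer_singleton_iff.1 ht).symm)

theorem St.reg_w (h : ρ.XX g) (hg : ρ.Reg g) :
    (centralizer {g}).relIndex (normalizer (centralizer {g} : Subgroup Γ)) = 2 ∨
      (centralizer {g}).relIndex (normalizer (centralizer {g} : Subgroup Γ)) = 3 := by
  have h1 := two_le S.na (S.ca h)
  have hA := S.ca h
  rw [h.cent] at *
  have h2 := hg.relIndex_dvd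
  have h3 := Nat.le_of_dvd (by norm_num) h2
  by_contra hc
  have h6 : (ρ.T0 g).relIndex (normalizer (ρ.T0 g : Set Γ)) = 6 := by
    interval_cases (ρ.T0 g).relIndex (normalizer (ρ.T0 g : Set Γ)) <;> omega
  obtain ⟨σ, hσ⟩ := hg.sigma
  rw [relIndex, show (ρ.T0 g).subgroupOf _ = σ.ker from Subgroup.ext fun n => (hσ n).symm,
    index_ker] at h6
  have h7 := MonoidHom.range_eq_top.1 (σ.range.eq_top_of_card_eq
    (by rw [h6, Nat.card_perm, Nat.card_fin]; rfl))
  obtain ⟨a, ha⟩ := h7 (Equiv.swap 0 1)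
  obtain ⟨b, hb⟩ := h7 (Equiv.swap 1 2)
  have e1 := inverts hA a.2 (by rw [← hσ, ha]; decide) ((hσ (a * a)).1 (by rw [map_mul, ha]; decide))
    (self_mem_T0 g)
  have e2 := inverts hA b.2 (by rw [← hσ, hb]; decide) ((hσ (b * b)).1 (by rw [map_mul, hb]; decide))
    (self_mem_T0 g)
  have e3 := (hσ (a⁻¹ * b)).2 ((hA.cent g (self_mem_T0 g) h.ne _).1 (by
    calc a.1⁻¹ * b * g = a.1⁻¹ * (b * g * b.1⁻¹) * b := by group
      _ = g * (a.1⁻¹ * b) := by rw [e2, ← e1]; group))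
  rw [map_mul, map_inv, ha, hb] at e3
  exact absurd e3 (by decide)

theorem St.real_two (h : ρ.XX g)
    (h2 : (centralizer {g}).relIndex (normalizer (centralizer {g} : Subgroup Γ)) = 2) :
    ∃ s, s * s = 1 ∧ s ∈ normalizer (centralizer {g} : Subgroup Γ) ∧ s ∉ centralizer {g} ∧
      s * g * s⁻¹ = g⁻¹ := by
  obtain ⟨s, hs, h3, h4⟩ := Basic.exists_involution_of_even
    (normalizer ((centralizer {g} : Subgroup Γ) : Set Γ)) (by rw [← card_mul_relIndex, h2]; simp)
  have h5 : s ∉ centralizer {g} := fun e => h4 (h.inv s h3 (mem_centralizer_singleton_iff.1 e).symm)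
  exact ⟨s, h3, hs, h5, inverts (S.ca h) hs h5 (h3 ▸ one_mem _)
    (mem_centralizer_singleton_iff.2 rfl)⟩

theorem St.ct (hab : ∀ t : Γ, t * t = 1 → t ≠ 1 → ∀ a b, a * t = t * a → b * t = t * b → a * b = b * a) :
    CT Γ := fun a g b _ hg _ e1 e2 => by
  by_cases h1 : g * g = 1
  · exact hab g h1 hg a b e1 e2.symm
  by_cases h2 : ∃ c, ρ.RP g c
  · obtain ⟨c, h⟩ := h2
    have := S.cent_eq h fun t t1 t2 => by_contra fun t3 => by
      obtain ⟨-, -, -, -, z, -, z1, -, z2, -⟩ := S.exists_W h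
      have z3 := z2 g h.mem_left
      obtain ⟨k1, k2, k3⟩ := S.l9 h1 z1 z3 (mem_T0_of_inv t2 t1)
      have : z * g = g * z := by
        by_cases e : t * (z * t * z⁻¹) = 1
        · refine hab t t1 t3 _ _ (mul_inv_eq_iff_eq_mul.1 ?_) t2
          rw [eq_inv_of_mul_eq_one_right e, inv_eq_of_mul_eq_one_right t1]
        · exact hab _ k3 e _ _ k2 (T0_comm k1)
      rw [this, mul_inv_cancel_right] at z3
      exact h1 (mul_eq_one_iff_eq_inv.2 z3)
    exact h.ab (this ▸ mem_centralizer_singleton_iff.2 e1)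
      (this ▸ mem_centralizer_singleton_iff.2 e2.symm)
  · push Not at h2
    exact T0_comm (T0_ab p S.sa h1 (by_contra fun h => h2 a (rp_of e1.symm h))
      (by_contra fun h => h2 b (rp_of e2 h)))

theorem St.even : Even (Nat.card Γ) := by
  rw [← Nat.not_odd_iff_even]
  intro h
  refine CAOdd2.no_odd S.na (S.ct fun t h1 h2 => absurd ?_ h2) h
  exact orderOf_eq_one_iff.1 (Nat.eq_one_of_dvd_coprimes h.coprime_two_right
    (orderOf_dvd_natCard t) (orderOf_dvd_of_pow_eq_one (by rwa [pow_two])))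

theorem St.real_of_ab (h1 : t * t = 1) (h2 : t ≠ 1) (h3 : Odd (centralizer {t}).index)
    (hab : ∀ a b : centralizer {t}, a * b = b * a) : ρ.Real := by
  classical
  have hCT : CT Γ := S.ct fun s e1 e2 a b ha hb => by
    obtain ⟨g, rfl⟩ := isConj_iff.1 (S.one_class h1 h2 h3 e1 e2)
    simpa [icj_mul] using congrArg Subtype.val (hab ⟨_, mem_centralizer_singleton_iff.2
      (icj_comm.1 ha)⟩ ⟨_, mem_centralizer_singleton_iff.2 (icj_comm.1 hb)⟩)
  have hA := hCT.isCA h2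
  have ht : t ∈ centralizer {t} := mem_centralizer_singleton_iff.2 rfl
  obtain ⟨⟨f, hf, e1⟩, e2⟩ := CAEven2.card_eq S.na hCT (mem_invs.2 ⟨h1, h2⟩) hA ht
  obtain ⟨s, s1, s2, s3⟩ := S.other h1 h2
  obtain ⟨χ, h⟩ := (iv_of_sq p S.sa h2 h1).ci p S.sa
  have sq : ∀ g : centralizer {t}, g * g = 1 := fun g => by
    rcases two_pow_cases f g (e1 ▸ pow_card_eq_one') with e | ⟨u, -, u1, u2⟩
    · exact e
    have u3 : u.1 * u ≠ 1 := fun e => u1 (Subtype.ext e)
    exact absurd ((four_uniq p S.sa u3 (congrArg Subtype.val u2) (fun e => s2 (Subtype.ext e))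
      (congrArg Subtype.val s1) (congrArg Subtype.val (hab u s))).trans (four_uniq p S.sa u3
        (congrArg Subtype.val u2) h2 h1 (mem_centralizer_singleton_iff.1 u.2)).symm) s3
  have c4 : Nat.card (centralizer {t}) ≤ 4 := by
    rw [Nat.card_eq_fintype_card, ← Finset.card_univ]
    refine (Finset.card_le_card (t := {1, ⟨t, ht⟩, s, ⟨t, ht⟩ * s}) fun g _ => ?_).trans
      Finset.card_le_four
    by_contra hc
    simp only [Finset.mem_insert, Finset.mem_singleton, not_or] at hc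
    have := h.chi_s (g * s) (sq _)
      (fun e => hc.2.2.1 (by rw [eq_inv_of_mul_eq_one_left e, inv_eq_of_mul_eq_one_right s1]))
      fun e => hc.2.2.2 (by rw [← show g * s = ⟨t, ht⟩ from Subtype.ext e, mul_assoc, s1, mul_one])
    rw [map_mul, h.chi_s s s1 s2 s3, h.chi_s g (sq g) hc.1 fun e => hc.2.1 (Subtype.ext e)] at this
    exact h.two (by simpa using this.symm)
  replace c4 : Nat.card (centralizer {t}) = 4 :=
    le_antisymm c4 (e1 ▸ Nat.pow_le_pow_right (n := 2) (by norm_num) hf)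
  have e3 := (ca_num hA).1
  have e4 := hA.index_dvd
  have e5 := two_le S.na hA
  rw [e2, c4] at e3
  rw [c4] at e4
  rw [(Nat.prime_three.eq_one_or_self_of_dvd _ e4).resolve_left (by omega)] at e3
  have nr : ∀ x c, ¬ ρ.RP x c := fun x c h => by
    have := card_subgroup_dvd_card (RR x c)
    rw [h.card, e3] at this
    norm_num at this
  refine ⟨nr, fun g hg => ?_⟩
  have hx : ρ.XX g := ⟨hg.sq, fun u u1 u2 => by_contra fun u3 => hg.sq (by
    obtain ⟨y, rfl⟩ := isConj_iff.1 (S.one_class h1 h2 h3 u1 u3)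
    exact icj_one.1 ((icj_mul ..).symm.trans (congrArg Subtype.val
      (sq ⟨y⁻¹ * g * y, mem_centralizer_singleton_iff.2 (icj_comm.1 u2)⟩)))), nr g⟩
  rcases S.reg_w hx hg with e | e
  · obtain ⟨s, -, -, -, e⟩ := S.real_two hx e
    exact ⟨s, e⟩
  · have k1 := (ca_num (S.ca hx)).1
    have k2 := (S.ca hx).index_dvd
    have k3 := (S.ca hx).one_lt_card
    have k4 := Nat.odd_iff.1 hx.odd
    rw [e] at k1 k2
    have k5 : Nat.card (centralizer {g}) ∣ 20 := ⟨_, by
      rw [e3] at k1; exact Nat.eq_of_mul_eq_mul_left (show 0 < 3 by norm_num) (by linarith)⟩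
    have k6 := Nat.le_of_dvd (by norm_num) k5
    interval_cases Nat.card (centralizer {g}) <;> omega

end PR

end Cfsg.Agent.H6.M3
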