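import Cfsg.Agent.H6.MA5

/-! The possible centralisers of involutions. -/

set_option autoImplicit false

namespace Cfsg.Agent.H6.M3

open Subgroup Cfsg.Agent.H4 Cfsg.Agent.H4.CABasic Cfsg.Agent.H4.FeitLow Cfsg.Agent.H6.MG Finset

variable {k : Type*} [Field k]

theorem cardf {G : Type*} [Group G] [Fintype G] (H : Subgroup G) [DecidablePred (· ∈ H)] :
    (univ.filter (· ∈ H)).card = Nat.card H := by
  rw [Nat.card_eq_fintype_card, Fintype.card_subtype]

theorem card_sub {G : Type*} [Group G] [Fintype G] (H : Subgroup G) [Fintype H] (P : G → Prop)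
    [DecidablePred P] (h : ∀ g, P g → g ∈ H) :
    (univ.filter P).card = (univ.filter fun g : H => P g).card :=
  (card_bij (fun g _ => g.1) (fun _ h => by simpa using h) (fun _ _ _ _ => Subtype.ext)
    fun g hg => ⟨⟨g, h g (by simpa using hg)⟩, by simpa using hg, rfl⟩).symm

theorem s4_cnt : (univ.filter fun a : Equiv.Perm (Fin 4) =>
    a ≠ 1 ∧ ¬ (a * a = 1 ∧ Equiv.Perm.sign a = -1)).card = 17 := by decide +kernel

theorem s4_conj : ∀ a b : Equiv.Perm (Fin 4), a * a = 1 ∧ Equiv.Perm.sign a = -1 →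
    b * b = 1 ∧ Equiv.Perm.sign b = -1 → ∃ c, b = c * a * c⁻¹ := by decide +kernel

set_option synthInstance.maxSize 1024 in
theorem s4_comm : ∀ a b : Equiv.Perm (Fin 4), a * a = 1 ∧ Equiv.Perm.sign a = -1 →
    ¬ (b * b = 1 ∧ Equiv.Perm.sign b = -1) → a * b = b * a →
    a * b * (a * b) = 1 ∧ Equiv.Perm.sign (a * b) = -1 := by decide +kernel

/-- dihedral centraliser -/
structure Di {Γ : Type*} [Group Γ] (t : Γ) (K : Subgroup Γ) : Prop where
  le : ∀ g ∈ K, g * t = t * g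
  card : Nat.card (centralizer {t}) = 2 * Nat.card K
  out : ∀ s, s * t = t * s → s ∉ K → s * s = 1
  uniq : ∀ g ∈ K, g * g = 1 → g = 1 ∨ g = t
  mem : t ∈ K
  ex : ∃ g ∈ K, g * g ≠ 1

/-- centraliser of order 48 -/
structure GL23 {Γ : Type*} [Group Γ] [Fintype Γ] [DecidableEq Γ] (t : Γ) : Prop where
  card : Nat.card (centralizer {t}) = 48
  cnt : (univ.filter fun y : Γ => y * y ≠ 1 ∧ y * t = t * y).card = 34
  uniq : ∀ y, y * y ≠ 1 → y * t = t * y → ∀ s, s * s = 1 → s ≠ 1 → y * s = s * y → s = t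

namespace PR

variable {Γ : Type*} [Group Γ] {ρ : PR Γ k}

variable (ρ) in
/-- centraliser of order 24 -/
structure EE [Fintype Γ] [DecidableEq Γ] (t t1 x c : Γ) : Prop where
  rp : ρ.RP x c
  mem : t ∈ ρ.T0 x
  mem1 : t1 ∈ ρ.T0 x
  sq1 : t1 * t1 = 1
  ne1 : t1 ≠ 1
  ne : t1 ≠ t
  card : Nat.card (centralizer {t}) = 24
  cardT : Nat.card (ρ.T0 x) = 12
  six : ∀ a ∈ ρ.T0 x, a * a = 1 ∨ a * a = x ∨ a * a = x * x
  inv : ∀ v ∈ ρ.T0 x, v * v = 1 → v = 1 ∨ v = t ∨ v = t1 ∨ v = t * t1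
  out : ∀ s, s * t = t * s → s ∉ ρ.T0 x → s * s = 1 ∨ s * s = t
  cnt : (univ.filter fun s : Γ => s * s = t).card = 6
  real : ∃ s, s * x * s⁻¹ = x⁻¹

variable {p : ℕ} [Fact p.Prime] [CharP k p] [IsAlgClosed k] [Fintype Γ] [DecidableEq Γ]
  [IsSimpleGroup Γ] (S : St p ρ) {t : Γ}
include S

theorem St.gl23 (h1 : t * t = 1) (h2 : t ≠ 1) (π : centralizer {t} →* Equiv.Perm (Fin 4))
    (hs : Function.Surjective π) (hk : ∀ g, π g = 1 ↔ g = 1 ∨ g.1 = t)
    (hi : ∀ s : centralizer {t}, s * s = 1 → s ≠ 1 → s.1 ≠ t → Equiv.Perm.sign (π s) = -1) :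
    GL23 t := by
  classical
  have ht : t ∈ centralizer {t} := mem_centralizer_singleton_iff.2 rfl
  have fib : ∀ a, (univ.filter fun g => π g = a).card = 2 := fun a => by
    rw [MonoidHom.card_fiber_eq_of_mem_range π (hs a) (hs 1),
      show (univ.filter fun g => π g = 1) = {1, ⟨t, ht⟩} by
        ext g; rw [mem_filter_univ, hk, mem_insert, mem_singleton, Subtype.ext_iff (a1 := g) (a2 := ⟨t, ht⟩)],
      card_pair fun e => h2 (congrArg Subtype.val e).symm]
  have pre : ∀ Y : Finset (Equiv.Perm (Fin 4)), (univ.filter fun g => π g ∈ Y).card = Y.card * 2 :=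
    fun Y => by
    rw [card_eq_sum_card_fiberwise (f := π) (t := Y) fun g hg => by simpa using hg,
      ← smul_eq_mul, ← sum_const]
    refine sum_congr rfl fun a ha => (fib a).symm ▸ congrArg card ?_
    ext g; simp +contextual [ha]
  obtain ⟨s0, s1, s2, s3⟩ := S.other h1 h2
  have tr : ∀ g, π g * π g = 1 ∧ Equiv.Perm.sign (π g) = -1 → g * g = 1 := fun g hg => by
    obtain ⟨c, e⟩ := s4_conj (π s0) _ ⟨by rw [← map_mul, s1, map_one], hi _ s1 s2 s3⟩ hg
    obtain ⟨c, rfl⟩ := hs c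
    have e1 : c * s0 * c⁻¹ * (c * s0 * c⁻¹) = 1 := by simp [s1]
    generalize hu : c * s0 * c⁻¹ = u at e1
    rcases (hk (g * u⁻¹)).1 (by simp [← hu, e]) with e | e
    · rwa [mul_inv_eq_one.1 e]
    · have e2 : g = ⟨t, ht⟩ * u := by rw [← show g * u⁻¹ = ⟨t, ht⟩ from Subtype.ext e]; simp
      have e3 : u * ⟨t, ht⟩ = ⟨t, ht⟩ * u := Subtype.ext (mem_centralizer_singleton_iff.1 u.2)
      rw [e2, mul_assoc, ← mul_assoc u, e3, mul_assoc, e1, mul_one]
      exact Subtype.ext h1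
  have key : ∀ g : centralizer {t}, g * g ≠ 1 ↔
      π g ≠ 1 ∧ ¬ (π g * π g = 1 ∧ Equiv.Perm.sign (π g) = -1) := fun g =>
    ⟨fun h => ⟨fun e => ((hk g).1 e).elim (by rintro rfl; simp at h)
      fun e => h (Subtype.ext (by simpa [e] using h1)), mt (tr g) h⟩, fun h e => h.2
        ⟨by rw [← map_mul, e, map_one], hi g e (fun e => h.1 ((hk g).2 (Or.inl e)))
          fun e => h.1 ((hk g).2 (Or.inr e))⟩⟩
  refine ⟨?_, ?_, fun y y1 y2 s e1 e2 e3 => by_contra fun e4 => ?_⟩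
  · have := pre univ
    simpa [Fintype.card_perm, Nat.factorial] using this
  · rw [card_sub (centralizer {t}) _ fun g h => mem_centralizer_singleton_iff.2 h.2,
      show 34 = 17 * 2 from rfl, ← s4_cnt, ← pre]
    congr 1
    ext g
    simp only [mem_filter, mem_univ, true_and, ← key, mem_centralizer_singleton_iff.1 g.2, and_true,
      ne_eq, Subtype.ext_iff, Subgroup.coe_mul, Subgroup.coe_one]
  · let s' : centralizer {t} := ⟨s, mem_centralizer_singleton_iff.2 (inv_comm p S.sa y1 e1 h1 e3 y2)⟩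
    let y' : centralizer {t} := ⟨y, mem_centralizer_singleton_iff.2 y2⟩
    have e5 : s' * y' = y' * s' := Subtype.ext e3.symm
    have e6 : s' * s' = 1 := Subtype.ext e1
    have := tr (s' * y') (by
      rw [map_mul]
      exact s4_comm _ _ ⟨by rw [← map_mul, e6, map_one], hi s' e6
        (fun e => e2 (congrArg Subtype.val e)) e4⟩ ((key y').1 fun e => y1 (congrArg Subtype.val e)).2
        (by rw [← map_mul, e5, map_mul]))
    rw [mul_assoc, ← mul_assoc y', ← e5, ← mul_assoc, ← mul_assoc, e6, one_mul] at this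
    exact y1 (congrArg Subtype.val this)

theorem St.ee (h1 : t * t = 1) (h2 : t ≠ 1) (h3 : Odd (centralizer {t}).index)
    {χ : centralizer {t} →* kˣ} (h : CI t χ) {T : Subgroup (centralizer {t})} (i2 : T.index = 2)
    (ab : ∀ a ∈ T, ∀ b ∈ T, a * b = b * a)
    (out : ∀ s ∉ T, s * s = 1 ∧ χ s = -1 ∨ (s * s).1 = t ∧ χ s = 1)
    (cen : ∀ δ ∈ T, ∀ s ∉ T, δ * s = s * δ → δ = 1 ∨ δ.1 = t)
    {δ : centralizer {t}} (d1 : δ ∈ T) (d2 : χ δ = -1) (d3 : δ * δ ≠ 1)
    {u : centralizer {t}} (u1 : u ∈ T) (u2 : u * u = 1) (u3 : u ≠ 1) (u4 : u.1 ≠ t) :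
    ∃ t1 x c, ρ.EE t t1 x c := by
  classical
  have ht : t ∈ centralizer {t} := mem_centralizer_singleton_iff.2 rfl
  have mc := fun g : centralizer {t} => mem_centralizer_singleton_iff.1 g.2
  have d4 : δ.1 * δ ≠ 1 := fun e => d3 (Subtype.ext e)
  have u5 : u.1 * u = 1 := congrArg Subtype.val u2
  have u6 : u.1 ≠ 1 := fun e => u3 (Subtype.ext e)
  have tT : t ∈ ρ.T0 δ := mem_T0_of_inv (mc δ) h1
  have hT : ∀ g, g ∈ ρ.T0 δ ↔ ∃ hg : g ∈ centralizer {t}, ⟨g, hg⟩ ∈ T := fun g => by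
    refine ⟨fun hg => ⟨mem_centralizer_singleton_iff.2 (T0_comm (T0_ab p S.sa d4 hg tT)),
      by_contra fun e => ?_⟩, fun ⟨h1, h2⟩ => by_contra fun e => ?_⟩
    · rcases cen δ d1 _ e (Subtype.ext (T0_comm hg)) with e | e
      · simp [e] at d3
      · exact d4 (by rw [e, h1])
    · have := (rp_of (congrArg Subtype.val (ab δ d1 _ h2)) e).cube
      have := congrArg χ (show δ ^ 3 = 1 from Subtype.ext this)
      rw [map_pow, d2, map_one] at this
      exact h.two (by rwa [Odd.neg_one_pow (by decide)] at this)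
  have uT : u.1 ∈ ρ.T0 δ := (hT _).2 ⟨u.2, u1⟩
  have abT := fun a b (ha : a ∈ ρ.T0 δ) (hb : b ∈ ρ.T0 δ) => T0_comm (T0_ab p S.sa d4 ha hb)
  have no4 : ∀ a ∈ ρ.T0 δ, a * a ≠ 1 → a * a * (a * a) ≠ 1 := fun a ha e e' =>
    u4 ((four_uniq p S.sa e e' u6 u5 (abT _ _ ha uT)).trans
      (four_uniq p S.sa e e' h2 h1 (abT _ _ ha tT)).symm)
  obtain ⟨s, hs⟩ : ∃ s, s ∉ T := by
    by_contra hc
    push Not at hc
    rw [(Subgroup.eq_top_iff' T).2 hc, index_top] at i2
    omega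
  have o1 : ∀ s ∉ T, (s * s).1 = 1 ∨ (s * s).1 = t := fun s hs =>
    (out s hs).imp (fun e => congrArg Subtype.val e.1) And.left
  have sinv : ∀ a ∈ ρ.T0 δ, s * (a * a) * s.1⁻¹ = (a * a)⁻¹ := fun a ha => by
    obtain ⟨ha', ha''⟩ := (hT a).1 ha
    have e1 := o1 (s * ⟨a, ha'⟩) (by simp [mul_mem_iff_of_index_two i2, hs, ha''])
    have e2 := o1 s hs
    have e3 : a * t = t * a := mem_centralizer_singleton_iff.1 ha'
    have e4 : ∃ z, z * z = 1 ∧ a * z = z * a ∧ s * a * s.1⁻¹ = a⁻¹ * z := by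
      have e5 : s * a * s.1⁻¹ = s * a * (s * a) * a⁻¹ * (s.1 * s.1)⁻¹ := by group
      have e6 := inv_eq_of_mul_eq_one_right h1
      simp only [Subgroup.coe_mul] at e1 e2
      rcases e1 with e1 | e1 <;> rcases e2 with e2 | e2 <;> rw [e1, e2] at e5
      · exact ⟨1, by simp, by simp, by simpa using e5⟩
      · exact ⟨t, h1, e3, by simpa [e6] using e5⟩
      · exact ⟨t, h1, e3, by rw [e5, (show Commute a t from e3).inv_left.eq]; simp⟩
      · exact ⟨1, by simp, by simp, by rw [e5, ← (show Commute a t from e3).inv_left.eq]; simp⟩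
    obtain ⟨z, z1, z2, e4⟩ := e4
    calc _ = s * a * s.1⁻¹ * (s * a * s.1⁻¹) := by group
      _ = a⁻¹ * (z * a⁻¹) * z := by rw [e4]; group
      _ = _ := by rw [← (show Commute a z from z2).inv_left.eq, mul_assoc, mul_assoc, z1]; simp
  obtain ⟨g, hg⟩ := isConj_iff.1 (S.one_class h1 h2 h3 u5 u6)
  have gT : ∀ a ∈ ρ.T0 δ, g⁻¹ * a * g ∈ ρ.T0 δ := fun a ha => by
    have e1 : g⁻¹ * δ * g ∈ centralizer {t} :=
      mem_centralizer_singleton_iff.2 (icj_comm.1 (hg ▸ abT _ _ (self_mem_T0 _) uT))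
    have e2 : g⁻¹ * δ * g * (g⁻¹ * δ * g) ≠ 1 := by rwa [icj_mul, ne_eq, icj_one]
    have e3 : g⁻¹ * δ * g ∈ ρ.T0 δ := (hT _).2 ⟨e1, by_contra fun e => (o1 _ e).elim e2 fun e =>
      no4 _ (self_mem_T0 _) d4 (icj_one.1 (by
        rw [← icj_mul, ← icj_mul g δ.1, show g⁻¹ * δ * g * (g⁻¹ * δ * g) = t from e, h1]))⟩
    simpa [← T0_eq p S.sa d4 e2 e3] using T0_conj ha g⁻¹
  have cc : ∀ a ∈ ρ.T0 δ, a * a * (s * (g * s * g⁻¹)) = s * (g * s * g⁻¹) * (a * a) := fun a ha => by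
    have e1 := sinv _ (gT a ha)
    have e2 := sinv _ ha
    rw [icj_mul] at e1
    generalize a * a = b at e1 e2
    have f1 : g * s * g⁻¹ * b = b⁻¹ * (g * s * g⁻¹) := by
      calc _ = g * (s * (g⁻¹ * b * g) * s.1⁻¹) * (s * g⁻¹) := by group
        _ = _ := by rw [e1]; group
    have f2 : s * b⁻¹ = b * s := by
      calc _ = (s * b * s.1⁻¹)⁻¹ * s := by group
        _ = _ := by rw [e2, inv_inv]
    rw [mul_assoc s.1 _ b, f1, ← mul_assoc s.1 b⁻¹, f2, mul_assoc b]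
  have cT : s * (g * s * g⁻¹) ∉ ρ.T0 δ := fun e => by
    have e1 : t * (g * s * g⁻¹) = g * s * g⁻¹ * t := by
      have := abT _ _ tT e
      rwa [← mul_assoc, ← mc s, mul_assoc, mul_assoc s.1, mul_right_inj] at this
    obtain ⟨e2, e3⟩ := (hT _).1 (gT t tT)
    rcases cen _ e3 s hs (Subtype.ext (icj_comm.1 e1)) with e | e
    · exact h2 (icj_one.1 (congrArg Subtype.val e))
    · exact u4 (by rw [← hg]; conv_lhs => rw [← show g⁻¹ * t * g = t from e]
                   group)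
  have xT : ρ.T0 (δ * δ) = ρ.T0 δ := T0_eq p S.sa d4 (no4 _ (self_mem_T0 _) d4)
    (mul_mem (self_mem_T0 _) (self_mem_T0 _))
  have rp : ρ.RP (δ * δ) (s * (g * s * g⁻¹)) := rp_of (cc _ (self_mem_T0 _)) (xT ▸ cT)
  have six : ∀ a ∈ ρ.T0 δ, a * a = 1 ∨ a * a = δ * δ ∨ a * a = δ * δ * (δ * δ) := fun a ha =>
    rp.of_T0 (xT ▸ mul_mem ha ha) (cc a ha)
  have inv : ∀ v ∈ ρ.T0 δ, v * v = 1 → v = 1 ∨ v = t ∨ v = u ∨ v = t * u := fun v hv e => by
    obtain ⟨v1, v2⟩ := (hT v).1 hv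
    by_contra hc
    push Not at hc
    have := h.chi_s (⟨v, v1⟩ * u) (Subtype.ext (by
      change v * u * (v * u) = 1
      rw [mul_assoc, ← mul_assoc u.1, abT _ _ uT hv, mul_assoc, u5, mul_one, e]))
      (fun e => hc.2.2.1 (by rw [eq_inv_of_mul_eq_one_left (show v * u = 1 from congrArg Subtype.val e),
        inv_eq_of_mul_eq_one_right u5]))
      fun e => hc.2.2.2 (by rw [← congrArg (· * u.1) (show v * u = t from e), mul_assoc, u5, mul_one])
    rw [map_mul, h.chi_s u u2 u3 u4, h.chi_s ⟨v, v1⟩ (Subtype.ext e)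
      (fun e => hc.1 (congrArg Subtype.val e)) hc.2.1] at this
    exact h.two (by simpa using this.symm)
  have cardT : Nat.card (ρ.T0 δ) = 12 := by
    let f : ρ.T0 δ →* Γ := MonoidHom.mk' (fun a => a * a) fun a b => by
      simp only [Subgroup.coe_mul, mul_assoc, mul_right_inj]
      rw [← mul_assoc, ← mul_assoc, abT _ _ a.2 b.2]
    have e1 : f.range = zpowers (δ.1 * δ) := le_antisymm (by
      rintro _ ⟨a, rfl⟩
      rcases six a a.2 with e | e | e <;> rw [show f a = _ from e]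
      exacts [one_mem _, mem_zpowers _, mul_mem (mem_zpowers _) (mem_zpowers _)])
      (zpowers_le.2 ⟨⟨_, self_mem_T0 _⟩, rfl⟩)
    have e2 : univ.filter (· ∈ f.ker) = {1, ⟨t, tT⟩, ⟨u, uT⟩, ⟨t, tT⟩ * ⟨u, uT⟩} := by
      ext v
      simp only [mem_filter, mem_univ, true_and, mem_insert, mem_singleton, Subtype.ext_iff]
      refine ⟨inv v v.2, fun e => show v.1 * v = 1 from ?_⟩
      rcases e with e | e | e | e <;> rw [e]
      exacts [mul_one _, h1, u5, by
        change t * u * (t * u) = 1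
        rw [mul_assoc, ← mul_assoc u.1, mc u, mul_assoc, u5, mul_one, h1]]
    have e3 : t * u ≠ 1 := fun e => u4 (by
      rw [eq_inv_of_mul_eq_one_right e, inv_eq_of_mul_eq_one_right h1])
    rw [← f.ker.card_mul_index, index_ker, e1, Nat.card_zpowers, rp.order, ← cardf, e2,
      card_insert_of_notMem, card_insert_of_notMem, card_pair] <;>
      simp [Subtype.ext_iff, h2, u6, u4, e3, h2.symm, u6.symm, u4.symm, e3.symm]
  have cT' : Nat.card T = 12 := by
    rw [← cardT, ← Subgroup.card_subtype _ T]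
    congr 3
    ext g; simp [hT]
  have c24 : Nat.card (centralizer {t}) = 24 := by rw [← T.card_mul_index, cT', i2]
  refine ⟨u, δ * δ, _, rp, xT ▸ tT, xT ▸ uT, u5, u6, u4, c24, xT ▸ cardT, xT ▸ six, xT ▸ inv,
    fun s e1 e2 => o1 ⟨s, mem_centralizer_singleton_iff.2 e1⟩ fun e => e2 (xT ▸ (hT s).2 ⟨_, e⟩),
    ?_, s, sinv _ (self_mem_T0 _)⟩
  rw [card_sub (centralizer {t}) _ fun g h => mem_centralizer_singleton_iff.2
    (by rw [← h, mul_assoc])]
  have e1 := card_filter_add_card_filter_not (s := univ) (· ∈ T)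
  have e2 := card_filter_add_card_filter_not (s := univ.filter (· ∉ T)) (χ · = 1)
  rw [cardf, cT', card_univ, ← Nat.card_eq_fintype_card, c24] at e1
  have uu := h.chi_s u u2 u3 u4
  have pm : ∀ s ∉ T, χ s = 1 ∨ χ s = -1 := fun s hs => (out s hs).symm.imp And.right And.right
  have e3 : ((univ.filter (· ∉ T)).filter (χ · = 1)).card =
      ((univ.filter (· ∉ T)).filter (¬ χ · = 1)).card := by
    refine card_nbij' (· * u) (· * u) (fun s hs => ?_) (fun s hs => ?_)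
      (fun s _ => by simp [mul_assoc, u2]) fun s _ => by simp [mul_assoc, u2]
    · simp only [coe_filter, mem_filter, mem_univ, true_and, Set.mem_ofPred_eq] at hs ⊢
      simp [mul_mem_iff_of_index_two i2, hs.1, hs.2, u1, uu, h.two]
    · simp only [coe_filter, mem_filter, mem_univ, true_and, Set.mem_ofPred_eq] at hs ⊢
      simp [mul_mem_iff_of_index_two i2, hs.1, (pm s hs.1).resolve_left hs.2, u1, uu]
  rw [show 6 = ((univ.filter (· ∉ T)).filter (χ · = 1)).card by omega]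
  congr 1
  ext s
  simp only [mem_filter, mem_univ, true_and]
  refine ⟨fun e => ?_, fun e => ((out s e.1).resolve_left fun e' => h.two (e'.2.symm.trans e.2)).1⟩
  have e4 : s ∉ T := fun hs => no4 s ((hT s).2 ⟨s.2, hs⟩) (by rwa [e]) (by rw [e, h1])
  exact ⟨e4, ((out s e4).resolve_left fun e' => h2 (e.symm.trans (congrArg Subtype.val e'.1))).2⟩

theorem St.cases (h1 : t * t = 1) (h2 : t ≠ 1) (h3 : Odd (centralizer {t}).index) :
    ρ.Real ∨ (∃ K, Di t K) ∨ (∃ t1 x c, ρ.EE t t1 x c) ∨ GL23 t := by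
  classical
  obtain ⟨χ, h⟩ := (iv_of_sq p S.sa h2 h1).ci p S.sa
  by_cases hab : ∀ a b : centralizer {t}, a * b = b * a
  · exact Or.inl (S.real_of_ab h1 h2 h3 hab)
  rcases h.cases (S.other h1 h2) with e | ⟨T, i2, ab, out, cen⟩ | ⟨π, e1, e2, e3⟩
  · exact absurd e hab
  swap
  · exact Or.inr (Or.inr (Or.inr (S.gl23 h1 h2 π e1 e2 e3)))
  have ht : t ∈ centralizer {t} := mem_centralizer_singleton_iff.2 rfl
  obtain ⟨s0, s1, s2, s3⟩ := S.other h1 h2
  have s4 := h.chi_s s0 s1 s2 s3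
  have pm0 : ∀ s ∉ T, χ s = 1 ∨ χ s = -1 := fun s hs => (out s hs).symm.imp And.right And.right
  obtain ⟨s, hs⟩ : ∃ s, s ∉ T := by
    by_contra hc
    push Not at hc
    exact hab fun a b => ab a (hc a) b (hc b)
  have pm : ∀ g, χ g = 1 ∨ χ g = -1 := fun g => by
    by_cases hg : g ∈ T
    · have := pm0 (g * s) (by simp [mul_mem_iff_of_index_two i2, hs, hg])
      rw [map_mul] at this
      rcases pm0 s hs with e | e <;> simpa [e, neg_eq_iff_eq_neg, or_comm] using this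
    · exact pm0 g hg
  by_cases hd : ∀ s, χ s ≠ 1 → s * s = 1
  · refine Or.inr (Or.inl ⟨χ.ker.map (centralizer {t}).subtype, ?_, ?_, fun s e1 e2 => ?_, ?_,
      ⟨⟨t, ht⟩, h.chi_t _ rfl, rfl⟩, ?_⟩)
    · rintro _ ⟨g, -, rfl⟩
      exact mem_centralizer_singleton_iff.1 g.2
    · rw [Subgroup.card_subtype, ← χ.ker.card_mul_index, mul_comm, index_eq_two_iff.2 ⟨s0, fun g => ?_⟩]
      rcases pm g with e | e <;> simp [e, s4, h.two, Xor]
    · exact congrArg Subtype.val (hd ⟨s, mem_centralizer_singleton_iff.2 e1⟩ fun e => e2 ⟨_, e, rfl⟩)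
    · rintro _ ⟨g, hg, rfl⟩ e
      by_contra hc
      push Not at hc
      exact h.two ((h.chi_s g (Subtype.ext e) (fun e => hc.1 (congrArg Subtype.val e)) hc.2).symm.trans hg)
    · by_contra hc
      push Not at hc
      have : ∀ g : centralizer {t}, g * g = 1 := fun g => by
        by_cases e : χ g = 1
        · exact Subtype.ext (hc _ ⟨g, e, rfl⟩)
        · exact hd g e
      exact hab fun a b => by
        rw [← inv_eq_of_mul_eq_one_right (this (a * b)), mul_inv_rev,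
          inv_eq_of_mul_eq_one_right (this a), inv_eq_of_mul_eq_one_right (this b)]
  push Not at hd
  obtain ⟨δ, d2, d3⟩ := hd
  have d1 : δ ∈ T := by_contra fun e => (out δ e).elim (fun e => d3 e.1) fun e => d2 e.2
  replace d2 := (pm δ).resolve_left d2
  by_cases hu : ∃ u ∈ T, u * u = 1 ∧ u ≠ 1 ∧ u.1 ≠ t
  · obtain ⟨u, u1, u2, u3, u4⟩ := hu
    exact Or.inr (Or.inr (Or.inl (S.ee h1 h2 h3 h i2 ab out cen d1 d2 d3 u1 u2 u3 u4)))
  exfalso
  push Not at hu
  obtain ⟨y, y1, y2⟩ : ∃ y ∉ T, χ y = 1 := by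
    rcases pm s with e | e
    · exact ⟨s, hs, e⟩
    · exact ⟨s * δ, by simp [mul_mem_iff_of_index_two i2, hs, d1], by simp [e, d2]⟩
  have y3 : y.1 * y = t := ((out y y1).resolve_left fun e => h.two (e.2.symm.trans y2)).1
  obtain ⟨φ, hφ⟩ : ∃ φ : centralizer {t} →* kˣ, ∀ g, φ g = χ g * if g ∈ T then 1 else -1 :=
    ⟨χ * MonoidHom.mk' (fun g => if g ∈ T then 1 else -1) fun a b => by
      by_cases ha : a ∈ T <;> by_cases hb : b ∈ T <;> simp [mul_mem_iff_of_index_two i2, ha, hb],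
      fun _ => rfl⟩
  have tT : (⟨t, ht⟩ : centralizer {t}) ∈ T := by
    rw [← show y * y = ⟨t, ht⟩ from Subtype.ext y3]; exact mul_self_mem_of_index_two i2 y
  have k1 : ∀ (x : Γ) (hx : x⁻¹ * y * x ∈ centralizer {t}), φ ⟨_, hx⟩ = -1 := fun x hx => by
    have e1 : x⁻¹ * y * x * (x⁻¹ * y * x) = x⁻¹ * t * x := by rw [icj_mul, y3]
    have e2 := four_uniq p S.sa (by rwa [e1, ne_eq, icj_one]) (by rw [e1, icj_mul, h1, icj_one]) h2 h1
      (mem_centralizer_singleton_iff.1 hx)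
    have e3 : x ∈ centralizer {t} := mem_centralizer_singleton_iff.2 (by
      conv_lhs => rw [e2, e1]
      group)
    rw [show (⟨_, hx⟩ : centralizer {t}) = (⟨x, e3⟩ : centralizer {t})⁻¹ * y * ⟨x, e3⟩ from rfl,
      map_mul, map_mul, map_inv, inv_mul_cancel_comm, hφ, y2, if_neg y1, one_mul]
  have k2 : ∀ v : centralizer {t}, v * v = 1 → φ v = 1 := fun v e => by
    by_cases v1 : v = 1
    · rw [v1, map_one]
    by_cases v2 : v.1 = t
    · rw [hφ, h.chi_t v v2, if_pos (by rwa [show v = ⟨t, ht⟩ from Subtype.ext v2]), one_mul]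
    · rw [hφ, h.chi_s v e v1 v2, if_neg fun hv => v2 (hu v hv e v1)]; simp
  refine tt S.na _ h3 φ h.two (by simp) y fun x n hx => ?_
  have y4 : ∀ m, (y.1 ^ 2) ^ m = 1 ∨ (y.1 ^ 2) ^ m = t := fun m => by
    rw [pow_two, y3]
    rcases Nat.even_or_odd' m with ⟨m, rfl | rfl⟩ <;> simp [pow_succ, pow_mul, h1]
  rcases Nat.even_or_odd' n with ⟨m, rfl | rfl⟩
  · rw [Even.neg_one_pow (by simp)]
    refine k2 _ (Subtype.ext ?_)
    change x⁻¹ * _ * x * (x⁻¹ * _ * x) = 1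
    rw [icj_mul, icj_one, pow_mul]
    rcases y4 m with e | e <;> simp [e, h1]
  · rw [Odd.neg_one_pow (by simp)]
    rcases y4 m with e | e
    · simp only [pow_succ _ (2 * m), pow_mul, e, one_mul] at hx ⊢
      exact k1 x hx
    · have e1 : y.1 ^ (2 * m + 1) = y.1⁻¹ := by
        rw [pow_succ, pow_mul, e, eq_inv_iff_mul_eq_one, mul_assoc, y3, h1]
      have e2 : x⁻¹ * y * x ∈ centralizer {t} := by simpa [e1, mul_assoc] using inv_mem hx
      rw [show (⟨_, hx⟩ : centralizer {t}) = (⟨_, e2⟩ : centralizer {t})⁻¹ from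
        Subtype.ext (by simp [e1, mul_assoc]), map_inv, k1]
      simp

end PR

end Cfsg.Agent.H6.M3
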