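import Cfsg.Agent.H6.MA6

/-! The class equation. -/

set_option autoImplicit false

namespace Cfsg.Agent.H6.M3

open Subgroup Cfsg.Agent.H4 Cfsg.Agent.H4.CABasic Cfsg.Agent.H4.FeitLow Cfsg.Agent.H6.MG Finset

variable {k : Type*} [Field k]

section Grp

variable {G : Type*} [Group G]

/-- order of the centraliser -/
scoped notation:max "dd " g:max => Nat.card (Subgroup.centralizer ({g} : Set _))
/-- order of the automiser -/
scoped notation:max "ww " g:max => Subgroup.relIndex (Subgroup.centralizer ({g} : Set _))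
  (Subgroup.normalizer (SetLike.coe (Subgroup.centralizer ({g} : Set _))))
/-- conjugates of non-trivial elements of the centraliser -/
scoped notation:max "cj' " g:max => conjs (Subgroup.centralizer ({g} : Set _))

theorem exists_conj_mem [Finite G] {q : ℕ} [Fact q.Prime] (P : Sylow q G) {b : G}
    (hb : b ^ q = 1) : ∃ g, g * b * g⁻¹ ∈ P := by
  obtain ⟨Q, hQ⟩ := (Basic.isPGroup_zpowers (p := q) (k := 1) (by rwa [pow_one])).exists_le_sylow
  obtain ⟨g, rfl⟩ := MulAction.exists_smul_eq G Q P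
  exact ⟨g, Subgroup.smul_mem_pointwise_smul b (MulAut.conj g) _ (hQ (mem_zpowers b))⟩

theorem mem_conjs_of_prime [Fintype G] {A : Subgroup G} (hA : IsCA A) {q : ℕ} (hq : q.Prime)
    (h : q ∣ Nat.card A) {b : G} (hb : b ^ q = 1) (h1 : b ≠ 1) : b ∈ conjs A := by
  haveI := Fact.mk hq
  obtain ⟨y, hy⟩ := exists_prime_orderOf_dvd_card' (G := A) q h
  have y1 : y.1 ≠ 1 := fun e => hq.one_lt.ne (by rw [← hy, show y = 1 from Subtype.ext e, orderOf_one])
  obtain ⟨P, hP⟩ := (Basic.isPGroup_zpowers (p := q) (k := 1) (g := y.1) (by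
    rw [pow_one, ← hy, ← Subgroup.coe_pow, pow_orderOf_eq_one]; rfl)).exists_le_sylow
  obtain ⟨g, hg⟩ := exists_conj_mem P hb
  exact mem_conjs.2 ⟨g⁻¹, _, CAEven2.pgroup_le hA P.isPGroup' y.2 y1 (hP (mem_zpowers _)) hg,
    by simpa using h1, by group⟩

theorem pow_of_mem_conjs [Fintype G] {A : Subgroup G} {g : G} (h : g ∈ conjs A) :
    g ^ Nat.card A = 1 := by
  obtain ⟨y, a, ha, -, rfl⟩ := mem_conjs.1 h
  rw [conj_pow, show a ^ Nat.card A = 1 from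
    congrArg Subtype.val (pow_card_eq_one' (x := (⟨a, ha⟩ : A)))]
  simp

theorem exists_pow_prime [Finite G] (A : Subgroup G) {q : ℕ} (hq : q.Prime) (h : q ∣ Nat.card A) :
    ∃ b ∈ A, b ^ q = 1 ∧ b ≠ 1 := by
  haveI := Fact.mk hq
  obtain ⟨y, hy⟩ := exists_prime_orderOf_dvd_card' (G := A) q h
  exact ⟨y, y.2, by rw [← hy, ← Subgroup.coe_pow, pow_orderOf_eq_one]; rfl, fun e =>
    hq.one_lt.ne (by rw [← hy, show y = 1 from Subtype.ext e, orderOf_one])⟩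

theorem real_conj {g : G} (h : ∃ s, s * g * s⁻¹ = g⁻¹) (y : G) :
    ∃ s, s * (y * g * y⁻¹) * s⁻¹ = (y * g * y⁻¹)⁻¹ := by
  obtain ⟨s, e⟩ := h
  exact ⟨y * s * y⁻¹, by
    calc _ = y * (s * g * s⁻¹) * y⁻¹ := by group
      _ = _ := by rw [e]; group⟩

variable [Fintype G] [DecidableEq G]

theorem pair_count' {t : G} (h1 : ∀ s ∈ invs G, IsConj t s) (Q : G → Prop) [DecidablePred Q]
    (hQ : ∀ g y, Q y → Q (g * y * g⁻¹)) (r : ℕ)
    (hr : ∀ y, Q y → y * t = t * y → ((invs G).filter fun s => y * s = s * y).card = r)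
    (ht : t ∈ invs G) :
    (univ.filter fun y => Q y ∧ ∃ s ∈ invs G, y * s = s * y).card * r =
      (invs G).card * (univ.filter fun y => Q y ∧ y * t = t * y).card := by
  refine (pair_count h1 _ ?_ r ?_).trans ?_
  rotate_left 2
  · congr 2
    ext y
    simp only [mem_filter, mem_univ, true_and, and_assoc, and_congr_right_iff, and_iff_right_iff_imp]
    exact fun _ h => ⟨t, ht, h⟩
  · intro g y hy
    simp only [mem_filter, mem_univ, true_and] at hy ⊢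
    obtain ⟨h2, s, hs, e⟩ := hy
    exact ⟨hQ g y h2, _, (conj_mem_invs g).2 hs, by simp [e]⟩
  · intro y hy
    simp only [mem_filter, mem_univ, true_and] at hy
    obtain ⟨h2, s, hs, e⟩ := hy
    obtain ⟨g, rfl⟩ := isConj_iff.1 (h1 s hs)
    rw [← hr _ (by simpa using hQ g⁻¹ y h2) (icj_comm.1 e)]
    refine card_nbij' (fun u => g⁻¹ * u * g) (fun u => g * u * g⁻¹) (fun u hu => ?_) (fun u hu => ?_)
      (fun u _ => by simp [mul_assoc]) fun u _ => by simp [mul_assoc]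
    · simp only [coe_filter, Set.mem_ofPred_eq] at hu ⊢
      exact ⟨by simpa using (conj_mem_invs g⁻¹).2 hu.1, by simp [icj_mul, hu.2]⟩
    · simp only [coe_filter, Set.mem_ofPred_eq] at hu ⊢
      exact ⟨(conj_mem_invs g).2 hu.1, icj_comm.2 hu.2⟩

end Grp

namespace PR

variable {Γ : Type*} [Group Γ] {ρ : PR Γ k}

open Classical in
variable (ρ) in
/-- elements of order three of Heisenberg type not commuting with an involution -/
noncomputable def BB [Fintype Γ] : Finset Γ :=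
  univ.filter fun y => (∀ t, t * t = 1 → y * t = t * y → t = 1) ∧ ∃ c, ρ.RP y c

theorem mem_BB [Fintype Γ] {y : Γ} :
    y ∈ ρ.BB ↔ (∀ t, t * t = 1 → y * t = t * y → t = 1) ∧ ∃ c, ρ.RP y c := by simp [BB]

variable (ρ) in
/-- unions of classes -/
def Cd [Fintype Γ] (Y : Finset Γ) : Prop := ∀ g ∈ Y, ρ.XX g ∧ cj' g ⊆ Y

variable {p : ℕ} [Fact p.Prime] [CharP k p] [IsAlgClosed k] [Fintype Γ] [DecidableEq Γ]
  [IsSimpleGroup Γ] (S : St p ρ) {t g x c : Γ}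

omit [IsSimpleGroup Γ] in
open Classical in
theorem partition : Nat.card Γ = 1 + (invs Γ).card +
    (univ.filter fun y : Γ => y * y ≠ 1 ∧ ∃ s ∈ invs Γ, y * s = s * y).card + ρ.BB.card +
    (univ.filter ρ.XX).card := by
  have e1 := card_filter_add_card_filter_not (s := univ) fun y : Γ => y * y = 1
  have e2 := card_filter_add_card_filter_not (s := univ.filter fun y : Γ => ¬ y * y = 1)
    fun y => ∃ s ∈ invs Γ, y * s = s * y
  have e3 := card_filter_add_card_filter_not (s := (univ.filter fun y : Γ => ¬ y * y = 1).filter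
    fun y => ¬ ∃ s ∈ invs Γ, y * s = s * y) fun y => ∃ c, ρ.RP y c
  have k : ∀ y : Γ, (¬ ∃ s ∈ invs Γ, y * s = s * y) ↔ ∀ t, t * t = 1 → y * t = t * y → t = 1 :=
    fun y => by simp only [mem_invs]; grind
  rw [show (univ.filter fun y : Γ => y * y = 1) = insert 1 (invs Γ) by
    ext y; simp only [mem_filter_univ, mem_insert, mem_invs]; grind,
    card_insert_of_notMem (by simp [mem_invs]), card_univ, ← Nat.card_eq_fintype_card] at e1
  rw [filter_filter] at e2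
  rw [show filter (fun y => ∃ c, ρ.RP y c) _ = ρ.BB by
      ext y; simp only [mem_filter, mem_univ, true_and, mem_BB, k]
      exact ⟨fun h => ⟨h.1.2, h.2⟩, fun h => ⟨⟨h.2.elim fun _ h => h.sq, h.1⟩, h.2⟩⟩,
    show filter (fun y => ¬ ∃ c, ρ.RP y c) _ = univ.filter ρ.XX by
      ext y; simp only [mem_filter, mem_univ, true_and, k, not_exists]
      exact ⟨fun h => ⟨h.1.1, h.1.2, h.2⟩, fun h => ⟨⟨h.1, h.2⟩, h.3⟩⟩] at e3
  simp only [ne_eq]
  omega

include S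

theorem St.cl (h : ρ.XX g) : ∃ κ, Nat.card Γ = dd g * ww g * κ ∧ (cj' g).card = κ * (dd g - 1) ∧
    ww g * (cj' g).card + ww g * κ = Nat.card Γ ∧
    ww g ∣ dd g - 1 ∧ 2 ≤ ww g ∧ dd g % 2 = 1 ∧ 1 < dd g ∧
    κ = (normalizer ((centralizer {g} : Subgroup Γ) : Set Γ)).index := by
  obtain ⟨e1, e2⟩ := ca_num (S.ca h)
  refine ⟨_, e1, e2, ?_, (S.ca h).index_dvd, two_le S.na (S.ca h), Nat.odd_iff.1 h.odd,
    (S.ca h).one_lt_card, rfl⟩
  obtain ⟨d, hd⟩ := Nat.exists_eq_add_of_lt (S.ca h).one_lt_card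
  rw [e1, e2, hd, Nat.add_sub_cancel]; ring

theorem St.cop_inv (h : ρ.XX g) (h1 : t * t = 1) (h2 : t ≠ 1) : (dd g).Coprime (dd t) :=
  Nat.coprime_of_dvd fun q hq e1 e2 => by
    obtain ⟨b, hb, e, e'⟩ := exists_pow_prime _ hq e2
    exact h2 ((S.xx_conjs h (mem_conjs_of_prime (S.ca h) hq e1 e e')).inv t h1
      (mem_centralizer_singleton_iff.1 hb))

theorem St.cop_three (h : ρ.XX g) (h' : ρ.RP x c) : ¬ 3 ∣ dd g := fun e =>
  (S.xx_conjs h (mem_conjs_of_prime (S.ca h) Nat.prime_three e h'.cube h'.ne)).rp c h'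

theorem St.rp_three (h : ρ.RP x c) {y : Γ} (h1 : y ^ 3 = 1) (h2 : y ≠ 1) :
    ∃ g, g * y * g⁻¹ ∈ RR x c ∧ ∃ c', ρ.RP y c' := by
  haveI : Fact (Nat.Prime 3) := ⟨Nat.prime_three⟩
  obtain ⟨P, hP⟩ := S.sylow h
  obtain ⟨g, hg⟩ := exists_conj_mem P h1
  replace hg : g * y * g⁻¹ ∈ RR x c := hP ▸ hg
  obtain ⟨c', h', -⟩ := h.exists hg (by simpa using h2)
  exact ⟨g, hg, _, by simpa [mul_assoc] using h'.conj g⁻¹⟩

omit S [IsSimpleGroup Γ] [Fintype Γ] [DecidableEq Γ] in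
theorem RP.two (h : ρ.RP x c) (h1 : t * t = 1) (h2 : t ≠ 1) (e : x * t = t * x) :
    ∃ s, s * s = 1 ∧ s ≠ 1 ∧ s ≠ t ∧ x * s = s * x := by
  refine ⟨c * t * c⁻¹, by simp [h1], by simpa, fun e' => h2 ?_, ?_⟩
  · rw [← h.cube' (mem_RR.2 ⟨e.symm, (mul_inv_eq_iff_eq_mul.1 e').symm⟩), pow_succ, pow_two, h1,
      one_mul]
  · exact ((show Commute x c from h.comm).mul_right e).mul_right
      (show Commute x c from h.comm).inv_right

theorem St.peel {Y : Finset Γ} (hY : ρ.Cd Y) (hg : g ∈ Y) : ρ.Cd (Y \ cj' g) ∧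
    Y.card = (cj' g).card + (Y \ cj' g).card ∧ ∀ g' ∈ Y \ cj' g, (dd g).Coprime (dd g') := by
  have key : ∀ g' ∈ Y \ cj' g, Disjoint (cj' g) (cj' g') := fun g' h =>
    CAEven2.disjoint_of_notMem (S.ca (hY g hg).1) (S.ca (hY g' (mem_sdiff.1 h).1).1)
      (CAEven2.self_mem_conjs (hY g' (mem_sdiff.1 h).1).1.ne) (mem_sdiff.1 h).2
  exact ⟨fun g' h => ⟨(hY g' (mem_sdiff.1 h).1).1, subset_sdiff.2
    ⟨(hY g' (mem_sdiff.1 h).1).2, (key g' h).symm⟩⟩,
    by rw [add_comm, card_sdiff_add_card_eq_card (hY g hg).2],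
    fun g' h => CAEven2.coprime (S.ca (hY g hg).1) (S.ca (hY g' (mem_sdiff.1 h).1).1) (key g' h)⟩

theorem St.lower (h : ρ.XX g) (hw : ww g = 2 ∨ ww g = 3) : 2 * Nat.card Γ ≤ 7 * (cj' g).card := by
  obtain ⟨κ, e1, -, e3, e4, -, e6, e7, -⟩ := S.cl h
  rcases hw with e | e <;> rw [e] at e1 e3 e4
  · have := Nat.mul_le_mul_right (2 * κ) (show 3 ≤ dd g by omega)
    rw [← mul_assoc, ← mul_assoc, ← e1] at this
    omega
  · have := Nat.mul_le_mul_right (3 * κ) (show 7 ≤ dd g by omega)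
    rw [← mul_assoc, ← mul_assoc, ← e1] at this
    omega

theorem St.lower' {Y : Finset Γ} (hY : ρ.Cd Y) (hw : ∀ g ∈ Y, ww g = 2 ∨ ww g = 3) :
    Y = ∅ ∨ 2 * Nat.card Γ ≤ 7 * Y.card :=
  Y.eq_empty_or_nonempty.imp_right fun ⟨g, hg⟩ => (S.lower (hY g hg).1 (hw g hg)).trans
    (Nat.mul_le_mul_left _ (card_le_card (hY g hg).2))

open Classical in
theorem St.split : ∃ (Y : Finset Γ) (u : ℕ), ρ.Cd Y ∧ (univ.filter ρ.XX).card = u + Y.card ∧
    (∀ g ∈ Y, ww g = 2 ∨ ww g = 3) ∧ (∀ g, ρ.XX g → ρ.Reg g → g ∈ Y) ∧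
    (u = 0 ∧ (∀ g, ρ.XX g → g ∈ Y) ∨ ∃ v, ρ.XX v ∧ v ^ p = 1 ∧ 4 ≤ ww v ∧ u = (cj' v).card ∧
      (∀ g ∈ Y, (dd v).Coprime (dd g)) ∧ (∀ g, ρ.XX g → g ∈ Y ∨ g ∈ cj' v) ∧
      ((∃ δ s : Γ, orderOf δ = ww v ∧ centralizer {δ} = zpowers δ ∧ s * s = 1 ∧ s ≠ 1 ∧
        δ * s = s * δ) ∨ ∃ δ ∈ Y, ww δ = 2 ∧ Nat.card Γ < 2 * ((cj' δ).card + u))) := by
  have hX : ρ.Cd (univ.filter ρ.XX) := fun g hg => ⟨(mem_filter_univ _).1 hg, fun a ha =>
    (mem_filter_univ _).2 (S.xx_conjs ((mem_filter_univ _).1 hg) ha)⟩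
  by_cases hb : ∀ g, ρ.XX g → ww g = 2 ∨ ww g = 3
  · exact ⟨_, 0, hX, by simp, fun g hg => hb g (hX g hg).1, fun g h _ => (mem_filter_univ _).2 h,
      Or.inl ⟨rfl, fun g h => (mem_filter_univ _).2 h⟩⟩
  push Not at hb
  have key : ∀ g, ρ.XX g → ¬ (ww g = 2 ∨ ww g = 3) → ρ.Jb g := fun g h e =>
    (reg_or_jb p S.sa h.sq).resolve_left fun h' => e (S.reg_w h h')
  obtain ⟨v, hv, w2, w3⟩ := hb
  have jv := key v hv (by tauto)
  have vp := jv.pow p S.sa (self_mem_T0 v)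
  have w4 : 4 ≤ ww v := by have := two_le S.na (S.ca hv); omega
  obtain ⟨c1, c2, c3⟩ := S.peel hX ((mem_filter_univ _).2 hv)
  have pd : ∀ g : Γ, g ^ p = 1 → g ≠ 1 → p ∣ dd g := fun g h1 h2 => by
    have := orderOf_dvd_natCard _ (mem_centralizer_singleton_iff.2 (rfl : g * g = g * g))
    rwa [orderOf_eq_prime h1 h2] at this
  have hw : ∀ g ∈ univ.filter ρ.XX \ cj' v, ww g = 2 ∨ ww g = 3 := fun g hg => by_contra fun e =>
    (Fact.out : p.Prime).one_lt.ne' (Nat.eq_one_of_dvd_coprimes (c3 g hg) (pd v vp hv.ne)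
      (pd g ((key g (c1 g hg).1 e).pow p S.sa (self_mem_T0 g)) (c1 g hg).1.ne))
  refine ⟨_, _, c1, c2, hw, fun g h1 h2 => mem_sdiff.2 ⟨(mem_filter_univ _).2 h1, fun e => ?_⟩,
    Or.inr ⟨v, hv, vp, w4, rfl, c3, fun g h => by simp [h, em'], ?_⟩⟩
  · obtain ⟨y, a, ha, -, rfl⟩ := mem_conjs.1 e
    exact h2.pow p (by rw [conj_pow, jv.pow p S.sa (hv.cent ▸ ha)]; simp)
  obtain ⟨δ, d1, d2, d3⟩ := jv.norm p S.sa (hv.cent ▸ w4)
  rw [← hv.cent] at d1
  by_cases hs : ∃ s, s * s = 1 ∧ s ≠ 1 ∧ δ * s = s * δ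
  · obtain ⟨s, hs⟩ := hs
    exact Or.inl ⟨δ, s, d1, d2, hs⟩
  have np : ∀ j, 0 < j → j < 4 → δ ^ j ≠ 1 := fun j h1 h2 e => by
    have := Nat.le_of_dvd h1 (orderOf_dvd_of_pow_eq_one e)
    omega
  have hδ : ρ.XX δ := ⟨pow_two δ ▸ np 2 (by norm_num) (by norm_num),
    fun s h1 h2 => by_contra fun h3 => hs ⟨s, h1, h3, h2⟩,
    fun c h => np 3 (by norm_num) (by norm_num) h.cube⟩
  have dY : δ ∈ univ.filter ρ.XX \ cj' v := mem_sdiff.2 ⟨(mem_filter_univ _).2 hδ, fun e => by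
    have := Nat.eq_one_of_dvd_coprimes (ca_coprime (S.ca hv)) (d1 ▸ dvd_rfl)
      (orderOf_dvd_of_pow_eq_one (pow_of_mem_conjs e))
    omega⟩
  have w2 : ww δ = 2 := (hw δ dY).resolve_right fun e => by
    obtain ⟨n, hn, hn'⟩ : ∃ n ∈ normalizer ((centralizer {δ} : Subgroup Γ) : Set Γ),
        n ∉ centralizer {δ} := by
      by_contra hc
      push Not at hc
      exact absurd ((relIndex_eq_one.2 hc).symm.trans e) (by norm_num)
    rcases d3 n (d2 ▸ (mem_normalizer_iff.1 hn δ).1 (mem_centralizer_singleton_iff.2 rfl)) with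
      e' | e'
    · exact hn' (mem_centralizer_singleton_iff.2 (mul_inv_eq_iff_eq_mul.1 e'))
    · refine hn' (mem_of_pows (a := 2) (mem_centralizer_singleton_iff.2 ?_) (e ▸ pow_relIndex hn)
        (by norm_num))
      calc n ^ 2 * δ = n * (n * δ * n⁻¹) * n := by rw [pow_two]; group
        _ = (n * δ * n⁻¹)⁻¹ * n ^ 2 := by conv_lhs => rw [e']
                                          rw [pow_two]; group
        _ = _ := by rw [e', inv_inv]
  refine Or.inr ⟨δ, dY, w2, ?_⟩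
  obtain ⟨κ, e1, -, e3, -⟩ := S.cl hδ
  obtain ⟨κ', f1, -, f3, f4, -, -, f7, -⟩ := S.cl hv
  have d4 : dd δ = ww v := by rw [d2, Nat.card_zpowers, d1]
  rw [w2] at e1 e3
  rw [d4] at e1
  have g1 : dd v * κ' = 2 * κ := Nat.eq_of_mul_eq_mul_left (show 0 < ww v by omega) (by linarith)
  have g2 : (cj' v).card + κ' = 2 * κ :=
    Nat.eq_of_mul_eq_mul_left (show 0 < ww v by omega) (by linarith)
  have g3 := Nat.mul_le_mul_right κ' (show 5 ≤ dd v by
    have := Nat.le_of_dvd (by omega) f4; omega)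
  have := Nat.card_pos (α := Γ)
  have : κ ≠ 0 := by rintro rfl; simp at e1
  omega

theorem St.no_gl23 (h1 : t * t = 1) (h2 : t ≠ 1) (h3 : Odd (centralizer {t}).index) :
    ¬ GL23 t := fun h => by
  have oc : ∀ s ∈ invs Γ, IsConj t s := fun s hs =>
    S.one_class h1 h2 h3 (mem_invs.1 hs).1 (mem_invs.1 hs).2
  have ht := mem_invs.2 ⟨h1, h2⟩
  have e1 := card_invs ht oc
  have e2 := pair_count' oc (fun y => y * y ≠ 1) (fun g y h => by simpa using h) 1 (fun y y1 y2 =>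
    card_eq_one.2 ⟨t, eq_singleton_iff_unique_mem.2 ⟨mem_filter.2 ⟨ht, y2⟩, fun s hs =>
      h.uniq y y1 y2 s (mem_invs.1 (mem_filter.1 hs).1).1 (mem_invs.1 (mem_filter.1 hs).1).2
        (mem_filter.1 hs).2⟩⟩) ht
  have e3 : ρ.BB = ∅ := eq_empty_of_forall_notMem fun x hx => by
    obtain ⟨c, hc⟩ := (mem_BB.1 hx).2
    obtain ⟨y, y1, y2, y3⟩ := exists_pow_prime (centralizer {t}) Nat.prime_three
      (by rw [h.card]; norm_num)
    obtain ⟨-, -, c', h'⟩ := S.rp_three hc y2 y3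
    obtain ⟨s, s1, s2, s3, s4⟩ := h'.two h1 h2 (mem_centralizer_singleton_iff.1 y1)
    exact s3 (h.uniq y h'.sq (mem_centralizer_singleton_iff.1 y1) s s1 s2 s4)
  have e4 := partition (ρ := ρ)
  obtain ⟨Y, u, hY, e5, hw, -, hu⟩ := S.split
  rw [h.cnt] at e2
  rw [h.card] at e1
  rw [e3, e5, card_empty] at e4
  have i0 := card_pos.2 ⟨t, ht⟩
  obtain rfl := (S.lower' hY hw).resolve_right (by omega)
  rcases hu with ⟨rfl, -⟩ | ⟨v, hv, -, w4, rfl, -⟩
  · rw [card_empty] at e4; omega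
  · obtain ⟨κ, f1, -, f3, -⟩ := S.cl hv
    have := Nat.mul_le_mul_right ((cj' v).card + κ) w4
    have : κ ≠ 0 := by rintro rfl; simp at f1
    rw [mul_add (ww v), f3] at *
    rw [card_empty] at e4
    omega

end PR

end Cfsg.Agent.H6.M3
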