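import Cfsg.Agent.H6.MA7

/-! The dihedral case. -/

set_option autoImplicit false

namespace Cfsg.Agent.H6.M3

open Subgroup Cfsg.Agent.H4 Cfsg.Agent.H4.CABasic Cfsg.Agent.H4.FeitLow Cfsg.Agent.H6.MG Finset

variable {k : Type*} [Field k]

theorem num2448 {n m i r P κ u a : ℕ} (h1 : n = 4 * m * i) (h2 : n = 18 * r) (h3 : P * κ = 2 * i)
    (h4 : u + κ = 2 * i) (h5 : n = 1 + i + a + 8 * r + u) (h6 : n = 2 * a + 4 * i) (hP : 5 ≤ P)
    (c1 : P.Coprime (4 * m)) (c2 : ¬ 3 ∣ P) (c3 : ¬ 3 ∣ m) : P = 17 ∧ κ = 18 ∧ r = 136 ∧ m = 4 := by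
  have c4 : P.Coprime 2 := c1.coprime_dvd_right ⟨2 * m, by ring⟩
  obtain ⟨i, rfl⟩ : P ∣ i := c4.dvd_of_dvd_mul_left ⟨κ, h3.symm⟩
  have e1 : κ = 2 * i := Nat.eq_of_mul_eq_mul_left (show 0 < P by omega) (by linarith)
  have c5 : (9 : ℕ).Coprime (4 * m * P) := by
    refine Nat.Coprime.pow_left 2 (m := 3) ((Nat.Prime.coprime_iff_not_dvd Nat.prime_three).2 ?_)
    simp [Nat.prime_three.dvd_mul, c2, c3]
  obtain ⟨j, rfl⟩ : 9 ∣ i := c5.dvd_of_dvd_mul_left ⟨2 * r, by linarith⟩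
  have e2 : r = 2 * m * P * j := by linarith
  have e3 : j ∣ 1 := by
    have : (1 : ℤ) = j * (2 * m * P - 9 * P + 18) := by zify at *; linarith
    exact_mod_cast Dvd.intro _ this.symm
  obtain rfl := Nat.dvd_one.1 e3
  have e4 : P ∣ 17 := by
    have : (17 : ℤ) = P * (9 - 2 * m) := by zify at *; linarith
    exact_mod_cast Dvd.intro _ this.symm
  obtain rfl := ((by norm_num : Nat.Prime 17).eq_one_or_self_of_dvd _ e4).resolve_left (by omega)
  omega

theorem num53 {n m i r d κ c a : ℕ} (h1 : n = 4 * m * i) (h2 : n = 36 * r) (h3 : n = d * 3 * κ)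
    (h4 : 3 * c + 3 * κ = n) (h5 : n = 1 + i + a + 8 * r + c) (h6 : n = 2 * a + 4 * i) (hd : 7 ≤ d)
    (c1 : d.Coprime (4 * m)) (c2 : ¬ 3 ∣ d) (c3 : ¬ 3 ∣ m) (c4 : 2 ∣ m) (m0 : 0 < m) : False := by
  have c5 : d.Coprime 36 := by
    rw [show 36 = 4 * 3 ^ 2 from rfl]
    exact (c1.coprime_dvd_right ⟨m, rfl⟩).mul_right
      (((Nat.Prime.coprime_iff_not_dvd Nat.prime_three).2 c2).symm.pow_right 2)
  obtain ⟨i, rfl⟩ : d ∣ i := c1.dvd_of_dvd_mul_left ⟨3 * κ, by linarith⟩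
  have c6 : (9 : ℕ).Coprime (4 * m * d) := by
    refine Nat.Coprime.pow_left 2 (m := 3) ((Nat.Prime.coprime_iff_not_dvd Nat.prime_three).2 ?_)
    simp [Nat.prime_three.dvd_mul, c2, c3]
  obtain ⟨j, rfl⟩ : 9 ∣ i := c6.dvd_of_dvd_mul_left ⟨4 * r, by linarith⟩
  have e1 : κ = 12 * m * j := Nat.eq_of_mul_eq_mul_left (show 0 < d * 3 by omega) (by linarith)
  have e2 : r = m * d * j := by linarith
  have e3 : j ∣ 1 := by
    have : (1 : ℤ) = j * (9 * d + 12 * m - 2 * m * d) := by zify at *; linarith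
    exact_mod_cast Dvd.intro _ this.symm
  obtain rfl := Nat.dvd_one.1 e3
  obtain ⟨d, rfl⟩ := Nat.exists_eq_add_of_le hd
  obtain ⟨m, rfl⟩ := c4
  have e4 : d + 1 ∣ 53 := by
    have : (53 : ℤ) = (d + 1) * (4 * m - 9) := by zify at *; linarith
    exact_mod_cast Dvd.intro _ this.symm
  rcases (by norm_num : Nat.Prime 53).eq_one_or_self_of_dvd _ e4 with e | e
  · obtain rfl : d = 0 := by omega
    omega
  · obtain rfl : d = 52 := by omega
    omega

namespace Di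

variable {Γ : Type*} [Group Γ] {t : Γ} {K : Subgroup Γ} (h : Di t K)
include h

theorem inv {s g : Γ} (e : s * t = t * s) (hs : s ∉ K) (hg : g ∈ K) : s * g * s⁻¹ = g⁻¹ := by
  have e1 := h.out s e hs
  have e2 := h.out (s * g) ((show Commute s t from e).mul_left (h.le g hg))
    (mt (mul_mem_cancel_right hg).1 hs)
  rw [inv_eq_of_mul_eq_one_right e1, eq_inv_iff_mul_eq_one, mul_assoc, e2]

theorem exists_out [Finite Γ] : ∃ s, s * t = t * s ∧ s ∉ K := by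
  by_contra hc
  push Not at hc
  have := card_le_of_le (show centralizer {t} ≤ K from fun s hs =>
    hc s (mem_centralizer_singleton_iff.1 hs))
  have := h.card
  have := Nat.card_pos (α := K)
  omega

theorem ab [Finite Γ] {a b : Γ} (ha : a ∈ K) (hb : b ∈ K) : a * b = b * a := by
  obtain ⟨s, e, hs⟩ := h.exists_out
  have := h.inv e hs (mul_mem ha hb)
  rw [← conj_mul, h.inv e hs ha, h.inv e hs hb, ← mul_inv_rev, inv_inj] at this
  exact this.symm

theorem memK {y : Γ} (h1 : y * y ≠ 1) (h2 : y * t = t * y) : y ∈ K :=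
  by_contra fun e => h1 (h.out y h2 e)

theorem real [Finite Γ] {y g : Γ} (h1 : y * y ≠ 1) (h2 : g⁻¹ * y * g * t = t * (g⁻¹ * y * g)) :
    y ^ Nat.card K = 1 ∧ ∃ s, s * y * s⁻¹ = y⁻¹ := by
  have := h.memK (by rwa [icj_mul, ne_eq, icj_one]) h2
  obtain ⟨s, e, hs⟩ := h.exists_out
  refine ⟨?_, by simpa [mul_assoc] using real_conj ⟨s, h.inv e hs this⟩ g⟩
  have e := orderOf_dvd_natCard K this
  rw [show g⁻¹ * y * g = MulAut.conj g⁻¹ y by simp, MulEquiv.orderOf_eq] at e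
  exact orderOf_dvd_iff_pow_eq_one.1 e

end Di

namespace PR

variable {Γ : Type*} [Group Γ] {ρ : PR Γ k}

variable (ρ) in
/-- the group of order 168 -/
structure O168 [Fintype Γ] (t : Γ) (K : Subgroup Γ) (g0 : Γ) : Prop where
  card : Nat.card Γ = 168
  di : Di t K
  cardK : Nat.card K = 4
  xx : ρ.XX g0
  reg : ρ.Reg g0
  d7 : dd g0 = 7
  w3 : ww g0 = 3
  rp : ∀ x c, ¬ ρ.RP x c
  ord : ∀ g, g ∉ cj' g0 → (g ^ 4 = 1 ∨ g ^ 3 = 1) ∧ ∃ s, s * g * s⁻¹ = g⁻¹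

variable (ρ) in
/-- the group of order 360 -/
structure O360 (t : Γ) (K : Subgroup Γ) (x c g1 : Γ) : Prop where
  card : Nat.card Γ = 360
  di : Di t K
  cardK : Nat.card K = 4
  rp : ρ.RP x c
  ca : IsCA (RR x c)
  s4 : (RR x c).relIndex (normalizer (RR x c : Set Γ)) = 4
  xx : ρ.XX g1
  d5 : dd g1 = 5
  w2 : ww g1 = 2
  ord : ∀ g : Γ, (g ^ 4 = 1 ∨ g ^ 3 = 1 ∨ g ^ 5 = 1) ∧ ∃ s, s * g * s⁻¹ = g⁻¹

variable {p : ℕ} [Fact p.Prime] [CharP k p] [IsAlgClosed k] [Fintype Γ] [DecidableEq Γ]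
  [IsSimpleGroup Γ] (S : St p ρ) {t g x c : Γ} {K : Subgroup Γ}
include S

theorem St.tri (h1 : t * t = 1) (h2 : t ≠ 1) (h3 : Odd (centralizer {t}).index) (g : Γ) :
    g * g = 1 ∨ (g * g ≠ 1 ∧ ∃ y, y⁻¹ * g * y * t = t * (y⁻¹ * g * y)) ∨ g ∈ ρ.BB ∨ ρ.XX g := by
  by_cases e1 : g * g = 1
  · exact Or.inl e1
  by_cases e2 : ∀ s, s * s = 1 → g * s = s * g → s = 1
  · by_cases e3 : ∃ c, ρ.RP g c
    · exact Or.inr (Or.inr (Or.inl (mem_BB.2 ⟨e2, e3⟩)))
    · exact Or.inr (Or.inr (Or.inr ⟨e1, e2, not_exists.1 e3⟩))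
  push Not at e2
  obtain ⟨s, s1, s2, s3⟩ := e2
  obtain ⟨y, rfl⟩ := isConj_iff.1 (S.one_class h1 h2 h3 s1 s3)
  exact Or.inr (Or.inl ⟨e1, y, icj_comm.1 s2⟩)

theorem St.real_cj (h : ρ.XX g) (hw : ww g = 2) {a : Γ} (ha : a ∈ cj' g) :
    ∃ s, s * a * s⁻¹ = a⁻¹ := by
  obtain ⟨s, s1, s2, s3, -⟩ := S.real_two h hw
  obtain ⟨y, b, hb, -, rfl⟩ := mem_conjs.1 ha
  exact real_conj ⟨s, inverts (S.ca h) s2 s3 (s1 ▸ one_mem _) hb⟩ y

theorem St.real_rp (h : ρ.RP x c) : ∃ s, s * x * s⁻¹ = x⁻¹ := by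
  obtain ⟨-, -, -, -, z, -, -, -, z2, -⟩ := S.exists_W h
  exact ⟨z, z2 x h.mem_left⟩

omit [IsSimpleGroup Γ] [DecidableEq Γ] in
theorem St.di_uniq (h : Di t K) (h1 : t * t = 1) {y s : Γ} (y1 : y * y ≠ 1) (y2 : y * t = t * y)
    (s1 : s * s = 1) (s2 : s ≠ 1) (e : y * s = s * y) : s = t := by
  have e1 := inv_comm p S.sa y1 s1 h1 e y2
  refine (h.uniq s (by_contra fun hs => y1 ?_) s1).resolve_left s2
  have := h.inv e1 hs (h.memK y1 y2)
  rw [← e, mul_inv_cancel_right] at this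
  exact mul_eq_one_iff_eq_inv.2 this

theorem St.di_rp (h1 : t * t = 1) (h2 : t ≠ 1) (h3 : Odd (centralizer {t}).index) (h : Di t K)
    (hr : ρ.RP x c) : IsCA (RR x c) ∧ ρ.BB = conjs (RR x c) ∧ ¬ 3 ∣ Nat.card K ∧
      (RR x c).relIndex (normalizer (RR x c : Set Γ)) ∣ Nat.card K ∧
      ((RR x c).relIndex (normalizer (RR x c : Set Γ)) = 2 ∨
        (RR x c).relIndex (normalizer (RR x c : Set Γ)) = 4) := by
  have key : ∀ y c, ρ.RP y c → ∀ s, s * s = 1 → y * s = s * y → s = 1 := fun y c hy s s1 s2 =>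
    by_contra fun s3 => by
      obtain ⟨g, rfl⟩ := isConj_iff.1 (S.one_class h1 h2 h3 s1 s3)
      have e := hy.conj g⁻¹
      rw [inv_inv] at e
      obtain ⟨s, s1, s2, s3, s4⟩ := e.two h1 h2 (icj_comm.1 s2)
      exact s3 (S.di_uniq h h1 e.sq (icj_comm.1 ‹_›) s1 s2 s4)
  have ca : IsCA (RR x c) := ⟨fun e => hr.ne ((eq_bot_iff_forall _).1 e x hr.mem_left),
    fun a ha a1 g => by
      obtain ⟨c', h', e⟩ := hr.exists ha a1
      rw [← e, ← S.cent_eq h' (key _ _ h'), mem_centralizer_singleton_iff]⟩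
  obtain ⟨W, -, W2, W3, z, z0, z1, z2, -, W4⟩ := S.exists_W hr
  obtain ⟨g, rfl⟩ := isConj_iff.1 (S.one_class h1 h2 h3 z1 z2)
  have WK : ∀ w ∈ W, g⁻¹ * w * g ∈ K := fun w hw => by_contra fun e => by
    have := h.out _ (icj_comm.1 (W4 w hw).1) e
    rw [icj_mul, icj_one] at this
    rcases (W4 w hw).2 this with rfl | rfl
    · simp at e
    · exact e (by simpa [mul_assoc] using h.mem)
  refine ⟨ca, ?_, fun e => ?_, ?_, ?_⟩
  · ext y
    refine ⟨fun hy => ?_, fun hy => ?_⟩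
    · obtain ⟨c', h'⟩ := (mem_BB.1 hy).2
      exact mem_conjs_of_prime ca Nat.prime_three (by rw [hr.card]; norm_num) h'.cube h'.ne
    · obtain ⟨g, a, ha, a1, rfl⟩ := mem_conjs.1 hy
      obtain ⟨c', h', -⟩ := hr.exists ha a1
      exact mem_BB.2 ⟨key _ _ (h'.conj g), _, h'.conj g⟩
  · obtain ⟨y, y1, y2, y3⟩ := exists_pow_prime K Nat.prime_three e
    obtain ⟨-, -, c', h'⟩ := S.rp_three hr y2 y3
    exact h2 (key _ _ h' t h1 (h.le y y1))
  · rw [← W2, ← card_map_of_injective (f := (MulAut.conj g⁻¹).toMonoidHom) (MulAut.conj g⁻¹).injective]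
    exact card_dvd_of_le (by rintro _ ⟨w, hw, rfl⟩; simpa using WK w hw)
  · have ab : ∀ a b : W, a.1 * b = b * a := fun a b => by
      simpa [icj_mul] using h.ab (WK a a.2) (WK b b.2)
    let f : W →* Γ := MonoidHom.mk' (fun a => a * a) fun a b => by
      simp only [Subgroup.coe_mul, mul_assoc, mul_right_inj]
      rw [← mul_assoc, ← mul_assoc, ab]
    have two : ∀ L : Subgroup Γ, L ≤ W → (∀ a ∈ L, a * a = 1) → Nat.card L ≤ 2 := fun L hL e => by
      classical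
      rw [← cardf]
      exact (card_le_card (t := {1, g * t * g⁻¹}) fun a ha => by
        simpa using (W4 a (hL ((mem_filter_univ _).1 ha))).2 (e a ((mem_filter_univ _).1 ha))).trans
        card_le_two
    have e1 := two (f.ker.map W.subtype) (map_subtype_le _) (by rintro _ ⟨a, ha, rfl⟩; exact ha)
    have e2 := two f.range (by rintro _ ⟨a, rfl⟩; exact mul_mem a.2 a.2) (by
      rintro _ ⟨a, rfl⟩
      change a.1 * a * (a * a) = 1
      simpa [pow_succ, mul_assoc] using W3 a a.2)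
    have e3 := f.ker.card_mul_index
    rw [Subgroup.card_subtype] at e1
    rw [index_ker, W2] at e3
    have e4 := Nat.mul_le_mul e1 e2
    have e5 := two_le S.na ca
    have e6 := S.rdvd hr
    rw [e3] at e4
    interval_cases (RR x c).relIndex (normalizer (RR x c : Set Γ)) <;> omega

omit S [Fact p.Prime] [CharP k p] [IsAlgClosed k] [IsSimpleGroup Γ] [DecidableEq Γ] in
variable (ρ) in
/-- the numerical data of the dihedral case -/
structure DS (t : Γ) (K : Subgroup Γ) (m i a u : ℕ) (Y : Finset Γ) : Prop where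
  hm : Nat.card K = 2 * m
  m2 : 2 ≤ m
  cC : dd t = 4 * m
  e1 : Nat.card Γ = 4 * m * i
  i0 : 0 < i
  e6 : Nat.card Γ = 2 * a + 4 * i
  e7 : 8 * i ≤ Nat.card Γ
  e8 : 3 ≤ m → 12 * i ≤ Nat.card Γ
  e4 : Nat.card Γ = 1 + i + a + ρ.BB.card + (u + Y.card)
  hY : ρ.Cd Y
  hw : ∀ g ∈ Y, ww g = 2 ∨ ww g = 3
  hreg : ∀ g, ρ.XX g → ρ.Reg g → g ∈ Y
  hU : u = 0 ∧ (∀ g, ρ.XX g → g ∈ Y) ∨ (∃ v κ, ρ.XX v ∧ dd v * κ = 2 * i ∧ u + κ = 2 * i ∧
      5 ≤ dd v ∧ 5 * κ ≤ 2 * i ∧ κ = (normalizer ((centralizer {v} : Subgroup Γ) : Set Γ)).index ∧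
      Nat.card (normalizer ((centralizer {v} : Subgroup Γ) : Set Γ)) = dd v * (2 * m)) ∨
      ∃ δ ∈ Y, ww δ = 2 ∧ Nat.card Γ < 2 * ((cj' δ).card + u)
  ordK : m = 2 → ∀ g, g * g = 1 ∨ (g * g ≠ 1 ∧ ∃ y, y⁻¹ * g * y * t = t * (y⁻¹ * g * y)) →
      g ^ 4 = 1 ∧ ∃ s, s * g * s⁻¹ = g⁻¹

theorem St.di_setup (h1 : t * t = 1) (h2 : t ≠ 1) (h3 : Odd (centralizer {t}).index) (h : Di t K) :
    ∃ m i a u Y, ρ.DS t K m i a u Y := by
  classical
  have oc : ∀ s ∈ invs Γ, IsConj t s := fun s hs =>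
    S.one_class h1 h2 h3 (mem_invs.1 hs).1 (mem_invs.1 hs).2
  have ht := mem_invs.2 ⟨h1, h2⟩
  have e1 := card_invs ht oc
  have e2 := pair_count' oc (fun y => y * y ≠ 1) (fun g y h => by simpa using h) 1 (fun y y1 y2 =>
    card_eq_one.2 ⟨t, eq_singleton_iff_unique_mem.2 ⟨mem_filter.2 ⟨ht, y2⟩, fun s hs =>
      S.di_uniq h h1 y1 y2 (mem_invs.1 (mem_filter.1 hs).1).1 (mem_invs.1 (mem_filter.1 hs).1).2
        (mem_filter.1 hs).2⟩⟩) ht
  obtain ⟨m, hm⟩ : 2 ∣ Nat.card K := by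
    rw [← Basic.orderOf_eq_two_iff.2 ⟨h1, h2⟩]; exact orderOf_dvd_natCard _ h.mem
  obtain ⟨e3, m2⟩ : (univ.filter fun y : Γ => y * y ≠ 1 ∧ y * t = t * y).card + 2 = 2 * m ∧ 2 ≤ m := by
    have k1 : univ.filter (· ∈ K) =
        insert 1 (insert t (univ.filter fun y : Γ => y * y ≠ 1 ∧ y * t = t * y)) := by
      ext y
      simp only [mem_filter_univ, mem_insert]
      refine ⟨fun hy => by have := h.uniq y hy; have := h.le y hy; tauto, ?_⟩
      rintro (rfl | rfl | e)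
      exacts [one_mem _, h.mem, h.memK e.1 e.2]
    have k2 := cardf K
    rw [k1, card_insert_of_notMem (by simp [h2.symm]), card_insert_of_notMem (by simp [h1])] at k2
    obtain ⟨y, y1, y2⟩ := h.ex
    have := card_pos.2 ⟨y, (mem_filter_univ (p := fun y : Γ => y * y ≠ 1 ∧ y * t = t * y) _).2
      ⟨y2, h.le y y1⟩⟩
    omega
  have e4 := partition (ρ := ρ)
  obtain ⟨Y, u, hY, e5, hw, hreg, hu⟩ := S.split
  have cC : dd t = 4 * m := by rw [h.card, hm]; ring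
  rw [cC] at e1
  rw [e5] at e4
  have i0 := card_pos.2 ⟨t, ht⟩
  generalize (invs Γ).card = i at *
  generalize (univ.filter fun y : Γ => y * y ≠ 1 ∧ ∃ s ∈ invs Γ, y * s = s * y).card = a at *
  refine ⟨m, i, a, u, Y, hm, m2, cC, by linarith, i0, by nlinarith, by nlinarith,
    fun h => by nlinarith, e4, hY, hw, hreg, ?_, ?_⟩
  · rcases hu with e | ⟨v, hv, -, w4, rfl, -, -, ⟨δ, s, d1, d2, s1, s2, s3⟩ | e⟩
    · exact Or.inl e
    swap
    · exact Or.inr (Or.inr e)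
    obtain ⟨κ, f1, -, f3, f4, -, -, f7, f8⟩ := S.cl hv
    obtain ⟨g, rfl⟩ := isConj_iff.1 (S.one_class h1 h2 h3 s1 s2)
    have k1 := h.memK (y := g⁻¹ * δ * g) (fun e => by
      rw [icj_mul, icj_one, ← pow_two] at e
      have := Nat.le_of_dvd (by norm_num) (orderOf_dvd_of_pow_eq_one e)
      omega) (icj_comm.1 s3)
    have k2 : ww v = 2 * m := by
      rw [← hm, ← d1]
      refine le_antisymm (Nat.le_of_dvd Nat.card_pos ?_) ?_
      · have e := orderOf_dvd_natCard K k1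
        rwa [show g⁻¹ * δ * g = MulAut.conj g⁻¹ δ by simp, MulEquiv.orderOf_eq] at e
      · rw [← Nat.card_zpowers, ← d2, show dd δ = dd (g⁻¹ * δ * g⁻¹⁻¹) from (cc_conj _ _).symm, inv_inv]
        exact card_le_of_le fun b hb => mem_centralizer_singleton_iff.2 (h.ab hb k1)
    rw [k2] at f1 f3 f4
    have k3 : dd v * κ = 2 * i := Nat.eq_of_mul_eq_mul_left (show 0 < 2 * m by omega) (by linarith)
    have k4 : 5 ≤ dd v := by have := Nat.le_of_dvd (by omega) f4; omega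
    exact Or.inr (Or.inl ⟨v, κ, hv, k3, Nat.eq_of_mul_eq_mul_left (show 0 < 2 * m by omega)
      (by linarith), k4, k3 ▸ Nat.mul_le_mul_right κ k4, f8, by rw [← card_mul_relIndex, k2]⟩)
  · rintro rfl g (e | ⟨e, y, e'⟩)
    · exact ⟨by rw [show 4 = 2 * 2 from rfl, pow_mul, pow_two g, e, one_pow],
        1, by simpa using (inv_eq_of_mul_eq_one_right e).symm⟩
    · have := h.real e e'
      rwa [hm] at this

theorem St.di_rp' (h1 : t * t = 1) (h2 : t ≠ 1) (h3 : Odd (centralizer {t}).index) (h : Di t K)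
    (hr : ρ.RP x c) : ∃ g1, ρ.O360 t K x c g1 := by
  obtain ⟨m, i, a, u, Y, hm, m2, cC, e1, i0, e6, e7, -, e4, hY, hw, -, hU, ordK⟩ :=
    S.di_setup h1 h2 h3 h
  obtain ⟨ca, b1, b2, b3, b4⟩ := S.di_rp h1 h2 h3 h hr
  obtain ⟨b5, b6⟩ := ca_num ca
  rw [hr.card] at b5 b6
  rw [hm] at b2 b3
  replace b2 : ¬ 3 ∣ m := fun e => b2 (e.mul_left 2)
  generalize (normalizer (RR x c : Set Γ)).index = r at b5 b6
  replace b6 : ρ.BB.card = 8 * r := by rw [b1, b6]; ring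
  rw [b6] at e4
  have b7 : 36 * r = Nat.card Γ ∨ 18 * r = Nat.card Γ := by
    rcases b4 with e | e <;> rw [e] at b5 <;> omega
  rcases hU with ⟨rfl, hX⟩ | ⟨v, κ, hv, v1, v2, v3, v4, v5, v6⟩ | ⟨δ, dY, -, e⟩
  rotate_left 2
  · have := card_le_card (hY δ dY).2
    omega
  · rcases b4 with b4 | b4 <;> rw [b4] at b3 b5
    · rcases S.lower' hY hw with rfl | e
      · rw [card_empty] at e4; omega
      · omega
    obtain ⟨g, hg⟩ := Y.eq_empty_or_nonempty.resolve_left (by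
      rintro rfl; rw [card_empty] at e4; omega)
    obtain ⟨c1, c2, -⟩ := S.peel hY hg
    have c3 := S.lower (hY g hg).1 (hw g hg)
    have c4 := (S.lower' c1 fun g h => hw g (mem_sdiff.1 h).1).resolve_right (by omega)
    obtain ⟨κ, f1, -, f3, f4, -, f6, f7, -⟩ := S.cl (hY g hg).1
    have c5 := S.cop_three (hY g hg).1 hr
    rw [c4, card_empty] at c2
    rcases hw g hg with e | e <;> rw [e] at f1 f3 f4
    · have d5 : dd g = 5 := by_contra fun e => by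
        have := Nat.mul_le_mul_right (2 * κ) (show 7 ≤ dd g by omega)
        rw [← mul_assoc, ← mul_assoc, ← f1] at this
        omega
      rw [d5] at f1
      obtain rfl : m = 2 := by
        have : m < 3 := by nlinarith
        omega
      refine ⟨g, by omega, h, hm, hr, ca, b4, (hY g hg).1, d5, e, fun y => ?_⟩
      rcases or_assoc.2 (S.tri h1 h2 h3 y) with e' | e' | e'
      · exact (ordK rfl y e').imp_left Or.inl
      · obtain ⟨c', h'⟩ := (mem_BB.1 e').2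
        exact ⟨Or.inr (Or.inl h'.cube), S.real_rp h'⟩
      · have := sdiff_eq_empty_iff_subset.1 c4 (hX y e')
        exact ⟨Or.inr (Or.inr (d5 ▸ pow_of_mem_conjs this)), S.real_cj (hY g hg).1 e this⟩
    · exact (num53 (i := i) (r := r) (a := a) e1 (by omega) f1 f3 (by omega) e6 (by omega)
        (cC ▸ S.cop_inv (hY g hg).1 h1 h2) c5 b2 (by omega) (by omega)).elim
  · obtain rfl := (S.lower' hY hw).resolve_right (by omega)
    rw [card_empty] at e4
    rcases b4 with b4 | b4 <;> rw [b4] at b3 b5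
    swap
    · omega
    obtain ⟨k1, k2, k3, k4⟩ := num2448 (n := Nat.card Γ) (r := r) (a := a) e1 (by omega)
      v1 v2 (by omega) e6 v3 (cC ▸ S.cop_inv hv h1 h2) (S.cop_three hv hr) b2
    have := cube_le (zlem (S.ca hv) (by omega)).2 ((1 : Γ) : Γ ⧸ _) ρ.BB fun g hg => by
      obtain ⟨c', h'⟩ := (mem_BB.1 hg).2
      refine ⟨h'.cube, fun e => ?_⟩
      rw [← MulAction.mem_stabilizer_iff, MulAction.stabilizer_quotient] at e
      have := orderOf_dvd_natCard _ e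
      rw [h'.order, v6, k1, k4] at this
      norm_num at this
    rw [← index_eq_card, ← v5, k2, b6, k3] at this
    omega

theorem St.di_nrp (h1 : t * t = 1) (h2 : t ≠ 1) (h3 : Odd (centralizer {t}).index) (h : Di t K)
    (hr : ∀ x c, ¬ ρ.RP x c) {g0 : Γ} (r1 : ρ.Reg g0) (r2 : ∀ s, s * g0 * s⁻¹ ≠ g0⁻¹) :
    ρ.O168 t K g0 := by
  obtain ⟨m, i, a, u, Y, hm, m2, cC, e1, i0, e6, e7, e8, e4, hY, hw, hreg, hU, ordK⟩ :=
    S.di_setup h1 h2 h3 h
  have b0 : ρ.BB = ∅ := eq_empty_of_forall_notMem fun y hy => (mem_BB.1 hy).2.elim (hr y)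
  have x0 : ρ.XX g0 := by
    rcases S.tri h1 h2 h3 g0 with e | ⟨e, y, e'⟩ | e | e
    · exact absurd e r1.sq
    · exact (h.real e e').2.elim fun s e => absurd e (r2 s)
    · simp [b0] at e
    · exact e
  have g0Y := hreg g0 x0 r1
  have w3 := (hw g0 g0Y).resolve_left fun e => (S.real_two x0 e).elim fun s e => r2 s e.2.2.2
  obtain ⟨c1, c2, c3⟩ := S.peel hY g0Y
  have c4 := S.lower x0 (Or.inr w3)
  obtain ⟨κ, f1, -, f3, f4, -, f6, f7, -⟩ := S.cl x0
  rw [w3] at f1 f3 f4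
  rw [b0, card_empty] at e4
  have hw1 := fun g (h : g ∈ Y \ cj' g0) => hw g (mem_sdiff.1 h).1
  rcases hU with ⟨rfl, hX⟩ | ⟨v, κ, hv, v1, v2, v3, v4, v5, v6⟩ | ⟨δ, dY, e, e'⟩
  rotate_left
  · have := (S.lower' c1 hw1).resolve_right (by omega)
    rw [this, card_empty] at c2
    have : κ ≠ 0 := by rintro rfl; omega
    omega
  · have : δ ∈ Y \ cj' g0 := mem_sdiff.2 ⟨dY, fun e'' =>
      (S.real_cj (hY δ dY).1 e (((S.ca x0).conjs_eq (S.ca (hY δ dY).1) e''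
        (CAEven2.self_mem_conjs (hY δ dY).1.ne)) ▸ CAEven2.self_mem_conjs x0.ne)).elim r2⟩
    have := card_le_card (c1 δ this).2
    omega
  obtain ⟨g, hg⟩ := (Y \ cj' g0).eq_empty_or_nonempty.resolve_left fun e => by
    rw [e, card_empty] at c2; omega
  obtain ⟨d1, d2, -⟩ := S.peel c1 hg
  have xg := (c1 g hg).1
  have d3 := S.lower xg (hw1 g hg)
  have d4 := (S.lower' d1 fun g h => hw1 g (mem_sdiff.1 h).1).resolve_right (by omega)
  rw [d4, card_empty] at d2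
  have cov : ∀ y, ρ.XX y → y ∉ cj' g0 → y ∈ cj' g := fun y h1 h2 =>
    sdiff_eq_empty_iff_subset.1 d4 (mem_sdiff.2 ⟨hX y h1, h2⟩)
  obtain ⟨κ', g1, -, g3, g4, -, g6, g7, -⟩ := S.cl xg
  have big : ∀ {d κ : ℕ}, Nat.card Γ = d * 3 * κ → 13 ≤ d → 39 * κ ≤ Nat.card Γ := fun e e' => by
    nlinarith
  rcases hw1 g hg with e | e <;> rw [e] at g1 g3 g4
  · have d3 : dd g = 3 := by_contra fun e => by
      have := Nat.mul_le_mul_right (2 * κ') (show 5 ≤ dd g by omega)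
      rw [← mul_assoc, ← mul_assoc, ← g1] at this
      omega
    rw [d3] at g1
    obtain rfl : m = 2 := by omega
    have d7 : dd g0 = 7 := by_contra fun e => by
      have := big f1 (by omega)
      omega
    rw [d7] at f1
    refine ⟨by omega, h, hm, x0, r1, d7, w3, hr, fun y hy => ?_⟩
    rcases or_assoc.2 (S.tri h1 h2 h3 y) with e' | e' | e'
    · exact (ordK rfl y e').imp_left Or.inl
    · simp [b0] at e'
    · exact ⟨Or.inr (d3 ▸ pow_of_mem_conjs (cov y e' hy)), S.real_cj xg e (cov y e' hy)⟩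
  · exfalso
    obtain ⟨y, -, y1, y2⟩ := exists_pow_prime (⊤ : Subgroup Γ) Nat.prime_three (by
      rw [card_top, f1]; exact ⟨dd g0 * κ, by ring⟩)
    have y3 : ∀ n, y ^ n = 1 → 3 ∣ n := fun n e => by
      haveI : Fact (Nat.Prime 3) := ⟨Nat.prime_three⟩
      exact orderOf_eq_prime y1 y2 ▸ orderOf_dvd_of_pow_eq_one e
    have m3 : 3 ≤ m := by
      rcases S.tri h1 h2 h3 y with e | ⟨e, z, e'⟩ | e | e
      · simpa using y3 2 (by rwa [pow_two])
      · have := y3 _ (h.real e e').1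
        omega
      · simp [b0] at e
      · by_cases e' : y ∈ cj' g0
        · have := y3 _ (pow_of_mem_conjs e')
          omega
        · have := y3 _ (pow_of_mem_conjs (cov y e e'))
          omega
    have := e8 m3
    by_cases e : dd g0 = 7
    · have := big g1 (by have := c3 g hg; rw [e] at this; by_contra h; norm_num [show dd g = 7 by omega] at this)
      omega
    · have := big f1 (by omega)
      omega

theorem St.case_di (h1 : t * t = 1) (h2 : t ≠ 1) (h3 : Odd (centralizer {t}).index) (h : Di t K) :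
    ρ.Real ∨ (∃ g0, ρ.O168 t K g0) ∨ ∃ x c g1, ρ.O360 t K x c g1 := by
  by_cases hr : ∃ x c, ρ.RP x c
  · obtain ⟨x, c, hr⟩ := hr
    exact Or.inr (Or.inr ⟨x, c, S.di_rp' h1 h2 h3 h hr⟩)
  push Not at hr
  by_cases hR : ∀ g, ρ.Reg g → ∃ h, h * g * h⁻¹ = g⁻¹
  · exact Or.inl ⟨hr, hR⟩
  push Not at hR
  obtain ⟨g0, r1, r2⟩ := hR
  exact Or.inr (Or.inl ⟨g0, S.di_nrp h1 h2 h3 h hr r1 r2⟩)

end PR

end Cfsg.Agent.H6.M3
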