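import Cfsg.Agent.H6.MA8

/-! The case of a centraliser of order 24, and the classification. -/

set_option autoImplicit false

namespace Cfsg.Agent.H6.M3

open Subgroup Cfsg.Agent.H4 Cfsg.Agent.H4.CABasic Cfsg.Agent.H4.FeitLow Cfsg.Agent.H6.MG Finset

variable {k : Type*} [Field k]

theorem real_icj {G : Type*} [Group G] {g y : G}
    (h : ∃ s, s * (y⁻¹ * g * y) * s⁻¹ = (y⁻¹ * g * y)⁻¹) : ∃ s, s * g * s⁻¹ = g⁻¹ := by
  simpa [mul_assoc] using real_conj h y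

theorem icj_pow {G : Type*} [Group G] (g y : G) (n : ℕ) : (y⁻¹ * g * y) ^ n = y⁻¹ * g ^ n * y := by
  simpa using conj_pow (i := n) (a := y⁻¹) (b := g)

namespace PR

variable {Γ : Type*} [Group Γ] {ρ : PR Γ k}

variable (ρ) in
/-- the group of order 2520 -/
structure O2520 [Fintype Γ] [DecidableEq Γ] (p : ℕ) (t t1 x c g0 : Γ) : Prop where
  card : Nat.card Γ = 2520
  p5 : p = 5
  ee : ρ.EE t t1 x c
  s4 : (RR x c).relIndex (normalizer (RR x c : Set Γ)) = 4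
  xx : ρ.XX g0
  reg : ρ.Reg g0
  d7 : dd g0 = 7
  w3 : ww g0 = 3
  ord : ∀ g, g ∉ cj' g0 → (g ^ 4 = 1 ∨ g ^ 6 = 1 ∨ g ^ 5 = 1) ∧ ∃ s, s * g * s⁻¹ = g⁻¹

variable {p : ℕ} [Fact p.Prime] [CharP k p] [IsAlgClosed k] [Fintype Γ] [DecidableEq Γ]
  {t t1 g x c y : Γ}

namespace EE

variable (h : ρ.EE t t1 x c) (h1 : t * t = 1)
include h h1

theorem memT (e : y * t = t * y) (e' : y * y * (y * y) ≠ 1) : y ∈ ρ.T0 x := by
  by_contra hc
  rcases h.out y e hc with e | e <;> simp [e, h1] at e'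

omit h1 in
theorem xx : x * x = x⁻¹ := eq_inv_of_mul_eq_one_left (by simpa [pow_succ] using h.rp.cube)

theorem three (e : y * t = t * y) (y3 : y ^ 3 = 1) (y1 : y ≠ 1) : y = x ∨ y = x⁻¹ := by
  have k : y * y * (y * y) = y := by
    calc _ = y ^ 3 * y := by simp [pow_succ, mul_assoc]
      _ = _ := by rw [y3, one_mul]
  rcases h.six y (h.memT h1 e (by rwa [k])) with e | e | e <;> rw [e] at k
  · exact absurd (by simpa using k.symm) y1
  · exact Or.inr (k.symm.trans h.xx)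
  · rw [h.xx, ← mul_inv_rev, h.xx, inv_inv] at k
    exact Or.inl k.symm

omit h1 in
theorem four (hy : y ∈ ρ.T0 x) (e : y * y ≠ 1) : y * y * (y * y) ≠ 1 := by
  rcases h.six y hy with e' | e' | e'
  · exact absurd e' e
  · exact e' ▸ h.rp.sq
  · rw [e', h.xx, ← mul_inv_rev, ne_eq, inv_eq_one]; exact h.rp.sq

omit h1 in
theorem pow6 (hy : y ∈ ρ.T0 x) : y ^ 6 = 1 := by
  rw [show 6 = 2 * 3 from rfl, pow_mul, pow_two]
  rcases h.six y hy with e' | e' | e' <;> rw [e']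
  · simp
  · exact h.rp.cube
  · rw [h.xx, inv_pow, h.rp.cube, inv_one]

theorem exists_s (h2 : t ≠ 1) : ∃ s, s * s = t ∧ s * x * s⁻¹ = x⁻¹ := by
  obtain ⟨s, hs⟩ := card_pos.1 (h.cnt ▸ (by norm_num : 0 < 6))
  replace hs := (mem_filter_univ _).1 hs
  have hx : s * x ∉ ρ.T0 x := fun e =>
    h.four ((mul_mem_cancel_right (self_mem_T0 x)).1 e) (hs ▸ h2) (hs ▸ h1)
  have ct : x * t = t * x := T0_comm h.mem
  refine ⟨s, hs, ?_⟩
  rcases h.out _ ((show Commute s t by rw [← hs]; exact mul_assoc s s s |>.symm).mul_left ct) hx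
    with e | e
  · exfalso
    have e1 : s * x * s⁻¹ = x⁻¹ * t := by
      rw [← inv_eq_of_mul_eq_one_right h1, ← hs]
      calc _ = s * x * (s * x) * (x⁻¹ * (s * s)⁻¹) := by group
        _ = _ := by rw [e, one_mul]
    have e2 : (s * x * s⁻¹) ^ 3 = (x⁻¹ * t) ^ 3 := by rw [e1]
    rw [conj_pow, (show Commute x t from ct).inv_left.mul_pow, inv_pow, h.rp.cube] at e2
    exact h2 (by simpa [pow_succ, h1] using e2.symm)
  · rw [← hs, mul_assoc, mul_right_inj] at e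
    calc _ = x⁻¹ * (x * (s * x)) * s⁻¹ := by group
      _ = _ := by rw [e]; group

theorem real0 (h2 : t ≠ 1) (e : y * t = t * y) (e1 : y * y ≠ 1) (e3 : y ^ 3 = 1 ∨ y ^ 3 = t) :
    ∃ s, s * y * s⁻¹ = y⁻¹ := by
  obtain ⟨s, s1, s2⟩ := h.exists_s h1 h2
  have k1 : s * (y * y) * s⁻¹ = (y * y)⁻¹ := by
    rcases h.three h1 (y := y * y) ((show Commute y t from e).mul_left e) (by
      rw [← pow_two, ← pow_mul, mul_comm, pow_mul, pow_two]
      rcases e3 with e | e <;> simp [e, h1]) e1 with e | e <;> rw [e]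
    · exact s2
    · rw [← conj_inv, s2]
  have k2 : s * y ^ 3 * s⁻¹ = (y ^ 3)⁻¹ := by
    rcases e3 with e | e <;> rw [e]
    · simp
    · rw [inv_eq_of_mul_eq_one_right h1, ← s1]; group
  refine ⟨s, ?_⟩
  calc _ = s * y ^ 3 * s⁻¹ * (s * (y * y) * s⁻¹)⁻¹ := by simp [pow_succ, mul_assoc]
    _ = _ := by rw [k1, k2]; simp [pow_succ, mul_assoc]

end EE

variable [IsSimpleGroup Γ] (S : St p ρ)
include S

omit [DecidableEq Γ] in
theorem St.real_even (h : ρ.XX g) (hw : 2 ∣ ww g) {a : Γ} (ha : a ∈ cj' g) :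
    ∃ s, s * a * s⁻¹ = a⁻¹ := by
  obtain ⟨s, hs, h3, h4⟩ := Basic.exists_involution_of_even
    (normalizer ((centralizer {g} : Subgroup Γ) : Set Γ)) (by
      rw [← card_mul_relIndex]; exact (even_iff_two_dvd.2 hw).mul_left _)
  have h5 : s ∉ centralizer {g} := fun e => h4 (h.inv s h3 (mem_centralizer_singleton_iff.1 e).symm)
  obtain ⟨y, b, hb, -, rfl⟩ := mem_conjs.1 ha
  exact real_conj ⟨s, inverts (S.ca h) hs h5 (h3 ▸ one_mem _) hb⟩ y

theorem St.ee_real (h1 : t * t = 1) (h2 : t ≠ 1) (h3 : Odd (centralizer {t}).index)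
    (h : ρ.EE t t1 x c) (e1 : y * y ≠ 1) (e : y * t = t * y) :
    (y ^ 4 = 1 ∨ y ^ 6 = 1) ∧ ∃ s, s * y * s⁻¹ = y⁻¹ := by
  by_cases hy : y ∈ ρ.T0 x
  · refine ⟨Or.inr (h.pow6 hy), ?_⟩
    by_cases e3 : y ^ 3 = 1
    · exact h.real0 h1 h2 e e1 (Or.inl e3)
    obtain ⟨g, hg⟩ := isConj_iff.1 (S.one_class h1 h2 h3 (by rw [← pow_add, h.pow6 hy]) e3)
    refine real_icj (y := g) (h.real0 h1 h2 (icj_comm.1 ?_) (by rwa [icj_mul, ne_eq, icj_one])
      (Or.inr (by rw [icj_pow, ← hg]; group)))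
    rw [hg]; exact (Commute.self_pow y 3).eq
  have k := (h.out y e hy).resolve_left e1
  have k4 : y * y * (y * y) = 1 := by rw [k, h1]
  refine ⟨Or.inl (by simpa [pow_succ, mul_assoc] using k4), t1, ?_⟩
  have c1 : t1 * t = t * t1 := (T0_comm (T0_ab p S.sa h.rp.sq h.mem h.mem1)).symm
  rw [inv_eq_of_mul_eq_one_right h.sq1]
  rcases h.out _ ((show Commute y t from e).mul_left c1) (mt (mul_mem_cancel_right h.mem1).1 hy)
    with e' | e'
  · exact eq_inv_of_mul_eq_one_right (by simpa [mul_assoc] using e')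
  · rw [← k, mul_assoc, mul_right_inj] at e'
    refine absurd ((four_uniq p S.sa e1 k4 h.ne1 h.sq1 ?_).trans k) h.ne
    conv_rhs => rw [← e', ← mul_assoc, h.sq1, one_mul]

theorem St.ee_w (h1 : t * t = 1) (h2 : t ≠ 1) (h3 : Odd (centralizer {t}).index)
    (h : ρ.EE t t1 x c) : (RR x c).relIndex (normalizer (RR x c : Set Γ)) = 2 ∨
      (RR x c).relIndex (normalizer (RR x c : Set Γ)) = 4 := by
  obtain ⟨W, -, W2, W3, z, z0, z1, z2, -, W4⟩ := S.exists_W h.rp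
  obtain ⟨g, rfl⟩ := isConj_iff.1 (S.one_class h1 h2 h3 z1 z2)
  let W' := W.map (MulAut.conj g⁻¹).toMonoidHom
  have e0 : Nat.card W' = Nat.card W := card_map_of_injective (MulAut.conj g⁻¹).injective
  have TC : ρ.T0 x ≤ centralizer {t} := fun a ha =>
    mem_centralizer_singleton_iff.2 (T0_comm (T0_ab p S.sa h.rp.sq ha h.mem))
  have e1 := ((ρ.T0 x).subgroupOf (centralizer {t})).card_mul_index
  rw [Nat.card_congr (subgroupOfEquivOfLe TC).toEquiv, h.cardT, h.card] at e1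
  have e2 := ((ρ.T0 x).subgroupOf W').card_mul_index
  have e3 : (ρ.T0 x).relIndex W' ≤ (ρ.T0 x).relIndex (centralizer {t}) :=
    relIndex_le_of_le_right (by
      rintro _ ⟨w, hw, rfl⟩
      simpa using mem_centralizer_singleton_iff.2 (icj_comm.1 (W4 w hw).1)) index_ne_zero_of_finite
  have e4 : Nat.card ((ρ.T0 x).subgroupOf W') ≤ 2 := by
    classical
    rw [← card_map_of_injective (f := W'.subtype) W'.subtype_injective, subgroupOf_map_subtype,
      ← cardf]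
    refine (card_le_card (t := {1, t}) fun a ha => ?_).trans card_le_two
    obtain ⟨a1, w, hw, rfl⟩ := (mem_filter_univ _).1 ha
    have : w * w = 1 := by_contra fun e => h.four a1 (by simpa [icj_mul, icj_one] using e) (by
      simp only [MulEquiv.toMonoidHom_eq_coe, MonoidHom.coe_coe, MulAut.conj_apply, inv_inv, icj_mul,
        icj_one]
      simpa [pow_succ, mul_assoc] using W3 w hw)
    rcases (W4 w hw).2 this with rfl | rfl <;> simp [mul_assoc]
  have e5 : 1 < Nat.card W := (one_lt_card_iff_ne_bot _).2 fun e => z2 ((eq_bot_iff_forall _).1 e _ z0)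
  have e6 := S.rdvd h.rp
  have e7 := Nat.mul_le_mul e4 e3
  simp only [relIndex] at e7
  rw [e2, e0, W2, show ((ρ.T0 x).subgroupOf (centralizer {t})).index = 2 by omega] at e7
  rw [W2] at e5
  interval_cases (RR x c).relIndex (normalizer (RR x c : Set Γ)) <;> omega

theorem St.ee_bb (h1 : t * t = 1) (h2 : t ≠ 1) (h3 : Odd (centralizer {t}).index)
    (h : ρ.EE t t1 x c) : ∃ r b, Nat.card Γ = 9 * (RR x c).relIndex (normalizer (RR x c : Set Γ)) * r ∧
      ρ.BB.card = r * b ∧ b + (RR x c).relIndex (normalizer (RR x c : Set Γ)) = 8 := by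
  haveI : Fact (Nat.Prime 3) := ⟨Nat.prime_three⟩
  have hr := h.rp
  have cB : ∀ g y, y ∈ ρ.BB → g * y * g⁻¹ ∈ ρ.BB := fun g y hy => by
    obtain ⟨e1, c', e2⟩ := mem_BB.1 hy
    exact mem_BB.2 ⟨fun t h1 h2 => icj_one.1 (e1 (g⁻¹ * t * g) (by rw [icj_mul, h1, icj_one])
      (icj_comm.1 h2.symm).symm), _, e2.conj g⟩
  have ce : ∀ y ∈ RR x c, y ∈ ρ.BB → centralizer {y} = RR x c := fun y h1 h2 => by
    obtain ⟨e1, c', e2⟩ := mem_BB.1 h2
    obtain ⟨c', e3, e4⟩ := hr.exists h1 e2.ne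
    rw [S.cent_eq e3 e1, e4]
  have k1 := H9.ncard_conjSet {y | y ∈ RR x c ∧ y ∈ ρ.BB} (normalizer (RR x c : Set Γ))
    (fun g hg s hs => ⟨(mem_normalizer_iff.1 hg s).1 hs.1, cB g s hs.2⟩) fun g s hs e => by
      refine mem_normalizer_iff.2 fun a => ?_
      conv_lhs => rw [← ce s hs.1 hs.2]
      rw [← ce _ e.1 e.2]
      simp [mem_centralizer_singleton_iff]
  have k2 := H9.card_eq_conj_orbit_mul (normalizer (RR x c : Set Γ)) x
    {y | ∃ g ∈ normalizer (RR x c : Set Γ), g * x * g⁻¹ = y} fun _ => Iff.rfl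
  rw [show normalizer (RR x c : Set Γ) ⊓ centralizer {x} = RR x c from le_antisymm
    (fun n hn => hr.free S.sa hn.1 hr.mem_left hr.ne (mem_centralizer_singleton_iff.1 hn.2))
    (le_inf le_normalizer inf_le_left), ← card_mul_relIndex, hr.card, mul_comm] at k2
  have k3 : (RR x c : Set Γ) = insert 1 ({y | y ∈ RR x c ∧ y ∈ ρ.BB} ∪
      {y | ∃ g ∈ normalizer (RR x c : Set Γ), g * x * g⁻¹ = y}) := by
    ext y
    simp only [SetLike.mem_coe, Set.mem_insert_iff, Set.mem_union, Set.mem_ofPred_eq]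
    refine ⟨fun hy => or_iff_not_imp_left.2 fun y1 => or_iff_not_imp_left.2 fun y2 => ?_, ?_⟩
    · obtain ⟨c', e, -⟩ := hr.exists hy y1
      obtain ⟨s, s1, s2, s3⟩ : ∃ s, s * s = 1 ∧ y * s = s * y ∧ s ≠ 1 := by
        by_contra hc
        push Not at hc
        exact y2 ⟨hy, mem_BB.2 ⟨hc, _, e⟩⟩
      obtain ⟨g, rfl⟩ := isConj_iff.1 (S.one_class h1 h2 h3 s1 s3)
      obtain ⟨g, rfl⟩ : ∃ g, y = g⁻¹ * x * g := by
        rcases h.three h1 (icj_comm.1 s2) (by rw [icj_pow, e.cube, icj_one]) (mt icj_one.1 y1)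
          with e | e
        · exact ⟨g⁻¹, by rw [← e]; group⟩
        · obtain ⟨s, hs⟩ := h.real
          refine ⟨s⁻¹ * g⁻¹, ?_⟩
          rw [← hs] at e
          rw [← mul_left_inj g, ← mul_right_inj g⁻¹, ← mul_assoc, e]
          group
      obtain ⟨P, hP⟩ := S.sylow hr
      haveI : IsMulCommutative P := ⟨⟨fun a b => Subtype.ext (hr.ab (hP ▸ a.2) (hP ▸ b.2))⟩⟩
      obtain ⟨n, hn, e⟩ := P.conj_eq_normalizer_conj_of_mem x g (show x ∈ P.1 from hP ▸ hr.mem_left)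
        (show _ ∈ P.1 from hP ▸ hy)
      exact ⟨n⁻¹, inv_mem (hP ▸ hn), by rw [e, inv_inv]⟩
    · rintro (rfl | e | ⟨g, hg, rfl⟩)
      exacts [one_mem _, e.1, (mem_normalizer_iff.1 hg x).1 hr.mem_left]
  have k4 := congrArg Set.ncard k3
  rw [← Nat.card_coe_set_eq, SetLike.coe_sort_coe, hr.card, Set.ncard_insert_of_notMem (by
      rintro (e | ⟨g, -, e⟩)
      · exact (mem_BB.1 e.2).2.elim fun _ h => h.ne rfl
      · exact hr.ne (by simpa using e)), Set.ncard_union_eq (Set.disjoint_left.2 (by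
      rintro _ e ⟨g, -, rfl⟩
      exact h2 (by simpa using (mem_BB.1 e.2).1 (g * t * g⁻¹) (by simp [h1]) (by
        simp [T0_comm h.mem]))))] at k4
  refine ⟨(normalizer (RR x c : Set Γ)).index, {y | y ∈ RR x c ∧ y ∈ ρ.BB}.ncard, by
    rw [← hr.card, card_mul_relIndex, card_mul_index], ?_, by omega⟩
  rw [← k1, ← Set.ncard_coe_finset]
  congr 1
  ext y
  refine ⟨fun hy => ?_, by rintro ⟨g, s, hs, rfl⟩; exact cB g s hs.2⟩
  obtain ⟨c', e⟩ := (mem_BB.1 hy).2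
  obtain ⟨g, hg, -⟩ := S.rp_three hr e.cube e.ne
  exact ⟨g⁻¹, _, ⟨hg, cB g y hy⟩, by group⟩

theorem St.ee_a (h1 : t * t = 1) (h2 : t ≠ 1) (h3 : Odd (centralizer {t}).index)
    (h : ρ.EE t t1 x c) : Nat.card Γ = 24 * (invs Γ).card ∧
      3 * (univ.filter fun y : Γ => y * y ≠ 1 ∧ ∃ s ∈ invs Γ, y * s = s * y).card =
        26 * (invs Γ).card := by
  have oc : ∀ s ∈ invs Γ, IsConj t s := fun s hs =>
    S.one_class h1 h2 h3 (mem_invs.1 hs).1 (mem_invs.1 hs).2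
  have ht := mem_invs.2 ⟨h1, h2⟩
  have e1 := card_invs ht oc
  have e2 := pair_count' oc (fun y => y * y ≠ 1 ∧ y * y * (y * y) = 1)
    (fun g y h => by simpa using h) 1 (fun y y1 y2 =>
    card_eq_one.2 ⟨y * y, eq_singleton_iff_unique_mem.2 ⟨mem_filter.2 ⟨mem_invs.2 ⟨y1.2, y1.1⟩,
      (mul_assoc y y y).symm⟩, fun s hs => four_uniq p S.sa y1.1 y1.2
        (mem_invs.1 (mem_filter.1 hs).1).2 (mem_invs.1 (mem_filter.1 hs).1).1
        (mem_filter.1 hs).2⟩⟩) ht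
  have c1 : t * t1 = t1 * t := T0_comm (T0_ab p S.sa h.rp.sq h.mem h.mem1)
  have n1 : t * t1 ≠ 1 := fun e => h.ne (mul_left_cancel (e.trans h1.symm))
  have n2 : t * t1 * (t * t1) = 1 := by
    rw [mul_assoc, ← mul_assoc t1, ← c1, mul_assoc, h.sq1, mul_one, h1]
  have cV : ({t, t1, t * t1} : Finset Γ).card = 3 :=
    card_eq_three.2 ⟨_, _, _, h.ne.symm, by simp [h.ne1], by simp [h2], rfl⟩
  have e3 := pair_count' oc (fun y => y * y ≠ 1 ∧ ¬ y * y * (y * y) = 1)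
    (fun g y h => by simpa using h) 3 (fun y y1 y2 => by
      have hy := h.memT h1 y2 y1.2
      rw [← cV]
      congr 1
      ext s
      simp only [mem_filter, mem_invs, mem_insert, mem_singleton]
      refine ⟨fun e => (h.inv s (T0_eq p S.sa h.rp.sq y1.1 hy ▸ mem_T0_of_inv e.2 e.1.1)
        e.1.1).resolve_left e.1.2, ?_⟩
      rintro (rfl | rfl | rfl)
      · exact ⟨⟨h1, h2⟩, y2⟩
      · exact ⟨⟨h.sq1, h.ne1⟩, T0_comm (T0_ab p S.sa h.rp.sq hy h.mem1)⟩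
      · exact ⟨⟨n2, n1⟩, T0_comm (T0_ab p S.sa h.rp.sq hy (mul_mem h.mem h.mem1))⟩) ht
  have e4 := card_filter_add_card_filter_not (s := univ.filter fun y : Γ => y * y ≠ 1 ∧
    ∃ s ∈ invs Γ, y * s = s * y) fun y => y * y * (y * y) = 1
  rw [filter_filter, filter_filter, filter_congr fun _ _ => and_right_comm,
    filter_congr (p := fun y : Γ => _ ∧ ¬ _) fun _ _ => and_right_comm] at e4
  rw [show (univ.filter fun y => (y * y ≠ 1 ∧ y * y * (y * y) = 1) ∧ y * t = t * y) =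
    univ.filter fun s : Γ => s * s = t from filter_congr fun y _ => ⟨fun e =>
      (four_uniq p S.sa e.1.1 e.1.2 h2 h1 e.2).symm, fun e => e ▸ ⟨⟨e ▸ h2, e ▸ h1⟩,
        (mul_assoc y y y).symm⟩⟩, h.cnt] at e2
  have e5 : (univ.filter fun y => (y * y ≠ 1 ∧ ¬ y * y * (y * y) = 1) ∧ y * t = t * y).card = 8 := by
    classical
    have k := cardf (ρ.T0 x)
    rw [h.cardT, show univ.filter (· ∈ ρ.T0 x) = insert 1 {t, t1, t * t1} ∪
      (univ.filter fun y => (y * y ≠ 1 ∧ ¬ y * y * (y * y) = 1) ∧ y * t = t * y) by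
        ext y
        simp only [mem_filter_univ, mem_union, mem_insert, mem_singleton]
        refine ⟨fun e => (em (y * y = 1)).imp (h.inv y e) fun e' => ⟨⟨e', h.four e e'⟩,
          T0_comm (T0_ab p S.sa h.rp.sq e h.mem)⟩, ?_⟩
        rintro ((rfl | rfl | rfl | rfl) | e)
        exacts [one_mem _, h.mem, h.mem1, mul_mem h.mem h.mem1, h.memT h1 e.2 e.1.2],
      card_union_of_disjoint (disjoint_left.2 fun y hy e => by
        simp only [mem_insert, mem_singleton] at hy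
        apply ((mem_filter_univ _).1 e).1.1
        rcases hy with rfl | rfl | rfl | rfl
        exacts [one_mul _, h1, h.sq1, n2]),
      card_insert_of_notMem (by simp [h2.symm, h.ne1.symm, n1.symm]), cV] at k
    omega
  rw [e5] at e3
  rw [h.card] at e1
  omega

theorem St.ee_u (h1 : t * t = 1) (h2 : t ≠ 1) (h3 : Odd (centralizer {t}).index)
    (h : ρ.EE t t1 x c) {δ s : Γ} (d1 : 4 ≤ orderOf δ) (d2 : centralizer {δ} = zpowers δ)
    (s1 : s * s = 1) (s2 : s ≠ 1) (s3 : δ * s = s * δ) : orderOf δ = 4 := by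
  obtain ⟨g, rfl⟩ := isConj_iff.1 (S.one_class h1 h2 h3 s1 s2)
  refine le_antisymm (Nat.le_of_dvd (by norm_num) (orderOf_dvd_of_pow_eq_one (by_contra fun e => ?_))) d1
  have k := h.memT h1 (icj_comm.1 s3) (by
    simp only [icj_mul, ne_eq, icj_one]; simpa [pow_succ, mul_assoc] using e)
  have k1 := h.pow6 k
  rw [icj_pow, icj_one] at k1
  have k2 := Nat.le_of_dvd (by norm_num) (orderOf_dvd_of_pow_eq_one k1)
  have k3 := card_le_of_le (show ρ.T0 x ≤ centralizer {g⁻¹ * δ * g⁻¹⁻¹} from fun a ha =>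
    mem_centralizer_singleton_iff.2 (by rw [inv_inv]; exact T0_comm (T0_ab p S.sa h.rp.sq ha k)))
  have k4 : dd (g⁻¹ * δ * g⁻¹⁻¹) = dd δ := cc_conj _ _
  rw [k4, d2, Nat.card_zpowers, h.cardT] at k3
  omega

theorem St.case_ee (h1 : t * t = 1) (h2 : t ≠ 1) (h3 : Odd (centralizer {t}).index)
    (h : ρ.EE t t1 x c) : ∃ g0, ρ.O2520 p t t1 x c g0 := by
  classical
  obtain ⟨e1, e2⟩ := S.ee_a h1 h2 h3 h
  obtain ⟨r, b, b1, b2, b3⟩ := S.ee_bb h1 h2 h3 h
  have e4 := partition (ρ := ρ)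
  obtain ⟨Y, u, hY, e5, hw, -, hu⟩ := S.split
  rw [e5, b2] at e4
  have n0 := Nat.card_pos (α := Γ)
  generalize (univ.filter fun y : Γ => y * y ≠ 1 ∧ ∃ s ∈ invs Γ, y * s = s * y).card = a at *
  have hU : u = 0 ∧ (∀ g, ρ.XX g → g ∈ Y) ∨ (∃ v κ, ρ.XX v ∧ v ^ p = 1 ∧ ww v = 4 ∧
      Nat.card Γ = dd v * 4 * κ ∧ 4 * u + 4 * κ = Nat.card Γ ∧ 0 < κ ∧ 20 * κ ≤ Nat.card Γ ∧
      (dd v = 5 ∨ 36 * κ ≤ Nat.card Γ) ∧ ∀ g, ρ.XX g → g ∈ Y ∨ g ∈ cj' v) ∨
      ∃ δ ∈ Y, Nat.card Γ < 2 * ((cj' δ).card + u) := by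
    rcases hu with e | ⟨v, hv, vp, w4, rfl, -, cov, ⟨δ, s, d1, d2, s1, s2, s3⟩ | ⟨δ, d1, -, e⟩⟩
    · exact Or.inl e
    swap
    · exact Or.inr (Or.inr ⟨δ, d1, e⟩)
    have w := d1.symm.trans (S.ee_u h1 h2 h3 h (d1 ▸ w4) d2 s1 s2 s3)
    obtain ⟨κ, f1, -, f3, f4, -, -, f7, -⟩ := S.cl hv
    rw [w] at f1 f3 f4
    refine Or.inr (Or.inl ⟨v, κ, hv, vp, w, f1, f3, Nat.pos_of_ne_zero (by rintro rfl; omega),
      by nlinarith [show 5 ≤ dd v by omega], or_iff_not_imp_left.2 fun e => ?_, cov⟩)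
    nlinarith [show 9 ≤ dd v by omega]
  rcases S.ee_w h1 h2 h3 h with s4 | s4 <;> rw [s4] at b1 b3
  · obtain rfl : b = 6 := by omega
    obtain rfl := (S.lower' hY hw).resolve_right (by omega)
    rw [card_empty] at e4
    rcases hU with ⟨rfl, -⟩ | ⟨v, κ, -, -, -, -, v1, v2, -⟩ | ⟨δ, dY, -⟩
    · omega
    · omega
    · simp at dY
  obtain rfl : b = 4 := by omega
  obtain ⟨g, hg⟩ := Y.eq_empty_or_nonempty.resolve_left (by
    rintro rfl
    rw [card_empty] at e4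
    rcases hU with ⟨rfl, -⟩ | ⟨v, κ, -, -, -, -, v1, v2, -⟩ | ⟨δ, dY, -⟩
    · omega
    · omega
    · simp at dY)
  have xg := (hY g hg).1
  obtain ⟨c1, c2, -⟩ := S.peel hY hg
  have c3 := S.lower xg (hw g hg)
  have c4 := (S.lower' c1 fun g h => hw g (mem_sdiff.1 h).1).resolve_right (by omega)
  obtain ⟨κ, f1, f2, f3, f4, -, f6, f7, -⟩ := S.cl xg
  have c5 := S.cop_three xg h.rp
  rw [c4, card_empty] at c2
  rcases hU with ⟨rfl, hX⟩ | ⟨v, κ', hv, vp, w, v1, v2, v3, v4, v5, cov⟩ | ⟨δ, dY, e⟩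
  rotate_left 2
  · have := card_le_card (hY δ dY).2
    omega
  · exfalso
    rcases hw g hg with e | e <;> rw [e] at f1 f3 f4
    swap
    · omega
    obtain ⟨j, hj⟩ : 72 ∣ Nat.card Γ := by omega
    obtain rfl : κ = j + 1 := by omega
    have k1 : j + 1 ∣ 36 := by
      have : (36 : ℤ) = (j + 1) * (36 - dd g) := by zify at f1 hj; linarith
      exact_mod_cast Dvd.intro _ this.symm
    have k2 : dd g = 35 ∧ j = 35 := by
      have := Nat.le_of_dvd (by norm_num) k1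
      have : j ≤ 35 := by omega
      interval_cases j <;> omega
    obtain ⟨s, s1, s2, s3, -⟩ := S.real_two xg e
    have := pairs_le (S.ca xg) s1 s2 s3
    rw [f2, k2.1, k2.2, show (invs Γ).card = 105 by omega] at this
    omega
  rcases hw g hg with e | e <;> rw [e] at f1 f3 f4
  · have := Nat.mul_le_mul_right (2 * κ) (show 5 ≤ dd g by omega)
    rw [← mul_assoc, ← mul_assoc, ← f1] at this
    omega
  have := Nat.mul_le_mul_right (3 * κ) (show 7 ≤ dd g by omega)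
  rw [← mul_assoc, ← mul_assoc, ← f1] at this
  have d5 := v5.resolve_right (by omega)
  have d7 : dd g = 7 := by_contra fun e => by
    have := Nat.mul_le_mul_right (3 * κ) (show 13 ≤ dd g by omega)
    rw [← mul_assoc, ← mul_assoc, ← f1] at this
    omega
  rw [d7] at f1
  rw [d5] at v1
  have p5 : p = 5 := by
    have := orderOf_dvd_natCard _ (mem_centralizer_singleton_iff.2 (rfl : v * v = v * v))
    rw [orderOf_eq_prime vp hv.ne, d5] at this
    exact (Nat.prime_dvd_prime_iff_eq Fact.out (by norm_num)).1 this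
  refine ⟨g, by omega, p5, h, s4, xg, (reg_or_jb p S.sa xg.sq).resolve_right fun e => ?_, d7, e,
    fun y hy => ?_⟩
  · have k1 := orderOf_dvd_of_pow_eq_one (e.pow p S.sa (self_mem_T0 g))
    have k2 := orderOf_dvd_natCard _ (mem_centralizer_singleton_iff.2 (rfl : g * g = g * g))
    rw [d7] at k2
    exact xg.ne (orderOf_eq_one_iff.1 (Nat.eq_one_of_dvd_coprimes (by norm_num) (p5 ▸ k1) k2))
  rcases S.tri h1 h2 h3 y with e' | ⟨e', z, e''⟩ | e' | e'
  · exact ⟨Or.inl (by rw [show 4 = 2 * 2 from rfl, pow_mul, pow_two y, e', one_pow]),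
      1, by simpa using (inv_eq_of_mul_eq_one_right e').symm⟩
  · have := S.ee_real h1 h2 h3 h (by rwa [icj_mul, ne_eq, icj_one]) e''
    simp only [icj_pow, icj_one] at this
    exact ⟨this.1.imp_right Or.inl, real_icj this.2⟩
  · obtain ⟨c', h'⟩ := (mem_BB.1 e').2
    exact ⟨Or.inr (Or.inl (by rw [show 6 = 3 * 2 from rfl, pow_mul, h'.cube, one_pow])),
      S.real_rp h'⟩
  · have := (cov y e').resolve_left fun e => hy (sdiff_eq_empty_iff_subset.1 c4 e)
    exact ⟨Or.inr (Or.inr (d5 ▸ pow_of_mem_conjs this)), S.real_even hv (by rw [w]; norm_num) this⟩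

theorem St.main : ρ.Real ∨ (∃ t K g0, ρ.O168 t K g0) ∨ (∃ t K x c g1, ρ.O360 t K x c g1) ∨
    ∃ t t1 x c g0, t * t = 1 ∧ t ≠ 1 ∧ ρ.O2520 p t t1 x c g0 := by
  obtain ⟨t, h1, h2, h3⟩ := exists_central S.even
  rcases S.cases h1 h2 h3 with e | ⟨K, e⟩ | ⟨t1, x, c, e⟩ | e
  · exact Or.inl e
  · rcases S.case_di h1 h2 h3 e with e | e | e
    exacts [Or.inl e, Or.inr (Or.inl ⟨t, K, e⟩), Or.inr (Or.inr (Or.inl ⟨t, K, e⟩))]
  · obtain ⟨g0, e⟩ := S.case_ee h1 h2 h3 e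
    exact Or.inr (Or.inr (Or.inr ⟨t, t1, x, c, g0, h1, h2, e⟩))
  · exact absurd e (S.no_gl23 h1 h2 h3)

end PR

end Cfsg.Agent.H6.M3
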