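import Cfsg.Agent.H6.MC3
import Cfsg.Agent.H9.SmallPerfect

/-! Homologies: pairs. -/

set_option autoImplicit false

namespace Cfsg.Agent.H6.M3

open Matrix OnePoint MulAction Cfsg.Agent.H6.Pg
open scoped MatrixGroups commutatorElement

variable {k : Type*} [Field k]

theorem root_fix (p : ℕ) [Fact p.Prime] [CharP k p] {x : k} {n : ℕ} (hn : n ≠ 0) (h : x ^ n = 1) :
    ∃ e, x ^ p ^ (e + 1) = x := by
  have hp : p.Prime := Fact.out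
  obtain ⟨j, m, hm, rfl⟩ := Nat.exists_eq_pow_mul_and_not_dvd hn p hp.ne_one
  rw [ExpChar.pow_prime_pow_mul_eq_one_iff] at h
  have h1 := Nat.ModEq.pow_totient ((Nat.Prime.coprime_iff_not_dvd hp).2 hm)
  obtain ⟨e, he⟩ := Nat.exists_eq_add_one_of_ne_zero
    (Nat.totient_pos.2 (Nat.pos_of_ne_zero (right_ne_zero_of_mul hn))).ne'
  obtain ⟨t, ht⟩ := (Nat.modEq_iff_dvd' (Nat.one_le_pow _ _ hp.pos)).1 h1.symm
  refine ⟨e, ?_⟩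
  rw [← he, show p ^ m.totient = m * t + 1 by have := Nat.one_le_pow m.totient _ hp.pos; omega,
    pow_succ, pow_mul, h, one_pow, one_mul]

theorem dg_mul (a b c a' b' c' : k) : dg a b c * dg a' b' c' = dg (a * a') (b * b') (c * c') := by
  simp

theorem dg_one : dg (1 : k) 1 1 = 1 := one_fin_three.symm

theorem dg_pow (a b c : k) (n : ℕ) : dg a b c ^ n = dg (a ^ n) (b ^ n) (c ^ n) := by
  induction n with
  | zero => simp [dg_one]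
  | succ n ih => rw [pow_succ, ih, dg_mul]; simp only [pow_succ]

theorem r1_pow {v φ : Vc k} (h : φ ⬝ᵥ v = 0) (n : ℕ) :
    (1 + vecMulVec v φ) ^ n = 1 + vecMulVec ((n : k) • v) φ := by
  induction n with
  | zero => simp
  | succ n ih =>
    rw [pow_succ, ih, r1_mul, h, zero_smul, add_zero, add_assoc, ← add_vecMulVec, Nat.cast_succ,
      add_smul, one_smul]

theorem a5_comm : ∀ x : alternatingGroup (Fin 5), ∃ a b : alternatingGroup (Fin 5),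
    x = a * b * a⁻¹ * b⁻¹ := by decide +kernel

theorem s4_four : ∀ a b : Equiv.Perm (Fin 4), a ^ 2 ≠ 1 → a ^ 4 = 1 → b ^ 2 ≠ 1 → b ^ 4 = 1 →
    a * b ≠ b * a → (a * b) ^ 3 = 1 ∧ (a * b⁻¹) ^ 3 = 1 := by decide +kernel

theorem s4_three : ∀ a b : Equiv.Perm (Fin 4), a ^ 3 = 1 → b ^ 3 = 1 →
    (a * b) ^ 2 = 1 ∨ (a * b) ^ 3 = 1 := by decide +kernel

namespace PR

variable {Γ : Type*} [Group Γ] {ρ : PR Γ k}

theorem perfect_flag_std [Finite Γ] {K : Subgroup Γ} (hK : ⁅K, K⁆ = K)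
    (h : ∀ g ∈ K, ∀ A, ρ.L g A → A 1 0 = 0 ∧ A 2 0 = 0 ∧ A 2 1 = 0) : K = ⊥ := by
  let U1 := ρ.grp (fun A => ∃ a b c, A = !![1, a, b; 0, 1, c; 0, 0, 1])
    ⟨0, 0, 0, one_fin_three⟩ (by rintro _ _ ⟨a, b, c, rfl⟩ ⟨a', b', c', rfl⟩; simp)
  let U2 := ρ.grp (fun A => ∃ b, A = !![1, 0, b; 0, 1, 0; 0, 0, 1])
    ⟨0, one_fin_three⟩ (by rintro _ _ ⟨a, rfl⟩ ⟨a', rfl⟩; simp)
  have cm : ∀ {g g' A A'}, ρ.L g A → ρ.L g' A' → ρ.L ⁅g, g'⁆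
      ((A.det * A'.det)⁻¹ • (A * A' * A.adjugate * A'.adjugate)) := fun h h' =>
    ρ.smul (ρ.mul (ρ.mul (ρ.mul h h') (ρ.inv_adj h)) (ρ.inv_adj h'))
      (inv_ne_zero (mul_ne_zero (ρ.det h) (ρ.det h')))
  have h1 : K ≤ U1 := hK ▸ Subgroup.commutator_le.2 fun g hg g' hg' => by
    obtain ⟨A, hA⟩ := ρ.ex g
    obtain ⟨A', hA'⟩ := ρ.ex g'
    refine ⟨_, cm hA hA', ?_⟩
    have e := h g hg A hA
    have e' := h g' hg' A' hA'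
    have d := ρ.det hA
    have d' := ρ.det hA'
    obtain ⟨a0, a1, a2, a3, a4, a5, a6, a7, a8, rfl⟩ := ex9 A
    obtain ⟨b0, b1, b2, b3, b4, b5, b6, b7, b8, rfl⟩ := ex9 A'
    obtain ⟨rfl, rfl, rfl⟩ : a3 = 0 ∧ a6 = 0 ∧ a7 = 0 := e
    obtain ⟨rfl, rfl, rfl⟩ : b3 = 0 ∧ b6 = 0 ∧ b7 = 0 := e'
    simp [dm3] at d d'
    refine ⟨_, _, _, eq9.2 ⟨?_, rfl, rfl, ?_, ?_, rfl, ?_, ?_, ?_⟩⟩ <;>
      simp [dm3, adjugate_fin_three] <;> field_simp [d.1.1, d.1.2, d.2, d'.1.1, d'.1.2, d'.2]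
  have h2 : K ≤ U2 := hK ▸ Subgroup.commutator_le.2 fun g hg g' hg' => by
    obtain ⟨_, hA, a, b, c, rfl⟩ := h1 hg
    obtain ⟨_, hA', a', b', c', rfl⟩ := h1 hg'
    refine ⟨_, cm hA hA', a * c' - a' * c, ?_⟩
    simp [dm3, adjugate_fin_three, eq9]; ring
  refine H9.perfect_eq_bot_of_comm hK fun g hg g' hg' => ?_
  obtain ⟨_, hA, a, rfl⟩ := h2 hg
  obtain ⟨_, hA', a', rfl⟩ := h2 hg'
  exact ρ.comm_of hA hA' (by simp [add_comm])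

theorem perfect_two [Finite Γ] {K : Subgroup Γ} (hK : ⁅K, K⁆ = K) {u v : Vc k} (huv : u ⨯₃ v ≠ 0)
    (h1 : ∀ g ∈ K, ∀ A, ρ.L g A → ∃ c : k, A *ᵥ u = c • u)
    (h2 : ∀ g ∈ K, ∀ A, ρ.L g A → ∃ c : k, A *ᵥ v = c • v) : K = ⊥ := by
  obtain ⟨w, hw⟩ := exists_third huv
  obtain ⟨B', hB⟩ := hw.inv
  refine perfect_flag_std (ρ := ρ.cj hB) hK fun g hg A hA => ?_
  obtain ⟨c, hc⟩ := h1 g hg _ hA
  obtain ⟨d, hd⟩ := h2 g hg _ hA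
  have e1 : u = cols u v w *ᵥ ![1, 0, 0] := by simp [cols_mulVec]
  have e2 : v = cols u v w *ᵥ ![0, 1, 0] := by simp [cols_mulVec]
  generalize cols u v w = B at *
  rw [e1, mulVec_mulVec, mul_assoc, mul_eq_one_comm.1 hB, mul_one, ← mulVec_mulVec, ← mulVec_smul,
    ← sub_eq_zero, ← mulVec_sub] at hc
  rw [e2, mulVec_mulVec, mul_assoc, mul_eq_one_comm.1 hB, mul_one, ← mulVec_mulVec, ← mulVec_smul,
    ← sub_eq_zero, ← mulVec_sub] at hd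
  have k1 := eq_zero_of_mulVec_eq_zero (det_of_mul hB).1 hc
  have k2 := eq_zero_of_mulVec_eq_zero (det_of_mul hB).1 hd
  obtain ⟨a, b, c, d, e, f, g, i, j, rfl⟩ := ex9 A
  simp only [mv3, sv3, bv3, zv3] at k1 k2
  exact ⟨by simpa using k1.2.1, by simpa using k1.2.2, by simpa using k2.2.2⟩

/-- block matrices -/
def Bk (A : Mt k) : Prop := A 0 2 = 0 ∧ A 1 2 = 0 ∧ A 2 0 = 0 ∧ A 2 1 = 0 ∧ A 2 2 = 1

theorem Bk.mul {A B : Mt k} (hA : Bk A) (hB : Bk B) : Bk (A * B) := by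
  obtain ⟨a1, a2, a3, a4, a5⟩ := hA
  obtain ⟨b1, b2, b3, b4, b5⟩ := hB
  simp [Bk, mul_apply, Fin.sum_univ_three, *]

theorem Bk.ex {A : Mt k} (hA : Bk A) : ∃ a b c d, A = !![a, b, 0; c, d, 0; 0, 0, 1] :=
  ⟨A 0 0, A 0 1, A 1 0, A 1 1, by obtain ⟨a1, a2, a3, a4, a5⟩ := hA; simp [eq9, *]⟩

theorem bk3 (a b c d : k) : Bk !![a, b, 0; c, d, 0; 0, 0, 1] := ⟨rfl, rfl, rfl, rfl, rfl⟩

theorem exists_pi_bk (X : Subgroup Γ) (h : ∀ g ∈ X, ∃ A, ρ.L g A ∧ Bk A) :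
    ∃ π : X →* PGL(2, k), ∀ (g : X) (A : Mt k), ρ.L g A → (ul A).det ≠ 0 ∧ π g = pg (ul A) :=
  ρ.exists_pi _ (Or.inl fun g hg B hB => by
    obtain ⟨A, h1, h2⟩ := h g hg
    obtain ⟨c, rfl⟩ := ρ.uniq h1 hB
    simp [h2.1, h2.2.1])

theorem bk_el (p : ℕ) [Fact p.Prime] [CharP k p] [Finite Γ] {g : Γ} {A : Mt k} (hA : ρ.L g A)
    (hb : Bk A) {H : Matrix (Fin 2) (Fin 2) k} (hH : H.det ≠ 0) {b : k}
    (e : pg (ul A) = pg H * aff 1 b * (pg H)⁻¹) :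
    ρ.El (b • ![H 0 0, H 1 0, 0]) ![-H 1 0 / H.det, H 0 0 / H.det, 0] := by
  have hd := ρ.det hA
  rw [det_ul (Or.inl ⟨hb.1, hb.2.1⟩)] at hd
  replace hd := left_ne_zero_of_mul hd
  rw [eq_mul_inv_iff_mul_eq, aff, pg_mul hd hH, pg_mul hH (by simp), eq_comm,
    pg_eq_iff (by simp [hH]) (by simp [hH, hd])] at e
  obtain ⟨l, e⟩ := e
  have h0 : ![-H 1 0 / H.det, H 0 0 / H.det, 0] ⬝ᵥ (b • ![H 0 0, H 1 0, 0]) = 0 := by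
    rw [sv3, dot3]; ring
  have e1 : A = dg l l 1 * (1 + vecMulVec (b • ![H 0 0, H 1 0, 0])
      ![-H 1 0 / H.det, H 0 0 / H.det, 0]) := by
    obtain ⟨a, b, c, d, rfl⟩ := hb.ex
    have := fun i j => congrFun (congrFun e i) j
    simp only [Fin.forall_fin_succ, ul] at this
    simp [mul_apply, Fin.sum_univ_two] at this
    rw [sv3, r13]
    rw [det_fin_two] at hH ⊢
    simp [eq9]
    field_simp
    grind
  have e2 : Commute (dg l l 1) (1 + vecMulVec (b • ![H 0 0, H 1 0, 0])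
      ![-H 1 0 / H.det, H 0 0 / H.det, 0]) := by
    rw [sv3, r13, Commute, SemiconjBy]; simp [mul_comm]
  generalize (b • ![H 0 0, H 1 0, 0] : Vc k) = v at *
  generalize (![-H 1 0 / H.det, H 0 0 / H.det, 0] : Vc k) = φ at *
  have key : ∀ n, ρ.L (g ^ (p * n)) (dg (l ^ (p * n)) (l ^ (p * n)) 1) := fun n => by
    have := ρ.pow hA (p * n)
    rwa [e1, e2.mul_pow, r1_pow h0, dg_pow, one_pow, Nat.cast_mul, CharP.cast_eq_zero, zero_mul,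
      zero_smul, zero_vecMulVec, add_zero, mul_one] at this
  have h1 := key (orderOf g)
  rw [pow_mul', pow_orderOf_eq_one, one_pow] at h1
  obtain ⟨c, hc⟩ := ρ.uniq ρ.one h1
  have h2 : l ^ (p * orderOf g) = 1 := by
    simp [eq9] at hc
    rw [hc.1, ← hc.2]
  have hn : p * orderOf g ≠ 0 := mul_ne_zero (Fact.out : p.Prime).ne_zero (orderOf_pos g).ne'
  obtain ⟨n, h3⟩ := root_fix p hn h2
  have l0 : l ≠ 0 := by rintro rfl; simp [hn] at h2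
  have h4 := key (p ^ n)
  rw [← pow_succ', h3] at h4
  have := ρ.mul (ρ.inv h4 (A' := dg l⁻¹ l⁻¹ 1) (by simp [l0, ← one_fin_three])) hA
  rw [e1, ← mul_assoc, dg_mul, inv_mul_cancel₀ l0, one_mul, dg_one, one_mul] at this
  exact ⟨h0, _, this⟩

theorem bk_pelt (p : ℕ) [Fact p.Prime] [CharP k p] [Finite Γ] {X : Subgroup Γ}
    (hX : ∀ g ∈ X, ∃ A, ρ.L g A ∧ Bk A) {π : X →* PGL(2, k)}
    (hπ : ∀ (g : X) (A : Mt k), ρ.L g A → (ul A).det ≠ 0 ∧ π g = pg (ul A)) (x : OnePoint k) :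
    ∃ (v φ : Vc k) (f : PGL(2, k) → k), v ≠ 0 ∧ φ ≠ 0 ∧ f 1 = 0 ∧
      (∀ u ∈ π.range, u • x = x → u ^ p = 1 → ρ.El (f u • v) φ) ∧
      ∀ u u', u • x = x → u ^ p = 1 → u' • x = x → u' ^ p = 1 → f u = f u' → u = u' := by
  obtain ⟨h, rfl⟩ := exists_smul_infty x
  obtain ⟨H, hH, rfl⟩ := exists_pg h
  have key : ∀ u : PGL(2, k), ∃ b, u • pg H • (∞ : OnePoint k) = pg H • ∞ → u ^ p = 1 →
      u = pg H * aff 1 b * (pg H)⁻¹ := fun u => by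
    by_cases h1 : u • pg H • (∞ : OnePoint k) = pg H • ∞
    · obtain ⟨a, b, ha, rfl⟩ := exists_aff' h1
      refine ⟨b, fun _ h2 => ?_⟩
      rw [conj_pow, mul_inv_eq_one, mul_eq_left, aff_pow_char p ha] at h2
      rw [h2]
    · exact ⟨0, fun h => absurd h h1⟩
  choose f hf using key
  have h0 : H 0 0 ≠ 0 ∨ H 1 0 ≠ 0 := by
    by_contra hc
    push Not at hc
    simp [det_fin_two, hc] at hH
  refine ⟨![H 0 0, H 1 0, 0], ![-H 1 0 / H.det, H 0 0 / H.det, 0], f, by simp [zv3]; tauto,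
    by simp [zv3, hH]; tauto, ?_, ?_, fun u u' h1 h2 h3 h4 e => by rw [hf u h1 h2, e, ← hf u' h3 h4]⟩
  · have := hf 1 (one_smul _ _) (one_pow _)
    rw [eq_comm, mul_inv_eq_one, mul_eq_left, aff_eq_one one_ne_zero] at this
    exact this.2
  · rintro _ ⟨g, rfl⟩ h1 h2
    obtain ⟨A, hA, hb⟩ := hX g g.2
    exact bk_el p hA hb hH ((hπ g A hA).2.symm.trans (hf _ h1 h2))

theorem Small.two (hs : ρ.Small) {v φ : Vc k} (h1 : v ≠ 0) (h2 : φ ≠ 0) (h : ρ.El v φ) :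
    (2 : k) = 0 := by
  rcases hs v φ _ h1 h2 h (h.nsmul 2) with e | e
  · exact_mod_cast e
  · exact absurd (by push_cast at e; linear_combination e) (one_ne_zero (α := k))

theorem bk_dickson (p : ℕ) [Fact p.Prime] [CharP k p] [IsAlgClosed k] [Finite Γ] (hs : ρ.Small)
    {X : Subgroup Γ} (hX : ∀ g ∈ X, ∃ A, ρ.L g A ∧ Bk A) {π : X →* PGL(2, k)}
    (hπ : ∀ (g : X) (A : Mt k), ρ.L g A → (ul A).det ≠ 0 ∧ π g = pg (ul A)) :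
    (∃ x : OnePoint k, ∀ g, π g • x = x) ∨
      (∃ x y : OnePoint k, x ≠ y ∧ ∀ g, π g • x = x ∧ π g • y = y ∨ π g • x = y ∧ π g • y = x) ∨
      (5 ≤ p ∧ (Nonempty (π.range ≃* alternatingGroup (Fin 4)) ∨
        Nonempty (π.range ≃* Equiv.Perm (Fin 4)) ∨
        Nonempty (π.range ≃* alternatingGroup (Fin 5)))) := by
  have : Finite π.range := Finite.of_surjective _ π.rangeRestrict_surjective
  have m := (mobFK k p).subgroup π.range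
  rcases m.dickson with ⟨x, hx⟩ | ⟨x, y, hxy, hx⟩ | ⟨h5, e⟩ | ⟨h5, e⟩ | ⟨h3, h5, ⟨e⟩⟩ | ⟨x, b⟩
  · exact Or.inl ⟨x, fun g => (Subgroup.eq_top_iff' _).1 hx ⟨_, g, rfl⟩⟩
  · exact Or.inr (Or.inl ⟨x, y, hxy, fun g => (Subgroup.eq_top_iff' _).1 hx ⟨_, g, rfl⟩⟩)
  · exact Or.inr (Or.inr ⟨h5, Or.inl e⟩)
  · exact Or.inr (Or.inr ⟨h5, Or.inr (Or.inl e)⟩)
  · refine Or.inr (Or.inr ⟨(Fact.out : p.Prime).five_le_of_ne_two_of_ne_three h3 ?_,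
      Or.inr (Or.inr ⟨e⟩)⟩)
    rintro rfl
    obtain ⟨u, hu⟩ := exists_prime_orderOf_dvd_card' (G := π.range) 3
      (by rw [Nat.card_congr e.toEquiv, card_a5]; norm_num)
    obtain ⟨x, hx⟩ := m.fix u
    obtain ⟨v, φ, f, h1, h2, f1, f2, f3⟩ := bk_pelt 3 hX hπ x
    have u3 : u.1 ^ 3 = 1 := congrArg Subtype.val (hu ▸ pow_orderOf_eq_one u)
    refine two_ne (k := k) h3 (hs.two (smul_ne_zero (fun e => ?_) h1) h2 (f2 u u.2 hx u3))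
    have : u = 1 := Subtype.ext (f3 _ 1 hx u3 (one_smul _ _) (one_pow _) (e.trans f1.symm))
    simp [this] at hu
  · obtain ⟨v, φ, f, h1, h2, f1, f2, f3⟩ := bk_pelt p hX hπ x
    have pw : ∀ u : m.P x, u.1.1 ^ p = 1 := fun u => congrArg Subtype.val u.2.2
    have inj : ∀ u u' : m.P x, f u.1.1 = f u'.1.1 → u = u' := fun u u' e =>
      Subtype.ext (Subtype.ext (f3 _ _ u.2.1 (pw u) u'.2.1 (pw u') e))
    have := Fintype.ofFinite (m.P x)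
    have h3 := b.three_le
    rw [Nat.card_eq_fintype_card] at h3
    obtain ⟨u, u', n1, n2, n3⟩ : ∃ u u' : m.P x, u ≠ 1 ∧ u' ≠ 1 ∧ u ≠ u' := by
      obtain ⟨a, b, c, h1, h2, h3⟩ := Fintype.two_lt_card_iff.1 h3
      by_cases ha : a = 1
      · exact ⟨b, c, ha ▸ h1.symm, ha ▸ h2.symm, h3⟩
      by_cases hb : b = 1
      · exact ⟨a, c, ha, hb ▸ h3.symm, h2⟩
      · exact ⟨a, b, ha, hb, h1⟩
    have z : f u.1.1 ≠ 0 := fun e => n1 (inj u 1 (e.trans f1.symm))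
    rcases hs _ φ (f u'.1.1 / f u.1.1) (smul_ne_zero z h1) h2 (f2 _ u.1.2 u.2.1 (pw u)) (by
      rw [smul_smul, div_mul_cancel₀ _ z]; exact f2 _ u'.1.2 u'.2.1 (pw u')) with e | e
    · exact absurd (inj u' 1 (by simpa [z, f1] using e)) n2
    · exact absurd (inj u u' ((div_eq_one_iff_eq z).1 e).symm) n3

variable (ρ) in
/-- perspectivities with multiplier `ξ` -/
def Hm (ξ : k) (v φ : Vc k) : Prop := φ ⬝ᵥ v = ξ - 1 ∧ ρ.R1 v φ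

variable {ξ ξ' : k} {v φ v' φ' : Vc k}

theorem Hm.ne (h : ρ.Hm ξ v φ) : ξ ≠ 0 := by
  have := In.det h.2
  rwa [det_r1, h.1, add_sub_cancel] at this

theorem Hm.inv_eq (h : ρ.Hm ξ v φ) :
    (1 + vecMulVec v φ) * (1 + vecMulVec v ((-ξ⁻¹) • φ)) = 1 := by
  rw [r1_mul, h.1, vecMulVec_smul]
  match_scalars
  · rfl
  · field_simp [h.ne]; ring

theorem Hm.conj (h : ρ.Hm ξ v φ) {A A' : Mt k} (hA : ρ.In A) (h1 : A * A' = 1) :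
    ρ.Hm ξ (A *ᵥ v) (φ ᵥ* A') := ⟨by rw [dot_conj h1, h.1], h.2.conj hA h1⟩

theorem Hm.act (h : ρ.Hm ξ v φ) (h' : ρ.Hm ξ' v' φ') :
    ρ.Hm ξ' (v' + (φ ⬝ᵥ v') • v) (φ' - (ξ⁻¹ * φ' ⬝ᵥ v) • φ) := by
  have := h'.conj h.2 h.inv_eq
  rwa [r1_mulVec, vecMul_r1, smul_smul, mul_neg, neg_smul, ← sub_eq_add_neg, mul_comm] at this

theorem hm_cj {B B' : Mt k} (h : B * B' = 1) :
    (ρ.cj h).Hm ξ v φ ↔ ρ.Hm ξ (B *ᵥ v) (φ ᵥ* B') := by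
  rw [Hm, Hm, r1_cj, dot_conj h]

theorem hm_tr : ρ.tr.Hm ξ v φ ↔ ρ.Hm ξ φ v := by rw [Hm, Hm, r1_tr, dotProduct_comm]

theorem Hm.scale {c : k} : ρ.Hm ξ (c • v) φ ↔ ρ.Hm ξ v (c • φ) := by
  rw [Hm, Hm, R1.scale, dotProduct_smul, smul_dotProduct]

theorem Hm.v_ne (h : ρ.Hm ξ v φ) (h1 : ξ ≠ 1) : v ≠ 0 := by
  rintro rfl
  exact h1 (sub_eq_zero.1 (h.1.symm.trans (dotProduct_zero _)))

theorem Hm.φ_ne (h : ρ.Hm ξ v φ) (h1 : ξ ≠ 1) : φ ≠ 0 := (hm_tr.2 h).v_ne h1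

theorem Small.tr (hs : ρ.Small) : ρ.tr.Small := fun v φ a h1 h2 h3 h4 =>
  hs φ v a h2 h1 (el_tr.1 h3) (El.scale.2 (el_tr.1 h4))

theorem Small.cj (hs : ρ.Small) {B B' : Mt k} (h : B * B' = 1) : (ρ.cj h).Small :=
  fun v φ a h1 h2 h3 h4 => hs _ _ a (mulVec_ne_zero (det_of_mul h).1 h1)
    (vecMul_ne_zero (det_of_mul h).2 h2) ((el_cj h).1 h3) (mulVec_smul B a v ▸ (el_cj h).1 h4)

theorem Small.axis (hs : ρ.Small) (h1 : ξ ≠ 1) (h : ρ.Hm ξ v φ) (h' : ρ.Hm ξ v' φ) : v' = v := by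
  by_contra hne
  have h0 := h.ne
  have e0 : φ ⬝ᵥ (ξ⁻¹ • (v' - v)) = 0 := by simp [h.1, h'.1]
  have e1 : ρ.El (ξ⁻¹ • (v' - v)) φ := by
    refine ⟨e0, ?_⟩
    have := In.mul h'.2 (In.inv h.2 h.inv_eq)
    rw [r1_mul, h.1] at this
    rw [R1]
    convert this using 1
    simp only [smul_vecMulVec, sub_vecMulVec, vecMulVec_smul]
    match_scalars
    · rfl
    · field_simp; ring
    · ring
  have e2 := e1.conj h.2 h.inv_eq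
  rw [r1_mulVec, e0, zero_smul, add_zero, vecMul_r1, h.1, smul_smul,
    show φ + ((ξ - 1) * -ξ⁻¹) • φ = ξ⁻¹ • φ by match_scalars; field_simp; ring, ← El.scale] at e2
  simpa [h0, h1] using hs _ _ _ (smul_ne_zero (inv_ne_zero h0) (sub_ne_zero.2 hne)) (h.φ_ne h1) e1 e2

theorem Small.centre (hs : ρ.Small) (h1 : ξ ≠ 1) (h : ρ.Hm ξ v φ) (h' : ρ.Hm ξ v φ') : φ' = φ :=
  hs.tr.axis h1 (hm_tr.2 h) (hm_tr.2 h')

theorem Small.orth (hs : ρ.Small) (h1 : ξ ≠ 1) (h2 : ξ' ≠ 1) (h : ρ.Hm ξ v φ) (h' : ρ.Hm ξ' v' φ')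
    (e : φ' ⬝ᵥ v = 0) : φ ⬝ᵥ v' = 0 := by
  have := h.act h'
  rw [e, mul_zero, zero_smul, sub_zero] at this
  simpa [h.v_ne h1] using hs.axis h2 h' this

theorem comm_unip {a b c a' b' c' : k} (h : ρ.In !![1, a, b; 0, 1, c; 0, 0, 1])
    (h' : ρ.In !![1, a', b'; 0, 1, c'; 0, 0, 1]) : ρ.El ((a * c' - a' * c) • ![1, 0, 0]) ![0, 0, 1] := by
  refine ⟨by simp, ?_⟩
  have := ((h.mul h').mul (h.inv (A' := !![1, -a, a * c - b; 0, 1, -c; 0, 0, 1])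
    (by simp [← one_fin_three]))).mul (h'.inv (A' := !![1, -a', a' * c' - b'; 0, 1, -c'; 0, 0, 1])
    (by simp [← one_fin_three]))
  rw [R1, sv3, r13]
  convert this using 1
  simp [eq9]; ring

theorem unip_of_hm {s t : k} (h : ρ.Hm ξ ![0, 1, 0] ![0, ξ - 1, 0])
    (h' : ρ.Hm ξ ![s, 1, 0] ![0, ξ - 1, (ξ - 1) * t]) (n : ℕ) :
    ∃ b, ρ.In !![1, s * (ξ - 1) / ξ ^ (n + 1), b; 0, 1, t * (ξ - 1) * ξ ^ n; 0, 0, 1] := by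
  have h0 := h.ne
  have h1 : ρ.In (dg 1 ξ 1) := by
    have := h.2
    rw [R1, r13] at this
    simpa using this
  have h2 : ρ.In (dg 1 ξ⁻¹ 1) := h1.inv (by simp [h0, ← one_fin_three])
  induction n with
  | zero =>
    have := In.mul h'.2 h2
    rw [r13] at this
    exact ⟨s * ((ξ - 1) * t), by convert this using 1; simp [eq9, h0]; grind⟩
  | succ n ih =>
    obtain ⟨b, hb⟩ := ih
    exact ⟨b, by convert (h1.mul hb).mul h2 using 1; simp [eq9, h0]; grind⟩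

theorem deg_setup (h1 : ξ ≠ 1) (h : ρ.Hm ξ v φ) (h' : ρ.Hm ξ v' φ') (hv : v ⨯₃ v' ≠ 0)
    (hφ : φ ⨯₃ φ' ≠ 0) (hc : φ ⬝ᵥ v' * φ' ⬝ᵥ v = (ξ - 1) ^ 2) :
    ∃ (B B' : Mt k) (_ : B * B' = 1) (c : k), c ≠ 0 ∧ B *ᵥ ![0, 1, 0] = v ∧
      ![0, ξ - 1, 0] ᵥ* B' = φ ∧ B *ᵥ ![1, 1, 0] = c • v' ∧
      ![0, ξ - 1, (ξ - 1) * 1] ᵥ* B' = c⁻¹ • φ' := by
  have m1 := sub_ne_zero.2 h1
  have n1 : φ ⬝ᵥ v' ≠ 0 := fun e => pow_ne_zero 2 m1 (by rw [← hc, e, zero_mul])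
  obtain ⟨c, hc'⟩ : ∃ c, c = (ξ - 1) / φ ⬝ᵥ v' := ⟨_, rfl⟩
  have c0 : c ≠ 0 := hc' ▸ div_ne_zero m1 n1
  have c1 : c * φ ⬝ᵥ v' = ξ - 1 := by rw [hc', div_mul_cancel₀ _ n1]
  have c2 : φ' ⬝ᵥ v = c * (ξ - 1) := mul_left_cancel₀ n1 (by linear_combination hc - (ξ - 1) * c1)
  obtain ⟨y, hy⟩ := exists_dot_ne hφ
  obtain ⟨w, w1, w2⟩ : ∃ w, φ ⬝ᵥ w = 0 ∧ φ' ⬝ᵥ w = c * (ξ - 1) :=
    ⟨(c * (ξ - 1)) • (y ⨯₃ φ), by simp [dot_cross_self], by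
      rw [dotProduct_smul, triple_product_permutation, dotProduct_comm, hy]; simp⟩
  have hi : Ind (c • v' - v) v w := fun x y z e => by
    have k1 := congrArg (φ ⬝ᵥ ·) e
    have k2 := congrArg (φ' ⬝ᵥ ·) e
    simp [dotProduct_add, dotProduct_sub, h.1, h'.1, c1, c2, w1, w2, m1] at k1 k2
    subst k1
    simp [c0, m1] at k2
    subst k2
    refine ⟨?_, rfl, rfl⟩
    have := congrArg (v ⨯₃ ·) e
    simpa [c0, hv] using this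
  obtain ⟨B', hB⟩ := hi.inv
  have row : ∀ ψ : Vc k, ψ ᵥ* cols (c • v' - v) v w = ![ψ ⬝ᵥ (c • v' - v), ψ ⬝ᵥ v, ψ ⬝ᵥ w] :=
    fun ψ => by rw [eq3]; exact ⟨rfl, rfl, rfl⟩
  have key : ∀ ψ χ : Vc k, ψ ᵥ* cols (c • v' - v) v w = χ → χ ᵥ* B' = ψ := by
    rintro ψ _ rfl; rw [vecMul_vecMul, hB, vecMul_one]
  refine ⟨_, B', hB, c, c0, by simp [cols_mulVec], key _ _ ?_, by simp [cols_mulVec], key _ _ ?_⟩ <;>
    rw [row] <;> simp [dotProduct_sub, h.1, h'.1, c1, c2, w1, w2, c0]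

theorem Small.deg (hs : ρ.Small) (h2 : ξ ^ 2 ≠ 1) (h : ρ.Hm ξ v φ) (h' : ρ.Hm ξ v' φ')
    (hv : v ⨯₃ v' ≠ 0) (hφ : φ ⨯₃ φ' ≠ 0) (hc : φ ⬝ᵥ v' * φ' ⬝ᵥ v = (ξ - 1) ^ 2) :
    (2 : k) = 0 ∧ ξ ^ 2 + ξ + 1 = 0 := by
  have h1 : ξ ≠ 1 := by rintro rfl; simp at h2
  have h0 := h.ne
  obtain ⟨B, B', hB, c, c0, e1, e2, e3, e4⟩ := deg_setup h1 h h' hv hφ hc
  have k1 : (ρ.cj hB).Hm ξ ![0, 1, 0] ![0, ξ - 1, 0] := by rwa [hm_cj, e1, e2]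
  have k2 : (ρ.cj hB).Hm ξ ![1, 1, 0] ![0, ξ - 1, (ξ - 1) * 1] := by
    rwa [hm_cj, e3, e4, Hm.scale, smul_smul, mul_inv_cancel₀ c0, one_smul]
  obtain ⟨b0, u0⟩ := unip_of_hm k1 k2 0
  obtain ⟨b1, u1⟩ := unip_of_hm k1 k2 1
  obtain ⟨b2, u2⟩ := unip_of_hm k1 k2 2
  have a1 := comm_unip u0 u1
  have a2 := comm_unip u0 u2
  have m1 := sub_ne_zero.2 h1
  have m2 := sub_ne_zero.2 h2
  rw [show 1 * (ξ - 1) / ξ ^ (0 + 1) * (1 * (ξ - 1) * ξ ^ 1) - 1 * (ξ - 1) / ξ ^ (1 + 1) *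
    (1 * (ξ - 1) * ξ ^ 0) = (ξ - 1) ^ 2 * (ξ ^ 2 - 1) / ξ ^ 2 by field_simp; ring] at a1
  rw [show 1 * (ξ - 1) / ξ ^ (0 + 1) * (1 * (ξ - 1) * ξ ^ 2) - 1 * (ξ - 1) / ξ ^ (2 + 1) *
    (1 * (ξ - 1) * ξ ^ 0) = (ξ ^ 2 + 1) / ξ * ((ξ - 1) ^ 2 * (ξ ^ 2 - 1) / ξ ^ 2) by
      field_simp; ring, mul_smul] at a2
  have n : ((ξ - 1) ^ 2 * (ξ ^ 2 - 1) / ξ ^ 2) • (![1, 0, 0] : Vc k) ≠ 0 :=
    smul_ne_zero (by simp [m1, m2, h0]) (by simp)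
  have t := (hs.cj hB).two n (by simp) a1
  refine ⟨t, ?_⟩
  rcases (hs.cj hB) _ _ _ n (by simp) a1 a2 with e | e
  · rw [div_eq_zero_iff, or_iff_left h0] at e
    exact absurd (by linear_combination e - t) h2
  · rw [div_eq_one_iff_eq h0] at e
    linear_combination e + ξ * t

end PR

end Cfsg.Agent.H6.M3
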