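import Cfsg.Agent.H6.MB1

/-! Homologies: non-degenerate pairs and the trichotomy. -/

set_option autoImplicit false

namespace Cfsg.Agent.H6.M3

open Matrix OnePoint MulAction Cfsg.Agent.H6.Pg
open scoped MatrixGroups commutatorElement

variable {k : Type*} [Field k]

theorem ul3 (a b c d e f g h i : k) : ul !![a, b, c; d, e, f; g, h, i] = !![a, b; d, e] := rfl

theorem vec_ne (x : OnePoint k) : vec x 0 ≠ 0 ∨ vec x 1 ≠ 0 := by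
  cases x <;> simp [vec]

theorem pg_pw {ξ b : k} (h0 : ξ ≠ 0) {n : ℕ} (h : pg !![ξ, b; 0, 1] ^ n = 1) : ξ ^ n = 1 := by
  obtain ⟨c, hc⟩ := aff_pow h0 b n
  rw [← aff, hc, aff_eq_one (pow_ne_zero _ h0)] at h
  exact h.1

theorem pj {G Y : Type*} [Group G] [Group Y] {M : Subgroup G} (j : M →* Y)
    (hj : Function.Injective j) (x : M) (n : ℕ) : j x ^ n = 1 ↔ x.1 ^ n = 1 := by
  rw [← map_pow, map_eq_one_iff j hj, Subtype.ext_iff]; rfl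

theorem exists_j {M : Type*} [Group M] (h : Nonempty (M ≃* alternatingGroup (Fin 4)) ∨
    Nonempty (M ≃* Equiv.Perm (Fin 4))) :
    ∃ j : M →* Equiv.Perm (Fin 4), Function.Injective j := by
  rcases h with ⟨⟨e⟩⟩ | ⟨⟨e⟩⟩
  · exact ⟨(alternatingGroup _).subtype.comp e.toMonoidHom,
      fun a b h => e.injective (Subtype.ext h)⟩
  · exact ⟨e.toMonoidHom, e.injective⟩

section
variable {ξ b b' : k} {M : Subgroup PGL(2, k)}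

theorem pg_s4 (h0 : ξ ≠ 0) (j : M →* Equiv.Perm (Fin 4)) (hj : Function.Injective j)
    (mF : pg !![ξ, b; 0, 1] ∈ M) : ξ ^ 3 = 1 ∨ ξ ^ 4 = 1 := by
  have := s4_pow (j ⟨_, mF⟩)
  simp only [pj j hj] at this
  exact this.imp (pg_pw h0) (pg_pw h0)

theorem pg_a5 (h0 : ξ ≠ 0) (h2 : ξ ^ 2 ≠ 1) (e : M ≃* alternatingGroup (Fin 5))
    (mF : pg !![ξ, b; 0, 1] ∈ M) : ξ ^ 3 = 1 ∨ ξ ^ 5 = 1 := by
  have := a5_pow ((e : M →* alternatingGroup (Fin 5)) ⟨_, mF⟩)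
  simp only [pj (e : M →* alternatingGroup (Fin 5)) e.injective] at this
  exact (this.resolve_left fun h => h2 (pg_pw h0 h)).imp (pg_pw h0) (pg_pw h0)

theorem pg_nofix (h0 : ξ ≠ 0) (c0 : b * b' ≠ 0) (c1 : b * b' ≠ (ξ - 1) ^ 2) (x : OnePoint k)
    (e : pg !![ξ, b; 0, 1] • x = x) (e' : pg !![1, 0; b', ξ] • x = x) : False := by
  rw [pg_smul_iff (by simpa)] at e e'
  obtain ⟨c, e⟩ := e
  obtain ⟨d, e'⟩ := e'
  have a0 := congrFun e 0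
  have a1 := congrFun e 1
  have a2 := congrFun e' 0
  have a3 := congrFun e' 1
  have := vec_ne x
  simp only [mulVec, dotProduct, Fin.sum_univ_two, of_apply, cons_val', cons_val_zero,
    cons_val_one, cons_val_fin_one, Pi.smul_apply, smul_eq_mul] at a0 a1 a2 a3
  generalize vec x 0 = y0 at *
  generalize vec x 1 = y1 at *
  clear * - a0 a1 a2 a3 this c0 c1
  grind

theorem pg_swap (p : ℕ) [Fact p.Prime] [CharP k p] [IsAlgClosed k] (h0 : ξ ≠ 0) (h2 : ξ ^ 2 ≠ 1)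
    {x y : OnePoint k} (hxy : x ≠ y) {A : Matrix (Fin 2) (Fin 2) k} (a1 : A.det = ξ)
    (a2 : A.trace = ξ + 1) (a3 : pg A • x = y) (a4 : pg A • y = x) : False := by
  have a5 := (mobFK k p).sq_of_swap hxy a3 a4
  rw [← sq, pow_two_iff (fun e => hxy (by rw [← a3, e, one_smul])), tau_pg (a1 ▸ h0), a1, a2,
    div_eq_zero_iff, or_iff_left h0, sq_eq_zero_iff] at a5
  exact h2 (by linear_combination (ξ - 1) * a5)

theorem pg_facts (h0 : ξ ≠ 0) (c0 : b * b' ≠ 0) : pg !![ξ, b; 0, 1] ≠ 1 ∧ pg !![1, 0; b', ξ] ≠ 1 ∧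
    tau (pg !![ξ, b; 0, 1]) = (ξ + 1) ^ 2 / ξ ∧ tau (pg !![1, 0; b', ξ]) = (ξ + 1) ^ 2 / ξ ∧
    pg !![ξ, b; 0, 1] * pg !![1, 0; b', ξ] = pg !![ξ + b * b', b * ξ; b', ξ] ∧
    pg !![ξ + b * b', b * ξ; b', ξ] ≠ 1 ∧
    tau (pg !![ξ + b * b', b * ξ; b', ξ]) = (2 * ξ + b * b') ^ 2 / ξ ^ 2 := by
  have b0 := left_ne_zero_of_mul c0
  have b1 := right_ne_zero_of_mul c0
  have dF : (!![ξ, b; 0, 1]).det ≠ 0 := by simpa
  have dG : (!![1, 0; b', ξ]).det ≠ 0 := by simpa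
  have dFG : (!![ξ + b * b', b * ξ; b', ξ]).det = ξ ^ 2 := by simp; ring
  have d2 : (!![ξ + b * b', b * ξ; b', ξ]).det ≠ 0 := dFG ▸ pow_ne_zero 2 h0
  refine ⟨by rw [Ne, pg_eq_one dF]; simp [b0], by rw [Ne, pg_eq_one dG]; simp [b1],
    by rw [tau_pg dF]; simp, by rw [tau_pg dG]; simp [add_comm], by rw [pg_mul dF dG]; simp,
    by rw [Ne, pg_eq_one d2]; simp [b1], by rw [tau_pg d2, dFG]; simp; ring⟩

theorem pg_three (h6 : ξ ^ 2 + ξ + 1 = 0) (c0 : b * b' ≠ 0) (j : M →* Equiv.Perm (Fin 4))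
    (hj : Function.Injective j) (mF : pg !![ξ, b; 0, 1] ∈ M) (mG : pg !![1, 0; b', ξ] ∈ M) :
    2 * ξ + b * b' = 0 ∨ (2 * ξ + b * b') ^ 2 = ξ ^ 2 := by
  have h0 : ξ ≠ 0 := by rintro rfl; simp at h6
  obtain ⟨nF, nG, tF, tG, eFG, nFG, tFG⟩ := pg_facts h0 c0
  have t2 : (ξ + 1) ^ 2 / ξ = 1 := by field_simp; linear_combination h6
  have := s4_three (j ⟨_, mF⟩) (j ⟨_, mG⟩)
    (by rw [pj j hj, pow_three_iff nF, tF, t2]) (by rw [pj j hj, pow_three_iff nG, tG, t2])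
  rwa [← map_mul, pj j hj, pj j hj, Subgroup.coe_mul, eFG, pow_three_iff nFG,
    pow_two_iff nFG, tFG, div_eq_one_iff_eq (pow_ne_zero 2 h0), div_eq_zero_iff,
    or_iff_left (pow_ne_zero 2 h0), sq_eq_zero_iff] at this

theorem pg_four (two : (2 : k) ≠ 0) (h6 : ξ ^ 2 = -1) (c0 : b * b' ≠ 0)
    (j : M →* Equiv.Perm (Fin 4)) (hj : Function.Injective j) (mF : pg !![ξ, b; 0, 1] ∈ M)
    (mG : pg !![1, 0; b', ξ] ∈ M) : b * b' = -ξ := by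
  have h0 : ξ ≠ 0 := by rintro rfl; simp at h6
  obtain ⟨nF, nG, tF, tG, eFG, nFG, tFG⟩ := pg_facts h0 c0
  have t2 : (ξ + 1) ^ 2 / ξ = 2 := by field_simp; linear_combination h6
  have dF : (!![ξ, b; 0, 1]).det ≠ 0 := by simpa
  have dG : (!![1, 0; b', ξ]).det ≠ 0 := by simpa
  have b1 := right_ne_zero_of_mul c0
  have := s4_four (j ⟨_, mF⟩) (j ⟨_, mG⟩)
    (by rwa [Ne, pj j hj, pow_two_iff nF, tF, t2])
    (by rw [pj j hj, pow_four_iff nF, tF, t2]; simp)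
    (by rwa [Ne, pj j hj, pow_two_iff nG, tG, t2])
    (by rw [pj j hj, pow_four_iff nG, tG, t2]; simp) (fun e => by
      rw [← map_mul, ← map_mul] at e
      have : pg !![ξ, b; 0, 1] * pg !![1, 0; b', ξ] = pg !![1, 0; b', ξ] * pg !![ξ, b; 0, 1] :=
        congrArg Subtype.val (hj e)
      rw [pg_mul dF dG, pg_mul dG dF, pg_eq_iff (by rw [det_mul]; exact mul_ne_zero dF dG)
        (by rw [det_mul]; exact mul_ne_zero dG dF)] at this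
      obtain ⟨c, hc⟩ := this
      have := fun i j => congrFun (congrFun hc i) j
      simp [Fin.forall_fin_succ] at this
      clear * - this c0 h0 h6 two
      grind)
  rw [← map_inv, ← map_mul, ← map_mul, pj j hj, pj j hj, Subgroup.coe_mul, Subgroup.coe_mul,
    Subgroup.coe_inv, eFG, pow_three_iff nFG, tFG] at this
  have d' : (!![ξ ^ 2 - b * b', b; -b', 1]).det = ξ ^ 2 := by simp
  have d2 : (!![ξ ^ 2 - b * b', b; -b', 1]).det ≠ 0 := by rw [d']; exact pow_ne_zero 2 h0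
  have e' : pg !![ξ, b; 0, 1] * (pg !![1, 0; b', ξ])⁻¹ = pg !![ξ ^ 2 - b * b', b; -b', 1] := by
    rw [mul_inv_eq_iff_eq_mul, pg_mul d2 dG, ← pg_smul h0]
    congr 1
    simp [sq]; ring
  rw [e', pow_three_iff (by rw [Ne, pg_eq_one d2]; simp [b1]), tau_pg d2, d',
    div_eq_one_iff_eq (pow_ne_zero 2 h0), div_eq_one_iff_eq (pow_ne_zero 2 h0),
    trace_fin_two_of] at this
  clear * - this h6 two
  grind

end

namespace PR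

variable {Γ : Type*} [Group Γ] {ρ : PR Γ k} {ξ ξ' : k} {v φ v' φ' : Vc k}

variable (ρ) in
/-- perspectivities have small order -/
def Ord : Prop := ∀ μ v φ, ρ.Hm μ v φ → μ ^ 3 = 1 ∨ μ ^ 4 = 1 ∨ μ ^ 5 = 1

theorem Ord.cj (h : ρ.Ord) {B B' : Mt k} (hB : B * B' = 1) : (ρ.cj hB).Ord :=
  fun μ _ _ h' => h μ _ _ ((hm_cj hB).1 h')

theorem hm_of_dg {l : k} (h : ρ.In (dg l l 1)) : ρ.Hm l⁻¹ ![0, 0, 1] ![0, 0, l⁻¹ - 1] := by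
  have l0 : l ≠ 0 := by simpa [dm3] using h.det
  refine ⟨by simp [dot3], ?_⟩
  rw [R1, r13]
  simpa [l0] using h.smul (inv_ne_zero l0)

theorem Ord.dg (H : ρ.Ord) {l : k} (h : ρ.In (dg l l 1)) : l ^ 3 = 1 ∨ l ^ 4 = 1 ∨ l ^ 5 = 1 := by
  simpa using H _ _ _ (hm_of_dg h)

theorem nd_key (p : ℕ) [Fact p.Prime] [CharP k p] [IsAlgClosed k] [Finite Γ] (hs : ρ.Small)
    (h2 : ξ ^ 2 ≠ 1) {b b' : k} {f g : Γ} (hf : ρ.L f !![ξ, b, 0; 0, 1, 0; 0, 0, 1])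
    (hg : ρ.L g !![1, 0, 0; b', ξ, 0; 0, 0, 1]) (c0 : b * b' ≠ 0) (c1 : b * b' ≠ (ξ - 1) ^ 2)
    {r : ℕ} (hr : ξ ^ r = 1) : ∃ (X : Subgroup Γ) (π : X →* PGL(2, k)) (hf : f ∈ X) (hg : g ∈ X),
      (∀ g ∈ X, ∃ A, ρ.L g A ∧ Bk A ∧ A.det ^ r = 1) ∧
      (∀ (g : X) (A : Mt k), ρ.L g A → (ul A).det ≠ 0 ∧ π g = pg (ul A)) ∧
      π ⟨f, hf⟩ = pg !![ξ, b; 0, 1] ∧ π ⟨g, hg⟩ = pg !![1, 0; b', ξ] ∧ 5 ≤ p ∧
      ((∃ j : π.range →* Equiv.Perm (Fin 4), Function.Injective j) ∨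
        Nonempty (π.range ≃* alternatingGroup (Fin 5))) := by
  have h0 : ξ ≠ 0 := by simpa [dm3] using ρ.det hf
  obtain ⟨X, hX0⟩ : ∃ X : Subgroup Γ, ∀ g, g ∈ X ↔ ∃ A, ρ.L g A ∧ Bk A ∧ A.det ^ r = 1 :=
    ⟨ρ.grp (fun A => Bk A ∧ A.det ^ r = 1) ⟨by simp [Bk], by simp⟩
      fun A B hA hB => ⟨hA.1.mul hB.1, by rw [det_mul, mul_pow, hA.2, hB.2, one_mul]⟩,
      fun g => Iff.rfl⟩
  have hX : ∀ g ∈ X, ∃ A, ρ.L g A ∧ Bk A := fun g hg =>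
    ((hX0 g).1 hg).imp fun _ h => ⟨h.1, h.2.1⟩
  obtain ⟨π, hπ⟩ := exists_pi_bk X hX
  have mf : f ∈ X := (hX0 f).2 ⟨_, hf, bk3 .., by simpa [dm3]⟩
  have mg : g ∈ X := (hX0 g).2 ⟨_, hg, bk3 .., by simpa [dm3]⟩
  have ef : π ⟨f, mf⟩ = pg !![ξ, b; 0, 1] := by rw [(hπ ⟨f, mf⟩ _ hf).2, ul3]
  have eg : π ⟨g, mg⟩ = pg !![1, 0; b', ξ] := by rw [(hπ ⟨g, mg⟩ _ hg).2, ul3]
  have nf : ∀ x : OnePoint k, π ⟨f, mf⟩ • x = x → π ⟨g, mg⟩ • x ≠ x := fun x e e' =>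
    pg_nofix h0 c0 c1 x (ef ▸ e) (eg ▸ e')
  refine ⟨X, π, mf, mg, fun g h => (hX0 g).1 h, hπ, ef, eg, ?_⟩
  rcases bk_dickson p hs hX hπ with ⟨x, hx⟩ | ⟨x, y, hxy, hx⟩ | ⟨h5, e | e | e⟩
  · exact absurd (hx _) (nf x (hx _))
  · rcases hx ⟨f, mf⟩ with e | e
    · rcases hx ⟨g, mg⟩ with e' | e'
      · exact absurd e'.1 (nf x e.1)
      · rw [eg] at e'
        exact (pg_swap p h0 h2 hxy (by simp) (by simp [add_comm]) e'.1 e'.2).elim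
    · rw [ef] at e
      exact (pg_swap p h0 h2 hxy (by simp) (by simp) e.1 e.2).elim
  · exact ⟨h5, Or.inl (exists_j (Or.inl e))⟩
  · exact ⟨h5, Or.inl (exists_j (Or.inr e))⟩
  · exact ⟨h5, Or.inr e⟩

theorem nd_a5 (ho : ρ.Ord) (two : (2 : k) ≠ 0) {r : ℕ} (hr : r = 3 ∨ r = 5) {X : Subgroup Γ}
    {π : X →* PGL(2, k)} (hX : ∀ g ∈ X, ∃ A, ρ.L g A ∧ Bk A ∧ A.det ^ r = 1)
    (hπ : ∀ (g : X) (A : Mt k), ρ.L g A → (ul A).det ≠ 0 ∧ π g = pg (ul A))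
    (e : π.range ≃* alternatingGroup (Fin 5)) (f : X) {A : Mt k} (hf : ρ.L f A) (hA : Bk A) :
    A.det = 1 := by
  have Z : ∀ x : X, π x = 1 → ∃ l, ρ.L x (dg l l 1) ∧ (l ^ 2) ^ r = 1 := fun x hx => by
    obtain ⟨A, a1, a2, a3⟩ := hX x x.2
    rw [(hπ x A a1).2, pg_eq_one (hπ x A a1).1] at hx
    obtain ⟨a, b, c, d, rfl⟩ := a2.ex
    obtain ⟨rfl, rfl, rfl⟩ : b = 0 ∧ c = 0 ∧ a = d := hx
    exact ⟨a, a1, by simpa [dm3, sq] using a3⟩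
  obtain ⟨ν, n1, n2⟩ : ∃ ν, ρ.In (dg ν ν 1) ∧ ν ^ r = -1 := by
    obtain ⟨y, hy⟩ := π.rangeRestrict_surjective (e.symm a5t)
    obtain ⟨A, a1, a2, a3⟩ := hX y y.2
    have y1 : π y ≠ 1 := fun h => a5d.ne (by
      rw [← e.symm.map_eq_one_iff, ← hy]; exact Subtype.ext h)
    have y2 : π y ^ 2 = 1 := by
      have : (e.symm a5t) ^ 2 = 1 := by rw [← map_pow, sq, a5d.sq, map_one]
      rw [← hy] at this
      exact congrArg Subtype.val this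
    rw [pow_two_iff y1, (hπ y A a1).2, tau_pg (hπ y A a1).1, div_eq_zero_iff,
      or_iff_left (hπ y A a1).1, sq_eq_zero_iff] at y2
    obtain ⟨a, b, c, d, rfl⟩ := a2.ex
    have y3 : a + d = 0 := by simpa [ul] using y2
    refine ⟨-(a * d - b * c), ⟨_, by
      convert ρ.mul a1 a1 using 1
      rw [mul_fin_three, em3]
      clear * - y3
      grind⟩, ?_⟩
    rw [dm3] at a3
    rcases hr with rfl | rfl <;> linear_combination -a3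
  have n3 : ν = -1 := by
    have := ho.dg n1
    clear * - this n2 hr two
    rcases hr with rfl | rfl <;> grind
  subst n3
  choose s hs using fun x : X => hX x x.2
  have su : ∀ (x : X) A, ρ.L x A → Bk A → s x = A := fun x A h1 h2 => by
    obtain ⟨c, rfl⟩ := ρ.uniq (hs x).1 h1
    have := h2.2.2.2.2
    rw [Matrix.smul_apply, (hs x).2.1.2.2.2.2, smul_eq_mul, mul_one] at this
    rw [this, one_smul]
  let χ : X →* kˣ := MonoidHom.mk' (fun x => Units.mk0 _ (ρ.det (hs x).1)) fun x y => Units.ext (by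
    simp [su (x * y) _ (ρ.mul (hs x).1 (hs y).1) ((hs x).2.1.mul (hs y).2.1)])
  have hχ : ∀ x, π x = 1 → χ x = 1 := fun x hx => by
    obtain ⟨l, l1, l2⟩ := Z x hx
    have a1 := ho.dg ⟨_, l1⟩
    have a2 := ho.dg (l := -l) (by simpa using n1.mul ⟨_, l1⟩)
    refine Units.ext ?_
    simp only [χ, MonoidHom.mk'_apply, Units.val_mk0, su x _ l1 (bk3 ..), dm3, Units.val_one]
    clear * - a1 a2 l2 hr two
    rcases hr with rfl | rfl <;> grind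
  obtain ⟨a, a', h⟩ := a5_comm (e (π.rangeRestrict f))
  obtain ⟨x, rfl⟩ := (e.surjective.comp π.rangeRestrict_surjective) a
  obtain ⟨x', rfl⟩ := (e.surjective.comp π.rangeRestrict_surjective) a'
  simp only [Function.comp, ← map_mul, ← map_inv] at h
  have h7 : π f = π (x * x' * x⁻¹ * x'⁻¹) := congrArg Subtype.val (e.injective h)
  have := hχ (f⁻¹ * (x * x' * x⁻¹ * x'⁻¹)) (by rw [map_mul, map_inv, h7, inv_mul_cancel])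
  rw [map_mul, map_inv, inv_mul_eq_one, map_mul, map_mul, map_mul, map_inv, map_inv,
    mul_inv_cancel_comm, mul_inv_cancel] at this
  simpa [χ, su f _ hf hA] using congrArg Units.val this

theorem nd_std (p : ℕ) [Fact p.Prime] [CharP k p] [IsAlgClosed k] [Finite Γ] (hs : ρ.Small)
    (h2 : ξ ^ 2 ≠ 1) {b b' : k} (hf : ρ.Hm ξ ![1, 0, 0] ![ξ - 1, b, 0])
    (hg : ρ.Hm ξ ![0, 1, 0] ![b', ξ - 1, 0]) (c0 : b * b' ≠ 0) (c1 : b * b' ≠ (ξ - 1) ^ 2) :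
    5 ≤ p ∧ (ξ ^ 3 = 1 ∨ ξ ^ 4 = 1 ∨ ξ ^ 5 = 1) ∧
      (ρ.Ord → b * b' = -ξ ∧ (ξ ^ 2 = -1 ∨ ξ ^ 2 + ξ + 1 = 0)) := by
  have h0 := hf.ne
  have h1 : ξ ≠ 1 := by rintro rfl; simp at h2
  obtain ⟨f, hf⟩ := hf.2
  obtain ⟨g, hg⟩ := hg.2
  rw [r13] at hf hg
  simp only [one_mul, zero_mul, add_zero, add_sub_cancel, mul_zero] at hf hg
  obtain ⟨X, π, mf, mg, -, -, ef, eg, h5, hj⟩ := nd_key p hs h2 hf hg c0 c1 (pow_zero _)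
  have two : (2 : k) ≠ 0 := two_ne (p := p) (by omega)
  have mF : pg !![ξ, b; 0, 1] ∈ π.range := ⟨_, ef⟩
  have mG : pg !![1, 0; b', ξ] ∈ π.range := ⟨_, eg⟩
  have h345 : ξ ^ 3 = 1 ∨ ξ ^ 4 = 1 ∨ ξ ^ 5 = 1 := by
    rcases hj with ⟨j, hj⟩ | ⟨⟨e⟩⟩
    · exact (pg_s4 h0 j hj mF).imp_right Or.inl
    · exact (pg_a5 h0 h2 e mF).imp_right Or.inr
  refine ⟨h5, h345, fun ho => ?_⟩
  by_cases h4 : ξ ^ 4 = 1
  · have h6 : ξ ^ 2 = -1 := by clear * - h2 h4; grind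
    refine ⟨?_, Or.inl h6⟩
    rcases hj with ⟨j, hj⟩ | ⟨⟨e⟩⟩
    · exact pg_four two h6 c0 j hj mF mG
    · have := pg_a5 h0 h2 e mF
      clear * - this h4 h1
      grind
  obtain ⟨r, hr, hr'⟩ : ∃ r, ξ ^ r = 1 ∧ (r = 3 ∨ r = 5) := by
    rcases h345 with h | h | h
    · exact ⟨3, h, Or.inl rfl⟩
    · exact absurd h h4
    · exact ⟨5, h, Or.inr rfl⟩
  obtain ⟨X, π, mf, mg, hX, hπ, ef, eg, -, hj⟩ := nd_key p hs h2 hf hg c0 c1 hr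
  rcases hj with ⟨j, hj⟩ | ⟨⟨e⟩⟩
  · have h3 : ξ ^ 3 = 1 := (pg_s4 h0 j hj ⟨_, ef⟩).resolve_right h4
    have h6 : ξ ^ 2 + ξ + 1 = 0 := by clear * - h3 h1; grind
    refine ⟨?_, Or.inr h6⟩
    rcases pg_three h6 c0 j hj ⟨_, ef⟩ ⟨_, eg⟩ with h | h
    · have := ho.dg (l := -ξ ^ 2) ⟨_, by
        convert ρ.mul (ρ.mul hf hg) (ρ.mul hf hg) using 1
        simp only [mul_fin_three, em3]
        clear * - h
        grind⟩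
      clear * - this h6 h2 two
      grind
    · clear * - h h6 c1
      grind
  · exact absurd (by simpa [dm3] using nd_a5 ho two hr' hX hπ e ⟨f, mf⟩ hf (bk3 ..)) h1

theorem nd_setup (h1 : ξ ≠ 1) (h : φ ⬝ᵥ v = ξ - 1) (h' : φ' ⬝ᵥ v' = ξ - 1)
    (hc : φ ⬝ᵥ v' * φ' ⬝ᵥ v ≠ (ξ - 1) ^ 2) {w : Vc k} (w0 : w ≠ 0) (w1 : φ ⬝ᵥ w = 0)
    (w2 : φ' ⬝ᵥ w = 0) : ∃ (B B' : Mt k) (_ : B * B' = 1), B *ᵥ ![1, 0, 0] = v ∧
      B *ᵥ ![0, 1, 0] = v' ∧ B *ᵥ ![0, 0, 1] = w ∧ ∀ ψ : Vc k,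
      ![ψ ⬝ᵥ v, ψ ⬝ᵥ v', ψ ⬝ᵥ w] ᵥ* B' = ψ := by
  have hi : Ind v v' w := fun x y z e => by
    have k1 := congrArg (φ ⬝ᵥ ·) e
    have k2 := congrArg (φ' ⬝ᵥ ·) e
    simp only [dotProduct_add, dotProduct_smul, h, h', w1, w2, smul_eq_mul, dotProduct_zero] at k1 k2
    have hx : x = 0 := by grind
    have hy : y = 0 := by grind
    subst hx hy
    simpa [w0] using e
  obtain ⟨B', hB⟩ := hi.inv
  refine ⟨_, B', hB, by simp [cols_mulVec], by simp [cols_mulVec], by simp [cols_mulVec],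
    fun ψ => ?_⟩
  rw [show ![ψ ⬝ᵥ v, ψ ⬝ᵥ v', ψ ⬝ᵥ w] = ψ ᵥ* cols v v' w by rw [eq3]; exact ⟨rfl, rfl, rfl⟩,
    vecMul_vecMul, hB, vecMul_one]

/-- equal perspectivities -/
def Same (v φ v' φ' : Vc k) : Prop := ∃ c : k, v' = c • v ∧ φ = c • φ'

variable (ρ) in
/-- non-commuting homologies -/
structure NC (ξ : k) (v φ v' φ' : Vc k) : Prop where
  hv : v ⨯₃ v' ≠ 0
  hφ : φ ⨯₃ φ' ≠ 0
  ne : φ ⬝ᵥ v' ≠ 0 ∧ φ' ⬝ᵥ v ≠ 0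
  ord : ξ ^ 3 = 1 ∨ ξ ^ 4 = 1 ∨ ξ ^ 5 = 1
  val : ρ.Ord → φ ⬝ᵥ v' * φ' ⬝ᵥ v = -ξ ∧ ((ξ ^ 2 = -1 ∧ (2 : k) ≠ 0) ∨ ξ ^ 2 + ξ + 1 = 0)

theorem Small.same (hs : ρ.Small) (h1 : ξ ≠ 1) (h : ρ.Hm ξ v φ) (h' : ρ.Hm ξ v' φ')
    (e : v ⨯₃ v' = 0 ∨ φ ⨯₃ φ' = 0) : Same v φ v' φ' := by
  rcases e with e | e
  · obtain ⟨c, rfl⟩ := eq_smul_of_cross (h.v_ne h1) e
    exact ⟨c, rfl, hs.centre h1 (Hm.scale.1 h') h⟩
  · rw [← cross_anticomm, neg_eq_zero] at e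
    obtain ⟨c, rfl⟩ := eq_smul_of_cross (h'.φ_ne h1) e
    exact ⟨c, hs.axis h1 (Hm.scale.2 h) h', rfl⟩

theorem Small.tri (p : ℕ) [Fact p.Prime] [CharP k p] [IsAlgClosed k] [Finite Γ] (hs : ρ.Small)
    (h2 : ξ ^ 2 ≠ 1) (h : ρ.Hm ξ v φ) (h' : ρ.Hm ξ v' φ') :
    Same v φ v' φ' ∨ (φ ⬝ᵥ v' = 0 ∧ φ' ⬝ᵥ v = 0) ∨ ρ.NC ξ v φ v' φ' := by
  have h1 : ξ ≠ 1 := by rintro rfl; simp at h2
  by_cases e : v ⨯₃ v' = 0 ∨ φ ⨯₃ φ' = 0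
  · exact Or.inl (hs.same h1 h h' e)
  push Not at e
  by_cases e1 : φ' ⬝ᵥ v = 0
  · exact Or.inr (Or.inl ⟨hs.orth h1 h1 h h' e1, e1⟩)
  have e2 : φ ⬝ᵥ v' ≠ 0 := fun e2 => e1 (hs.orth h1 h1 h' h e2)
  by_cases hc : φ ⬝ᵥ v' * φ' ⬝ᵥ v = (ξ - 1) ^ 2
  · obtain ⟨a1, a2⟩ := hs.deg h2 h h' e.1 e.2 hc
    exact Or.inr (Or.inr ⟨e.1, e.2, ⟨e2, e1⟩, Or.inl (by linear_combination (ξ - 1) * a2),
      fun _ => ⟨by linear_combination hc + a2 - ξ * a1, Or.inr a2⟩⟩)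
  obtain ⟨B, B', hB, b1, b2, -, b3⟩ := nd_setup h1 h.1 h'.1 hc e.2 (dot_self_cross φ φ')
    (dot_cross_self φ φ')
  have c1 := b3 φ
  have c2 := b3 φ'
  rw [h.1, dot_self_cross] at c1
  rw [h'.1, dot_cross_self] at c2
  obtain ⟨a1, a2, a3⟩ := nd_std (ρ := ρ.cj hB) p (hs.cj hB) h2 (b := φ ⬝ᵥ v') (b' := φ' ⬝ᵥ v)
    (by rwa [hm_cj, b1, c1]) (by rwa [hm_cj, b2, c2]) (mul_ne_zero e2 e1) hc
  exact Or.inr (Or.inr ⟨e.1, e.2, ⟨e2, e1⟩, a2, fun ho => ⟨(a3 (ho.cj hB)).1,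
    (a3 (ho.cj hB)).2.imp_left fun h => ⟨h, two_ne (p := p) (by omega)⟩⟩⟩)

end PR

end Cfsg.Agent.H6.M3
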