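import Cfsg.Agent.H6.MB2

/-! Groups containing homologies of order at least three. -/

set_option autoImplicit false

namespace Cfsg.Agent.H6.M3

open Matrix
open scoped commutatorElement

variable {k : Type*} [Field k]

theorem exists_ker (φ ψ : Vc k) : ∃ u : Vc k, u ≠ 0 ∧ φ ⬝ᵥ u = 0 ∧ ψ ⬝ᵥ u = 0 := by
  obtain ⟨u, h1, h2⟩ := exists_mulVec_eq_zero_iff.2
    (show (Matrix.of ![φ, ψ, 0]).det = 0 by simp [det_fin_three])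
  exact ⟨u, h1, congrFun h2 0, congrFun h2 1⟩

theorem perfect_conj {Γ X : Type*} [Group Γ] [Finite X] (hX : Nat.card X ≤ 4) {K : Subgroup Γ}
    (hK : ⁅K, K⁆ = K) (S : Γ → Prop) (hS : ∀ g ∈ K, ∀ x, S x → S (g * x * g⁻¹)) (f : Γ → X)
    (hf : ∀ g ∈ K, ∀ x y, S x → S y → f x = f y → f (g * x * g⁻¹) = f (g * y * g⁻¹)) {g : Γ}
    (hg : g ∈ K) {x : Γ} (hx : S x) : f (g * x * g⁻¹) = f x :=
  @H9.perfect_fix Γ Γ X _ (MulAction.compHom Γ MulAut.conj) _ hX K hK S hS f hf g hg x hx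

namespace PR

variable {Γ : Type*} [Group Γ] {ρ : PR Γ k} {ξ ξ' : k} {v φ v' φ' u χ : Vc k}

theorem r1_uniq {g : Γ} (h : ρ.L g (1 + vecMulVec v φ)) (h' : ρ.L g (1 + vecMulVec v' φ')) :
    vecMulVec v φ = vecMulVec v' φ' := by
  obtain ⟨c, hc⟩ := ρ.uniq h h'
  obtain ⟨u, h0, h1, h2⟩ := exists_ker φ φ'
  have := congrArg (· *ᵥ u) hc
  simp only [smul_mulVec, r1_mulVec, h1, h2, zero_smul, add_zero] at this
  rw [smul_left_injective k h0 (this.symm.trans (one_smul k u).symm), one_smul] at hc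
  exact (add_left_cancel hc).symm

theorem same_of_eq (h1 : ξ ≠ 1) (h : φ ⬝ᵥ v = ξ - 1) (h' : φ' ⬝ᵥ v' = ξ - 1)
    (e : vecMulVec v φ = vecMulVec v' φ') : Same v φ v' φ' := by
  have m := sub_ne_zero.2 h1
  have e1 := congrArg (· *ᵥ v') e
  have e2 := congrArg (φ ᵥ* ·) e
  simp only [vecMulVec_mulVec, vecMul_vecMulVec, op_smul_eq_smul, h, h'] at e1 e2
  exact ⟨(ξ - 1)⁻¹ * φ ⬝ᵥ v', by rw [mul_smul, e1, smul_smul, inv_mul_cancel₀ m, one_smul],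
    by rw [mul_smul, ← e2, smul_smul, inv_mul_cancel₀ m, one_smul]⟩

theorem Same.eq (h : Same v φ v' φ') : vecMulVec v φ = vecMulVec v' φ' := by
  obtain ⟨c, rfl, rfl⟩ := h
  rw [smul_vecMulVec, vecMulVec_smul]

/-- commuting homologies -/
def Rel (v φ v' φ' : Vc k) : Prop := vecMulVec v φ = vecMulVec v' φ' ∨ φ ⬝ᵥ v' = 0 ∧ φ' ⬝ᵥ v = 0

theorem Rel.symm (h : Rel v φ v' φ') : Rel v' φ' v φ := h.imp Eq.symm And.symm

theorem Rel.of_eq (h1 : ξ ≠ 1) (h : φ ⬝ᵥ v = ξ - 1) (h' : φ' ⬝ᵥ v' = ξ - 1)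
    (e : vecMulVec v φ = vecMulVec v' φ') (r : Rel v' φ' u χ) : Rel v φ u χ := by
  refine r.imp e.trans fun r => ?_
  obtain ⟨c, rfl, rfl⟩ := same_of_eq h1 h h' e
  have : c ≠ 0 := by rintro rfl; exact h1 (sub_eq_zero.1 (by simpa using h.symm))
  simpa [this] using r

theorem Rel.conj (r : Rel v φ v' φ') {A A' : Mt k} (h : A * A' = 1) :
    Rel (A *ᵥ v) (φ ᵥ* A') (A *ᵥ v') (φ' ᵥ* A') := by
  refine r.imp (fun e => ?_) fun e => by rwa [dot_conj h, dot_conj h]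
  rw [← vecMulVec_mul, ← vecMulVec_mul, ← mul_vecMulVec, ← mul_vecMulVec, e]

theorem perfect_of_classes [Finite Γ] (hi : ρ.NoPt) (h1 : ξ ≠ 1)
    (tr : ∀ v φ v' φ' u χ, ρ.Hm ξ v φ → ρ.Hm ξ v' φ' → ρ.Hm ξ u χ → φ ⬝ᵥ v' = 0 → φ' ⬝ᵥ v = 0 →
      χ ⬝ᵥ v' = 0 → φ' ⬝ᵥ u = 0 → Rel v φ u χ)
    (a b : Fin 4 → Vc k) (hab : ∀ i, ρ.Hm ξ (a i) (b i))
    (four : ∀ v φ, ρ.Hm ξ v φ → ∃ i, Rel v φ (a i) (b i)) {K : Subgroup Γ} (hK : ⁅K, K⁆ = K) :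
    K = ⊥ := by
  classical
  let D : Γ → Vc k → Vc k → Prop := fun g v φ => φ ⬝ᵥ v = ξ - 1 ∧ ρ.L g (1 + vecMulVec v φ)
  let S : Γ → Prop := fun g => ∃ v φ, D g v φ
  let E : Γ → Γ → Prop := fun x y => ∃ v φ v' φ', D x v φ ∧ D y v' φ' ∧ Rel v φ v' φ'
  have Dc : ∀ g x v φ A A', ρ.L g A → A * A' = 1 → D x v φ → D (g * x * g⁻¹) (A *ᵥ v) (φ ᵥ* A') :=
    fun g x v φ A A' hA h hx => ⟨by rw [dot_conj h, hx.1], conj_r1 h v φ ▸ ρ.conj hA h hx.2⟩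
  have Sc : ∀ g x, S x → S (g * x * g⁻¹) := fun g x ⟨v, φ, h⟩ => by
    obtain ⟨A, hA⟩ := ρ.ex g
    obtain ⟨A', h2, -⟩ := exists_inv (ρ.det hA)
    exact ⟨_, _, Dc g x v φ A A' hA h2 h⟩
  have Ec : ∀ g x y, E x y → E (g * x * g⁻¹) (g * y * g⁻¹) := fun g x y ⟨v, φ, v', φ', h, h', r⟩ => by
    obtain ⟨A, hA⟩ := ρ.ex g
    obtain ⟨A', h2, -⟩ := exists_inv (ρ.det hA)
    exact ⟨_, _, _, _, Dc g x v φ A A' hA h2 h, Dc g y v' φ' A A' hA h2 h', r.conj h2⟩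
  have Es : ∀ x y, E x y → E y x := fun x y ⟨v, φ, v', φ', h, h', r⟩ => ⟨v', φ', v, φ, h', h, r.symm⟩
  have Er : ∀ x y v φ v' φ', E x y → D x v φ → D y v' φ' → Rel v φ v' φ' :=
    fun x y v φ v' φ' ⟨w, ψ, w', ψ', h, h', r⟩ d d' =>
      Rel.of_eq h1 d.1 h.1 (r1_uniq d.2 h.2) (Rel.of_eq h1 d'.1 h'.1 (r1_uniq d'.2 h'.2) r.symm).symm
  have Et : ∀ x y z, E x y → E y z → E x z := fun x y z ⟨v, φ, v', φ', h, h', r⟩ e => by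
    obtain ⟨-, -, u, χ, -, h'', -⟩ := id e
    have r' := Er _ _ _ _ _ _ e h' h''
    refine ⟨v, φ, u, χ, h, h'', ?_⟩
    rcases r with r | r
    · exact Rel.of_eq h1 h.1 h'.1 r r'
    rcases r' with r' | r'
    · exact (Rel.of_eq h1 h''.1 h'.1 r'.symm (Or.inr r.symm)).symm
    · exact tr _ _ _ _ _ _ ⟨h.1, _, h.2⟩ ⟨h'.1, _, h'.2⟩ ⟨h''.1, _, h''.2⟩ r.1 r.2 r'.2 r'.1
  choose r hr using fun i => (hab i).2
  have s1 : ∀ g ∈ K, ∀ x, S x → E (g * x * g⁻¹) x := fun g hg x hx => by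
    let f : Γ → Fin 4 := fun x => Classical.epsilon fun i => E x (r i)
    have f1 : ∀ x, S x → E x (r (f x)) := fun x ⟨v, φ, h⟩ =>
      Classical.epsilon_spec (p := fun i => E x (r i)) ((four v φ ⟨h.1, _, h.2⟩).imp fun i e =>
        ⟨v, φ, _, _, h, ⟨(hab i).1, hr i⟩, e⟩)
    have f2 : ∀ x y, S x → S y → f x = f y → E x y := fun x y hx hy e =>
      Et _ _ _ (f1 x hx) (Es _ _ (e ▸ f1 y hy))
    refine f2 _ _ (Sc g x hx) hx (perfect_conj (by simp) hK S (fun g _ => Sc g) f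
      (fun g _ x y hx hy e => ?_) hg hx)
    have := Ec g _ _ (f2 x y hx hy e)
    exact congrArg Classical.epsilon (funext fun i => propext
      ⟨Et _ _ _ (Es _ _ this), Et _ _ _ this⟩)
  have s2 : ∀ g ∈ K, ∀ x, S x → g * x * g⁻¹ = x := fun g hg x hx => by
    let C : Set Γ := {y | S y ∧ E y x}
    have hx' : x ∈ C := ⟨hx, hx.elim fun v h => h.elim fun φ h => ⟨v, φ, v, φ, h, h, Or.inl rfl⟩⟩
    have hC : ∀ g ∈ K, ∀ y ∈ C, g * y * g⁻¹ ∈ C := fun g hg y hy =>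
      ⟨Sc g y hy.1, Et _ _ _ (s1 g hg y hy.1) hy.2⟩
    have o : ∀ y ∈ C, ∀ z ∈ C, y ≠ z → ∀ v φ v' φ', D y v φ → D z v' φ' → φ ⬝ᵥ v' = 0 :=
      fun y hy z hz hne v φ v' φ' h h' => ((Er _ _ _ _ _ _ (Et _ _ _ hy.2 (Es _ _ hz.2)) h h').resolve_left
        fun e => hne (ρ.eq_of h.2 (e ▸ h'.2))).1
    have hc : Nat.card C ≤ 4 := by
      refine le_trans (not_lt.1 fun h => ?_) (Nat.le_succ 3)
      obtain ⟨y1, y2, y3, y4, m1, m2, m3, m4, n12, n13, n14, n23, n24, n34⟩ :=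
        (Set.three_lt_ncard_iff).1 h
      obtain ⟨v1, φ1, d1⟩ := m1.1
      obtain ⟨v2, φ2, d2⟩ := m2.1
      obtain ⟨v3, φ3, d3⟩ := m3.1
      obtain ⟨v4, φ4, d4⟩ := m4.1
      have m := sub_ne_zero.2 h1
      have hy : φ1 ⨯₃ φ2 ≠ 0 := cross_ne_zero (Hm.φ_ne ⟨d1.1, _, d1.2⟩ h1) fun c e => m (by
        rw [← d2.1, e, smul_dotProduct, o _ m1 _ m2 n12 _ _ _ _ d1 d2, smul_zero])
      obtain ⟨c, rfl⟩ := eq_smul_cross hy (o _ m1 _ m3 n13 _ _ _ _ d1 d3) (o _ m2 _ m3 n23 _ _ _ _ d2 d3)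
      obtain ⟨d, rfl⟩ := eq_smul_cross hy (o _ m1 _ m4 n14 _ _ _ _ d1 d4) (o _ m2 _ m4 n24 _ _ _ _ d2 d4)
      have a1 := o _ m3 _ m4 n34 _ _ _ _ d3 d4
      have a2 := d3.1
      have a3 := d4.1
      simp only [dotProduct_smul, smul_eq_mul] at a1 a2 a3
      grind
    have := perfect_conj hc hK (· ∈ C) hC (fun y => if h : y ∈ C then ⟨y, h⟩ else ⟨x, hx'⟩)
      (fun g hg y z hy hz e => by
        simp only [hy, hz, dif_pos, Subtype.mk.injEq] at e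
        rw [e]) hg hx'
    simpa [hC g hg x hx', hx'] using this
  have s3 : ∀ x v φ, D x v φ → ∀ g ∈ K, ∀ A, ρ.L g A → ∃ c : k, A *ᵥ v = c • v :=
    fun x v φ h g hg A hA => by
      obtain ⟨A', h2, -⟩ := exists_inv (ρ.det hA)
      have := Dc g x v φ A A' hA h2 h
      rw [s2 g hg x ⟨v, φ, h⟩] at this
      exact (same_of_eq h1 h.1 this.1 (r1_uniq h.2 this.2)).imp fun _ h => h.1
  obtain ⟨A, ⟨g, hA⟩, h3⟩ := hi _ ((hab 0).v_ne h1)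
  obtain ⟨A', h2, -⟩ := exists_inv (ρ.det hA)
  exact perfect_two hK (cross_ne_zero ((hab 0).v_ne h1) h3) (s3 _ _ _ ⟨(hab 0).1, hr 0⟩)
    (s3 _ _ _ (Dc g _ _ _ A A' hA h2 ⟨(hab 0).1, hr 0⟩))

theorem Small.rel (p : ℕ) [Fact p.Prime] [CharP k p] [IsAlgClosed k] [Finite Γ] (hs : ρ.Small)
    (h2 : ξ ^ 2 ≠ 1) (h : ρ.Hm ξ v φ) (h' : ρ.Hm ξ v' φ') :
    Rel v φ v' φ' ∨ ρ.NC ξ v φ v' φ' := by
  rcases hs.tri p h2 h h' with e | e | e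
  · exact Or.inl (Or.inl e.eq)
  · exact Or.inl (Or.inr e)
  · exact Or.inr e

theorem four_alg0 {i x x' y y' : k} (two : (2 : k) ≠ 0) (hi : i ^ 2 = -1) (hp : y * y' = -i * x * x')
    (h1 : x = 0 ∧ y = 0 ∧ y' = 0 ∨ x = -i) (h2 : x' = 0 ∧ y = 0 ∧ y' = 0 ∨ x' = -i)
    (h3 : x + x' + y + i * y' = 0 ∨ x + x' + y + i * y' = -i)
    (h4 : x + x' + i * y + y' = 0 ∨ x + x' + i * y + y' = -i)
    (h5 : x + 2 * x' + (1 + i) * (y + y') = 0 ∨ x + 2 * x' + (1 + i) * (y + y') = -i)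
    (h6 : 2 * x + x' + (1 + i) * (y + y') = 0 ∨ 2 * x + x' + (1 + i) * (y + y') = -i) :
    x ≠ -i ∧ x' ≠ -i := by
  obtain ⟨t, ht⟩ : ∃ t : k, 2 * t = 1 := ⟨_, mul_inv_cancel₀ two⟩
  rcases h1 with ⟨rfl, rfl, rfl⟩ | rfl <;> rcases h2 with ⟨h, h', h''⟩ | h <;> grind

theorem four_alg {i a a' b b' p p' : k} (two : (2 : k) ≠ 0) (hi : i ^ 2 = -1) (hp : p * p' = -i)
    (h1 : a = 0 ∧ b = 0 ∨ a * b = -i) (h2 : a' = 0 ∧ b' = 0 ∨ a' * b' = -i)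
    (h3 : (a' + p * a) * (b' + i * p' * b) = 0 ∨ (a' + p * a) * (b' + i * p' * b) = -i)
    (h4 : (a' + i * p * a) * (b' + p' * b) = 0 ∨ (a' + i * p * a) * (b' + p' * b) = -i)
    (h5 : (a + (1 + i) * p' * a') * (b + (1 + i) * p * b') = 0 ∨
      (a + (1 + i) * p' * a') * (b + (1 + i) * p * b') = -i)
    (h6 : (a' + (1 + i) * p * a) * (b' + (1 + i) * p' * b) = 0 ∨
      (a' + (1 + i) * p * a) * (b' + (1 + i) * p' * b) = -i) :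
    a = 0 ∧ b = 0 ∧ a' = 0 ∧ b' = 0 := by
  have := four_alg0 (x := a * b) (x' := a' * b') (y := p * a * b') (y' := p' * a' * b) two hi
    (by linear_combination a * b * a' * b' * hp) (h1.imp_left fun h => by simp [h])
    (h2.imp_left fun h => by simp [h]) (by convert h3 using 2 <;> grind)
    (by convert h4 using 2 <;> grind) (by convert h5 using 2 <;> grind)
    (by convert h6 using 2 <;> grind)
  tauto

theorem no_four (p : ℕ) [Fact p.Prime] [CharP k p] [IsAlgClosed k] [Finite Γ] (hi : ρ.Irr)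
    (hs : ρ.Small) (ho : ρ.Ord) (two : (2 : k) ≠ 0) (h4 : ξ ^ 2 = -1) (h : ρ.Hm ξ v φ)
    (h' : ρ.Hm ξ v' φ') (n : ρ.NC ξ v φ v' φ') : False := by
  have h2 : ξ ^ 2 ≠ 1 := by grind
  have h1 : ξ ≠ 1 := by grind
  have hi' : ξ⁻¹ = -ξ := inv_eq_of_mul_eq_one_right (by linear_combination -h4)
  have hc := (n.val ho).1
  have key : ∀ u χ, ρ.Hm ξ u χ → (v ⨯₃ v') ⬝ᵥ u ≠ 0 →
      χ ⬝ᵥ v = 0 ∧ φ ⬝ᵥ u = 0 ∧ χ ⬝ᵥ v' = 0 ∧ φ' ⬝ᵥ u = 0 := fun u χ hx hu => by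
    have k1 : ∀ w ψ, ρ.Hm ξ w ψ → (v ⨯₃ v') ⬝ᵥ w = 0 →
        χ ⬝ᵥ w = 0 ∧ ψ ⬝ᵥ u = 0 ∨ χ ⬝ᵥ w * ψ ⬝ᵥ u = -ξ := fun w ψ hw e => by
      rcases hs.tri p h2 hw hx with ⟨c, rfl, -⟩ | e | e
      · simp [e] at hu
      · exact Or.inl e.symm
      · exact Or.inr (mul_comm (χ ⬝ᵥ w) _ ▸ (e.val ho).1)
    have k2 : ∀ w ψ, ρ.Hm ξ w ψ → (v ⨯₃ v') ⬝ᵥ w = 0 →
        χ ⬝ᵥ w * ψ ⬝ᵥ u = 0 ∨ χ ⬝ᵥ w * ψ ⬝ᵥ u = -ξ := fun w ψ hw e =>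
      (k1 w ψ hw e).imp_left fun e => by rw [e.1, zero_mul]
    have z1 : (v ⨯₃ v') ⬝ᵥ v = 0 := by rw [dotProduct_comm, dot_self_cross]
    have z2 : (v ⨯₃ v') ⬝ᵥ v' = 0 := by rw [dotProduct_comm, dot_cross_self]
    have g1 := k2 _ _ (h.act h') (by simp [z1, z2])
    have g2 := k2 _ _ (h.act (h.act h')) (by simp [z1, z2])
    have g3 := k2 _ _ (h.act (h.act (h.act h'))) (by simp [z1, z2])
    have g4 := k2 _ _ (h'.act (h'.act h)) (by simp [z1, z2])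
    simp only [dotProduct_add, dotProduct_smul, sub_dotProduct, smul_dotProduct, smul_eq_mul, h.1,
      h'.1, hi'] at g1 g2 g3 g4
    refine four_alg two h4 hc (k1 _ _ h z1) (k1 _ _ h' z2) ?_ ?_ ?_ ?_
    · convert g1 using 3 <;> ring
    · convert g3 using 3 <;> grind
    · convert g4 using 3 <;> grind
    · convert g2 using 3 <;> grind
  have fin : ∀ A A' : Mt k, ρ.In A → A * A' = 1 → ∀ v1 φ1 v2 φ2, ρ.Hm ξ v1 φ1 → ρ.Hm ξ v2 φ2 →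
      φ1 ⬝ᵥ v2 * φ2 ⬝ᵥ v1 = -ξ → (v ⨯₃ v') ⬝ᵥ (A *ᵥ v1) = 0 := fun A A' hA e v1 φ1 v2 φ2 a1 a2 a3 => by
    by_contra hne
    have x := a1.conj hA e
    have y := a2.conj hA e
    rw [← dot_conj e, ← dot_conj e v1] at a3
    generalize A *ᵥ v1 = u1, A *ᵥ v2 = u2, φ1 ᵥ* A' = χ1, φ2 ᵥ* A' = χ2 at *
    obtain ⟨b1, b2, b3, b4⟩ := key _ _ x hne
    obtain ⟨c, rfl⟩ := eq_smul_cross n.hv (v := χ1) (by rwa [dotProduct_comm]) (by rwa [dotProduct_comm])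
    by_cases e2 : (v ⨯₃ v') ⬝ᵥ u2 = 0
    · exact h.ne (by simpa [e2] using a3)
    obtain ⟨-, b5, -, b6⟩ := key _ _ y e2
    obtain ⟨d, rfl⟩ := eq_smul_cross n.hφ b2 b4
    obtain ⟨d', rfl⟩ := eq_smul_cross n.hφ b5 b6
    have x1 := x.1
    have y1 := y.1
    simp only [dotProduct_smul, smul_dotProduct, smul_eq_mul] at x1 y1 a3
    grind
  obtain ⟨A, hA, h3⟩ := hi.ln' _ n.hv
  obtain ⟨A', h5, -⟩ := exists_inv hA.det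
  obtain ⟨c, e⟩ := eq_smul_cross n.hv (v := (v ⨯₃ v') ᵥ* A)
    (by rw [dotProduct_comm, ← dotProduct_mulVec]; exact fin A A' hA h5 _ _ _ _ h h' hc)
    (by rw [dotProduct_comm, ← dotProduct_mulVec]
        exact fin A A' hA h5 _ _ _ _ h' h (mul_comm (φ ⬝ᵥ v') _ ▸ hc))
  exact h3 c e

theorem three_trans (ho : ρ.Ord) (h1 : ξ ≠ 1) (h3 : ξ ^ 2 + ξ + 1 = 0) (h : ρ.Hm ξ v φ)
    (h' : ρ.Hm ξ v' φ') (hv : v ⨯₃ v' ≠ 0) (hφ : φ ⨯₃ φ' ≠ 0) (hc : φ ⬝ᵥ v' * φ' ⬝ᵥ v = -ξ)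
    (hx : ρ.Hm ξ u χ)
    (a1 : χ ⬝ᵥ v = 0) (a2 : χ ⬝ᵥ v' = 0) (a3 : φ ⬝ᵥ u = 0) (a4 : φ' ⬝ᵥ u = 0) : False := by
  by_cases two : (2 : k) = 0
  · obtain ⟨c, e⟩ := eq_smul_cross hφ (v := (ξ - 1) • v' - (φ ⬝ᵥ v') • v) (by simp [h.1, mul_comm])
      (by simp only [dotProduct_sub, dotProduct_smul, h'.1, smul_eq_mul, hc]; grind)
    obtain ⟨d, rfl⟩ := eq_smul_cross hφ a3 a4
    have e1 := congrArg (χ ⬝ᵥ ·) e
    have e2 := congrArg (v ⨯₃ ·) e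
    have e3 := hx.1
    simp only [dotProduct_sub, dotProduct_smul, a1, a2, smul_eq_mul] at e1 e3
    have : c = 0 := by grind
    simp [this, hv, sub_eq_zero, h1] at e2
  obtain ⟨B, B', hB, b1, b2, b3, b4⟩ := nd_setup h1 h.1 h'.1 (by grind) (hx.v_ne h1) a3 a4
  have k1 : (ρ.cj hB).Hm ξ ![1, 0, 0] ![φ ⬝ᵥ v, φ ⬝ᵥ v', φ ⬝ᵥ u] := by rwa [hm_cj, b1, b4]
  have k2 : (ρ.cj hB).Hm ξ ![0, 1, 0] ![φ' ⬝ᵥ v, φ' ⬝ᵥ v', φ' ⬝ᵥ u] := by rwa [hm_cj, b2, b4]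
  have k3 : (ρ.cj hB).Hm ξ ![0, 0, 1] ![χ ⬝ᵥ v, χ ⬝ᵥ v', χ ⬝ᵥ u] := by rwa [hm_cj, b3, b4]
  have k4 := ((In.mul k1.2 k2.2).pow 3).mul ((In.pow k3.2 2).smul (c := ξ) h.ne)
  rw [h.1, h'.1, hx.1, a1, a2, a3, a4, r13, r13, r13] at k4
  generalize φ ⬝ᵥ v' = b, φ' ⬝ᵥ v = b' at *
  have := (ho.cj hB).dg (l := -ξ) (by
    convert k4 using 1
    simp only [pow_succ, pow_zero, one_mul, mul_fin_three, sm3, em3]
    clear * - hc h3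
    grind)
  clear * - this h1 h3 two
  grind

theorem three_two (p : ℕ) [Fact p.Prime] [CharP k p] [IsAlgClosed k] [Finite Γ] (hs : ρ.Small)
    (ho : ρ.Ord) (two : (2 : k) = 0) (h3 : ξ ^ 2 + ξ + 1 = 0)
    (h : ρ.Hm ξ ![0, 1, 0] ![0, ξ - 1, 0]) (h' : ρ.Hm ξ ![1, 1, 0] ![0, ξ - 1, (ξ - 1) * 1]) :
    ∃ a b : Fin 4 → Vc k, (∀ i, ρ.Hm ξ (a i) (b i)) ∧
      ∀ v φ, ρ.Hm ξ v φ → ∃ i, Rel v φ (a i) (b i) := by
  have h2 : ξ ^ 2 ≠ 1 := by grind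
  have hi' : ξ⁻¹ = ξ ^ 2 := inv_eq_of_mul_eq_one_right (by linear_combination (ξ - 1) * h3)
  have g1 : ρ.Hm ξ ![1, ξ, 0] ![0, ξ, ξ ^ 2] := by
    convert h.act h' using 1 <;> simp only [dot3, sv3, av3, bv3, ev3, hi'] <;> grind
  have g2 : ρ.Hm ξ ![1, ξ ^ 2, 0] ![0, 1, ξ ^ 2] := by
    convert h.act g1 using 1 <;> simp only [dot3, sv3, av3, bv3, ev3, hi'] <;> grind
  refine ⟨![![0, 1, 0], ![1, 1, 0], ![1, ξ, 0], ![1, ξ ^ 2, 0]], ![![0, ξ - 1, 0],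
    ![0, ξ - 1, (ξ - 1) * 1], ![0, ξ, ξ ^ 2], ![0, 1, ξ ^ 2]],
    fun i => by fin_cases i <;> assumption, fun u χ hx => ?_⟩
  by_contra hc
  push Not at hc
  have n0 := (hs.rel p h2 hx h).resolve_left (hc 0)
  have n1 := (hs.rel p h2 hx h').resolve_left (hc 1)
  have n2 := (hs.rel p h2 hx g1).resolve_left (hc 2)
  have n3 := (hs.rel p h2 hx g2).resolve_left (hc 3)
  obtain ⟨u0, u1, u2, rfl⟩ := ex3 u
  obtain ⟨x0, x1, x2, rfl⟩ := ex3 χ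
  have c0 := (n0.val ho).1
  have c1 := (n1.val ho).1
  have c2 := (n2.val ho).1
  have c3 := (n3.val ho).1
  have c4 := hx.1
  simp only [dot3] at c0 c1 c2 c3 c4
  obtain ⟨rfl, rfl⟩ : u2 = 0 ∧ x0 = 0 := by clear * - c0 c1 c2 c3 two h3; grind
  have m1 : u1 ≠ 0 := by clear * - c0 h3; grind
  have m2 : ξ - 1 ≠ 0 := by grind
  have hx' : ρ.Hm ξ ![u0 / u1, 1, 0] ![0, ξ - 1, (ξ - 1) * (x2 * u1 / (ξ - 1))] := by
    rw [show ![u0, u1, 0] = u1 • ![u0 / u1, 1, 0] by simp [sv3, mul_div_cancel₀ _ m1],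
      Hm.scale] at hx
    convert hx using 1
    simp only [sv3, ev3]
    exact ⟨by simp, by linear_combination -c4, by field_simp⟩
  have v0 := n0.hv
  have v1 := n1.hv
  have v2 := n2.hv
  have v3 := n3.hv
  simp only [cr3, Ne, zv3] at v0 v1 v2 v3
  obtain ⟨s, rfl⟩ : ∃ s, u0 = s * u1 := ⟨u0 / u1, (div_mul_cancel₀ _ m1).symm⟩
  rw [mul_div_cancel_right₀ _ m1] at hx'
  generalize x2 * u1 / (ξ - 1) = t at hx'
  have un : ∀ s t, ρ.Hm ξ ![s, 1, 0] ![0, ξ - 1, (ξ - 1) * t] →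
      (∃ b, ρ.In !![1, s * ξ, b; 0, 1, t * ξ ^ 2; 0, 0, 1]) ∧ ∃ b, ρ.In !![1, s, b; 0, 1, t; 0, 0, 1] :=
    fun s t hx => by
      have a0 := unip_of_hm h hx 0
      have a1 := unip_of_hm h hx 1
      simp only [div_eq_mul_inv, ← inv_pow, hi'] at a0 a1
      rw [show s * (ξ - 1) * (ξ ^ 2) ^ (0 + 1) = s * ξ by clear * - two h3; grind,
        show t * (ξ - 1) * ξ ^ 0 = t * ξ ^ 2 by clear * - two h3; grind] at a0
      rw [show s * (ξ - 1) * (ξ ^ 2) ^ (1 + 1) = s by clear * - two h3; grind,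
        show t * (ξ - 1) * ξ ^ 1 = t by clear * - two h3; grind] at a1
      exact ⟨a0, a1⟩
  obtain ⟨⟨_, p0⟩, _, p1⟩ := un _ _ h'
  obtain ⟨⟨_, q0⟩, _, q1⟩ := un _ _ hx'
  have e0 := comm_unip p0 p1
  rw [show 1 * ξ * 1 - 1 * (1 * ξ ^ 2) = 1 by grind, one_smul] at e0
  have r1 := hs _ _ _ (by simp) (by simp) e0 (comm_unip q0 q1)
  have r2 := hs _ _ _ (by simp) (by simp) e0 (comm_unip p1 q1)
  have r3 := hs _ _ _ (by simp) (by simp) e0 (comm_unip p1 q0)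
  clear * - r1 r2 r3 v0 v1 v2 v3 m1 two h3
  grind

theorem three_odd (p : ℕ) [Fact p.Prime] [CharP k p] [IsAlgClosed k] [Finite Γ] (hs : ρ.Small)
    (ho : ρ.Ord) (two : (2 : k) ≠ 0) (h2 : ξ ^ 2 ≠ 1) (h3 : ξ ^ 2 + ξ + 1 = 0)
    (h : ρ.Hm ξ v φ) (h' : ρ.Hm ξ v' φ') (hc : φ ⬝ᵥ v' * φ' ⬝ᵥ v = -ξ) :
    ∃ a b : Fin 4 → Vc k, (∀ i, ρ.Hm ξ (a i) (b i)) ∧
      ∀ v φ, ρ.Hm ξ v φ → ∃ i, Rel v φ (a i) (b i) := by
  have hi' : ξ⁻¹ = ξ ^ 2 := inv_eq_of_mul_eq_one_right (by linear_combination (ξ - 1) * h3)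
  have g1 := h.act h'
  have g2 := h.act g1
  refine ⟨![v, v', _, _], ![φ, φ', _, _], fun i => by
    fin_cases i
    exacts [h, h', g1, g2], fun u χ hx => ?_⟩
  by_contra hn
  push Not at hn
  have c0 := (((hs.rel p h2 hx h).resolve_left (hn 0)).val ho).1
  have c1 := (((hs.rel p h2 hx h').resolve_left (hn 1)).val ho).1
  have c2 := (((hs.rel p h2 hx g1).resolve_left (hn 2)).val ho).1
  have c3 := (((hs.rel p h2 hx g2).resolve_left (hn 3)).val ho).1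
  simp only [dotProduct_add, dotProduct_smul, sub_dotProduct, smul_dotProduct, smul_eq_mul, h.1,
    h'.1, hi'] at c2 c3
  clear * - c0 c1 c2 c3 hc h3 h2 two
  grind

/-- Groups containing a homology of order at least three are soluble. -/
theorem perfect_of_hm (p : ℕ) [Fact p.Prime] [CharP k p] [IsAlgClosed k] [Finite Γ] (hi : ρ.Irr)
    (hs : ρ.Small) (h2 : ξ ^ 2 ≠ 1) (h : ρ.Hm ξ v φ) {K : Subgroup Γ} (hK : ⁅K, K⁆ = K) :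
    K = ⊥ := by
  have key : ∀ {ξ v φ}, ξ ^ 2 ≠ 1 → ρ.Hm ξ v φ → K ≠ ⊥ →
      ∃ v φ v' φ', ρ.Hm ξ v φ ∧ ρ.Hm ξ v' φ' ∧ ρ.NC ξ v φ v' φ' := fun {ξ v φ} h2 h hne => by
    by_contra hc
    push Not at hc
    have := fun v φ v' φ' h h' => (hs.rel p h2 h h').resolve_right (hc v φ v' φ' h h')
    exact hne (perfect_of_classes hi.pt (by rintro rfl; simp at h2)
      (fun _ _ _ _ _ _ a _ b _ _ _ _ => this _ _ _ _ a b) (fun _ => v) (fun _ => φ) (fun _ => h)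
      (fun _ _ a => ⟨0, this _ _ _ _ a h⟩) hK)
  by_contra hne
  have ho : ρ.Ord := fun μ v φ h => by
    by_cases e : μ ^ 2 = 1
    · exact Or.inr (Or.inl (by linear_combination (μ ^ 2 + 1) * e))
    · obtain ⟨_, _, _, _, -, -, n⟩ := key e h hne
      exact n.ord
  obtain ⟨v, φ, v', φ', h, h', n⟩ := key h2 h hne
  have h1 : ξ ≠ 1 := by rintro rfl; simp at h2
  obtain ⟨hc, ⟨h4, two⟩ | h3⟩ := n.val ho
  · exact no_four p hi hs ho two h4 h h' n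
  have tr : ∀ {σ : PR Γ k}, σ.Small → σ.Ord → ∀ v φ v' φ' u χ, σ.Hm ξ v φ → σ.Hm ξ v' φ' →
      σ.Hm ξ u χ → φ ⬝ᵥ v' = 0 → φ' ⬝ᵥ v = 0 → χ ⬝ᵥ v' = 0 → φ' ⬝ᵥ u = 0 → Rel v φ u χ :=
    fun hs ho v φ v' φ' u χ a b c a1 a2 a3 a4 => (hs.rel p h2 a c).resolve_right fun n =>
      three_trans ho h1 h3 a c n.hv n.hφ (n.val ho).1 b a2 a4 a1 a3
  by_cases two : (2 : k) = 0
  · obtain ⟨B, B', hB, c, c0, e1, e2, e3, e4⟩ := deg_setup h1 h h' n.hv n.hφ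
      (by linear_combination hc - h3 + ξ * two)
    obtain ⟨a, b, h5, h6⟩ := three_two (ρ := ρ.cj hB) p (hs.cj hB) (ho.cj hB) two h3
      (by rwa [hm_cj, e1, e2])
      (by rwa [hm_cj, e3, e4, Hm.scale, smul_smul, mul_inv_cancel₀ c0, one_smul])
    exact hne (perfect_of_classes (hi.pt.cj hB) h1 (tr (hs.cj hB) (ho.cj hB)) a b h5 h6 hK)
  · obtain ⟨a, b, h5, h6⟩ := three_odd p hs ho two h2 h3 h h' hc
    exact hne (perfect_of_classes hi.pt h1 (tr hs ho) a b h5 h6 hK)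

end PR

end Cfsg.Agent.H6.M3
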