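import Cfsg.Agent.H6.M2

/-! Groups containing elations: the linear case. -/

set_option autoImplicit false

namespace Cfsg.Agent.H6.M3

open Matrix OnePoint MulAction Cfsg.Agent.H6.Pg
open scoped MatrixGroups

variable {k : Type*} [Field k]

theorem r1_mul (v φ v' φ' : Vc k) : (1 + vecMulVec v φ) * (1 + vecMulVec v' φ') =
    1 + vecMulVec v φ + vecMulVec v' φ' + (φ ⬝ᵥ v') • vecMulVec v φ' := by
  rw [mul_add, mul_one, add_mul, one_mul, vecMulVec_mul_vecMulVec, vecMulVec_smul]; abel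

theorem r1_mulVec (v φ w : Vc k) : (1 + vecMulVec v φ) *ᵥ w = w + (φ ⬝ᵥ w) • v := by
  rw [add_mulVec, one_mulVec, vecMulVec_mulVec, op_smul_eq_smul]

theorem vecMul_r1 (v φ ψ : Vc k) : ψ ᵥ* (1 + vecMulVec v φ) = ψ + (ψ ⬝ᵥ v) • φ := by
  rw [vecMul_add, vecMul_one, vecMul_vecMulVec]

theorem dot_conj {A A' : Mt k} (h : A * A' = 1) (v φ : Vc k) :
    (φ ᵥ* A') ⬝ᵥ (A *ᵥ v) = φ ⬝ᵥ v := by
  rw [dotProduct_mulVec, vecMul_vecMul, mul_eq_one_comm.1 h, vecMul_one]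

theorem mul_inv_mem {S : Set k} (hS : S.Finite) {b : k} (hb : b ≠ 0) (h : ∀ c ∈ S, c * b ∈ S) :
    ∀ c ∈ S, c * b⁻¹ ∈ S := fun c hc => by
  have := hS.to_subtype
  obtain ⟨⟨d, hd⟩, e⟩ := Finite.surjective_of_injective (f := fun x : S => (⟨x * b, h _ x.2⟩ : S))
    (fun x y e => Subtype.ext (mul_right_cancel₀ hb (congrArg Subtype.val e))) ⟨c, hc⟩
  have : d * b = c := congrArg Subtype.val e
  rwa [← this, mul_inv_cancel_right₀ hb]

namespace PR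

variable {Γ : Type*} [Group Γ] {ρ : PR Γ k}

variable (ρ) in
/-- elations -/
def El (v φ : Vc k) : Prop := φ ⬝ᵥ v = 0 ∧ ρ.R1 v φ

theorem El.add_left {v v' φ : Vc k} (h : ρ.El v φ) (h' : ρ.El v' φ) : ρ.El (v + v') φ := by
  refine ⟨by rw [dotProduct_add, h.1, h'.1, add_zero], ?_⟩
  have := In.mul h.2 h'.2
  rwa [r1_mul, h'.1, zero_smul, add_zero, add_assoc, ← add_vecMulVec] at this

theorem el_tr {v φ : Vc k} : ρ.tr.El v φ ↔ ρ.El φ v := by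
  rw [El, El, r1_tr, dotProduct_comm]

theorem El.add_right {v φ φ' : Vc k} (h : ρ.El v φ) (h' : ρ.El v φ') : ρ.El v (φ + φ') :=
  el_tr.1 ((el_tr.2 h).add_left (el_tr.2 h'))

theorem El.inv_eq {v φ : Vc k} (h : ρ.El v φ) :
    (1 + vecMulVec v φ) * (1 + vecMulVec (-v) φ) = 1 := by
  rw [r1_mul, dotProduct_neg, h.1, neg_vecMulVec]; simp

theorem El.neg {v φ : Vc k} (h : ρ.El v φ) : ρ.El (-v) φ :=
  ⟨by rw [dotProduct_neg, h.1, neg_zero], In.inv h.2 h.inv_eq⟩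

theorem El.sub_left {v v' φ : Vc k} (h : ρ.El v φ) (h' : ρ.El v' φ) : ρ.El (v - v') φ := by
  rw [sub_eq_add_neg]; exact h.add_left h'.neg

theorem El.zero (φ : Vc k) : ρ.El 0 φ := ⟨by simp, R1.zero φ⟩

theorem El.scale {v φ : Vc k} {c : k} : ρ.El (c • v) φ ↔ ρ.El v (c • φ) := by
  rw [El, El, R1.scale, dotProduct_smul, smul_dotProduct]

theorem El.conj {v φ : Vc k} (h : ρ.El v φ) {A A' : Mt k} (hA : ρ.In A) (h1 : A * A' = 1) :
    ρ.El (A *ᵥ v) (φ ᵥ* A') := ⟨by rw [dot_conj h1, h.1], h.2.conj hA h1⟩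

theorem el_cj {B B' : Mt k} (h : B * B' = 1) {v φ : Vc k} :
    (ρ.cj h).El v φ ↔ ρ.El (B *ᵥ v) (φ ᵥ* B') := by
  rw [El, El, r1_cj, dot_conj h]

theorem el_cj' {B B' : Mt k} (h : B * B' = 1) {v φ : Vc k} :
    (ρ.cj h).El (B' *ᵥ v) (φ ᵥ* B) ↔ ρ.El v φ := by
  rw [el_cj, mulVec_mulVec, vecMul_vecMul, h, one_mulVec, vecMul_one]

theorem El.act {v φ v' φ' : Vc k} (h : ρ.El v φ) (h' : ρ.El v' φ') :
    ρ.El (v' + (φ ⬝ᵥ v') • v) (φ' - (φ' ⬝ᵥ v) • φ) := by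
  have := h'.conj h.2 h.inv_eq
  rwa [r1_mulVec, vecMul_r1, dotProduct_neg, neg_smul, ← sub_eq_add_neg] at this

theorem El.comm {v φ v' φ' : Vc k} (h : ρ.El v φ) (h' : ρ.El v' φ') (e : φ' ⬝ᵥ v = 0) :
    ρ.El ((φ ⬝ᵥ v') • v) φ' := by
  have := h.act h'
  rw [e, zero_smul, sub_zero] at this
  simpa using this.sub_left h'

theorem El.nsmul {v φ : Vc k} (h : ρ.El v φ) (n : ℕ) : ρ.El ((n : k) • v) φ := by
  induction n with
  | zero => simpa using El.zero φ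
  | succ n ih => rw [Nat.cast_succ, add_smul, one_smul]; exact ih.add_left h

theorem finite_el [Finite Γ] {v φ : Vc k} (hv : v ≠ 0) (hφ : φ ≠ 0) :
    {a : k | ρ.El (a • v) φ}.Finite := by
  have : ∀ a : {a : k | ρ.El (a • v) φ}, ∃ g, ρ.L g (1 + vecMulVec (a.1 • v) φ) := fun a => a.2.2
  choose f hf using this
  refine Set.finite_coe_iff.1 (Finite.of_injective f fun a b e => Subtype.ext ?_)
  have h1 := ρ.mul (hf a) (ρ.inv (e ▸ hf b) b.2.inv_eq)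
  rw [mul_inv_cancel, r1_mul, dotProduct_neg, b.2.1, neg_zero, zero_smul, add_zero, add_assoc,
    ← add_vecMulVec, ← sub_eq_add_neg, ← sub_smul] at h1
  obtain ⟨c, hc⟩ := ρ.uniq ρ.one h1
  by_contra hab
  have hab' := sub_ne_zero.2 hab
  have h0 : φ ⬝ᵥ v = 0 := by
    have := (a.2.sub_left b.2).1
    rwa [← sub_smul, dotProduct_smul, smul_eq_zero, or_iff_right hab'] at this
  have h2 := congrArg (· *ᵥ v) hc
  simp only [r1_mulVec, h0, zero_smul, add_zero, smul_mulVec, one_mulVec] at h2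
  have h3 : c = 1 := smul_left_injective k hv (by simpa using h2.symm)
  rw [h3, one_smul, add_eq_left, vecMulVec_eq_zero] at hc
  simp [hab', hv, hφ] at hc

variable (ρ) in
/-- an axis with at least two centres -/
def Rich (φ : Vc k) : Prop := φ ≠ 0 ∧ ∃ v v' : Vc k, v ⨯₃ v' ≠ 0 ∧ ρ.El v φ ∧ ρ.El v' φ

theorem cross_mulVec_ne {A : Mt k} (hA : A.det ≠ 0) {u v : Vc k} (h : u ⨯₃ v ≠ 0) :
    (A *ᵥ u) ⨯₃ (A *ᵥ v) ≠ 0 := fun e => by
  have hu : u ≠ 0 := by rintro rfl; simp at h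
  obtain ⟨c, hc⟩ := eq_smul_of_cross (mulVec_ne_zero hA hu) e
  rw [← mulVec_smul, ← sub_eq_zero, ← mulVec_sub] at hc
  rw [sub_eq_zero.1 (eq_zero_of_mulVec_eq_zero hA hc)] at h
  simp at h

theorem Rich.conj {φ : Vc k} (h : ρ.Rich φ) {A A' : Mt k} (hA : ρ.In A) (h1 : A * A' = 1) :
    ρ.Rich (φ ᵥ* A') := by
  obtain ⟨h0, v, v', h2, h3, h4⟩ := h
  exact ⟨vecMul_ne_zero (det_of_mul h1).2 h0, _, _, cross_mulVec_ne hA.det h2, h3.conj hA h1,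
    h4.conj hA h1⟩

theorem Rich.conj' {φ : Vc k} (h : ρ.Rich φ) {A : Mt k} (hA : ρ.In A) : ρ.Rich (φ ᵥ* A) := by
  obtain ⟨A', h1, h2⟩ := exists_inv hA.det
  exact h.conj (hA.inv h1) h2

theorem rich_cj {B B' : Mt k} (h : B * B' = 1) {φ : Vc k} (H : (ρ.cj h).Rich φ) :
    ρ.Rich (φ ᵥ* B') := by
  obtain ⟨h0, v, v', h2, h3, h4⟩ := H
  exact ⟨vecMul_ne_zero (det_of_mul h).2 h0, _, _, cross_mulVec_ne (det_of_mul h).1 h2,
    (el_cj h).1 h3, (el_cj h).1 h4⟩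

theorem rich_cj' {B B' : Mt k} (h : B * B' = 1) {φ : Vc k} (H : ρ.Rich φ) :
    (ρ.cj h).Rich (φ ᵥ* B) := by
  obtain ⟨h0, v, v', h2, h3, h4⟩ := H
  exact ⟨vecMul_ne_zero (det_of_mul h).1 h0, _, _, cross_mulVec_ne (det_of_mul h).2 h2,
    (el_cj' h).2 h3, (el_cj' h).2 h4⟩

theorem Rich.smul {φ : Vc k} (h : ρ.Rich φ) {c : k} (hc : c ≠ 0) : ρ.Rich (c • φ) := by
  obtain ⟨h0, v, v', h2, h3, h4⟩ := h
  refine ⟨smul_ne_zero hc h0, c⁻¹ • v, c⁻¹ • v', by simp [hc, h2], ?_, ?_⟩ <;>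
    rwa [El.scale, smul_smul, inv_mul_cancel₀ hc, one_smul]

variable (ρ) in
/-- a rich axis meets every other axis in one of its centres -/
def KK : Prop := ∀ φ w ψ : Vc k, ρ.Rich φ → ρ.El w ψ → ψ ≠ 0 → φ ⬝ᵥ w ≠ 0 →
  ∃ y, y ≠ 0 ∧ ψ ⬝ᵥ y = 0 ∧ ρ.El y φ

theorem KK.cj (H : ρ.KK) {B B' : Mt k} (h : B * B' = 1) : (ρ.cj h).KK := fun φ w ψ h1 h2 h3 h4 => by
  obtain ⟨y, k1, k2, k3⟩ := H _ _ _ (rich_cj h h1) ((el_cj h).1 h2)
    (vecMul_ne_zero (det_of_mul h).2 h3) (by rwa [dot_conj h])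
  refine ⟨B' *ᵥ y, mulVec_ne_zero (det_of_mul h).2 k1, by rwa [dotProduct_mulVec], ?_⟩
  rw [el_cj, mulVec_mulVec, h, one_mulVec]
  exact k3

theorem KK.rr (H : ρ.KK) {φ ψ : Vc k} (h1 : ρ.Rich φ) (h2 : ρ.Rich ψ) (h : φ ⨯₃ ψ ≠ 0) :
    ∃ c : k, c ≠ 0 ∧ ρ.El (c • (φ ⨯₃ ψ)) φ := by
  obtain ⟨h0, v, v', h3, h4, h5⟩ := h2
  have : ∃ w, ρ.El w ψ ∧ φ ⬝ᵥ w ≠ 0 := by
    by_contra hc
    push Not at hc
    obtain ⟨a, rfl⟩ := eq_smul_cross h (hc _ h4) h4.1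
    obtain ⟨b, rfl⟩ := eq_smul_cross h (hc _ h5) h5.1
    simp at h3
  obtain ⟨w, h6, h7⟩ := this
  obtain ⟨y, k1, k2, k3⟩ := H φ w ψ h1 h6 h0 h7
  obtain ⟨c, rfl⟩ := eq_smul_cross h k3.1 k2
  exact ⟨c, by rintro rfl; simp at k1, k3⟩

theorem k_setup {φ w ψ : Vc k} (h1 : ρ.Rich φ) (h2 : ρ.El w ψ) (h3 : ψ ≠ 0) (h4 : φ ⬝ᵥ w ≠ 0) :
    (∃ y, y ≠ 0 ∧ ψ ⬝ᵥ y = 0 ∧ ρ.El y φ) ∨ ∃ (B B' : Mt k) (h : B * B' = 1) (a b c : k),
      b ≠ 0 ∧ c ≠ 0 ∧ (ρ.cj h).El ![1, 0, 0] ![0, 1, 0] ∧ (ρ.cj h).El ![a, 0, b] ![0, 1, 0] ∧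
      (ρ.cj h).El ![0, 1, 0] ![c, 0, 0] ∧ ∀ d : k, d ≠ 0 → (ρ.cj h).El ![0, 0, d] ![0, 1, 0] →
        ∃ y, y ≠ 0 ∧ ψ ⬝ᵥ y = 0 ∧ ρ.El y φ := by
  obtain ⟨h0, v, v', h5, h6, h7⟩ := h1
  have hv : v ≠ 0 := by rintro rfl; simp at h5
  by_cases h8 : ψ ⬝ᵥ v = 0
  · exact Or.inl ⟨v, hv, h8, h6⟩
  have hy : φ ⨯₃ ψ ≠ 0 := cross_ne_zero h0 fun c e => h8 (by rw [e, smul_dotProduct, h6.1, smul_zero])
  have e1 : φ ⬝ᵥ (φ ⨯₃ ψ) = 0 := dot_self_cross φ ψ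
  have e2 : ψ ⬝ᵥ (φ ⨯₃ ψ) = 0 := dot_cross_self φ ψ
  have e3 : φ ⬝ᵥ ((φ ⬝ᵥ w)⁻¹ • w) = 1 := by rw [dotProduct_smul, smul_eq_mul, inv_mul_cancel₀ h4]
  have e4 : ψ ⬝ᵥ ((φ ⬝ᵥ w)⁻¹ • w) = 0 := by rw [dotProduct_smul, h2.1, smul_zero]
  have h2' : ρ.El ((φ ⬝ᵥ w)⁻¹ • w) ((φ ⬝ᵥ w) • ψ) := by
    rwa [El.scale, smul_smul, inv_mul_cancel₀ h4, one_smul]
  generalize (φ ⬝ᵥ w)⁻¹ • w = w' at e3 e4 h2'
  have hi : Ind v w' (φ ⨯₃ ψ) := fun x y z e => by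
    have k1 := congrArg (φ ⬝ᵥ ·) e
    have k2 := congrArg (ψ ⬝ᵥ ·) e
    simp only [dotProduct_add, dotProduct_smul, h6.1, e1, e2, e3, e4, smul_eq_mul, mul_zero,
      add_zero, zero_add, mul_one, dotProduct_zero, mul_eq_zero, h8, or_false] at k1 k2
    subst k1 k2
    simpa [hy] using e
  obtain ⟨B', hB⟩ := hi.inv
  have hφ : φ ᵥ* cols v w' (φ ⨯₃ ψ) = ![0, 1, 0] := by
    rw [eq3]; exact ⟨h6.1, e3, e1⟩
  have hψ : ((φ ⬝ᵥ w) • ψ) ᵥ* cols v w' (φ ⨯₃ ψ) = ![φ ⬝ᵥ w * ψ ⬝ᵥ v, 0, 0] := by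
    rw [smul_vecMul, eq3]
    exact ⟨rfl, by rw [Pi.smul_apply]; exact (congrArg _ e4).trans (smul_zero _),
      by rw [Pi.smul_apply]; exact (congrArg _ e2).trans (smul_zero _)⟩
  have hφ' : ![0, 1, 0] ᵥ* B' = φ := by rw [← hφ, vecMul_vecMul, hB, vecMul_one]
  have k7 := (el_cj' hB).2 h7
  rw [hφ] at k7
  have k8 : (B' *ᵥ v') 1 = 0 := by simpa [dotProduct, Fin.sum_univ_three] using k7.1
  have k9 : v' = cols v w' (φ ⨯₃ ψ) *ᵥ (B' *ᵥ v') := by rw [mulVec_mulVec, hB, one_mulVec]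
  refine Or.inr ⟨_, B', hB, (B' *ᵥ v') 0, (B' *ᵥ v') 2, _, fun e => h5 ?_, mul_ne_zero h4 h8,
    ?_, ?_, ?_, fun d hd h => ⟨d • (φ ⨯₃ ψ), smul_ne_zero hd hy, by simp [e2], ?_⟩⟩
  · rw [k9, cols_mulVec, k8, e]; simp
  · rw [el_cj, hφ', cols_mulVec]; simpa using h6
  · convert k7; rw [eq3]; simp [k8]
  · rw [el_cj, ← hψ, vecMul_vecMul, hB, vecMul_one, cols_mulVec]; simpa using h2'
  · rw [el_cj, hφ', cols_mulVec] at h; simpa using h

variable (ρ) in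
/-- the elements fixing the vector `e₂`, of determinant one -/
def HP [Finite Γ] : Subgroup Γ :=
  ρ.grp (fun A => A 0 2 = 0 ∧ A 1 2 = 0 ∧ A 2 2 = 1 ∧ (ul A).det = 1) (by simp [ul])
    fun A B hA hB => by
      rw [ul_mul (Or.inl ⟨hA.1, hA.2.1⟩), det_mul]
      simp [mul_apply, Fin.sum_univ_three, hA, hB]

theorem exists_pi_HP [Finite Γ] : ∃ π : ρ.HP →* PGL(2, k), ∀ (g : ρ.HP) (A : Mt k), ρ.L g A →
    (ul A).det ≠ 0 ∧ π g = pg (ul A) :=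
  ρ.exists_pi _ (Or.inl fun g ⟨A, h1, h2⟩ B hB => by
    obtain ⟨c, rfl⟩ := ρ.uniq h1 hB
    simp [h2])

theorem kk_of_odd (p : ℕ) [Fact p.Prime] [CharP k p] [IsAlgClosed k] [Finite Γ] (hp : p ≠ 2) :
    ρ.KK := fun φ w ψ h1 h2 h3 h4 => by
  refine (k_setup h1 h2 h3 h4).elim id ?_
  rintro ⟨B, B', h, a, b, c, hb, hc, k1, k2, k3, k4⟩
  generalize ρ.cj h = σ at *
  obtain ⟨π, hπ⟩ := σ.exists_pi_HP
  obtain ⟨u, hu⟩ := k1.2
  obtain ⟨v, hv⟩ := k3.2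
  have i1 : aff 1 1 ∈ π.range := ⟨⟨u, _, hu, by simp [ul, vecMulVec_apply]⟩, by
    rw [(hπ _ _ hu).2, aff]; simp [ul, vecMulVec_apply]⟩
  have i2 : low c ∈ π.range := ⟨⟨v, _, hv, by simp [ul, vecMulVec_apply]⟩, by
    rw [(hπ _ _ hv).2, low]; simp [ul, vecMulVec_apply]⟩
  have : Finite π.range := Finite.of_surjective _ π.rangeRestrict_surjective
  obtain ⟨_, ⟨⟨g, A, hA, a1, a2, a3, a4⟩, rfl⟩, g1, g2⟩ : ∃ g ∈ π.range, g ≠ 1 ∧ g ^ 2 = 1 := by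
    rcases two_roots p π.range i1 hc i2 with ⟨L, -, -, h, -⟩ | ⟨h, -⟩ | ⟨-, -, -, h⟩
    · refine ⟨pg !![0, -1; 1, 0], h (mem_PS.2 ⟨_, by simp, fun i j => ?_, rfl⟩), ?_, ?_⟩
      · fin_cases i <;> fin_cases j <;> simp
      · rw [Ne, pg_eq_one (by simp)]; simp
      · rw [pg_pow (by simp), pg_eq_one (by simp)]; simp [sq]
    · exact absurd h hp
    · exact h
  rw [pow_two_iff g1, (hπ _ _ hA).2, tau_pg (hπ ⟨g, A, hA, a1, a2, a3, a4⟩ _ hA).1, a4, div_one,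
    sq_eq_zero_iff] at g2
  simp only [ul, det_fin_two_of, trace_fin_two_of] at a4 g2
  obtain ⟨x, y, hxy⟩ : ∃ x y, A * A = !![-1, 0, 0; 0, -1, 0; x, y, 1] :=
    ⟨(A * A) 2 0, (A * A) 2 1, by
      simp [eq9, mul_apply, Fin.sum_univ_three, a1, a2, a3]; grind⟩
  have hh : σ.In !![-1, 0, 0; 0, -1, 0; x, y, 1] := hxy ▸ In.mul ⟨g, hA⟩ ⟨g, hA⟩
  have key : ∀ a b : k, σ.El ![a, 0, b] ![0, 1, 0] → σ.El ![0, 0, x * a + 2 * b] ![0, 1, 0] := by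
    intro a b h
    have := h.conj hh (A' := !![-1, 0, 0; 0, -1, 0; x, y, 1]) (by simp [eq9])
    rw [show ![0, 1, 0] ᵥ* !![-1, 0, 0; 0, -1, 0; x, y, 1] = (-1 : k) • ![0, 1, 0] by simp,
      ← El.scale] at this
    convert h.sub_left this using 1
    simp only [mv3, sv3, bv3, ev3]; refine ⟨?_, ?_, ?_⟩ <;> ring
  have h2 : (2 : k) ≠ 0 := fun e => hp
    ((Nat.prime_dvd_prime_iff_eq Fact.out Nat.prime_two).1 ((CharP.cast_eq_zero_iff k p 2).1 e))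
  by_cases hx : x = 0
  · exact k4 _ (by simp [hx, h2, hb]) (key _ _ k2)
  · exact k4 _ (by simp [hx]) (key _ _ k1)

variable (ρ) in
/-- the linear case -/
structure Lin (F0 : Subfield k) : Prop where
  fin : Finite F0
  le : ∀ A : Mt k, (∀ i j, A i j ∈ F0) → A.det = 1 → ρ.In A
  ge : ∀ A : Mt k, ρ.In A → ∃ c : k, c ≠ 0 ∧ ∀ i j, (c • A) i j ∈ F0

theorem lin_le {F0 : Subfield k}
    (h : ∀ i j, i ≠ j → ∀ a ∈ F0, ρ.In (transvection i j a)) (A : Mt k) (hA : ∀ i j, A i j ∈ F0)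
    (hd : A.det = 1) : ρ.In A := by
  obtain ⟨M, rfl⟩ : ∃ M : Mt F0, M.map F0.subtype = A := ⟨fun i j => ⟨_, hA i j⟩, rfl⟩
  have hd' : M.det = 1 := F0.subtype.injective (by
    rwa [RingHom.map_det, map_one, RingHom.mapMatrix_apply])
  have w : ∀ i j, i ≠ j → ∀ a ∈ F0, a ≠ 0 →
      ρ.In (transvection i j a * transvection j i (-a⁻¹) * transvection i j a *
        (transvection i j (-1) * transvection j i 1 * transvection i j (-1))) := fun i j hij a ha _ =>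
    (((h i j hij a ha).mul (h j i hij.symm _ (neg_mem (inv_mem ha)))).mul (h i j hij a ha)).mul
      (((h i j hij _ (neg_mem (one_mem _))).mul (h j i hij.symm _ (one_mem _))).mul
        (h i j hij _ (neg_mem (one_mem _))))
  refine diagonal_transvection_induction (fun M : Mt F0 => ρ.In (M.map F0.subtype)) M
    (fun D hD => ?_) (fun t => ?_) fun A B h1 h2 => ?_
  · rw [hd', det_diagonal, Fin.prod_univ_three] at hD
    have e : (D 0 : k) * D 1 * D 2 = 1 := congrArg Subtype.val hD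
    have n0 : (D 0 : k) ≠ 0 := by rintro h; simp [h] at e
    have n2 : (D 2 : k) ≠ 0 := by rintro h; simp [h] at e
    convert (w 0 1 (by simp) _ (D 0).2 n0).mul (w 2 1 (by simp) _ (D 2).2 n2)
    simp [eq9, transvection, mul_apply, Fin.sum_univ_three, one_apply, single_apply, n0, n2]
    field_simp
    linear_combination e
  · convert h t.i t.j t.hij t.c t.c.2
    ext i j
    simp only [TransvectionStruct.toMatrix, transvection, one_apply, single_apply, map_apply,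
      Matrix.add_apply, map_add]
    split_ifs <;> simp
  · rw [Matrix.map_mul]; exact h1.mul h2

theorem el_tv {i j : Fin 3} {a : k} (h : ρ.El (Pi.single i a) (Pi.single j 1)) :
    ρ.In (transvection i j a) := by
  have := h.2
  rw [R1] at this
  convert this
  ext r s
  simp [transvection, single_apply, vecMulVec_apply, Pi.single_apply, ite_and, eq_comm]
  split_ifs <;> rfl

theorem lin_std [Finite Γ] (H : ρ.KK) (r : ∀ j, ρ.Rich (Pi.single j 1))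
    (h01 : ρ.El (Pi.single 0 1) (Pi.single 1 1)) (h12 : ρ.El (Pi.single 1 1) (Pi.single 2 1)) :
    ∃ F0 : Subfield k, ρ.Lin F0 := by
  let X : Fin 3 → Fin 3 → k → Prop := fun i j a => ρ.El (Pi.single i a) (Pi.single j 1)
  have hm : ∀ i j l a b, i ≠ l → X i j a → X j l b → X i l (a * b) := fun i j l a b hil h1 h2 => by
    have := El.comm h1 h2 (by simp [hil])
    rwa [single_dotProduct, Pi.single_eq_same, one_mul, ← Pi.single_smul, smul_eq_mul,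
      mul_comm] at this
  have hne : ∀ i j, i ≠ j → ∃ a, a ≠ 0 ∧ X i j a := fun i j hij => by
    obtain ⟨l, h1, h2⟩ : ∃ l, l ≠ i ∧ l ≠ j := by
      fin_cases i <;> fin_cases j <;> first | exact absurd rfl hij | decide
    have h3 : (Pi.single j 1 : Vc k) ⨯₃ Pi.single l 1 ≠ 0 := cross_ne_zero (by simp) fun c e => by
      simpa [h2] using congrFun e l
    obtain ⟨d, hd, h4⟩ := H.rr (r j) (r l) h3
    have h5 : d • (Pi.single j 1 : Vc k) ⨯₃ Pi.single l 1 =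
        Pi.single i ((d • (Pi.single j 1 : Vc k) ⨯₃ Pi.single l 1) i) := by
      fin_cases i <;> fin_cases j <;> fin_cases l <;> simp [eq3, cross_apply] at hij h1 h2 ⊢
    refine ⟨_, fun e => smul_ne_zero hd h3 ?_, h5 ▸ h4⟩
    rw [h5, e, Pi.single_zero]
  have hfin : {a | X 0 2 a}.Finite := by
    convert finite_el (ρ := ρ) (v := Pi.single 0 1) (φ := Pi.single 2 1) (by simp) (by simp) using 3
    simp [X, ← Pi.single_smul]
  obtain ⟨b21, n21, h21⟩ := hne 2 1 (by simp)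
  obtain ⟨b10, n10, h10⟩ := hne 1 0 (by simp)
  obtain ⟨b20, n20, h20⟩ := hne 2 0 (by simp)
  have a1 : ∀ a, X 0 1 a → X 0 2 a := fun a h => by simpa using hm 0 1 2 a 1 (by simp) h h12
  have a2 : ∀ a, X 1 2 a → X 0 2 a := fun a h => by simpa using hm 0 1 2 1 a (by simp) h01 h
  have a3 : ∀ a, X 0 2 a → X 0 1 a := fun a h => by
    simpa [n21] using hm 0 2 1 _ _ (by simp) (mul_inv_mem hfin n21
      (fun c hc => a1 _ (hm 0 2 1 _ _ (by simp) hc h21)) a h) h21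
  have a4 : ∀ a, X 0 2 a → X 1 2 a := fun a h => by
    simpa [n10, mul_comm b10] using hm 1 0 2 _ _ (by simp) h10 (mul_inv_mem hfin n10
      (fun c hc => a2 _ (mul_comm b10 c ▸ hm 1 0 2 _ _ (by simp) h10 hc)) a h)
  let R : Subring k :=
    { carrier := {a | X 0 2 a}
      mul_mem' := fun {a b} ha hb => hm 0 1 2 a b (by simp) (a3 a ha) (a4 b hb)
      one_mem' := a1 _ h01
      add_mem' := fun {a b} ha hb => by
        have := El.add_left ha hb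
        rwa [← Pi.single_add] at this
      zero_mem' := by simpa [X] using El.zero (ρ := ρ) (Pi.single 2 1)
      neg_mem' := fun {a} ha => by
        have := El.neg ha
        rwa [← Pi.single_neg] at this }
  have : Finite R := hfin.to_subtype
  let F0 : Subfield k := R.toSubfield (inv_mem_subring' R)
  have hF : ∀ a, a ∈ F0 ↔ X 0 2 a := fun a => Iff.rfl
  have b1 : ∀ a, X 2 1 a → a ∈ F0 := fun a h => by
    simpa [hF] using a1 _ (hm 0 2 1 1 a (by simp) F0.one_mem h)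
  have m20 : b20 ∈ F0 := b1 _ (by simpa using hm 2 0 1 _ 1 (by simp) h20 h01)
  have b2 : ∀ a ∈ F0, X 2 1 a := fun a h => by
    simpa [n20] using hm 2 0 1 _ _ (by simp) h20 (a3 _ (mul_mem (inv_mem m20) h))
  have b3 : ∀ a ∈ F0, X 1 0 a := fun a h => by
    simpa [n20] using hm 1 2 0 _ _ (by simp) (a4 _ (mul_mem h (inv_mem m20))) h20
  have b4 : ∀ a ∈ F0, X 2 0 a := fun a h => by
    simpa using hm 2 1 0 _ _ (by simp) (b2 a h) (b3 1 F0.one_mem)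
  have hall : ∀ i j, i ≠ j → ∀ a ∈ F0, X i j a := fun i j hij a ha => by
    fin_cases i <;> fin_cases j <;> first
      | exact absurd rfl hij | exact a3 a ha | exact ha | exact b3 a ha | exact a4 a ha
      | exact b4 a ha | exact b2 a ha
  have hall' : ∀ i j, i ≠ j → ∀ a, X i j a → a ∈ F0 := fun i j hij a ha => by
    fin_cases i <;> fin_cases j <;> first
      | exact absurd rfl hij | exact a1 a ha | exact ha | exact a2 a ha | exact b1 a ha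
      | exact a2 a (by simpa using hm 1 0 2 _ 1 (by simp) ha F0.one_mem)
      | exact b1 a (by simpa using hm 2 0 1 _ 1 (by simp) ha h01)
  have cen : ∀ (j : Fin 3) (y : Vc k), ρ.El y (Pi.single j 1) → ∀ i, y i ∈ F0 := fun j y hy i => by
    by_cases hij : i = j
    · have := hy.1
      rw [single_dotProduct, one_mul] at this
      rw [hij, this]; exact zero_mem _
    obtain ⟨l, h1, h2⟩ : ∃ l, l ≠ i ∧ l ≠ j := by
      fin_cases i <;> fin_cases j <;> first | exact absurd rfl hij | decide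
    have := El.comm (hall l i h1 1 F0.one_mem) hy (by simp [h2])
    rw [single_dotProduct, one_mul, ← Pi.single_smul, smul_eq_mul, mul_one] at this
    exact hall' l j h2 _ this
  have rat : ∀ φ, ρ.Rich φ → ∃ c : k, c ≠ 0 ∧ ∀ i, c * φ i ∈ F0 := fun φ hφ => by
    have key : ∀ j, (Pi.single j 1 : Vc k) ⨯₃ φ ≠ 0 →
        ∃ c : k, c ≠ 0 ∧ ∀ i, c * ((Pi.single j 1 : Vc k) ⨯₃ φ) i ∈ F0 := fun j h => by
      obtain ⟨c, hc, h⟩ := H.rr (r j) hφ h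
      exact ⟨c, hc, cen j _ h⟩
    have h0 := hφ.1
    rw [Ne, eq3] at h0
    simp only [Fin.forall_fin_succ, Ne, eq3, cross_apply, Pi.zero_apply] at key h0 ⊢
    simp at key h0 ⊢
    by_cases e0 : φ 0 = 0
    · obtain ⟨c, h1, h2, h3⟩ := key.1 (by tauto)
      exact ⟨c, h1, by simp [e0], h3, h2⟩
    by_cases e1 : φ 1 = 0
    · obtain ⟨c, h1, h2, h3⟩ := key.2.1 (by tauto)
      exact ⟨c, h1, h3, by simp [e1], h2⟩
    obtain ⟨c, h1, h2, h3⟩ := key.1 (by tauto)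
    obtain ⟨d, k1, k2, k3⟩ := key.2.2 (by tauto)
    refine ⟨(φ 1)⁻¹, inv_ne_zero e1, ?_, by simp [e1], ?_⟩
    · convert div_mem k3 k2 using 1; field_simp
    · convert div_mem h2 h3 using 1; field_simp
  have hle := lin_le fun i j hij a ha => el_tv (hall i j hij a ha)
  refine ⟨F0, this, hle, fun A hA => ?_⟩
  have r3 : ρ.Rich (![1, 1, 1] ᵥ* A) := by
    have := (r 0).conj' (hle !![1, 1, 1; 0, 1, 0; 0, 0, 1]
      (fun i j => by fin_cases i <;> fin_cases j <;> simp) (by simp [det_fin_three]))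
    refine Rich.conj' ?_ hA
    convert this
    simp [eq3]
  obtain ⟨d, hd, h3⟩ := rat _ r3
  choose c hc h using fun j => rat _ ((r j).conj' hA)
  simp only [single_one_vecMul, row_apply] at h
  let M : Mt F0 := Matrix.of fun i j => ⟨_, h i j⟩
  have hM : M.map F0.subtype = diagonal c * A := by ext i j; simp [M]
  have hMd : M.det ≠ 0 := fun e => by
    have := congrArg Matrix.det hM
    rw [← RingHom.mapMatrix_apply, ← RingHom.map_det, e, map_zero, det_mul, det_diagonal] at this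
    exact mul_ne_zero (Finset.prod_ne_zero_iff.2 fun i _ => hc i) hA.det this.symm
  obtain ⟨M', h1, -⟩ := exists_inv hMd
  have h2 : (diagonal c * A) * M'.map F0.subtype = 1 := by
    rw [← hM, ← Matrix.map_mul, h1, Matrix.map_one _ (map_zero _) (map_one _)]
  have h4 : (d • (![1, 1, 1] ᵥ* A)) ᵥ* M'.map F0.subtype = fun i => d / c i := by
    have : (d • (![1, 1, 1] ᵥ* A)) = (fun i => d / c i) ᵥ* (diagonal c * A) := by
      rw [← vecMul_vecMul, ← smul_vecMul]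
      congr 1
      ext i
      rw [vecMul_diagonal, div_mul_cancel₀ _ (hc i)]
      fin_cases i <;> simp
    rw [this, vecMul_vecMul, h2, vecMul_one]
  refine ⟨d, hd, fun i j => ?_⟩
  have h5 : d / c i ∈ F0 := by
    rw [← congrFun h4 i, vecMul, dotProduct]
    exact sum_mem fun l _ => mul_mem (h3 l) (M' l i).2
  convert mul_mem h5 (h i j) using 1
  have := hc i
  simp
  field_simp

theorem lin_of_rich [Finite Γ] (hi : ρ.Irr) (H : ρ.KK) {φ : Vc k} (h : ρ.Rich φ) :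
    ∃ (B B' : Mt k) (hB : B * B' = 1) (F0 : Subfield k), (ρ.cj hB).Lin F0 := by
  obtain ⟨A, hA, h1⟩ := hi.ln' φ h.1
  have r1 := h.conj' hA
  generalize φ ᵥ* A = φ1 at h1 r1
  have hy := cross_ne_zero h.1 h1
  obtain ⟨φ2, r2, h2⟩ : ∃ φ2, ρ.Rich φ2 ∧ φ2 ⬝ᵥ (φ ⨯₃ φ1) ≠ 0 := by
    obtain ⟨C, hC, h3⟩ := hi.pt _ hy
    by_contra hc
    push Not at hc
    obtain ⟨c, e⟩ := eq_smul_cross hy (v := C *ᵥ (φ ⨯₃ φ1))
      (by rw [dotProduct_mulVec]; exact hc _ (h.conj' hC))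
      (by rw [dotProduct_mulVec]; exact hc _ (r1.conj' hC))
    exact h3 c e
  have t1 : φ ⬝ᵥ (φ1 ⨯₃ φ2) ≠ 0 := by rwa [triple_product_permutation φ2] at h2
  have t2 : φ1 ⬝ᵥ (φ2 ⨯₃ φ) ≠ 0 := by rwa [triple_product_permutation φ] at t1
  obtain ⟨a, ha, y0⟩ := H.rr r1 r2 (fun e => t1 (by simp [e]))
  obtain ⟨b, hb, y1⟩ := H.rr r2 h (fun e => t2 (by simp [e]))
  set s := φ1 ⬝ᵥ (b • (φ2 ⨯₃ φ)) with hs
  have s0 : s ≠ 0 := by simp [hs, hb, t2]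
  set t := φ2 ⬝ᵥ (φ ⨯₃ φ1) with ht
  have hd : (cols (s • a • (φ1 ⨯₃ φ2)) (b • (φ2 ⨯₃ φ)) (t⁻¹ • (φ ⨯₃ φ1))).det ≠ 0 := by
    refine Ind.det fun x y z e => ?_
    have k0 := congrArg (φ ⬝ᵥ ·) e
    have k1 := congrArg (φ1 ⬝ᵥ ·) e
    have k2 := congrArg (φ2 ⬝ᵥ ·) e
    simp [dotProduct_add, dot_self_cross, dot_cross_self, s0, ha, hb, t1, t2, h2, ← ht] at k0 k1 k2
    exact ⟨k0, k1, k2⟩
  obtain ⟨B', hB, hB'⟩ := exists_inv hd
  set B := cols (s • a • (φ1 ⨯₃ φ2)) (b • (φ2 ⨯₃ φ)) (t⁻¹ • (φ ⨯₃ φ1)) with hBd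
  have row : ∀ ψ : Vc k, ψ ᵥ* B = ![ψ ⬝ᵥ (s • a • (φ1 ⨯₃ φ2)), ψ ⬝ᵥ (b • (φ2 ⨯₃ φ)),
      ψ ⬝ᵥ (t⁻¹ • (φ ⨯₃ φ1))] := fun ψ => by rw [eq3]; exact ⟨rfl, rfl, rfl⟩
  have e0 : ((s * a * φ ⬝ᵥ (φ1 ⨯₃ φ2))⁻¹ • φ) ᵥ* B = Pi.single 0 1 := by
    rw [row, eq3]; simp [dot_self_cross, dot_cross_self]; field_simp
  have e1 : (s⁻¹ • φ1) ᵥ* B = Pi.single 1 1 := by
    rw [smul_vecMul, row, ← hs, eq3]; simp [dot_self_cross, dot_cross_self, s0]
  have e2 : φ2 ᵥ* B = Pi.single 2 1 := by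
    rw [row, eq3]; simp [dot_self_cross, dot_cross_self, ← ht, h2]
  refine ⟨B, B', hB, lin_std (H.cj hB) (fun j => ?_) ?_ ?_⟩
  · fin_cases j
    · exact e0 ▸ rich_cj' hB (h.smul (by simp [s0, ha, t1]))
    · exact e1 ▸ rich_cj' hB (r1.smul (by simp [s0]))
    · exact e2 ▸ rich_cj' hB r2
  · rw [el_cj, ← e1, vecMul_vecMul, hB, vecMul_one, hBd, cols_mulVec, ← El.scale]
    simpa [smul_smul, s0] using y0
  · rw [el_cj, ← e2, vecMul_vecMul, hB, vecMul_one, hBd, cols_mulVec]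
    simpa using y1

theorem Lin.of_tr {F0 : Subfield k} (h : ρ.tr.Lin F0) : ρ.Lin F0 where
  fin := h.fin
  le A h1 h2 := in_tr.1 (h.le Aᵀ (fun i j => h1 j i) (by rwa [det_transpose]))
  ge A hA := by
    obtain ⟨c, hc, h1⟩ := h.ge Aᵀ (in_tr.2 hA)
    exact ⟨c, hc, fun i j => h1 j i⟩

theorem cj_tr {B B' : Mt k} (hB : B * B' = 1) :
    ∃ h : B'ᵀ * Bᵀ = 1, ρ.tr.cj hB = (ρ.cj h).tr := by
  refine ⟨by rw [← transpose_mul, hB, transpose_one], ?_⟩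
  simp only [cj, tr, transpose_mul, mul_assoc]

variable (ρ) in
/-- distinct flags of elations are opposite -/
def Opp : Prop := ∀ v φ v' φ' : Vc k, v ≠ 0 → φ ≠ 0 → v' ≠ 0 → φ' ≠ 0 → ρ.El v φ → ρ.El v' φ' →
  φ' ⬝ᵥ v = 0 → (∃ c : k, v' = c • v) ∧ ∃ c : k, φ' = c • φ

theorem rich_of_not_opp (h : ¬ ρ.Opp) : (∃ φ, ρ.Rich φ) ∨ ∃ φ, ρ.tr.Rich φ := by
  by_contra hc
  push Not at hc
  have k1 : ∀ v v' φ : Vc k, v ≠ 0 → φ ≠ 0 → ρ.El v φ → ρ.El v' φ → ∃ c : k, v' = c • v :=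
    fun v v' φ h1 h2 h3 h4 => by
      by_contra hn
      push Not at hn
      exact hc.1 φ ⟨h2, v, v', cross_ne_zero h1 hn, h3, h4⟩
  have k2 : ∀ v φ φ' : Vc k, v ≠ 0 → φ ≠ 0 → ρ.El v φ → ρ.El v φ' → ∃ c : k, φ' = c • φ :=
    fun v φ φ' h1 h2 h3 h4 => by
      by_contra hn
      push Not at hn
      exact hc.2 v ⟨h1, φ, φ', cross_ne_zero h2 hn, el_tr.2 h3, el_tr.2 h4⟩
  refine h fun v φ v' φ' h1 h2 h3 h4 h5 h6 h7 => ?_
  by_cases h8 : φ ⬝ᵥ v' = 0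
  · by_cases h9 : v ⨯₃ v' = 0
    · obtain ⟨c, rfl⟩ := eq_smul_of_cross h1 h9
      obtain ⟨d, hd⟩ := k2 v φ _ h1 h2 h5 (El.scale.1 h6)
      have : c ≠ 0 := by rintro rfl; simp at h3
      exact ⟨⟨c, rfl⟩, c⁻¹ * d, by rw [mul_smul, ← hd, smul_smul, inv_mul_cancel₀ this, one_smul]⟩
    · obtain ⟨a, ha⟩ := eq_smul_cross h9 (v := φ) (by rw [dotProduct_comm, h5.1])
        (by rw [dotProduct_comm, h8])
      obtain ⟨b, hb⟩ := eq_smul_cross h9 (v := φ') (by rw [dotProduct_comm, h7])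
        (by rw [dotProduct_comm, h6.1])
      have a0 : a ≠ 0 := by rintro rfl; simp [ha] at h2
      have : φ' = (b / a) • φ := by rw [hb, ha, smul_smul, div_mul_cancel₀ _ a0]
      rw [this, ← El.scale] at h6
      obtain ⟨d, hd⟩ := k1 v _ φ h1 h2 h5 h6
      have b0 : b / a ≠ 0 := fun e => h4 (by rw [this, e, zero_smul])
      exact ⟨⟨(b / a)⁻¹ * d, by rw [mul_smul, ← hd, smul_smul, inv_mul_cancel₀ b0, one_smul]⟩, _, this⟩
  · have := h5.comm h6 h7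
    obtain ⟨c, e⟩ := k1 _ _ φ' (smul_ne_zero h8 h1) h4 this h6
    exact absurd (by rw [e]; simp [h5.1]) h8

theorem lin_of_odd (p : ℕ) [Fact p.Prime] [CharP k p] [IsAlgClosed k] [Finite Γ] (hp : p ≠ 2)
    (hi : ρ.Irr) (h : ¬ ρ.Opp) :
    ∃ (B B' : Mt k) (hB : B * B' = 1) (F0 : Subfield k), (ρ.cj hB).Lin F0 := by
  rcases rich_of_not_opp h with ⟨φ, h⟩ | ⟨φ, h⟩
  · exact lin_of_rich hi (kk_of_odd p hp) h
  · obtain ⟨B, B', hB, F0, h⟩ := lin_of_rich hi.tr (kk_of_odd p hp) h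
    obtain ⟨h1, e⟩ := ρ.cj_tr hB
    exact ⟨_, _, h1, F0, Lin.of_tr (e ▸ h)⟩

end PR

end Cfsg.Agent.H6.M3
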