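import Cfsg.Agent.H6.MC1

/-! Groups containing elations: the unitary case, root groups. -/

set_option autoImplicit false

namespace Cfsg.Agent.H6.M3

open Matrix OnePoint MulAction Cfsg.Agent.H6.Pg
open scoped MatrixGroups

variable {k : Type*} [Field k]

theorem sl25 (i a b c : k) (h3 : (3 : k) = 0) (hi : i ^ 2 = -1) (B : k → k → k)
    (hB : ∀ x y, B x y = a * x ^ 2 + b * x * y + c * y ^ 2)
    (h0 : B 1 0 ^ 4 = 1) (h1 : B 1 i ^ 4 = 1) (h2 : B (1 + i) i ^ 4 = 1) (h4 : B 1 (2 * i) ^ 4 = 1)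
    (h5 : B (1 + 2 * i) i ^ 4 = 1) (h6 : B (1 + i) (2 + 2 * i) ^ 4 = 1)
    (h7 : B (1 + 2 * i) (2 * i) ^ 4 = 1) (h8 : B (1 + 2 * i) (1 + 2 * i) ^ 4 = 1)
    (h9 : B 0 (2 + 2 * i) ^ 4 = 1) (h10 : B (1 + i) (2 * i) ^ 4 = 1) : False := by
  simp only [hB] at *
  apply one_ne_zero (α := k)
  linear_combination -(h0 + h1 + h2 + h4 + h5 + h6 + h7 + h8 + h9 + h10) + (576 * a * b * c ^ 2 + 3984 * a * b * c ^ 2 * i + 11520 * a * b * c ^ 2 * i ^ 2 + 22896 * a * b * c ^ 2 * i ^ 3 + 28800 * a * b * c ^ 2 * i ^ 4 + 21300 * a * b * c ^ 2 * i ^ 5 + 7020 * a * b * c ^ 2 * i ^ 6 + 5496 * a * b ^ 2 * c + 2592 * a * b ^ 2 * c * i + 1224 * a * b ^ 2 * c * i ^ 2 + 13536 * a * b ^ 2 * c * i ^ 3 + 26268 * a * b ^ 2 * c * i ^ 4 + 21168 * a * b ^ 2 * c * i ^ 5 + 6732 * a * b ^ 2 * c * i ^ 6 + 3144 * a * b ^ 3 + 344 * a * b ^ 3 *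 i - 1800 * a * b ^ 3 * i ^ 2 + 3348 * a * b ^ 3 * i ^ 3 + 9060 * a * b ^ 3 * i ^ 4 + 7412 * a * b ^ 3 * i ^ 5 + 2244 * a * b ^ 3 * i ^ 6 - 2248 * a * c ^ 3 + 2328 * a * c ^ 3 * i + 9864 * a * c ^ 3 * i ^ 2 + 13800 * a * c ^ 3 * i ^ 3 + 12536 * a * c ^ 3 * i ^ 4 + 7704 * a * c ^ 3 * i ^ 5 + 2580 * a * c ^ 3 * i ^ 6 + 9432 * a ^ 2 * b * c + 1032 * a ^ 2 * b * c * i - 5400 * a ^ 2 * b * c * i ^ 2 + 10044 * a ^ 2 * b * c * i ^ 3 + 27180 * a ^ 2 * b * c * i ^ 4 + 22236 * a ^ 2 * b * c * i ^ 5 + 6732 * a ^ 2 * b * c * i ^ 6 + 6348 * a ^ 2 * b ^ 2 - 648 * a ^ 2 * b ^ 2 * i - 4914 * a ^ 2 * b ^ 2 * i ^ 2 + 5220 * a ^ 2 * b ^ 2 * i ^ 3 + 15564 * a ^ 2 * b ^ 2 * i ^ 4 + 12276 * a ^ 2 * b ^ 2 * i ^ 5 + 3510 * a ^ 2 * b ^ 2 * i ^ 6 + 2748 * a ^ 2 * c ^ 2 + 1296 * a ^ 2 * c ^ 2 * i + 612 * a ^ 2 * c ^ 2 * i ^ 2 + 6768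 * a ^ 2 * c ^ 2 * i ^ 3 + 13134 * a ^ 2 * c ^ 2 * i ^ 4 + 10584 * a ^ 2 * c ^ 2 * i ^ 5 + 3366 * a ^ 2 * c ^ 2 * i ^ 6 + 5232 * a ^ 3 * b - 1636 * a ^ 3 * b * i - 4308 * a ^ 3 * b * i ^ 2 + 5136 * a ^ 3 * b * i ^ 3 + 13128 * a ^ 3 * b * i ^ 4 + 9620 * a ^ 3 * b * i ^ 5 + 2580 * a ^ 3 * b * i ^ 6 + 4232 * a ^ 3 * c - 432 * a ^ 3 * c * i - 3276 * a ^ 3 * c * i ^ 2 + 3480 * a ^ 3 * c * i ^ 3 + 10376 * a ^ 3 * c * i ^ 4 + 8184 * a ^ 3 * c * i ^ 5 + 2340 * a ^ 3 * c * i ^ 6 + 1539 * a ^ 4 - 936 * a ^ 4 * i - 1119 * a ^ 4 * i ^ 2 + 2448 * a ^ 4 * i ^ 3 + 4689 * a ^ 4 * i ^ 4 + 3096 * a ^ 4 * i ^ 5 + 771 * a ^ 4 * i ^ 6 - 7116 * b * c ^ 3 + 4364 * b * c ^ 3 * i + 21900 * b * c ^ 3 * i ^ 2 + 26100 * b * c ^ 3 * i ^ 3 + 18420 * b * c ^ 3 * i ^ 4 + 9740 * b * c ^ 3 * i ^ 5 + 3084 * b * c ^ 3 * i ^ 6 - 3372 * b ^ 2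 * c ^ 2 + 3492 * b ^ 2 * c ^ 2 * i + 14796 * b ^ 2 * c ^ 2 * i ^ 2 + 20700 * b ^ 2 * c ^ 2 * i ^ 3 + 18804 * b ^ 2 * c ^ 2 * i ^ 4 + 11556 * b ^ 2 * c ^ 2 * i ^ 5 + 3870 * b ^ 2 * c ^ 2 * i ^ 6 + 192 * b ^ 3 * c + 1328 * b ^ 3 * c * i + 3840 * b ^ 3 * c * i ^ 2 + 7632 * b ^ 3 * c * i ^ 3 + 9600 * b ^ 3 * c * i ^ 4 + 7100 * b ^ 3 * c * i ^ 5 + 2340 * b ^ 3 * c * i ^ 6 + 458 * b ^ 4 + 216 * b ^ 4 * i + 102 * b ^ 4 * i ^ 2 + 1128 * b ^ 4 * i ^ 3 + 2189 * b ^ 4 * i ^ 4 + 1764 * b ^ 4 * i ^ 5 + 561 * b ^ 4 * i ^ 6 - 7923 * c ^ 4 + 3776 * c ^ 4 * i + 22371 * c ^ 4 * i ^ 2 + 25344 * c ^ 4 * i ^ 3 + 14589 * c ^ 4 * i ^ 4 + 5120 * c ^ 4 * i ^ 5 + 1539 * c ^ 4 * i ^ 6) * hi + (-60 * a * b * c ^ 2 - 240 * a * b * c ^ 2 * i - 1764 * a * b ^ 2 * c - 288 * a * b ^ 2 * c * i - 1036 * a * b ^ 3 - 8 * a * b ^ 3 * i + 836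 * a * c ^ 3 - 72 * a * c ^ 3 * i - 3108 * a ^ 2 * b * c - 24 * a ^ 2 * b * c * i - 2106 * a ^ 2 * b ^ 2 + 312 * a ^ 2 * b ^ 2 * i - 882 * a ^ 2 * c ^ 2 - 144 * a ^ 2 * c ^ 2 * i - 1740 * a ^ 3 * b + 600 * a ^ 3 * b * i - 1404 * a ^ 3 * c + 208 * a ^ 3 * c * i - 510 * a ^ 4 + 336 * a ^ 4 * i + 2544 * b * c ^ 3 - 68 * b * c ^ 3 * i + 1254 * b ^ 2 * c ^ 2 - 108 * b ^ 2 * c ^ 2 * i - 20 * b ^ 3 * c - 80 * b ^ 3 * c * i - 147 * b ^ 4 - 24 * b ^ 4 * i + 2812 * c ^ 4 + 112 * c ^ 4 * i - 3) * h3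

theorem two_ne {p : ℕ} [Fact p.Prime] [CharP k p] (hp : p ≠ 2) : (2 : k) ≠ 0 := fun e => hp
  ((Nat.prime_dvd_prime_iff_eq Fact.out Nat.prime_two).1 ((CharP.cast_eq_zero_iff k p 2).1 e))

theorem mem_iff_pow {L : Subfield k} [Finite L] {x : k} : x ∈ L ↔ x ^ Nat.card L = x := by
  classical
  have := Fintype.ofFinite L
  have h1 : ∀ x ∈ L, x ^ Nat.card L = x := fun x hx => by
    simpa using congrArg Subtype.val (FiniteField.pow_card (⟨x, hx⟩ : L))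
  refine ⟨h1 x, fun h => ?_⟩
  by_contra hx
  have h2 : 1 < Nat.card L := Finite.one_lt_card
  have h3 := FiniteField.X_pow_card_sub_X_ne_zero k h2
  have h4 := Polynomial.card_le_degree_of_subset_roots (p := Polynomial.X ^ Nat.card L - Polynomial.X)
    (Z := insert x (Finset.univ.image (fun a : L => (a : k)))) (by
      intro y hy
      simp only [Finset.mem_val, Finset.mem_insert, Finset.mem_image, Finset.mem_univ,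
        true_and] at hy
      rw [Polynomial.mem_roots h3]
      rcases hy with rfl | ⟨a, rfl⟩
      · simp [← Nat.card_eq_fintype_card, h]
      · simp [← Nat.card_eq_fintype_card, h1 _ a.2])
  rw [FiniteField.X_pow_card_sub_X_natDegree_eq k h2, Finset.card_insert_of_notMem (by
    simpa using hx), Finset.card_image_of_injective _ Subtype.val_injective, Finset.card_univ,
    Nat.card_eq_fintype_card] at h4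
  omega

namespace PR

variable {Γ : Type*} [Group Γ] {ρ : PR Γ k}

theorem El.half {p : ℕ} [Fact p.Prime] [CharP k p] (hp : p ≠ 2) {v φ : Vc k}
    (h : ρ.El ((2 : k) • v) φ) : ρ.El v φ := by
  obtain ⟨m, hm⟩ := (Fact.out : p.Prime).odd_of_ne_two hp
  have := h.nsmul (m + 1)
  have h0 := CharP.cast_eq_zero k p
  rw [hm] at h0
  rwa [smul_smul, show ((m + 1 : ℕ) : k) * 2 = 1 by push_cast at h0 ⊢; linear_combination h0,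
    one_smul] at this

variable (ρ) in
/-- block diagonal elements of determinant one -/
def HB [Finite Γ] : Subgroup Γ :=
  ρ.grp (fun A => A 0 2 = 0 ∧ A 1 2 = 0 ∧ A 2 0 = 0 ∧ A 2 1 = 0 ∧ A 2 2 = 1 ∧ (ul A).det = 1)
    (by simp [ul]) fun A B hA hB => by
      rw [ul_mul (Or.inl ⟨hA.1, hA.2.1⟩), det_mul]
      simp [mul_apply, Fin.sum_univ_three, hA, hB]

theorem pair_std (p : ℕ) [Fact p.Prime] [CharP k p] [IsAlgClosed k] [Finite Γ] {c : k}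
    (hc : c ≠ 0) (h1 : ρ.El ![1, 0, 0] ![0, 1, 0]) (h2 : ρ.El ![0, 1, 0] ![c, 0, 0]) :
    (∃ L : Subfield k, Finite L ∧ 3 ≤ Nat.card L ∧ (∀ a, ρ.El ![a, 0, 0] ![0, 1, 0] ↔ a ∈ L) ∧
      ∀ a, ρ.El ![0, a, 0] ![1, 0, 0] ↔ a ∈ L) ∨
      (p = 2 ∧ ∀ a, ρ.El ![a, 0, 0] ![0, 1, 0] → a = 0 ∨ a = 1) ∨
      (p = 3 ∧ c ^ 4 = 1 ∧ ∀ a, ρ.El ![a, 0, 0] ![0, 1, 0] → a ^ 3 = a) := by
  obtain ⟨π, hπ⟩ := ρ.exists_pi ρ.HB (Or.inl fun g ⟨A, h1, h2⟩ B hB => by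
    obtain ⟨c, rfl⟩ := ρ.uniq h1 hB
    simp [h2])
  have : Finite π.range := Finite.of_surjective _ π.rangeRestrict_surjective
  have key : ∀ (U : Matrix (Fin 2) (Fin 2) k) (v φ : Vc k), U.det = 1 → φ ⬝ᵥ v = 0 →
      1 + vecMulVec v φ = !![U 0 0, U 0 1, 0; U 1 0, U 1 1, 0; 0, 0, 1] →
      (pg U ∈ π.range ↔ ρ.El v φ) := fun U v φ hU h0 e => by
    have eU : ul (1 + vecMulVec v φ) = U := by rw [e, eta_fin_two U]; simp [ul]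
    constructor
    · rintro ⟨⟨g, A, hA, a1, a2, a3, a4, a5, a6⟩, hg⟩
      rw [(hπ _ _ hA).2, eq_comm, pg_eq_iff (by simp [hU]) (by simp [a6])] at hg
      obtain ⟨l, hl⟩ := hg
      have l2 : l * l = 1 := by simpa [← hl, hU, sq] using a6
      have eA : A = !![l, 0, 0; 0, l, 0; 0, 0, 1] * (1 + vecMulVec v φ) := by
        have := fun i j => congrFun (congrFun hl i) j
        simp only [ul, Fin.forall_fin_succ] at this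
        simp at this
        rw [e]; simp [eq9, *]
      by_cases hp : p = 2
      · subst hp
        have : l = 1 := by
          have h2 := CharP.cast_eq_zero k 2
          push_cast at h2
          grind
        rw [this, ← one_fin_three, one_mul] at eA
        exact ⟨h0, g, eA ▸ hA⟩
      · refine El.half hp ⟨by simp [h0], g * g, ?_⟩
        convert ρ.mul hA hA using 1
        have : (1 + vecMulVec v φ) * !![l, 0, 0; 0, l, 0; 0, 0, 1] =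
          !![l, 0, 0; 0, l, 0; 0, 0, 1] * (1 + vecMulVec v φ) := by rw [e]; simp [mul_comm]
        rw [eA, mul_assoc, ← mul_assoc (1 + vecMulVec v φ), this, ← mul_assoc, ← mul_assoc,
          mul_assoc _ _ (1 + vecMulVec v φ), r1_mul, h0, zero_smul, add_zero, add_assoc,
          ← add_vecMulVec, two_smul]
        simp [l2, ← one_fin_three]
    · rintro ⟨-, g, hg⟩
      exact ⟨⟨g, _, hg, by beta_reduce; rw [eU, e]; simp [hU]⟩, by rw [(hπ _ _ hg).2, eU]⟩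
  have k1 : ∀ a, aff 1 a ∈ π.range ↔ ρ.El ![a, 0, 0] ![0, 1, 0] := fun a =>
    key _ _ _ (by simp) (by simp) (by rw [r13]; simp)
  have k2 : ∀ a, low a ∈ π.range ↔ ρ.El ![0, a, 0] ![1, 0, 0] := fun a =>
    key _ _ _ (by simp) (by simp) (by rw [r13]; simp)
  have h2' : ρ.El ![0, c, 0] ![1, 0, 0] := by
    have := (El.scale (ρ := ρ) (c := c) (v := ![0, 1, 0]) (φ := ![1, 0, 0])).2 (by simpa [sv3])
    simpa [sv3] using this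
  rcases two_roots p π.range ((k1 1).2 h1) hc ((k2 c).2 h2') with
    ⟨L, a1, a2, a3, a4⟩ | ⟨a1, a2⟩ | ⟨a1, a2, a3, -⟩
  · exact Or.inl ⟨L, a1, a2, fun a => ⟨fun h => mem_of_aff (a4 ((k1 a).2 h)),
      fun h => (k1 a).1 (a3 (aff_mem_PS h))⟩, fun a => ⟨fun h => mem_of_low (a4 ((k2 a).2 h)),
      fun h => (k2 a).1 (a3 (low_mem_PS h))⟩⟩
  · exact Or.inr (Or.inl ⟨a1, fun a h => a2 a ((k1 a).2 h)⟩)
  · exact Or.inr (Or.inr ⟨a1, a2, fun a h => a3 a ((k1 a).2 h)⟩)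

theorem pair_setup {v φ v' φ' : Vc k} (h : φ ⬝ᵥ v = 0) (h' : φ' ⬝ᵥ v' = 0) (h1 : φ ⬝ᵥ v' ≠ 0)
    (h2 : φ' ⬝ᵥ v ≠ 0) : ∃ (B B' : Mt k) (_ : B * B' = 1), B *ᵥ ![1, 0, 0] = v ∧
      B *ᵥ ![0, φ ⬝ᵥ v', 0] = v' ∧ ![0, 1, 0] ᵥ* B' = φ ∧ ![φ' ⬝ᵥ v, 0, 0] ᵥ* B' = φ' := by
  have h0 : φ ≠ 0 := by rintro rfl; simp at h1
  have hy : φ ⨯₃ φ' ≠ 0 := cross_ne_zero h0 fun c e => h2 (by rw [e, smul_dotProduct, h, smul_zero])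
  have hi : Ind v ((φ ⬝ᵥ v')⁻¹ • v') (φ ⨯₃ φ') := fun x y z e => by
    have k1 := congrArg (φ ⬝ᵥ ·) e
    have k2 := congrArg (φ' ⬝ᵥ ·) e
    simp [dotProduct_add, h, h', h1, h2, dot_self_cross, dot_cross_self] at k1 k2
    subst k1 k2
    simpa [hy] using e
  obtain ⟨B', hB⟩ := hi.inv
  have row : ∀ ψ : Vc k, ψ ᵥ* cols v ((φ ⬝ᵥ v')⁻¹ • v') (φ ⨯₃ φ') =
      ![ψ ⬝ᵥ v, ψ ⬝ᵥ ((φ ⬝ᵥ v')⁻¹ • v'), ψ ⬝ᵥ (φ ⨯₃ φ')] := fun ψ => by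
    rw [eq3]; exact ⟨rfl, rfl, rfl⟩
  have key : ∀ ψ χ : Vc k, ψ ᵥ* cols v ((φ ⬝ᵥ v')⁻¹ • v') (φ ⨯₃ φ') = χ → χ ᵥ* B' = ψ := by
    rintro ψ _ rfl; rw [vecMul_vecMul, hB, vecMul_one]
  refine ⟨_, B', hB, by simp [cols_mulVec], by simp [cols_mulVec, smul_smul, h1], key _ _ ?_,
    key _ _ ?_⟩ <;> rw [row] <;> simp [h, h', h1, dot_self_cross, dot_cross_self]

theorem pair (p : ℕ) [Fact p.Prime] [CharP k p] [IsAlgClosed k] [Finite Γ] {v φ v' φ' : Vc k}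
    (h : ρ.El v φ) (h' : ρ.El v' φ') (h1 : φ ⬝ᵥ v' ≠ 0) (h2 : φ' ⬝ᵥ v ≠ 0) :
    (∃ L : Subfield k, Finite L ∧ 3 ≤ Nat.card L ∧ (∀ a, ρ.El (a • v) φ ↔ a ∈ L) ∧
      (∀ a, ρ.El (a • v') φ' ↔ a ∈ L) ∧ φ ⬝ᵥ v' * φ' ⬝ᵥ v ∈ L) ∨
      (p = 2 ∧ ∀ a : k, ρ.El (a • v) φ → a = 0 ∨ a = 1) ∨
      (p = 3 ∧ (φ ⬝ᵥ v' * φ' ⬝ᵥ v) ^ 4 = 1 ∧ ∀ a : k, ρ.El (a • v) φ → a ^ 3 = a) := by
  obtain ⟨B, B', hB, e1, e2, e3, e4⟩ := pair_setup h.1 h'.1 h1 h2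
  have k1 : ∀ a : k, (ρ.cj hB).El ![a, 0, 0] ![0, 1, 0] ↔ ρ.El (a • v) φ := fun a => by
    rw [el_cj, e3, ← e1, ← mulVec_smul]; simp [sv3]
  have k2 : ∀ a : k, (ρ.cj hB).El ![0, a * (φ ⬝ᵥ v' * φ' ⬝ᵥ v), 0] ![1, 0, 0] ↔
      ρ.El (a • v') φ' := fun a => by
    conv_rhs => rw [← e2, ← e4, ← mulVec_smul, ← el_cj hB,
      show ![φ' ⬝ᵥ v, 0, 0] = (φ' ⬝ᵥ v) • ![1, 0, 0] by simp [sv3], ← El.scale]
    simp only [sv3, mul_zero]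
    ring_nf
  have hc := mul_ne_zero h1 h2
  rcases pair_std (ρ := ρ.cj hB) p hc ((k1 1).2 (by simpa)) (by
    have := (k2 1).2 (by simpa)
    have := (El.scale (ρ := ρ.cj hB) (c := φ ⬝ᵥ v' * φ' ⬝ᵥ v) (v := ![0, 1, 0])
      (φ := ![1, 0, 0])).1 (by simpa [sv3] using this)
    simpa [sv3] using this) with ⟨L, a1, a2, a3, a4⟩ | ⟨a1, a2⟩ | ⟨a1, a2, a3⟩
  · have hL : φ ⬝ᵥ v' * φ' ⬝ᵥ v ∈ L := by simpa using (a4 _).1 ((k2 1).2 (by simpa))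
    refine Or.inl ⟨L, a1, a2, fun a => by rw [← k1, a3], fun a => ?_, hL⟩
    rw [← k2, a4]
    exact ⟨fun h => by simpa [h1, h2, mul_assoc] using div_mem h hL, fun h => mul_mem h hL⟩
  · exact Or.inr (Or.inl ⟨a1, fun a h => a2 a ((k1 a).2 h)⟩)
  · exact Or.inr (Or.inr ⟨a1, a2, fun a h => a3 a ((k1 a).2 h)⟩)

variable (ρ) in
/-- root groups have order at most two -/
def Small : Prop := ∀ (v φ : Vc k) (a : k), v ≠ 0 → φ ≠ 0 → ρ.El v φ → ρ.El (a • v) φ → a = 0 ∨ a = 1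

theorem Opp.dot (H : ρ.Opp) {v φ v' φ' : Vc k} (h1 : v ≠ 0) (h2 : φ ≠ 0) (h3 : v' ≠ 0)
    (h4 : φ' ≠ 0) (h : ρ.El v φ) (h' : ρ.El v' φ') (e : φ' ⬝ᵥ v = 0) : φ ⬝ᵥ v' = 0 := by
  obtain ⟨⟨c, rfl⟩, -⟩ := H v φ v' φ' h1 h2 h3 h4 h h' e
  simp [h.1]

theorem exists_opp (hi : ρ.Irr) (H : ρ.Opp) {v φ : Vc k} (h1 : v ≠ 0) (h2 : φ ≠ 0) (h : ρ.El v φ) :
    ∃ v' φ', ρ.El v' φ' ∧ φ ⬝ᵥ v' ≠ 0 ∧ φ' ⬝ᵥ v ≠ 0 := by
  obtain ⟨A, hA, h3⟩ := hi.pt v h1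
  obtain ⟨A', h4, -⟩ := exists_inv hA.det
  have n1 := mulVec_ne_zero hA.det h1
  have n2 := vecMul_ne_zero (det_of_mul h4).2 h2
  have : φ ᵥ* A' ⬝ᵥ v ≠ 0 := fun e =>
    (H _ _ _ _ h1 h2 n1 n2 h (h.conj hA h4) e).1.elim h3
  exact ⟨_, _, h.conj hA h4, fun e => this (H.dot n1 n2 h1 h2 (h.conj hA h4) h e), this⟩

theorem exists_out (hi : ρ.Irr) {v φ v' φ' : Vc k} (h : ρ.El v φ) (h' : ρ.El v' φ') (h2 : φ ≠ 0)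
    (h4 : φ' ≠ 0) (hv : v ⨯₃ v' ≠ 0) :
    ∃ w ψ, ρ.El w ψ ∧ ψ ≠ 0 ∧ (v ⨯₃ v') ⬝ᵥ w ≠ 0 := by
  obtain ⟨A, hA, h3⟩ := hi.ln' _ hv
  obtain ⟨A', h5, -⟩ := exists_inv hA.det
  by_contra hc
  push Not at hc
  obtain ⟨c, e⟩ := eq_smul_cross hv (v := (v ⨯₃ v') ᵥ* A)
    (by rw [dotProduct_comm, ← dotProduct_mulVec]
        exact hc _ _ (h.conj hA h5) (vecMul_ne_zero (det_of_mul h5).2 h2))
    (by rw [dotProduct_comm, ← dotProduct_mulVec]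
        exact hc _ _ (h'.conj hA h5) (vecMul_ne_zero (det_of_mul h5).2 h4))
  exact h3 c e

theorem Opp.cj (H : ρ.Opp) {B B' : Mt k} (h : B * B' = 1) : (ρ.cj h).Opp := by
  intro v φ v' φ' h1 h2 h3 h4 h5 h6 h7
  have d := det_of_mul h
  obtain ⟨⟨a, ha⟩, b, hb⟩ := H _ _ _ _ (mulVec_ne_zero d.1 h1) (vecMul_ne_zero d.2 h2)
    (mulVec_ne_zero d.1 h3) (vecMul_ne_zero d.2 h4) ((el_cj h).1 h5) ((el_cj h).1 h6)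
    (by rwa [dot_conj h])
  rw [← mulVec_smul, ← sub_eq_zero, ← mulVec_sub] at ha
  rw [← smul_vecMul, ← sub_eq_zero, ← sub_vecMul] at hb
  exact ⟨⟨a, sub_eq_zero.1 (eq_zero_of_mulVec_eq_zero d.1 ha)⟩, b,
    sub_eq_zero.1 (eq_zero_of_vecMul_eq_zero d.2 hb)⟩

theorem no_sl25 (hi : ρ.Irr) (H : ρ.Opp) (h3 : (3 : k) = 0)
    (hc : ∀ v φ v' φ' : Vc k, ρ.El v φ → ρ.El v' φ' → φ ⬝ᵥ v' ≠ 0 → φ' ⬝ᵥ v ≠ 0 →
      (φ ⬝ᵥ v' * φ' ⬝ᵥ v) ^ 4 = 1) {v φ v' φ' : Vc k} (h : ρ.El v φ) (h' : ρ.El v' φ') :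
    (φ ⬝ᵥ v' * φ' ⬝ᵥ v) ^ 2 ≠ -1 := fun hi2 => by
  have h1 : φ ⬝ᵥ v' ≠ 0 := by intro e; simp [e] at hi2
  have h2 : φ' ⬝ᵥ v ≠ 0 := by intro e; simp [e] at hi2
  obtain ⟨B, B', hB, e1, e2, e3, e4⟩ := pair_setup h.1 h'.1 h1 h2
  have k1 : (ρ.cj hB).El ![1, 0, 0] ![0, 1, 0] := by rwa [el_cj, e3, e1]
  have k2 : (ρ.cj hB).El ![0, φ ⬝ᵥ v', 0] ![φ' ⬝ᵥ v, 0, 0] := by rwa [el_cj, e2, e4]
  have hc' : ∀ v φ v' φ' : Vc k, (ρ.cj hB).El v φ → (ρ.cj hB).El v' φ' → φ ⬝ᵥ v' ≠ 0 →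
      φ' ⬝ᵥ v ≠ 0 → (φ ⬝ᵥ v' * φ' ⬝ᵥ v) ^ 4 = 1 := fun v φ v' φ' a1 a2 a3 a4 => by
    simpa only [dot_conj hB] using hc _ _ _ _ ((el_cj hB).1 a1) ((el_cj hB).1 a2)
      (by rwa [dot_conj hB]) (by rwa [dot_conj hB])
  have H' := H.cj hB
  obtain ⟨w, ψ, k3, k4, k5⟩ := exists_out (hi.cj hB) k1 k2 (by simp) (by simp [h2])
    (by simp [cr3, h1])
  generalize ρ.cj hB = σ at *
  obtain ⟨w0, w1, w2, rfl⟩ := ex3 w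
  obtain ⟨s0, s1, s2, rfl⟩ := ex3 ψ
  have n2 : w2 ≠ 0 := by simpa [cr3, dot3, h1] using k5
  generalize φ ⬝ᵥ v' = c at *
  generalize φ' ⬝ᵥ v = d at *
  let G : k → k → Prop := fun x y => σ.El ![x, y, 0] ![-y, x, 0]
  have m1 : ∀ x y x', G x y → x' = x + y → G x' y := by
    rintro x y _ h rfl
    convert k1.act h using 1 <;> simp [dot3, sv3, av3, bv3]
  have m2 : ∀ x y y', G x y → y' = y + c * d * x → G x y' := by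
    rintro x y _ h rfl
    convert k2.act h using 1 <;> simp [dot3, sv3, av3, bv3] <;> ring
  have key : ∀ x y, G x y → (x ≠ 0 ∨ y ≠ 0) →
      ((s0 * x + s1 * y) * (-y * w0 + x * w1)) ^ 4 = 1 := fun x y h hxy => by
    have n : ![s0, s1, s2] ⬝ᵥ ![x, y, 0] ≠ 0 := fun e => by
      obtain ⟨⟨a, ha⟩, -⟩ := H' _ _ _ _ (by simp [zv3]; tauto) (by simp [zv3]; tauto)
        (by simp [zv3, n2]) k4 h k3 e
      simp [sv3, n2] at ha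
    have := hc' _ _ _ _ k3 h n fun e => n
      (H'.dot (by simp [zv3, n2]) k4 (by simp [zv3]; tauto) (by simp [zv3]; tauto) k3 h e)
    simpa [dot3] using this
  generalize c * d = i at *
  have g0 : G 1 0 := by simpa [G] using k1
  have g1 : G 1 i := m2 _ _ _ g0 (by ring)
  have g2 : G (1 + i) i := m1 _ _ _ g1 rfl
  have g4 : G 1 (2 * i) := m2 _ _ _ g1 (by ring)
  have g5 : G (1 + 2 * i) i := m1 _ _ _ g2 (by ring)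
  have g6 : G (1 + i) (2 + 2 * i) := m2 _ _ _ g2 (by linear_combination h3 - hi2)
  have g7 : G (1 + 2 * i) (2 * i) := m1 _ _ _ g4 rfl
  have g8 : G (1 + 2 * i) (1 + 2 * i) := m2 _ _ _ g5 (by linear_combination h3 - 2 * hi2)
  have g9 : G 0 (2 + 2 * i) := m1 _ _ _ g6 (by linear_combination -(1 + i) * h3)
  have g10 : G (1 + i) (2 * i) := m1 _ _ _ g7 (by linear_combination -i * h3)
  have i0 : i ≠ 0 := by rintro rfl; simp at hi2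
  have i2 : 2 * i ≠ 0 := by grind
  have i3 : 2 + 2 * i ≠ 0 := by grind
  have i4 : 1 + 2 * i ≠ 0 := by grind
  exact sl25 i (s0 * w1) (s1 * w1 - s0 * w0) (-s1 * w0) h3 hi2
    (fun x y => (s0 * x + s1 * y) * (-y * w0 + x * w1)) (fun x y => by ring)
    (key _ _ g0 (by simp)) (key _ _ g1 (by simp)) (key _ _ g2 (Or.inr i0)) (key _ _ g4 (by simp))
    (key _ _ g5 (Or.inr i0)) (key _ _ g6 (Or.inr i3)) (key _ _ g7 (Or.inr i2))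
    (key _ _ g8 (Or.inr i4)) (key _ _ g9 (Or.inr i3)) (key _ _ g10 (Or.inr i2))

variable (ρ) in
/-- all root groups are parametrised by the subfield `L` -/
structure Roots (L : Subfield k) : Prop where
  mem : ∀ (v φ : Vc k) (a : k), v ≠ 0 → φ ≠ 0 → ρ.El v φ → (ρ.El (a • v) φ ↔ a ∈ L)
  dot : ∀ v φ v' φ' : Vc k, ρ.El v φ → ρ.El v' φ' → φ ⬝ᵥ v' * φ' ⬝ᵥ v ∈ L

theorem exists_roots (p : ℕ) [Fact p.Prime] [CharP k p] [IsAlgClosed k] [Finite Γ] (hi : ρ.Irr)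
    (H : ρ.Opp) (hs : ¬ ρ.Small) :
    ∃ L : Subfield k, Finite L ∧ 3 ≤ Nat.card L ∧ ρ.Roots L := by
  simp only [Small, not_forall, not_or] at hs
  obtain ⟨v0, φ0, a0, n1, n2, h0, h1, n3, n4⟩ := hs
  have f3 : p = 3 → ∃ L : Subfield k, Finite L ∧ 3 ≤ Nat.card L ∧ (∀ a, a ∈ L ↔ a ^ 3 = a) ∧
      ∀ v φ, ρ.El v φ → ∀ a ∈ L, ρ.El (a • v) φ := by
    rintro rfl
    have hc : Nat.card (⊥ : Subfield k) = 3 := Subfield.card_bot k 3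
    have : Finite (⊥ : Subfield k) := Nat.finite_of_card_ne_zero (by omega)
    refine ⟨⊥, this, hc.ge, fun a => by rw [mem_iff_pow, hc], fun v φ h a ha => ?_⟩
    rw [mem_iff_pow, hc] at ha
    have h3 : (3 : k) = 0 := by simpa using CharP.cast_eq_zero k 3
    have : a = ((0 : ℕ) : k) ∨ a = ((1 : ℕ) : k) ∨ a = ((2 : ℕ) : k) := by push_cast; grind
    rcases this with rfl | rfl | rfl <;> exact h.nsmul _
  obtain ⟨L, hf, hL, hm⟩ : ∃ L : Subfield k, Finite L ∧ 3 ≤ Nat.card L ∧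
      ∀ a, ρ.El (a • v0) φ0 ↔ a ∈ L := by
    obtain ⟨v, φ, h2, h3, h4⟩ := exists_opp hi H n1 n2 h0
    rcases pair p h0 h2 h3 h4 with ⟨L, a1, a2, a3, -⟩ | ⟨-, a⟩ | ⟨a1, -, a2⟩
    · exact ⟨L, a1, a2, a3⟩
    · exact absurd (a _ h1) (by tauto)
    · obtain ⟨L, b1, b2, b3, b4⟩ := f3 a1
      exact ⟨L, b1, b2, fun a => ⟨fun h => (b3 a).2 (a2 a h), b4 _ _ h0 a⟩⟩
  have big : ∀ v φ, (∀ a, ρ.El (a • v) φ ↔ a ∈ L) → ¬ ∀ a : k, ρ.El (a • v) φ → a = 0 ∨ a = 1 :=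
    fun v φ h h' => by
      have := (h a0).2 ((hm a0).1 h1)
      exact absurd (h' _ this) (by tauto)
  have hall : ∀ (v φ : Vc k), v ≠ 0 → φ ≠ 0 → ρ.El v φ → ∀ a, (ρ.El (a • v) φ ↔ a ∈ L) := by
    intro v φ m1 m2 h a
    by_cases e : φ ⬝ᵥ v0 = 0
    · obtain ⟨⟨c, rfl⟩, d, rfl⟩ := H _ _ _ _ n1 n2 m1 m2 h0 h e
      rw [← El.scale, smul_smul, hm] at h
      rw [← El.scale, smul_smul, smul_smul, hm, mul_right_comm]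
      have : d * c ≠ 0 := by simp_all
      exact ⟨fun h' => by simpa [mul_div_cancel_left₀ _ this] using div_mem h' h,
        fun h' => mul_mem h h'⟩
    have e' : φ0 ⬝ᵥ v ≠ 0 := fun e' => e (H.dot m1 m2 n1 n2 h h0 e')
    rcases pair p h0 h e' e with ⟨L', -, -, a3, a4, -⟩ | ⟨-, a⟩ | ⟨a1, -, a2⟩
    · rw [a4, ← a3, hm]
    · exact absurd a (big _ _ hm)
    rcases pair p h h0 e e' with ⟨L', -, -, a3, a4, -⟩ | ⟨a, -⟩ | ⟨-, -, a3⟩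
    · rw [a3, ← a4, hm]
    · omega
    obtain ⟨L, b1, b2, b3, b4⟩ := f3 a1
    rw [← hm]
    exact ⟨fun h' => b4 _ _ h0 a ((b3 a).2 (a3 a h')), fun h' => b4 _ _ h a ((b3 a).2 (a2 a h'))⟩
  have hd : ∀ v φ v' φ' : Vc k, ρ.El v φ → ρ.El v' φ' → φ ⬝ᵥ v' ≠ 0 → φ' ⬝ᵥ v ≠ 0 →
      φ ⬝ᵥ v' * φ' ⬝ᵥ v ∈ L ∨ (p = 3 ∧ (φ ⬝ᵥ v' * φ' ⬝ᵥ v) ^ 4 = 1 ∧ ∀ a ∈ L, a ^ 3 = a) := by
    intro v φ v' φ' h h' e e'
    have := hall v φ (by rintro rfl; simp at e') (by rintro rfl; simp at e) h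
    rcases pair p h h' e e' with ⟨L', -, -, a3, -, a4⟩ | ⟨-, a⟩ | ⟨a1, a2, a3⟩
    · left; rwa [← this, a3]
    · exact absurd a (big _ _ this)
    · exact Or.inr ⟨a1, a2, fun a ha => a3 a ((this a).2 ha)⟩
  refine ⟨L, hf, hL, fun v φ a m1 m2 h => hall v φ m1 m2 h a, fun v φ v' φ' h h' => ?_⟩
  by_cases e : φ ⬝ᵥ v' = 0
  · simp [e]
  by_cases e' : φ' ⬝ᵥ v = 0
  · simp [e']
  refine (hd _ _ _ _ h h' e e').elim id ?_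
  rintro ⟨rfl, a2, a3⟩
  have h3 : (3 : k) = 0 := by simpa using CharP.cast_eq_zero k 3
  have := no_sl25 hi H h3 (fun v φ v' φ' h h' e e' => by
    rcases hd _ _ _ _ h h' e e' with a | a
    · have := a3 _ a
      have := mul_ne_zero e e'
      grind
    · exact a.2.1) h h'
  have : φ ⬝ᵥ v' * φ' ⬝ᵥ v = 1 ∨ φ ⬝ᵥ v' * φ' ⬝ᵥ v = -1 := by grind
  rcases this with h | h <;> rw [h] <;> simp

theorem Roots.cj {L : Subfield k} (H : ρ.Roots L) {B B' : Mt k} (h : B * B' = 1) :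
    (ρ.cj h).Roots L where
  mem v φ a h1 h2 h3 := by
    rw [el_cj, mulVec_smul, H.mem _ _ _ (mulVec_ne_zero (det_of_mul h).1 h1)
      (vecMul_ne_zero (det_of_mul h).2 h2) ((el_cj h).1 h3)]
  dot v φ v' φ' h1 h2 := by
    simpa only [dot_conj h] using H.dot _ _ _ _ ((el_cj h).1 h1) ((el_cj h).1 h2)

theorem El.act_ne {v φ v' φ' : Vc k} (h : ρ.El v φ) (h1 : v' ≠ 0) (h2 : φ' ≠ 0) :
    v' + (φ ⬝ᵥ v') • v ≠ 0 ∧ φ' - (φ' ⬝ᵥ v) • φ ≠ 0 := by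
  have a := mulVec_ne_zero (det_of_mul h.inv_eq).1 h1
  have b := vecMul_ne_zero (det_of_mul h.inv_eq).2 h2
  rw [r1_mulVec] at a
  rw [vecMul_r1, dotProduct_neg, neg_smul, ← sub_eq_add_neg] at b
  exact ⟨a, b⟩

theorem Roots.triple {L : Subfield k} (R : ρ.Roots L) (H : ρ.Opp) (σ : k →+* k)
    (hσ : ∀ a, a ∈ L ↔ σ a = a) {v φ v' φ' w ψ : Vc k} (n1 : v ≠ 0) (n2 : φ ≠ 0) (n3 : v' ≠ 0)
    (n4 : φ' ≠ 0) (n5 : w ≠ 0) (n6 : ψ ≠ 0) (h : ρ.El v φ) (h' : ρ.El v' φ') (h'' : ρ.El w ψ) :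
    σ (φ ⬝ᵥ v' * φ' ⬝ᵥ w * ψ ⬝ᵥ v) = -(φ ⬝ᵥ w * ψ ⬝ᵥ v' * φ' ⬝ᵥ v) := by
  have c1 := R.dot _ _ _ _ h h'
  have c2 := R.dot _ _ _ _ h' h''
  have c3 := R.dot _ _ _ _ h'' h
  have c4 := R.dot _ _ _ _ (h.act h') h''
  simp only [sub_dotProduct, smul_dotProduct, dotProduct_add, dotProduct_smul, smul_eq_mul] at c4
  by_cases z : φ ⬝ᵥ v' * φ' ⬝ᵥ w * ψ ⬝ᵥ v = 0
  · rw [z, map_zero, eq_comm, neg_eq_zero]
    rcases mul_eq_zero.1 z with z | z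
    · rcases mul_eq_zero.1 z with z | z
      · rw [H.dot n3 n4 n1 n2 h' h z, mul_zero]
      · rw [H.dot n5 n6 n3 n4 h'' h' z, mul_zero, zero_mul]
    · rw [H.dot n1 n2 n5 n6 h h'' z, zero_mul, zero_mul]
  set θ := φ ⬝ᵥ v' * φ' ⬝ᵥ w * ψ ⬝ᵥ v with hθ
  set θ' := φ ⬝ᵥ w * ψ ⬝ᵥ v' * φ' ⬝ᵥ v with hθ'
  have d1 : θ - θ' ∈ L := by
    convert add_mem (sub_mem c4 c2) (mul_mem c1 c3) using 1
    rw [hθ, hθ']; ring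
  have d2 : θ * θ' ∈ L := by
    convert mul_mem (mul_mem c1 c2) c3 using 1
    rw [hθ, hθ']; ring
  rw [hσ, map_sub] at d1
  rw [hσ, map_mul] at d2
  by_cases e : σ θ = θ
  swap
  · have : (σ θ - θ) * (σ θ + θ') = 0 := by linear_combination σ θ * d1 + d2
    exact eq_neg_of_add_eq_zero_left ((mul_eq_zero.1 this).resolve_left (sub_ne_zero.2 e))
  have ha := (R.mem v φ _ n1 n2 h).2 (neg_mem (div_mem c2 ((hσ _).2 e)))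
  generalize hb : -(φ' ⬝ᵥ w * ψ ⬝ᵥ v' / θ) = a at ha
  have hb' : a * θ = -(φ' ⬝ᵥ w * ψ ⬝ᵥ v') := by rw [← hb]; field_simp
  have z1 : φ' ⬝ᵥ w ≠ 0 := fun e => z (by rw [hθ, e, mul_zero, zero_mul])
  have z2 : ψ ⬝ᵥ v' + φ ⬝ᵥ v' * (a * ψ ⬝ᵥ v) = 0 := by
    refine mul_left_cancel₀ z1 ?_
    rw [hθ] at hb'
    linear_combination hb'
  obtain ⟨⟨c, hc⟩, -⟩ := H _ _ _ _ (ha.act_ne n3 n4).1 (ha.act_ne n3 n4).2 n5 n6 (ha.act h') h''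
    (by simpa [dotProduct_add] using z2)
  have e1 : φ ⬝ᵥ w = c * φ ⬝ᵥ v' := by rw [hc]; simp [dotProduct_add, h.1]
  have e2 : φ' ⬝ᵥ w = c * (φ ⬝ᵥ v' * (a * φ' ⬝ᵥ v)) := by rw [hc]; simp [dotProduct_add, h'.1]
  rw [e, hθ, hθ', e1, e2]
  linear_combination c * φ ⬝ᵥ v' * φ' ⬝ᵥ v * z2

end PR

end Cfsg.Agent.H6.M3
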