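import Cfsg.Agent.H6.MC2

/-! Groups containing elations: the unitary case, coordinates. -/

set_option autoImplicit false

namespace Cfsg.Agent.H6.M3

open Matrix

variable {k : Type*} [Field k]

theorem det_r1 (v φ : Vc k) : (1 + vecMulVec v φ).det = 1 + φ ⬝ᵥ v := by
  obtain ⟨a, b, c, rfl⟩ := ex3 v
  obtain ⟨x, y, z, rfl⟩ := ex3 φ
  rw [r13, dm3, dot3]; ring

/-- the polar of a vector -/
def ph (σ : k →+* k) (η : k) (x : Vc k) : Vc k := ![-σ (x 2), η * σ (x 1), σ (x 0)]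

/-- the Gram matrix -/
def gm (η : k) : Mt k := !![0, 0, 1; 0, η, 0; -1, 0, 0]

theorem ph3 (σ : k →+* k) (η a b c : k) : ph σ η ![a, b, c] = ![-σ c, η * σ b, σ a] := rfl

theorem ph_eq (σ : k →+* k) (η : k) (x : Vc k) : ph σ η x = (σ ∘ x) ᵥ* gm η := by
  obtain ⟨a, b, c, rfl⟩ := ex3 x
  rw [show σ ∘ ![a, b, c] = ![σ a, σ b, σ c] by simp [eq3], gm, vm3, ph3]
  simp [mul_comm]

theorem ph_mul (σ : k →+* k) (η : k) (A : Mt k) (x : Vc k) :
    ph σ η (A *ᵥ x) ᵥ* A = (σ ∘ x) ᵥ* ((A.map σ)ᵀ * gm η * A) := by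
  have : σ ∘ (A *ᵥ x) = A.map σ *ᵥ (σ ∘ x) := funext fun i => RingHom.map_mulVec σ A x i
  rw [ph_eq, this, ← vecMul_vecMul, ← vecMul_vecMul, vecMul_transpose]

theorem ph_smul (σ : k →+* k) (η c : k) (x : Vc k) : ph σ η (c • x) = σ c • ph σ η x := by
  simp [eq3, ph]; ring

theorem ph_sub (σ : k →+* k) (η : k) (x y : Vc k) : ph σ η (x - y) = ph σ η x - ph σ η y := by
  simp only [eq3, ph, Pi.sub_apply, map_sub, cons_val_zero, cons_val_one, cons_val]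
  exact ⟨by ring, by ring, trivial⟩

theorem ph_anti {σ : k →+* k} {η : k} (h : σ η = -η) {x : Vc k} (hx : ∀ i, σ (σ (x i)) = x i)
    (y : Vc k) : σ (ph σ η x ⬝ᵥ y) = -(ph σ η y ⬝ᵥ x) := by
  simp [ph, dotProduct, Fin.sum_univ_three, hx, h]; ring

/-- the special unitary group -/
def SU (σ : k →+* k) (η : k) (A : Mt k) : Prop := A.det = 1 ∧ (A.map σ)ᵀ * gm η * A = gm η

theorem SU.mul {σ : k →+* k} {η : k} {A B : Mt k} (h : SU σ η A) (h' : SU σ η B) :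
    SU σ η (A * B) := by
  refine ⟨by rw [det_mul, h.1, h'.1, one_mul], ?_⟩
  rw [Matrix.map_mul, transpose_mul]
  calc _ = (B.map σ)ᵀ * ((A.map σ)ᵀ * gm η * A) * B := by simp only [mul_assoc]
    _ = _ := by rw [h.2, h'.2]

theorem SU.ph {σ : k →+* k} {η : k} {A : Mt k} (h : SU σ η A) (x : Vc k) :
    ph σ η (A *ᵥ x) ᵥ* A = ph σ η x := by rw [ph_mul, h.2, ph_eq]

theorem SU.fix {σ : k →+* k} {η : k} (h0 : η ≠ 0) (h1 : σ η = -η) {A : Mt k} (h : SU σ η A)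
    (i j : Fin 3) : σ (σ (A i j)) = A i j := by
  have e1 : (gm η).map σ = -(gm η)ᵀ := by simp [eq9, gm, h1]
  have e2 := congrArg (fun X => (X.map σ)ᵀ) h.2
  simp only [Matrix.map_mul, transpose_mul, e1, transpose_neg, transpose_transpose, transpose_map,
    neg_mul, mul_neg, neg_inj, ← mul_assoc] at e2
  have hd : ((A.map σ)ᵀ * gm η).det ≠ 0 := by
    rw [det_mul, det_transpose, ← RingHom.mapMatrix_apply, ← RingHom.map_det, h.1]
    simp [gm, dm3, h0]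
  have := cancel_left hd (e2.trans h.2.symm)
  exact congrFun (congrFun this i) j

namespace PR

variable {Γ : Type*} [Group Γ] {ρ : PR Γ k}

theorem cj_cj {B B' C C' : Mt k} (h : B * B' = 1) (h' : C * C' = 1) :
    ∃ e : B * C * (C' * B') = 1, (ρ.cj h).cj h' = ρ.cj e := by
  refine ⟨by rw [mul_assoc, ← mul_assoc C, h', one_mul, h], ?_⟩
  simp only [cj, mul_assoc]

variable (ρ) in
/-- a property holds in suitable coordinates -/
def Sm (P : PR Γ k → Prop) : Prop := ∃ (B B' : Mt k) (h : B * B' = 1), P (ρ.cj h)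

theorem Sm.of_cj {P : PR Γ k → Prop} {B B' : Mt k} (h : B * B' = 1) (H : (ρ.cj h).Sm P) :
    ρ.Sm P := by
  obtain ⟨C, C', h', H⟩ := H
  obtain ⟨e, he⟩ := ρ.cj_cj h h'
  exact ⟨_, _, e, he ▸ H⟩

theorem cj_one : ρ.cj (mul_one (1 : Mt k)) = ρ := by simp only [cj, mul_one, one_mul]

theorem Sm.of {P : PR Γ k → Prop} (H : P ρ) : ρ.Sm P := ⟨1, 1, mul_one 1, by rwa [cj_one]⟩

theorem Sm.bind {P Q : PR Γ k → Prop} (H : ρ.Sm P)
    (h : ∀ (B B' : Mt k) (e : B * B' = 1), P (ρ.cj e) → (ρ.cj e).Sm Q) : ρ.Sm Q := by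
  obtain ⟨B, B', e, H⟩ := H
  exact (h B B' e H).of_cj e

variable (ρ) in
/-- the unitary case -/
structure Uni (σ : k →+* k) : Prop where
  le : ∀ A : Mt k, A.det = 1 → (A.map σ)ᵀ * A = 1 → ρ.In A
  ge : ∀ A : Mt k, ρ.In A → ∃ c : k, c ≠ 0 ∧ ((c • A).map σ)ᵀ * (c • A) = 1

variable (ρ) in
/-- standard position in the unitary case -/
structure UStd (L : Subfield k) (σ : k →+* k) : Prop where
  R : ρ.Roots L
  H : ρ.Opp
  hσ : ∀ a, a ∈ L ↔ σ a = a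
  h1 : ρ.El ![1, 0, 0] ![0, 0, 1]
  h2 : ρ.El ![0, 0, 1] ![-1, 0, 0]

variable {L : Subfield k} {σ : k →+* k}

theorem UStd.norm (U : ρ.UStd L σ) {x y z r s t : k} (h : ρ.El ![x, y, z] ![r, s, t])
    (hz : z ≠ 0) (hφ : ![r, s, t] ≠ 0) : r ≠ 0 ∧ ρ.El ![x / z, y / z, 1] ![-1, -s / r, -t / r] := by
  have hr : r ≠ 0 := fun e => hz (by
    simpa [dot3] using U.H.dot (by simp) (by simp) (by simp [zv3, hz]) hφ U.h1 h (by simp [dot3, e]))
  have h1 : z * r ∈ L := by simpa [dot3] using U.R.dot _ _ _ _ U.h1 h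
  have h2 := (U.R.mem _ _ _ (by simp [zv3, hz]) hφ h).2 (neg_mem (inv_mem h1))
  rw [show -(z * r)⁻¹ • ![x, y, z] = (-r⁻¹) • ![x / z, y / z, 1] by
    simp only [sv3, ev3]; refine ⟨?_, ?_, ?_⟩ <;> field_simp, El.scale] at h2
  refine ⟨hr, ?_⟩
  convert h2 using 1
  simp only [sv3, ev3]; refine ⟨?_, ?_, ?_⟩ <;> field_simp

theorem UStd.last (U : ρ.UStd L σ) {b a c s : k} (h : ρ.El ![b, a, 1] ![-1, c, s]) :
    s = σ b ∧ σ (σ b) = b := by
  have t1 := U.R.triple U.H σ U.hσ (by simp) (by simp) (by simp) (by simp) (by simp) (by simp)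
    U.h1 U.h2 h
  have t2 := U.R.triple U.H σ U.hσ (by simp) (by simp) (by simp) (by simp) (by simp) (by simp)
    U.h1 h U.h2
  simp [dot3] at t1 t2
  exact ⟨t1.symm, by rw [t1, t2]⟩

theorem UStd.shift (U : ρ.UStd L σ) {b a c s l : k} (h : ρ.El ![b, a, 1] ![-1, c, s])
    (hl : σ l = l) : ρ.El ![b + l, a, 1] ![-1, c, s + l] := by
  have := ((U.R.mem _ _ _ (by simp) (by simp) U.h1).2 ((U.hσ l).2 hl)).act h
  convert this using 1 <;> simp [dot3, sv3, av3, bv3]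

section
variable (U : ρ.UStd L σ) {β η : k} (h3 : ρ.El ![β, 1, 1] ![-1, η, σ β])
include U h3

theorem UStd.eta : η = β - σ β ∧ η ≠ 0 ∧ σ η = -η := by
  have e : η = β - σ β := by
    have := h3.1
    rw [dot3] at this
    linear_combination this
  refine ⟨e, fun h0 => ?_, by rw [e, map_sub, (U.last h3).2]; ring⟩
  have h4 : σ β = β := by linear_combination e - h0
  have := U.shift (b := 0) (a := 0) (c := 0) (s := 0) U.h2 h4
  obtain ⟨⟨c, hc⟩, -⟩ := U.H _ _ _ _ (by simp) (by simp) (by simp) (by simp) this h3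
    (by simp [dot3, h4])
  simp [sv3] at hc

theorem UStd.flag {b a c s : k} (h : ρ.El ![b, a, 1] ![-1, c, s]) :
    ![-1, c, s] = ph σ η ![b, a, 1] ∧ σ (σ a) = a := by
  obtain ⟨rfl, e1⟩ := U.last h
  obtain ⟨-, e2⟩ := U.last h3
  obtain ⟨-, e3, e4⟩ := U.eta h3
  have t1 := U.R.triple U.H σ U.hσ (by simp) (by simp) (by simp) (by simp) (by simp) (by simp)
    U.h1 h3 h
  have t2 := U.R.triple U.H σ U.hσ (by simp) (by simp) (by simp) (by simp) (by simp) (by simp)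
    U.h1 h h3
  simp only [dot3, map_add, map_mul, map_neg, map_one, map_zero, e1, e2, e4] at t1 t2
  have e5 : c = η * σ a := by linear_combination -t1
  refine ⟨by simp [ph3, e5], mul_left_cancel₀ e3 ?_⟩
  rw [e5, map_mul, e4] at t2
  linear_combination t2

theorem UStd.norm' {x y z : k} {φ : Vc k} (h : ρ.El ![x, y, z] φ) (hz : z ≠ 0) (hφ : φ ≠ 0) :
    ρ.El ![x / z, y / z, 1] (ph σ η ![x / z, y / z, 1]) ∧
      ∃ c : k, ph σ η ![x, y, z] = c • φ := by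
  obtain ⟨r, s, t, rfl⟩ := ex3 φ
  obtain ⟨hr, h1⟩ := U.norm h hz hφ
  have e := (U.flag h3 h1).1
  refine ⟨e ▸ h1, σ z * -r⁻¹, ?_⟩
  rw [show ![x, y, z] = z • ![x / z, y / z, 1] by simp [sv3, mul_div_cancel₀ _ hz], ph_smul, ← e]
  simp only [sv3, ev3]; refine ⟨?_, ?_, ?_⟩ <;> field_simp

theorem UStd.polar {v φ : Vc k} (h : ρ.El v φ) (hv : v ≠ 0) (hφ : φ ≠ 0) :
    ∃ c : k, ph σ η v = c • φ := by
  obtain ⟨x, y, z, rfl⟩ := ex3 v
  by_cases hz : z = 0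
  · obtain ⟨⟨c, hc⟩, d, hd⟩ := U.H _ _ _ _ hv hφ (by simp) (by simp) h U.h1 (by simp [dot3, hz])
    have c0 : c ≠ 0 := by rintro rfl; simp at hc
    refine ⟨σ c⁻¹ * d, ?_⟩
    rw [mul_smul, ← hd, show ![x, y, z] = c⁻¹ • ![1, 0, 0] by
      rw [hc, smul_smul, inv_mul_cancel₀ c0, one_smul], ph_smul]
    simp [ph3]
  · exact (U.norm' h3 h hz hφ).2

theorem UStd.move {a a' μ : k} (ha : ∃ b, ρ.El ![b, a, 1] (ph σ η ![b, a, 1]))
    (ha' : ∃ b, ρ.El ![b, a', 1] (ph σ η ![b, a', 1])) (hne : a ≠ a') (h1 : σ (σ μ) = μ)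
    (h2 : σ μ ≠ μ) : ∃ b, ρ.El ![b, a' + μ * (a - a'), 1] (ph σ η ![b, a' + μ * (a - a'), 1]) := by
  obtain ⟨b, ha⟩ := ha
  obtain ⟨b', ha'⟩ := ha'
  obtain ⟨-, e3, e4⟩ := U.eta h3
  simp only [ph3, map_one] at ha ha'
  have f1 := (U.last ha).2
  have f2 := (U.last ha').2
  have f3 := (U.flag h3 ha).2
  have f4 := (U.flag h3 ha').2
  have f5 := ha.1
  have f6 := ha'.1
  rw [dot3] at f5 f6
  have m1 : 1 - μ ≠ 0 := fun e => h2 (by rw [← sub_eq_zero.1 e, map_one])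
  have m2 : 1 - σ μ ≠ 0 := by simpa using (map_ne_zero σ).2 m1
  obtain ⟨z, hz⟩ : ∃ z, z = μ / (1 - μ) := ⟨_, rfl⟩
  have z1 : σ z = σ μ / (1 - σ μ) := by simp [hz]
  have z2 : σ (σ z) = z := by simp [hz, h1]
  have z3 : z - σ z ≠ 0 := by
    rw [z1, hz, div_sub_div _ _ m1 m2, div_ne_zero_iff]
    exact ⟨fun e => h2 (by linear_combination -e), mul_ne_zero m1 m2⟩
  obtain ⟨G, hG⟩ : ∃ G, G = -b' + η * σ a * a' + σ b := ⟨_, rfl⟩
  have g1 : σ G = -σ b' - η * a * σ a' + b := by simp [hG, e4, f3, f1]; ring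
  have g2 : σ (σ G) = G := by rw [g1]; simp [e4, f2, f4, hG]
  have g3 : G - σ G ≠ 0 := by
    rw [show G - σ G = -η * (a - a') * σ (a - a') by
      rw [g1, hG, map_sub]; linear_combination f5 + f6]
    exact mul_ne_zero (mul_ne_zero (neg_ne_zero.2 e3) (sub_ne_zero.2 hne))
      ((map_ne_zero σ).2 (sub_ne_zero.2 hne))
  obtain ⟨c, hc⟩ : ∃ c, c = (z - σ z) / (G - σ G) := ⟨_, rfl⟩
  have c0 : c ≠ 0 := hc ▸ div_ne_zero z3 g3
  have c1 : σ c = c := by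
    rw [hc, map_div₀, map_sub, map_sub, z2, g2, ← neg_sub z, ← neg_sub G, neg_div_neg_eq]
  have c2 : σ (G - z / c) = G - z / c := by
    rw [map_sub, map_div₀, c1]
    have : c * (G - σ G) = z - σ z := by rw [hc, div_mul_cancel₀ _ g3]
    field_simp
    linear_combination -this
  have k1 := (U.R.mem _ _ _ (by simp) (by simp) ha).2 ((U.hσ c).2 c1)
  have k2 := U.shift ha' c2
  have k3 := k1.act k2
  have k4 := (k1.act_ne (v' := ![b' + (G - z / c), a', 1]) (by simp)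
    (φ' := ![-1, η * σ a', σ b' + (G - z / c)]) (by simp)).2
  have k5 : ![-1, η * σ a, σ b] ⬝ᵥ ![b' + (G - z / c), a', 1] * c = z := by
    rw [dot3, hG]; field_simp; ring
  rw [smul_smul, k5, sv3, av3] at k3
  have z4 : 1 + z * 1 = (1 - μ)⁻¹ := by rw [hz]; field_simp; ring
  have := (U.norm' h3 k3 (z4 ▸ inv_ne_zero m1) k4).1
  rw [show (a' + z * a) / (1 + z * 1) = a' + μ * (a - a') by rw [z4, hz]; field_simp; ring] at this
  exact ⟨_, this⟩

theorem UStd.cen {x : Vc k} (h1 : ∀ i, σ (σ (x i)) = x i) (h2 : ph σ η x ⬝ᵥ x = 0) {l : k}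
    (hl : σ l = l) : ρ.El (l • x) (ph σ η x) := by
  obtain ⟨e2, e3, e4⟩ := U.eta h3
  have a0 : ∃ b, ρ.El ![b, 0, 1] (ph σ η ![b, 0, 1]) := ⟨0, by simpa [ph3] using U.h2⟩
  have a1 : ∃ b, ρ.El ![b, 1, 1] (ph σ η ![b, 1, 1]) := ⟨β, by simpa [ph3] using h3⟩
  have a2 : ∀ a, σ (σ a) = a → σ a ≠ a → ∃ b, ρ.El ![b, a, 1] (ph σ η ![b, a, 1]) :=
    fun a h h' => by simpa using U.move h3 a1 a0 one_ne_zero h h'
  have b1 : σ β ≠ β := fun e => e3 (by rw [e2, e, sub_self])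
  have b0 : β ≠ 0 := by rintro rfl; simp at b1
  have a3 : ∀ a, σ (σ a) = a → ∃ b, ρ.El ![b, a, 1] (ph σ η ![b, a, 1]) := fun a h => by
    by_cases h' : σ a = a
    · by_cases h0 : a = 0
      · rwa [h0]
      · simpa [b0] using U.move h3 (a2 β (U.last h3).2 b1) a0 b0 (μ := a / β)
          (by simp [h, (U.last h3).2]) (by simp [h', div_eq_div_iff, h0, b0, b1.symm])
    · exact a2 a h h'
  have key : ∀ (t : k) (y : Vc k), y ≠ 0 → ph σ η y ≠ 0 → σ (σ t) = t → ρ.El y (ph σ η y) →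
      ρ.El (l • t • y) (ph σ η (t • y)) := fun t y n1 n2 ht h => by
    rw [ph_smul, ← El.scale, smul_smul, smul_smul]
    exact (U.R.mem _ _ _ n1 n2 h).2 ((U.hσ _).2 (by simp [ht, hl]; ring))
  obtain ⟨b, a, z, rfl⟩ := ex3 x
  have s0 : σ (σ b) = b := h1 0
  have s1 : σ (σ a) = a := h1 1
  have s2 : σ (σ z) = z := h1 2
  rw [ph3, dot3] at h2
  by_cases hz : z = 0
  · have : a = 0 := by simpa [hz, e3] using h2
    subst hz this
    simpa [sv3] using key b ![1, 0, 0] (by simp) (by simp [ph3]) s0 (by simpa [ph3] using U.h1)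
  · obtain ⟨b', hb⟩ := a3 (a / z) (by simp [s1, s2])
    have hb1 := hb.1
    simp only [ph3, map_one, dot3, map_div₀] at hb hb1
    have hz' : σ z ≠ 0 := by simpa
    have := U.shift hb (l := b / z - b') (by
      rw [map_sub, map_div₀]
      field_simp at hb1 ⊢
      linear_combination h2 - hb1)
    have e := (U.flag h3 this).1
    rw [e, add_sub_cancel] at this
    simpa [sv3, mul_div_cancel₀ _ hz] using key z _ (by simp) (by simp [ph3]) s2 this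

theorem UStd.ge {A : Mt k} (hA : ρ.In A) : ∃ c : k, (A.map σ)ᵀ * gm η * A = c • gm η := by
  obtain ⟨e2, e3, e4⟩ := U.eta h3
  have e5 := (U.last h3).2
  obtain ⟨A', h1, h2⟩ := exists_inv hA.det
  have key : ∀ b a : k, σ (σ b) = b → σ (σ a) = a → ∀ z, σ (σ z) = z → (b ≠ 0 ∨ z ≠ 0) →
      -σ z * b + η * σ a * a + σ b * z = 0 →
      ∃ c : k, ![σ b, σ a, σ z] ᵥ* ((A.map σ)ᵀ * gm η * A) = c • ![-σ z, η * σ a, σ b] := by
    intro b a hb ha z hz hn h0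
    have := U.cen h3 (x := ![b, a, z]) (fun i => by fin_cases i <;> simpa) (by rwa [ph3, dot3])
      (map_one σ)
    rw [one_smul] at this
    obtain ⟨c, hc⟩ := U.polar h3 (this.conj hA h1) (mulVec_ne_zero hA.det (by simp [zv3]; tauto))
      (vecMul_ne_zero (det_of_mul h1).2 (by simp [zv3, ph3]; tauto))
    refine ⟨c, ?_⟩
    rw [show ![σ b, σ a, σ z] = σ ∘ ![b, a, z] by simp [eq3], ← ph_mul, hc, smul_vecMul,
      vecMul_vecMul, h2, vecMul_one, ph3]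
  obtain ⟨c1, k1⟩ := key 1 0 (by simp) (by simp) 0 (by simp) (by simp) (by simp)
  obtain ⟨c2, k2⟩ := key 0 0 (by simp) (by simp) 1 (by simp) (by simp) (by simp)
  obtain ⟨c3, k3⟩ := key 1 0 (by simp) (by simp) 1 (by simp) (by simp) (by simp)
  obtain ⟨c4, k4⟩ := key β 1 e5 (by simp) 1 (by simp) (by simp) (by simp [e2]; ring)
  obtain ⟨c5, k5⟩ := key (β + 1) 1 (by simp [e5]) (by simp) 1 (by simp) (by simp)
    (by simp [e2]; ring)
  obtain ⟨a, b, c, d, e, f, g, h, i, hG⟩ := ex9 ((A.map σ)ᵀ * gm η * A)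
  simp only [hG, vm3, sv3, ev3, map_one, map_zero, map_add] at k1 k2 k3 k4 k5
  refine ⟨c1, ?_⟩
  rw [hG, gm, sm3, em3]
  grind

theorem UStd.su_el {x : Vc k} (h1 : ∀ i, σ (σ (x i)) = x i) (h2 : ph σ η x ⬝ᵥ x = 0) {l : k}
    (hl : σ l = l) : SU σ η (1 + vecMulVec (l • x) (ph σ η x)) := by
  obtain ⟨-, -, e4⟩ := U.eta h3
  refine ⟨by rw [det_r1, dotProduct_smul, h2]; simp, ?_⟩
  obtain ⟨b, a, z, rfl⟩ := ex3 x
  have s0 : σ (σ b) = b := h1 0
  have s1 : σ (σ a) = a := h1 1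
  have s2 : σ (σ z) = z := h1 2
  rw [ph3, dot3] at h2
  rw [ph3, sv3, r13]
  simp [eq9, gm, mul_apply, Fin.sum_univ_three, s0, s1, s2, hl, e4]
  grind

theorem UStd.le (hN : ∀ c, ∃ x, x * σ x = c) {l : k} (l0 : l ≠ 0) (l1 : l ≠ 1) (hl : σ l = l)
    {A : Mt k} (hA : SU σ η A) : ρ.In A := by
  obtain ⟨e2, e3, e4⟩ := U.eta h3
  let I : Vc k → Prop := fun x => (∀ i, σ (σ (x i)) = x i) ∧ ph σ η x ⬝ᵥ x = 0
  have I3 : ∀ a b c, σ (σ a) = a → σ (σ b) = b → σ (σ c) = c →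
      -σ c * a + η * σ b * b + σ a * c = 0 → I ![a, b, c] := fun a b c h1 h2 h3 h4 =>
    ⟨fun i => by fin_cases i <;> simpa, by rwa [ph3, dot3]⟩
  have Im : ∀ u x, SU σ η u → I x → I (u *ᵥ x) := fun u x hu hx =>
    ⟨fun i => by simp [mulVec, dotProduct, hu.fix e3 e4, hx.1], by
      rw [dotProduct_mulVec, hu.ph, hx.2]⟩
  let Q : Mt k → Prop := fun X => ∀ u u', SU σ η u → u * u' = 1 → ρ.In (u * X * u')
  have Qm : ∀ X Y, Q X → Q Y → Q (X * Y) := fun X Y hX hY u u' hu h => by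
    convert (hX u u' hu h).mul (hY u u' hu h) using 1
    rw [show u * X * u' * (u * Y * u') = u * (X * (u' * u) * Y) * u' by simp only [mul_assoc],
      mul_eq_one_comm.1 h, mul_one]
  have Qe : ∀ x a, I x → σ a = a → Q (1 + vecMulVec (a • x) (ph σ η x)) := fun x a hx ha u u' hu h => by
    rw [conj_r1 h, mulVec_smul, ← hu.ph, vecMul_vecMul, h, vecMul_one]
    exact (U.cen h3 (Im u x hu hx).1 (Im u x hu hx).2 ha).2
  have Q0 : ∀ a, σ a = a → Q !![1, 0, a; 0, 1, 0; 0, 0, 1] := fun a ha => by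
    have := Qe _ a (I3 1 0 0 (by simp) (by simp) (by simp) (by simp)) ha
    rw [ph3, sv3, r13] at this
    simpa using this
  have Q2 : ∀ a, σ a = a → Q !![1, 0, 0; 0, 1, 0; a, 0, 1] := fun a ha => by
    have := Qe _ (-a) (I3 0 0 1 (by simp) (by simp) (by simp) (by simp)) (by simpa)
    rw [ph3, sv3, r13] at this
    simpa using this
  have Qd : ∀ a, a ≠ 0 → σ a = a → Q (dg a 1 a⁻¹) := fun a a0 ha => by
    convert Qm _ _ (Qm _ _ (Qm _ _ (Q0 a ha) (Q2 (-a⁻¹) (by simp [ha]))) (Q0 a ha))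
      (Qm _ _ (Qm _ _ (Q0 (-1) (by simp)) (Q2 1 (by simp))) (Q0 (-1) (by simp))) using 1
    simp [a0]
  have s1 : SU σ η 1 := ⟨by simp, by simp⟩
  have Qi : ∀ X, Q X → ρ.In X := fun X h => by simpa using h 1 1 s1 (by simp)
  have stab : ∀ u, SU σ η u → u *ᵥ ![1, 0, 0] = ![1, 0, 0] → ρ.In u := fun u hu h => by
    have k1 := hu.ph ![1, 0, 0]
    rw [h, ph3] at k1
    obtain ⟨a, b, c, d, e, f, g, i, j, rfl⟩ := ex9 u
    simp only [mv3, vm3, ev3, map_zero, map_one, neg_zero, mul_zero, zero_mul, zero_add, add_zero,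
      one_mul, mul_one] at h k1
    obtain ⟨rfl, rfl, -⟩ := h
    obtain ⟨rfl, rfl, rfl⟩ := k1
    have k2 := hu.1
    simp [dm3] at k2
    subst k2
    have k3 := hu.2
    have k4 : σ (σ f) = f := hu.fix e3 e4 1 2
    have k5 : σ (σ c) = c := hu.fix e3 e4 0 2
    simp [eq9, gm, mul_apply, Fin.sum_univ_three] at k3
    have m1 : l - 1 ≠ 0 := sub_ne_zero.2 l1
    obtain ⟨α, hα⟩ : ∃ α, α = f / (l - 1) := ⟨_, rfl⟩
    obtain ⟨γ, hγ⟩ : ∃ γ, γ = c / (l - 1) ^ 2 := ⟨_, rfl⟩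
    have f1 : f = α * (l - 1) := by rw [hα, div_mul_cancel₀ _ m1]
    have c1 : c = γ * (l - 1) ^ 2 := by rw [hγ, div_mul_cancel₀ _ (pow_ne_zero 2 m1)]
    have a1 : σ (σ α) = α := by simp [hα, k4, hl]
    have a2 : σ (σ γ) = γ := by simp [hγ, k5, hl]
    clear hα hγ
    subst f1 c1
    simp only [map_mul, map_sub, map_one, hl, map_pow] at k3
    have g1 : γ - σ γ = η * α * σ α := mul_right_cancel₀ (pow_ne_zero 2 m1) (by grind)
    have su : SU σ η !![1, η * σ α, γ; 0, 1, α; 0, 0, 1] := ⟨by simp [dm3], by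
      simp [eq9, gm, mul_apply, Fin.sum_univ_three, e4, a1]; grind⟩
    convert ((Qi _ (Qd l l0 hl)).mul (Qd l⁻¹ (inv_ne_zero l0) (by simp [hl]) _
      !![1, -(η * σ α), -σ γ; 0, 1, -α; 0, 0, 1] su (by simp [← one_fin_three, eq9]; grind))).mul
      (Qi _ (Q0 ((1 - l) * (γ + σ γ)) (by simp [hl, a2, add_comm]))) using 1
    simp [eq9, l0]
    grind
  let T : Vc k → Vc k → Prop := fun x y => ∃ n, SU σ η n ∧ ρ.In n ∧ n *ᵥ x = y
  have Tt : ∀ x y z, T x y → T y z → T x z := by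
    rintro x _ _ ⟨n, h1, h2, rfl⟩ ⟨m, h3, h4, rfl⟩
    exact ⟨m * n, h3.mul h1, h4.mul h2, by rw [mulVec_mulVec]⟩
  have T1 : ∀ x z (b : k), I x → I z → ph σ η z ⬝ᵥ x ≠ 0 → b ≠ 0 → σ b = b →
      T x ((b * ph σ η z ⬝ᵥ x) • z) := fun x z b hx hz h b0 hb => by
    have k1 : σ (σ (ph σ η z ⬝ᵥ x)) = ph σ η z ⬝ᵥ x := by
      rw [ph_anti e4 hz.1, map_neg, ph_anti e4 hx.1, neg_neg]
    have k2 : ∀ i, σ (σ (((b * ph σ η z ⬝ᵥ x) • z) i)) = ((b * ph σ η z ⬝ᵥ x) • z) i := fun i => by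
      simp [k1, hb, hz.1]
    have k3 : ph σ η ((b * ph σ η z ⬝ᵥ x) • z) ⬝ᵥ x =
        b * (σ (ph σ η z ⬝ᵥ x) * ph σ η z ⬝ᵥ x) := by simp [ph_smul, hb, mul_assoc]
    have k4 : ph σ η ((b * ph σ η z ⬝ᵥ x) • z) ⬝ᵥ ((b * ph σ η z ⬝ᵥ x) • z) = 0 := by
      simp [ph_smul, hz.2]
    have k5 : b * (σ (ph σ η z ⬝ᵥ x) * ph σ η z ⬝ᵥ x) ≠ 0 := by simp [b0, h]
    have k6 : σ (b * (σ (ph σ η z ⬝ᵥ x) * ph σ η z ⬝ᵥ x)) =
        b * (σ (ph σ η z ⬝ᵥ x) * ph σ η z ⬝ᵥ x) := by simp [hb, k1, mul_comm]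
    rw [← k3] at k5 k6
    generalize (b * ph σ η z ⬝ᵥ x) • z = y at *
    have k7 : ∀ i, σ (σ ((y - x) i)) = (y - x) i := fun i => by simp [k2, hx.1]
    have k8 : ph σ η (y - x) ⬝ᵥ (y - x) = 0 := by
      have := ph_anti e4 k2 x
      simp only [ph_sub, sub_dotProduct, dotProduct_sub, k4, hx.2]
      linear_combination k6 - this
    have k9 : σ (ph σ η y ⬝ᵥ x)⁻¹ = (ph σ η y ⬝ᵥ x)⁻¹ := by rw [map_inv₀, k6]
    refine ⟨_, U.su_el h3 k7 k8 k9, (U.cen h3 k7 k8 k9).2, ?_⟩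
    rw [r1_mulVec, ph_sub, sub_dotProduct, hx.2, sub_zero, smul_smul, mul_inv_cancel₀ k5]
    simp
  have T2 : ∀ c, c ≠ 0 → σ (σ c) = c → T ![c, 0, 0] ![1, 0, 0] := fun c c0 hc => by
    obtain ⟨a, ha⟩ := hN ((σ c⁻¹ - c⁻¹) / η)
    have a1 : σ (σ a) = a := by
      by_cases a0 : a = 0
      · simp [a0]
      have := congrArg σ ha
      rw [map_div₀, map_sub, map_inv₀, map_inv₀, hc, e4, ← map_inv₀, ← neg_sub, neg_div_neg_eq,
        ← ha, map_mul, mul_comm] at this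
      exact mul_right_cancel₀ ((map_ne_zero σ).2 a0) this
    have i1 := I3 0 0 1 (by simp) (by simp) (by simp) (by simp)
    have i2 := I3 (σ c⁻¹) a 1 (by simp [hc]) a1 (by simp) (by
      rw [eq_div_iff e3] at ha
      simp only [map_inv₀, hc, map_one] at ha ⊢
      linear_combination ha)
    have t1 := T1 _ _ 1 (I3 c 0 0 hc (by simp) (by simp) (by simp)) i1 (by simp [ph3, dot3, c0])
      one_ne_zero (map_one σ)
    simp only [ph3, dot3, sv3, map_one, map_zero, mul_zero, add_zero, mul_one, one_mul,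
      neg_mul] at t1
    have t2 := T1 _ _ 1 (I3 0 0 (-c) (by simp) (by simp) (by simp [hc]) (by simp)) i2
      (by simp [ph3, dot3, c0]) one_ne_zero (map_one σ)
    simp only [ph3, dot3, map_one, mul_zero, zero_add, one_mul, map_inv₀, hc, mul_neg,
      inv_mul_cancel₀ c0] at t2
    have t3 := T1 ((-1 : k) • ![(σ c)⁻¹, a, 1]) _ (-1) ⟨fun i => by
      simpa using i2.1 i, by
        rw [ph_smul, smul_dotProduct, dotProduct_smul, ← map_inv₀, i2.2]; simp⟩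
      (I3 1 0 0 (by simp) (by simp) (by simp) (by simp)) (by simp [ph3, dot3, nv3]) (by simp)
      (by simp)
    refine Tt _ _ _ t1 (Tt _ _ _ t2 ?_)
    convert t3
    simp [ph3, dot3, nv3]
  have hx := Im A _ hA (I3 1 0 0 (by simp) (by simp) (by simp) (by simp))
  have n0 := mulVec_ne_zero (A := A) (by simp [hA.1]) (v := ![1, 0, 0]) (by simp)
  obtain ⟨n, n1, n2, n3⟩ : T (A *ᵥ ![1, 0, 0]) ![1, 0, 0] := by
    obtain ⟨a, b, c, e⟩ := ex3 (A *ᵥ ![1, 0, 0])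
    rw [e] at hx n0 ⊢
    by_cases hc : c = 0
    · have : b = 0 := by simpa [hc, ph3, dot3, e3] using hx.2
      subst hc this
      exact T2 a (by simpa [zv3] using n0) (hx.1 0)
    · refine Tt _ _ _ ?_ (T2 c hc (hx.1 2))
      simpa [ph3, dot3, sv3] using T1 _ _ 1 hx (I3 1 0 0 (by simp) (by simp) (by simp) (by simp))
        (by simp [ph3, dot3, hc]) one_ne_zero (map_one σ)
  obtain ⟨n', h1, h2⟩ := exists_inv n2.det
  have := (n2.inv h1).mul (stab _ (n1.mul hA) (by rwa [← mulVec_mulVec]))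
  rwa [← mul_assoc, h2, one_mul] at this

theorem UStd.uni (hN : ∀ c, ∃ x, x * σ x = c) {l : k} (l0 : l ≠ 0) (l1 : l ≠ 1) (hl : σ l = l) :
    ρ.Sm fun τ => τ.Uni σ := by
  obtain ⟨e2, e3, e4⟩ := U.eta h3
  have e5 := (U.last h3).2
  obtain ⟨s, hs⟩ := hN (-1)
  have s0 : s ≠ 0 := by rintro rfl; simp at hs
  obtain ⟨B, hB⟩ : ∃ B, B = !![β, 0, s * σ β; 0, 1, 0; -1, 0, -s] := ⟨_, rfl⟩
  have b1 : (B.map σ)ᵀ * gm η * B = η • 1 := by
    simp [hB, eq9, gm, mul_apply, Fin.sum_univ_three, e5]; grind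
  obtain ⟨B', h1, h2⟩ := exists_inv (A := B) (by
    rw [hB, dm3, show β * 1 * -s - β * 0 * 0 - 0 * 0 * -s + 0 * 0 * -1 + s * σ β * 0 * 0 -
      s * σ β * 1 * -1 = -s * η by rw [e2]; ring]
    simp [s0, e3])
  have h4 : (B'.map σ)ᵀ * (B.map σ)ᵀ = 1 := by
    rw [← transpose_mul, ← Matrix.map_mul, h1]; simp
  have h5 : (B.map σ)ᵀ * (B'.map σ)ᵀ = 1 := mul_eq_one_comm.1 h4
  have b2 : gm η = η • ((B'.map σ)ᵀ * B') := by
    calc gm η = (B'.map σ)ᵀ * ((B.map σ)ᵀ * gm η * B) * B' := by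
          rw [← mul_assoc, ← mul_assoc, h4, one_mul, mul_assoc, h1, mul_one]
      _ = _ := by rw [b1]; simp
  have key : ∀ A : Mt k, ((B * A * B').map σ)ᵀ * gm η * (B * A * B') =
      η • ((B'.map σ)ᵀ * ((A.map σ)ᵀ * A) * B') := fun A => by
    calc _ = (B'.map σ)ᵀ * ((A.map σ)ᵀ * ((B.map σ)ᵀ * gm η * B) * A) * B' := by
          simp only [Matrix.map_mul, transpose_mul, mul_assoc]
      _ = _ := by rw [b1]; simp
  refine ⟨B, B', h1, fun A d hA => U.le h3 hN l0 l1 hl ⟨?_, ?_⟩, fun A hA => ?_⟩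
  · rw [det_mul, det_mul, d, mul_one, ← det_mul, h1, det_one]
  · rw [key, hA, mul_one, b2]
  · obtain ⟨c, hc⟩ := U.ge h3 hA
    rw [key, b2, smul_comm] at hc
    have h6 := congrArg (fun X => (B.map σ)ᵀ * X * B) (smul_right_injective _ e3 hc)
    simp only [← mul_assoc, h5, one_mul, mul_smul_comm, smul_mul_assoc, h2] at h6
    rw [mul_assoc _ B', h2, mul_one] at h6
    have c0 : c ≠ 0 := by
      rintro rfl
      have := congrArg Matrix.det h6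
      rw [det_mul, det_transpose, ← RingHom.mapMatrix_apply, ← RingHom.map_det] at this
      simp [hA.det] at this
    obtain ⟨d, hd⟩ := hN c⁻¹
    refine ⟨d, by rintro rfl; exact c0 (by simpa [eq_comm] using hd), ?_⟩
    rw [show (d • A).map σ = σ d • A.map σ by ext i j; simp, transpose_smul, smul_mul_assoc,
      mul_smul_comm, h6, smul_smul, smul_smul, mul_comm (σ d), hd, inv_mul_cancel₀ c0, one_smul]

end

theorem uni_of_roots (hi : ρ.Irr) (H : ρ.Opp) (he : ρ.HasEl) (R : ρ.Roots L)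
    (hσ : ∀ a, a ∈ L ↔ σ a = a) (hN : ∀ c, ∃ x, x * σ x = c) {l : k} (l0 : l ≠ 0) (l1 : l ≠ 1)
    (hl : σ l = l) : ρ.Sm fun τ => τ.Uni σ := by
  obtain ⟨v, φ, n1, n2, a1, a2⟩ := he
  have h : ρ.El v φ := ⟨a1, a2⟩
  obtain ⟨v', φ', h', d1, d2⟩ := exists_opp hi H n1 n2 h
  obtain ⟨B, B', hB, e1, e2, e3, e4⟩ := pair_setup h.1 h'.1 d1 d2
  have c1 := R.dot _ _ _ _ h h'
  have k1 : (ρ.cj hB).El ![1, 0, 0] ![0, 1, 0] := by rwa [el_cj, e3, e1]
  have k2 : (ρ.cj hB).El ![0, φ ⬝ᵥ v', 0] ![φ' ⬝ᵥ v, 0, 0] := by rwa [el_cj, e2, e4]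
  obtain ⟨w, ψ, k3, k4, k5⟩ := exists_out (hi.cj hB) k1 k2 (by simp) (by simp [d2])
    (by simp [cr3, d1])
  refine Sm.of_cj hB ?_
  replace R := R.cj hB
  replace H := H.cj hB
  generalize ρ.cj hB = τ at *
  obtain ⟨w0, w1, w2, rfl⟩ := ex3 w
  have n2 : w2 ≠ 0 := by simpa [cr3, dot3, d1] using k5
  generalize φ ⬝ᵥ v' = c at *
  generalize φ' ⬝ᵥ v = d at *
  have n1 : w1 ≠ 0 := fun e => by
    obtain ⟨⟨c, hc⟩, -⟩ := H _ _ _ _ (by simp [zv3, n2]) k4 (by simp) (by simp) k3 k1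
      (by simp [dot3, e])
    simp only [sv3, ev3] at hc
    grind
  have k6 : τ.El ![0, 1, 0] ![-1, 0, 0] := by
    have := (R.mem _ _ _ (by simp [zv3, d1]) (by simp [zv3, d2]) k2).2 (neg_mem (inv_mem c1))
    rw [show -(c * d)⁻¹ • ![0, c, 0] = (-d⁻¹) • ![0, 1, 0] by
      simp only [sv3, ev3]; exact ⟨by simp, by field_simp, by simp⟩, El.scale] at this
    simpa [sv3, d2] using this
  have hC : !![1, 0, 0; 0, 0, 1; 0, w2 / w1, 0] * !![1, 0, 0; 0, 0, w1 / w2; 0, 1, 0] = 1 := by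
    simp [← one_fin_three, n1, n2]
  refine Sm.of_cj hC ?_
  have U : (τ.cj hC).UStd L σ := ⟨R.cj hC, H.cj hC, hσ, by
    rw [el_cj, mv3, vm3]; simpa using k1, by rw [el_cj, mv3, vm3]; simpa using k6⟩
  have k7 := (el_cj' hC).2 k3
  have k8 := vecMul_ne_zero (det_of_mul hC).1 k4
  obtain ⟨r, s, t, e⟩ := ex3 (ψ ᵥ* !![1, 0, 0; 0, 0, 1; 0, w2 / w1, 0])
  rw [e] at k7 k8
  simp only [mv3, one_mul, zero_mul, add_zero, zero_add, div_mul_cancel₀ _ n2] at k7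
  have k9 := (U.norm k7 n1 k8).2
  rw [div_self n1, (U.last k9).1] at k9
  exact U.uni k9 hN l0 l1 hl

theorem uni_of_opp (p : ℕ) [Fact p.Prime] [CharP k p] [IsAlgClosed k] [Finite Γ] (hi : ρ.Irr)
    (H : ρ.Opp) (he : ρ.HasEl) (hs : ¬ ρ.Small) :
    ∃ n, 3 ≤ p ^ n ∧ ρ.Sm fun τ => τ.Uni (iterateFrobenius k p n) := by
  obtain ⟨L, hf, hL, R⟩ := exists_roots p hi H hs
  have := Fintype.ofFinite L
  obtain ⟨n, -, hn⟩ := FiniteField.card L p
  rw [← Nat.card_eq_fintype_card] at hn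
  obtain ⟨l, l0, l1⟩ : ∃ l : L, l ≠ 0 ∧ l ≠ 1 := by
    by_contra hc
    push Not at hc
    have := Nat.card_le_card_of_surjective (fun b : Bool => if b then (0 : L) else 1) fun x => by
      by_cases h : x = 0
      · exact ⟨true, h.symm⟩
      · exact ⟨false, (hc x h).symm⟩
    rw [Nat.card_eq_fintype_card (α := Bool), Fintype.card_bool] at this
    omega
  have hσ : ∀ a, a ∈ L ↔ iterateFrobenius k p n a = a := fun a => by
    rw [mem_iff_pow, hn, iterateFrobenius_def]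
  refine ⟨n, hn ▸ hL, uni_of_roots hi H he R hσ (fun c => ?_) (l := l)
    (by simpa using l0) (by simpa using l1) ((hσ _).1 l.2)⟩
  obtain ⟨x, hx⟩ := IsAlgClosed.exists_pow_nat_eq c (n := p ^ (n : ℕ) + 1) (by omega)
  exact ⟨x, by rw [iterateFrobenius_def, ← pow_succ', hx]⟩

end PR

end Cfsg.Agent.H6.M3
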