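import Cfsg.Agent.H6.N6

/-! Characteristic two: the unitary case and the hyperoval group. -/

set_option autoImplicit false

namespace Cfsg.Agent.H6.M3

open Matrix Subgroup OnePoint Cfsg.Agent.H6.Pg Cfsg.Agent.H6.MG
open scoped commutatorElement MatrixGroups

variable {k : Type*} [Field k]

theorem two_eq [CharP k 2] : (2 : k) = 0 := CharP.cast_eq_zero k 2

namespace PR

variable {Γ : Type*} [Group Γ] {ρ : PR Γ k}

theorem el_iff {a b c x y z : k} : ρ.El ![a, b, c] ![x, y, z] ↔ x * a + y * b + z * c = 0 ∧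
    ρ.In !![1 + a * x, a * y, a * z; b * x, 1 + b * y, b * z; c * x, c * y, 1 + c * z] := by
  rw [El, R1, r13, dot3]

variable [CharP k 2] [IsAlgClosed k] [Finite Γ]

theorem opp_small [IsSimpleGroup Γ] (hna : ¬ ∀ x y : Γ, x * y = y * x)
    (hP : ⁅(⊤ : Subgroup Γ), (⊤ : Subgroup Γ)⁆ = ⊤) (hi : ρ.Irr) (ho : ρ.Opp) (hs : ρ.Small) :
    ¬ ρ.HasEl := by
  rintro ⟨v, φ, h1, h2, h3⟩
  obtain ⟨v', φ', h4, h5, h6⟩ := exists_opp hi ho h1 h2 h3
  obtain ⟨B, B', hB, e1, -, e2, -⟩ := pair_setup h3.1 h4.1 h5 h6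
  have h7 : (ρ.cj hB).El ![1, 0, 0] ![0, 1, 0] := by rw [el_cj, e1, e2]; exact h3
  have hi := hi.cj hB
  have ho := ho.cj hB
  have hs := hs.cj hB
  generalize ρ.cj hB = τ at *
  obtain ⟨t, ht⟩ := h7.2
  have two := two_eq (k := k)
  have n1 : (![1, 0, 0] : Vc k) ≠ 0 := by simp [zv3]
  have n2 : (![0, 1, 0] : Vc k) ≠ 0 := by simp [zv3]
  simp only [r13] at ht
  have t2 : t * t = 1 := τ.inj (by
    convert τ.mul ht ht using 1
    simp only [mul_fin_three, one_fin_three, em3]; grind)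
  have sm : ∀ h x, τ.L h !![1, x, 0; 0, 1, 0; 0, 0, 1] → h = 1 ∨ h = t := fun h x hx =>
    (hs _ _ x n1 n2 h7 (by rw [sv3]; exact el_iff.2 ⟨by simp, h, by simpa using hx⟩)).imp
      (fun e => τ.inj (by rwa [e, ← one_fin_three] at hx)) fun e => τ.eq_of hx (by simpa [e] using ht)
  have key : ∀ h, h * t = t * h → h = 1 ∨ h = t ∨ h * h = t := fun h e => by
    obtain ⟨A, hA⟩ := τ.ex h
    have e1 := Pr.all (mem_T0_of_inv (ρ := τ) e t2) hA ht
    have d := τ.det hA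
    obtain ⟨a, x, y, a3, a4, a5, a6, z, b, rfl⟩ := ex9 A
    simp only [mul_fin_three, one_smul, em3, dm3] at e1 d
    obtain rfl : a3 = 0 := by grind
    obtain rfl : a5 = 0 := by grind
    obtain rfl : a6 = 0 := by grind
    obtain rfl : a4 = a := by grind
    have a0 : a4 ≠ 0 := by grind
    by_cases hab : b = a4
    swap
    · refine absurd (perfect_of_hm 2 hi hs (ξ := b ^ 2 / a4 ^ 2) (v := ![y, 0, a4 + b])
        (φ := ![0, z / a4 ^ 2, (a4 + b) / a4 ^ 2]) (by grind) ⟨by rw [dot3]; grind, h * h, ?_⟩ hP)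
        top_ne_bot
      convert τ.smul (τ.mul hA hA) (inv_ne_zero (pow_ne_zero 2 a0)) using 1
      simp only [r13, mul_fin_three, sm3, em3]; grind
    subst hab
    replace hA := τ.smul hA (inv_ne_zero a0)
    simp only [sm3, inv_mul_cancel₀ a0, mul_zero] at hA
    generalize b⁻¹ * x = x, b⁻¹ * y = y, b⁻¹ * z = z at hA
    by_cases hyz : y * z = 0
    swap
    · have e2 : τ.L (h * h) !![1, y * z, 0; 0, 1, 0; 0, 0, 1] := by
        convert τ.mul hA hA using 1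
        simp only [mul_fin_three, em3]; grind
      refine Or.inr (Or.inr ((sm _ _ e2).resolve_left fun e => hyz ?_))
      obtain ⟨c, hc⟩ := (τ.eq_one_iff e2).1 e
      simpa using congrFun (congrFun hc 0) 1
    obtain ⟨rfl, rfl⟩ : y = 0 ∧ z = 0 := by
      rcases mul_eq_zero.1 hyz with rfl | rfl
      · refine ⟨rfl, by_contra fun hz => hz ?_⟩
        obtain ⟨⟨c, hc⟩, -⟩ := ho _ _ ![x, 0, z] _ n1 n2 (by simp [zv3, hz]) n2 h7
          (el_iff.2 ⟨by simp, h, by simpa using hA⟩) (by simp [dot3])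
        simpa using congrFun hc 2
      · refine ⟨by_contra fun hz => hz ?_, rfl⟩
        obtain ⟨-, c, hc⟩ := ho _ _ _ ![0, x, y] n1 n2 n1 (by simp [zv3, hz]) h7
          (el_iff.2 ⟨by simp, h, by simpa using hA⟩) (by simp [dot3])
        simpa using congrFun hc 2
    exact (sm _ _ hA).imp_right Or.inl
  have t1 : t ≠ 1 := fun e => by
    obtain ⟨c, hc⟩ := (τ.eq_one_iff ht).1 e
    simpa using congrFun (congrFun hc 0) 1
  have k2 : ∀ s, s * t = t * s → s * s = 1 → s ≠ 1 → s = t := fun s h1 h2 h3 =>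
    (key s h1).elim (absurd · h3) fun h => h.elim id fun h => absurd (h.symm.trans h2) t1
  rcases frob (centralizer {t}) (fun g hg h hh e => by_contra fun h1 => hg (by
    rw [mem_centralizer_singleton_iff] at *
    have e' : g * t * g⁻¹ * t = t * (g * t * g⁻¹) := by
      rcases key h hh with k | rfl | k
      · exact absurd k h1
      · exact e
      · have : g * t * g⁻¹ = g * h * g⁻¹ * (g * h * g⁻¹) := by rw [conj_mul, k]
        rw [this, mul_assoc, e, ← mul_assoc, e, mul_assoc]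
    exact mul_inv_eq_iff_eq_mul.1 (k2 _ e' (by rw [conj_mul, t2]; simp) (by simpa using t1))))
    with e | e
  · exact t1 ((eq_bot_iff_forall _).1 e t (mem_centralizer_singleton_iff.2 rfl))
  · rcases IsSimpleGroup.eq_bot_or_eq_top_of_normal (center Γ) inferInstance with e' | e'
    · exact t1 ((eq_bot_iff_forall _).1 e' t (mem_center_iff.2 fun g =>
        mem_centralizer_singleton_iff.1 (e ▸ mem_top g)))
    · exact hna fun x y => mem_center_iff.1 (e' ▸ mem_top y) x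

theorem k2_std {c a b : k} (hc : c ≠ 0) (k1 : ρ.El ![1, 0, 0] ![0, 1, 0])
    (k2 : ρ.El ![a, 0, b] ![0, 1, 0]) (k3 : ρ.El ![0, 1, 0] ![c, 0, 0]) (a0 : a ≠ 0) (a1 : a ≠ 1)
    (hf : ∀ d, ρ.El ![0, 0, d] ![0, 1, 0] → d = 0) : ∃ L : Subfield k, Finite L ∧ c ∈ L ∧
      (∀ x y, ρ.El ![x, 0, y] ![0, 1, 0] → x ∈ L) ∧ (∀ x ∈ L, ∃ y, ρ.El ![x, 0, y] ![0, 1, 0]) ∧
      (∀ l ∈ L, l ≠ 0 → ∃ u w, ρ.In !![l, 0, 0; 0, l⁻¹, 0; u, w, 1]) ∧
      (∀ w ψ : Vc k, ρ.El w ψ → ψ 2 = 0 → ψ ≠ 0 → w 1 ≠ 0 → w 0 / w 1 ∈ L) ∧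
      Nat.card (PS L) ≤ Nat.card ρ.HP := by
  have two := two_eq (k := k)
  obtain ⟨π, hπ⟩ := ρ.exists_pi_HP
  have i0 : ∀ w ψ : Vc k, ρ.El w ψ → ψ 2 = 0 →
      pg !![1 + w 0 * ψ 0, w 0 * ψ 1; w 1 * ψ 0, 1 + w 1 * ψ 1] ∈ π.range := fun w ψ h e => by
    obtain ⟨u, hu⟩ := h.2
    have := h.1
    simp only [dotProduct, Fin.sum_univ_three, e] at this
    refine ⟨⟨u, _, hu, by simp [ul, vecMulVec_apply, e]; grind⟩, ?_⟩
    rw [(hπ _ _ hu).2]; simp [ul, vecMulVec_apply]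
  have i1 : ∀ x y, ρ.El ![x, 0, y] ![0, 1, 0] → aff 1 x ∈ π.range := fun x y h => by
    simpa [aff] using i0 _ _ h rfl
  have i2 : low c ∈ π.range := by simpa [low] using i0 _ _ k3 rfl
  haveI : Finite π.range := Finite.of_surjective _ π.rangeRestrict_surjective
  have lift : ∀ M : Matrix (Fin 2) (Fin 2) k, M.det = 1 → pg M ∈ π.range →
      ∃ u w, ρ.In !![M 0 0, M 0 1, 0; M 1 0, M 1 1, 0; u, w, 1] := by
    rintro M hM ⟨⟨g, A, hA, a1, a2, a3, a4⟩, e⟩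
    rw [(hπ _ _ hA).2, pg_eq_iff (by simp [a4]) (by simp [hM])] at e
    obtain ⟨r, rfl⟩ := e
    rw [det_smul, a4, Fintype.card_fin] at hM
    obtain rfl : r = 1 := by grind
    exact ⟨A 2 0, A 2 1, g, by convert hA using 1; simp [eq9, ul, a1, a2, a3]⟩
  rcases two_roots 2 π.range (i1 _ _ k1) hc i2 with ⟨L, h1, -, h2, h3⟩ | ⟨-, h⟩ | ⟨h, -⟩
  swap
  · exact absurd (h a (i1 _ _ k2)) (by tauto)
  swap
  · omega
  refine ⟨L, h1, mem_of_low (h3 i2), fun x y h => mem_of_aff (h3 (i1 x y h)), fun x hx => ?_,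
    fun l hl l0 => ?_, fun w ψ h e h0 w1 => ?_, (card_le_of_le h2).trans
      (Nat.card_le_card_of_surjective _ π.rangeRestrict_surjective)⟩
  · by_cases x0 : x = 0
    · exact ⟨0, el_iff.2 ⟨by simp, by simpa [x0, ← one_fin_three] using In.one⟩⟩
    obtain ⟨u, w, h⟩ := lift !![1, x; 0, 1] (by simp) (h2 (mem_PS.2
      ⟨_, by simp, fun i j => by fin_cases i <;> fin_cases j <;> simp [hx], rfl⟩))
    have : u * x = 0 := hf _ (el_iff.2 ⟨by simp, by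
      convert h.mul h using 1
      simp only [mul_fin_three, em3, of_apply, cons_val', cons_val_zero, cons_val_one,
        cons_val_fin_one]; grind⟩)
    obtain rfl : u = 0 := by grind
    exact ⟨w, el_iff.2 ⟨by simp, by simpa using h⟩⟩
  · simpa using lift !![l, 0; 0, l⁻¹] (by simp [l0]) (h2 (mem_PS.2
      ⟨_, by simp [l0], fun i j => by fin_cases i <;> fin_cases j <;> simp [hl], rfl⟩))
  · obtain ⟨M, h4, h5, h6⟩ := mem_PG.1 (h3 (i0 w ψ h e))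
    have h7 := h.1
    simp only [dotProduct, Fin.sum_univ_three, e] at h7
    obtain ⟨r, hr⟩ := (pg_eq_iff h4 (by rw [det_fin_two_of]; grind)).1 h6
    have e1 : r * M 0 1 = w 0 * ψ 1 := congrFun (congrFun hr 0) 1
    have e2 : r * M 1 0 = w 1 * ψ 0 := congrFun (congrFun hr 1) 0
    have e3 : ψ 0 ≠ 0 := fun e3 => h0 (by rw [eq3]; simp only [Pi.zero_apply]; grind)
    have e4 : (w 0 / w 1) ^ 2 ∈ L := by
      convert div_mem (h5 0 1) (h5 1 0) using 1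
      grind
    rw [mem_iff_pow] at e4 ⊢
    rw [← pow_mul, mul_comm, pow_mul] at e4
    grind

omit [IsAlgClosed k] [Finite Γ] in
theorem _root_.Cfsg.Agent.H6.M3.exists_sqrt {L : Subfield k} [Finite L] {x : k} (hx : x ∈ L) :
    ∃ z ∈ L, z ^ 2 = x := by
  obtain ⟨z, hz⟩ := Asch.exists_sq_of_two_eq_zero (F := L) (Subtype.ext two_eq) ⟨x, hx⟩
  exact ⟨z, z.2, by rw [sq]; exact congrArg Subtype.val hz⟩

variable (ρ) in
/-- standard position of a subgroup `SL₂(L)` fixing a conic -/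
structure Hs (L : Subfield k) : Prop where
  fin : Finite L
  ex : ∃ a ∈ L, a ≠ 0 ∧ a ≠ 1
  el : ∀ z ∈ L, ρ.El ![z ^ 2, 0, z] ![0, 1, 0]
  of_el : ∀ x y, ρ.El ![x, 0, y] ![0, 1, 0] → y ∈ L ∧ x = y ^ 2
  sw : ρ.In !![0, 1, 0; 1, 0, 0; 0, 0, 1]
  dir : ∀ w ψ : Vc k, ρ.El w ψ → ψ 2 = 0 → ψ ≠ 0 → w 1 ≠ 0 → w 0 / w 1 ∈ L
  big : ∃ H : Subgroup Γ, H ≠ ⊤ ∧ Nat.card (PS L) ≤ Nat.card H

theorem hs_of_not_kk (hi : ρ.Irr) (h : ¬ ρ.KK) : ρ.Sm fun τ => ∃ L, τ.Hs L := by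
  have two := two_eq (k := k)
  simp only [KK, not_forall] at h
  obtain ⟨φ, w, ψ, h1, h2, h3, h4, h5⟩ := h
  obtain ⟨B, B', hB, a, b, c, b0, c0, k1, k2, k3, k4⟩ := (k_setup h1 h2 h3 h4).resolve_left h5
  have hf : ∀ d, (ρ.cj hB).El ![0, 0, d] ![0, 1, 0] → d = 0 := fun d hd =>
    by_contra fun e => h5 (k4 d e hd)
  refine Sm.of_cj hB ?_
  have hi := hi.cj hB
  generalize ρ.cj hB = τ at *
  have uq : ∀ x y y', τ.El ![x, 0, y] ![0, 1, 0] → τ.El ![x, 0, y'] ![0, 1, 0] → y = y' :=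
    fun x y y' h h' => sub_eq_zero.1 (hf _ (by simpa [bv3] using h.sub_left h'))
  have a0 : a ≠ 0 := by rintro rfl; exact b0 (hf _ k2)
  have a1 : a ≠ 1 := by rintro rfl; exact b0 (uq _ _ _ k2 k1)
  obtain ⟨L, hL, c1, l1, l2, l3, l4, l5⟩ := k2_std c0 k1 k2 k3 a0 a1 hf
  have tor : ∀ l ∈ L, l ≠ 0 → ∃ u, ∀ x y, τ.El ![x, 0, y] ![0, 1, 0] →
      τ.El ![l ^ 2 * x, 0, l * (u * x + y)] ![0, 1, 0] := fun l hl l0 => by
    obtain ⟨u, w, h⟩ := l3 l hl l0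
    refine ⟨u, fun x y e => ?_⟩
    have := e.conj h (A' := !![l⁻¹, 0, 0; 0, l, 0; u * l⁻¹, w * l, 1]) (by
      simp only [mul_fin_three, one_fin_three, em3]; grind)
    rw [show ![0, 1, 0] ᵥ* !![l⁻¹, 0, 0; 0, l, 0; u * l⁻¹, w * l, 1] = l • ![0, 1, 0] by simp,
      ← El.scale] at this
    convert this using 1
    simp only [mv3, sv3, ev3]; grind
  obtain ⟨s, s1, rfl⟩ := exists_sqrt (l1 _ _ k2)
  have s0 : s ≠ 0 := by rintro rfl; simp at a0
  have s2 : s ^ 2 + s ≠ 0 := by grind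
  obtain ⟨κ, rfl⟩ : ∃ κ, b = κ * (s ^ 2 + s) := ⟨b / (s ^ 2 + s), (div_mul_cancel₀ _ s2).symm⟩
  have κ0 : κ ≠ 0 := left_ne_zero_of_mul b0
  have form : ∀ z ∈ L, τ.El ![z ^ 2, 0, κ * (z ^ 2 + z)] ![0, 1, 0] := fun z hz => by
    by_cases z0 : z = 0
    · exact el_iff.2 ⟨by simp, by simpa [z0, ← one_fin_three] using In.one⟩
    obtain ⟨u, hu⟩ := tor z hz z0
    obtain ⟨u', hu'⟩ := tor s s1 s0
    have e1 := hu _ _ k1
    have e2 := uq _ _ _ (hu' _ _ k1) (by simpa using k2)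
    have e3 := uq _ _ _ (hu _ _ k2) (by rw [mul_comm]; exact hu' _ _ (by simpa using e1))
    convert e1 using 1
    simp only [ev3]
    clear hu hu' e1 tor uq hf l1 l2 l3 l4
    exact ⟨by ring, trivial, mul_left_cancel₀ s2 (by grind)⟩
  obtain ⟨β, β1, β2⟩ := exists_sqrt (L.inv_mem c1)
  have β0 : β ≠ 0 := by rintro rfl; exact inv_ne_zero c0 (by simpa using β2.symm)
  have hC : !![β ^ 2, 0, 0; 0, 1, 0; β ^ 2 * κ, β * κ, β * κ] *
      !![c, 0, 0; 0, 1, 0; β * c, 1, (β * κ)⁻¹] = 1 := by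
    simp only [mul_fin_three, one_fin_three, em3]; grind
  have e0 : ∀ x y, (τ.cj hC).El ![x, 0, y] ![0, 1, 0] ↔
      τ.El ![β ^ 2 * x, 0, κ * (β ^ 2 * x + β * y)] ![0, 1, 0] := fun x y => by
    rw [el_cj]
    congr! 1
    · simp only [mv3, ev3]; grind
    · simp
  have e1 : ∀ z ∈ L, (τ.cj hC).El ![z ^ 2, 0, z] ![0, 1, 0] := fun z hz => by
    rw [e0, ← mul_pow]; exact form _ (L.mul_mem β1 hz)
  have e2 : (τ.cj hC).El ![0, 1, 1] ![1, 0, 0] := by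
    rw [el_cj]
    convert k3 using 1
    · simp only [mv3, ev3]; grind
    · simp
  refine ⟨_, _, hC, L, hL, ⟨_, l1 _ _ k2, a0, a1⟩, e1, fun x y h => ?_, ?_, fun w ψ h e h0 w1 => ?_,
    τ.HP, fun e => ?_, l5⟩
  · rw [e0] at h
    obtain ⟨z, z1, z2⟩ := exists_sqrt (l1 _ _ h)
    have := mul_left_cancel₀ κ0 (uq _ _ _ h (z2 ▸ form z z1))
    have e : y = z / β := by grind
    exact ⟨e ▸ L.div_mem z1 β1, by grind⟩
  · have k5 := (el_iff.1 (e1 1 L.one_mem)).2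
    convert (k5.mul (el_iff.1 e2).2).mul k5 using 1
    simp only [mul_fin_three, em3]; grind
  · obtain ⟨w0, w1', w2, rfl⟩ := ex3 w
    obtain ⟨p0, p1, p2, rfl⟩ := ex3 ψ
    have := l4 _ _ ((el_cj hC).1 h) (by simp [vm3, show p2 = 0 from e]) (vecMul_ne_zero (det_of_mul hC).2 h0)
      (by simpa [mv3] using w1)
    convert L.mul_mem c1 this using 1
    simp only [mv3, cons_val_zero, cons_val_one] at w1 ⊢
    grind
  · obtain ⟨A, ⟨g, hg⟩, h⟩ := hi.pt ![0, 0, 1] (by simp)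
    obtain ⟨A', h1, h2⟩ : g ∈ τ.HP := e ▸ mem_top g
    obtain ⟨r, rfl⟩ := τ.uniq h1 hg
    exact h r (by simp [eq3, mulVec, dotProduct, Fin.sum_univ_three, h2])

end PR

end Cfsg.Agent.H6.M3
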