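import Cfsg.Agent.H6.MC4
import Cfsg.Agent.H2.Zass

/-! Characteristic two: the hyperoval group. -/

set_option autoImplicit false

namespace Cfsg.Agent.H6.M3

open Matrix Subgroup OnePoint Cfsg.Agent.H6.Pg Cfsg.Agent.H6.MG
open scoped commutatorElement MatrixGroups

variable {k : Type*} [Field k]

namespace PR

variable {Γ : Type*} [Group Γ] {ρ : PR Γ k} [CharP k 2] [IsAlgClosed k] [Finite Γ]

variable {L : Subfield k}

theorem Hs.dich (H : ρ.Hs L) {w0 w1 w2 p0 p1 : k} (h : ρ.El ![w0, w1, w2] ![p0, p1, 1])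
    (h1 : w1 ≠ 0) (h2 : p0 ≠ 0) : ∃ y ∈ L, p0 * y = 1 ∧
      ∀ z ∈ L, w1 * p0 * (z * (z + y)) = 0 ∨ w1 * p0 * (z * (z + y)) = 1 := by
  have two := two_eq (k := k)
  haveI := H.fin
  obtain ⟨y, hy, e⟩ : ∃ y ∈ L, p0 * y = 1 := by
    by_contra hc
    push Not at hc
    have h3 : p0 + 1 ≠ 0 := fun e => hc 1 L.one_mem (by grind)
    have h4 := (el_iff.1 h).1
    have hC : !![1, w0 / w1, 1; 0, 1, 0; 1, w2 / w1, p0] * ((p0 + 1)⁻¹ •
        !![p0, p0 * (w0 / w1) + w2 / w1, 1; 0, p0 + 1, 0; 1, w0 / w1 + w2 / w1, 1]) = 1 := by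
      simp only [sm3, mul_fin_three, one_fin_three, em3]; grind
    have e0 : ∀ x y, (ρ.cj hC).El ![x, 0, y] ![0, 1, 0] ↔ ρ.El ![x + y, 0, x + p0 * y] ![0, 1, 0] :=
      fun x y => by
        rw [el_cj]
        congr! 1
        · simp only [mv3, ev3]; grind
        · simp only [sm3, vm3, ev3]; grind
    have e1 : ∀ z ∈ L, (ρ.cj hC).El ![(p0 * z ^ 2 + z) / (p0 + 1), 0, (z ^ 2 + z) / (p0 + 1)]
        ![0, 1, 0] := fun z hz => by
      rw [e0]; convert H.el z hz using 3 <;> grind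
    have e2 : ∀ z ∈ L, p0 * z ^ 2 + z = 0 → z = 0 := fun z hz e => by
      have := hc z hz; grind
    obtain ⟨a, a1, a2, a3⟩ := H.ex
    obtain ⟨L', hL', -, l1, l2, -⟩ := k2_std (ρ := ρ.cj hC) (c := w1 * (p0 + 1)) (mul_ne_zero h1 h3)
      (by rw [e0]; simpa using H.el 1 L.one_mem) (e1 a a1) (by
        rw [el_cj, show ![w1 * (p0 + 1), 0, 0] ᵥ* _ = w1 • ![p0, p1, 1] by
          simp only [sm3, vm3, sv3, ev3]; grind, ← El.scale]
        convert h using 1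
        simp only [mv3, sv3, ev3]; grind)
      (fun e => a2 (e2 a a1 (by grind)))
      (fun e => a3 (by have := e2 (a + 1) (L.add_mem a1 L.one_mem) (by grind); grind)) fun d hd => by
        obtain ⟨k1, k2⟩ := H.of_el _ _ ((e0 _ _).1 hd)
        have := e2 _ k1 (by grind)
        grind
    have e3 : Nat.card L = Nat.card L' := Nat.card_congr (Equiv.ofBijective
      (fun z => ⟨_, l1 _ _ (e1 z z.2)⟩) ⟨fun z z' e => Subtype.ext (by
        have e := congrArg Subtype.val e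
        have := e2 _ (L.add_mem z.2 z'.2) (by grind)
        grind), fun x => by
        obtain ⟨y, hy⟩ := l2 x x.2
        obtain ⟨k1, k2⟩ := H.of_el _ _ ((e0 _ _).1 hy)
        exact ⟨⟨_, k1⟩, Subtype.ext (by grind)⟩⟩)
    have e4 := l1 _ _ (e1 a a1)
    rw [mem_iff_pow, ← e3, ← mem_iff_pow] at e4
    generalize hl : (p0 * a ^ 2 + a) / (p0 + 1) = l at e4
    have e6 := hc _ (L.div_mem (L.add_mem (L.pow_mem a1 2) e4) (L.add_mem e4 a1))
    clear hc e0 e1 e2 l1 l2 e3 hC h h4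
    have e7 : p0 * (a ^ 2 + l) = l + a := by grind
    have e5 : l + a ≠ 0 := by grind
    exact e6 (by rw [← mul_div_assoc, e7, div_self e5])
  refine ⟨y, hy, e, fun z hz => ?_⟩
  have k1 := (H.el y hy).comm h (by rw [dot3]; grind)
  have k2 := k1.comm (H.el z hz) (by simp [dot3])
  simp only [dot3, sv3] at k2
  obtain ⟨-, k3⟩ := H.of_el _ _ (by simpa only [mul_zero] using k2)
  grind

theorem Hs.dich' (H : ρ.Hs L) {w0 w1 w2 p0 p1 : k} (h : ρ.El ![w0, w1, w2] ![p0, p1, 1])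
    (h1 : w1 ≠ 0) (h2 : p0 ≠ 0) :
    (∀ t ∈ L, t = 0 ∨ t = 1 ∨ t ^ 2 + t + 1 = 0) ∧ p0 = w1 ∧ w1 ^ 3 = 1 := by
  have two := two_eq (k := k)
  obtain ⟨y, hy, e, h3⟩ := H.dich h h1 h2
  have h4 : ∀ t ∈ L, t = 0 ∨ t = 1 ∨ t ^ 2 + t + 1 = 0 := fun t ht => by
    have e1 := h3 _ (L.mul_mem hy ht)
    have e2 := h3 _ (L.mul_mem hy (L.pow_mem ht 2))
    clear h3 h
    grind
  obtain ⟨a, a1, a2, a3⟩ := H.ex
  have e1 := h3 _ (L.mul_mem hy a1)
  have e2 := h4 a a1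
  have e3 := h4 y hy
  refine ⟨h4, ?_⟩
  clear h3 h h4
  grind

omit [IsAlgClosed k] [Finite Γ] in
theorem Hs.mv (H : ρ.Hs L) {w0 w1 w2 p0 p1 p2 z : k} (hz : z ∈ L)
    (h : ρ.El ![w0, w1, w2] ![p0, p1, p2]) :
    ρ.El ![w1, w0 + z ^ 2 * w1, w2 + z * w1] ![p0 * z ^ 2 + p1 + p2 * z, p0, p2] := by
  have two := two_eq (k := k)
  have k1 := (el_iff.1 (H.el z hz)).2
  convert h.conj (H.sw.mul k1) (A' := !![z ^ 2, 1, 0; 1, 0, 0; z, 0, 1]) (by
    simp only [mul_fin_three, one_fin_three, em3]; grind) using 1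
  · simp only [mul_fin_three, mv3, ev3]; grind
  · simp only [vm3, ev3]; grind

theorem Hs.four (H : ρ.Hs L) (hi : ρ.Irr) : ∀ t ∈ L, t = 0 ∨ t = 1 ∨ t ^ 2 + t + 1 = 0 := by
  have two := two_eq (k := k)
  obtain ⟨w, ψ, h, hw, hψ⟩ : ∃ w ψ : Vc k, ρ.El w ψ ∧ w ≠ 0 ∧ ψ 2 ≠ 0 := by
    obtain ⟨A, hA, h⟩ := hi.pt ![0, 0, 1] (by simp)
    obtain ⟨A', h1, h2⟩ := exists_inv hA.det
    have k1 := H.el 1 L.one_mem
    have k2 := H.mv L.zero_mem k1
    by_cases e : A 1 2 = 0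
    · refine ⟨_, _, k2.conj (hA.inv h1) h2, mulVec_ne_zero (hA.inv h1).det (by simp [zv3]),
        fun e' => h (A 2 2) ?_⟩
      simp only [vecMul, dotProduct, Fin.sum_univ_three] at e'
      simp [eq3, mulVec, dotProduct, Fin.sum_univ_three, e]
      simpa using e'
    · exact ⟨_, _, k1.conj (hA.inv h1) h2, mulVec_ne_zero (hA.inv h1).det (by simp [zv3]),
        by simpa [vecMul, dotProduct, Fin.sum_univ_three] using e⟩
  replace h : ρ.El (ψ 2 • w) ((ψ 2)⁻¹ • ψ) := by rwa [← El.scale, inv_smul_smul₀ hψ]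
  replace hw := smul_ne_zero hψ hw
  obtain ⟨p0, p1, p2, rfl⟩ := ex3 ψ
  obtain ⟨w0, w1, w2, e⟩ := ex3 (![p0, p1, p2] 2 • w)
  rw [e] at h hw
  simp only [sv3, cons_val] at h hψ
  rw [inv_mul_cancel₀ hψ] at h
  generalize p2⁻¹ * p0 = p0, p2⁻¹ * p1 = p1 at h
  by_contra hc
  have e0 : w1 = 0 ∨ p0 = 0 := by
    by_contra e; exact hc (H.dich' h (not_or.1 e).1 (not_or.1 e).2).1
  have e1 : ∀ z ∈ L, w0 + z ^ 2 * w1 = 0 ∨ p0 * z ^ 2 + p1 + 1 * z = 0 := fun z hz => by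
    by_contra e; exact hc (H.dich' (H.mv hz h) (not_or.1 e).1 (not_or.1 e).2).1
  obtain ⟨a, a1, a2, a3⟩ := H.ex
  have e2 := e1 0 L.zero_mem
  have e3 := e1 1 L.one_mem
  have e4 := e1 a a1
  have e5 := e1 (a + 1) (L.add_mem a1 L.one_mem)
  have e6 := (el_iff.1 h).1
  rw [Ne, zv3] at hw
  clear e1 hc h e
  grind

end PR

/-- vectors on the hyperoval -/
def Ov (v : Vc k) : Prop :=
  v 0 ^ 4 = v 0 ∧ v 1 ^ 4 = v 1 ∧ v 2 ^ 4 = v 2 ∧ (v 0 * v 1 = v 2 ^ 2 ∨ v 0 = 0 ∧ v 1 = 0)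

theorem ov3 {a b c : k} :
    Ov ![a, b, c] ↔ a ^ 4 = a ∧ b ^ 4 = b ∧ c ^ 4 = c ∧ (a * b = c ^ 2 ∨ a = 0 ∧ b = 0) := Iff.rfl

/-- matrices preserving the hyperoval -/
def OS (A : Mt k) : Prop := ∀ v, Ov v → Ov (A *ᵥ v)

theorem OS.mul {A B : Mt k} (h : OS A) (h' : OS B) : OS (A * B) := fun v hv => by
  rw [← mulVec_mulVec]; exact h _ (h' _ hv)

theorem OS.one : OS (1 : Mt k) := fun v hv => by rwa [one_mulVec]

theorem os_sw : OS (!![0, 1, 0; 1, 0, 0; 0, 0, 1] : Mt k) := fun v hv => by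
  obtain ⟨a, b, c, rfl⟩ := ex3 v
  rw [mv3, ov3] at *
  grind

theorem os_r [CharP k 2] {z : k} (hz : z ^ 4 = z) :
    OS (!![1, z ^ 2, 0; 0, 1, 0; 0, z, 1] : Mt k) := fun v hv => by
  have two := two_eq (k := k)
  obtain ⟨a, b, c, rfl⟩ := ex3 v
  rw [mv3, ov3] at *
  grind

theorem os_s {y : k} (hy : y ^ 3 = 1) :
    OS (!![0, 0, y; 0, 1, 0; y ^ 2, 0, 0] : Mt k) := fun v hv => by
  obtain ⟨a, b, c, rfl⟩ := ex3 v
  rw [mv3, ov3] at *
  by_cases hb : b = 0 <;> grind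

namespace PR

variable {Γ : Type*} [Group Γ] {ρ : PR Γ k} [CharP k 2] [IsAlgClosed k] [Finite Γ] {L : Subfield k}

theorem Hs.os (H : ρ.Hs L) (hi : ρ.Irr) {w ψ : Vc k} (h : ρ.El w ψ) :
    OS (1 + vecMulVec w ψ) := by
  have two := two_eq (k := k)
  haveI := H.fin
  have f4 : ∀ z ∈ L, z ^ 4 = z := fun z hz => by have := H.four hi z hz; grind
  have mv : ∀ w0 w1 w2 p0 p1 p2 z : k, z ∈ L → OS (1 + vecMulVec
      ![w1, w0 + z ^ 2 * w1, w2 + z * w1] ![p0 * z ^ 2 + p1 + p2 * z, p0, p2]) →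
      OS (1 + vecMulVec ![w0, w1, w2] ![p0, p1, p2]) := fun w0 w1 w2 p0 p1 p2 z hz e => by
    convert (((os_r (f4 z hz)).mul os_sw).mul e).mul (os_sw.mul (os_r (f4 z hz))) using 1
    simp only [r13, mul_fin_three, em3]; clear f4 e; grind
  by_cases hψ : ψ 2 = 0
  · have k1 : ∀ w0 w2 p0 p1 : k, ρ.El ![w0, 0, w2] ![p0, p1, 0] →
        OS (1 + vecMulVec ![w0, 0, w2] ![p0, p1, 0]) := fun w0 w2 p0 p1 e => by
      by_cases h0 : p0 = 0
      · subst h0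
        obtain ⟨e1, e2⟩ := H.of_el (p1 * w0) (p1 * w2) (by
          rw [show ![0, p1, 0] = p1 • ![0, 1, 0] by simp, ← El.scale] at e; simpa using e)
        convert os_r (f4 _ e1) using 1
        simp only [r13, em3]; clear f4 mv; grind
      have e1 := (el_iff.1 e).1
      obtain rfl : w0 = 0 := by clear f4 mv; grind
      have e2 := e.comm (H.el 1 L.one_mem) (by simp [dot3])
      simp only [dot3, sv3, mul_zero] at e2
      obtain ⟨-, e3⟩ := H.of_el _ _ e2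
      obtain rfl : w2 = 0 := by clear f4 mv; grind
      rw [r13]; simpa [← one_fin_three] using OS.one (k := k)
    obtain ⟨w0, w1, w2, rfl⟩ := ex3 w
    obtain ⟨p0, p1, p2, rfl⟩ := ex3 ψ
    obtain rfl : p2 = 0 := hψ
    by_cases h1 : w1 = 0
    · subst h1; exact k1 _ _ _ _ h
    by_cases h0 : ![p0, p1, 0] = 0
    · simpa [h0] using OS.one (k := k)
    obtain ⟨z, hz, e⟩ := exists_sqrt (H.dir _ _ h rfl h0 h1)
    have e' : w0 + z ^ 2 * w1 = 0 := by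
      simp only [cons_val] at e; clear f4 mv k1; grind
    have k2 := H.mv hz h
    refine mv _ _ _ _ _ _ z hz ?_
    rw [e'] at k2 ⊢
    exact k1 _ _ _ _ k2
  by_cases hw : w = 0
  · simpa [hw] using OS.one (k := k)
  rw [show vecMulVec w ψ = vecMulVec (ψ 2 • w) ((ψ 2)⁻¹ • ψ) by
    rw [smul_vecMulVec, vecMulVec_smul, smul_inv_smul₀ hψ]]
  replace h : ρ.El (ψ 2 • w) ((ψ 2)⁻¹ • ψ) := by rwa [← El.scale, inv_smul_smul₀ hψ]
  replace hw := smul_ne_zero hψ hw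
  obtain ⟨p0, p1, p2, rfl⟩ := ex3 ψ
  obtain ⟨w0, w1, w2, e⟩ := ex3 (![p0, p1, p2] 2 • w)
  rw [e] at h hw ⊢
  simp only [sv3, cons_val] at h hψ ⊢
  rw [inv_mul_cancel₀ hψ] at h ⊢
  generalize p2⁻¹ * p0 = p0, p2⁻¹ * p1 = p1 at h ⊢
  clear e hψ
  obtain ⟨a, a1, a2, a3⟩ := H.ex
  have a4 := H.four hi a a1
  have a5 := L.add_mem a1 L.one_mem
  have kk : ∀ {w0 w1 w2 p0 p1 : k}, ρ.El ![w0, w1, w2] ![p0, p1, 1] →
      w1 = 0 ∨ p0 = 0 ∨ p0 = w1 ∧ w1 ^ 3 = 1 := fun e =>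
    or_iff_not_imp_left.2 fun e1 => or_iff_not_imp_left.2 fun e2 => (H.dich' e e1 e2).2
  have k1 : ∀ w0 w2 p0 p1 : k, ρ.El ![w0, 0, w2] ![p0, p1, 1] → w0 ≠ 0 →
      OS (1 + vecMulVec ![w0, 0, w2] ![p0, p1, 1]) := fun y w2 p0 p1 e y0 => by
    have e0 := (el_iff.1 e).1
    have e1 := kk (H.mv L.zero_mem e)
    have e2 := kk (H.mv L.one_mem e)
    have e3 := kk (H.mv a1 e)
    have e4 := kk (H.mv a5 e)
    clear mv kk f4 e h
    obtain ⟨e5, e6, e7⟩ : y ^ 3 = 1 ∧ p0 = y ^ 2 ∧ (p1 = 0 ∨ p1 = y) := by grind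
    convert (os_s e5).mul (os_r (z := p1) (by grind)) using 1
    simp only [r13, mul_fin_three, em3]; grind
  have e0 := (el_iff.1 h).1
  rw [Ne, zv3] at hw
  by_cases h1 : w1 = 0
  · subst h1; exact k1 _ _ _ _ h (by clear mv kk f4 k1; grind)
  obtain ⟨z, hz, e⟩ : ∃ z ∈ L, w0 + z ^ 2 * w1 = 0 := by
    by_contra hc
    push Not at hc
    have e0 := kk h
    have e1 := (kk (H.mv L.zero_mem h)).resolve_left (hc _ L.zero_mem)
    have e2 := (kk (H.mv L.one_mem h)).resolve_left (hc _ L.one_mem)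
    have e3 := (kk (H.mv a1 h)).resolve_left (hc _ a1)
    have e4 := (kk (H.mv a5 h)).resolve_left (hc _ a5)
    clear mv kk f4 k1 hc h
    rcases e1 with e1 | ⟨e1, -⟩ <;> rcases e2 with e2 | ⟨e2, -⟩ <;> rcases e3 with e3 | ⟨e3, -⟩ <;>
      rcases e4 with e4 | ⟨e4, -⟩ <;> grind
  have k2 := H.mv hz h
  refine mv _ _ _ _ _ _ z hz ?_
  rw [e] at k2 ⊢
  exact k1 _ _ _ _ k2 h1

omit [CharP k 2] [IsAlgClosed k] in
theorem _root_.Cfsg.Agent.H6.M3.alt6 [IsSimpleGroup Γ] (hna : ¬ ∀ x y : Γ, x * y = y * x)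
    {H : Subgroup Γ} (h1 : H ≠ ⊤) (h6 : H.index ≤ 6) (hc : 180 < Nat.card Γ) :
    Nonempty (Γ ≃* alternatingGroup (Fin 6)) := by
  classical
  letI := Fintype.ofFinite (Γ ⧸ H)
  have h2 : (MulAction.toPermHom Γ (Γ ⧸ H)).range ≤ alternatingGroup _ := by
    rintro _ ⟨g, rfl⟩
    exact hom_one hna (Equiv.Perm.sign.comp (MulAction.toPermHom Γ (Γ ⧸ H))) g
  have h3 := card_dvd_of_le h2
  rw [← Nat.card_congr (MonoidHom.ofInjective (inj_quot h1)).toEquiv] at h3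
  have h0 := H.index_ne_zero_of_finite
  have h4 : H.index ≠ 1 := fun e => h1 (index_eq_one.1 e)
  haveI : Nontrivial (Γ ⧸ H) := Finite.one_lt_card_iff_nontrivial.1 (by
    rw [← index_eq_card]; omega)
  have h5 := two_mul_nat_card_alternatingGroup (α := Γ ⧸ H)
  rw [Nat.card_perm, ← index_eq_card] at h5
  have h7 := Nat.le_of_dvd Nat.card_pos h3
  obtain ⟨m, hm⟩ := h3
  refine iso_alt H (n := 6) ?_ (by simp) ?_ <;>
    generalize H.index = n at * <;> interval_cases n <;> simp only [Nat.factorial] at * <;>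
    try omega
  rcases m with _ | _ | m <;> nlinarith

variable (ρ) in
/-- the hyperoval group -/
structure Hex : Prop where
  iso : Nonempty (Γ ≃* alternatingGroup (Fin 6))
  ge : ρ.Sm fun τ => ∀ A, τ.In A → ∃ c : k, c ≠ 0 ∧ ∀ i j, (c • A) i j ^ 4 = (c • A) i j

theorem Hs.hex [IsSimpleGroup Γ] (hna : ¬ ∀ x y : Γ, x * y = y * x)
    (hP : ⁅(⊤ : Subgroup Γ), (⊤ : Subgroup Γ)⁆ = ⊤) (H : ρ.Hs L) (hi : ρ.Irr) : ρ.Hex := by
  classical
  have two := two_eq (k := k)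
  haveI := H.fin
  have all : ∀ g, ∃ A, ρ.L g A ∧ OS A := fun g => by
    obtain ⟨e, t, ht⟩ := H.el 1 L.one_mem
    have h1 : normalClosure {t} ≤ ρ.grp OS OS.one fun _ _ => OS.mul := (closure_le _).2 fun x hx => by
      obtain ⟨_, rfl, hx'⟩ := Group.mem_conjugatesOfSet_iff.1 hx
      obtain ⟨c, rfl⟩ := isConj_iff.1 hx'
      obtain ⟨A, hA⟩ := ρ.ex c
      obtain ⟨A', h1, -⟩ := exists_inv (ρ.det hA)
      exact ⟨_, ρ.conj hA h1 ht, conj_r1 h1 _ _ ▸ H.os hi (El.conj ⟨e, _, ht⟩ ⟨c, hA⟩ h1)⟩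
    rcases IsSimpleGroup.eq_bot_or_eq_top_of_normal (normalClosure {t}) inferInstance with h | h
    · obtain ⟨c, hc⟩ := (ρ.eq_one_iff ht).1
        ((eq_bot_iff_forall _).1 h t (subset_normalClosure rfl))
      simpa [vecMulVec_apply] using congrFun (congrFun hc 0) 1
    · exact h1 (h ▸ mem_top g)
  refine ⟨?_, Sm.of fun A ⟨g, hA⟩ => ?_⟩
  swap
  · obtain ⟨B, hB, h⟩ := all g
    obtain ⟨c, hc, rfl⟩ := ρ.uniq' hA hB
    refine ⟨c, hc, ?_⟩
    obtain ⟨a0, a1, a2, a3, a4, a5, a6, a7, a8, e⟩ := ex9 (c • A)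
    rw [e] at h ⊢
    have h0 := h ![1, 0, 0] (by simp [ov3])
    have h1 := h ![0, 1, 0] (by simp [ov3])
    have h2 := h ![0, 0, 1] (by simp [ov3])
    simp only [mv3, ov3, mul_one, mul_zero, add_zero, zero_add] at h0 h1 h2
    intro i j
    fin_cases i <;> fin_cases j <;> simp [h0.1, h0.2.1, h0.2.2.1, h1.1, h1.2.1, h1.2.2.1, h2.1,
      h2.2.1, h2.2.2.1]
  obtain ⟨a, a1, a2, a3⟩ := H.ex
  have a4 := H.four hi
  have a5 := ((a4 a a1).resolve_left a2).resolve_left a3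
  have hL : Nat.card L = 4 := by
    have : (L : Set k) = ({0, 1, a, a + 1} : Finset k) := by
      ext z
      simp only [SetLike.mem_coe, Finset.coe_insert, Finset.coe_singleton, Set.mem_insert_iff,
        Set.mem_singleton_iff]
      refine ⟨fun hz => by have := a4 z hz; grind, ?_⟩
      rintro (rfl | rfl | rfl | rfl)
      exacts [L.zero_mem, L.one_mem, a1, L.add_mem a1 L.one_mem]
    rw [show Nat.card L = Nat.card (L : Set k) from rfl, this, Nat.card_coe_set_eq,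
      Set.ncard_coe_finset]
    clear a4 all
    grind
  obtain ⟨K, hK, hc⟩ := H.big
  rw [card_PS, S_eq_top (by rw [hL]; decide), card_top (by omega), hL] at hc
  have h5 : ¬ K.index ≤ 4 := fun e => hK (H2.Zass.eq_top_of_index_le hP K e)
  have := K.index_mul_card
  have pts : ∀ g, ∃ i : Fin 6, ∃ A, ρ.L g A ∧ A *ᵥ ![0, 0, 1] =
      ![![0, 0, 1], ![1, 0, 0], ![0, 1, 0], ![1, 1, 1], ![a + 1, 1, a], ![a, 1, a + 1]] i := fun g => by
    obtain ⟨A, hA, h⟩ := all g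
    have h1 := h ![0, 0, 1] (by simp [ov3])
    have h2 := mulVec_ne_zero (ρ.det hA) (v := ![0, 0, 1]) (by simp)
    obtain ⟨x, y, z, e⟩ := ex3 (A *ᵥ ![0, 0, 1])
    rw [e, ov3] at h1
    rw [e, Ne, zv3] at h2
    suffices ∃ i : Fin 6, ∃ c : k, c ≠ 0 ∧ c • ![x, y, z] =
        ![![0, 0, 1], ![1, 0, 0], ![0, 1, 0], ![1, 1, 1], ![a + 1, 1, a], ![a, 1, a + 1]] i by
      obtain ⟨i, c, hc, h⟩ := this
      exact ⟨i, _, ρ.smul hA hc, by rw [smul_mulVec, e, h]⟩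
    clear all a4 h e
    by_cases hy : y = 0
    · by_cases hx : x = 0
      · exact ⟨0, z⁻¹, by grind, by simp only [sv3, cons_val, ev3]; grind⟩
      · exact ⟨1, x⁻¹, by grind, by simp only [sv3, cons_val, ev3]; grind⟩
    have : z = 0 ∨ z = y ∨ z = a * y ∨ z = (a + 1) * y := by grind
    rcases this with e | e | e | e
    exacts [⟨2, y⁻¹, by grind, by simp only [sv3, cons_val, ev3]; grind⟩,
      ⟨3, y⁻¹, by grind, by simp only [sv3, cons_val, ev3]; grind⟩,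
      ⟨4, y⁻¹, by grind, by simp only [sv3, cons_val, ev3]; grind⟩,
      ⟨5, y⁻¹, by grind, by simp only [sv3, cons_val, ev3]; grind⟩]
  choose f A hA hf using pts
  refine alt6 hna (H := ρ.grp (fun A => A *ᵥ ![0, 0, 1] = ![0, 0, 1]) (one_mulVec _)
    fun A B h h' => by rw [← mulVec_mulVec, h', h]) (fun e => ?_) ?_ (by nlinarith)
  · obtain ⟨B, ⟨g, hg⟩, h⟩ := hi.pt ![0, 0, 1] (by simp)
    obtain ⟨B', h1, h2⟩ := ρ.mem_grp.1 (e ▸ mem_top g)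
    obtain ⟨r, rfl⟩ := ρ.uniq h1 hg
    exact h r (by rw [smul_mulVec, h2])
  · refine (Nat.card_le_card_of_injective (fun q => f q.out) fun q q' e => ?_).trans (by simp)
    rw [← QuotientGroup.out_eq' q, ← QuotientGroup.out_eq' q', QuotientGroup.eq]
    obtain ⟨B, h1, h2⟩ := exists_inv (ρ.det (hA q.out))
    refine ⟨_, ρ.mul (ρ.inv (hA _) h1) (hA _), ?_⟩
    beta_reduce at e ⊢
    rw [← mulVec_mulVec, hf, ← e, ← hf, mulVec_mulVec, h2, one_mulVec]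

omit [CharP k 2] [IsAlgClosed k] [Finite Γ] in
theorem Hex.of_cj {B B' : Mt k} (h : B * B' = 1) (H : (ρ.cj h).Hex) : ρ.Hex :=
  ⟨H.iso, Sm.of_cj h H.ge⟩

omit [CharP k 2] [IsAlgClosed k] [Finite Γ] in
theorem Hex.of_tr (H : ρ.tr.Hex) : ρ.Hex := by
  obtain ⟨h0, B, B', hB, h⟩ := H
  obtain ⟨h1, e⟩ := ρ.cj_tr hB
  refine ⟨h0, _, _, h1, fun A hA => ?_⟩
  obtain ⟨c, hc, h2⟩ := h Aᵀ (by rw [e, in_tr]; exact hA)
  exact ⟨c, hc, fun i j => h2 j i⟩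

theorem trich_two [IsSimpleGroup Γ] (hna : ¬ ∀ x y : Γ, x * y = y * x) (hi : ρ.Irr) :
    (ρ.Sm fun τ => ∃ F0, τ.Lin F0) ∨
      (∃ n, 3 ≤ 2 ^ n ∧ ρ.Sm fun τ => τ.Uni (iterateFrobenius k 2 n)) ∨ ρ.Hex := by
  classical
  have two := two_eq (k := k)
  have hP : ⁅(⊤ : Subgroup Γ), (⊤ : Subgroup Γ)⁆ = ⊤ :=
    (IsSimpleGroup.eq_bot_or_eq_top_of_normal _ inferInstance).resolve_left fun e =>
      hna fun x y => commutatorElement_eq_one_iff_mul_comm.1 ((eq_bot_iff_forall _).1 e _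
        (commutator_mem_commutator (mem_top x) (mem_top y)))
  have key : ∀ τ : PR Γ k, τ.Irr → (∃ φ, τ.Rich φ) → (τ.Sm fun τ => ∃ F0, τ.Lin F0) ∨ τ.Hex :=
    fun τ hi ⟨φ, h⟩ => by
      by_cases hk : τ.KK
      · exact Or.inl (lin_of_rich hi hk h)
      · obtain ⟨B, B', hB, L, H⟩ := hs_of_not_kk hi hk
        exact Or.inr (Hex.of_cj hB (H.hex hna hP (hi.cj hB)))
  by_cases ho : ρ.Opp
  swap
  · rcases rich_of_not_opp ho with h | h
    · exact (key ρ hi h).imp_right Or.inr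
    · rcases key ρ.tr hi.tr h with ⟨B, B', hB, F0, h⟩ | h
      · obtain ⟨h1, e⟩ := ρ.cj_tr hB
        exact Or.inl ⟨_, _, h1, F0, Lin.of_tr (e ▸ h)⟩
      · exact Or.inr (Or.inr h.of_tr)
  by_cases he : ρ.HasEl
  · exact Or.inr (Or.inl (uni_of_opp 2 hi ho he fun hs => opp_small hna hP hi ho hs he))
  have hs : ρ.SA := fun v φ h h1 h2 => absurd (perfect_of_hm 2 hi
    (fun v φ a h1 h2 h _ => absurd ⟨v, φ, h1, h2, h⟩ he) (ξ := φ ⬝ᵥ v + 1)
    (fun e => he ⟨v, φ, h1, h2, by grind, h⟩) ⟨by ring, h⟩ hP) top_ne_bot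
  letI := Fintype.ofFinite Γ
  obtain ⟨t, t1, t2, -⟩ := exists_central (St.even (p := 2) ⟨hs, hna⟩)
  exact absurd two (iv_of_sq 2 hs t2 t1).1

end PR

end Cfsg.Agent.H6.M3
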