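import Cfsg.Agent.H6.MC5

/-! Perfect absolutely irreducible subgroups of `SL₃`: trace conditions. -/

set_option autoImplicit false

namespace Cfsg.Agent.H6.M3

open Matrix Subgroup Cfsg.Geo Cfsg.Agent.H4 Cfsg.Agent.H4.CABasic Cfsg.Agent.H6.MG
open scoped commutatorElement MatrixGroups

variable {k : Type*} [Field k] {F : Type*} [Field F]

theorem hom_triv {G : Type*} [Group G] {P : Subgroup G} (hP : ⁅P, P⁆ = P) (R : G → k → Prop)
    (ex : ∀ x ∈ P, ∃ η, η ≠ 0 ∧ R x η) (uniq : ∀ x η η', R x η → R x η' → η = η')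
    (mul : ∀ x y η η', R x η → R y η' → R (x * y) (η * η')) {x : G} (hx : x ∈ P) : R x 1 := by
  choose η h0 h using fun x : P => ex x x.2
  have := H9.perfect_hom_eq_one hP (MonoidHom.mk' (fun x : P => Units.mk0 (η x) (h0 x)) fun a b =>
    Units.ext (uniq _ _ _ (h (a * b)) (mul _ _ _ _ (h a) (h b)))) ⟨x, hx⟩
  exact (show η ⟨x, hx⟩ = 1 from congrArg Units.val this) ▸ h ⟨x, hx⟩

theorem adj_of_mul {A A' : Mt k} (d : A.det = 1) (h : A * A' = 1) : A.adjugate = A' :=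
  cancel_left (A := A) (by simp [d]) (by rw [mul_adjugate, d, one_smul, h])

theorem tpc (p : ℕ) [Fact p.Prime] [CharP F p] (A : Mt F) (n : ℕ) :
    (A ^ p ^ n).trace = A.trace ^ p ^ n :=
  (algebraMap F (AlgebraicClosure F)).injective (by
    rw [map_pow, ← trace_map, ← trace_map, Matrix.map_pow, trace_pow_char])

theorem card_dvd_of_pow [Finite F] {m n : ℕ} (h : ∀ a : F, a ^ (m + n) = a ^ m) :
    Nat.card F - 1 ∣ n := by
  letI := Fintype.ofFinite F
  rw [Nat.card_eq_fintype_card, ← FiniteField.forall_pow_eq_one_iff]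
  exact fun a => mul_left_cancel (a := a ^ m) (Units.ext (by simpa [pow_add] using h a))

theorem conj_real {G : Type*} [Group G] {g : G} {n r : ℕ} (hn : g ^ n = 1)
    (h : ∃ s, s * g * s⁻¹ = g⁻¹) (hr : r % n = 1 ∨ (r + 1) % n = 0) :
    IsConj (g ^ r) g ∧ IsConj (g ^ r) g⁻¹ := by
  have h := isConj_iff.2 h
  rcases hr with hr | hr
  · rw [pow_eq_pow_mod _ hn, hr, pow_one]; exact ⟨IsConj.refl _, h⟩
  · rw [eq_inv_of_mul_eq_one_left (show g ^ r * g = 1 by
      rw [← pow_succ, pow_eq_pow_mod _ hn, hr, pow_zero])]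
    exact ⟨h.symm, IsConj.refl _⟩

theorem conj_seven {G : Type*} [Group G] {g : G} {r : ℕ} (hn : g ^ 7 = 1) (h : IsConj g (g ^ 2)) :
    (r % 7 = 1 ∨ r % 7 = 2 ∨ r % 7 = 4 → IsConj (g ^ r) g) ∧
      (r % 7 = 3 ∨ r % 7 = 5 ∨ r % 7 = 6 → IsConj (g ^ r) g⁻¹) := by
  have h1 : ∀ j, IsConj (g ^ (2 * j)) (g ^ j) := fun j => by rw [pow_mul]; exact (h.pow j).symm
  have h2 : ∀ j, IsConj (g ^ (2 * (2 * j))) (g ^ j) := fun j => (h1 _).trans (h1 _)
  rw [pow_eq_pow_mod _ hn, ← eq_inv_of_mul_eq_one_left (show g ^ 6 * g = 1 by rw [← pow_succ, hn])]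
  refine ⟨?_, ?_⟩ <;> rintro (e | e | e) <;> rw [e]
  · rw [pow_one]
  · simpa using h1 1
  · simpa using h2 1
  · exact (h1 3).symm
  · simpa [pow_eq_pow_mod 20 hn] using (h2 5).symm

/-- a twisted self-duality in terms of traces -/
def Tw (P : Subgroup (GL (Fin 3) F)) (m : ℕ) : Prop := ∀ x ∈ P, (x⁻¹).1.trace = x.1.trace ^ m

namespace PR

/-- the projective representation of a linear group -/
def quo (X : Subgroup (GL (Fin 3) F)) : PR (X ⧸ (scalars (Fin 3) F).subgroupOf X) F :=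
  ofHom ((Units.coeHom _).comp X.subtype) (QuotientGroup.mk' _) (QuotientGroup.mk'_surjective _)
    fun x => by
      rw [QuotientGroup.mk'_apply, QuotientGroup.eq_one_iff, mem_subgroupOf, mem_scalars_iff]
      exact ⟨fun ⟨c, h⟩ => ⟨c, h⟩, fun ⟨c, h⟩ => ⟨Units.mk0 c (by
        rintro rfl; exact x.1.ne_zero (h.trans (zero_smul _ _))), h⟩⟩

theorem quo_L {X : Subgroup (GL (Fin 3) F)} (x : X) : (quo X).L x x.1.1 := ofHom_L x

theorem quo_cov {X : Subgroup (GL (Fin 3) F)} (h : ∀ x ∈ X, x.1.det = 1) : (quo X).Cov X :=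
  ⟨fun B hB => ⟨_, quo_L ⟨B, hB⟩⟩, h, fun g => by
    obtain ⟨x, rfl⟩ := QuotientGroup.mk_surjective g
    exact ⟨x, x.2, quo_L x⟩⟩

variable {Γ : Type*} [Group Γ] {ρ : PR Γ F} {ι : F →+* k} {H P X : Subgroup (GL (Fin 3) F)}

theorem Cov.le_of [Finite F] [Finite Γ] (h : ρ.Cov H) (hle : H ≤ X) (hX : ∀ x ∈ X, x.1.det = 1)
    (h1 : ∀ c : F, c ^ 3 = 1 → (∃ x ∈ X, x.1 = c • 1) → ∃ x ∈ X, x.1 = dg 1 c (c ^ 2))
    (h2 : ∃ x ∈ X, x.1 = !![0, 0, 1; 1, 0, 0; 0, 1, 0]) {τ : PR Γ k}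
    (hτ : ∀ y ∈ X, τ.In (y.1.map ι)) : X ≤ H := by
  obtain ⟨j, hj, -⟩ := hom_of_le (ρ := (quo X).up ι) τ fun g => by
    obtain ⟨x, hx, e⟩ := (quo_cov hX).ex g
    exact ⟨_, up_of e, hτ x hx⟩
  obtain ⟨j', hj', e⟩ := hom_of_le (ρ := ρ) (quo X) fun g => by
    obtain ⟨x, hx, e⟩ := h.ex g
    exact ⟨_, e, (quo_cov hX).mem x (hle hx)⟩
  have hs := (Finite.surjective_of_injective (hj'.comp hj)).of_comp
  have key : ∀ y ∈ X, ∃ x ∈ H, ∃ c : F, y.1 = c • x.1 := fun y hy => by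
    obtain ⟨g, hg⟩ := hs (⟨y, hy⟩ : X)
    exact h.lift ⟨g, (e g _).1 (hg ▸ quo_L ⟨y, hy⟩)⟩
  intro y hy
  obtain ⟨x, hx, c, e⟩ := key y hy
  have c3 : c ^ 3 = 1 := by simpa [hX y hy, h.det x hx] using (congrArg Matrix.det e).symm
  obtain ⟨D, hD, e1⟩ := h1 c c3 ⟨y * x⁻¹, X.mul_mem hy (X.inv_mem (hle hx)), by
    rw [Units.val_mul, e, smul_mul_assoc, Units.mul_inv]⟩
  obtain ⟨C, hC, e2⟩ := h2
  obtain ⟨d, hd, a, e3⟩ := key D hD
  obtain ⟨f, hf, b, e4⟩ := key C hC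
  have e5 : D.1 * C.1 = c • (C.1 * D.1) := by
    rw [e1, e2]; simp only [mul_fin_three, sm3, em3]; grind
  have e6 : d.1 * f.1 = c • (f.1 * d.1) := by
    have ha : a ≠ 0 := by rintro rfl; exact D.ne_zero (e3.trans (zero_smul _ _))
    have hb : b ≠ 0 := by rintro rfl; exact C.ne_zero (e4.trans (zero_smul _ _))
    rw [e3, e4, smul_mul_smul_comm, smul_mul_smul_comm, mul_comm b, smul_comm c] at e5
    exact smul_right_injective _ (mul_ne_zero ha hb) e5
  have : y = d * f * (f * d)⁻¹ * x := Units.ext (by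
    rw [Units.val_mul, Units.val_mul, Units.val_mul d, e6, ← Units.val_mul, smul_mul_assoc,
      Units.mul_inv, smul_mul_assoc, one_mul, e])
  rw [this]
  exact H.mul_mem (H.mul_mem (H.mul_mem hd hf) (H.inv_mem (H.mul_mem hf hd))) hx

variable (ρ H P) in
/-- the standing assumptions -/
structure Core : Prop where
  cov : ρ.Cov H
  le : P ≤ H
  perf : ⁅P, P⁆ = P
  gen : ∀ L : Subfield F, (∀ x ∈ P, x.1.trace ∈ L) → L = ⊤

theorem Core.eq (h : ρ.Core H P) (f g : F →+* k) (e : ∀ x ∈ P, f x.1.trace = g x.1.trace) (a : F) :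
    f a = g a := (show a ∈ f.eqLocusField g from h.gen (f.eqLocusField g) e ▸ Subfield.mem_top a)

section

variable {B B' : Mt k} (hB : B * B' = 1)
include hB

theorem conj_mul' (x y : GL (Fin 3) F) : B' * (x * y).1.map ι * B =
    B' * x.1.map ι * B * (B' * y.1.map ι * B) := by
  rw [Units.val_mul, Matrix.map_mul]
  calc _ = B' * x.1.map ι * (B * B') * y.1.map ι * B := by simp only [hB, mul_one, mul_assoc]
    _ = _ := by simp only [mul_assoc]

theorem conj_det (x : GL (Fin 3) F) : (B' * x.1.map ι * B).det ≠ 0 := by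
  simp [det_map, (det_of_mul hB).1, (det_of_mul hB).2, x.det_ne_zero]

theorem conj_trace (x : GL (Fin 3) F) : (B' * x.1.map ι * B).trace = ι x.1.trace := by
  rw [trace_mul_cycle, hB, one_mul, trace_map]

theorem Cov.in_cj (h : ρ.Cov H) {x : GL (Fin 3) F} (hx : x ∈ H) :
    ((ρ.up ι).cj hB).In (B' * x.1.map ι * B) :=
  (h.mem x hx).elim fun g hg => ⟨g, (cj_L' _ hB).2 (up_of hg)⟩

theorem Core.fix (h : ρ.Core H P) (θ : k →+* k)
    (e : ∀ A, ((ρ.up ι).cj hB).In A → ∃ c : k, c ≠ 0 ∧ ∀ i j, θ ((c • A) i j) = (c • A) i j)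
    (a : F) : θ (ι a) = ι a := by
  refine h.eq (θ.comp ι) ι (fun x hx => ?_) a
  have := hom_triv h.perf (fun x η => (B' * x.1.map ι * B).map θ = η • (B' * x.1.map ι * B))
    (fun x hx => by
      obtain ⟨c, hc, h1⟩ := e _ (h.cov.in_cj hB (h.le hx))
      have h2 := (map_ne_zero θ).2 hc
      refine ⟨c / θ c, div_ne_zero hc h2, smul_right_injective _ h2 ?_⟩
      simp only
      rw [← map_smul', smul_smul, mul_div_cancel₀ _ h2]
      ext i j; exact h1 i j)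
    (fun x η η' h1 h2 => smul_cancel (conj_det hB x) (h1.symm.trans h2))
    (fun x y η η' h1 h2 => by rw [conj_mul' hB, Matrix.map_mul, h1, h2, smul_mul_smul_comm]) hx
  simpa only [trace_map, one_smul, conj_trace hB, RingHom.comp_apply] using congrArg Matrix.trace this

theorem Core.tw (h : ρ.Core H P) {σ : k →+* k} (e : ((ρ.up ι).cj hB).Uni σ) {x : GL (Fin 3) F}
    (hx : x ∈ P) : ι (x⁻¹).1.trace = σ (ι x.1.trace) := by
  have := hom_triv h.perf (fun x η => ((B' * x.1.map ι * B).map σ)ᵀ * (B' * x.1.map ι * B) = η • 1)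
    (fun x hx => by
      obtain ⟨c, hc, h1⟩ := e.ge _ (h.cov.in_cj hB (h.le hx))
      have h2 := mul_ne_zero ((map_ne_zero σ).2 hc) hc
      refine ⟨_, inv_ne_zero h2, smul_right_injective _ h2 ?_⟩
      simp only
      rw [smul_inv_smul₀ h2, ← h1, map_smul', transpose_smul, smul_mul_smul_comm])
    (fun x η η' h1 h2 => smul_cancel (A := 1) (by simp) (h1.symm.trans h2))
    (fun x y η η' h1 h2 => by
      rw [conj_mul' hB, Matrix.map_mul, transpose_mul, mul_assoc, ← mul_assoc _ (B' * _ * B), h1,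
        smul_mul_assoc, one_mul, mul_smul_comm, h2, smul_smul]) hx
  rw [one_smul] at this
  rw [← conj_trace hB, ← conj_trace hB, ← trace_map, ← trace_transpose (Matrix.map _ σ)]
  congr 1
  refine cancel_right (conj_det (ι := ι) hB x) ?_
  rw [this, ← conj_mul' hB, inv_mul_cancel, Units.val_one, map_one', mul_one, mul_eq_one_comm.1 hB]

end

variable (p : ℕ) [Fact p.Prime] [CharP F p] [CharP k p] [Finite F] [Finite Γ]

include p in
theorem Core.lin (h : ρ.Core H P) (e : (ρ.up ι).Sm fun τ => ∃ F0, τ.Lin F0) :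
    specialLinear (Fin 3) F ≤ H := by
  obtain ⟨B, B', hB, F0, e⟩ := e
  haveI := e.fin
  obtain ⟨β, -, hβ⟩ := FF.card_eq_pow (F := F0) p
  have hθ : ∀ x, x ∈ F0 ↔ iterateFrobenius k p β x = x := fun x => by
    rw [mem_iff_pow, hβ, iterateFrobenius_def]
  have h1 := h.fix hB _ fun A hA => (e.ge A hA).imp fun c hc => ⟨hc.1, fun i j => (hθ _).1 (hc.2 i j)⟩
  have hs : ∀ x : GL (Fin 3) F, x ∈ specialLinear (Fin 3) F ↔ x.1.det = 1 := fun x => Units.ext_iff
  refine h.cov.le_of (ι := ι) (fun x hx => (hs x).2 (h.cov.det x hx)) (fun x => (hs x).1) (fun c hc _ => ?_)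
    ⟨.mkOfDetNeZero !![0, 0, 1; 1, 0, 0; 0, 1, 0] (by simp [dm3]), (hs _).2 (by simp [dm3]), rfl⟩
    fun y hy => e.le _ (fun i j => (hθ _).2 (h1 _)) (by rw [det_map, (hs y).1 hy, map_one])
  have : (dg 1 c (c ^ 2)).det = 1 := by rw [dm3]; linear_combination hc
  exact ⟨.mkOfDetNeZero _ (this.trans_ne one_ne_zero), (hs _).2 this, rfl⟩

omit [Finite F] [Finite Γ] in
theorem frob_map (n : ℕ) (a : F) : ι (iterateFrobenius F p n a) = iterateFrobenius k p n (ι a) := by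
  simp [iterateFrobenius_def]

theorem Core.uni (h : ρ.Core H P) {n : ℕ}
    (e : (ρ.up ι).Sm fun τ => τ.Uni (iterateFrobenius k p n)) : Tw P (p ^ n) ∧
    ∀ X : Subgroup (GL (Fin 3) F), (∀ y, y ∈ X ↔ y.1.det = 1 ∧
      (y.1.map (iterateFrobenius F p n))ᵀ * y.1 = 1) → H ≤ X → X ≤ H := by
  obtain ⟨B, B', hB, e⟩ := e
  refine ⟨fun x hx => ι.injective (by rw [h.tw hB e hx, map_pow, iterateFrobenius_def]),
    fun X hX hle => h.cov.le_of (ι := ι) hle (fun x hx => ((hX x).1 hx).1) (fun c hc ⟨x, hx, e⟩ => ?_)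
    ⟨.mkOfDetNeZero !![0, 0, 1; 1, 0, 0; 0, 1, 0] (by simp [dm3]), (hX _).2 ⟨by simp [dm3], by
      simp [eq9, mul_apply, Fin.sum_univ_three]⟩, rfl⟩
    fun y hy => e.le _ (by rw [det_map, ((hX y).1 hy).1, map_one]) ?_⟩
  · have : (dg 1 c (c ^ 2)).det = 1 := by rw [dm3]; linear_combination hc
    have h1 := congrFun (congrFun ((hX x).1 hx).2 0) 0
    simp [e, mul_apply, Fin.sum_univ_three] at h1
    refine ⟨.mkOfDetNeZero _ (this.trans_ne one_ne_zero), (hX _).2 ⟨this, ?_⟩, rfl⟩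
    simp [eq9, mul_apply, Fin.sum_univ_three, h1, ← mul_pow]
  · rw [← map_one' ι, ← ((hX y).1 hy).2, Matrix.map_mul, transpose_map]
    congr 2
    ext i j
    exact (frob_map p n _).symm

end PR

end Cfsg.Agent.H6.M3
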