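import Cfsg.Agent.H6.R3
import Cfsg.Agent.H5.SUThree1

/-! The group of order 168 in `SU₃(5)`. -/

set_option autoImplicit false

namespace Cfsg.Agent.H6.M3

open Matrix Subgroup Cfsg.Geo Cfsg.Agent.H6.MG Cfsg.Agent.Asch
open scoped commutatorElement MatrixGroups

variable {F : Type*} [Field F]

theorem gens168 {G : Type*} [Group G] (e : G ≃* PSL(3, ZMod 2)) : ∃ t c s d : G, t * t = 1 ∧ t ≠ 1 ∧
    c * c * c = 1 ∧ t * (c * t * c * c) = c * c * t * c ∧ c * t * c * c * t = c * c * t * c ∧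
    s * s = 1 ∧ s * t = c * t * c * c * s ∧ s * c = c * c * s ∧ d * (c * c * t * c) = s * d ∧
    d * s = s * (c * c * t * c) * d ∧ t * d * t * d = 1 ∧ d * d * d = 1 ∧
    c * d * (c * d) * (c * d) = 1 ∧ ∀ N : Subgroup G, t ∈ N → c ∈ N → s ∈ N → d ∈ N → N = ⊤ := by
  let ψ : SL(3, ZMod 2) →* G := e.symm.toMonoidHom.comp (QuotientGroup.mk' _)
  let t : SL(3, ZMod 2) := ⟨!![0, 0, 1; 0, 1, 0; 1, 0, 0], by rw [dm3]; decide⟩
  let c : SL(3, ZMod 2) := ⟨!![0, 0, 1; 1, 0, 1; 1, 1, 0], by rw [dm3]; decide⟩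
  let s : SL(3, ZMod 2) := ⟨!![1, 0, 0; 1, 0, 1; 1, 1, 0], by rw [dm3]; decide⟩
  let d : SL(3, ZMod 2) := ⟨!![1, 0, 1; 1, 1, 0; 1, 0, 0], by rw [dm3]; decide⟩
  have ne : ∀ x, x * d ≠ d * x → ψ x ≠ 1 := fun x h h' => h (mem_center_iff.1
    ((QuotientGroup.eq_one_iff x).1 (e.symm.map_eq_one_iff.1 h')) d).symm
  have one : ∀ {x}, x = 1 → ψ x = 1 := fun h => h ▸ map_one ψ
  refine ⟨ψ t, ψ c, ψ s, ψ d, ?_, ne _ (by decide), ?_, ?_, ?_, ?_, ?_, ?_, ?_, ?_, ?_, ?_, ?_,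
    fun N h1 h2 h3 h4 => ?_⟩
  iterate 12
    simp only [← map_mul]
    first | exact one (by decide) | exact congrArg ψ (by decide)
  haveI : Finite G := Nat.finite_of_card_ne_zero (by rw [Nat.card_congr e.toEquiv, psl32.1]; simp)
  haveI := psl32.2
  haveI := e.isSimpleGroup
  haveI : Fact (Nat.Prime 7) := ⟨by norm_num⟩
  haveI : Fact (Nat.Prime 3) := ⟨by norm_num⟩
  have k1 := orderOf_dvd_natCard N h2
  have k2 := orderOf_dvd_natCard N (N.mul_mem h1 h3)
  have k3 := orderOf_dvd_natCard N (N.mul_mem (N.mul_mem h2 h2) h4)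
  simp only [← map_mul] at k2 k3
  rw [orderOf_eq_prime (p := 3) (by rw [← map_pow]; exact one (by decide)) (ne _ (by decide))] at k1
  rw [orderOf_eq_prime_pow (p := 2) (n := 1) (by rw [← map_pow]; exact ne _ (by decide))
    (by rw [← map_pow]; exact one (by decide))] at k2
  rw [orderOf_eq_prime (p := 7) (by rw [← map_pow]; exact one (by decide)) (ne _ (by decide))] at k3
  have k4 := N.index_mul_card
  rw [Nat.card_congr e.toEquiv, psl32.1] at k4
  have k5 : 84 ≤ Nat.card N := Nat.le_of_dvd Nat.card_pos (by omega)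
  refine H2.Zass.eq_top_of_index_le ((IsSimpleGroup.eq_bot_or_eq_top_of_normal _
    inferInstance).resolve_left fun h => ne ⁅t, c⁆ (by decide) ?_) N (by nlinarith)
  rw [map_commutatorElement]
  exact (eq_bot_iff_forall _).1 h _ (commutator_mem_commutator (mem_top _) (mem_top _))

theorem trace_inv {T : Mt F} (h : T * T = 1) (h1 : T ≠ 1) (d : T.det = 1) : T.trace = -1 := by
  have := cayley T
  rw [h, one_mul, adj_of_mul d h, d] at this
  by_contra e
  refine h1 (smul_right_injective _ (show T.trace + 1 ≠ 0 from fun e' => e (by grind)) ?_)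
  simp only
  rw [← sub_eq_zero, ← this]
  module

theorem std_v4 (h2 : (2 : F) ≠ 0) {T C : Mt F} (t1 : T * T = 1) (t2 : T ≠ 1) (t3 : T.det = 1)
    (c1 : C * C * C = 1) (e1 : T * (C * T * C * C) = C * C * T * C)
    (e2 : C * T * C * C * T = C * C * T * C) : ∃ B B' : Mt F, B * B' = 1 ∧
      T * B = B * dg 1 (-1) (-1) ∧ C * B = B * !![0, 0, 1; 1, 0, 0; 0, 1, 0] := by
  have c2 : ∀ X : Mt F, C * (C * (C * X)) = X := fun X => by
    rw [← mul_assoc, ← mul_assoc, c1, one_mul]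
  have t4 : ∀ X : Mt F, T * (T * X) = X := fun X => by rw [← mul_assoc, t1, one_mul]
  have k1 := trace_inv t1 t2 t3
  have k2 : (C * T * C * C).trace = -1 := by
    rw [mul_assoc, trace_mul_comm, ← mul_assoc, c1, one_mul, k1]
  have k3 : (C * C * T * C).trace = -1 := by
    rw [trace_mul_comm, ← mul_assoc, ← mul_assoc, c1, one_mul, k1]
  obtain ⟨u, hu⟩ : ∃ u, ((1 + T) * (1 - C * T * C * C)) *ᵥ u ≠ 0 := by
    by_contra hc
    push Not at hc
    have := congrArg Matrix.trace (ext_of_mulVec_single (M := (1 + T) * (1 - C * T * C * C)) (N := 0)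
      fun i => by rw [hc, zero_mulVec])
    simp only [add_mul, mul_sub, one_mul, mul_one, e1, trace_add, trace_sub, k1, k2, k3] at this
    simp at this
    exact mul_ne_zero h2 h2 (by linear_combination this)
  have v1 : T * ((1 + T) * (1 - C * T * C * C)) = (1 + T) * (1 - C * T * C * C) := by
    rw [← mul_assoc, mul_add, t1, mul_one, add_comm]
  have v2 : C * T * C * C * ((1 + T) * (1 - C * T * C * C)) = -((1 + T) * (1 - C * T * C * C)) := by
    have : C * T * C * C * (C * T * C * C) = 1 := by simp only [mul_assoc, c2, t4]; simpa using c2 1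
    have e := e2.trans e1.symm
    generalize C * T * C * C = U at *
    calc _ = (U + U * T) * (1 - U) := by noncomm_ring
      _ = (1 + T) * (U - U * U) := by rw [e]; noncomm_ring
      _ = _ := by rw [this]; noncomm_ring
  generalize (1 + T) * (1 - C * T * C * C) = E at *
  have v3 : T * (C * E) = -(C * E) := by
    have : C * C * T * C * E = -E := by rw [← e1, mul_assoc, v2, mul_neg, v1]
    rw [← mul_neg, ← this]; simp only [mul_assoc, c2]
  have v4 : T * (C * (C * E)) = -(C * (C * E)) := by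
    rw [← mul_neg, ← mul_neg, ← v2]; simp only [mul_assoc, c2]
  have w1 := congrArg (· *ᵥ u) v1
  have w3 := congrArg (· *ᵥ u) v3
  have w4 := congrArg (· *ᵥ u) v4
  have w5 := congrArg (· *ᵥ u) (c2 E)
  simp only [← mulVec_mulVec, neg_mulVec] at w1 w3 w4 w5
  generalize E *ᵥ u = v at *
  have key : ∀ x y z : F, x • v + y • C *ᵥ v + z • C *ᵥ C *ᵥ v = 0 → x = 0 := fun x y z h => by
    have h' := congrArg (T *ᵥ ·) h
    simp only [mulVec_add, mulVec_smul, w1, w3, w4, mulVec_zero] at h'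
    have : (2 * x) • v = 0 := by linear_combination (norm := module) h + h'
    simpa [hu, h2] using this
  obtain ⟨B', hB⟩ := Ind.inv (u := v) (v := C *ᵥ v) (w := C *ᵥ C *ᵥ v) fun x y z h => by
    have h1 := congrArg (C *ᵥ ·) h
    have h2 := congrArg (C *ᵥ ·) h1
    simp only [mulVec_add, mulVec_smul, w5, mulVec_zero] at h1 h2
    exact ⟨key x y z h, key y z x (by rw [← h2]; abel), key z x y (by rw [← h1]; abel)⟩
  exact ⟨_, B', hB, by rw [mul_cols, cols_mul, w1, w3, w4]; simp, by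
    rw [mul_cols, cols_mul, w5]; simp⟩

theorem std_sd (h5 : (5 : F) = 0) {T C S D : Mt F} (t : T = dg 1 (-1) (-1))
    (c : C = !![0, 0, 1; 1, 0, 0; 0, 1, 0]) (s0 : S.det = 1) (s1 : S * S = 1)
    (s2 : S * T = C * T * C * C * S) (s3 : S * C = C * C * S) (d1 : D * (C * C * T * C) = S * D)
    (d2 : D * S = S * (C * C * T * C) * D) (d3 : T * D * T * D = 1) (d4 : D * D * D = 1)
    (d5 : C * D * (C * D) * (C * D) = 1) : S = !![0, -1, 0; -1, 0, 0; 0, 0, -1] ∧ ∃ α : F,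
      α ^ 2 + 2 * α + 3 = 0 ∧ D = !![2, 3, α; 2, 3, -α; α + 2, α + 2, 0] := by
  subst t c
  obtain ⟨a0, a1, a2, a3, a4, a5, a6, a7, a8, rfl⟩ := ex9 S
  obtain ⟨b0, b1, b2, b3, b4, b5, b6, b7, b8, rfl⟩ := ex9 D
  simp only [mul_fin_three, one_fin_three, em3, dm3] at s0 s1 s2 s3
  obtain ⟨rfl, rfl, rfl, rfl, rfl, rfl, rfl, rfl, rfl⟩ : a0 = 0 ∧ a1 = -1 ∧ a2 = 0 ∧ a3 = -1 ∧ a4 = 0 ∧
    a5 = 0 ∧ a6 = 0 ∧ a7 = 0 ∧ a8 = -1 := by grind
  refine ⟨rfl, b2, ?_⟩
  simp only [mul_fin_three, one_fin_three, em3] at d1 d2 d3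
  obtain ⟨rfl, rfl, rfl, rfl, rfl, rfl⟩ : b3 = b0 ∧ b4 = b1 ∧ b5 = -b2 ∧ b1 = -b0 ∧ b7 = b6 ∧ b8 = 0 := by
    grind
  simp only [mul_fin_three, one_fin_three, em3] at d4 d5 ⊢
  grind

open H5.SU in
theorem chk168 : ∀ α : K25, α ^ 2 + 2 * α + 3 = 0 → ∃ μ, ∃ y : Mt K25, SU3 c25 1 y ∧
    ¬ SFr (y 0 0) (y 1 0) (μ * y 2 0) ∧ ∀ a b c, SFr a b (μ * c) → SFr a (-b) (μ * -c) ∧
      SFr c a (μ * b) ∧ SFr (-b) (-a) (μ * -c) ∧ SFr (2 * a + 3 * b + α * c) (2 * a + 3 * b + -α * c)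
        (μ * ((α + 2) * a + (α + 2) * b)) ∧ ∀ w : K25, w ^ 3 = 1 →
          SFr a (w * b) (μ * (w ^ 2 * c)) ∧ SFr (w * a) (w * b) (μ * (w * c)) := fun α h => by
  rcases (by decide +kernel : ∀ α : K25, α ^ 2 + 2 * α + 3 = 0 → α = .of 10 ∨ α = .of 18) α h
    with rfl | rfl
  · exact ⟨.of 13, !![.of 2, .of 3, .of 8; .of 3, .of 2, .of 8; .of 22, .of 22, 0],
      by decide +kernel, by decide +kernel, by decide +kernel⟩
  · exact ⟨.of 16, !![.of 2, .of 3, .of 10; .of 3, .of 2, .of 10; .of 18, .of 18, 0],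
      by decide +kernel, by decide +kernel, by decide +kernel⟩

/-- the stabiliser of a set of vectors -/
def stb [Finite F] (S : Vc F → Prop) : Subgroup (GL (Fin 3) F) where
  carrier := {g | ∀ v, S v → S (g.1 *ᵥ v)}
  mul_mem' := fun {a b} ha hb v hv => by
    rw [Units.val_mul, ← mulVec_mulVec]; exact ha _ (hb v hv)
  one_mem' := fun v hv => by simpa using hv
  inv_mem' := fun {g} hg v hv => by
    have : ∀ n, S ((g ^ n).1 *ᵥ v) := fun n => by
      induction n with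
      | zero => simpa using hv
      | succ n ih => rw [pow_succ', Units.val_mul, ← mulVec_mulVec]; exact hg _ ih
    rw [show g⁻¹ = g ^ (orderOf g - 1) by
      rw [inv_eq_iff_mul_eq_one, ← pow_succ', Nat.sub_add_cancel (orderOf_pos g), pow_orderOf_eq_one]]
    exact this _

open H5.SU in
theorem no_max168 [Fintype F] (h25 : Fintype.card F = 5 ^ 2) {σ : F ≃+* F} (hσ : ∀ a, σ (σ a) = a)
    (hne : σ ≠ RingEquiv.refl F) {H P : Subgroup (GL (Fin 3) F)} (hH : IsMaximalIn (SUG σ 1) H)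
    (hle : P ≤ H) (e : P ≃* PSL(3, ZMod 2)) (hz : ∀ z ∈ P, ∀ c : F, z.1 = c • 1 → z = 1)
    (htop : ∀ h ∈ H, ∃ x ∈ P, ∃ c : F, h.1 = c • x.1) : False := by
  obtain ⟨φ, hφ⟩ := model25 h25 hσ hne
  have h5 : (5 : F) = 0 := by rw [← map_ofNat φ 5, show (5 : K25) = 0 by decide +kernel, map_zero]
  have su := fun x : P => mem_SUG'.1 (hH.1.le (hle x.2))
  obtain ⟨t, c, s, d, r1, r2, r3, r4, r5, r6, r7, r8, r9, r10, r11, r12, r13, gen⟩ := gens168 e
  let m : P →* Mt F := (Units.coeHom _).comp P.subtype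
  obtain ⟨B, B', hB, b1, b2⟩ := std_v4 (fun h => one_ne_zero (α := F) (by linear_combination h5 - 2 * h))
    (T := m t) (C := m c) (by rw [← map_mul, r1, map_one])
    (fun h => r2 (Subtype.ext (Units.ext h))) (su t).2 (by simp only [← map_mul, r3, map_one])
    (by simp only [← map_mul, r4]) (by simp only [← map_mul, r5])
  have hB' := mul_eq_one_comm.1 hB
  let f : Mt F →* Mt F := ⟨⟨fun X => B' * X * B, by rw [mul_one, hB']⟩, fun X Y => by
    calc _ = B' * X * (B * B') * Y * B := by simp only [hB, mul_one, mul_assoc]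
      _ = _ := by simp only [mul_assoc]⟩
  have f1 : ∀ X Y, X * B = B * Y → f X = Y := fun X Y h => by
    change B' * X * B = Y
    rw [mul_assoc, h, ← mul_assoc, hB', one_mul]
  have f2 : ∀ X, B' * X = f X * B' := fun X => by
    change _ = B' * X * B * B'
    rw [mul_assoc, hB, mul_one]
  have f3 : ∀ X, (f X).det = X.det := fun X => by
    change (B' * X * B).det = _
    rw [det_mul_comm, ← mul_assoc, hB, one_mul]
  have f4 : ∀ X, f (B * X * B') = X := fun X => f1 _ _ (by rw [mul_assoc, hB', mul_one])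
  replace b1 := f1 _ _ b1
  replace b2 := f1 _ _ b2
  obtain ⟨b3, α, hα, b4⟩ := std_sd h5 (S := f (m s)) (D := f (m d)) b1 b2 ((f3 _).trans (su s).2)
    (by simp only [← map_mul, r6, map_one]) (by simp only [← map_mul, r7])
    (by simp only [← map_mul, r8]) (by simp only [← map_mul, r9]) (by simp only [← map_mul, r10])
    (by simp only [← map_mul, r11, map_one]) (by simp only [← map_mul, r12, map_one])
    (by simp only [← map_mul, r13, map_one])
  have g1 : ∀ X : Mt F, Xᵀ * 1 * X.map σ = 1 →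
      (f X)ᵀ * (Bᵀ * B.map σ) * (f X).map σ = Bᵀ * B.map σ := fun X h => by
    have : B * f X = X * B := by
      change B * (B' * X * B) = _
      rw [← mul_assoc, ← mul_assoc, hB, one_mul]
    rw [← mul_assoc, ← transpose_mul, mul_assoc, ← map_mul_equiv, this, transpose_mul,
      map_mul_equiv, mul_assoc, ← mul_assoc Xᵀ, ← mul_one Xᵀ, h, one_mul]
  obtain ⟨l, hl⟩ : ∃ l : F, Bᵀ * B.map σ = l • 1 := by
    have k1 := g1 (m t) (su t).1
    have k2 := g1 (m c) (su c).1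
    rw [b1] at k1
    rw [b2] at k2
    obtain ⟨a0, a1, a2, a3, a4, a5, a6, a7, a8, h⟩ := ex9 (Bᵀ * B.map σ)
    rw [h] at k1 k2 ⊢
    simp [eq9, mul_apply, Fin.sum_univ_three] at k1 k2
    exact ⟨a0, by simp only [one_fin_three, sm3, em3]; grind⟩
  have mem : ∀ M : Mt F, Mᵀ * 1 * M.map σ = 1 → M.det = 1 → ∃ g ∈ SUG σ 1, f g.1 = M := fun M h1 h2 => by
    obtain ⟨g, hg, e⟩ := exists_mem_SUG (σ := σ) (G := 1) (x := B * M * B') (by
      have k : ∀ N : Mt F, (B * N * B')ᵀ * 1 * (B * N * B').map σ =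
          l • (B'ᵀ * (Nᵀ * 1 * N.map σ) * B'.map σ) := fun N => by
        calc _ = B'ᵀ * (Nᵀ * (Bᵀ * B.map σ) * N.map σ) * B'.map σ := by
              simp only [transpose_mul, map_mul_equiv, mul_assoc, one_mul]
          _ = _ := by rw [hl]; simp only [mul_smul_comm, smul_mul_assoc]
      have k1 := k 1
      rw [mul_one B, hB, map_one_equiv, transpose_one, one_mul, one_mul] at k1
      rw [k, h1, ← k1]) (by rw [← f3, f4, h2])
    exact ⟨g, hg, by rw [e, f4]⟩
  obtain ⟨α, rfl⟩ := φ.surjective α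
  obtain ⟨μ, y, y1, y2, hc⟩ := chk168 α (φ.injective (by simpa [map_ofNat] using hα))
  let S : Vc F → Prop := fun v => ∃ a b c, B' *ᵥ v = ![φ a, φ b, φ c] ∧ SFr a b (μ * c)
  have inv : ∀ g : GL (Fin 3) F, (∀ a b c, SFr a b (μ * c) → ∃ a' b' c',
      f g.1 *ᵥ ![φ a, φ b, φ c] = ![φ a', φ b', φ c'] ∧ SFr a' b' (μ * c')) → g ∈ stb S := by
    rintro g h v ⟨a, b, c, e, hv⟩
    obtain ⟨a', b', c', e', h'⟩ := h a b c hv
    exact ⟨a', b', c', by rw [mulVec_mulVec, f2, ← mulVec_mulVec, e, e'], h'⟩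
  have hP : (stb S).subgroupOf P = ⊤ := gen _
    (inv _ fun a b c h => ⟨_, _, _, by erw [b1, mv3]; simp, (hc a b c h).1⟩)
    (inv _ fun a b c h => ⟨_, _, _, by erw [b2, mv3]; simp, (hc a b c h).2.1⟩)
    (inv _ fun a b c h => ⟨_, _, _, by erw [b3, mv3]; simp, (hc a b c h).2.2.1⟩)
    (inv _ fun a b c h => ⟨_, _, _, by erw [b4, mv3]; simp [map_ofNat], (hc a b c h).2.2.2.1⟩)
  obtain ⟨w, w1, w2, w3⟩ : ∃ w : K25, w ^ 3 = 1 ∧ w ≠ 1 ∧ w * c25 w = 1 := ⟨.of 13, by decide +kernel⟩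
  have w4 : φ w ^ 3 = 1 := by rw [← map_pow, w1, map_one]
  obtain ⟨x, x1, x2⟩ := mem (dg 1 (φ w) (φ w ^ 2)) (by
    have : φ w * σ (φ w) = 1 := by rw [← hφ, ← map_mul, w3, map_one]
    simp [eq9, mul_apply, Fin.sum_univ_three, this, ← mul_pow]) (by rw [dm3]; grind)
  obtain ⟨y', y3, rfl⟩ := y1.exists
  have y4 := mem_SUG'.1 ((glMap_mem_SUG hφ).2 y3)
  rw [H5.SU.map_one'] at y4
  obtain ⟨z, z1, z2⟩ := mem _ y4.1 y4.2
  obtain ⟨a, b, c', e1, e2⟩ := no_max hH S (fun g hg => by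
    obtain ⟨x, hx, r, e⟩ := htop g hg
    obtain ⟨r, rfl⟩ := φ.surjective r
    have := congrArg Matrix.det e
    rw [(mem_SUG'.1 (hH.1.le hg)).2, det_smul, (su ⟨x, hx⟩).2, mul_one, Fintype.card_fin] at this
    intro v hv
    obtain ⟨a, b, c, e', h⟩ := (show (⟨x, hx⟩ : P) ∈ (stb S).subgroupOf P from hP ▸ mem_top _) v hv
    exact ⟨_, _, _, by rw [e, smul_mulVec, mulVec_smul]; erw [e']; simp,
      ((hc a b c h).2.2.2.2 r (φ.injective (by rw [map_pow, ← this, map_one]))).2⟩) x1 (fun hx => by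
    obtain ⟨x', hx', r, e⟩ := htop x hx
    have k1 : x.1 * m c = φ w • (m c * x.1) := cancel_left (det_of_mul hB).2 (by
      rw [mul_smul_comm, f2, f2 (_ * _), map_mul, map_mul, x2, b2, ← smul_mul_assoc]
      congr 1
      simp only [mul_fin_three, sm3, em3]; grind)
    have r0 : r ≠ 0 := by rintro rfl; exact x.ne_zero (e.trans (zero_smul _ _))
    rw [e, smul_mul_assoc, mul_smul_comm, smul_comm (φ w)] at k1
    have k2 := hz (x' * c * (c * x')⁻¹) (P.mul_mem (P.mul_mem hx' c.2) (P.inv_mem (P.mul_mem c.2 hx')))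
      (φ w) (by
        rw [Units.val_mul, Units.val_mul]
        erw [smul_right_injective _ r0 k1]
        rw [smul_mul_assoc]
        exact congrArg _ (c.1 * x').mul_inv)
    rw [mul_inv_eq_one] at k2
    have k3 := smul_right_injective _ r0 k1
    change (x' * c).1 = φ w • (c * x').1 at k3
    rw [k2, ← one_smul F (c * x').1, smul_smul] at k3
    exact w2 (φ.injective (by simpa using (smul_cancel (c * x').det_ne_zero k3).symm)))
    (inv _ fun a b c h => ⟨_, _, _, by rw [x2, mv3]; simp, ((hc a b c h).2.2.2.2 w w1).1⟩) z1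
    (v := B *ᵥ ![1, 0, 0]) ⟨1, 0, 0, by rw [mulVec_mulVec, hB']; simp, by
      rw [mul_zero]; decide +kernel⟩
  rw [mulVec_mulVec, mulVec_mulVec] at e1
  change f z.1 *ᵥ _ = _ at e1
  rw [z2, coe_glMap] at e1
  simp [eq3, mulVec, dotProduct, Fin.sum_univ_three] at e1
  exact y2 (e1.1 ▸ e1.2.1 ▸ e1.2.2 ▸ e2)

end Cfsg.Agent.H6.M3
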