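import Cfsg.Agent.H6.R4

/-! Residual subgroups of `SU₃(q)`. -/

set_option autoImplicit false

namespace Cfsg.Agent.H6.M3

open Matrix Subgroup Cfsg.Geo Cfsg.Agent.H6.MG Cfsg.Agent.Asch
open scoped commutatorElement MatrixGroups

variable {F : Type*} [Field F] {H P : Subgroup (GL (Fin 3) F)}

/-- the image modulo scalars -/
def img (H P : Subgroup (GL (Fin 3) F)) : Subgroup (H ⧸ (scalars (Fin 3) F).subgroupOf H) :=
  (P.subgroupOf H).map (QuotientGroup.mk' _)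

theorem img_cov (hle : P ≤ H) (hd : ∀ x ∈ P, x.1.det = 1) : ((PR.quo H).sub (img H P)).Cov P :=
  ⟨fun x hx => ⟨⟨_, ⟨x, hle hx⟩, hx, rfl⟩, PR.quo_L ⟨x, hle hx⟩⟩, hd, by
    rintro ⟨_, x, hx, rfl⟩
    exact ⟨x, hx, PR.quo_L x⟩⟩

theorem img_iso (hle : P ≤ H) (hd : ∀ x ∈ P, x.1.det = 1) :
    Nonempty ((P ⧸ (scalars (Fin 3) F).subgroupOf P) ≃* img H P) :=
  PR.equiv_of (ρ := PR.quo P) _
    (fun g => ((PR.quo_cov hd).ex g).elim fun x h => ⟨_, h.2, (img_cov hle hd).mem x h.1⟩)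
    fun g => ((img_cov hle hd).ex g).elim fun x h => ⟨_, h.2, (PR.quo_cov hd).mem x h.1⟩

theorem img_normal (hn : ∀ h ∈ H, ∀ x ∈ P, h * x * h⁻¹ ∈ P) : (img H P).Normal :=
  Normal.map ⟨fun x hx (h : H) => hn h h.2 x hx⟩ _ (QuotientGroup.mk'_surjective _)

theorem img_perfect (hle : P ≤ H) (hp : ⁅P, P⁆ = P) : ⁅img H P, img H P⁆ = img H P :=
  perfect_map _ (Subgroup.map_injective H.subtype_injective (by
    rw [map_commutator, subgroupOf_map_subtype, inf_eq_left.2 hle, hp]))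

theorem of_img_top (hd : ∀ x ∈ P, x.1.det = 1) (hle : P ≤ H) (e : img H P = ⊤) {h : GL (Fin 3) F}
    (hh : h ∈ H) : ∃ x ∈ P, ∃ c : F, h.1 = c • x.1 :=
  (img_cov hle hd).lift ⟨⟨_, e ▸ mem_top _⟩, PR.quo_L ⟨h, hh⟩⟩

theorem mem_su (p n : ℕ) [Fact p.Prime] [CharP F p] (y : GL (Fin 3) F) :
    y ∈ GU 3 F (p ^ n) ⊓ specialLinear (Fin 3) F ↔
      y.1.det = 1 ∧ (y.1.map (iterateFrobenius F p n))ᵀ * y.1 = 1 :=
  and_comm.trans (and_congr Units.ext_iff (herm_iff p n y.1))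

theorem tw_of_su (p n : ℕ) [Fact p.Prime] [CharP F p]
    (h : P ≤ GU 3 F (p ^ n) ⊓ specialLinear (Fin 3) F) : Tw P (p ^ n) := fun x hx => by
  rw [Units.inv_eq_of_mul_eq_one_left ((mem_su p n x).1 (h hx)).2, trace_transpose, trace_map,
    iterateFrobenius_def]

theorem not_sl_le (p n : ℕ) [Fact p.Prime] [CharP F p] :
    ¬ specialLinear (Fin 3) F ≤ GU 3 F (p ^ n) ⊓ specialLinear (Fin 3) F := fun h => by
  have := ((mem_su p n (.mkOfDetNeZero !![1, 1, 0; 0, 1, 0; 0, 0, 1] (by simp [dm3]))).1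
    (h (Units.ext (by simp [dm3])))).2
  simpa [mul_apply, Fin.sum_univ_three] using congrFun (congrFun this 0) 1

section

variable [Finite F] (p n : ℕ) [Fact p.Prime] [CharP F p] {Γ : Type*} [Group Γ] {ρ : PR Γ F}

theorem PR.Core.frob_eq (C : ρ.Core H P) {m : ℕ} (h : Tw P (p ^ n)) (h' : Tw P (p ^ m)) :
    iterateFrobenius F p n = iterateFrobenius F p m :=
  RingHom.ext (C.eq _ _ fun x hx => (h x hx).symm.trans (h' x hx))

theorem PR.Core.su_le (C : ρ.Core H P) (hle : H ≤ GU 3 F (p ^ n) ⊓ specialLinear (Fin 3) F) {m : ℕ}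
    (h : Tw P (p ^ m) ∧ ∀ X : Subgroup (GL (Fin 3) F), (∀ y, y ∈ X ↔ y.1.det = 1 ∧
      (y.1.map (iterateFrobenius F p m))ᵀ * y.1 = 1) → H ≤ X → X ≤ H) :
    GU 3 F (p ^ n) ⊓ specialLinear (Fin 3) F ≤ H :=
  h.2 _ (fun y => by rw [mem_su, C.frob_eq p n (tw_of_su p n (C.le.trans hle)) h.1]) hle

theorem res_unitary (hF : Nat.card F = (p ^ n) ^ 2) (hq : 3 ≤ p ^ n) (h : IsResidualCore H P)
    (hle : H ≤ GU 3 F (p ^ n) ⊓ specialLinear (Fin 3) F)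
    (h0 : ¬ GU 3 F (p ^ n) ⊓ specialLinear (Fin 3) F ≤ H)
    (h1 : ¬ ∃ Q : (Fin 3 → F) → F, IsNondegenerateQuadraticForm Q ∧ FixesQuadForm (matrixSet P) Q) :
    p ^ n = p ∧ ((Nonempty ((P ⧸ (scalars (Fin 3) F).subgroupOf P) ≃* PSL(3, ZMod 2)) ∧
      (p % 7 = 3 ∨ p % 7 = 5 ∨ p % 7 = 6) ∧ Nonempty (P ≃* PSL(3, ZMod 2)) ∧
      (∀ z ∈ P, ∀ c : F, z.1 = c • 1 → z = 1) ∧ ∀ h ∈ H, ∃ x ∈ P, ∃ c : F, h.1 = c • x.1) ∨
    (Nonempty ((P ⧸ (scalars (Fin 3) F).subgroupOf P) ≃* alternatingGroup (Fin 6)) ∧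
      (p % 15 = 11 ∨ p % 15 = 14 ∨ p = 5)) ∨
    Nonempty ((P ⧸ (scalars (Fin 3) F).subgroupOf P) ≃* alternatingGroup (Fin 7)) ∧ p = 5) := by
  obtain ⟨k1, k2, k3⟩ := core_of_res h
  have C : ((PR.quo H).sub (img H P)).Core P P := ⟨img_cov h.le k1, le_rfl, h.perfect, k2⟩
  have ha := absIrr_of_acts h.absIrred
  obtain ⟨i⟩ := img_iso h.le k1
  haveI := h.simple
  haveI := i.symm.isSimpleGroup
  letI := Fintype.ofFinite (img H P)
  have hp := (Fact.out : p.Prime)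
  have t0 := tw_of_su p n (h.le.trans hle)
  have hn : n ≠ 0 := by rintro rfl; simp at hq
  have h2 := Nat.le_self_pow hn p
  have n1 : Nat.card F ≠ p := by nlinarith
  have n2 : Tw P p → p ^ n = p := fun e => by
    have := card_dvd_of_pow (F := F) (m := p) (n := p ^ n - p) fun a => by
      rw [Nat.add_sub_cancel' h2]
      simpa [iterateFrobenius_def, frobenius_def] using
        DFunLike.congr_fun (C.frob_eq p n (m := 1) t0 (by rwa [pow_one])) a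
    by_contra e'
    have := Nat.le_of_dvd (by omega) this
    have : p ^ n + 1 ≤ (p ^ n) ^ 2 := by nlinarith
    have := hp.pos
    omega
  let ι := algebraMap F (AlgebraicClosure F)
  rcases C.cases ι p ha fun e => k3 fun x y => i.injective (by rw [map_mul, map_mul, e]) with
    e | ⟨m, e⟩ | e | ⟨e1, S, ⟨t, K, g, e2⟩, e3, e | e⟩ | ⟨e1, e | e | e⟩ | e
  · exact absurd (e.trans (h.le.trans hle)) (not_sl_le p n)
  · exact absurd ((C.su_le p n (h.le.trans hle) e).trans h.le) h0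
  · exact absurd (e.quad ha) h1
  · exact absurd e.2 n1
  · have e4 : ∀ z ∈ P, ∀ c : F, z.1 = c • 1 → z = 1 := fun z hz c hc => e3 z hz (by
      rw [hc]; exact PR.scal _ (by rintro rfl; exact z.ne_zero (hc.trans (zero_smul _ _))))
    obtain ⟨j⟩ := simple168' e2.card
    refine ⟨n2 e.2, Or.inl ⟨⟨i.trans j⟩, e.1, ?_, e4, fun x => of_img_top k1 h.le ?_⟩⟩
    · obtain ⟨π, π1, π2⟩ := C.cov.hom
      exact ⟨(MulEquiv.ofBijective π ⟨(injective_iff_map_eq_one π).2 fun z hz =>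
        Subtype.ext (e3 z z.2 (hz ▸ π2 z)), π1⟩).trans j⟩
    have hd : ∀ x ∈ H, x.1.det = 1 := fun x hx => ((mem_su p n x).1 (hle hx)).1
    have C' : (PR.quo H).Core H P := ⟨PR.quo_cov hd, h.le, h.perfect, k2⟩
    haveI := img_normal h.normal
    rcases PR.trichotomy e1 (C'.cov.irr (ι := ι) (ha.mono h.le)) (img_perfect h.le h.perfect)
      (nontrivial_iff_ne_bot _ |>.1 inferInstance) with e | ⟨m, -, e⟩ | e
    · exact absurd ((C'.lin p e).trans hle) (not_sl_le p n)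
    · exact absurd (C'.su_le p n hle (C'.uni p e)) h0
    · exact PR.O168.top e S e2
  · exact absurd e.2 n1
  · exact ⟨n2 e.2, Or.inr (Or.inl ⟨e1.map i.trans, e.1⟩)⟩
  · have e3 : p ^ n = p := Nat.pow_left_injective two_ne_zero (hF.symm.trans e.2.2.1)
    exact absurd (e3 ▸ t0) (e.2.2.2.resolve_left (by omega))
  · exact ⟨n2 e.2.2, Or.inr (Or.inr ⟨e.1.map i.trans, e.2.1⟩)⟩

end

theorem exists_pn [Fintype F] {q : ℕ} (hF : Fintype.card F = q ^ 2) :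
    ∃ p n : ℕ, p.Prime ∧ CharP F p ∧ q = p ^ n := by
  obtain ⟨p, _⟩ := CharP.exists F
  obtain ⟨m, hp, hm⟩ := FiniteField.card F p
  obtain ⟨n, -, e⟩ := (Nat.dvd_prime_pow hp).1 (show q ∣ p ^ (m : ℕ) from hm ▸ hF ▸ dvd_pow_self q two_ne_zero)
  exact ⟨p, n, hp, inferInstance, e⟩

end Cfsg.Agent.H6.M3
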