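import Cfsg.Agent.H6.R5

/-! Twisted structures preserved by projective groups of degree three. -/

set_option autoImplicit false

namespace Cfsg.Agent.H6.M3

open Matrix Subgroup

variable {k : Type*} [Field k]

theorem map3 (θ : k →+* k) (a b c d e f g h i : k) : (!![a, b, c; d, e, f; g, h, i]).map θ =
    !![θ a, θ b, θ c; θ d, θ e, θ f; θ g, θ h, θ i] := by simp [eq9]

/-- twisting maps -/
structure Tp (k : Type*) [Field k] where
  f : Mt k →* Mt k
  det : ∀ A, A.det = 1 → (f A).det = 1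
  smul : ∀ c : k, ∃ d : k, ∀ A, f (c • A) = d • f A

/-- entrywise twisting -/
def rat (θ : k →+* k) : Tp k where
  f := θ.mapMatrix.toMonoidHom
  det A h := (det_map θ A).trans (by rw [h, map_one])
  smul c := ⟨θ c, map_smul' θ c⟩

/-- dual twisting -/
def frm (θ : k →+* k) : Tp k where
  f := { toFun A := (A.map θ).adjugateᵀ
         map_one' := by rw [map_one', adjugate_one, transpose_one]
         map_mul' A B := by rw [Matrix.map_mul, adjugate_mul_distrib, transpose_mul] }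
  det A h := by simp [det_adjugate, det_map, h]
  smul c := ⟨θ c ^ 2, fun A => by simp [map_smul', adj_smul3]⟩

theorem rat_f (θ : k →+* k) (A : Mt k) : (rat θ).f A = A.map θ := rfl

theorem frm_f (θ : k →+* k) (A : Mt k) : (frm θ).f A = (A.map θ).adjugateᵀ := rfl

theorem adj_map (θ : k →+* k) (A : Mt k) : (A.map θ).adjugate = A.adjugate.map θ :=
  (θ.map_adjugate A).symm

/-- exact invariance -/
def Fx (Φ : Tp k) (R A : Mt k) : Prop := Φ.f A * R = R * A

section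

variable {Φ : Tp k} {R A B : Mt k} {θ : k →+* k}

theorem Fx.mul (h : Fx Φ R A) (h' : Fx Φ R B) : Fx Φ R (A * B) := by
  unfold Fx at *
  rw [map_mul, mul_assoc, h', ← mul_assoc, h, mul_assoc]

theorem Fx.trace (h : Fx Φ R A) (hR : R.det ≠ 0) : (Φ.f A).trace = A.trace := by
  obtain ⟨R', h1, h2⟩ := exists_inv hR
  rw [← mul_one (Φ.f A), ← h1, ← mul_assoc, h, trace_mul_cycle, h2, one_mul]

theorem Fx.rat (h : Fx (rat θ) R A) (hR : R.det ≠ 0) : θ A.trace = A.trace := by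
  rw [← trace_map, ← rat_f, h.trace hR]

theorem Fx.frm (h : Fx (frm θ) R A) (hR : R.det ≠ 0) : θ A.adjugate.trace = A.trace := by
  rw [← trace_map, ← adj_map, ← trace_transpose, ← frm_f, h.trace hR]

theorem Fx.comm {S S' : Mt k} (e : S' * S = 1) (h : Fx Φ R A) (h' : Fx Φ S A) :
    S' * R * A = A * (S' * R) := by
  calc _ = S' * (Φ.f A * (S * S')) * R := by
        rw [mul_eq_one_comm.1 e, mul_one, mul_assoc, ← h, mul_assoc]
    _ = _ := by rw [← mul_assoc _ S, h', ← mul_assoc, ← mul_assoc, e, one_mul, mul_assoc]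

theorem tz_pow {η : k} (h : Φ.f A * R = η • (R * A)) (n : ℕ) :
    Φ.f (A ^ n) * R = η ^ n • (R * A ^ n) := by
  induction n with
  | zero => simp
  | succ n ih => rw [pow_succ, map_mul, mul_assoc, h, mul_smul_comm, ← mul_assoc, ih, smul_mul_assoc,
      smul_smul, mul_assoc, pow_succ' η]

theorem fx_frm (d : A.det = 1) : Fx (frm θ) R A ↔ (A.map θ)ᵀ * R * A = R := by
  have h1 : (A.map θ)ᵀ * (A.map θ).adjugateᵀ = 1 := by
    rw [← transpose_mul, adjugate_mul, det_map, d, map_one, one_smul, transpose_one]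
  rw [Fx, frm_f]
  refine ⟨fun h => by rw [mul_assoc, ← h, ← mul_assoc, h1, one_mul], fun h => ?_⟩
  conv_lhs => rw [← h, ← mul_assoc, ← mul_assoc, mul_eq_one_comm.1 h1, one_mul]

end

namespace PR

variable {Γ : Type*} [Group Γ] {ρ : PR Γ k} {Φ : Tp k} {R A : Mt k} {θ : k →+* k}

variable (ρ Φ R) in
/-- a twisted structure is preserved -/
structure TW : Prop where
  det : R.det ≠ 0
  ex : ∀ A, ρ.In A → ∃ η : k, Φ.f A * R = η • (R * A)

theorem TW.cj (h : ρ.TW Φ R) {B B' : Mt k} (hB : B * B' = 1) : (ρ.cj hB).TW Φ (Φ.f B' * R * B) := by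
  have e : Φ.f B' * Φ.f B = 1 := by rw [← map_mul, mul_eq_one_comm.1 hB, map_one]
  refine ⟨by simp [(det_of_mul e).1, (det_of_mul hB).1, h.det], fun A hA => ?_⟩
  obtain ⟨η, hη⟩ := h.ex _ ((in_cj hB).1 hA)
  refine ⟨η, ?_⟩
  calc _ = Φ.f B' * (Φ.f (B * A * B') * R) * B := by
        simp only [map_mul, ← mul_assoc, e, one_mul]
    _ = _ := by
        rw [hη]; simp only [mul_smul_comm, smul_mul_assoc, mul_assoc, mul_eq_one_comm.1 hB, mul_one]

theorem TW.of_cj {B B' : Mt k} (hB : B * B' = 1) (h : (ρ.cj hB).TW Φ R) : ∃ R, ρ.TW Φ R :=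
  ⟨_, cj_inv (ρ := ρ) hB ▸ h.cj (mul_eq_one_comm.1 hB)⟩

theorem TW.of_lift (hR : R.det ≠ 0)
    (h : ∀ g, ∃ A η, ρ.L g A ∧ Φ.f A * R = (η : k) • (R * A)) : ρ.TW Φ R := ⟨hR, fun A ⟨g, hA⟩ => by
  obtain ⟨B, η, h1, h2⟩ := h g
  obtain ⟨c, hc, rfl⟩ := ρ.uniq' h1 hA
  obtain ⟨d, hd⟩ := Φ.smul c
  exact ⟨d * η / c, by rw [hd, smul_mul_assoc, h2, mul_smul_comm, smul_smul, smul_smul,
    div_mul_cancel₀ _ hc]⟩⟩

theorem TW.cube (h : ρ.TW Φ R) (d : A.det = 1) {η : k} (e : Φ.f A * R = η • (R * A)) :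
    η ^ 3 = 1 := by
  have := congrArg Matrix.det e
  simpa [Φ.det A d, d, h.det, eq_comm] using this

theorem TW.fx3 (h : ρ.TW Φ R) (hA : ρ.In A) (d : A.det = 1) : Fx Φ R (A ^ 3) := by
  obtain ⟨η, e⟩ := h.ex A hA
  rw [Fx, tz_pow e, h.cube d e, one_smul]

theorem TW.root (h : ρ.TW Φ R) {η : k} (e : Φ.f A * R = η • (R * A)) {n : ℕ} (hn : A ^ n = 1) :
    η ^ n = 1 := by
  have := tz_pow e n
  rw [hn, map_one, one_mul, mul_one] at this
  exact (smul_cancel h.det ((one_smul _ _).trans this)).symm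

theorem TW.inv (h : ρ.TW Φ R) (hA : ρ.In A) (d : A.det = 1) (h2 : A * A = 1) : Fx Φ R A := by
  obtain ⟨η, e⟩ := h.ex A hA
  rw [Fx, e, eq_one_of_cube (h.cube d e) (h.root e (n := 2) (by rwa [sq])) (by norm_num), one_smul]

theorem TW.unip (h : ρ.TW Φ R) (p : ℕ) [Fact p.Prime] [CharP k p] (hA : ρ.In A) (h2 : A ^ p = 1) :
    Fx Φ R A := by
  obtain ⟨η, e⟩ := h.ex A hA
  rw [Fx, e, frobenius_inj k p ((h.root e h2).trans (map_one _).symm), one_smul]

theorem TW.el (h : ρ.TW Φ R) (p : ℕ) [Fact p.Prime] [CharP k p] {v φ : Vc k} (e : ρ.El v φ) :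
    Fx Φ R (1 + vecMulVec v φ) := h.unip p e.2 (by simp [r1_pow e.1])

theorem TW.of_scal (h : ρ.TW Φ R) {S S' : Mt k} (e : S' * S = 1) (hc : ∃ c : k, S' * R = c • 1) :
    ρ.TW Φ S := by
  obtain ⟨c, hc⟩ := hc
  have e1 : R = c • S := by
    rw [← one_mul R, ← mul_eq_one_comm.1 e, mul_assoc, hc, mul_smul_comm, mul_one]
  have c0 : c ≠ 0 := by rintro rfl; exact ne_zero_of_det h.det (e1.trans (zero_smul _ _))
  refine ⟨(det_of_mul e).2, fun A hA => (h.ex A hA).imp fun η hη => smul_right_injective _ c0 ?_⟩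
  simpa only [e1, mul_smul_comm, smul_mul_assoc, smul_comm η] using hη

theorem TW.pr (h : ρ.TW Φ R) {x c : Γ} {ω : k} (e : ρ.Pr x c ω) {d : k}
    (hd : ∀ A, Φ.f (ω • A) = d • Φ.f A) : d = ω := by
  obtain ⟨A, B, hA, hB, e⟩ := e
  obtain ⟨η, e1⟩ := h.ex A ⟨_, hA⟩
  obtain ⟨η', e2⟩ := h.ex B ⟨_, hB⟩
  obtain ⟨A', a1, -⟩ := exists_inv (ρ.det hA)
  obtain ⟨B', b1, -⟩ := exists_inv (ρ.det hB)
  have k1 : ∀ {A A' : Mt k} {η : k}, A * A' = 1 → Φ.f A * R = η • (R * A) → η ≠ 0 := by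
    rintro A A' _ a1 e1 rfl
    have := (det_of_mul (show Φ.f A * Φ.f A' = 1 by rw [← map_mul, a1, map_one])).1
    simpa [this, h.det] using congrArg Matrix.det e1
  have e3 := congrArg (fun X => Φ.f X * R) e
  simp only [hd, map_mul, mul_assoc, e1, e2, smul_mul_assoc, mul_smul_comm] at e3
  rw [← mul_assoc, ← mul_assoc, e1, e2, smul_mul_assoc, smul_mul_assoc, mul_assoc, e, mul_smul_comm,
    mul_assoc, smul_smul, smul_smul, smul_smul, smul_smul] at e3
  have := smul_cancel (by simp [h.det, ρ.det hA, ρ.det hB]) e3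
  have := k1 a1 e1
  have := k1 b1 e2
  grind

theorem TW.pr_rat (h : ρ.TW (rat θ) R) {x c : Γ} {ω : k} (e : ρ.Pr x c ω) : θ ω = ω :=
  h.pr e (map_smul' θ ω)

theorem TW.pr_frm (h : ρ.TW (frm θ) R) {x c : Γ} {ω : k} (e : ρ.Pr x c ω) : θ ω ^ 2 = ω :=
  h.pr e fun A => by simp [frm_f, map_smul', adj_smul3]

theorem TW.eig (h : ρ.TW Φ R) {a b c a' b' c' : k} (e : Fx Φ R (dg a b c))
    (e' : Φ.f (dg a b c) = dg a' b' c') : a' = a ∨ a' = b ∨ a' = c := by
  have hd := h.det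
  rw [Fx, e'] at e
  obtain ⟨r0, r1, r2, r3, r4, r5, r6, r7, r8, rfl⟩ := ex9 R
  simp only [mul_fin_three, em3, dm3] at e hd
  grind

theorem Lin.tw {L : Subfield k} (h : ρ.Lin L) (hθ : ∀ a ∈ L, θ a = a) : ρ.TW (rat θ) 1 :=
  TW.of_lift (by simp) fun g => by
    obtain ⟨A, hA⟩ := ρ.ex g
    obtain ⟨c, hc, e⟩ := h.ge A ⟨g, hA⟩
    refine ⟨_, 1, ρ.smul hA hc, ?_⟩
    rw [mul_one, one_mul, one_smul]
    ext i j; exact hθ _ (e i j)

theorem Uni.tw [IsAlgClosed k] (h : ρ.Uni θ) : ρ.TW (frm θ) 1 ∧ ρ.TW (rat (θ.comp θ)) 1 := by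
  constructor <;> refine TW.of_lift (by simp) fun g => ?_ <;> obtain ⟨A, hA⟩ := ρ.ex g <;>
    obtain ⟨c, hc, e⟩ := h.ge A ⟨g, hA⟩ <;> replace hA := ρ.smul hA hc <;> generalize c • A = A at *
  · refine ⟨A, θ A.det, hA, ?_⟩
    rw [mul_one, one_mul, frm_f, ← mul_one _ᵀ, ← e, ← mul_assoc, ← transpose_mul, mul_adjugate,
      det_map, transpose_smul, transpose_one, smul_mul_assoc, one_mul]
  · refine ⟨A, 1, hA, ?_⟩
    have e1 := congrArg (fun X => (X.map θ)ᵀ) e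
    simp only [Matrix.map_mul, transpose_mul, map_one', transpose_one, transpose_map,
      transpose_transpose] at e1
    rw [mul_one, one_mul, one_smul, rat_f]
    exact cancel_left (det_of_mul e).1 (e1.trans e.symm)

/-- groups preserving a form have opposite elations only -/
theorem TW.opp (h : ρ.TW (frm θ) R) (p : ℕ) [Fact p.Prime] [CharP k p] : ρ.Opp := by
  have k1 : ∀ v φ : Vc k, v ≠ 0 → φ ≠ 0 → ρ.El v φ →
      ∃ c : k, c ≠ 0 ∧ (θ ∘ v) ᵥ* R = c • φ := fun v φ hv hφ e => by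
    have e1 := (fx_frm (by rw [det_r1, e.1, add_zero])).1 (h.el p e)
    have e2 : ((1 + vecMulVec v φ).map θ)ᵀ = 1 + vecMulVec (θ ∘ φ) (θ ∘ v) := by
      ext i j; simp [one_apply, vecMulVec_apply, eq_comm, mul_comm, apply_ite θ]
    obtain ⟨i, hi⟩ := Function.ne_iff.1 hφ
    have hi : θ (φ i) ≠ 0 := (map_ne_zero θ).2 hi
    have h0 : (θ ∘ v) ᵥ* R ≠ 0 := vecMul_ne_zero h.det fun e =>
      hv (funext fun j => (map_eq_zero θ).1 (congrFun e j))
    rw [e2] at e1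
    have e3 := congrArg (fun X => (Pi.single i 1 : Vc k) ᵥ* X) e1
    simp only [← vecMul_vecMul, vecMul_r1, add_vecMul, smul_vecMul, single_dotProduct, one_mul,
      Function.comp_apply] at e3
    generalize (θ ∘ v) ᵥ* R = ψ at *
    generalize Pi.single i 1 ᵥ* R = χ at e3
    have e4 : ψ = (-(χ ⬝ᵥ v + θ (φ i) * ψ ⬝ᵥ v) / θ (φ i)) • φ := smul_right_injective _ hi (by
      simp only
      rw [smul_smul, mul_div_cancel₀ _ hi]
      linear_combination (norm := module) e3)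
    exact ⟨_, fun e => h0 (by rw [e4, e, zero_smul]), e4⟩
  intro v φ v' φ' h1 h2 h3 h4 e e' e0
  obtain ⟨c, c0, hc⟩ := k1 v φ h1 h2 e
  obtain ⟨c', c0', hc'⟩ := k1 v' φ' h3 h4 e'
  have k2 : φ ⬝ᵥ v' = 0 := by
    by_contra hn
    obtain ⟨d, d0, hd⟩ := k1 _ _ (smul_ne_zero hn h1) h4 (e.comm e' e0)
    rw [show θ ∘ ((φ ⬝ᵥ v') • v) = θ (φ ⬝ᵥ v') • θ ∘ v from funext fun j => map_mul θ _ _,
      smul_vecMul, hc] at hd
    have := congrArg (· ⬝ᵥ v') hd
    simp [e'.1, hn, c0] at this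
  have k3 : v ⨯₃ v' = 0 := by
    by_contra hn
    have e1 := e.1
    have e2 := e'.1
    rw [dotProduct_comm] at k2 e0 e1 e2
    obtain ⟨s, hs⟩ := eq_smul_cross hn e1 k2
    obtain ⟨s', hs'⟩ := eq_smul_cross hn e0 e2
    have s0 : s ≠ 0 := by rintro rfl; exact h2 (hs.trans (zero_smul _ _))
    have e3 : (θ ∘ v' - (c' * s' / (c * s)) • θ ∘ v) ᵥ* R = 0 := by
      rw [sub_vecMul, smul_vecMul, hc, hc', hs, hs', smul_smul, smul_smul, smul_smul, ← sub_smul]
      convert zero_smul k _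
      field_simp
      ring
    have e4 := sub_eq_zero.1 (by_contra fun e => vecMul_ne_zero h.det e e3)
    generalize c' * s' / (c * s) = r at e4
    apply hn
    have e5 := fun j => congrFun e4 j
    simp only [Function.comp_apply, Pi.smul_apply, smul_eq_mul] at e5
    ext j
    refine (map_eq_zero θ).1 ?_
    fin_cases j <;> simp [cross_apply, e5] <;> ring
  obtain ⟨s, rfl⟩ := eq_smul_of_cross h1 k3
  refine ⟨⟨s, rfl⟩, θ s * c / c', smul_right_injective _ c0' ?_⟩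
  simp only
  rw [← hc', smul_smul, mul_div_cancel₀ _ c0', mul_smul, ← hc, ← smul_vecMul]
  congr 1
  exact funext fun j => map_mul θ _ _

end PR

end Cfsg.Agent.H6.M3
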