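import Cfsg.Agent.H6.T9
import Cfsg.Agent.H2.PGroup

/-! Maximality of normalisers of extraspecial groups in dimension three. -/

set_option autoImplicit false

namespace Cfsg.Agent.H6.M3

open Matrix Subgroup Cfsg.Geo Cfsg.Agent.Asch PR
open scoped MatrixGroups commutatorElement

theorem comm_mem_center {R : Type*} [Group R] [Finite R] {r : ℕ} [hr : Fact r.Prime]
    (hP : IsPGroup r R) (hc : ∀ A : Subgroup R, A.Characteristic → IsMulCommutative A → IsCyclic A)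
    (he : ∀ g : R, g ^ r = 1) : commutator R ≤ Subgroup.center R := by
  let D : Subgroup R := commutator R ⊓ Subgroup.centralizer (commutator R : Set R)
  haveI hD : D.Characteristic := by
    rw [Subgroup.characteristic_iff_comap_eq]
    intro φ
    rw [Subgroup.comap_inf, (inferInstance : (commutator R).Characteristic).fixed,
      (inferInstance : (Subgroup.centralizer (commutator R : Set R)).Characteristic).fixed]
  have hDZ : D ≤ Subgroup.center R := by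
    by_cases h0 : D = ⊥
    · simp [h0]
    obtain ⟨x, hx, h1, h2⟩ := H2.PGroup.exists_center_mem_normal hP D h0
    obtain ⟨c, hc⟩ := (hc D hD ⟨⟨fun a b => Subtype.ext (b.2.2 a.1 a.2.1)⟩⟩).exists_generator
    have h3 : Nat.card D ∣ r := by
      rw [← orderOf_eq_card_of_forall_mem_zpowers hc]
      exact orderOf_dvd_of_pow_eq_one (Subtype.ext (he _))
    rw [← Subgroup.eq_of_le_of_card_ge (Subgroup.zpowers_le.2 hx)
      (by rw [Nat.card_zpowers, h2]; exact Nat.le_of_dvd hr.out.pos h3)]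
    exact Subgroup.zpowers_le.2 h1
  by_contra hn
  have hne : (commutator R).map (QuotientGroup.mk' (Subgroup.center R)) ≠ ⊥ := by
    rwa [Ne, Subgroup.map_eq_bot_iff, QuotientGroup.ker_mk']
  haveI : ((commutator R).map (QuotientGroup.mk' (Subgroup.center R))).Normal :=
    Subgroup.Normal.map inferInstance _ (QuotientGroup.mk'_surjective _)
  obtain ⟨_, ⟨m, hm, rfl⟩, h1, h2⟩ :=
    H2.PGroup.exists_center_mem_normal (hP.to_quotient _) _ hne
  have h3 : ∀ g : R, ∃ z ∈ Subgroup.center R, g * m = m * g * z := fun g =>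
    ⟨(m * g)⁻¹ * (g * m), QuotientGroup.eq.1 (Subgroup.mem_center_iff.1 h1 (g : R ⧸ _)).symm,
      by group⟩
  have h4 : m ∈ D := ⟨hm, fun s hs => by
    refine (Subgroup.commutator_le.2 fun a _ b _ => ?_ :
      commutator R ≤ Subgroup.centralizer {m}) hs m rfl |>.symm
    obtain ⟨y, hy, e1⟩ := h3 a⁻¹
    obtain ⟨z, hz, e2⟩ := h3 b⁻¹
    have k0 := Subgroup.mem_center_iff.1 (mul_mem hy hz) ⁅a, b⁆
    rw [Subgroup.mem_center_iff] at hy hz
    have k : ∀ {a b y z : R}, a * m = m * a * y → b * m = m * b * z → (∀ g, g * y = y * g) →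
        a * b * m = m * (a * b) * (y * z) := fun {a b y z} e1 e2 hy => by
      rw [mul_assoc, e2, ← mul_assoc, ← mul_assoc, e1, mul_assoc (m * a), ← hy]; group
    have k1 := k e1 e2 hy
    have k2 := k e2 e1 hz
    rw [Subgroup.mem_centralizer_singleton_iff]
    calc ⁅a, b⁆ * m = (b⁻¹ * a⁻¹)⁻¹ * (a⁻¹ * b⁻¹ * m) := by rw [commutatorElement_def]; group
      _ = (b⁻¹ * a⁻¹)⁻¹ * (m * (b⁻¹ * a⁻¹) * (z * y)) * ⁅a, b⁆ := by
        rw [k1, hy z, mul_assoc _ _ ⁅a, b⁆, mul_assoc _ _ ⁅a, b⁆, ← k0, commutatorElement_def]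
        group
      _ = m * ⁅a, b⁆ := by rw [← k2]; group⟩
  rw [QuotientGroup.mk'_apply, (QuotientGroup.eq_one_iff m).2 (hDZ h4), orderOf_one] at h2
  exact hr.out.one_lt.ne h2

variable {k : Type*} [Field k] {F : Type*} [Field F] {ι : F →+* k}
  {K M X R : Subgroup (GL (Fin 3) F)} {P y : GL (Fin 3) F} {A : Mt k}

theorem rdata [Finite F] {R : Subgroup (GL (Fin 3) F)} (hs : IsSymplecticTypeGroup 3 R)
    (h : ActsAbsolutelyIrreducibly (matrixSet R)) :
    RData 3 R ∧ ∀ x ∈ R, x ^ 3 = 1 := by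
  haveI : Fact (Nat.Prime 3) := ⟨hs.prime⟩
  have he : ∀ g : R, g ^ 3 = 1 := fun g => by
    have := Monoid.pow_exponent_eq_one g
    rwa [hs.exponent_eq] at this
  have he' : ∀ x ∈ R, x ^ 3 = 1 := fun x hx => congrArg Subtype.val (he ⟨x, hx⟩)
  have ha := absIrr_of_acts h
  refine ⟨⟨hs.prime, ha, fun x hx y hy => exists_twist_of_mem
    (ha.mem_scalars_of_comm fun g hg => ?_), fun x hx => by rw [he' x hx]; exact one_mem _⟩, he'⟩
  have k := comm_mem_center hs.pGroup hs.cyclic_of_characteristic he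
    (Subgroup.commutator_mem_commutator (Subgroup.mem_top (⟨x, hx⟩ : R)) (Subgroup.mem_top ⟨y, hy⟩))
  simpa [commutatorElement_def] using
    (congrArg Subtype.val (Subgroup.mem_center_iff.1 k ⟨g, hg⟩)).symm

/-- a Heisenberg group in a frame -/
structure HeF (R : Subgroup (GL (Fin 3) F)) (P D C : GL (Fin 3) F) (ω : F) : Prop where
  rd : RData 3 R
  cube : ∀ x ∈ R, x ^ 3 = 1
  o1 : ω ≠ 1
  o2 : ω ^ 2 + ω + 1 = 0
  eD : D.1 = dg 1 ω (ω ^ 2)
  eC : C.1 = cyc F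
  mD : P * D * P⁻¹ ∈ R
  mC : P * C * P⁻¹ ∈ R

theorem exists_heF (h : RData 3 R) (h3 : ∀ x ∈ R, x ^ 3 = 1) : ∃ P D C ω, HeF R P D C ω := by
  obtain ⟨u, hu, v, hv, ω, o1, o3, e⟩ := h.exists_root (by simp)
  have o2 : ω ^ 2 + ω + 1 = 0 := mul_left_cancel₀ (sub_ne_zero.2 o1) (by linear_combination o3)
  have st : ∀ (w : Vc F) (z : F), u.1 *ᵥ w = z • w → u.1 *ᵥ (v.1 *ᵥ w) = (z * ω) • v.1 *ᵥ w :=
    fun w z h => by
    rw [mulVec_mulVec, e, smul_mulVec, ← mulVec_mulVec, h, mulVec_smul, smul_smul, mul_comm]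
  have nz : ∀ {w : Vc F}, w ≠ 0 → v.1 *ᵥ w ≠ 0 := mulVec_ne_zero v.det_ne_zero
  obtain ⟨w, w0, e0⟩ : ∃ w, w ≠ 0 ∧ u.1 *ᵥ w = (1 : F) • w := by
    have k1 : ∀ c : F, (u.1 - c • 1).det = 0 → ∃ w, w ≠ 0 ∧ u.1 *ᵥ w = c • w := fun c h =>
      (exists_mulVec_eq_zero_iff.2 h).imp fun w h => ⟨h.1, by
        simpa [sub_mulVec, smul_mulVec, sub_eq_zero] using h.2⟩
    have k2 : (u.1 - (1 : F) • 1) * (u.1 - ω • 1) * (u.1 - ω ^ 2 • 1) = 0 := by
      have : u.1 * u.1 * u.1 = 1 := by simpa [pow_succ] using congrArg Units.val (h3 u hu)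
      simp only [sub_mul, mul_sub, smul_mul_assoc, mul_smul_comm, mul_one, one_mul, this]
      match_scalars <;> grind
    have k3 := congrArg Matrix.det k2
    simp only [det_mul, det_zero, mul_eq_zero] at k3
    rcases k3 with (k3 | k3) | k3 <;> obtain ⟨w, w0, e⟩ := k1 _ k3
    · exact ⟨w, w0, e⟩
    · exact ⟨_, nz (nz w0), by convert st _ _ (st _ _ e) using 2; grind⟩
    · exact ⟨_, nz w0, by convert st _ _ e using 2; grind⟩
  have e1 := st _ _ e0
  have e2 := st _ _ e1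
  have d := (ind_eig (by grind) (by grind) (by grind) w0 (nz w0) (nz (nz w0)) e0 e1 e2).det
  have e3 : v.1 *ᵥ v.1 *ᵥ v.1 *ᵥ w = w := by
    rw [mulVec_mulVec, mulVec_mulVec, show v.1 * v.1 * v.1 = 1 by
      simpa [pow_succ] using congrArg Units.val (h3 v hv), one_mulVec]
  refine ⟨.mkOfDetNeZero _ d, .mkOfDetNeZero (dg 1 ω (ω ^ 2)) (by (simp only [mul_fin_three, one_fin_three, em3, sm3, mv3, vm3, sv3, ev3, dot3, dm3, trm3, tm3, zv3, adjugate_fin_three_of, map3, map_zero, map_one, map_neg, map_ofNat] <;> grind)), .mkOfDetNeZero (cyc F) (by (simp only [mul_fin_three, one_fin_three, em3, sm3, mv3, vm3, sv3, ev3, dot3, dm3, trm3, tm3, zv3, adjugate_fin_three_of, map3, map_zero, map_one, map_neg, map_ofNat] <;> grind)),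
    ω, h, h3, o1, o2, rfl, rfl, ?_, ?_⟩
  · convert hu
    refine mul_inv_eq_of_eq_mul (Units.ext ?_)
    change cols _ _ _ * dg _ _ _ = u.1 * cols _ _ _
    rw [mul_cols, cols_mul, e0, e1, e2]
    simp [sq]
  · convert hv
    refine mul_inv_eq_of_eq_mul (Units.ext ?_)
    change cols _ _ _ * cyc _ = v.1 * cols _ _ _
    rw [mul_cols, cols_mul, e3]
    simp

section

variable {D C : GL (Fin 3) F} {ω : F} (h : HeF R P D C ω) (ι) [IsAlgClosed k]
include h ι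

theorem HeF.gen (hD : P * D * P⁻¹ ∈ K) (hC : P * C * P⁻¹ ∈ K) {z : K} (h3 : z.1 ^ 3 = 1)
    (hz : (z : K ⧸ (scalars (Fin 3) F).subgroupOf K) ∈
      RR ((⟨_, hD⟩ : K) : K ⧸ (scalars (Fin 3) F).subgroupOf K) (⟨_, hC⟩ : K)) :
    z.1 ∈ closure {P * D * P⁻¹, P * C * P⁻¹} := by
  have o1 := h.o1
  have o2 := h.o2
  have e : C.1 * D.1 = ω ^ 2 • (D.1 * C.1) := by rw [h.eD, h.eC]; (simp only [mul_fin_three, one_fin_three, em3, sm3, mv3, vm3, sv3, ev3, dot3, dm3, trm3, tm3, zv3, adjugate_fin_three_of, map3, map_zero, map_one, map_neg, map_ofNat] <;> grind)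
  obtain ⟨i, j, e1⟩ := RP.exists_pow (ρ := fr ι K P) ⟨ι (ω ^ 2), by
    rw [Ne, map_eq_one_iff _ ι.injective]; grind, _, _, fr_L hD, fr_L hC, by
      rw [← Matrix.map_mul, e, map_smul', Matrix.map_mul]⟩ hz
  have hu := subset_closure (k := {P * D * P⁻¹, P * C * P⁻¹}) (Set.mem_insert _ _)
  have hv := subset_closure (k := {P * D * P⁻¹, P * C * P⁻¹}) (Set.mem_insert_of_mem _ rfl)
  have hw := mul_mem (pow_mem hu i) (pow_mem hv j)
  have hw3 := h.cube _ (mul_mem (pow_mem h.mD i) (pow_mem h.mC j))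
  rw [← QuotientGroup.mk_pow, ← QuotientGroup.mk_pow, ← QuotientGroup.mk_mul] at e1
  obtain ⟨s, hs⟩ := (quo K).uniq (quo_L _) (e1 ▸ quo_L z)
  change z.1.1 = s • ((P * D * P⁻¹) ^ (i : ℕ) * (P * C * P⁻¹) ^ (j : ℕ)).1 at hs
  generalize (P * D * P⁻¹) ^ (i : ℕ) * (P * C * P⁻¹) ^ (j : ℕ) = w at *
  have s3 : s ^ 3 = 1 := smul_cancel (A := 1) (by simp) (by
    rw [one_smul, ← Units.val_one, ← hw3, Units.val_pow_eq_pow_val, ← smul_pow, ← hs,
      ← Units.val_pow_eq_pow_val, h3, ← Units.val_pow_eq_pow_val, hw3])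
  have ht := mul_mem (mul_mem hu hv) (inv_mem (mul_mem hv hu))
  have et : (P * D * P⁻¹ * (P * C * P⁻¹) * (P * C * P⁻¹ * (P * D * P⁻¹))⁻¹).1 = ω • 1 := by
    rw [show P * D * P⁻¹ * (P * C * P⁻¹) * (P * C * P⁻¹ * (P * D * P⁻¹))⁻¹ =
      P * (D * C * (C * D)⁻¹) * P⁻¹ by group, Units.val_mul, Units.val_mul, Units.val_mul (D * C),
      show (D * C).1 = ω • (C * D).1 by
        rw [Units.val_mul, Units.val_mul, e, smul_smul, show ω * ω ^ 2 = 1 by grind, one_smul],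
      smul_mul_assoc, Units.mul_inv, mul_smul_comm, smul_mul_assoc, mul_one, Units.mul_inv]
  generalize P * D * P⁻¹ * (P * C * P⁻¹) * (P * C * P⁻¹ * (P * D * P⁻¹))⁻¹ = t at *
  obtain ⟨m, rfl⟩ : ∃ m : ℕ, s = ω ^ m := by
    rcases cube_cases (show ω ^ 3 = 1 by grind) o1 s3 with e | e | e
    exacts [⟨0, by grind⟩, ⟨2, by grind⟩, ⟨1, by grind⟩]
  rw [show z.1 = t ^ m * w from Units.ext (by
    rw [hs, Units.val_mul, Units.val_pow_eq_pow_val, et, smul_pow, one_pow, smul_mul_assoc, one_mul])]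
  exact mul_mem (pow_mem ht m) hw

theorem HeF.conj (hD : P * D * P⁻¹ ∈ K) (hC : P * C * P⁻¹ ∈ K)
    (hN : (RR ((⟨_, hD⟩ : K) : K ⧸ (scalars (Fin 3) F).subgroupOf K) (⟨_, hC⟩ : K)).Normal)
    {g w : GL (Fin 3) F} (hg : g ∈ K) (hw : w ∈ K) (hw' : w ∈ R) : g * w * g⁻¹ ∈ R := by
  refine (show closure {P * D * P⁻¹, P * C * P⁻¹} ≤ R from (closure_le R).2 (by
    rintro _ (rfl | rfl); exacts [h.mD, h.mC])) (h.gen ι hD hC
      (z := ⟨_, mul_mem (mul_mem hg hw) (inv_mem hg)⟩) (by simp [conj_pow, h.cube _ hw']) ?_)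
  rw [show (⟨_, mul_mem (mul_mem hg hw) (inv_mem hg)⟩ : K) = ⟨g, hg⟩ * ⟨w, hw⟩ * ⟨g, hg⟩⁻¹ from rfl,
    QuotientGroup.mk_mul, QuotientGroup.mk_mul, QuotientGroup.mk_inv]
  exact hN.conj_mem _ (mem_RR.2 ⟨((quo K).comm_iff (quo_L _) (quo_L _)).2 (h.rd.comm _ h.mD _ hw'),
    ((quo K).comm_iff (quo_L _) (quo_L _)).2 (h.rd.comm _ h.mC _ hw')⟩) _

variable [Finite F]

theorem HeF.norm {n : GL (Fin 3) F} (h1 : n * (P * D * P⁻¹) * n⁻¹ ∈ R)
    (h2 : n * (P * C * P⁻¹) * n⁻¹ ∈ R) : n ∈ subgroupNormalizer R := by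
  refine mem_normalizer_fintype fun r hr => (show closure {P * D * P⁻¹, P * C * P⁻¹} ≤
    R.comap (MulAut.conj n).toMonoidHom from (closure_le _).2 ?_)
    (h.gen ι h.mD h.mC (z := ⟨r, hr⟩) (h.cube r hr) (mem_RR.2 ⟨?_, ?_⟩))
  · rintro _ (rfl | rfl)
    exacts [h1, h2]
  · exact ((quo R).comm_iff (quo_L _) (quo_L _)).2 (h.rd.comm _ h.mD _ hr)
  · exact ((quo R).comm_iff (quo_L _) (quo_L _)).2 (h.rd.comm _ h.mC _ hr)

theorem HeF.norm' {W W' : GL (Fin 3) F} (h1 : P * W * P⁻¹ ∈ R) (h2 : P * W' * P⁻¹ ∈ R)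
    (e1 : y.1 * D.1 = W.1 * y.1) (e2 : y.1 * C.1 = W'.1 * y.1) :
    P * y * P⁻¹ ∈ subgroupNormalizer R := by
  rw [← mul_inv_eq_of_eq_mul (Units.ext e1 : y * D = W * y)] at h1
  rw [← mul_inv_eq_of_eq_mul (Units.ext e2 : y * C = W' * y)] at h2
  exact h.norm ι (by convert h1 using 1; group) (by convert h2 using 1; group)

theorem HeF.main (hK : subgroupNormalizer R ⊓ X ≤ K) {S : Mt F → Prop}
    (hX : ∀ y : GL (Fin 3) F, y.1.det = 1 → S y.1 → P * y * P⁻¹ ∈ X) (s1 : S (dg 1 ω (ω ^ 2)))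
    (s2 : S (cyc F)) {c : F} (hc : c * (ω - ω ^ 2) = 1)
    (s3 : S (c • !![1, 1, 1; 1, ω, ω ^ 2; 1, ω ^ 2, ω]))
    (s4 : S (c • !![1, ω, ω; ω ^ 2, ω, ω ^ 2; ω ^ 2, ω ^ 2, ω])) :
    ∃ x c, (fr ι K P).HeM (ι ω) x c ∧ ((RR x c).Normal → K ≤ subgroupNormalizer R) := by
  have o1 := h.o1
  have o2 := h.o2
  have eD := h.eD
  have eC := h.eC
  have hD := hK ⟨le_normalizer h.mD, hX D (by rw [eD]; (simp only [mul_fin_three, one_fin_three, em3, sm3, mv3, vm3, sv3, ev3, dot3, dm3, trm3, tm3, zv3, adjugate_fin_three_of, map3, map_zero, map_one, map_neg, map_ofNat] <;> grind)) (eD ▸ s1)⟩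
  have hC := hK ⟨le_normalizer h.mC, hX C (by rw [eC]; (simp only [mul_fin_three, one_fin_three, em3, sm3, mv3, vm3, sv3, ev3, dot3, dm3, trm3, tm3, zv3, adjugate_fin_three_of, map3, map_zero, map_one, map_neg, map_ofNat] <;> grind)) (eC ▸ s2)⟩
  have hm : ∀ {a b}, P * a * P⁻¹ ∈ R → P * b * P⁻¹ ∈ R → P * (a * b) * P⁻¹ ∈ R := fun h h' => by
    convert mul_mem h h' using 1; group
  have key : ∀ (A : Mt F) (W W' : GL (Fin 3) F), (c • A).det = 1 → S (c • A) → P * W * P⁻¹ ∈ R →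
      P * W' * P⁻¹ ∈ R → A * D.1 = W.1 * A → A * C.1 = W'.1 * A → (fr ι K P).In (A.map ι) :=
    fun A W W' d s h1 h2 e1 e2 => by
    have c0 : ι c ≠ 0 := (map_ne_zero ι).2 (left_ne_zero_of_mul_eq_one hc)
    have := fr_in (ι := ι) (hK ⟨h.norm' ι (y := .mkOfDetNeZero _ (d.trans_ne one_ne_zero)) h1 h2
      (by simp [e1]) (by simp [e2]), hX _ d s⟩)
    simpa [map_smul', c0] using this.smul (inv_ne_zero c0)
  refine ⟨_, _, ⟨by rwa [Ne, map_eq_one_iff _ ι.injective], by simpa using congrArg ι o2,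
    by convert fr_L hD; simp [eD, eq9], by convert fr_L hC; simp [eC, eq9], ?_, ?_⟩,
    fun hN g hg => h.norm ι ?_ ?_⟩
  · convert key _ _ _ (by (simp only [mul_fin_three, one_fin_three, em3, sm3, mv3, vm3, sv3, ev3, dot3, dm3, trm3, tm3, zv3, adjugate_fin_three_of, map3, map_zero, map_one, map_neg, map_ofNat] <;> grind)) s3 (hm h.mC h.mC) h.mD (by simp only [Units.val_mul, eD, eC]; (simp only [mul_fin_three, one_fin_three, em3, sm3, mv3, vm3, sv3, ev3, dot3, dm3, trm3, tm3, zv3, adjugate_fin_three_of, map3, map_zero, map_one, map_neg, map_ofNat] <;> grind))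
      (by simp only [eD, eC]; (simp only [mul_fin_three, one_fin_three, em3, sm3, mv3, vm3, sv3, ev3, dot3, dm3, trm3, tm3, zv3, adjugate_fin_three_of, map3, map_zero, map_one, map_neg, map_ofNat] <;> grind))
    simp [eq9]
  · convert key _ _ _ (by (simp only [mul_fin_three, one_fin_three, em3, sm3, mv3, vm3, sv3, ev3, dot3, dm3, trm3, tm3, zv3, adjugate_fin_three_of, map3, map_zero, map_one, map_neg, map_ofNat] <;> grind)) s4 (hm (hm (hm h.mD h.mC) h.mC) h.mD) (hm (hm h.mD h.mC) h.mD)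
      (by simp only [Units.val_mul, eD, eC]; (simp only [mul_fin_three, one_fin_three, em3, sm3, mv3, vm3, sv3, ev3, dot3, dm3, trm3, tm3, zv3, adjugate_fin_three_of, map3, map_zero, map_one, map_neg, map_ofNat] <;> grind)) (by simp only [Units.val_mul, eD, eC]; (simp only [mul_fin_three, one_fin_three, em3, sm3, mv3, vm3, sv3, ev3, dot3, dm3, trm3, tm3, zv3, adjugate_fin_three_of, map3, map_zero, map_one, map_neg, map_ofNat] <;> grind))
    simp [eq9]
  exacts [h.conj ι hD hC hN hg hD h.mD, h.conj ι hD hC hN hg hC h.mC]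

end

theorem HeF.exists_c {D C : GL (Fin 3) F} {ω : F} (h : HeF R P D C ω) :
    ∃ c : F, c * (ω - ω ^ 2) = 1 :=
  ⟨_, inv_mul_cancel₀ (by have := h.o1; have := h.o2; grind)⟩

variable (ι) (p : ℕ) [Fact p.Prime] [CharP F p] [CharP k p] [IsAlgClosed k] [Fintype F]
include ι

theorem sl_he (hF : Nat.card F = p ^ 1) (h1 : p % 3 = 1) (hR : IsLinearSymplecticTypeData 3 R) :
    IsMaximalIn (specialLinear (Fin 3) F) (subgroupNormalizer R ⊓ specialLinear (Fin 3) F) := by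
  obtain ⟨h2, h3⟩ := rdata hR.symplecticType hR.absIrred
  obtain ⟨P, D, C, ω, h⟩ := exists_heF h2 h3
  obtain ⟨c, hc⟩ := h.exists_c
  refine max_sl (ι := ι) p hF (H5.SL.not_le_subgroupNormalizer (by simp) hR) fun K h4 h5 => ?_
  obtain ⟨x, c, e1, e2⟩ := h.main ι h4 (S := fun _ => True)
    (fun y d _ => mem_sl.2 (det_conj.trans d)) trivial trivial hc trivial trivial
  exact (slHe (fr_rat p hF) (rho_cl p hF h5 _) h1 e1).imp e2 (Sm.of_cj _)

theorem su_he (hF : Fintype.card F = (p ^ 1) ^ 2) (h1 : p % 3 = 2) (h11 : 11 ≤ p)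
    (hR : IsSymplecticTypeGroup 3 R) (ha : ActsAbsolutelyIrreducibly (matrixSet R))
    (hs : R ≤ similarityGroup (hermForm 3 F (p ^ 1))) :
    IsMaximalIn (GU 3 F (p ^ 1) ⊓ specialLinear (Fin 3) F)
      (subgroupNormalizer R ⊓ (GU 3 F (p ^ 1) ⊓ specialLinear (Fin 3) F)) := by
  obtain ⟨h2, h3⟩ := rdata hR ha
  obtain ⟨P, D, C, ω, h⟩ := exists_heF h2 h3
  obtain ⟨c, hc⟩ := h.exists_c
  have o1 := h.o1
  have o2 := h.o2
  have cu : ∀ c : F, c ^ 3 = 1 → FB F p 1 c = c ^ 2 := fun c h => by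
    rw [fb_def, pow_one, pow_eq_pow_mod _ h, h1]
  have eω := cu ω (by grind)
  have hc' := congrArg (FB F p 1) hc
  simp only [map_mul, map_sub, map_pow, eω, map_one] at hc'
  have un : ∀ y : GL (Fin 3) F, P * y * P⁻¹ ∈ R → (y.1.map (FB F p 1))ᵀ *
      ((P.1.map (FB F p 1))ᵀ * P.1) * y.1 = (P.1.map (FB F p 1))ᵀ * P.1 := fun y hy => by
    obtain ⟨c, e⟩ := hs hy
    have h4 := congrArg Units.val (h3 _ hy)
    have h5 : P.1 * y.1 = (P * y * P⁻¹).1 * P.1 := by simp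
    generalize P * y * P⁻¹ = z at *
    have f1 : hermForm 3 F (p ^ 1) ![1, 0, 0] ![1, 0, 0] = 1 := by
      simp [hermForm, Fin.sum_univ_three]
    have c3 := e (z.1 *ᵥ z.1 *ᵥ ![1, 0, 0]) (z.1 *ᵥ z.1 *ᵥ ![1, 0, 0])
    conv_rhs at c3 => rw [e, e, f1]
    rw [mulVec_mulVec, mulVec_mulVec, show z.1 * z.1 * z.1 = 1 by simpa [pow_succ] using h4,
      one_mulVec, f1] at c3
    have c4 := H5.SU.gf_conj (herm_one hF) (z.1 *ᵥ ![1, 0, 0]) (z.1 *ᵥ ![1, 0, 0])
    rw [← hermForm_eq hF, e, f1, mul_one, qInv_apply, ← fb_def, cu _ (by grind)] at c4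
    have c5 : (c : F) = 1 := mul_left_cancel₀ c.ne_zero (by grind)
    have := (herm_iff p 1 z.1).1 (by simpa [c5] using e)
    rw [← mul_assoc, ← transpose_mul, ← Matrix.map_mul, mul_assoc, h5, Matrix.map_mul, transpose_mul,
      mul_assoc, ← mul_assoc _ z.1, this, one_mul]
  have k1 := un D h.mD
  have k2 := un C h.mC
  obtain ⟨t, ht⟩ : ∃ t : F, (P.1.map (FB F p 1))ᵀ * P.1 = t • 1 := by
    obtain ⟨a0, a1, a2, a3, a4, a5, a6, a7, a8, e⟩ := ex9 ((P.1.map (FB F p 1))ᵀ * P.1)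
    simp only [e, h.eD, h.eC, map3, map_pow, eω, map_zero, map_one, tm3, mul_fin_three, em3] at k1 k2
    exact ⟨a0, by rw [e]; clear e un; (simp only [mul_fin_three, one_fin_three, em3, sm3, mv3, vm3, sv3, ev3, dot3, dm3, trm3, tm3, zv3, adjugate_fin_three_of, map3, map_zero, map_one, map_neg, map_ofNat] <;> grind)⟩
  have hF' := card_su p hF
  refine max_su (ι := ι) p (su_eq hF ▸ H5.SU.not_le_subgroupNormalizer (herm_one hF)
    (qInv_ne hF) (by simp) (Or.inr (by nlinarith)) h2) fun K h4 h5 => ?_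
  obtain ⟨x, c, e1, e2⟩ := h.main ι h4 (S := fun A => (A.map (FB F p 1))ᵀ * A = 1)
    (fun y d e => conj_su (ι := ι) p ht d (by
      rw [map_smul', map_one', mul_smul_comm, mul_one, smul_mul_assoc, su_map p e]))
    (by simp only [map3, map_pow, eω]; (simp only [mul_fin_three, one_fin_three, em3, sm3, mv3, vm3, sv3, ev3, dot3, dm3, trm3, tm3, zv3, adjugate_fin_three_of, map3, map_zero, map_one, map_neg, map_ofNat] <;> grind)) (by (simp only [mul_fin_three, one_fin_three, em3, sm3, mv3, vm3, sv3, ev3, dot3, dm3, trm3, tm3, zv3, adjugate_fin_three_of, map3, map_zero, map_one, map_neg, map_ofNat] <;> grind)) hc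
    (by simp only [sm3, map3, map_mul, map_pow, eω]; (simp only [mul_fin_three, one_fin_three, em3, sm3, mv3, vm3, sv3, ev3, dot3, dm3, trm3, tm3, zv3, adjugate_fin_three_of, map3, map_zero, map_one, map_neg, map_ofNat] <;> grind))
    (by simp only [sm3, map3, map_mul, map_pow, eω]; (simp only [mul_fin_three, one_fin_three, em3, sm3, mv3, vm3, sv3, ev3, dot3, dm3, trm3, tm3, zv3, adjugate_fin_three_of, map3, map_zero, map_one, map_neg, map_ofNat] <;> grind))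
  exact (suHe ((rho_frm p h5).cj _) (rho_cl p hF' (h5.trans inf_le_right) _) (by omega) e1).imp e2
    (Sm.of_cj _)

end Cfsg.Agent.H6.M3
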