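import Cfsg.Agent.H6.T10

/-! Maximality of Singer normalisers in dimension three. -/

set_option autoImplicit false

namespace Cfsg.Agent.H6.M3

open Matrix Subgroup Cfsg.Geo Cfsg.Agent.Asch PR
open scoped MatrixGroups

variable {k : Type*} [Field k] {F : Type*} [Field F] (ι : F →+* k)
  (p : ℕ) [Fact p.Prime] [CharP k p] [IsAlgClosed k] [Fintype F] {α n N : ℕ}

theorem singer (hF : Nat.card F = p ^ α) {E : Subalgebra F (Mt F)} (hE : IsFieldSubalgebra 3 E)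
    {s : Mt F} (hs : s ∈ E) (ho : orderOf s = N) (h1 : N ∣ (p ^ α) ^ 2 + p ^ α + 1)
    (h2 : ¬ (N : ℤ) ∣ 3 * ((p ^ α : ℕ) - 1)) : ∃ (g : GL (Fin 3) F) (a : k) (B B' : Mt k)
      (hB : B * B' = 1), g.1 = s ∧ s.det = 1 ∧ g ∈ subalgebraNormalizer E ∧ ∀ K,
        (g ∈ K → ((rho ι K).cj hB).SiM a N (p ^ α)) ∧
          (((rho ι K).cj hB).Mono → K ≤ subalgebraNormalizer E) := by
  obtain ⟨a, b, c, h⟩ := exists_eig (s.map ι)
  obtain ⟨v, v0, e⟩ := h.vec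
  have pw : ∀ j : ℕ, (s ^ j).map ι *ᵥ v = a ^ j • v := fun j => by
    induction j with
    | zero => simp [map_one']
    | succ j ih => rw [pow_succ, Matrix.map_mul, ← mulVec_mulVec, e, mulVec_smul, ih, smul_smul,
        pow_succ']
  have hp : IsPrimitiveRoot a N := by
    refine ⟨smul_left_injective k v0 ?_, fun j hj => ho ▸ orderOf_dvd_of_pow_eq_one ?_⟩
    · simp only [← pw, ← ho, pow_orderOf_eq_one, map_one', one_mulVec, one_smul]
    by_contra h3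
    obtain ⟨y, -, hy⟩ := hE.inv _ (E.sub_mem (E.pow_mem hs j) E.one_mem) (sub_ne_zero.2 h3)
    refine mulVec_ne_zero (A := (s ^ j - 1).map ι) ?_ v0 ?_
    · rw [det_map, map_ne_zero]; exact (det_of_mul hy).1
    · rw [Matrix.map_sub _ ι.map_sub, sub_mulVec, pw, hj, map_one', one_mulVec, one_smul, sub_self]
  have hA : SiA a N (p ^ α) := ⟨hp.ne_zero (by rintro rfl; simp at h1), hp, h1, h2⟩
  obtain ⟨c1, c2, c3⟩ := hA.cyc
  have st : ∀ (w : Vc k) (z : k), s.map ι *ᵥ w = z • w →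
      s.map ι *ᵥ (FB k p α ∘ w) = FB k p α z • (FB k p α ∘ w) := fun w z h => by
    rw [← map_fix p hF, map_mulVec', h]; exact funext fun j => map_mul _ _ _
  have nz : ∀ {v : Vc k}, v ≠ 0 → FB k p α ∘ v ≠ 0 := fun hv e =>
    hv (funext fun j => (map_eq_zero _).1 (congrFun e j))
  have e1 := st _ _ e
  have e2 := st _ _ e1
  rw [c1] at e1 e2
  rw [c2] at e2
  have n0 : a ≠ a ^ p ^ α ∧ a ≠ a ^ (p ^ α) ^ 2 ∧ a ^ p ^ α ≠ a ^ (p ^ α) ^ 2 :=
    ⟨fun e => hA.six.1 (congrArg _ e), fun e => hA.six.2.1 (congrArg _ e),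
      fun e => hA.six.2.2 (congrArg _ e)⟩
  obtain ⟨B', hB⟩ := (ind_eig n0.1 n0.2.1 n0.2.2 v0 (nz v0) (nz (nz v0)) e e1 e2).inv
  have e3 : s.map ι * cols v (FB k p α ∘ v) (FB k p α ∘ FB k p α ∘ v) =
      cols v (FB k p α ∘ v) (FB k p α ∘ FB k p α ∘ v) * dg a (a ^ p ^ α) (a ^ (p ^ α) ^ 2) := by
    rw [mul_cols, cols_mul, e, e1, e2]; simp
  generalize cols v (FB k p α ∘ v) (FB k p α ∘ FB k p α ∘ v) = B at *
  have hB' := mul_eq_one_comm.1 hB
  have d : s.det = 1 := ι.injective (mul_right_cancel₀ (det_of_mul hB).1 (by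
    rw [← det_map, ← det_mul, e3, det_mul, dm3, map_one, ← hA.det]; ring))
  have cm : ∀ x y : Mt F, B' * (x * y).map ι * B = B' * x.map ι * B * (B' * y.map ι * B) :=
    fun x y => by
    rw [Matrix.map_mul]
    calc _ = B' * x.map ι * (B * B') * y.map ι * B := by simp only [hB, mul_one, mul_assoc]
      _ = _ := by simp only [mul_assoc]
  have dE : ∀ y ∈ E, Mon (B' * y.map ι * B) 1 := fun y hy => by
    have h3 := (cm y s).symm.trans (hE.comm s hs y hy ▸ cm s y)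
    rw [mul_assoc B' (s.map ι), e3, ← mul_assoc B', hB', one_mul] at h3
    obtain ⟨a0, a1, a2, a3, a4, a5, a6, a7, a8, e⟩ := ex9 (B' * y.map ι * B)
    simp only [e, mul_fin_three, em3] at h3
    rw [e, show a1 = 0 by grind, show a2 = 0 by grind, show a3 = 0 by grind, show a5 = 0 by grind,
      show a6 = 0 by grind, show a7 = 0 by grind]
    exact mon_dg _ _ _
  have iv : ∀ (g : GL (Fin 3) F) σ, Mon (B' * g.1.map ι * B) σ → Mon (B' * (g⁻¹).1.map ι * B) σ⁻¹ :=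
    fun g σ h => h.inv (by rw [← cm, Units.mul_inv, map_one', mul_one, hB'])
  have key : ∀ (g : GL (Fin 3) F) σ, Mon (B' * g.1.map ι * B) σ → ∀ y ∈ E,
      g.1 * y * (g⁻¹).1 ∈ E := fun g σ hσ y hy => mem_of_comm_singer hE fun z hz => by
    have h3 := (hσ.mul (dE y hy)).mul (iv g σ hσ)
    rw [← cm, ← cm, mul_one, mul_inv_cancel] at h3
    refine map_inj ι (cancel_left (det_of_mul hB).2 (cancel_right (det_of_mul hB).1 ?_))
    rw [cm, cm z, h3.dg, (dE z hz).dg]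
    (simp only [mul_fin_three, one_fin_three, em3, sm3, mv3, vm3, sv3, ev3, dot3, dm3, trm3, tm3, zv3, adjugate_fin_three_of, map3, map_zero, map_one, map_neg, map_ofNat] <;> grind)
  have k2 : ∀ (g : GL (Fin 3) F) σ, Mon (B' * g.1.map ι * B) σ → g ∈ subalgebraNormalizer E :=
    fun g σ h y => ⟨key g σ h y, fun hy => by simpa [mul_assoc] using key g⁻¹ _ (iv g σ h) _ hy⟩
  exact ⟨.mkOfDetNeZero s (d.trans_ne one_ne_zero), a, B, B', hB, rfl, d, k2 _ _ (dE s hs), fun K =>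
    ⟨fun hg => ⟨hA, _, (rho ι K).cj_of hB (up_of (quo_L ⟨_, hg⟩)) e3⟩, fun h g hg =>
      (h _ ⟨_, (cj_L' _ hB).2 (up_of (quo_L ⟨g, hg⟩))⟩).elim (k2 g)⟩⟩

variable [CharP F p]
include ι

theorem sl_singer (hF : Nat.card F = p ^ α) (h4 : p ^ α ≠ 4) {E : Subalgebra F (Mt F)}
    (hE : IsFieldSubalgebra 3 E) :
    IsMaximalIn (specialLinear (Fin 3) F) (subalgebraNormalizer E ⊓ specialLinear (Fin 3) F) := by
  letI : Field E := (isField_of_inv hE.comm hE.inv).toField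
  haveI := Fintype.ofFinite E
  have hQ := Nat.one_lt_pow (exp_ne p hF) (Fact.out : p.Prime).one_lt
  obtain ⟨x, -, hx⟩ := H8.exists_orderOf_eq (F := E) (d := (p ^ α) ^ 2 + p ^ α + 1) (by
    rw [← Nat.card_eq_fintype_card, natCard_fieldSubalgebra hE, ← Nat.card_eq_fintype_card, hF]
    exact ⟨p ^ α - 1, by zify [hQ.le, Nat.one_le_pow 3 _ (by omega : 0 < p ^ α)]; ring⟩)
  obtain ⟨g, a, B, B', hB, e, d, h1, h2⟩ := singer ι p hF hE x.2
    ((orderOf_injective E.val.toRingHom.toMonoidHom Subtype.val_injective x).trans hx) dvd_rfl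
    fun e => by
      zify at hQ
      push_cast at e
      exact ndvd e 0 (by nlinarith) (by nlinarith)
  exact max_sl (ι := ι) p hF (H5.SL.not_le_subalgebraNormalizer (by simp) (by norm_num) hE)
    fun K h5 h6 => (slS ((rho_rat p hF).cj hB) (rho_cl p hF h6 _) (exp_ne p hF) h4
      ((h2 K).1 (h5 ⟨h1, mem_sl.2 (e ▸ d)⟩))).imp (h2 K).2 (Sm.of_cj _)

theorem su_singer (hF : Fintype.card F = (p ^ n) ^ 2) (hq : 3 ≤ p ^ n) (h3 : p ^ n ≠ 3)
    (h5 : p ^ n ≠ 5) {E : Subalgebra F (Mt F)} (hE : IsFieldSubalgebra 3 E)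
    (ha : IsAdjointClosedFor (hermForm 3 F (p ^ n)) E) :
    IsMaximalIn (GU 3 F (p ^ n) ⊓ specialLinear (Fin 3) F)
      (subalgebraNormalizer E ⊓ (GU 3 F (p ^ n) ⊓ specialLinear (Fin 3) F)) := by
  have hF' := card_su p hF
  obtain ⟨q, e⟩ : ∃ q, p ^ n = q + 1 := ⟨p ^ n - 1, by omega⟩
  have e1 : p ^ (2 * n) = (q + 1) ^ 2 := by rw [mul_comm, pow_mul, e]
  have h7 : ¬ ((q ^ 2 + q + 1 : ℕ) : ℤ) ∣ 3 * ((p ^ (2 * n) : ℕ) - 1) := fun h => by
    have : (3 : ℤ) ≤ q := by omega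
    rw [e1] at h
    push_cast at h
    exact ndvd h 3 (by nlinarith) (by nlinarith)
  obtain ⟨x, h1, h2, h4, -⟩ := H5.SU.singer_data (m := 1) (l := q ^ 2 + q + 1) hF (herm_one hF)
    (qInv_ne hF) Nat.prime_three hE (hermForm_eq hF 3 ▸ ha) ⟨q + 2, by rw [e]; ring⟩ fun h => h7 (by
      refine (Int.natCast_dvd_natCast.2 h).trans (Dvd.intro_left 3 ?_)
      rw [e1, e, Nat.cast_sub (Nat.one_le_pow _ _ (by omega))]; simp)
  obtain ⟨g, a, B, B', hB, e2, d, h6, h8⟩ := singer ι p hF' hE h1 h2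
    ⟨q ^ 2 + 3 * q + 3, by rw [e1]; ring⟩ h7
  refine max_su (ι := ι) p (su_eq hF ▸ H5.SU.not_le_subalgebraNormalizer (herm_one hF)
    (qInv_ne hF) (by simp) (by norm_num) hE) fun K h9 h10 =>
    (suS (a := a) ((rho_frm p h10).cj hB) (rho_cl p hF' (h10.trans inf_le_right) _) hq
      ((rho_rat p hF').cj hB) h3 h5 ?_).imp (h8 K).2 (Sm.of_cj _)
  rw [show p ^ n - 1 = q by omega]
  exact (h8 K).1 (h9 ⟨h6, su_eq hF ▸ H5.SU.mem_SUG.2 (e2 ▸ ⟨h4, d⟩)⟩)

end Cfsg.Agent.H6.M3
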