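import Cfsg.Agent.H6.T11

/-! Maximality of the reducible subgroups of the unitary groups in dimension three. -/

set_option autoImplicit false

namespace Cfsg.Agent.H6.M3

open Matrix Subgroup Cfsg.Geo Cfsg.Agent.Asch PR
open scoped MatrixGroups

variable {k : Type*} [Field k] {θ : k →+* k} {u v w z : Vc k}

theorem dot_sw (hv : θ ∘ θ ∘ v = v) (h : θ ∘ v ⬝ᵥ u = 0) : θ ∘ u ⬝ᵥ v = 0 := by
  have := congrArg θ h
  rwa [RingHom.map_dotProduct, hv, map_zero, dotProduct_comm] at this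

theorem siegel (hv : θ ∘ θ ∘ v = v) (hu : θ ∘ θ ∘ u = u) (h1 : θ ∘ v ⬝ᵥ v = 0)
    (h2 : θ ∘ v ⬝ᵥ u = 0) {y : k} (h3 : y + θ y = θ ∘ u ⬝ᵥ u) : ∃ E : Mt k, E.det = 1 ∧
      (E.map θ)ᵀ * E = 1 ∧ E = 1 + vecMulVec u (θ ∘ v) - vecMulVec v (θ ∘ u + y • θ ∘ v) ∧
      ∀ x, E *ᵥ x = x + (θ ∘ v ⬝ᵥ x) • u - (θ ∘ u ⬝ᵥ x + y * θ ∘ v ⬝ᵥ x) • v := by
  have h4 := dot_sw hv h2
  refine ⟨_, ?_, ?_, rfl, fun x => ?_⟩
  · rw [show 1 + vecMulVec u (θ ∘ v) - vecMulVec v (θ ∘ u + y • θ ∘ v) =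
      (1 + vecMulVec u (θ ∘ v)) * (1 + vecMulVec (-v) (θ ∘ u + y • θ ∘ v)) by
        simp [mul_add, add_mul, vecMulVec_mul_vecMulVec, h1, sub_eq_add_neg, add_assoc],
      det_mul, det_r1, det_r1]
    simp [h1, h2, h4]
  · rw [show ((1 + vecMulVec u (θ ∘ v) - vecMulVec v (θ ∘ u + y • θ ∘ v)).map θ)ᵀ =
      1 + vecMulVec v (θ ∘ u) - vecMulVec (u + θ y • v) (θ ∘ v) from Matrix.ext fun i j => by
        have := congrFun hv i
        have := congrFun hu i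
        simp_all [vecMulVec_apply, one_apply, apply_ite θ, eq_comm (a := j)]
        ring]
    simp only [mul_add, add_mul, mul_sub, sub_mul, vecMulVec_mul_vecMulVec, h1, h2, h4, ← h3,
      zero_smul, vecMulVec_zero, mul_one, one_mul]
    ext i j
    simp [vecMulVec_apply]
    ring
  · simp only [sub_mulVec, add_mulVec, vecMulVec_mulVec, op_smul_eq_smul, one_mulVec,
      add_dotProduct, smul_dotProduct, smul_eq_mul]

theorem comp_cross {F : Type*} [Field F] {θ : F →+* k} (u v : Vc F) :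
    θ ∘ (u ⨯₃ v) = (θ ∘ u) ⨯₃ (θ ∘ v) := by
  simp [eq3, cross_apply]

theorem perp_all (w0 : w ≠ 0) (hw : θ ∘ θ ∘ w = w)
    (h : ∀ u, θ ∘ θ ∘ u = u → θ ∘ w ⬝ᵥ u = 0 → θ ∘ u ⬝ᵥ z = 0) : ∃ c : k, z = c • w := by
  have e : ∀ i, θ ∘ (Pi.single i 1 : Vc k) = Pi.single i 1 := fun i => by
    ext j; simp [Pi.single_apply, apply_ite θ]
  refine eq_smul_of_cross w0 (funext fun i => ?_)
  have := h ((θ ∘ w) ⨯₃ Pi.single i 1) (by simp only [comp_cross, hw, e]) (dot_self_cross ..)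
  rw [comp_cross, hw, e, dotProduct_comm, ← triple_product_permutation, ← cross_anticomm] at this
  simpa only [dotProduct_neg, neg_eq_zero, single_dotProduct, one_mul, Pi.zero_apply] using this

theorem iso_span (hw : θ ∘ θ ∘ w = w) {a b : k} (hab : a ≠ b) (hN : θ ∘ w ⬝ᵥ w ≠ 0)
    (ha : θ a * a = -(θ ∘ w ⬝ᵥ w)) (hb : θ b * b = -(θ ∘ w ⬝ᵥ w))
    (h : ∀ v, θ ∘ θ ∘ v = v → θ ∘ v ⬝ᵥ v = 0 → θ ∘ v ⬝ᵥ w = 0 → θ ∘ v ⬝ᵥ z = 0)
    (hu : θ ∘ θ ∘ u = u) (h1 : θ ∘ w ⬝ᵥ u = 0) : θ ∘ u ⬝ᵥ z = 0 := by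
  have h2 := dot_sw hw h1
  have key : ∀ a : k, θ a * a = -(θ ∘ w ⬝ᵥ w) → θ a * θ ∘ u ⬝ᵥ z + (w ⨯₃ u) ⬝ᵥ z = 0 := fun a ha => by
    have e : θ ∘ (a • u + (θ ∘ w) ⨯₃ (θ ∘ u)) = θ a • θ ∘ u + w ⨯₃ u := by
      conv_rhs => rw [← hw, ← hu, ← comp_cross, hu]
      ext i; simp
    have h3 := congrArg θ ha
    rw [map_mul, map_neg, RingHom.map_dotProduct, hw, dotProduct_comm, ← ha, mul_comm] at h3
    have h4 := mul_left_cancel₀ (left_ne_zero_of_mul (ha ▸ neg_ne_zero.2 hN)) h3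
    have := h (a • u + (θ ∘ w) ⨯₃ (θ ∘ u)) ?_ ?_ ?_
    · simpa [e] using this
    · rw [e, ← comp_cross]
      ext i; simp [h4, show θ (θ (u i)) = u i from congrFun hu i]
    all_goals
      rw [e]
      simp [dotProduct, Fin.sum_univ_three, cross_apply] at ha h1 h2 ⊢
      grind
  have := key a ha
  have := key b hb
  have : θ a ≠ θ b := θ.injective.ne hab
  grind

variable (p : ℕ) [Fact p.Prime] [CharP k p] [IsAlgClosed k] {n : ℕ}

theorem exists_tr (hq : 3 ≤ p ^ n) (t : k) : ∃ y, y + FB k p n y = t := by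
  obtain ⟨y, hy⟩ := IsAlgClosed.exists_root (p := (.X ^ p ^ n + (.X - .C t) : Polynomial k)) (by
    rw [Polynomial.degree_add_eq_left_of_degree_lt] <;>
      simp only [Polynomial.degree_X_pow, Polynomial.degree_X_sub_C] <;> norm_cast <;> omega)
  exact ⟨y, by simp at hy; rw [fb_def]; linear_combination hy⟩

theorem PR.suSt {Γ : Type*} [Group Γ] [Finite Γ] {ρ : PR Γ k} {R : Mt k}
    (H : ρ.TW (frm (FB k p n)) R) (hq : 3 ≤ p ^ n) (w0 : w ≠ 0) (hw : FB k p n ∘ FB k p n ∘ w = w)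
    (h : ∀ X : Mt k, X.det = 1 → (X.map (FB k p n))ᵀ * X = 1 → (∃ c : k, X *ᵥ w = c • w) → ρ.In X) :
    (∀ A, ρ.In A → ∃ c : k, A *ᵥ w = c • w) ∨ ρ.FullU p n := by
  obtain ⟨δ, hδ⟩ := IsAlgClosed.exists_pow_nat_eq (-1 : k) (n := p ^ n - 1) (by omega)
  have d0 : δ ≠ 0 := by rintro rfl; rw [zero_pow (by omega)] at hδ; simp at hδ
  have d1 : FB k p n δ = -δ := by
    rw [fb_def, show p ^ n = p ^ n - 1 + 1 by omega, pow_succ, hδ, neg_one_mul]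
  obtain ⟨a, ha⟩ := IsAlgClosed.exists_pow_nat_eq (-(FB k p n ∘ w ⬝ᵥ w)) (n := p ^ n + 1) (by omega)
  rw [pow_succ, ← fb_def] at ha
  obtain ⟨ζ, z1, z2⟩ := root_add k p (α := n) (by rintro rfl; simp at hq)
  have z3 : ζ ≠ 1 := z1.ne_one (by omega)
  have tr := exists_tr (k := k) p hq
  have red := fun v φ => suRed (v := v) (φ := φ) H hq
  generalize FB k p n = θ at *
  have A : ∀ v d, θ ∘ θ ∘ v = v → θ ∘ v ⬝ᵥ v = 0 → θ ∘ v ⬝ᵥ w = 0 → θ d = -d →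
      ρ.El (d • v) (θ ∘ v) := fun v d h1 h2 h3 h4 => by
    have e : θ ∘ (0 : Vc k) = 0 := funext fun _ => map_zero θ
    obtain ⟨E, e1, e2, e3, e4⟩ := siegel (u := 0) (y := -d) h1 (by rw [e, e]) h2 (by simp)
      (by simp [h4])
    exact ⟨by simp [h2], (h E e1 e2 ⟨1, by simp [e4, e, h3]⟩).of_eq (by simp [e3, e])⟩
  have S : θ ∘ w ⬝ᵥ w ≠ 0 → ∀ z, (∀ v, θ ∘ θ ∘ v = v → θ ∘ v ⬝ᵥ v = 0 → θ ∘ v ⬝ᵥ w = 0 →
      θ ∘ v ⬝ᵥ z = 0) → ∃ c : k, z = c • w := fun hN z hz => perp_all w0 hw fun u =>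
    iso_span hw (a := a) (b := ζ * a) (by grind) hN ha (by rw [map_mul]; grind) hz
  by_cases hi : ρ.NoPt
  · obtain ⟨v, v0, h1, h2, h3⟩ : ∃ v, v ≠ 0 ∧ θ ∘ θ ∘ v = v ∧ θ ∘ v ⬝ᵥ v = 0 ∧ θ ∘ v ⬝ᵥ w = 0 := by
      by_contra! hv
      obtain ⟨z, hz⟩ := exists_second w0
      obtain ⟨c, rfl⟩ := S (hv w w0 hw · ‹_›) z fun v h1 h2 h3 => by
        by_contra h4
        refine hv v ?_ h1 h2 h3
        rintro rfl
        exact h4 (by simp [dotProduct])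
      simp at hz
    exact .inr (red (δ • v) (θ ∘ v) (smul_ne_zero d0 v0) (fun e => v0 (by rw [← h1, e]; ext; simp))
      (fun a ha => smul_smul a δ v ▸ A v _ h1 h2 h3 (by simp [ha, d1])) hi)
  simp only [NoPt, not_forall, not_exists, not_and, not_not] at hi
  obtain ⟨z, z0, hz⟩ := hi
  have B : ∀ v, θ ∘ θ ∘ v = v → θ ∘ v ⬝ᵥ v = 0 → θ ∘ v ⬝ᵥ w = 0 → θ ∘ v ⬝ᵥ z = 0 :=
    fun v h1 h2 h3 => by
    obtain ⟨c, hc⟩ := hz _ (A v δ h1 h2 h3 d1).2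
    by_contra h4
    rw [add_mulVec, one_mulVec, vecMulVec_mulVec, op_smul_eq_smul] at hc
    have := congrArg (θ ∘ v ⬝ᵥ ·) hc
    simp only [dotProduct_add, dotProduct_smul, h2, smul_eq_mul] at this
    rw [show c = 1 by grind] at hc
    obtain rfl : v = 0 := by simpa [h4, d0] using hc
    exact h4 (by simp [dotProduct])
  obtain ⟨c, rfl⟩ : ∃ c : k, z = c • w := by
    by_contra h0
    refine h0 (by_cases (fun hN => perp_all w0 hw fun u h1 h2 => ?_) (S · z B))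
    obtain ⟨y, hy⟩ := tr (θ ∘ u ⬝ᵥ u)
    obtain ⟨E, e1, e2, -, e4⟩ := siegel hw h1 hN h2 hy
    obtain ⟨c, hc⟩ := hz E (h E e1 e2 ⟨1, by simp [e4, hN, dot_sw hw h2]⟩)
    by_contra h4
    simp only [e4, B w hw hN hN, zero_smul, mul_zero, add_zero] at hc
    have h5 : c ≠ 1 := by rintro rfl; simp [h4, w0] at hc
    refine h0 ⟨θ ∘ u ⬝ᵥ z / (1 - c), funext fun i => ?_⟩
    have := congrFun hc i
    simp only [Pi.sub_apply, Pi.smul_apply, smul_eq_mul] at this ⊢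
    grind
  refine .inl fun A hA => (hz A hA).imp fun d e => ?_
  rw [mulVec_smul, smul_comm] at e
  exact smul_right_injective _ (left_ne_zero_of_smul z0) e

variable {F : Type*} [Field F] [Fintype F] [CharP F p] (ι : F →+* k)
include ι

theorem su_pt (hF : Fintype.card F = (p ^ n) ^ 2) (hq : 3 ≤ p ^ n) {W : Submodule F (Vc F)}
    (h0 : W ≠ ⊥) (hW : ∀ u ∈ W, ∀ v ∈ W, u ⨯₃ v = 0) :
    IsMaximalIn (GU 3 F (p ^ n) ⊓ specialLinear (Fin 3) F)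
      (subspaceStabilizer W ⊓ (GU 3 F (p ^ n) ⊓ specialLinear (Fin 3) F)) := by
  obtain ⟨w, hw, w0⟩ := Submodule.exists_mem_ne_zero_of_ne_bot h0
  have key : ∀ y : GL (Fin 3) F, (∃ c : k, y.1.map ι *ᵥ (ι ∘ w) = c • ι ∘ w) →
      1 * y * 1⁻¹ ∈ subspaceStabilizer W := fun y ⟨c, hc⟩ => by
    obtain ⟨c, hc⟩ := eq_smul_of_cross w0 (v := y.1 *ᵥ w) (funext fun i => ι.injective (by
      rw [show ι _ = (ι ∘ (w ⨯₃ (y.1 *ᵥ w))) i from rfl, comp_cross, ← map_mulVec', hc]; simp))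
    rw [one_mul, inv_one, mul_one]
    refine H7.mem_stab_of_forall (g := H7.toLE y) fun v hv => ?_
    obtain ⟨d, rfl⟩ := eq_smul_of_cross w0 (hW w hw v hv)
    change y.1 *ᵥ (d • w) ∈ W
    rw [mulVec_smul, hc]
    exact W.smul_mem _ (W.smul_mem _ hw)
  have hF' := card_su p hF
  refine max_su (ι := ι) p (su_eq hF ▸ H5.SU.not_le_subspaceStabilizer (herm_one hF)
    (qInv_ne hF) (by simp) h0 ?_) fun K h1 h2 =>
    (suSt p ((rho_frm p h2).cj _) hq (w := ι ∘ w) (fun e => w0 (funext fun i => by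
      simpa using congrFun e i)) (funext fun i => ?_) fun X d e h => in_su1 p hF' rfl h1 (by
        simp [map_one']) d e fun y e => key y (e ▸ h)).imp
      (fun e => fr_le fun y hy => key y (e _ hy)) (Sm.of_cj _)
  · rintro rfl
    exact (exists_second w0).elim fun v hv => hv (hW w hw v trivial)
  · exact (DFunLike.congr_fun (fb_two (k := k) p n) _).trans (fix_map p hF' _)

theorem su_iso (hF : Fintype.card F = (p ^ n) ^ 2) (hq : 3 ≤ p ^ n) {W : Submodule F (Vc F)}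
    (h0 : W ≠ ⊥) (hW : IsTotallySingularFor (hermForm 3 F (p ^ n)) W) :
    IsMaximalIn (GU 3 F (p ^ n) ⊓ specialLinear (Fin 3) F)
      (subspaceStabilizer W ⊓ (GU 3 F (p ^ n) ⊓ specialLinear (Fin 3) F)) := by
  refine su_pt p ι hF hq h0 fun u hu v hv => by_contra fun h => ?_
  have e : ∀ x ∈ W, ∀ y ∈ W, FB F p n ∘ y ⬝ᵥ x = 0 := fun x hx y hy => by
    rw [dotProduct_comm]; exact hW x hx y hy
  have h1 : (FB F p n ∘ u) ⨯₃ (FB F p n ∘ v) ≠ 0 := fun e => h (funext fun i => by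
    simpa using congrFun ((comp_cross u v).trans e) i)
  obtain ⟨c, e1⟩ := eq_smul_cross h1 (e u hu u hu) (e u hu v hv)
  obtain ⟨d, e2⟩ := eq_smul_cross h1 (e v hv u hu) (e v hv v hv)
  generalize (FB F p n ∘ u) ⨯₃ (FB F p n ∘ v) = z at *
  simp [e1, e2] at h

theorem su_nd (hF : Fintype.card F = (p ^ n) ^ 2) (hq : 3 ≤ p ^ n) {W : Submodule F (Vc F)}
    (h0 : W ≠ ⊥) (hW : 2 * Module.finrank F W < 3) :
    IsMaximalIn (GU 3 F (p ^ n) ⊓ specialLinear (Fin 3) F)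
      (subspaceStabilizer W ⊓ (GU 3 F (p ^ n) ⊓ specialLinear (Fin 3) F)) := by
  obtain ⟨w, hw⟩ := finrank_le_one_iff.1 (show Module.finrank F W ≤ 1 by omega)
  refine su_pt p ι hF hq h0 fun u hu v hv => ?_
  obtain ⟨c, e1⟩ := hw ⟨u, hu⟩
  obtain ⟨d, e2⟩ := hw ⟨v, hv⟩
  rw [show u = c • w.1 from congrArg Subtype.val e1.symm,
    show v = d • w.1 from congrArg Subtype.val e2.symm]
  simp

end Cfsg.Agent.H6.M3
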