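import Cfsg.Agent.H6.T1

/-! Monomial groups and groups normalising a Heisenberg group. -/

set_option autoImplicit false

namespace Cfsg.Agent.H6.M3

open Matrix Subgroup

variable {k : Type*} [Field k]

theorem Mon.inv {A A' : Mt k} {σ : Equiv.Perm (Fin 3)} (e : A * A' = 1) (h : Mon A σ) :
    Mon A' σ⁻¹ := fun i j hij => by
  obtain ⟨l, hl⟩ : ∃ l, A l i ≠ 0 := by
    by_contra hc
    push Not at hc
    exact (det_of_mul e).1 (det_eq_zero_of_column_eq_zero i hc)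
  have := congrFun (congrFun e l) j
  rw [mul_apply, Finset.sum_eq_single i (fun b _ hb => by
    rw [not_not.1 (mt (fun e => σ.injective ((h _ _ e).symm.trans (h _ _ hl))) hb), zero_mul])
    (by simp)] at this
  rw [Equiv.Perm.eq_inv_iff_eq, ← h _ _ hl]
  by_contra hn
  exact mul_ne_zero hl hij (this.trans (one_apply_ne hn))

theorem mon_of_col {A : Mt k} (hA : A.det ≠ 0) (h : ∀ j i i', A i j ≠ 0 → A i' j ≠ 0 → i = i') :
    ∃ σ, Mon A σ := by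
  rw [det_apply] at hA
  obtain ⟨σ, -, h0⟩ := Finset.exists_ne_zero_of_sum_ne_zero hA
  exact ⟨σ, fun i j e => h j _ _ e
    (Finset.prod_ne_zero_iff.1 (right_ne_zero_of_smul h0) j (Finset.mem_univ _))⟩

theorem exists_cvec [IsAlgClosed k] {A : Mt k} (h : ∀ c : k, A ≠ c • 1) :
    ∃ v : Vc k, v ≠ 0 ∧ ∀ Y : Mt k, Y * A = A * Y → ∃ c : k, Y *ᵥ v = c • v := by
  obtain ⟨a, b, c, he⟩ := exists_eig A
  have d : (A - a • 1).det = 0 := by rw [det_sub, he.tr, he.ad, he.det]; ring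
  obtain ⟨N, n0, n1, n2⟩ : ∃ N : Mt k, N ≠ 0 ∧ N.adjugate = 0 ∧
      ∀ Y : Mt k, Y * A = A * Y → Y * N = N * Y := by
    have k1 : ∀ Y : Mt k, Y * A = A * Y → Y * (A - a • 1) = (A - a • 1) * Y := fun Y e => by
      simp [mul_sub, sub_mul, e]
    by_cases e : (A - a • 1).adjugate = 0
    · exact ⟨_, sub_ne_zero.2 (h a), e, k1⟩
    refine ⟨_, e, by rw [adjugate_adjugate _ (by simp), d]; simp, fun Y e => ?_⟩
    have := k1 Y e
    generalize A - a • 1 = N at *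
    rw [adj_eq]
    simp only [mul_add, mul_sub, add_mul, sub_mul, mul_smul_comm, smul_mul_assoc, mul_one, one_mul,
      this, ← mul_assoc]
    rw [mul_assoc, this, mul_assoc]
  obtain ⟨v, φ, rfl⟩ := rank_one n1
  obtain ⟨w, hw⟩ := exists_dot_ne (φ := φ) (by rintro rfl; simp at n0)
  refine ⟨v, by rintro rfl; simp at n0, fun Y e => ⟨φ ⬝ᵥ Y *ᵥ w, ?_⟩⟩
  have := congrArg (· *ᵥ w) (n2 Y e)
  simpa only [← mulVec_mulVec, vecMulVec_mulVec, op_smul_eq_smul, hw, one_smul] using this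

namespace PR

variable {Γ : Type*} [Group Γ] {ρ : PR Γ k} {Φ : Tp k} {R A : Mt k} {θ : k →+* k}

theorem TW.of_form (hR : R.det ≠ 0)
    (h : ∀ g, ∃ A c, ρ.L g A ∧ (A.map θ)ᵀ * R * A = (c : k) • R) : ρ.TW (frm θ) R :=
  TW.of_lift hR fun g => by
    obtain ⟨A, c, hA, e⟩ := h g
    have c0 : c ≠ 0 := by
      rintro rfl
      simpa [det_map, hR, ρ.det hA] using congrArg Matrix.det e
    refine ⟨A, θ A.det / c, hA, smul_right_injective _ c0 ?_⟩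
    simp only
    rw [← mul_smul_comm, ← e, frm_f, mul_assoc, ← mul_assoc, ← transpose_mul, mul_adjugate, det_map,
      smul_smul, mul_div_cancel₀ _ c0]
    simp

theorem TW.form (h : ρ.TW (frm θ) R) (hA : ρ.In A) :
    ∃ c : k, c ≠ 0 ∧ (A.map θ)ᵀ * R * A = c • R := by
  obtain ⟨η, e⟩ := h.ex A hA
  have d : θ A.det ≠ 0 := (map_ne_zero θ).2 hA.det
  have e1 := congrArg ((A.map θ)ᵀ * ·) e
  simp only [frm_f, ← mul_assoc, ← transpose_mul, adjugate_mul, det_map, transpose_smul,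
    transpose_one, smul_mul_assoc, one_mul, mul_smul_comm] at e1
  have η0 : η ≠ 0 := by
    rintro rfl
    simpa [d, h.det] using congrArg Matrix.det e1
  refine ⟨θ A.det / η, div_ne_zero d η0, smul_right_injective _ η0 ?_⟩
  simp only
  rw [← e1, smul_smul, mul_div_cancel₀ _ η0]

theorem TW.of_set (hR : R.det ≠ 0) (N : Mt k → Prop)
    (hc : ∀ A A' X, ρ.In A → A * A' = 1 → N X → N (A * X * A')) (hf : ∀ X, N X → Fx Φ R X)
    (hs : ∀ Y : Mt k, (∀ X, N X → Y * X = X * Y) → ∃ c : k, Y = c • 1) : ρ.TW Φ R := by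
  refine ⟨hR, fun A hA => ?_⟩
  obtain ⟨A', a1, a2⟩ := exists_inv hA.det
  obtain ⟨R', r1, r2⟩ := exists_inv hR
  obtain ⟨c, e⟩ := hs (A' * R' * Φ.f A * R) fun X hX => by
    have h1 : Φ.f (A * X * A') = R * (A * X * A') * R' := by
      rw [← hf _ (hc A A' X hA a1 hX), mul_assoc _ R, r1, mul_one]
    have h3 : Φ.f X * R = R * X := hf X hX
    have h2 : Φ.f A * Φ.f X = Φ.f (A * X * A') * Φ.f A := by
      rw [← map_mul, ← map_mul, mul_assoc, a2, mul_one]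
    calc _ = A' * R' * (Φ.f A * Φ.f X) * R := by simp only [mul_assoc, h3]
      _ = A' * (R' * R) * A * X * A' * R' * Φ.f A * R := by rw [h2, h1]; simp only [mul_assoc]
      _ = _ := by rw [r2, mul_one, a2, one_mul]; simp only [mul_assoc]
  refine ⟨c, ?_⟩
  calc _ = R * (A * A') * R' * Φ.f A * R := by rw [a1, mul_one, r1, one_mul]
    _ = R * A * (A' * R' * Φ.f A * R) := by simp only [mul_assoc]
    _ = _ := by rw [e, mul_smul_comm, mul_one]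

theorem TW.uniq (h : ρ.TW Φ R) {S : Mt k} (hS : S.det ≠ 0) (hs : ∀ Y : Mt k,
    (∀ X, Fx Φ R X → Fx Φ S X → Y * X = X * Y) → ∃ c : k, Y = c • 1) : ρ.TW Φ S := by
  obtain ⟨S', -, e⟩ := exists_inv hS
  exact h.of_scal e (hs _ fun X h1 h2 => h1.comm e h2)

theorem TW.of_tr (h : ρ.tr.TW (rat θ) R) : ∃ R, ρ.TW (rat θ) R := by
  obtain ⟨R', r1, r2⟩ := exists_inv h.det
  refine ⟨R'ᵀ, by simpa using (det_of_mul r1).2, fun A hA => ?_⟩
  obtain ⟨η, e⟩ := h.ex Aᵀ (in_tr.2 hA)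
  refine ⟨η, transpose_injective ?_⟩
  have := congrArg (fun X => R' * X * R') e
  simp only [mul_smul_comm, smul_mul_assoc, mul_assoc, r1, mul_one] at this
  rw [← mul_assoc, r2, one_mul] at this
  simpa [rat_f, transpose_map] using this

theorem TW.el2 (h : ρ.TW (rat θ) R) (p : ℕ) [Fact p.Prime] [CharP k p] {v φ v' φ' : Vc k}
    (e : ρ.El v φ) (e' : ρ.El v' φ') : θ (φ ⬝ᵥ v' * φ' ⬝ᵥ v) = φ ⬝ᵥ v' * φ' ⬝ᵥ v := by
  have := ((h.el p e).mul (h.el p e')).rat h.det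
  simp only [r1_mul, trace_add, trace_smul, trace_vecMulVec, dotProduct_comm v, dotProduct_comm v',
    e.1, e'.1, add_zero, smul_eq_mul, map_add, trace_one, map_natCast] at this
  exact add_left_cancel this

variable (ρ) in
/-- monomial groups -/
def Mono : Prop := ∀ A, ρ.In A → ∃ σ, Mon A σ

variable (ρ) in
/-- a frame in which the group is monomial -/
structure MF (B B' : Mt k) (σ : Γ →* Equiv.Perm (Fin 3)) : Prop where
  inv : B * B' = 1
  mon : ∀ g A, ρ.L g A → Mon (B' * A * B) (σ g)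

theorem Sm.mf (h : ρ.Sm Mono) : ∃ B B' σ, ρ.MF B B' σ := by
  obtain ⟨B, B', hB, h⟩ := h
  have key : ∀ g, ∃ σ, ∀ A, (ρ.cj hB).L g A → Mon A σ := fun g => by
    obtain ⟨A, hA⟩ := (ρ.cj hB).ex g
    obtain ⟨σ, hσ⟩ := h A ⟨g, hA⟩
    refine ⟨σ, fun A' hA' => ?_⟩
    obtain ⟨r, rfl⟩ := (ρ.cj hB).uniq hA hA'
    exact hσ.smul r
  choose σ hσ using key
  refine ⟨B, B', MonoidHom.mk' σ fun n m => ?_, hB, fun g A hA => hσ g _ ((ρ.cj_L' hB).2 hA)⟩
  obtain ⟨A, hA⟩ := (ρ.cj hB).ex n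
  obtain ⟨C, hC⟩ := (ρ.cj hB).ex m
  exact (hσ _ _ ((ρ.cj hB).mul hA hC)).uniq ((ρ.cj hB).det ((ρ.cj hB).mul hA hC))
    ((hσ _ _ hA).mul (hσ _ _ hC))

section

variable {B B' : Mt k} {σ : Γ →* Equiv.Perm (Fin 3)} (h : ρ.MF B B' σ) {g : Γ}
include h

theorem MF.mono {d d' : Fin 3 → k} (hd : Function.Injective d)
    (e : B' * diagonal d = diagonal d' * B') : ρ.Mono := fun A ⟨g, hA⟩ => by
  obtain ⟨τ, hτ⟩ := exists_mon (det_of_mul h.inv).2 hd (c := 1) (e.trans (one_smul _ _).symm)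
  have := ((hτ.inv (mul_eq_one_comm.1 h.inv)).mul (h.mon g A hA)).mul hτ
  rw [← mul_assoc, ← mul_assoc, h.inv, one_mul, mul_assoc, h.inv, mul_one] at this
  exact ⟨_, this⟩

theorem MF.dg (hg : ρ.L g A) (e : σ g = 1) : ∃ a b c, B' * A * B = dg a b c :=
  ⟨_, _, _, (e ▸ h.mon g A hg).dg⟩

theorem MF.diag (hg : ρ.L g A) (e : σ g = 1) : ∃ d, B' * A = diagonal d * B' := by
  obtain ⟨a, b, c, e⟩ := h.dg hg e
  exact ⟨_, by rw [← dg_eq, ← e, mul_assoc, h.inv, mul_one]⟩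

theorem MF.reg {a b c : k} (hg : ρ.L g (M3.dg a b c)) (e : σ g = 1) (h1 : a ≠ b) (h2 : a ≠ c)
    (h3 : b ≠ c) : ρ.Mono := by
  obtain ⟨d, e⟩ := h.diag hg e
  rw [dg_eq] at e
  exact h.mono (fun i j => by fin_cases i <;> fin_cases j <;> simp [*, eq_comm]) e

theorem MF.trace (hg : ρ.L g A) (e : ∀ i, σ g i ≠ i) : A.trace = 0 := by
  have := fun i => not_not.1 (mt (h.mon g A hg i i) (e i).symm)
  rw [← one_mul A, ← h.inv, ← trace_mul_cycle, trace_fin_three, this, this, this]; simp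

theorem MF.unip (p : ℕ) [Fact p.Prime] [CharP k p] (e : σ g = 1) (hp : g ^ p = 1) : g = 1 := by
  obtain ⟨A, hA⟩ := ρ.ex g
  obtain ⟨a, b, c, e⟩ := h.dg hA e
  have h1 := (ρ.cj_L' h.inv).2 hA
  rw [e] at h1
  obtain ⟨r, hr⟩ := ((ρ.cj h.inv).eq_one_iff ((ρ.cj h.inv).pow h1 p)).1 hp
  simp only [dg_pow, one_fin_three, sm3, em3, mul_one] at hr
  obtain rfl : a = b := frobenius_inj k p (hr.1.trans hr.2.2.2.2.1.symm)
  obtain rfl : a = c := frobenius_inj k p (hr.1.trans hr.2.2.2.2.2.2.2.2.symm)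
  exact (ρ.cj h.inv).eq_one (c := a) (by simpa only [one_fin_three, sm3, mul_one, mul_zero])

theorem MF.T0 {g' : Γ} (e : σ g = 1) (e' : σ g' = 1) : g' ∈ ρ.T0 g := by
  obtain ⟨A, hA⟩ := ρ.ex g
  obtain ⟨C, hC⟩ := ρ.ex g'
  obtain ⟨a, b, c, e⟩ := h.dg hA e
  obtain ⟨a', b', c', e'⟩ := h.dg hC e'
  rw [← T0_cj h.inv]
  exact ⟨_, _, (ρ.cj_L' h.inv).2 hA, (ρ.cj_L' h.inv).2 hC, by simp [e, e', mul_comm]⟩

end

variable (ρ) in
/-- a normal Heisenberg group -/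
def Hess : Prop := ∃ x c, ρ.RP x c ∧ (RR x c).Normal

theorem Irr.abel [IsAlgClosed k] (hi : ρ.Irr) {N : Subgroup Γ} (hN : N.Normal) (h0 : N ≠ ⊥)
    (ab : ∀ a ∈ N, ∀ b ∈ N, a * b = b * a) : ρ.Sm Mono ∨ ρ.Hess := by
  by_cases hr : ∃ x ∈ N, ∃ c ∈ N, ρ.RP x c
  · obtain ⟨x, hx, c, hc, h⟩ := hr
    refine Or.inr ⟨x, c, h, (le_antisymm (fun n hn => mem_RR.2 ⟨ab n hn x hx, ab n hn c hc⟩)
      fun n hn => ?_ : N = RR x c) ▸ hN⟩
    obtain ⟨i, j, rfl⟩ := h.exists_pow hn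
    exact mul_mem (pow_mem hx _) (pow_mem hc _)
  left
  obtain ⟨g, hg, g1⟩ := (N.bot_or_exists_ne_one).resolve_left h0
  have inv : ∀ (τ : PR Γ k) (v : Vc k) {H : Mt k}, τ.In H →
      (∀ n ∈ N, ∀ A, τ.L n A → ∃ c : k, A *ᵥ v = c • v) →
      ∀ n ∈ N, ∀ A, τ.L n A → ∃ c : k, A *ᵥ (H *ᵥ v) = c • (H *ᵥ v) := by
    rintro τ v H ⟨h, hH⟩ hv n hn A hA
    obtain ⟨H', e1, e2⟩ := exists_inv (τ.det hH)
    obtain ⟨c, hc⟩ := hv _ (hN.conj_mem' n hn h) _ (τ.mul (τ.mul (τ.inv hH e1) hA) hH)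
    refine ⟨c, ?_⟩
    rw [← mulVec_smul, ← hc, mulVec_mulVec, mulVec_mulVec, ← mul_assoc, ← mul_assoc, e1, one_mul]
  obtain ⟨G, hG⟩ := ρ.ex g
  obtain ⟨v, v0, hv⟩ := exists_cvec (A := G) fun c e => g1 (ρ.eq_one (e ▸ hG))
  have s0 : ∀ n ∈ N, ∀ A, ρ.L n A → ∃ c : k, A *ᵥ v = c • v := fun n hn A hA => hv A (by
    have : n ∈ ρ.T0 g := by_contra fun e => hr ⟨g, hg, n, hn, rp_of (ab g hg n hn) e⟩
    simpa using Pr.all this hG hA)
  obtain ⟨H, hH, h1⟩ := hi.pt v v0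
  have s1 := inv ρ v hH s0
  have c1 := cross_ne_zero v0 h1
  obtain ⟨w, s2, hw⟩ : ∃ w, (∀ n ∈ N, ∀ A, ρ.L n A → ∃ c : k, A *ᵥ w = c • w) ∧
      w ⬝ᵥ (v ⨯₃ (H *ᵥ v)) ≠ 0 := by
    obtain ⟨K, hK, h2⟩ := hi.ln' _ c1
    by_contra hc
    push Not at hc
    obtain ⟨c, e⟩ := eq_smul_cross c1 (v := (v ⨯₃ (H *ᵥ v)) ᵥ* K)
      (by rw [dotProduct_comm, ← dotProduct_mulVec, dotProduct_comm]; exact hc _ (inv ρ _ hK s0))
      (by rw [dotProduct_comm, ← dotProduct_mulVec, dotProduct_comm]; exact hc _ (inv ρ _ hK s1))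
    exact h2 c e
  obtain ⟨B', hB⟩ := (ind_of_det ((det_cols _ _ _).trans_ne hw)).inv
  have dgl : ∀ n ∈ N, ∃ a b c, (ρ.cj hB).L n (dg a b c) := fun n hn => by
    obtain ⟨A, hA⟩ := ρ.ex n
    obtain ⟨a, ha⟩ := s2 n hn A hA
    obtain ⟨b, hb⟩ := s0 n hn A hA
    obtain ⟨c, hc⟩ := s1 n hn A hA
    exact ⟨a, b, c, ρ.cj_of hB hA (by rw [mul_cols, cols_mul, ha, hb, hc]; simp)⟩
  refine ⟨_, B', hB, ?_⟩
  replace hi := (hi.cj hB).pt
  generalize ρ.cj hB = τ at *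
  clear hr hG hv s0 s1 s2 hH hw c1 h1 v0 hB
  obtain ⟨a, b, c, hG⟩ := dgl g hg
  have g2 : ¬ (a = b ∧ a = c) := by
    rintro ⟨rfl, rfl⟩
    exact g1 (τ.eq_one (c := a) (by simpa only [one_fin_three, sm3, mul_one, mul_zero]))
  have key : ∀ l : Fin 3, ¬ ∀ n ∈ N, ∀ a b c, τ.L n (dg a b c) → ![b = c, a = c, a = b] l := by
    intro l hl
    obtain ⟨H, ⟨h, hH⟩, h1⟩ := hi (Pi.single l 1) (by simp)
    obtain ⟨a', b', c', hG'⟩ := dgl _ (hN.conj_mem g hg h)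
    obtain ⟨r, hr⟩ := (τ.conj_iff hH hG hG').1 rfl
    have e1 := hl _ hg _ _ _ hG
    have e2 := hl _ (hN.conj_mem g hg h) _ _ _ hG'
    have d := τ.det hH
    apply h1 (H l l)
    obtain ⟨r0, r1, r2, r3, r4, r5, r6, r7, r8, rfl⟩ := ex9 H
    simp only [mul_fin_three, sm3, em3, dm3] at hr d
    clear hl h1 dgl hi inv ab
    fin_cases l <;> simp [eq3] at e1 e2 ⊢ <;> grind
  intro A hA
  refine mon_of_col hA.det fun j i i' h1 h2 => by_contra fun hn => ?_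
  have s := inv τ (Pi.single j 1) hA fun n hn C hC => by
    obtain ⟨a, b, c, e⟩ := dgl n hn
    obtain ⟨r, rfl⟩ := τ.uniq e hC
    exact ⟨(r • dg a b c) j j, by fin_cases j <;> simp [eq3]⟩
  rw [mulVec_single_one] at s
  have s' : ∀ n ∈ N, ∀ a b c, τ.L n (dg a b c) → ![a, b, c] i = ![a, b, c] i' := fun n hn a b c e => by
    obtain ⟨r, hr⟩ := s n hn _ e
    rw [dg_eq] at hr
    have e1 := congrFun hr i
    have e2 := congrFun hr i'
    simp only [mulVec_diagonal, col_apply, Pi.smul_apply, smul_eq_mul] at e1 e2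
    rw [mul_right_cancel₀ h1 e1, mul_right_cancel₀ h2 e2]
  fin_cases i <;> fin_cases i' <;> first | exact hn rfl | skip
  exacts [key 2 s', key 1 s', key 2 fun n hn a b c e => (s' n hn a b c e).symm, key 0 s',
    key 1 fun n hn a b c e => (s' n hn a b c e).symm, key 0 fun n hn a b c e => (s' n hn a b c e).symm]

section

variable [IsAlgClosed k] {x c y n t t' : Γ} (h : ρ.RP x c) (hN : (RR x c).Normal)
include h hN

theorem RP.free' (hy : y ∈ RR x c) (h1 : y ≠ 1) (e : n * y = y * n) : n ^ 3 ∈ RR x c := by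
  obtain ⟨c', h', e'⟩ := h.exists hy h1
  rw [← e'] at hN ⊢
  obtain ⟨ω, -, hω⟩ := id h'
  obtain ⟨a, ha⟩ := exists_pr (ρ := ρ) e.symm
  have k0 : n * c' * n⁻¹ * c'⁻¹ ∈ ρ.T0 y := by
    have := ((ha.mul hω).mul ha.inv).mul hω.inv
    rwa [mul_right_comm a, mul_inv_cancel₀ ha.ne, one_mul, mul_inv_cancel₀ hω.ne] at this
  have k1 := mul_mem (hN.conj_mem _ h'.mem_right n) (inv_mem h'.mem_right)
  have k2 := h'.of_T0 k0 (mem_RR.1 k1).2
  have k3 := h'.cube' k1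
  obtain ⟨d, hd⟩ : ∃ d, n * c' * n⁻¹ * c'⁻¹ = d := ⟨_, rfl⟩
  rw [hd] at k2 k3
  have k4 : n * d = d * n := by
    rcases k2 with e1 | e1 | e1 <;> rw [e1]
    exacts [by simp, e, by rw [← mul_assoc, e, mul_assoc, e, mul_assoc]]
  have k5 : n * c' = d * c' * n := by rw [← hd]; group
  refine mem_RR.2 ⟨((show Commute n y from e).pow_left 3).eq, ?_⟩
  have k6 : ∀ j : ℕ, n ^ j * c' = d ^ j * c' * n ^ j := fun j => by
    induction j with
    | zero => simp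
    | succ j ih => rw [pow_succ', mul_assoc, ih, ← mul_assoc, ← mul_assoc,
        ((show Commute n d from k4).pow_right j).eq, mul_assoc _ n, k5, pow_succ d]; simp [mul_assoc]
  rw [k6, k3, one_mul]

theorem RP.inverts (h1 : t * t = 1) (h2 : t ≠ 1) (hy : y ∈ RR x c) : t * y * t⁻¹ = y⁻¹ := by
  refine eq_inv_of_mul_eq_one_right (by_contra fun e => h2 ?_)
  have := h.cube' (h.free' hN (mul_mem hy (hN.conj_mem _ hy t)) e
    (inverts' (fun a ha b hb => h.ab ha hb) (fun a ha => hN.conj_mem a ha t) h1 hy))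
  rwa [show t ^ 3 = t by rw [pow_succ, pow_two, h1, one_mul], pow_succ, pow_two, h1, one_mul] at this

theorem RP.invs (h1 : t * t = 1) (h2 : t ≠ 1) (h3 : t' * t' = 1) (h4 : t' ≠ 1) :
    t * t' ∈ RR x c := by
  have key : ∀ y ∈ RR x c, t * t' * y = y * (t * t') := fun y hy => by
    rw [← mul_inv_eq_iff_eq_mul]
    calc _ = t * (t' * y * t'⁻¹) * t⁻¹ := by group
      _ = _ := by rw [h.inverts hN h3 h4 hy, h.inverts hN h1 h2 (inv_mem hy), inv_inv]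
  exact mem_RR.2 ⟨key _ h.mem_left, key _ h.mem_right⟩

theorem RP.exp (g : Γ) : g ^ 3265920 = 1 := by
  have : Finite (RR x c) := Nat.finite_of_card_ne_zero (by rw [h.card]; norm_num)
  have e := pow_card_eq_one' (x := (MulAut.conjNormal g : MulAut (RR x c)).toEquiv)
  rw [Nat.card_perm, h.card] at e
  have e1 : g ^ Nat.factorial 9 * x * (g ^ Nat.factorial 9)⁻¹ = x := by
    have := DFunLike.congr_fun ((map_pow ((MulAut.toPerm (RR x c)).comp MulAut.conjNormal) g _).trans e)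
      ⟨x, h.mem_left⟩
    exact congrArg Subtype.val this
  have := h.cube' (h.free' hN h.mem_left h.ne (mul_inv_eq_iff_eq_mul.1 e1))
  rwa [← pow_mul, ← pow_mul] at this

end

theorem Hess.inv3 [IsAlgClosed k] (h : ρ.Hess) {t t' : Γ} (h1 : t * t = 1) (h2 : t ≠ 1)
    (h3 : t' * t' = 1) (h4 : t' ≠ 1) : (t * t') ^ 3 = 1 :=
  let ⟨_, _, h, hN⟩ := h
  h.cube' (h.invs hN h1 h2 h3 h4)

end PR

end Cfsg.Agent.H6.M3
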