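import Cfsg.Agent.H6.T2

/-! The classification of the irreducible subgroups of `PSL₃(q)`. -/

set_option autoImplicit false

namespace Cfsg.Agent.H6.M3

open Matrix Subgroup Cfsg.Agent.H4 Cfsg.Agent.H4.CABasic Cfsg.Agent.H6.MG Cfsg.Agent.Asch
open scoped commutatorElement

variable {k : Type*} [Field k] {F : Type*} [Field F]

theorem pow_eq_one_of_dvd {M : Type*} [Monoid M] {a : M} {m n : ℕ} (h : a ^ m = 1) (e : m ∣ n) :
    a ^ n = 1 := by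
  obtain ⟨r, rfl⟩ := e
  rw [pow_mul, h, one_pow]

/-- no quaternion subgroup -/
def NoQ (Γ : Type*) [Group Γ] (N : Subgroup Γ) : Prop :=
  ∀ a b : Γ, a * a = b * b → a * b * (a * b) = a * a → a * a * (a * a) = 1 → a * a ∈ N

theorem core_six {Γ : Type*} [Group Γ] [Finite Γ] {H : Subgroup Γ} (h : H.index ≤ 6) :
    (∀ g, g ^ 7 = 1 → g ∈ H.normalCore) ∧ NoQ Γ H.normalCore := by
  rw [normalCore_eq_ker]
  refine ⟨fun g hg => ?_, fun a b h1 h2 h3 => Equiv.ext fun q => by_contra fun hq => ?_⟩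
  · have e := pow_card_eq_one' (x := MulAction.toPermHom Γ (Γ ⧸ H) g)
    rw [Nat.card_perm] at e
    have := pow_gcd_eq_one.2 ⟨(by rw [← map_pow, hg, map_one] :
      MulAction.toPermHom Γ (Γ ⧸ H) g ^ 7 = 1), pow_eq_one_of_dvd e (Nat.factorial_dvd_factorial h)⟩
    rwa [show Nat.gcd 7 (Nat.factorial 6) = 1 by decide, pow_one] at this
  have hq : (a * a) • q ≠ q := hq
  have k0 : b * a * b⁻¹ = a⁻¹ := by
    have : b * a * b = a := mul_left_cancel (a := a) (by rw [← h2]; group)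
    calc _ = b * a * b * (b * b)⁻¹ := by group
      _ = _ := by rw [this, ← h1]; group
  have k1 : ∀ y : Γ ⧸ H, (a * a) • y ≠ y → ∀ i j : Fin 4, a ^ (i : ℕ) • y = a ^ (j : ℕ) • y →
      i = j := fun y hy => by
    have e1 : a • y ≠ y := fun e => hy (by rw [mul_smul, e, e])
    have e3 : (a * a * a) • y ≠ y := fun e => e1 (by
      conv_lhs => rw [← e, ← mul_smul, ← mul_assoc, ← mul_assoc, mul_assoc (a * a), h3, one_smul])
    have key : ∀ i j : Fin 4, i < j → a ^ (i : ℕ) • y ≠ a ^ (j : ℕ) • y := fun i j hij e => by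
      obtain ⟨d, hd⟩ := Nat.exists_eq_add_of_lt (show (i : ℕ) < j from hij)
      rw [hd, add_assoc, pow_add, mul_smul, smul_left_cancel_iff] at e
      have : d = 0 ∨ d = 1 ∨ d = 2 := by omega
      rcases this with rfl | rfl | rfl
      exacts [e1 (by simpa using e.symm), hy (by simpa [pow_succ] using e.symm),
        e3 (by simpa [pow_succ] using e.symm)]
    exact fun i j e => le_antisymm (not_lt.1 fun h => key j i h e.symm) (not_lt.1 fun h => key i j h e)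
  have k2 : ∀ i j : ℕ, a ^ i • q ≠ a ^ j • b • q := fun i j e => hq (by
    have e1 : ((a ^ i)⁻¹ * a ^ j * b) • q = q := by rw [mul_smul, mul_smul, ← e, inv_smul_smul]
    have e2 : (a ^ i)⁻¹ * a ^ j * b * ((a ^ i)⁻¹ * a ^ j * b) = a * a := by
      calc _ = (a ^ i)⁻¹ * a ^ j * ((b * a * b⁻¹) ^ i)⁻¹ * (b * a * b⁻¹) ^ j * (b * b) := by
            simp only [conj_pow]; group
        _ = _ := by rw [k0, h1]; group
    rw [← e2, mul_smul, e1, e1])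
  have k3 : (a * a) • b • q ≠ b • q := by
    rwa [h1, ← mul_smul, mul_assoc, mul_smul, Ne, smul_left_cancel_iff, ← h1]
  have := Nat.card_le_card_of_injective (fun x : Fin 4 × Bool => a ^ (x.1 : ℕ) • (if x.2 then b • q else q))
    (by
      rintro ⟨i, _ | _⟩ ⟨j, _ | _⟩ e
      exacts [by rw [k1 q hq i j e], absurd e (k2 _ _), absurd e.symm (k2 _ _), by rw [k1 _ k3 i j e]])
  rw [← index] at this
  simp at this
  omega

theorem OS.fix [CharP k 2] {A : Mt k} (h : OS A) : A.map (iterateFrobenius k 2 2) = A := by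
  obtain ⟨a0, a1, a2, a3, a4, a5, a6, a7, a8, rfl⟩ := ex9 A
  have h0 := h ![1, 0, 0] (by simp [ov3])
  have h1 := h ![0, 1, 0] (by simp [ov3])
  have h2 := h ![0, 0, 1] (by simp [ov3])
  simp only [mv3, ov3, mul_one, mul_zero, add_zero, zero_add] at h0 h1 h2
  simp only [map3, em3, iterateFrobenius_def]
  exact ⟨h0.1, h1.1, h2.1, h0.2.1, h1.2.1, h2.2.1, h0.2.2.1, h1.2.2.1, h2.2.2.1⟩

theorem OS.cen [CharP k 2] {v ψ : Vc k} (h : OS (1 + vecMulVec v ψ)) (h1 : Ov v) (h2 : ψ ⬝ᵥ v = 0) :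
    v = 0 ∨ ψ = 0 := by
  have two := two_eq (k := k)
  obtain ⟨x, y, z, rfl⟩ := ex3 v
  obtain ⟨r, s, t, rfl⟩ := ex3 ψ
  have h0 := h ![1, 0, 0] (by simp [ov3])
  have h3 := h ![0, 1, 0] (by simp [ov3])
  have h4 := h ![0, 0, 1] (by simp [ov3])
  simp only [r13, mv3, ov3, dot3, zv3, mul_one, mul_zero, add_zero, zero_add] at *
  replace h0 := h0.2.2.2
  replace h1 := h1.2.2.2
  replace h3 := h3.2.2.2
  replace h4 := h4.2.2.2
  clear h
  have k1 : z * z = 0 → z = 0 := mul_self_eq_zero.1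
  have k2 : z * r * (z * r) = 0 → z * r = 0 := mul_self_eq_zero.1
  have k3 : z * s * (z * s) = 0 → z * s = 0 := mul_self_eq_zero.1
  have : y * r = 0 := by grind
  have : x * s = 0 := by grind
  grind

namespace PR

variable {Γ : Type*} [Group Γ] {ρ : PR Γ k}

theorem Irr.of_cj {B B' : Mt k} (hB : B * B' = 1) (h : (ρ.cj hB).Irr) : ρ.Irr :=
  cj_inv (ρ := ρ) hB ▸ h.cj (mul_eq_one_comm.1 hB)

theorem RP.irr [IsAlgClosed k] {x c : Γ} (h : ρ.RP x c) : ρ.Irr := by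
  obtain ⟨B, B', hB, ω, d, o1, o2, d0, ex, ec⟩ := h.std
  refine Irr.of_cj hB (Irr.mk' (fun v hv => ?_) fun v hv => ?_) <;> by_contra hc <;>
    push Not at hc <;> obtain ⟨r, h1⟩ := hc _ ⟨_, ex⟩ <;> obtain ⟨s, h2⟩ := hc _ ⟨_, ec⟩ <;>
    obtain ⟨x, y, z, rfl⟩ := ex3 v <;> simp only [mv3, vm3, sv3, ev3, zv3, Ne] at h1 h2 hv <;> grind

variable (ρ) in
/-- the hyperoval case -/
structure Hx (p : ℕ) [Fact p.Prime] [CharP k p] : Prop where
  nopp : ¬ ρ.Opp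
  tw : ∃ R, ρ.TW (rat (iterateFrobenius k p 2)) R
  six : ∃ H : Subgroup Γ, H.index ≤ 6 ∧ ¬ (ρ.sub H).Irr
  f4 : ∃ v φ v' φ', ρ.El v φ ∧ ρ.El v' φ' ∧ (φ ⬝ᵥ v' * φ' ⬝ᵥ v) ^ 2 + φ ⬝ᵥ v' * φ' ⬝ᵥ v + 1 = 0

theorem Hx.cj {p : ℕ} [Fact p.Prime] [CharP k p] (h : ρ.Hx p) {B B' : Mt k} (hB : B * B' = 1) :
    (ρ.cj hB).Hx p := by
  obtain ⟨h1, ⟨R, h2⟩, ⟨H, h3, h4⟩, v, φ, v', φ', h5, h6, h7⟩ := h
  refine ⟨fun e => h1 (cj_inv (ρ := ρ) hB ▸ e.cj (mul_eq_one_comm.1 hB)), ⟨_, h2.cj hB⟩,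
    ⟨H, h3, fun e => h4 (Irr.of_cj hB e)⟩, _, _, _, _, (el_cj' hB).2 h5, (el_cj' hB).2 h6, ?_⟩
  rwa [dot_conj (mul_eq_one_comm.1 hB), dot_conj (mul_eq_one_comm.1 hB)]

section Two

variable [CharP k 2] [IsAlgClosed k] [Finite Γ] {L : Subfield k}

theorem Hs.hx (H : ρ.Hs L) (hi : ρ.Irr) (ho : ¬ ρ.Opp) : ρ.Hx 2 := by
  classical
  have two := two_eq (k := k)
  obtain ⟨a, a1, a2, a3⟩ := H.ex
  have a5 := ((H.four hi a a1).resolve_left a2).resolve_left a3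
  have hL : ∀ t : k, t ^ 4 = t → t ∈ L := fun t ht => by
    have : t = 0 ∨ t = 1 ∨ t = a ∨ t = a + 1 := by grind
    rcases this with rfl | rfl | rfl | rfl
    exacts [L.zero_mem, L.one_mem, a1, L.add_mem a1 L.one_mem]
  have sw : ρ.El ![1, 1, 0] ![1, 1, 0] := el_iff.2 ⟨by grind, by
    convert H.sw using 1; simp only [em3]; grind⟩
  have tw : ρ.TW (rat (iterateFrobenius k 2 2)) 1 := TW.of_set (by simp)
    (fun X => ∃ v φ, ρ.El v φ ∧ X = 1 + vecMulVec v φ)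
    (by rintro A A' _ hA e ⟨v, φ, h, rfl⟩; exact ⟨_, _, h.conj hA e, conj_r1 e _ _⟩)
    (by rintro _ ⟨v, φ, h, rfl⟩; rw [Fx, rat_f, (H.os hi h).fix, mul_one, one_mul]) fun Y hY => by
      have h1 := hY _ ⟨_, _, H.el 1 L.one_mem, rfl⟩
      have h2 := hY _ ⟨_, _, H.el a a1, rfl⟩
      have h3 := hY _ ⟨_, _, sw, rfl⟩
      obtain ⟨a0, a1, a2, a3, a4, a5, a6, a7, a8, rfl⟩ := ex9 Y
      refine ⟨a0, ?_⟩
      simp only [r13, mul_fin_three, em3] at h1 h2 h3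
      simp only [one_fin_three, em3, sm3]
      clear hY hL
      grind
  have cen : ∀ x y z : k, x ^ 4 = x → y ^ 4 = y → z ^ 4 = z → x * y ≠ z ^ 2 → ¬ (x = 0 ∧ y = 0) →
      ∃ ψ, ψ ≠ 0 ∧ ρ.El ![x, y, z] ψ := fun x y z hx hy hz h1 h2 => by
    suffices ∃ c : k, c ≠ 0 ∧ ∃ ψ, ψ ≠ 0 ∧ ρ.El (c • ![x, y, z]) ψ by
      obtain ⟨c, hc, ψ, h, e⟩ := this
      exact ⟨_, smul_ne_zero hc h, El.scale.1 e⟩
    by_cases x0 : x = 0
    · have := H.mv L.zero_mem (H.el (y / z) (hL _ (by rw [div_pow, hy, hz])))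
      refine ⟨y / z ^ 2, by grind, ![1, 0, 0], by simp, ?_⟩
      convert this using 1 <;> simp only [sv3, ev3] <;> grind
    · have e0 : z / x + (y / x) ^ 2 ≠ 0 := by grind
      have := H.mv (hL ((y / x) ^ 2) (by grind)) (H.mv L.zero_mem (H.el (z / x + (y / x) ^ 2)⁻¹
        (L.inv_mem (hL _ (by grind)))))
      refine ⟨(z / x + (y / x) ^ 2)⁻¹ ^ 2 / x, by grind, ![y / x, 1, 0], by simp, ?_⟩
      convert this using 1 <;> simp only [sv3, ev3] <;> grind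
  have all : ∀ g, ∃ A, ρ.L g A ∧ OS A := fun g => by
    obtain ⟨A, hA⟩ := ρ.ex g
    obtain ⟨η, e⟩ := tw.ex A ⟨g, hA⟩
    rw [mul_one, one_mul, rat_f] at e
    have η0 : η ≠ 0 := by
      rintro rfl; simpa [det_map, ρ.det hA] using congrArg Matrix.det e
    obtain ⟨c, hc⟩ := IsAlgClosed.exists_pow_nat_eq η⁻¹ (n := 3) (by norm_num)
    have c0 : c ≠ 0 := by rintro rfl; simp [eq_comm, η0] at hc
    have e1 : (c • A).map (iterateFrobenius k 2 2) = c • A := by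
      rw [map_smul', e, smul_smul, iterateFrobenius_def]; congr 1; grind
    replace hA := ρ.smul hA c0
    generalize c • A = A at *
    refine ⟨A, hA, fun v hv => by_contra fun hn => ?_⟩
    have e2 := map_mulVec' (iterateFrobenius k 2 2) A v
    rw [e1, show iterateFrobenius k 2 2 ∘ v = v from eq3.2 ⟨hv.1, hv.2.1, hv.2.2.1⟩] at e2
    obtain ⟨x, y, z, e3⟩ := ex3 (A *ᵥ v)
    rw [e3] at e2 hn
    obtain ⟨k0, k1, k2⟩ := eq3.1 e2.symm
    simp only [ov3, not_and, not_or] at hn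
    obtain ⟨ψ, h1, h2⟩ := cen x y z k0 k1 k2 (hn k0 k1 k2).1 (not_and.2 (hn k0 k1 k2).2)
    obtain ⟨A', b1, b2⟩ := exists_inv (ρ.det hA)
    have := h2.conj (In.inv ⟨g, hA⟩ b1) b2
    rw [← e3, mulVec_mulVec, b2, one_mulVec] at this
    rcases (H.os hi this).cen hv this.1 with e | e
    · rw [e, mulVec_zero, eq_comm, zv3] at e3
      exact (hn k0 k1 k2).2 e3.1 e3.2.1
    · exact vecMul_ne_zero (ρ.det hA) h1 e
  refine ⟨ho, ⟨1, tw⟩, ?_, _, _, _, _, H.el a a1, H.mv L.zero_mem (H.el 1 L.one_mem), by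
    simp only [dot3]; grind⟩
  have pts : ∀ g, ∃ i : Fin 6, ∃ A, ρ.L g A ∧ A *ᵥ ![0, 0, 1] =
      ![![0, 0, 1], ![1, 0, 0], ![0, 1, 0], ![1, 1, 1], ![a + 1, 1, a], ![a, 1, a + 1]] i := fun g => by
    obtain ⟨A, hA, h⟩ := all g
    have h1 := h ![0, 0, 1] (by simp [ov3])
    have h2 := mulVec_ne_zero (ρ.det hA) (v := ![0, 0, 1]) (by simp)
    obtain ⟨x, y, z, e⟩ := ex3 (A *ᵥ ![0, 0, 1])
    rw [e, ov3] at h1
    rw [e, Ne, zv3] at h2
    suffices ∃ i : Fin 6, ∃ c : k, c ≠ 0 ∧ c • ![x, y, z] =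
        ![![0, 0, 1], ![1, 0, 0], ![0, 1, 0], ![1, 1, 1], ![a + 1, 1, a], ![a, 1, a + 1]] i by
      obtain ⟨i, c, hc, h⟩ := this
      exact ⟨i, _, ρ.smul hA hc, by rw [smul_mulVec, e, h]⟩
    clear all h e cen hL
    by_cases hy : y = 0
    · by_cases hx : x = 0
      · exact ⟨0, z⁻¹, by grind, by simp only [sv3, cons_val, ev3]; grind⟩
      · exact ⟨1, x⁻¹, by grind, by simp only [sv3, cons_val, ev3]; grind⟩
    have : z = 0 ∨ z = y ∨ z = a * y ∨ z = (a + 1) * y := by grind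
    rcases this with e | e | e | e
    exacts [⟨2, y⁻¹, by grind, by simp only [sv3, cons_val, ev3]; grind⟩,
      ⟨3, y⁻¹, by grind, by simp only [sv3, cons_val, ev3]; grind⟩,
      ⟨4, y⁻¹, by grind, by simp only [sv3, cons_val, ev3]; grind⟩,
      ⟨5, y⁻¹, by grind, by simp only [sv3, cons_val, ev3]; grind⟩]
  choose f A hA hf using pts
  refine ⟨ρ.grp (fun A => A *ᵥ ![0, 0, 1] = ![0, 0, 1]) (one_mulVec _)
    fun A B h h' => by rw [← mulVec_mulVec, h', h], ?_, fun e => ?_⟩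
  · refine (Nat.card_le_card_of_injective (fun q => f q.out) fun q q' e => ?_).trans (by simp)
    rw [← QuotientGroup.out_eq' q, ← QuotientGroup.out_eq' q', QuotientGroup.eq]
    obtain ⟨B, h1, h2⟩ := exists_inv (ρ.det (hA q.out))
    refine ⟨_, ρ.mul (ρ.inv (hA _) h1) (hA _), ?_⟩
    beta_reduce at e ⊢
    rw [← mulVec_mulVec, hf, ← e, ← hf, mulVec_mulVec, h2, one_mulVec]
  · obtain ⟨B, ⟨g, hg⟩, h⟩ := e.pt ![0, 0, 1] (by simp)
    obtain ⟨B', h1, h2⟩ := ρ.mem_grp.1 g.2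
    obtain ⟨r, rfl⟩ := ρ.uniq h1 hg
    exact h r (by rw [smul_mulVec, h2])

theorem trich_two' (hi : ρ.Irr) {T : Subgroup Γ} (hT : MinN T) (hP : ⁅T, T⁆ = T) :
    (ρ.Sm fun τ => ∃ F0, τ.Lin F0) ∨
      (∃ n, 3 ≤ 2 ^ n ∧ ρ.Sm fun τ => τ.Uni (iterateFrobenius k 2 n)) ∨ ρ.Hx 2 := by
  classical
  have key : ∀ τ : PR Γ k, τ.Irr → ¬ τ.Opp → (∃ φ, τ.Rich φ) →
      (τ.Sm fun τ => ∃ F0, τ.Lin F0) ∨ τ.Hx 2 := fun τ hi ho ⟨φ, h⟩ => by
    by_cases hk : τ.KK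
    · exact Or.inl (lin_of_rich hi hk h)
    · obtain ⟨B, B', hB, L, H⟩ := hs_of_not_kk hi hk
      exact Or.inr (cj_inv (ρ := τ) hB ▸ (H.hx (hi.cj hB) fun e =>
        ho (cj_inv (ρ := τ) hB ▸ e.cj (mul_eq_one_comm.1 hB))).cj (mul_eq_one_comm.1 hB))
  by_cases ho : ρ.Opp
  swap
  · rcases rich_of_not_opp ho with h | h
    · exact (key ρ hi ho h).imp_right Or.inr
    rcases key ρ.tr hi.tr (fun e => ho fun v φ v' φ' h1 h2 h3 h4 k1 k2 k3 => by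
      obtain ⟨⟨c, rfl⟩, d, rfl⟩ := e φ' v' φ v h4 h3 h2 h1 (el_tr.2 k2) (el_tr.2 k1)
        ((dotProduct_comm _ _).trans k3)
      exact ⟨⟨d⁻¹, by rw [inv_smul_smul₀ (left_ne_zero_of_smul h1)]⟩,
        c⁻¹, by rw [inv_smul_smul₀ (left_ne_zero_of_smul h2)]⟩) h with ⟨B, B', hB, F0, h⟩ | h
    · obtain ⟨h1, e⟩ := ρ.cj_tr hB
      exact Or.inl ⟨_, _, h1, F0, Lin.of_tr (e ▸ h)⟩
    obtain ⟨-, ⟨R, h2⟩, ⟨H, h3, h4⟩, v, φ, v', φ', h5, h6, h7⟩ := h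
    exact Or.inr (Or.inr ⟨ho, h2.of_tr, ⟨H, h3, fun e => h4 e.tr⟩, _, _, _, _, el_tr.1 h6, el_tr.1 h5,
      by rwa [dotProduct_comm v', dotProduct_comm v]⟩)
  by_cases hs : ρ.Small
  swap
  · refine Or.inr (Or.inl (uni_of_opp 2 hi ho (by_contra fun he => hs fun v φ a h1 h2 h _ =>
      absurd ⟨v, φ, h1, h2, h⟩ he) hs))
  exfalso
  haveI := hi.simple hT hP
  have hna : ¬ ∀ x y : T, x * y = y * x := fun e => hT.ne (H9.perfect_eq_bot_of_comm hP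
    fun a ha b hb => congrArg Subtype.val (e ⟨a, ha⟩ ⟨b, hb⟩))
  have hi' := hi.normal hT.nor le_rfl hP hT.ne
  have up : ∀ {v φ}, (ρ.sub T).El v φ → ρ.El v φ := fun ⟨e, g, h⟩ => ⟨e, g, h⟩
  have he := opp_small hna (perfect_top hP) hi'
    (fun v φ v' φ' h1 h2 h3 h4 k1 k2 => ho v φ v' φ' h1 h2 h3 h4 (up k1) (up k2))
    fun v φ a h1 h2 k1 k2 => hs v φ a h1 h2 (up k1) (up k2)
  have two := two_eq (k := k)
  have hs : (ρ.sub T).SA := fun v φ h h1 h2 => absurd (perfect_of_hm 2 hi'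
    (fun v φ a h1 h2 h _ => absurd ⟨v, φ, h1, h2, h⟩ he) (ξ := φ ⬝ᵥ v + 1)
    (fun e => he ⟨v, φ, h1, h2, by grind, h⟩) ⟨by ring, h⟩ (perfect_top hP)) top_ne_bot
  letI := Fintype.ofFinite T
  obtain ⟨t, t1, t2, -⟩ := exists_central (St.even (p := 2) ⟨hs, hna⟩)
  exact absurd two (iv_of_sq 2 hs t2 t1).1

end Two

variable (ρ) in
/-- the exceptional groups in odd characteristic -/
structure Exc (p Q : ℕ) : Prop where
  sa : ρ.SA
  two : p ≠ 2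
  ord : (p = 5 ∧ Q % 3 = 1 ∧ ∀ g : Γ, g ^ 6 = 1 ∨ g ^ 7 = 1 ∨ g ^ 8 = 1 ∨ g ^ 10 = 1) ∨
    Q ≠ 3 ∧ Q ≠ 5 ∧ Q ≠ 7 ∧ NoQ Γ ⊥ ∧ ∀ g : Γ, g ^ 3 = 1 ∨ g ^ 4 = 1 ∨ g ^ 5 = 1 ∨ g ^ 7 = 1

variable (p : ℕ) [Fact p.Prime] [CharP k p]

variable (ρ) in
/-- the list of irreducible groups -/
def Cl (Q : ℕ) : Prop := ρ.Sm Mono ∨ ρ.Hess ∨ (ρ.Sm fun τ => ∃ F0, τ.Lin F0) ∨
  (∃ n, 3 ≤ p ^ n ∧ ρ.Sm fun τ => τ.Uni (iterateFrobenius k p n)) ∨
  (p ≠ 2 ∧ ρ.SA ∧ ∃ R, ρ.TW (frm (iterateFrobenius k p 0)) R) ∨ ρ.Exc p Q ∨ p = 2 ∧ ρ.Hx p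

theorem Cl.cj {Q : ℕ} (h : ρ.Cl p Q) {B B' : Mt k} (hB : B * B' = 1) : (ρ.cj hB).Cl p Q :=
  h.imp (·.cj hB) fun h => h.imp (fun ⟨x, c, h, e⟩ => ⟨x, c, (rp_cj hB).2 h, e⟩) fun h =>
    h.imp (·.cj hB) fun h => h.imp (fun ⟨n, h, e⟩ => ⟨n, h, e.cj hB⟩) fun h =>
      h.imp (fun ⟨a, b, _, c⟩ => ⟨a, b.cj hB, _, c.cj hB⟩) fun h =>
        h.imp (fun ⟨a, b, c⟩ => ⟨a.cj hB, b, c⟩) fun ⟨a, b⟩ => ⟨a, b.cj hB⟩

variable [IsAlgClosed k]

theorem St.noQ [Fintype Γ] [IsSimpleGroup Γ] (S : St p ρ) {t : Γ} {K : Subgroup Γ} (h : Di t K)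
    (h4 : Nat.card K = 4) (hc : Nat.card Γ % 16 = 8) : NoQ Γ ⊥ := fun a b h1 h2 h3 => by
  by_contra hn
  obtain ⟨e, e1, e2⟩ := h.ex
  have e4 := orderOf_dvd_iff_pow_eq_one.1 (h4 ▸ orderOf_dvd_natCard _ e1)
  rw [pow_succ, pow_succ, pow_two, mul_assoc] at e4
  have t0 := (h.uniq _ (mul_mem e1 e1) e4).resolve_left e2
  have t3 : Odd (centralizer {t}).index := by
    have := (centralizer {t}).card_mul_index
    rw [h.card, h4] at this
    exact Nat.odd_iff.2 (by omega)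
  obtain ⟨g, hg⟩ := isConj_iff.1 (S.one_class (t0 ▸ e4) (t0 ▸ e2) t3 h3 hn).symm
  have k : ∀ a' : Γ, a' * a' = a * a → g * a' * g⁻¹ ∈ K := fun a' e => h.memK
    (by rwa [conj_mul, e, Ne, conj_eq_one_iff]) (by rw [← hg, conj_mul, conj_mul, ← e, mul_assoc a'])
  have := h.ab (k a rfl) (k b h1.symm)
  rw [conj_mul, conj_mul, mul_left_inj, mul_right_inj] at this
  apply hn
  rw [← h2, mul_assoc, ← mul_assoc b, ← this, mul_assoc, ← h1, ← mul_assoc, h3]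
  exact one_mem _

theorem classify [Finite F] [CharP F p] [Finite Γ] {ρ : PR Γ F} (h : ρ.SLr) (ι : F →+* k)
    (hi : (ρ.up ι).Irr) : (ρ.up ι).Cl p (Nat.card F) := by
  classical
  obtain ⟨α, -, hF⟩ := FF.card_eq_pow (F := F) p
  obtain ⟨T, -, hT⟩ := exists_minN (N := (⊤ : Subgroup Γ)) inferInstance fun e => by
    obtain ⟨A, ⟨g, hA⟩, h⟩ := hi.pt ![1, 0, 0] (by simp)
    obtain ⟨c, rfl⟩ := ((ρ.up ι).eq_one_iff hA).1 (mem_bot.1 (e ▸ mem_top g))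
    exact h c (by simp [smul_mulVec])
  rcases hT.cases with ab | hP
  · exact (hi.abel hT.nor hT.ne ab).imp_right Or.inl
  right; right
  by_cases hp : p = 2
  · subst hp
    exact (trich_two' hi hT hP).imp_right fun e => e.imp_right fun e => Or.inr (Or.inr ⟨rfl, e⟩)
  refine (trichotomy hp hi hP hT.ne).imp_right fun e => e.imp_right fun hs => ?_
  haveI := hT.nor
  haveI := hi.simple hT hP
  haveI := Fintype.ofFinite T
  have hr := h.trF ι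
  have S : St p ((ρ.up ι).sub T) := ⟨hs.sub T, fun e => hT.ne (H9.perfect_eq_bot_of_comm hP
    fun a ha b hb => congrArg Subtype.val (e ⟨a, ha⟩ ⟨b, hb⟩))⟩
  have top : T = ⊤ → ∀ P : Γ → Prop, (∀ g : T, P g) → ∀ g, P g := fun e P h g => h ⟨g, e ▸ mem_top g⟩
  have nq : T = ⊤ → NoQ T ⊥ → NoQ Γ ⊥ := fun e h a b h1 h2 h3 => congrArg Subtype.val
    (h ⟨a, e ▸ mem_top a⟩ ⟨b, e ▸ mem_top b⟩ (Subtype.ext h1) (Subtype.ext h2) (Subtype.ext h3))
  rcases S.main with H | ⟨t, K, g, H⟩ | ⟨t, K, x, c, g, H⟩ | ⟨t, t1, x, c, g, t2, t3, H⟩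
  · have c1 := (h.sub T).cov
    have c2 := (c1.comm (perfect_top hP)).absIrr (ι := ι) (hi.normal hT.nor le_rfl hP hT.ne)
    obtain ⟨G, hG, hf⟩ := c2.exists_gram_of_trace (σ := RingEquiv.refl F) (fun _ => rfl)
      fun x hx => Real.form (ι := ι) p c1 (perfect_top hP) S.sa H hx
    have hn : GNorms ρ.hat (ρ.sub T).hat := fun A ⟨⟨g, hg⟩, a⟩ B ⟨⟨t, ht⟩, b⟩ =>
      ⟨⟨⟨g * t * g⁻¹, hT.nor.conj_mem _ t.2 g⟩, ρ.conj hg A.mul_inv ht⟩, by
        rw [Units.val_mul, Units.val_mul, det_units_conj, b]⟩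
    have hn' : GNorms ρ.hat ⁅(ρ.sub T).hat, (ρ.sub T).hat⁆ := fun A hA B hB => by
      have : (ρ.sub T).hat.map (MulAut.conj A).toMonoidHom ≤ (ρ.sub T).hat := by
        rintro _ ⟨x, hx, rfl⟩; exact hn A hA x hx
      exact commutator_mono this this (map_commutator _ _ (MulAut.conj A).toMonoidHom ▸
        mem_map_of_mem (MulAut.conj A).toMonoidHom hB)
    refine Or.inl ⟨hp, hs, G.map ι, TW.of_form (by
      simpa [det_map] using ((isUnit_iff_isUnit_det G).1 hG).ne_zero) fun g => ?_⟩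
    obtain ⟨B, hB, e⟩ := h.cov.ex g
    obtain ⟨c, hc⟩ := mem_similarityGroup_gf.1 (c2.le_similarityGroup hn' hG hf hB)
    rw [map_refl] at hc
    refine ⟨_, ι c, up_of e, ?_⟩
    rw [← map_smul', ← hc, Matrix.map_mul, Matrix.map_mul, iterateFrobenius_zero, transpose_map]
    rfl
  all_goals refine Or.inr (Or.inl ⟨hs, hp, ?_⟩)
  · obtain ⟨y, -, -, hy⟩ := S.frob21 H.xx H.d7 H.w3
    have g7 := (S.cyc H.xx (by norm_num) H.d7).1
    have := field7 (ι := ι) (h.sub T) hF H.reg g7 (isConj_iff.2 ⟨y, hy⟩)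
    rw [← hF] at this
    refine Or.inr ⟨fun e => by simp [e] at this, fun e => by simp [e] at this,
      fun e => by simp [e] at this, nq (H.top hs S) (S.noQ p H.di H.cardK (by rw [H.card])),
      top (H.top hs S) _ fun a => ?_⟩
    simp only [← Subgroup.coe_pow, OneMemClass.coe_eq_one]
    by_cases e : a ∈ cj' g
    · exact Or.inr (Or.inr (Or.inr (H.d7 ▸ pow_of_mem_conjs e)))
    · rcases (H.ord a e).1 with e | e <;> simp [e]
  · have h3 := RP.dvd hr (x := x) (c := c) H.rp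
    by_cases h5 : p = 5
    · refine Or.inl ⟨h5, h3, fun a => ?_⟩
      have : a ^ 2 ∈ T := (H.top hs S).elim (fun e => e ▸ mem_top _) fun e => sq_mem_of_index_two e.2 a
      have := (H.ord ⟨_, this⟩).1
      simp only [Subtype.ext_iff, Subgroup.coe_pow, ← pow_mul, OneMemClass.coe_one] at this
      tauto
    have e := (H.top hs S).resolve_right fun e => h5 e.1
    have g5 := (S.cyc H.xx (by norm_num) H.d5).1
    have hg := (reg_or_jb p S.sa H.xx.sq).resolve_right fun hj => H.xx.ne (by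
      simpa [(Nat.coprime_primes (by norm_num) Fact.out).2 (Ne.symm h5)] using
        pow_gcd_eq_one.2 ⟨g5, hj.pow p S.sa (self_mem_T0 g)⟩)
    have := field5 (ι := ι) (h.sub T) hF hg g5 (isConj_iff.2 (H.ord g).2)
    rw [← hF] at this
    refine Or.inr ⟨by omega, by omega, by omega, nq e (S.noQ p H.di H.cardK (by rw [H.card])),
      top e _ fun a => ?_⟩
    simp only [← Subgroup.coe_pow, OneMemClass.coe_eq_one]
    rcases (H.ord a).1 with e | e | e <;> simp [e]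
  · refine Or.inl ⟨H.p5, RP.dvd hr (x := x) (c := c) H.ee.rp, top (H.top hs S) _ fun a => ?_⟩
    simp only [← Subgroup.coe_pow, OneMemClass.coe_eq_one]
    by_cases e : a ∈ cj' g
    · exact Or.inr (Or.inl (H.d7 ▸ pow_of_mem_conjs e))
    · rcases (H.ord a e).1 with e | e | e
      exacts [Or.inr (Or.inr (Or.inl (pow_eq_one_of_dvd e (by norm_num)))), Or.inl e,
        Or.inr (Or.inr (Or.inr (pow_eq_one_of_dvd e (by norm_num))))]

end PR

end Cfsg.Agent.H6.M3
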