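import Cfsg.Agent.H6.T3

/-! Groups containing monomial, Singer and orthogonal subgroups. -/

set_option autoImplicit false

namespace Cfsg.Agent.H6.M3

open Matrix Subgroup

variable {k : Type*} [Field k]

/-- the cyclic permutation matrix -/
abbrev cyc (k : Type*) [Field k] : Mt k := !![0, 0, 1; 1, 0, 0; 0, 1, 0]

/-- the Gram matrix of the conic -/
abbrev jj (k : Type*) [Field k] : Mt k := !![0, 0, 1; 0, -2, 0; 1, 0, 0]

theorem fx_rat {θ : k →+* k} {A : Mt k} (h : A.map θ = A) : Fx (rat θ) 1 A := by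
  rw [Fx, rat_f, h, mul_one, one_mul]

theorem s3_a : ∀ σ τ : Equiv.Perm (Fin 3), σ * (τ * σ * τ⁻¹) * (τ * (τ * σ * τ⁻¹) * τ⁻¹) = 1 →
    σ = 1 ∨ ∀ i, σ i ≠ i := by decide +kernel

theorem s3_b : ∀ σ τ : Equiv.Perm (Fin 3), σ * σ ≠ 1 → τ * τ ≠ 1 → σ * τ⁻¹ = 1 ∨ σ * τ = 1 := by
  decide

theorem eig1 {x r a : k} (h : a * x = r * x) : x = 0 ∨ r = a :=
  (mul_eq_mul_right_iff.1 h).symm.imp_right Eq.symm

namespace PR

variable {Γ : Type*} [Group Γ] {ρ : PR Γ k} {Φ : Tp k} {R A : Mt k} {θ : k →+* k}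

theorem In.of_eq {B : Mt k} (h : ρ.In A) (e : A = B) : ρ.In B := e ▸ h

theorem irr_of {A B : Mt k} (hA : ρ.In A) (hB : ρ.In B)
    (h1 : ∀ x y z r s : k, A *ᵥ ![x, y, z] = r • ![x, y, z] → B *ᵥ ![x, y, z] = s • ![x, y, z] →
      x = 0 ∧ y = 0 ∧ z = 0)
    (h2 : ∀ x y z r s : k, ![x, y, z] ᵥ* A = r • ![x, y, z] → ![x, y, z] ᵥ* B = s • ![x, y, z] →
      x = 0 ∧ y = 0 ∧ z = 0) : ρ.Irr := by
  refine Irr.mk' (fun v hv => ?_) fun v hv => ?_ <;> by_contra hc <;>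
    push Not at hc <;> obtain ⟨r, k1⟩ := hc _ hA <;> obtain ⟨s, k2⟩ := hc _ hB <;>
    obtain ⟨x, y, z, rfl⟩ := ex3 v
  exacts [hv ((zv3 ..).2 (h1 _ _ _ _ _ k1 k2)), hv ((zv3 ..).2 (h2 _ _ _ _ _ k1 k2))]

theorem inv_of {g : Γ} (hg : ρ.L g A) (h : A * A = 1) (h1 : ∀ c : k, A ≠ c • 1) :
    g * g = 1 ∧ g ≠ 1 :=
  ⟨ρ.inj (h ▸ ρ.mul hg hg), fun e => let ⟨c, e⟩ := (ρ.eq_one_iff hg).1 e; h1 c e⟩

theorem Hess.inv3' [IsAlgClosed k] (h : ρ.Hess) {B : Mt k} (hA : ρ.In A) (hB : ρ.In B)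
    (h1 : A * A = 1) (h2 : ∀ c : k, A ≠ c • 1) (h3 : B * B = 1) (h4 : ∀ c : k, B ≠ c • 1) :
    ∃ c : k, A * B * (A * B) * (A * B) = c • 1 := by
  obtain ⟨g, hg⟩ := hA
  obtain ⟨g', hg'⟩ := hB
  have := h.inv3 (inv_of hg h1 h2).1 (inv_of hg h1 h2).2 (inv_of hg' h3 h4).1 (inv_of hg' h3 h4).2
  simpa only [pow_succ, pow_zero, one_mul] using (ρ.eq_one_iff (ρ.pow (ρ.mul hg hg') 3)).1 this

theorem pow_dg {g : Γ} {a b c : k} (hg : ρ.L g (dg a b c)) {n : ℕ} (h : g ^ n = 1) :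
    a ^ n = b ^ n ∧ a ^ n = c ^ n := by
  obtain ⟨r, hr⟩ := (ρ.eq_one_iff (ρ.pow hg n)).1 h
  simp only [dg_pow, one_fin_three, sm3, em3, mul_one] at hr
  exact ⟨hr.1.trans hr.2.2.2.2.1.symm, hr.1.trans hr.2.2.2.2.2.2.2.2.symm⟩

variable (ρ) in
/-- a monomial subgroup -/
structure DM (a : k) : Prop where
  ne : a ≠ 0
  d : ρ.In (dg a a⁻¹ 1)
  c : ρ.In (cyc k)
  t : ρ.In !![0, -1, 0; -1, 0, 0; 0, 0, -1]

section DM

variable {a : k} (h : ρ.DM a)
include h

theorem DM.d2 : ρ.In (dg a⁻¹ 1 a) := (((h.c.mul h.c).mul h.d).mul h.c).of_eq (by (simp only [mul_fin_three, one_fin_three, em3, sm3, mv3, vm3, sv3, ev3, dot3, dm3, trm3, tm3, zv3, adjugate_fin_three_of, map3, map_zero, map_one, map_neg, map_ofNat] <;> grind))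

theorem DM.s : ρ.In !![0, 0, -1; 0, -1, 0; -1, 0, 0] := (h.c.mul h.t).of_eq (by (simp only [mul_fin_three, one_fin_three, em3, sm3, mv3, vm3, sv3, ev3, dot3, dm3, trm3, tm3, zv3, adjugate_fin_three_of, map3, map_zero, map_one, map_neg, map_ofNat] <;> grind))

theorem DM.fx (H : ρ.TW Φ R) : Fx Φ R (dg a a⁻¹ 1) ∧ Fx Φ R !![0, -1, 0; -1, 0, 0; 0, 0, -1] ∧
    Fx Φ R !![0, 0, -1; 0, -1, 0; -1, 0, 0] ∧ Fx Φ R !![0, -a⁻¹, 0; -1, 0, 0; 0, 0, -a] := by
  have := h.ne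
  have h1 := H.inv h.t (by (simp only [mul_fin_three, one_fin_three, em3, sm3, mv3, vm3, sv3, ev3, dot3, dm3, trm3, tm3, zv3, adjugate_fin_three_of, map3, map_zero, map_one, map_neg, map_ofNat] <;> grind)) (by (simp only [mul_fin_three, one_fin_three, em3, sm3, mv3, vm3, sv3, ev3, dot3, dm3, trm3, tm3, zv3, adjugate_fin_three_of, map3, map_zero, map_one, map_neg, map_ofNat] <;> grind))
  have h2 := H.inv h.s (by (simp only [mul_fin_three, one_fin_three, em3, sm3, mv3, vm3, sv3, ev3, dot3, dm3, trm3, tm3, zv3, adjugate_fin_three_of, map3, map_zero, map_one, map_neg, map_ofNat] <;> grind)) (by (simp only [mul_fin_three, one_fin_three, em3, sm3, mv3, vm3, sv3, ev3, dot3, dm3, trm3, tm3, zv3, adjugate_fin_three_of, map3, map_zero, map_one, map_neg, map_ofNat] <;> grind))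
  refine ⟨?_, h1, h2, ?_⟩
  · convert (H.inv (h.d.mul h.t) (by (simp only [mul_fin_three, one_fin_three, em3, sm3, mv3, vm3, sv3, ev3, dot3, dm3, trm3, tm3, zv3, adjugate_fin_three_of, map3, map_zero, map_one, map_neg, map_ofNat] <;> grind)) (by (simp only [mul_fin_three, one_fin_three, em3, sm3, mv3, vm3, sv3, ev3, dot3, dm3, trm3, tm3, zv3, adjugate_fin_three_of, map3, map_zero, map_one, map_neg, map_ofNat] <;> grind))).mul h1 using 1; (simp only [mul_fin_three, one_fin_three, em3, sm3, mv3, vm3, sv3, ev3, dot3, dm3, trm3, tm3, zv3, adjugate_fin_three_of, map3, map_zero, map_one, map_neg, map_ofNat] <;> grind)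
  · convert ((H.inv (h.d2.mul h.s) (by (simp only [mul_fin_three, one_fin_three, em3, sm3, mv3, vm3, sv3, ev3, dot3, dm3, trm3, tm3, zv3, adjugate_fin_three_of, map3, map_zero, map_one, map_neg, map_ofNat] <;> grind)) (by (simp only [mul_fin_three, one_fin_three, em3, sm3, mv3, vm3, sv3, ev3, dot3, dm3, trm3, tm3, zv3, adjugate_fin_three_of, map3, map_zero, map_one, map_neg, map_ofNat] <;> grind))).mul h2).mul h1 using 1; (simp only [mul_fin_three, one_fin_three, em3, sm3, mv3, vm3, sv3, ev3, dot3, dm3, trm3, tm3, zv3, adjugate_fin_three_of, map3, map_zero, map_one, map_neg, map_ofNat] <;> grind)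

theorem DM.rat (H : ρ.TW (rat θ) R) : θ a = a := by
  simpa [trm3] using (h.fx H).2.2.2.rat H.det

theorem DM.frm (H : ρ.TW (frm θ) R) : θ a * a = 1 := by
  have := (h.fx H).2.2.2.frm H.det
  simp [trm3, adjugate_fin_three_of, h.ne] at this
  exact (congrArg _ this.symm).trans (mul_inv_cancel₀ ((map_ne_zero θ).2 h.ne))

theorem DM.uniq (h1 : a ≠ 1) (H : ρ.TW Φ R) (e1 : Fx Φ 1 (dg a a⁻¹ 1))
    (e2 : Fx Φ 1 !![0, -1, 0; -1, 0, 0; 0, 0, -1]) (e3 : Fx Φ 1 !![0, 0, -1; 0, -1, 0; -1, 0, 0]) :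
    ρ.TW Φ 1 := H.uniq (by simp) fun Y hY => by
  have k1 := hY _ (h.fx H).1 e1
  have k2 := hY _ (h.fx H).2.1 e2
  have k3 := hY _ (h.fx H).2.2.1 e3
  obtain ⟨a0, a1, a2, a3, a4, a5, a6, a7, a8, rfl⟩ := ex9 Y
  clear hY e1 e2 e3
  exact ⟨a0, by simp only [mul_fin_three, em3] at k1 k2 k3; (simp only [mul_fin_three, one_fin_three, em3, sm3, mv3, vm3, sv3, ev3, dot3, dm3, trm3, tm3, zv3, adjugate_fin_three_of, map3, map_zero, map_one, map_neg, map_ofNat] <;> grind)⟩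

theorem DM.rat1 (h1 : a ≠ 1) (H : ρ.TW (M3.rat θ) R) : ρ.TW (M3.rat θ) 1 :=
  h.uniq h1 H (fx_rat (by simp [map3, h.rat H])) (fx_rat (by simp [map3])) (fx_rat (by simp [map3]))

theorem DM.frm1 (h1 : a ≠ 1) (H : ρ.TW (M3.frm θ) R) : ρ.TW (M3.frm θ) 1 := by
  have := h.ne
  have := h.frm H
  refine h.uniq h1 H ((fx_frm (by (simp only [mul_fin_three, one_fin_three, em3, sm3, mv3, vm3, sv3, ev3, dot3, dm3, trm3, tm3, zv3, adjugate_fin_three_of, map3, map_zero, map_one, map_neg, map_ofNat] <;> grind))).2 ?_) ((fx_frm (by (simp only [mul_fin_three, one_fin_three, em3, sm3, mv3, vm3, sv3, ev3, dot3, dm3, trm3, tm3, zv3, adjugate_fin_three_of, map3, map_zero, map_one, map_neg, map_ofNat] <;> grind))).2 (by (simp only [mul_fin_three, one_fin_three, em3, sm3, mv3, vm3, sv3, ev3, dot3, dm3, trm3, tm3, zv3, adjugate_fin_three_of, map3, map_zero, map_one, map_neg, map_ofNat] <;> grind))) ((fx_frm (by (simp only [mul_fin_three,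 one_fin_three, em3, sm3, mv3, vm3, sv3, ev3, dot3, dm3, trm3, tm3, zv3, adjugate_fin_three_of, map3, map_zero, map_one, map_neg, map_ofNat] <;> grind))).2 (by (simp only [mul_fin_three, one_fin_three, em3, sm3, mv3, vm3, sv3, ev3, dot3, dm3, trm3, tm3, zv3, adjugate_fin_three_of, map3, map_zero, map_one, map_neg, map_ofNat] <;> grind)))
  simp only [map3, map_inv₀]; (simp only [mul_fin_three, one_fin_three, em3, sm3, mv3, vm3, sv3, ev3, dot3, dm3, trm3, tm3, zv3, adjugate_fin_three_of, map3, map_zero, map_one, map_neg, map_ofNat] <;> grind)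

theorem DM.irr (h1 : a ≠ 1) : ρ.Irr := by
  have := h.ne
  refine irr_of h.d h.c (fun x y z r s e1 e2 => ?_) fun x y z r s e1 e2 => ?_ <;>
    simp only [mv3, vm3, sv3, ev3] at e1 e2 <;> grind

theorem DM.mono (h3 : a ^ 3 ≠ 1) (H : ρ.Sm Mono) : ρ.Mono := by
  obtain ⟨B, B', σ, H⟩ := H.mf
  have a0 := h.ne
  obtain ⟨g, hg⟩ := h.d
  obtain ⟨c, hc⟩ := h.c
  have h1 := ρ.conj hc (A' := cyc k * cyc k) (by (simp only [mul_fin_three, one_fin_three, em3, sm3, mv3, vm3, sv3, ev3, dot3, dm3, trm3, tm3, zv3, adjugate_fin_three_of, map3, map_zero, map_one, map_neg, map_ofNat] <;> grind)) hg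
  have h2 := ρ.conj hc (A' := cyc k * cyc k) (by (simp only [mul_fin_three, one_fin_three, em3, sm3, mv3, vm3, sv3, ev3, dot3, dm3, trm3, tm3, zv3, adjugate_fin_three_of, map3, map_zero, map_one, map_neg, map_ofNat] <;> grind)) h1
  have e := congrArg σ (ρ.inj (g := g * (c * g * c⁻¹) * (c * (c * g * c⁻¹) * c⁻¹))
    (by convert ρ.mul (ρ.mul hg h1) h2 using 1; (simp only [mul_fin_three, one_fin_three, em3, sm3, mv3, vm3, sv3, ev3, dot3, dm3, trm3, tm3, zv3, adjugate_fin_three_of, map3, map_zero, map_one, map_neg, map_ofNat] <;> grind)))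
  simp only [map_mul, map_inv, map_one] at e
  have e1 := (s3_a _ _ e).resolve_right fun e => h3 (by
    have := H.trace hg e
    rw [trm3] at this
    grind)
  by_cases h4 : a = -1
  · obtain ⟨d, e2⟩ := H.diag hg e1
    obtain ⟨d', e3⟩ := H.diag h1 (by simp [e1])
    refine H.mono (d := ![-2, 0, 2]) (d' := d - d') (fun i j => ?_) ?_
    · have : (2 : k) ≠ 0 := by grind
      have : (-2 : k) ≠ 2 := by grind
      fin_cases i <;> fin_cases j <;> simp <;> grind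
    · rw [show diagonal (d - d') = diagonal d - diagonal d' from (diagonal_sub d d').symm, sub_mul, ← e2, ← e3, ← mul_sub, ← dg_eq, h4]
      congr 1
      simp [eq9]; norm_num
  · exact H.reg hg e1 (by grind) (by grind) (by grind)

theorem DM.hess [IsAlgClosed k] (H : ρ.Hess) : a ^ 3 = 1 := by
  have := h.ne
  obtain ⟨c, e⟩ := H.inv3' (h.d.mul h.t) h.t (by (simp only [mul_fin_three, one_fin_three, em3, sm3, mv3, vm3, sv3, ev3, dot3, dm3, trm3, tm3, zv3, adjugate_fin_three_of, map3, map_zero, map_one, map_neg, map_ofNat] <;> grind)) (fun c => by simp [eq9, this]) (by (simp only [mul_fin_three, one_fin_three, em3, sm3, mv3, vm3, sv3, ev3, dot3, dm3, trm3, tm3, zv3, adjugate_fin_three_of, map3, map_zero, map_one, map_neg, map_ofNat] <;> grind))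
    (fun c => by simp [eq9])
  revert e; (simp only [mul_fin_three, one_fin_three, em3, sm3, mv3, vm3, sv3, ev3, dot3, dm3, trm3, tm3, zv3, adjugate_fin_three_of, map3, map_zero, map_one, map_neg, map_ofNat] <;> grind)

theorem DM.sa (H : ρ.SA) : a ^ 6 = 1 := by
  have := h.ne
  have := H.dg3 ((h.d2.mul ((h.c.mul h.d).mul (h.c.mul h.c))).of_eq (B := dg a⁻¹ a 1) (by (simp only [mul_fin_three, one_fin_three, em3, sm3, mv3, vm3, sv3, ev3, dot3, dm3, trm3, tm3, zv3, adjugate_fin_three_of, map3, map_zero, map_one, map_neg, map_ofNat] <;> grind)) |>.mul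
    h.d2 |>.mul h.d2 |>.mul h.d |>.of_eq (B := dg (a⁻¹ ^ 2) 1 (a ^ 2)) (by (simp only [mul_fin_three, one_fin_three, em3, sm3, mv3, vm3, sv3, ev3, dot3, dm3, trm3, tm3, zv3, adjugate_fin_three_of, map3, map_zero, map_one, map_neg, map_ofNat] <;> grind)) |>.mul
    ((h.c.mul h.d).mul (h.c.mul h.c)) |>.mul h.d |>.mul h.d |>.of_eq (B := dg 1 a⁻¹ a) (by (simp only [mul_fin_three, one_fin_three, em3, sm3, mv3, vm3, sv3, ev3, dot3, dm3, trm3, tm3, zv3, adjugate_fin_three_of, map3, map_zero, map_one, map_neg, map_ofNat] <;> grind)) |>.mul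
    h.d2 |>.of_eq (B := dg a⁻¹ a⁻¹ (a ^ 2)) (by (simp only [mul_fin_three, one_fin_three, em3, sm3, mv3, vm3, sv3, ev3, dot3, dm3, trm3, tm3, zv3, adjugate_fin_three_of, map3, map_zero, map_one, map_neg, map_ofNat] <;> grind)))
  grind

end DM

section Si

variable {a b c : k} (h : ρ.In (dg a b c)) (d : a * b * c = 1)
include h

include d in
theorem si_rat (H : ρ.TW (rat θ) R) :
    θ (a ^ 3) = a ^ 3 ∨ θ (a ^ 3) = b ^ 3 ∨ θ (a ^ 3) = c ^ 3 :=
  H.eig (dg_pow a b c 3 ▸ H.fx3 h (by (simp only [mul_fin_three, one_fin_three, em3, sm3, mv3, vm3, sv3, ev3, dot3, dm3, trm3, tm3, zv3, adjugate_fin_three_of, map3, map_zero, map_one, map_neg, map_ofNat] <;> grind))) (by rw [rat_f, map3, map_zero])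

include d in
theorem si_frm (H : ρ.TW (frm θ) R) :
    θ (a ^ 3) * a ^ 3 = 1 ∨ θ (a ^ 3) * b ^ 3 = 1 ∨ θ (a ^ 3) * c ^ 3 = 1 := by
  have := H.eig (dg_pow a b c 3 ▸ H.fx3 h (by (simp only [mul_fin_three, one_fin_three, em3, sm3, mv3, vm3, sv3, ev3, dot3, dm3, trm3, tm3, zv3, adjugate_fin_three_of, map3, map_zero, map_one, map_neg, map_ofNat] <;> grind))) (a' := θ (b ^ 3) * θ (c ^ 3))
    (b' := θ (a ^ 3) * θ (c ^ 3)) (c' := θ (a ^ 3) * θ (b ^ 3)) (by rw [frm_f]; (simp only [mul_fin_three, one_fin_three, em3, sm3, mv3, vm3, sv3, ev3, dot3, dm3, trm3, tm3, zv3, adjugate_fin_three_of, map3, map_zero, map_one, map_neg, map_ofNat] <;> grind))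
  have e : θ (a ^ 3) * (θ (b ^ 3) * θ (c ^ 3)) = 1 := by
    rw [← map_mul, ← map_mul, ← mul_pow, ← mul_pow, ← mul_assoc, d, one_pow, map_one]
  rcases this with e1 | e1 | e1 <;> rw [e1] at e <;> simp only [e, true_or, or_true]

theorem si_mono (h1 : a ^ 6 ≠ b ^ 6) (h2 : a ^ 6 ≠ c ^ 6) (h3 : b ^ 6 ≠ c ^ 6) (H : ρ.Sm Mono) :
    ρ.Mono := by
  obtain ⟨B, B', σ, H⟩ := H.mf
  obtain ⟨g, hg⟩ := h
  refine H.reg (dg_pow a b c 6 ▸ ρ.pow hg 6) ?_ h1 h2 h3
  rw [map_pow]; exact pow_card_eq_one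

include d in
theorem si_ord {n : ℕ} (H : ∀ g, ρ.L g (dg a b c) → g ^ n = 1) : a ^ (3 * n) = 1 := by
  obtain ⟨g, hg⟩ := h
  obtain ⟨e1, e2⟩ := pow_dg hg (H g hg)
  rw [← one_pow n, ← d, mul_pow, mul_pow, ← e1, ← e2]; ring

include d in
theorem si_red (h1 : a ^ 3 ≠ b ^ 3) (h2 : a ^ 3 ≠ c ^ 3) (h3 : b ^ 3 ≠ c ^ 3) (e1 : θ a = b)
    (e2 : θ b = c) (e3 : θ c = a) (H : ρ.TW (rat θ) R) (hi : ¬ ρ.Irr) : ρ.Mono := by
  have key : ∀ A, ρ.In A → (A 1 0 = 0 ↔ A 2 1 = 0) ∧ (A 2 1 = 0 ↔ A 0 2 = 0) ∧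
      (A 2 0 = 0 ↔ A 0 1 = 0) ∧ (A 0 1 = 0 ↔ A 1 2 = 0) := fun A hA => by
    have k1 := dg_pow a b c 3 ▸ H.fx3 h (by (simp only [mul_fin_three, one_fin_three, em3, sm3, mv3, vm3, sv3, ev3, dot3, dm3, trm3, tm3, zv3, adjugate_fin_three_of, map3, map_zero, map_one, map_neg, map_ofNat] <;> grind))
    obtain ⟨η, k2⟩ := H.ex A hA
    have k3 : η ≠ 0 := by
      rintro rfl; simpa [rat_f, det_map, hA.det, H.det] using congrArg Matrix.det k2
    have k4 := H.det
    obtain ⟨r0, r1, r2, r3, r4, r5, r6, r7, r8, rfl⟩ := ex9 R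
    simp only [Fx, rat_f, map3, map_pow, map_zero, e1, e2, e3, mul_fin_three, em3] at k1
    obtain rfl : r0 = 0 := by grind
    obtain rfl : r2 = 0 := by grind
    obtain rfl : r3 = 0 := by grind
    obtain rfl : r4 = 0 := by grind
    obtain rfl : r7 = 0 := by grind
    obtain rfl : r8 = 0 := by grind
    obtain ⟨a0, a1, a2, a3, a4, a5, a6, a7, a8, rfl⟩ := ex9 A
    simp only [rat_f, map3, mul_fin_three, em3, sm3, dm3] at k2 k4
    have r0 : r1 ≠ 0 ∧ r5 ≠ 0 ∧ r6 ≠ 0 := by grind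
    simp only [mul_zero, zero_mul, add_zero, zero_add] at k2
    have := fun (x y r s : k) (hr : r ≠ 0) (hs : s ≠ 0) (e : θ x * r = η * (s * y)) =>
      show x = 0 ↔ y = 0 by rw [← map_eq_zero θ, ← mul_eq_zero_iff_right hr, e]; simp [k3, hs]
    exact ⟨this _ _ _ _ r0.1 r0.2.1 k2.2.2.2.2.1, this _ _ _ _ r0.2.1 r0.2.2 k2.2.2.2.2.2.2.2.2,
      this _ _ _ _ r0.1 r0.2.2 k2.2.2.2.2.2.2.2.1, this _ _ _ _ r0.2.1 r0.1 k2.2.2.1⟩
  suffices ∀ A, ρ.In A → A 1 0 = 0 ∧ A 2 0 = 0 from fun A hA => ⟨1, fun i j => by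
    have := this A hA
    have := key A hA
    fin_cases i <;> fin_cases j <;> simp <;> tauto⟩
  have : a ≠ b ∧ a ≠ c ∧ b ≠ c := by grind
  by_contra hc
  push Not at hc
  obtain ⟨A, hA, hc⟩ := hc
  have k := key A hA
  obtain ⟨a0, a1, a2, a3, a4, a5, a6, a7, a8, rfl⟩ := ex9 A
  simp at k hc
  clear key
  refine hi (irr_of h hA (fun x y z r s e1 e2 => ?_) fun x y z r s e1 e2 => ?_) <;>
    simp only [mv3, vm3, sv3, ev3] at e1 e2 <;>
    obtain rfl | rfl := eig1 (x := x) (r := r) (a := a) (by grind) <;>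
    obtain rfl | rfl := eig1 (x := y) (r := r) (a := b) (by grind) <;>
    obtain rfl | rfl := eig1 (x := z) (r := r) (a := c) (by grind) <;>
    simp only [mul_zero, zero_mul, add_zero, zero_add, mul_eq_zero] at * <;> grind

end Si

variable (ρ) in
/-- an orthogonal subgroup -/
def OM (L : Subfield k) : Prop :=
  ∀ A : Mt k, (∀ i j, A i j ∈ L) → A.det = 1 → Aᵀ * jj k * A = jj k → ρ.In A

section OM

variable {L : Subfield k} (h : ρ.OM L) {a : k}
include h

theorem OM.u (ha : a ∈ L) : ρ.In !![1, 2 * a, a ^ 2; 0, 1, a; 0, 0, 1] :=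
  h _ (fun i j => by fin_cases i <;> fin_cases j <;> simp [ha, mul_mem, pow_mem]) (by (simp only [mul_fin_three, one_fin_three, em3, sm3, mv3, vm3, sv3, ev3, dot3, dm3, trm3, tm3, zv3, adjugate_fin_three_of, map3, map_zero, map_one, map_neg, map_ofNat] <;> grind)) (by (simp only [mul_fin_three, one_fin_three, em3, sm3, mv3, vm3, sv3, ev3, dot3, dm3, trm3, tm3, zv3, adjugate_fin_three_of, map3, map_zero, map_one, map_neg, map_ofNat] <;> grind))

theorem OM.w (ha : a ∈ L) (a0 : a ≠ 0) : ρ.In !![0, 0, a⁻¹; 0, -1, 0; a, 0, 0] :=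
  h _ (fun i j => by fin_cases i <;> fin_cases j <;> simp [ha]) (by (simp only [mul_fin_three, one_fin_three, em3, sm3, mv3, vm3, sv3, ev3, dot3, dm3, trm3, tm3, zv3, adjugate_fin_three_of, map3, map_zero, map_one, map_neg, map_ofNat] <;> grind)) (by (simp only [mul_fin_three, one_fin_three, em3, sm3, mv3, vm3, sv3, ev3, dot3, dm3, trm3, tm3, zv3, adjugate_fin_three_of, map3, map_zero, map_one, map_neg, map_ofNat] <;> grind))

theorem OM.d (ha : a ∈ L) (a0 : a ≠ 0) : ρ.In (dg a⁻¹ 1 a) :=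
  h _ (fun i j => by fin_cases i <;> fin_cases j <;> simp [ha]) (by (simp only [mul_fin_three, one_fin_three, em3, sm3, mv3, vm3, sv3, ev3, dot3, dm3, trm3, tm3, zv3, adjugate_fin_three_of, map3, map_zero, map_one, map_neg, map_ofNat] <;> grind)) (by (simp only [mul_fin_three, one_fin_three, em3, sm3, mv3, vm3, sv3, ev3, dot3, dm3, trm3, tm3, zv3, adjugate_fin_three_of, map3, map_zero, map_one, map_neg, map_ofNat] <;> grind))

theorem OM.hess [IsAlgClosed k] (h2 : (2 : k) ≠ 0) : ¬ ρ.Hess := fun H => by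
  obtain ⟨c, e⟩ := H.inv3' (h.w L.one_mem one_ne_zero) (h.w (L.neg_mem L.one_mem) (by simp))
    (by (simp only [mul_fin_three, one_fin_three, em3, sm3, mv3, vm3, sv3, ev3, dot3, dm3, trm3, tm3, zv3, adjugate_fin_three_of, map3, map_zero, map_one, map_neg, map_ofNat] <;> grind)) (fun c => by simp [eq9]) (by (simp only [mul_fin_three, one_fin_three, em3, sm3, mv3, vm3, sv3, ev3, dot3, dm3, trm3, tm3, zv3, adjugate_fin_three_of, map3, map_zero, map_one, map_neg, map_ofNat] <;> grind)) (fun c => by simp [eq9])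
  revert e; (simp only [mul_fin_three, one_fin_three, em3, sm3, mv3, vm3, sv3, ev3, dot3, dm3, trm3, tm3, zv3, adjugate_fin_three_of, map3, map_zero, map_one, map_neg, map_ofNat] <;> grind)

theorem OM.irr (h2 : (2 : k) ≠ 0) : ρ.Irr := by
  refine irr_of (h.u L.one_mem) (h.w L.one_mem one_ne_zero) (fun x y z r s e1 e2 => ?_)
    fun x y z r s e1 e2 => ?_ <;> simp only [mv3, vm3, sv3, ev3] at e1 e2
  · rcases eig1 (x := z) (r := r) (a := 1) (by grind) with e | e <;>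
      rcases eig1 (x := y) (r := r) (a := 1) (by grind) with e | e <;> grind
  · rcases eig1 (x := x) (r := r) (a := 1) (by grind) with e | e <;>
      rcases eig1 (x := y) (r := r) (a := 1) (by grind) with e | e <;> grind

omit h in
theorem u_pow (a : k) (n : ℕ) : !![1, 2 * a, a ^ 2; 0, 1, a; 0, 0, 1] ^ n =
    !![1, 2 * (n * a), (n * a) ^ 2; 0, 1, n * a; 0, 0, 1] := by
  induction n with
  | zero => simp [eq9]
  | succ n ih => rw [pow_succ, ih, Nat.cast_succ]; (simp only [mul_fin_three, one_fin_three, em3, sm3, mv3, vm3, sv3, ev3, dot3, dm3, trm3, tm3, zv3, adjugate_fin_three_of, map3, map_zero, map_one, map_neg, map_ofNat] <;> grind)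

variable (p : ℕ) [Fact p.Prime] [CharP k p]
include p

theorem OM.fx (H : ρ.TW Φ R) : Fx Φ R !![1, 2 * 1, 1 ^ 2; 0, 1, 1; 0, 0, 1] ∧
    ∀ a ∈ L, a ≠ 0 → Fx Φ R !![0, 0, a⁻¹; 0, -1, 0; a, 0, 0] :=
  ⟨H.unip p (h.u L.one_mem) (by rw [u_pow]; simp [eq9]), fun a ha a0 => H.inv (h.w ha a0) (by (simp only [mul_fin_three, one_fin_three, em3, sm3, mv3, vm3, sv3, ev3, dot3, dm3, trm3, tm3, zv3, adjugate_fin_three_of, map3, map_zero, map_one, map_neg, map_ofNat] <;> grind)) (by (simp only [mul_fin_three, one_fin_three, em3, sm3, mv3, vm3, sv3, ev3, dot3, dm3, trm3, tm3, zv3, adjugate_fin_three_of, map3, map_zero, map_one, map_neg, map_ofNat] <;> grind))⟩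

theorem OM.rat (H : ρ.TW (rat θ) R) (ha : a ∈ L) : θ a = a := by
  by_cases a0 : a = 0
  · simp [a0]
  simpa [trm3] using ((h.fx p H).1.mul ((h.fx p H).2 a ha a0)).rat H.det

theorem OM.frm (H : ρ.TW (frm θ) R) (ha : a ∈ L) : θ a = a := by
  by_cases a0 : a = 0
  · simp [a0]
  have := ((h.fx p H).1.mul ((h.fx p H).2 a ha a0)).frm H.det
  rw [show adjugate _ = !![0, 0, a⁻¹; 0, -1, 1; a, -2 * a, a] by (simp only [mul_fin_three, one_fin_three, em3, sm3, mv3, vm3, sv3, ev3, dot3, dm3, trm3, tm3, zv3, adjugate_fin_three_of, map3, map_zero, map_one, map_neg, map_ofNat] <;> grind)] at this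
  simp [trm3] at this
  grind

theorem OM.uniq (h2 : (2 : k) ≠ 0) (H : ρ.TW Φ R) {S : Mt k} (hS : S.det ≠ 0)
    (e1 : Fx Φ S !![1, 2 * 1, 1 ^ 2; 0, 1, 1; 0, 0, 1]) (e2 : Fx Φ S !![0, 0, 1⁻¹; 0, -1, 0; 1, 0, 0]) :
    ρ.TW Φ S := H.uniq hS fun Y hY => by
  have k1 := hY _ (h.fx p H).1 e1
  have k2 := hY _ ((h.fx p H).2 1 L.one_mem one_ne_zero) e2
  obtain ⟨a0, a1, a2, a3, a4, a5, a6, a7, a8, rfl⟩ := ex9 Y
  clear hY e1 e2
  exact ⟨a0, by simp only [mul_fin_three, em3] at k1 k2; (simp only [mul_fin_three, one_fin_three, em3, sm3, mv3, vm3, sv3, ev3, dot3, dm3, trm3, tm3, zv3, adjugate_fin_three_of, map3, map_zero, map_one, map_neg, map_ofNat] <;> grind)⟩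

theorem OM.frm1 (h2 : (2 : k) ≠ 0) (H : ρ.TW (M3.frm θ) R) : ρ.TW (M3.frm θ) (jj k) :=
  h.uniq p h2 H (by (simp only [mul_fin_three, one_fin_three, em3, sm3, mv3, vm3, sv3, ev3, dot3, dm3, trm3, tm3, zv3, adjugate_fin_three_of, map3, map_zero, map_one, map_neg, map_ofNat] <;> grind)) ((fx_frm (by (simp only [mul_fin_three, one_fin_three, em3, sm3, mv3, vm3, sv3, ev3, dot3, dm3, trm3, tm3, zv3, adjugate_fin_three_of, map3, map_zero, map_one, map_neg, map_ofNat] <;> grind))).2 (by simp only [mul_one, one_pow]; (simp only [mul_fin_three, one_fin_three, em3, sm3, mv3, vm3, sv3, ev3, dot3, dm3, trm3, tm3, zv3, adjugate_fin_three_of, map3, map_zero, map_one, map_neg, map_ofNat] <;> grind)))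
    ((fx_frm (by (simp only [mul_fin_three, one_fin_three, em3, sm3, mv3, vm3, sv3, ev3, dot3, dm3, trm3, tm3, zv3, adjugate_fin_three_of, map3, map_zero, map_one, map_neg, map_ofNat] <;> grind))).2 (by simp only [inv_one]; (simp only [mul_fin_three, one_fin_three, em3, sm3, mv3, vm3, sv3, ev3, dot3, dm3, trm3, tm3, zv3, adjugate_fin_three_of, map3, map_zero, map_one, map_neg, map_ofNat] <;> grind)))

theorem OM.mono (h2 : (2 : k) ≠ 0) (H : ρ.Sm Mono) (ha : a ∈ L) : a ^ 3 = a := by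
  obtain ⟨B, B', σ, H⟩ := H.mf
  have key : ∀ {g a}, ρ.L g !![1, 2 * a, a ^ 2; 0, 1, a; 0, 0, 1] → σ g = 1 → a = 0 := by
    intro g a hg e
    obtain ⟨c, e⟩ := (ρ.eq_one_iff hg).1 (H.unip p e (ρ.inj (by simpa [u_pow, one_fin_three] using ρ.pow hg p)))
    revert e; (simp only [mul_fin_three, one_fin_three, em3, sm3, mv3, vm3, sv3, ev3, dot3, dm3, trm3, tm3, zv3, adjugate_fin_three_of, map3, map_zero, map_one, map_neg, map_ofNat] <;> grind)
  by_cases a0 : a = 0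
  · simp [a0]
  obtain ⟨g, hg⟩ := h.u ha
  obtain ⟨g', hg'⟩ := h.u L.one_mem
  have k1 : ∀ {g a}, ρ.L g !![1, 2 * a, a ^ 2; 0, 1, a; 0, 0, 1] → a ≠ 0 → σ g * σ g ≠ 1 :=
    fun {g a} hg a0 e => mul_ne_zero h2 a0 (key (g := g * g) (by convert ρ.mul hg hg using 1; (simp only [mul_fin_three, one_fin_three, em3, sm3, mv3, vm3, sv3, ev3, dot3, dm3, trm3, tm3, zv3, adjugate_fin_three_of, map3, map_zero, map_one, map_neg, map_ofNat] <;> grind))
      (by rwa [map_mul]))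
  rcases s3_b _ _ (k1 hg a0) (k1 hg' one_ne_zero) with e | e
  · have := key (g := g * g'⁻¹) (a := a - 1) (by
      convert ρ.mul hg (ρ.inv hg' (A' := !![1, -2, 1; 0, 1, -1; 0, 0, 1]) (by (simp only [mul_fin_three, one_fin_three, em3, sm3, mv3, vm3, sv3, ev3, dot3, dm3, trm3, tm3, zv3, adjugate_fin_three_of, map3, map_zero, map_one, map_neg, map_ofNat] <;> grind))) using 1; (simp only [mul_fin_three, one_fin_three, em3, sm3, mv3, vm3, sv3, ev3, dot3, dm3, trm3, tm3, zv3, adjugate_fin_three_of, map3, map_zero, map_one, map_neg, map_ofNat] <;> grind))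
      (by rwa [map_mul, map_inv])
    grind
  · have := key (g := g * g') (a := a + 1) (by convert ρ.mul hg hg' using 1; (simp only [mul_fin_three, one_fin_three, em3, sm3, mv3, vm3, sv3, ev3, dot3, dm3, trm3, tm3, zv3, adjugate_fin_three_of, map3, map_zero, map_one, map_neg, map_ofNat] <;> grind)) (by rwa [map_mul])
    grind

theorem OM.mono3 (h2 : (2 : k) ≠ 0) (H : ρ.Sm Mono) (hθ : ∀ a, θ a = a → a ∈ L)
    (hR : ρ.TW (M3.rat θ) 1) : ρ.TW (M3.frm (RingHom.id k)) (jj k) := by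
  have h3 : (3 : k) = 0 := by
    have := h.mono p h2 H (a := 2) (by simp)
    exact mul_left_cancel₀ h2 (by linear_combination this)
  have hC : (!![1, 1, 1; 0, 1, -1; 1, -1, -1] : Mt k) * !![-1, 0, -1; 1, -1, -1; 1, 1, -1] = 1 := by (simp only [mul_fin_three, one_fin_three, em3, sm3, mv3, vm3, sv3, ev3, dot3, dm3, trm3, tm3, zv3, adjugate_fin_three_of, map3, map_zero, map_one, map_neg, map_ofNat] <;> grind)
  have hD : (ρ.cj hC).DM (-1) := by
    refine ⟨by simp, (in_cj hC).2 (h _ (fun i j => ?_) ?_ ?_), (in_cj hC).2 (h _ (fun i j => ?_) ?_ ?_),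
      (in_cj hC).2 (h _ (fun i j => ?_) ?_ ?_)⟩
    any_goals (simp only [mul_fin_three, one_fin_three, em3, sm3, mv3, vm3, sv3, ev3, dot3, dm3, trm3, tm3, zv3, adjugate_fin_three_of, map3, map_zero, map_one, map_neg, map_ofNat] <;> grind)
    all_goals fin_cases i <;> fin_cases j <;> simp [mul_fin_three, add_mem]
  have hM := hD.mono (by grind) (H.cj hC)
  have hR' := hD.rat1 (by grind) (hR.cj hC)
  obtain ⟨R, hR⟩ := TW.of_cj hC (TW.of_form (θ := RingHom.id k) (R := 1) (by simp) fun g => by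
    obtain ⟨A, hA⟩ := (ρ.cj hC).ex g
    obtain ⟨σ, hσ⟩ := hM A ⟨g, hA⟩
    obtain ⟨η, e⟩ := hR'.ex A ⟨g, hA⟩
    have n0 : ∀ j, A (σ j) j ≠ 0 := fun j e => (ρ.cj hC).det hA
      (det_eq_zero_of_column_eq_zero j fun i => by_contra fun h => h (hσ i j h ▸ e))
    have k1 : ∀ j, A (σ j) j ^ 2 = A (σ 0) 0 ^ 2 := fun j => by
      have e1 := fun i j => congrFun (congrFun e i) j
      simp only [mul_one, one_mul, rat_f, map_apply, Matrix.smul_apply, smul_eq_mul] at e1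
      have := h.mono p h2 H (hθ (A (σ j) j / A (σ 0) 0) (by
        rw [map_div₀, e1, e1, mul_div_mul_left]
        rintro rfl
        exact n0 0 ((map_eq_zero θ).1 ((e1 _ _).trans (zero_mul _)))))
      have := n0 j
      have := n0 0
      grind
    refine ⟨A, A (σ 0) 0 ^ 2, hA, ?_⟩
    ext i j
    rw [mul_one, mul_apply, Finset.sum_eq_single (σ j) (fun l _ hl => by
      rw [not_not.1 (mt (hσ l j) hl), mul_zero]) (by simp)]
    by_cases hij : i = j
    · simp [hij, ← k1 j, sq]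
    · simp [hij, not_not.1 (mt (fun e => σ.injective (hσ _ _ e)) (Ne.symm hij))])
  exact h.frm1 p h2 hR

end OM

end PR

end Cfsg.Agent.H6.M3
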