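import Cfsg.Agent.H6.T4

/-! Groups containing Hessian, linear and unitary subgroups. -/

set_option autoImplicit false

namespace Cfsg.Agent.H6.M3

open Matrix Subgroup

variable {k : Type*} [Field k]

theorem s3_c : ∀ σ : Equiv.Perm (Fin 3), σ * σ * (σ * σ) = 1 → σ * σ = 1 := by decide +kernel

theorem s3_d : ∀ a b c d : Equiv.Perm (Fin 3), a * b * a⁻¹ * b⁻¹ * (c * d * c⁻¹ * d⁻¹) *
    (a * b * a⁻¹ * b⁻¹)⁻¹ * (c * d * c⁻¹ * d⁻¹)⁻¹ = 1 := by decide +kernel

namespace PR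

variable {Γ : Type*} [Group Γ] {ρ : PR Γ k} {Φ : Tp k} {R A : Mt k} {θ : k →+* k}

variable (ρ) in
/-- a subgroup `3² : Q₈` -/
structure HeM (ω : k) (x c : Γ) : Prop where
  o1 : ω ≠ 1
  o2 : ω ^ 2 + ω + 1 = 0
  ex : ρ.L x (dg 1 ω (ω ^ 2))
  ec : ρ.L c (cyc k)
  a : ρ.In !![1, 1, 1; 1, ω, ω ^ 2; 1, ω ^ 2, ω]
  b : ρ.In !![1, ω, ω; ω ^ 2, ω, ω ^ 2; ω ^ 2, ω ^ 2, ω]

section He

variable {ω : k} {x c : Γ} (h : ρ.HeM ω x c)
include h

theorem HeM.pr : ρ.Pr x c (ω ^ 2) := ⟨_, _, h.ex, h.ec, by have := h.o2; (simp only [mul_fin_three, one_fin_three, em3, sm3, mv3, vm3, sv3, ev3, dot3, dm3, trm3, tm3, zv3, adjugate_fin_three_of, map3, map_zero, map_one, map_neg, map_ofNat] <;> grind)⟩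

theorem HeM.rp : ρ.RP x c := ⟨_, by have := h.o1; have := h.o2; grind, h.pr⟩

theorem HeM.q8 : ∃ a b : Γ, a * a = b * b ∧ a * b * (a * b) = a * a ∧ a * a * (a * a) = 1 ∧
    a * a ≠ 1 ∧ a * a * x * (a * a)⁻¹ = x⁻¹ ∧ a * a * c * (a * a)⁻¹ = c⁻¹ ∧
    ρ.L (a * a) !![-1, 0, 0; 0, 0, -1; 0, -1, 0] := by
  obtain ⟨o1, o2, ex, ec, ⟨a, ha⟩, b, hb⟩ := h
  have h3 : (3 : k) ≠ 0 := by grind
  have hz : ρ.L (a * a) !![-1, 0, 0; 0, 0, -1; 0, -1, 0] := by
    convert ρ.smul (ρ.mul ha ha) (c := -3⁻¹) (by simpa) using 1; (simp only [mul_fin_three, one_fin_three, em3, sm3, mv3, vm3, sv3, ev3, dot3, dm3, trm3, tm3, zv3, adjugate_fin_three_of, map3, map_zero, map_one, map_neg, map_ofNat] <;> grind)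
  refine ⟨a, b, ρ.eq_of' hz (c := -3) ?_, (ρ.eq_of' hz (c := 9) ?_).symm,
    (inv_of hz (by (simp only [mul_fin_three, one_fin_three, em3, sm3, mv3, vm3, sv3, ev3, dot3, dm3, trm3, tm3, zv3, adjugate_fin_three_of, map3, map_zero, map_one, map_neg, map_ofNat] <;> grind)) fun c => by simp [eq9]).1, (inv_of hz (by (simp only [mul_fin_three, one_fin_three, em3, sm3, mv3, vm3, sv3, ev3, dot3, dm3, trm3, tm3, zv3, adjugate_fin_three_of, map3, map_zero, map_one, map_neg, map_ofNat] <;> grind)) fun c => by simp [eq9]).2,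
    (ρ.conj_iff hz ex (ρ.inv ex (A' := dg 1 (ω ^ 2) ω) (by (simp only [mul_fin_three, one_fin_three, em3, sm3, mv3, vm3, sv3, ev3, dot3, dm3, trm3, tm3, zv3, adjugate_fin_three_of, map3, map_zero, map_one, map_neg, map_ofNat] <;> grind)))).2 ⟨1, by (simp only [mul_fin_three, one_fin_three, em3, sm3, mv3, vm3, sv3, ev3, dot3, dm3, trm3, tm3, zv3, adjugate_fin_three_of, map3, map_zero, map_one, map_neg, map_ofNat] <;> grind)⟩,
    (ρ.conj_iff hz ec (ρ.inv ec (A' := cyc k * cyc k) (by (simp only [mul_fin_three, one_fin_three, em3, sm3, mv3, vm3, sv3, ev3, dot3, dm3, trm3, tm3, zv3, adjugate_fin_three_of, map3, map_zero, map_one, map_neg, map_ofNat] <;> grind)))).2 ⟨1, by (simp only [mul_fin_three, one_fin_three, em3, sm3, mv3, vm3, sv3, ev3, dot3, dm3, trm3, tm3, zv3, adjugate_fin_three_of, map3, map_zero, map_one, map_neg, map_ofNat] <;> grind)⟩, hz⟩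
  · convert ρ.mul hb hb using 1; (simp only [mul_fin_three, one_fin_three, em3, sm3, mv3, vm3, sv3, ev3, dot3, dm3, trm3, tm3, zv3, adjugate_fin_three_of, map3, map_zero, map_one, map_neg, map_ofNat] <;> grind)
  · convert ρ.mul (ρ.mul ha hb) (ρ.mul ha hb) using 1; (simp only [mul_fin_three, one_fin_three, em3, sm3, mv3, vm3, sv3, ev3, dot3, dm3, trm3, tm3, zv3, adjugate_fin_three_of, map3, map_zero, map_one, map_neg, map_ofNat] <;> grind)

theorem HeM.dm : ρ.DM ω := by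
  obtain ⟨a, b, -, -, -, -, -, -, hz⟩ := h.q8
  have := h.o2
  have o0 : ω ≠ 0 := by grind
  exact ⟨o0, (In.smul ⟨_, h.ex⟩ o0).of_eq (by (simp only [mul_fin_three, one_fin_three, em3, sm3, mv3, vm3, sv3, ev3, dot3, dm3, trm3, tm3, zv3, adjugate_fin_three_of, map3, map_zero, map_one, map_neg, map_ofNat] <;> grind)), ⟨_, h.ec⟩,
    (In.mul ⟨_, h.ec⟩ ⟨_, hz⟩).of_eq (by (simp only [mul_fin_three, one_fin_three, em3, sm3, mv3, vm3, sv3, ev3, dot3, dm3, trm3, tm3, zv3, adjugate_fin_three_of, map3, map_zero, map_one, map_neg, map_ofNat] <;> grind))⟩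

variable [IsAlgClosed k]

theorem HeM.mem {N : Subgroup Γ} (hN : N.Normal) (H : NoQ Γ N) : x ∈ N ∧ c ∈ N := by
  obtain ⟨a, b, h1, h2, h3, -, h4, h5, -⟩ := h.q8
  have key : ∀ y, y ^ 3 = 1 → a * a * y * (a * a)⁻¹ = y⁻¹ → y ∈ N := fun y h6 h7 => by
    have := mul_mem (H a b h1 h2 h3) (hN.conj_mem _ (inv_mem (H a b h1 h2 h3)) y)
    rwa [← mul_assoc, ← mul_assoc, h7, show y⁻¹ * y⁻¹ = y ^ 3 * y⁻¹ * y⁻¹ by rw [h6, one_mul],
      show y ^ 3 * y⁻¹ * y⁻¹ = y by group] at this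
  exact ⟨key _ h.rp.cube h4, key _ h.rp.symm.cube h5⟩

theorem HeM.mono : ¬ ρ.Sm Mono := fun H => by
  obtain ⟨B, B', σ, H⟩ := H.mf
  obtain ⟨h1, h2⟩ := h.mem (N := σ.ker) inferInstance fun a b _ _ e => by
    simpa using s3_c (σ a) (by simpa using congrArg σ e)
  exact h.rp.not_mem (H.T0 h1 h2)

theorem HeM.noQ : ¬ NoQ Γ ⊥ := fun H => h.rp.ne (h.mem inferInstance H).1

theorem HeM.six [Finite Γ] {H : Subgroup Γ} (h6 : H.index ≤ 6) : (ρ.sub H).Irr := by
  obtain ⟨h1, h2⟩ := h.mem inferInstance (core_six h6).2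
  exact RP.irr (x := ⟨x, H.normalCore_le h1⟩) (c := ⟨c, H.normalCore_le h2⟩) h.rp

theorem HeM.hess (H : ρ.Hess) : (RR x c).Normal := by
  obtain ⟨y, d, h', hN⟩ := H
  obtain ⟨a, b, -, -, h3, h4, h5, h6, -⟩ := h.q8
  have key : ∀ u, u ^ 3 = 1 → a * a * u * (a * a)⁻¹ = u⁻¹ → u ∈ RR y d := fun u h6 h7 => by
    have := h'.invs hN h3 h4 (t' := u * (a * a) * u⁻¹) (by rw [conj_mul, h3]; simp)
      (by rwa [Ne, conj_eq_one_iff])
    rwa [← mul_assoc, ← mul_assoc, ← inv_eq_of_mul_eq_one_right h3, inv_eq_of_mul_eq_one_right h3,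
      show a * a * u * (a * a) = u⁻¹ by rw [← h7, inv_eq_of_mul_eq_one_right h3],
      show u⁻¹ * u⁻¹ = u ^ 3 * u⁻¹ * u⁻¹ by rw [h6, one_mul], show u ^ 3 * u⁻¹ * u⁻¹ = u by group] at this
  rwa [h'.eq (key _ h.rp.cube h5) (key _ h.rp.symm.cube h6) h.rp]

theorem HeM.tw (hN : (RR x c).Normal) (e1 : Fx Φ 1 (dg 1 ω (ω ^ 2))) (e2 : Fx Φ 1 (cyc k)) :
    ρ.TW Φ 1 := by
  have o1 := h.o1
  have o2 := h.o2
  have pw : ∀ {A : Mt k}, Fx Φ 1 A → ∀ n : ℕ, Fx Φ 1 (A ^ n) := fun e n => by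
    simpa [Fx] using tz_pow (η := 1) (e.trans (one_smul _ _).symm) n
  have e3 : Fx Φ 1 (ω • (1 : Mt k)) := by
    convert ((e1.mul e2).mul (e1.mul e1)).mul (e2.mul e2) using 1; (simp only [mul_fin_three, one_fin_three, em3, sm3, mv3, vm3, sv3, ev3, dot3, dm3, trm3, tm3, zv3, adjugate_fin_three_of, map3, map_zero, map_one, map_neg, map_ofNat] <;> grind)
  refine TW.of_set (by simp) (fun X => ∃ g ∈ RR x c, ρ.L g X ∧ X.det = 1) ?_ ?_ fun Y hY => ?_
  · rintro A A' X ⟨g, hg⟩ e ⟨n, hn, h1, h2⟩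
    exact ⟨_, hN.conj_mem n hn g, ρ.conj hg e h1, by
      rw [det_mul, det_mul, h2, mul_one, ← det_mul, e, det_one]⟩
  · rintro X ⟨n, hn, h1, h2⟩
    obtain ⟨i, j, rfl⟩ := h.rp.exists_pow hn
    obtain ⟨r, r3, rfl⟩ := cube_of (ρ.mul (ρ.pow h.ex i) (ρ.pow h.ec j)) h1 (by
      rw [det_mul, det_pow, det_pow, show (dg 1 ω (ω ^ 2)).det = 1 by (simp only [mul_fin_three, one_fin_three, em3, sm3, mv3, vm3, sv3, ev3, dot3, dm3, trm3, tm3, zv3, adjugate_fin_three_of, map3, map_zero, map_one, map_neg, map_ofNat] <;> grind),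
        show (cyc k).det = 1 by (simp only [mul_fin_three, one_fin_three, em3, sm3, mv3, vm3, sv3, ev3, dot3, dm3, trm3, tm3, zv3, adjugate_fin_three_of, map3, map_zero, map_one, map_neg, map_ofNat] <;> grind)]; simp) h2
    have := (pw e1 i).mul (pw e2 j)
    rcases cube_cases (show ω ^ 3 = 1 by grind) o1 r3 with e | e | e
    · simpa [e] using this
    · simpa [show r = ω * ω by grind, mul_smul] using e3.mul (e3.mul this)
    · simpa [show r = ω by grind] using e3.mul this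
  · have k1 := hY _ ⟨_, h.rp.mem_left, h.ex, by (simp only [mul_fin_three, one_fin_three, em3, sm3, mv3, vm3, sv3, ev3, dot3, dm3, trm3, tm3, zv3, adjugate_fin_three_of, map3, map_zero, map_one, map_neg, map_ofNat] <;> grind)⟩
    have k2 := hY _ ⟨_, h.rp.mem_right, h.ec, by (simp only [mul_fin_three, one_fin_three, em3, sm3, mv3, vm3, sv3, ev3, dot3, dm3, trm3, tm3, zv3, adjugate_fin_three_of, map3, map_zero, map_one, map_neg, map_ofNat] <;> grind)⟩
    obtain ⟨a0, a1, a2, a3, a4, a5, a6, a7, a8, rfl⟩ := ex9 Y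
    clear hY pw e1 e2 e3
    exact ⟨a0, by simp only [mul_fin_three, em3] at k1 k2; (simp only [mul_fin_three, one_fin_three, em3, sm3, mv3, vm3, sv3, ev3, dot3, dm3, trm3, tm3, zv3, adjugate_fin_three_of, map3, map_zero, map_one, map_neg, map_ofNat] <;> grind)⟩

end He

variable (ρ) in
/-- a linear subgroup -/
def LinM (L : Subfield k) : Prop := ∀ A : Mt k, (∀ i j, A i j ∈ L) → A.det = 1 → ρ.In A

section Lin

variable {L : Subfield k} (h : ρ.LinM L)
include h

theorem LinM.int (A : Matrix (Fin 3) (Fin 3) ℤ) (d : A.det = 1) : ρ.In (A.map (Int.cast : ℤ → k)) :=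
  h _ (fun i j => intCast_mem L _) ((Int.cast_det A).symm.trans (by rw [d, Int.cast_one]))

theorem LinM.el {a : k} (ha : a ∈ L) {i j : Fin 3} (hij : i ≠ j) :
    ρ.El (Pi.single i a) (Pi.single j 1) := ⟨by simp [hij.symm], h _ (fun l m => by
      simp only [Matrix.add_apply, vecMulVec_apply, one_apply, Pi.single_apply]
      split_ifs <;> simp [ha, add_mem]) (by simp [det_r1, hij.symm])⟩

theorem LinM.nopp : ¬ ρ.Opp := fun H => by
  obtain ⟨-, c, e⟩ := H _ _ _ _ (by simp) (by simp) (by simp) (by simp)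
    (h.el L.one_mem (i := 0) (j := 1) (by decide)) (h.el L.one_mem (i := 0) (j := 2) (by decide))
    (by simp)
  simpa using congrFun e 2

theorem LinM.nsa : ¬ ρ.SA := fun H => by
  simpa using H.not_el (h.el L.one_mem (i := 0) (j := 1) (by decide))

theorem LinM.irr : ρ.Irr := by
  refine irr_of (A := !![1, 1, 0; 0, 1, 1; 0, 0, 1]) (B := !![1, 0, 0; 1, 1, 0; 0, 1, 1])
    (h _ (fun i j => by fin_cases i <;> fin_cases j <;> simp) (by (simp only [mul_fin_three, one_fin_three, em3, sm3, mv3, vm3, sv3, ev3, dot3, dm3, trm3, tm3, zv3, adjugate_fin_three_of, map3, map_zero, map_one, map_neg, map_ofNat] <;> grind)))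
    (h _ (fun i j => by fin_cases i <;> fin_cases j <;> simp) (by (simp only [mul_fin_three, one_fin_three, em3, sm3, mv3, vm3, sv3, ev3, dot3, dm3, trm3, tm3, zv3, adjugate_fin_three_of, map3, map_zero, map_one, map_neg, map_ofNat] <;> grind))) (fun x y z r s e1 e2 => ?_)
    fun x y z r s e1 e2 => ?_ <;> simp only [mv3, vm3, sv3, ev3] at e1 e2
  · rcases eig1 (x := z) (r := r) (a := 1) (by grind) with e | e <;>
      rcases eig1 (x := x) (r := s) (a := 1) (by grind) with e | e <;>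
      rcases eig1 (x := y) (r := r) (a := 1) (by grind) with e | e <;> grind
  · rcases eig1 (x := x) (r := r) (a := 1) (by grind) with e | e <;>
      rcases eig1 (x := z) (r := s) (a := 1) (by grind) with e | e <;>
      rcases eig1 (x := y) (r := r) (a := 1) (by grind) with e | e <;> grind

theorem LinM.hess [IsAlgClosed k] : ¬ ρ.Hess := fun H => by
  obtain ⟨c, e⟩ := H.inv3' (A := !![1, 1, 0; 0, -1, 0; 0, 0, -1]) (B := !![-1, 0, 0; 0, -1, 1; 0, 0, 1])
    (h _ (fun i j => by fin_cases i <;> fin_cases j <;> simp) (by (simp only [mul_fin_three, one_fin_three, em3, sm3, mv3, vm3, sv3, ev3, dot3, dm3, trm3, tm3, zv3, adjugate_fin_three_of, map3, map_zero, map_one, map_neg, map_ofNat] <;> grind)))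
    (h _ (fun i j => by fin_cases i <;> fin_cases j <;> simp) (by (simp only [mul_fin_three, one_fin_three, em3, sm3, mv3, vm3, sv3, ev3, dot3, dm3, trm3, tm3, zv3, adjugate_fin_three_of, map3, map_zero, map_one, map_neg, map_ofNat] <;> grind)))
    (by (simp only [mul_fin_three, one_fin_three, em3, sm3, mv3, vm3, sv3, ev3, dot3, dm3, trm3, tm3, zv3, adjugate_fin_three_of, map3, map_zero, map_one, map_neg, map_ofNat] <;> grind)) (fun c => by simp [eq9]) (by (simp only [mul_fin_three, one_fin_three, em3, sm3, mv3, vm3, sv3, ev3, dot3, dm3, trm3, tm3, zv3, adjugate_fin_three_of, map3, map_zero, map_one, map_neg, map_ofNat] <;> grind)) (fun c => by simp [eq9])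
  revert e; (simp only [mul_fin_three, one_fin_three, em3, sm3, mv3, vm3, sv3, ev3, dot3, dm3, trm3, tm3, zv3, adjugate_fin_three_of, map3, map_zero, map_one, map_neg, map_ofNat] <;> grind)

theorem LinM.six [Finite Γ] (h2 : (2 : k) = 0) {H : Subgroup Γ} (h6 : H.index ≤ 6) :
    (ρ.sub H).Irr := by
  have key : ∀ A : Mt k, ρ.In A → A * A * A * A * A * A * A = 1 → (ρ.sub H).In A := fun A ⟨g, hg⟩ e =>
    ⟨⟨g, H.normalCore_le ((core_six h6).1 g (ρ.inj (by simpa [pow_succ, e] using ρ.pow hg 7)))⟩, hg⟩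
  refine irr_of (A := !![0, 0, 1; 1, 0, 1; 0, 1, 0]) (B := !![0, 0, 1; 1, 0, 0; 1, 1, 0])
    (key _ (h _ (fun i j => by fin_cases i <;> fin_cases j <;> simp) (by (simp only [mul_fin_three, one_fin_three, em3, sm3, mv3, vm3, sv3, ev3, dot3, dm3, trm3, tm3, zv3, adjugate_fin_three_of, map3, map_zero, map_one, map_neg, map_ofNat] <;> grind))) (by (simp only [mul_fin_three, one_fin_three, em3, sm3, mv3, vm3, sv3, ev3, dot3, dm3, trm3, tm3, zv3, adjugate_fin_three_of, map3, map_zero, map_one, map_neg, map_ofNat] <;> grind)))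
    (key _ (h _ (fun i j => by fin_cases i <;> fin_cases j <;> simp) (by (simp only [mul_fin_three, one_fin_three, em3, sm3, mv3, vm3, sv3, ev3, dot3, dm3, trm3, tm3, zv3, adjugate_fin_three_of, map3, map_zero, map_one, map_neg, map_ofNat] <;> grind))) (by (simp only [mul_fin_three, one_fin_three, em3, sm3, mv3, vm3, sv3, ev3, dot3, dm3, trm3, tm3, zv3, adjugate_fin_three_of, map3, map_zero, map_one, map_neg, map_ofNat] <;> grind)))
    (fun x y z r s e1 e2 => ?_) fun x y z r s e1 e2 => ?_ <;>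
    simp only [mv3, vm3, sv3, ev3] at e1 e2 <;> grind

variable (p : ℕ) [Fact p.Prime] [CharP k p]
include p

theorem LinM.rat (H : ρ.TW (rat θ) R) {a : k} (ha : a ∈ L) : θ a = a := by
  simpa using H.el2 p (h.el ha (i := 0) (j := 1) (by decide))
    (h.el L.one_mem (i := 1) (j := 0) (by decide))

theorem LinM.rat1 (H : ρ.TW (M3.rat θ) R) : ρ.TW (M3.rat θ) 1 := H.uniq (by simp) fun Y hY => by
  have key : ∀ i j : Fin 3, i ≠ j → Y * (1 + vecMulVec (Pi.single i 1) (Pi.single j 1)) =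
      (1 + vecMulVec (Pi.single i 1) (Pi.single j 1)) * Y := fun i j hij =>
    hY _ (H.el p (h.el L.one_mem hij)) (fx_rat (by
      ext l m; simp [one_apply, vecMulVec_apply, Pi.single_apply, apply_ite θ]))
  have k1 := key 0 1 (by decide)
  have k2 := key 1 2 (by decide)
  have k3 := key 2 0 (by decide)
  obtain ⟨a0, a1, a2, a3, a4, a5, a6, a7, a8, rfl⟩ := ex9 Y
  simp only [show (Pi.single 0 1 : Vc k) = ![1, 0, 0] by simp [eq3],
    show (Pi.single 1 1 : Vc k) = ![0, 1, 0] by simp [eq3],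
    show (Pi.single 2 1 : Vc k) = ![0, 0, 1] by simp [eq3], r13, mul_fin_three, em3] at k1 k2 k3
  clear key hY
  exact ⟨a0, by (simp only [mul_fin_three, one_fin_three, em3, sm3, mv3, vm3, sv3, ev3, dot3, dm3, trm3, tm3, zv3, adjugate_fin_three_of, map3, map_zero, map_one, map_neg, map_ofNat] <;> grind)⟩

theorem LinM.mono : ¬ ρ.Sm Mono := fun H => by
  obtain ⟨B, B', σ, H⟩ := H.mf
  have key : ∀ i j : Fin 3, i ≠ j → ∃ g, ρ.L g (1 + vecMulVec (Pi.single i 1) (Pi.single j 1)) ∧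
      ρ.L g⁻¹ (1 + vecMulVec (-Pi.single i 1) (Pi.single j 1)) := fun i j hij =>
    let ⟨g, hg⟩ := (h.el L.one_mem hij).2
    ⟨g, hg, ρ.inv hg (h.el L.one_mem hij).inv_eq⟩
  obtain ⟨a, a1, a2⟩ := key 0 1 (by decide)
  obtain ⟨b, b1, b2⟩ := key 1 2 (by decide)
  obtain ⟨c, c1, c2⟩ := key 2 0 (by decide)
  have e1 : ρ.L (a * b * a⁻¹ * b⁻¹) !![1, 0, 1; 0, 1, 0; 0, 0, 1] := by
    convert ρ.mul (ρ.mul (ρ.mul a1 b1) a2) b2 using 1
    simp [eq9, mul_apply, Fin.sum_univ_three, vecMulVec_apply]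
  have e2 : ρ.L (c * a * c⁻¹ * a⁻¹) !![1, 0, 0; 0, 1, 0; 0, 1, 1] := by
    convert ρ.mul (ρ.mul (ρ.mul c1 a1) c2) a2 using 1
    simp [eq9, mul_apply, Fin.sum_univ_three, vecMulVec_apply]
  have e3 : a * b * a⁻¹ * b⁻¹ * (c * a * c⁻¹ * a⁻¹) * (a * b * a⁻¹ * b⁻¹)⁻¹ *
      (c * a * c⁻¹ * a⁻¹)⁻¹ = a := ρ.eq_of (by
    convert ρ.mul (ρ.mul (ρ.mul e1 e2) (ρ.inv_adj e1)) (ρ.inv_adj e2) using 1
    simp [eq9, adjugate_fin_three_of, vecMulVec_apply]) a1
  have e4 := H.unip p (g := a) (by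
    rw [← e3]; simpa only [map_mul, map_inv] using s3_d (σ a) (σ b) (σ c) (σ a)) (ρ.inj (by
      simpa [r1_pow (h.el L.one_mem (i := 0) (j := 1) (by decide)).1] using ρ.pow a1 p))
  obtain ⟨r, hr⟩ := (ρ.eq_one_iff a1).1 e4
  simpa [vecMulVec_apply] using congrFun (congrFun hr 0) 1

end Lin

variable (ρ) in
/-- a unitary subgroup -/
def UniM (σ : k →+* k) : Prop := ∀ A : Mt k, A.det = 1 → (A.map σ)ᵀ * A = 1 → ρ.In A

section Uni

variable {σ : k →+* k} (h : ρ.UniM σ)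
include h

theorem UniM.dm {a : k} (ha : σ a * a = 1) : ρ.DM a := by
  have a0 : a ≠ 0 := right_ne_zero_of_mul_eq_one ha
  refine ⟨a0, h _ (by (simp only [mul_fin_three, one_fin_three, em3, sm3, mv3, vm3, sv3, ev3, dot3, dm3, trm3, tm3, zv3, adjugate_fin_three_of, map3, map_zero, map_one, map_neg, map_ofNat] <;> grind)) ?_, h _ (by (simp only [mul_fin_three, one_fin_three, em3, sm3, mv3, vm3, sv3, ev3, dot3, dm3, trm3, tm3, zv3, adjugate_fin_three_of, map3, map_zero, map_one, map_neg, map_ofNat] <;> grind)) (by (simp only [mul_fin_three, one_fin_three, em3, sm3, mv3, vm3, sv3, ev3, dot3, dm3, trm3, tm3, zv3, adjugate_fin_three_of, map3, map_zero, map_one, map_neg, map_ofNat] <;> grind)), h _ (by (simp only [mul_fin_three, one_fin_three, em3, sm3, mv3, vm3, sv3, ev3, dot3, dm3, trm3, tm3, zv3, adjugate_fin_three_of, map3, map_zero, map_one, map_neg, map_ofNat] <;> grind)) (by (simp only [mul_fin_three, one_fin_three, em3, sm3,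 mv3, vm3, sv3, ev3, dot3, dm3, trm3, tm3, zv3, adjugate_fin_three_of, map3, map_zero, map_one, map_neg, map_ofNat] <;> grind))⟩
  simp only [map3, map_inv₀]; (simp only [mul_fin_three, one_fin_three, em3, sm3, mv3, vm3, sv3, ev3, dot3, dm3, trm3, tm3, zv3, adjugate_fin_three_of, map3, map_zero, map_one, map_neg, map_ofNat] <;> grind)

theorem UniM.nmono {x y : k} (x0 : x ≠ 0) (y0 : y ≠ 0) (hx : σ (σ x) = x) (hy : σ (σ y) = y)
    (e : x * σ x + y * σ y = 1) : ¬ ρ.Mono := fun H => by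
  obtain ⟨τ, H⟩ := H _ (h !![x, y, 0; -σ y, σ x, 0; 0, 0, 1] (by (simp only [mul_fin_three, one_fin_three, em3, sm3, mv3, vm3, sv3, ev3, dot3, dm3, trm3, tm3, zv3, adjugate_fin_three_of, map3, map_zero, map_one, map_neg, map_ofNat] <;> grind)) (by simp only [map3, map_neg, hx, hy]; (simp only [mul_fin_three, one_fin_three, em3, sm3, mv3, vm3, sv3, ev3, dot3, dm3, trm3, tm3, zv3, adjugate_fin_three_of, map3, map_zero, map_one, map_neg, map_ofNat] <;> grind)))
  simpa using τ.injective ((H 0 0 x0).symm.trans (H 0 1 y0))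

theorem UniM.nsa {a d : k} (ha : a * σ a = -1) (d0 : d ≠ 0) (hd : σ d = -d) : ¬ ρ.SA := fun H => by
  have h2 : σ (σ a) = a := by
    have := congrArg σ ha
    rw [map_mul, map_neg, map_one] at this
    grind
  have := H.not_el (v := ![d, d * a, 0]) (φ := ![1, σ a, 0]) ⟨by (simp only [mul_fin_three, one_fin_three, em3, sm3, mv3, vm3, sv3, ev3, dot3, dm3, trm3, tm3, zv3, adjugate_fin_three_of, map3, map_zero, map_one, map_neg, map_ofNat] <;> grind), h _ (by rw [det_r1]; (simp only [mul_fin_three, one_fin_three, em3, sm3, mv3, vm3, sv3, ev3, dot3, dm3, trm3, tm3, zv3, adjugate_fin_three_of, map3, map_zero, map_one, map_neg, map_ofNat] <;> grind)) (by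
    simp only [r13, map3, map_add, map_mul, h2, hd]; (simp only [mul_fin_three, one_fin_three, em3, sm3, mv3, vm3, sv3, ev3, dot3, dm3, trm3, tm3, zv3, adjugate_fin_three_of, map3, map_zero, map_one, map_neg, map_ofNat] <;> grind))⟩
  simp [d0] at this

theorem UniM.hem [IsAlgClosed k] (h2 : (2 : k) = 0) (hσ : ∀ a, σ a = a ^ 2) :
    ∃ ω x c, ρ.HeM ω x c := by
  obtain ⟨ω, o⟩ := exists_quad (1 : k) 1 1 one_ne_zero
  obtain ⟨x, hx⟩ := h (dg 1 ω (ω ^ 2)) (by (simp only [mul_fin_three, one_fin_three, em3, sm3, mv3, vm3, sv3, ev3, dot3, dm3, trm3, tm3, zv3, adjugate_fin_three_of, map3, map_zero, map_one, map_neg, map_ofNat] <;> grind)) (by simp only [map3, hσ]; (simp only [mul_fin_three, one_fin_three, em3, sm3, mv3, vm3, sv3, ev3, dot3, dm3, trm3, tm3, zv3, adjugate_fin_three_of, map3, map_zero, map_one, map_neg, map_ofNat] <;> grind))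
  obtain ⟨c, hc⟩ := h (cyc k) (by (simp only [mul_fin_three, one_fin_three, em3, sm3, mv3, vm3, sv3, ev3, dot3, dm3, trm3, tm3, zv3, adjugate_fin_three_of, map3, map_zero, map_one, map_neg, map_ofNat] <;> grind)) (by (simp only [mul_fin_three, one_fin_three, em3, sm3, mv3, vm3, sv3, ev3, dot3, dm3, trm3, tm3, zv3, adjugate_fin_three_of, map3, map_zero, map_one, map_neg, map_ofNat] <;> grind))
  exact ⟨ω, x, c, by grind, by grind, hx, hc, h _ (by (simp only [mul_fin_three, one_fin_three, em3, sm3, mv3, vm3, sv3, ev3, dot3, dm3, trm3, tm3, zv3, adjugate_fin_three_of, map3, map_zero, map_one, map_neg, map_ofNat] <;> grind)) (by simp only [map3, hσ]; (simp only [mul_fin_three, one_fin_three, em3, sm3, mv3, vm3, sv3, ev3, dot3, dm3, trm3, tm3, zv3, adjugate_fin_three_of, map3, map_zero, map_one, map_neg, map_ofNat] <;> grind)),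
    h _ (by (simp only [mul_fin_three, one_fin_three, em3, sm3, mv3, vm3, sv3, ev3, dot3, dm3, trm3, tm3, zv3, adjugate_fin_three_of, map3, map_zero, map_one, map_neg, map_ofNat] <;> grind)) (by simp only [map3, hσ]; (simp only [mul_fin_three, one_fin_three, em3, sm3, mv3, vm3, sv3, ev3, dot3, dm3, trm3, tm3, zv3, adjugate_fin_three_of, map3, map_zero, map_one, map_neg, map_ofNat] <;> grind))⟩

end Uni

end PR

end Cfsg.Agent.H6.M3
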