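import Cfsg.Agent.H6.T5

/-! Arithmetic data of the linear and unitary cases. -/

set_option autoImplicit false

namespace Cfsg.Agent.H6.M3

open Matrix Subgroup

variable {k : Type*} [Field k]

theorem nt1 {p β γ : ℕ} (hp : 1 < p) (h : p ^ β - 1 ∣ p ^ γ - 1) : β ∣ γ := by
  have h1 := Nat.mod_eq_zero_of_dvd h
  rw [Nat.pow_sub_one_mod_pow_sub_one] at h1
  by_contra e
  have := Nat.one_lt_pow (mt Nat.dvd_of_mod_eq_zero e) hp
  omega

theorem nt3 {p a m : ℕ} (hp : 1 < p) (ha : a ≠ 0) (h : p ^ a + 1 ∣ p ^ m - 1) : 2 * a ∣ m := by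
  have h1 : p ^ a + 1 ∣ p ^ (2 * a) - 1 := by
    rw [mul_comm, pow_mul]; exact Dvd.intro _ (Nat.sq_sub_sq _ 1).symm
  have h2 := (Nat.dvd_mod_iff h1).2 h
  rw [Nat.pow_sub_one_mod_pow_sub_one] at h2
  have h3 := Nat.mod_lt m (show 0 < 2 * a by omega)
  by_contra e
  have e := mt Nat.dvd_of_mod_eq_zero e
  generalize m % (2 * a) = r at *
  have h4 := Nat.one_lt_pow e hp
  have h5 := Nat.le_of_dvd (by omega) h2
  obtain ⟨s, rfl⟩ := Nat.exists_eq_add_of_le ((Nat.pow_lt_pow_iff_right hp).1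
    (show p ^ a < p ^ r by omega)).le
  have h6 := (Nat.dvd_add_right h2).1 (show p ^ a + 1 ∣ p ^ (a + s) - 1 + (p ^ s + 1) from
    ⟨p ^ s, by rw [pow_add] at h4 ⊢; rw [add_mul]; omega⟩)
  have h7 := Nat.le_of_dvd (by omega) h6
  have := (Nat.pow_le_pow_iff_right hp).1 (show p ^ a ≤ p ^ s by omega)
  omega

theorem ndvd {N x : ℤ} (h : N ∣ x) (t : ℤ) (h1 : N * t < x) (h2 : x < N * (t + 1)) : False := by
  obtain ⟨c, rfl⟩ := h
  have : 0 < N := by nlinarith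
  have := lt_of_mul_lt_mul_left h1 this.le
  have := lt_of_mul_lt_mul_left h2 (by omega)
  omega

theorem pw_dvd {a : k} {N i j : ℕ} (h : IsPrimitiveRoot a N) (a0 : a ≠ 0) (e : a ^ i = a ^ j) :
    (N : ℤ) ∣ i - j := (h.zpow_eq_one_iff_dvd _).1 (by
  rw [zpow_sub₀ a0, zpow_natCast, zpow_natCast, e, div_self (pow_ne_zero _ a0)])

theorem sq_le_of_dvd {p γ α : ℕ} (hp : 1 < p) (h : γ ∣ α) (h0 : α ≠ 0) (e : γ ≠ α) :
    (p ^ γ) ^ 2 ≤ p ^ α := by
  obtain ⟨c, rfl⟩ := h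
  rw [← pow_mul]
  refine Nat.pow_le_pow_right hp.le (Nat.mul_le_mul_left _ ?_)
  by_contra hc
  rcases (by omega : c = 0 ∨ c = 1) with rfl | rfl <;> simp at h0 e

theorem dvd21 {x : ℕ} (h : x ^ 2 + x + 1 ∣ 3 * 3265920) : x ≤ 2 ∨ x = 4 := by
  have key : ∀ m r, m ∣ x ^ 2 + x + 1 → x % m = r → (r ^ 2 + r + 1) % m = 0 := fun m r e e' => by
    rw [← e', ← Nat.mod_eq_zero_of_dvd e]; simp [Nat.add_mod, Nat.pow_mod]
  have k2 : ¬ 2 ∣ x ^ 2 + x + 1 := fun e => by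
    have := key 2 _ e rfl
    have := Nat.mod_lt x two_pos
    interval_cases x % 2 <;> simp_all
  have k5 : ¬ 5 ∣ x ^ 2 + x + 1 := fun e => by
    have := key 5 _ e rfl
    have := Nat.mod_lt x (show 0 < 5 by norm_num)
    interval_cases x % 5 <;> simp_all
  have k9 : ¬ 3 ^ 2 ∣ x ^ 2 + x + 1 := fun e => by
    have := key 9 _ e rfl
    have := Nat.mod_lt x (show 0 < 9 by norm_num)
    interval_cases x % 9 <;> simp_all
  have h1 : x ^ 2 + x + 1 ∣ 3 ^ 7 * 7 :=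
    (((Nat.prime_two.coprime_iff_not_dvd.2 k2).pow_left 7).mul_left
      (Nat.prime_five.coprime_iff_not_dvd.2 k5)).symm.dvd_of_dvd_mul_left (by simpa using h)
  obtain ⟨u, v, hu, hv, e⟩ := exists_dvd_and_dvd_of_dvd_mul h1
  obtain ⟨i, -, rfl⟩ := (Nat.dvd_prime_pow Nat.prime_three).1 hu
  have hi : i ≤ 1 := by
    by_contra hi
    exact k9 (e ▸ (pow_dvd_pow 3 (by omega)).mul_right v)
  have := Nat.le_of_dvd (by norm_num) hv
  have : 3 ^ i ≤ 3 ^ 1 := Nat.pow_le_pow_right (by norm_num) hi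
  have : x ≤ 4 := by nlinarith
  by_contra hx
  obtain rfl : x = 3 := by omega
  norm_num at h1

variable (p : ℕ) [Fact p.Prime] [CharP k p]

variable (k) in
/-- powers of Frobenius -/
abbrev FB (n : ℕ) : k →+* k := iterateFrobenius k p n

theorem fb_def (n : ℕ) (a : k) : FB k p n a = a ^ p ^ n := iterateFrobenius_def ..

theorem fb_fix {β γ : ℕ} {a : k} (h : FB k p β a = a) (e : β ∣ γ) : FB k p γ a = a := by
  obtain ⟨c, rfl⟩ := e
  rw [iterateFrobenius_mul_apply]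
  exact Function.iterate_fixed h c

theorem fb_two (n : ℕ) : (FB k p n).comp (FB k p n) = FB k p (2 * n) := by
  rw [two_mul]; exact (iterateFrobenius_add k p n n).symm

theorem mem_fix {n : ℕ} {a : k} : a ∈ FF.Fix k p n ↔ FB k p n a = a := Iff.rfl

variable [IsAlgClosed k]

variable (k) in
theorem exists_root {N : ℕ} (h : N.Coprime p) : ∃ a : k, a ≠ 0 ∧ IsPrimitiveRoot a N := by
  have h1 : (N : k) ≠ 0 := fun e => (Fact.out : p.Prime).one_lt.ne'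
    (Nat.Coprime.eq_one_of_dvd h.symm ((CharP.cast_eq_zero_iff k p N).1 e))
  haveI : NeZero (N : k) := ⟨h1⟩
  haveI : NeZero N := ⟨by rintro rfl; simp at h1⟩
  obtain ⟨a, ha⟩ := HasEnoughRootsOfUnity.exists_primitiveRoot k N
  exact ⟨a, ha.ne_zero (NeZero.ne N), ha⟩

variable (k) in
theorem root_sub {α : ℕ} (h : α ≠ 0) :
    ∃ a : k, a ≠ 0 ∧ IsPrimitiveRoot a (p ^ α - 1) ∧ FB k p α a = a := by
  have h1 := Nat.one_le_pow α p (Fact.out : p.Prime).pos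
  obtain ⟨a, a0, ha⟩ := exists_root k p (N := p ^ α - 1) (Nat.Coprime.coprime_dvd_right
    (dvd_pow_self p h) ((Nat.coprime_self_sub_left h1).2 (by simp)))
  exact ⟨a, a0, ha, by rw [fb_def, ← Nat.sub_add_cancel h1, pow_succ, ha.pow_eq_one, one_mul]⟩

variable (k) in
theorem root_add {α : ℕ} (h : α ≠ 0) :
    ∃ a : k, IsPrimitiveRoot a (p ^ α + 1) ∧ FB k p α a * a = 1 := by
  obtain ⟨a, a0, ha⟩ := exists_root k p (N := p ^ α + 1) (Nat.Coprime.coprime_dvd_right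
    (dvd_pow_self p h) (by simp))
  exact ⟨a, ha, by rw [fb_def, ← pow_succ, ha.pow_eq_one]⟩

omit [IsAlgClosed k] in
theorem dvd_sub_of {a : k} {N γ : ℕ} (a0 : a ≠ 0) (ha : IsPrimitiveRoot a N)
    (h : FB k p γ a = a) : N ∣ p ^ γ - 1 := ha.dvd_of_pow_eq_one _ (mul_right_cancel₀ a0 (by
  rw [← pow_succ, Nat.sub_add_cancel (Nat.one_le_pow γ p (Fact.out : p.Prime).pos), ← fb_def, h,
    one_mul]))

theorem dvd_of_fix {β γ : ℕ} (h0 : β ≠ 0) (h : ∀ a : k, FB k p β a = a → FB k p γ a = a) : β ∣ γ :=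
  let ⟨a, a0, h1, h2⟩ := root_sub k p h0
  nt1 (Fact.out : p.Prime).one_lt (dvd_sub_of p a0 h1 (h a h2))

namespace PR

variable {Γ : Type*} [Group Γ] {ρ : PR Γ k} {Φ : Tp k} {R A : Mt k} {θ : k →+* k}

section
omit [IsAlgClosed k]

variable (ρ) in
/-- the full linear group -/
def FullL (α : ℕ) : Prop := ρ.Sm fun τ => τ.LinM (FF.Fix k p α)

variable (ρ) in
/-- the full unitary group -/
def FullU (n : ℕ) : Prop := ρ.Sm fun τ => τ.UniM (FB k p n)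

variable {p} {a : k} {n m : ℕ} (h : ρ.DM a) (ha : IsPrimitiveRoot a (p ^ n + 1)) (hn : n ≠ 0)
include h ha hn

theorem DM.dvd_rat (H : ρ.TW (M3.rat (FB k p m)) R) : 2 * n ∣ m :=
  nt3 (Fact.out : p.Prime).one_lt hn (dvd_sub_of p h.ne ha (h.rat H))

theorem DM.dvd_frm (H : ρ.TW (M3.frm (FB k p m)) R) : n ∣ m :=
  Nat.dvd_of_mul_dvd_mul_left two_pos (nt3 (Fact.out : p.Prime).one_lt hn (dvd_sub_of p h.ne ha (by
    have := h.frm H
    have h1 := congrArg (FB k p m) this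
    rw [map_mul, map_one] at h1
    rw [← fb_two, RingHom.comp_apply]
    grind)))

end

theorem lin_data (h : ρ.Sm fun τ => ∃ F0, τ.Lin F0) : ∃ γ, γ ≠ 0 ∧ (∃ R, ρ.TW (rat (FB k p γ)) R) ∧
    ¬ ρ.Opp ∧ (∀ α R, ρ.TW (rat (FB k p α)) R → γ ∣ α) ∧ ∀ α, α ∣ γ → ρ.FullL p α := by
  obtain ⟨B, B', hB, F0, h⟩ := h
  haveI := h.fin
  obtain ⟨γ, h0, e⟩ := FF.card_eq_pow (F := F0) p
  have hθ : ∀ x, x ∈ F0 ↔ FB k p γ x = x := fun x => by rw [mem_iff_pow, e, fb_def]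
  have hL : (ρ.cj hB).LinM F0 := h.le
  exact ⟨γ, h0, (h.tw fun a => (hθ a).1).of_cj hB, fun H => hL.nopp (H.cj hB), fun α R H =>
    dvd_of_fix p h0 fun a ha => hL.rat p (H.cj hB) ((hθ a).2 ha), fun α hα =>
    ⟨B, B', hB, fun A hA => hL A fun i j => (hθ _).2 (fb_fix p (hA i j) hα)⟩⟩

theorem uni_data {m : ℕ} (h3 : 3 ≤ p ^ m) (h : ρ.Sm fun τ => τ.Uni (FB k p m)) : m ≠ 0 ∧
    (∃ R, ρ.TW (frm (FB k p m)) R) ∧ (∃ R, ρ.TW (rat (FB k p (2 * m))) R) ∧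
    (∀ α R, ρ.TW (rat (FB k p α)) R → 2 * m ∣ α) ∧ (∀ n R, ρ.TW (frm (FB k p n)) R → m ∣ n) ∧
    ρ.FullU p m := by
  obtain ⟨B, B', hB, h⟩ := h
  have h0 : m ≠ 0 := by rintro rfl; simp at h3
  obtain ⟨a, h1, h2⟩ := root_add k p h0
  have hD := UniM.dm h.le h2
  exact ⟨h0, h.tw.1.of_cj hB, fb_two (k := k) p m ▸ h.tw.2.of_cj hB,
    fun α R H => hD.dvd_rat h1 h0 (H.cj hB), fun α R H => hD.dvd_frm h1 h0 (H.cj hB), B, B', hB, h.le⟩

omit [IsAlgClosed k] in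
theorem Hx.even (h2 : p = 2) (h : ρ.Hx p) {α : ℕ} (H : ρ.TW (rat (FB k p α)) R) : 2 ∣ α := by
  obtain ⟨v, φ, v', φ', h1, h3, e⟩ := h.f4
  have := H.el2 p h1 h3
  generalize φ ⬝ᵥ v' * φ' ⬝ᵥ v = w at *
  subst h2
  have h4 := two_eq (k := k)
  have hw : IsPrimitiveRoot w (2 ^ 1 + 1) := by
    haveI : Fact (Nat.Prime 3) := ⟨Nat.prime_three⟩
    have : orderOf w = 3 := orderOf_eq_prime (by grind) (by grind)
    exact (show 2 ^ 1 + 1 = orderOf w from this.symm) ▸ IsPrimitiveRoot.orderOf w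
  exact nt3 (p := 2) (a := 1) one_lt_two one_ne_zero (dvd_sub_of 2 (by grind) hw this)

omit [IsAlgClosed k] in
theorem TW.rat_of {J : Mt k} (h : ρ.TW (frm (RingHom.id k)) J) (h' : ρ.TW (frm θ) J) :
    ρ.TW (rat θ) 1 := ⟨by simp, fun A hA => by
  obtain ⟨c, c0, e⟩ := h.form hA
  obtain ⟨d, -, e'⟩ := h'.form hA
  refine ⟨d / c, transpose_injective (cancel_right h.det (cancel_right hA.det ?_))⟩
  rw [mul_one, one_mul, rat_f, e', transpose_smul, smul_mul_assoc, smul_mul_assoc]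
  erw [e]
  rw [smul_smul, div_mul_cancel₀ _ c0]⟩

omit [IsAlgClosed k] in
include p in
theorem TW.el_frm (h : ρ.TW (frm θ) R) {v φ : Vc k} {a : k} (h1 : v ≠ 0) (h2 : φ ≠ 0)
    (e : ρ.El v φ) (e' : ρ.El (a • v) φ) : θ a = a := by
  have nz : ∀ {v : Vc k}, v ≠ 0 → θ ∘ v ≠ 0 := fun hv e =>
    hv (funext fun j => (map_eq_zero θ).1 (congrFun e j))
  have key : ∀ v, ρ.El v φ →
      vecMulVec (R *ᵥ v) φ + vecMulVec (θ ∘ φ) ((θ ∘ v) ᵥ* R) = 0 := fun v e => by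
    have e1 := (fx_frm (by rw [det_r1, e.1, add_zero])).1 (h.el p e)
    have e2 : ((1 + vecMulVec v φ).map θ)ᵀ = 1 + vecMulVec (θ ∘ φ) (θ ∘ v) := by
      ext i j; simp [one_apply, vecMulVec_apply, eq_comm, mul_comm, apply_ite θ]
    rw [e2] at e1
    have e3 := congrArg (· *ᵥ v) e1
    simp only [← mulVec_mulVec, r1_mulVec, e.1, zero_smul, add_zero, add_eq_left, smul_eq_zero,
      nz h2, or_false, dotProduct_mulVec] at e3
    rw [add_mul, mul_add, mul_one, one_mul, vecMulVec_mul, add_mul, vecMulVec_mul_vecMulVec, e3,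
      mul_vecMulVec, zero_smul, vecMulVec_zero] at e1
    linear_combination (norm := abel1) e1
  have k1 := key v e
  have k2 := key _ e'
  rw [show θ ∘ (a • v) = θ a • θ ∘ v from funext fun j => map_mul θ _ _, smul_vecMul, mulVec_smul,
    smul_vecMulVec, vecMulVec_smul, eq_neg_of_add_eq_zero_left k1, smul_neg, neg_add_eq_zero] at k2
  exact (smul_left_injective k (vecMulVec_ne_zero (nz h2) (vecMul_ne_zero h.det (nz h1))) k2).symm

omit [IsAlgClosed k] in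
theorem TW.irr (h : ρ.TW (frm θ) R) (hθ : Function.Surjective θ) (hp : ρ.NoPt) : ρ.Irr := by
  refine Irr.mk' hp fun φ h0 => ?_
  obtain ⟨R', h1, h2⟩ := exists_inv h.det
  choose w hw using fun i => hθ ((φ ᵥ* R') i)
  have e : (θ ∘ w) ᵥ* R = φ := by
    rw [show θ ∘ w = φ ᵥ* R' from funext hw, vecMul_vecMul, h2, vecMul_one]
  obtain ⟨A, hA, h3⟩ := hp w (by rintro rfl; exact h0 (by rw [← e]; simp))
  refine ⟨A, hA, fun d hd => ?_⟩
  obtain ⟨c, -, e1⟩ := h.form hA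
  have d0 : d ≠ 0 := by rintro rfl; exact vecMul_ne_zero hA.det h0 (hd.trans (zero_smul _ _))
  obtain ⟨r, hr⟩ := hθ (c / d)
  have e2 : (θ ∘ (A *ᵥ w) - θ r • θ ∘ w) ᵥ* (R * A) = 0 := by
    rw [sub_vecMul, ← map_mulVec', ← vecMul_transpose, vecMul_vecMul, ← mul_assoc, e1, vecMul_smul,
      smul_vecMul, ← vecMul_vecMul, e, hd, smul_smul, hr, div_mul_cancel₀ _ d0, sub_self]
  have e3 := sub_eq_zero.1 (by_contra fun e => vecMul_ne_zero (by simp [h.det, hA.det]) e e2)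
  exact h3 r (funext fun j => θ.injective ((congrFun e3 j).trans (map_mul θ _ _).symm))

end PR

end Cfsg.Agent.H6.M3
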