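import Cfsg.Agent.H6.T6

/-! Overgroups of the geometric subgroups, projectively. -/

set_option autoImplicit false

namespace Cfsg.Agent.H6.M3

open Matrix Subgroup

variable {k : Type*} [Field k]

theorem root_ne {a : k} {N j : ℕ} (h : IsPrimitiveRoot a N) (h0 : 0 < j) (h1 : j < N) : a ^ j ≠ 1 :=
  h.pow_ne_one_of_pos_of_lt h0.ne' h1

theorem eq_or_of_prime {β γ r : ℕ} (hr : r.Prime) (h0 : β ≠ 0) (h1 : β ∣ γ) (h2 : γ ∣ β * r) :
    γ = β ∨ γ = β * r := by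
  obtain ⟨c, rfl⟩ := h1
  rcases (Nat.dvd_prime hr).1 (Nat.dvd_of_mul_dvd_mul_left (Nat.pos_of_ne_zero h0) h2) with
    rfl | rfl <;> simp

namespace PR

variable {Γ : Type*} [Group Γ] {ρ : PR Γ k} {Φ : Tp k} {R A : Mt k} {θ : k →+* k}
  {p : ℕ} [Fact p.Prime] [CharP k p] {α n Q N : ℕ} {a : k}

omit [Fact p.Prime] [CharP k p] in
theorem Exc.pow (h : ρ.Exc p Q) (g : Γ) : ∃ n, 0 < n ∧ n ≤ 10 ∧ g ^ n = 1 := by
  rcases h.ord with ⟨-, -, h⟩ | ⟨-, -, -, -, h⟩ <;> rcases h g with h | h | h | h <;>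
    exact ⟨_, by norm_num, by norm_num, h⟩

omit [Fact p.Prime] [CharP k p] in
theorem Exc.om (h : ρ.Exc p Q) {L : Subfield k} (H : ρ.OM L) (ha : a ∈ L) (a0 : a ≠ 0)
    (hN : IsPrimitiveRoot a N) : p = 5 ∧ Q % 3 = 1 ∧ N ≤ 10 ∨
      Q ≠ 3 ∧ Q ≠ 5 ∧ Q ≠ 7 ∧ (N ≤ 5 ∨ N = 7) := by
  obtain ⟨g, hg⟩ := H.d ha a0
  have key : ∀ n, g ^ n = 1 → N ∣ n := fun n e => hN.dvd_of_pow_eq_one _ (by
    obtain ⟨e1, e2⟩ := pow_dg hg e
    rw [← e2, e1, one_pow])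
  rcases h.ord with ⟨h1, h2, -⟩ | ⟨h1, h2, h3, -, h4⟩
  · obtain ⟨n, h3, h4, e⟩ := h.pow g
    exact Or.inl ⟨h1, h2, (Nat.le_of_dvd h3 (key n e)).trans h4⟩
  refine Or.inr ⟨h1, h2, h3, ?_⟩
  rcases h4 g with e | e | e | e <;> have := key _ e
  iterate 3 exact Or.inl ((Nat.le_of_dvd (by norm_num) this).trans (by norm_num))
  rcases (Nat.dvd_prime (by norm_num)).1 this with e | e <;> omega

/-- eigenvalues of a Singer cycle -/
structure SiA (a : k) (N Q : ℕ) : Prop where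
  ne : a ≠ 0
  pr : IsPrimitiveRoot a N
  dvd : N ∣ Q ^ 2 + Q + 1
  big : ¬ (N : ℤ) ∣ 3 * (Q - 1)

variable (ρ) in
/-- a Singer cycle -/
structure SiM (a : k) (N Q : ℕ) : Prop extends SiA a N Q where
  mem : ρ.In (dg a (a ^ Q) (a ^ Q ^ 2))

section Si

omit [Fact p.Prime] [CharP k p] in
theorem SiA.det (h : SiA a N Q) : a * a ^ Q * a ^ Q ^ 2 = 1 := by
  rw [← (h.pr.pow_eq_one_iff_dvd _).2 h.dvd]; ring

theorem SiA.cyc (h : SiA a N (p ^ α)) : FB k p α a = a ^ p ^ α ∧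
    FB k p α (a ^ p ^ α) = a ^ (p ^ α) ^ 2 ∧ FB k p α (a ^ (p ^ α) ^ 2) = a := by
  have e : FB k p α (a ^ p ^ α) = a ^ (p ^ α) ^ 2 := by rw [fb_def, ← pow_mul, ← sq]
  refine ⟨fb_def .., e, ?_⟩
  have h1 := congrArg (FB k p α) h.det
  rw [map_mul, map_mul, e, fb_def, map_one] at h1
  have := h.det
  have := h.ne
  grind

theorem SiA.six (h : SiA a N (p ^ α)) : a ^ 6 ≠ (a ^ p ^ α) ^ 6 ∧ a ^ 6 ≠ (a ^ (p ^ α) ^ 2) ^ 6 ∧
    (a ^ p ^ α) ^ 6 ≠ (a ^ (p ^ α) ^ 2) ^ 6 := by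
  have h1 : a ^ 6 ≠ (a ^ p ^ α) ^ 6 := fun e => h.big (by
    have h2 := pw_dvd h.pr h.ne (e.trans (pow_mul ..).symm).symm
    have h3 : Odd N := Odd.of_dvd_nat (by grind) h.dvd
    refine (Int.isCoprime_two_left.2 (by exact_mod_cast h3)).symm.dvd_of_dvd_mul_left ?_
    exact (show (2 : ℤ) * (3 * ((p ^ α : ℕ) - 1)) = (p ^ α * 6 : ℕ) - (6 : ℕ) by push_cast; ring) ▸ h2)
  obtain ⟨e1, e2, e3⟩ := h.cyc
  have h2 := (FB k p α).injective.ne h1
  rw [map_pow _ _ 6, map_pow _ _ 6, e1, e2] at h2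
  have h3 := (FB k p α).injective.ne h2
  rw [map_pow _ _ 6, map_pow _ _ 6, e2, e3] at h3
  exact ⟨h1, h3.symm, h2⟩

theorem SiM.red (h : ρ.SiM a N (p ^ α)) (H : ρ.TW (rat (FB k p α)) R) (hi : ¬ ρ.Irr) : ρ.Mono := by
  obtain ⟨h1, h2, h3⟩ := h.six
  have key : ∀ {x y : k}, x ^ 6 ≠ y ^ 6 → x ^ 3 ≠ y ^ 3 := fun h e => h (by grind)
  exact si_red h.mem h.det (key h1) (key h2) (key h3) h.cyc.1 h.cyc.2.1 h.cyc.2.2 H hi

theorem SiM.mono (h : ρ.SiM a N (p ^ α)) (H : ρ.Sm Mono) : ρ.Mono :=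
  si_mono h.mem h.six.1 h.six.2.1 h.six.2.2 H

variable (h : ρ.SiM a N Q)
include h

theorem SiM.rat (H : ρ.TW (rat (FB k p n)) R) : (N : ℤ) ∣ 3 * (p ^ n : ℕ) - 3 ∨
    (N : ℤ) ∣ 3 * (p ^ n : ℕ) - 3 * Q ∨ (N : ℤ) ∣ 3 * (p ^ n : ℕ) - 3 * Q ^ 2 := by
  have := si_rat h.mem h.det H
  simp only [fb_def, ← pow_mul] at this
  refine this.imp (fun e => ?_) (Or.imp (fun e => ?_) fun e => ?_) <;>
    convert pw_dvd h.pr h.ne e using 1 <;> push_cast <;> ring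

theorem SiM.frm (H : ρ.TW (frm (FB k p n)) R) : (N : ℤ) ∣ 3 * (p ^ n : ℕ) + 3 ∨
    (N : ℤ) ∣ 3 * (p ^ n : ℕ) + 3 * Q ∨ (N : ℤ) ∣ 3 * (p ^ n : ℕ) + 3 * Q ^ 2 := by
  have := si_frm h.mem h.det H
  simp only [fb_def, ← pow_mul, ← pow_add] at this
  refine this.imp (fun e => ?_) (Or.imp (fun e => ?_) fun e => ?_) <;>
    convert Int.natCast_dvd_natCast.2 (h.pr.dvd_of_pow_eq_one _ e) using 1 <;> push_cast <;> ring

omit [Fact p.Prime] [CharP k p] in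
theorem SiM.exc (H : ρ.Exc p α) : ∃ n, 0 < n ∧ n ≤ 10 ∧ N ∣ 3 * n := by
  obtain ⟨g, hg⟩ := h.mem
  obtain ⟨n, h1, h2, e⟩ := H.pow g
  exact ⟨n, h1, h2, h.pr.dvd_of_pow_eq_one _ (si_ord h.mem h.det fun g' hg' => ρ.eq_of hg hg' ▸ e)⟩

theorem SiM.hess [IsAlgClosed k] (H : ρ.Hess) : N ∣ 3 * 3265920 :=
  let ⟨_, _, h1, h2⟩ := H
  h.pr.dvd_of_pow_eq_one _ (si_ord h.mem h.det fun g _ => h1.exp h2 g)

end Si

variable [IsAlgClosed k]

section SL

variable (H : ρ.TW (rat (FB k p α)) R) (hc : ρ.Irr → ρ.Cl p (p ^ α))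
include H hc

theorem slD (h5 : 5 ≤ p ^ α) (ha : IsPrimitiveRoot a (p ^ α - 1)) (h : ρ.DM a) :
    ρ.Mono ∨ ρ.FullL p α := by
  have hp := (Fact.out : p.Prime).one_lt
  have a3 := root_ne ha three_pos (by omega)
  have hα : α ≠ 0 := by rintro rfl; simp at h5
  rcases hc (h.irr (by rintro rfl; simp at a3)) with
    e | e | e | ⟨m, h3, e⟩ | ⟨-, -, R, e⟩ | e | ⟨h2, e⟩
  · exact Or.inl (h.mono a3 e)
  · exact absurd (h.hess e) a3
  · obtain ⟨γ, -, ⟨R, e1⟩, -, -, e2⟩ := lin_data p e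
    exact Or.inr (e2 α (nt1 hp (dvd_sub_of p h.ne ha (h.rat e1))))
  · obtain ⟨-, ⟨R, e1⟩, -, e2, -⟩ := uni_data p h3 e
    have h1 := Nat.le_of_dvd (by omega) (ha.dvd_of_pow_eq_one (p ^ m + 1)
      (by rw [pow_succ, ← fb_def, h.frm e1]))
    have h2 := Nat.pow_le_pow_right hp.le (Nat.le_of_dvd (by omega) (e2 α _ H))
    rw [mul_comm, pow_mul] at h2
    have : p ^ α ≤ p ^ m + 2 := by omega
    nlinarith
  · exact absurd (by simpa [sq] using h.frm e) (root_ne ha two_pos (by omega))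
  · have h1 := ha.dvd_of_pow_eq_one _ (h.sa e.sa)
    have h2 := Nat.le_of_dvd (by norm_num) h1
    have h7 : p ^ α = 7 := by
      generalize p ^ α = Q at *
      have : Q ≤ 7 := by omega
      interval_cases Q <;> simp_all
    rcases e.ord with ⟨rfl, -⟩ | ⟨-, -, e, -⟩
    · have := h7 ▸ dvd_pow_self 5 hα
      omega
    · exact absurd h7 e
  · obtain ⟨R, e1⟩ := e.tw
    have := Nat.le_of_dvd (by simp [h2]) (dvd_sub_of p h.ne ha (h.rat e1))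
    subst h2
    omega

theorem slS (hα : α ≠ 0) (h4 : p ^ α ≠ 4) (h : ρ.SiM a ((p ^ α) ^ 2 + p ^ α + 1) (p ^ α)) :
    ρ.Mono ∨ ρ.FullL p α := by
  have hp := (Fact.out : p.Prime).one_lt
  have hQ := Nat.one_lt_pow hα hp
  have k1 : ∀ γ R, γ ≠ 0 → ρ.TW (rat (FB k p γ)) R → γ ∣ α → γ = α := fun γ R h0 e h1 => by
    by_contra h2
    have h3 := sq_le_of_dvd hp h1 hα h2
    have h5 := Nat.one_lt_pow h0 hp
    have := h.rat e
    generalize p ^ γ = x at *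
    generalize p ^ α = Q at *
    have h6 : 2 * x ≤ Q := by nlinarith
    have h7 : 5 ≤ Q := by have : 4 ≤ Q := by nlinarith
                          omega
    zify at *
    rcases this with e | e | e
    · exact ndvd e 0 (by nlinarith) (by nlinarith)
    · exact ndvd e (-1) (by nlinarith) (by nlinarith)
    · exact ndvd e (-3) (by nlinarith) (by nlinarith)
  have k2 : ∀ γ R, ρ.TW (frm (FB k p γ)) R → (p ^ γ) ^ 2 ≤ p ^ α → 3 ≤ p ^ α → False :=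
    fun γ R e h3 h5 => by
    have h6 := Nat.one_le_pow γ p (by omega)
    have := h.frm e
    generalize p ^ γ = x at *
    generalize p ^ α = Q at *
    have h7 : 2 * x ≤ Q := by
      by_cases x = 1
      · omega
      · nlinarith [show 2 ≤ x by omega]
    have h8 : 3 * x + 2 * Q < Q ^ 2 + 1 := by
      by_cases Q = 3
      · subst_vars; omega
      · nlinarith [show 4 ≤ Q by omega]
    zify at *
    rcases this with e | e | e
    · exact ndvd e 0 (by nlinarith) (by nlinarith)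
    · exact ndvd e 0 (by nlinarith) (by nlinarith)
    · exact ndvd e 2 (by nlinarith) (by nlinarith)
  have k3 : p ≠ 2 → 3 ≤ p ^ α := fun e => le_trans (by omega) (Nat.le_self_pow hα p)
  by_cases hi : ρ.Irr
  swap
  · exact Or.inl (h.red H hi)
  rcases hc hi with e | e | e | ⟨m, h3, e⟩ | ⟨h2, -, R, e⟩ | e | ⟨h2, e⟩
  · exact Or.inl (h.mono e)
  · have h2 : p ^ α = 2 := by have := dvd21 (h.hess e); omega
    obtain ⟨x, c, ⟨ω, o1, o2⟩, -⟩ := e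
    have := H.pr_rat o2
    rw [fb_def, h2] at this
    exact absurd (mul_left_cancel₀ o2.ne (by rw [← sq, this, mul_one])) o1
  · obtain ⟨γ, h0, ⟨R, e1⟩, -, e2, e3⟩ := lin_data p e
    exact Or.inr (e3 α (k1 γ R h0 e1 (e2 α _ H) ▸ dvd_rfl))
  · obtain ⟨-, ⟨R, e1⟩, -, e2, -⟩ := uni_data p h3 e
    have h2 := Nat.pow_le_pow_right hp.le (Nat.le_of_dvd (by omega) (e2 α _ H))
    rw [mul_comm, pow_mul] at h2
    exact (k2 m R e1 h2 (by nlinarith)).elim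
  · exact (k2 0 R e (by simp; omega) (k3 h2)).elim
  · obtain ⟨n, h1, h2, h3⟩ := h.exc e
    have h5 := k3 e.two
    have h6 := Nat.le_of_dvd (by omega) h3
    have h7 : p ^ α = 3 := by
      have : p ^ α < 5 := by nlinarith
      omega
    rw [h7] at h3
    omega
  · obtain ⟨R, e1⟩ := e.tw
    obtain rfl := k1 2 R two_ne_zero e1 (e.even p h2 H)
    simp [h2] at h4

theorem slSub [Finite Γ] {β r : ℕ} (hr : r.Prime) (h0 : β ≠ 0) (hα : α = β * r)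
    (h : ρ.LinM (FF.Fix k p β)) : ρ.TW (rat (FB k p β)) 1 ∨ ρ.FullL p α := by
  rcases hc h.irr with e | e | e | ⟨m, h3, e⟩ | ⟨-, e, -⟩ | e | ⟨h2, e⟩
  · exact absurd e (h.mono p)
  · exact absurd e h.hess
  · obtain ⟨γ, -, ⟨R, e1⟩, -, e2, e3⟩ := lin_data p e
    rcases eq_or_of_prime hr h0 (dvd_of_fix p h0 fun a ha => h.rat p e1 ha) (hα ▸ e2 α _ H) with
      rfl | e
    · exact Or.inl (h.rat1 p e1)
    · exact Or.inr (e3 α (by rw [e, hα]))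
  · obtain ⟨-, ⟨R, e1⟩, -⟩ := uni_data p h3 e
    exact absurd (e1.opp p) h.nopp
  · exact absurd e h.nsa
  · exact absurd e.sa h.nsa
  · obtain ⟨K, e1, e2⟩ := e.six
    subst h2
    exact absurd (h.six two_eq e1) e2

theorem slO (hα : α ≠ 0) (h2 : p ≠ 2) (hR : R = 1) (h : ρ.OM (FF.Fix k p α)) :
    ρ.TW (frm (RingHom.id k)) (jj k) ∨ ρ.FullL p α := by
  have t := two_ne (k := k) h2
  rcases hc (h.irr t) with e | e | e | ⟨m, h3, e⟩ | ⟨-, -, R, e⟩ | e | ⟨h2', e⟩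
  · exact Or.inl (h.mono3 p t e (fun a ha => ha) (hR ▸ H))
  · exact absurd e (h.hess t)
  · obtain ⟨γ, -, ⟨R, e1⟩, -, -, e3⟩ := lin_data p e
    exact Or.inr (e3 α (dvd_of_fix p hα fun a ha => h.rat p e1 ha))
  · obtain ⟨h0, ⟨R, e1⟩, -, e2, -⟩ := uni_data p h3 e
    have h1 := Nat.le_of_dvd (by omega) (dvd_of_fix p hα fun a ha => h.frm p e1 ha)
    have := Nat.le_of_dvd (by omega) (e2 α _ H)
    omega
  · exact Or.inl (iterateFrobenius_zero k p ▸ h.frm1 p t e)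
  · obtain ⟨a, a0, h3, h4⟩ := root_sub k p hα
    have h5 := (((Fact.out : p.Prime).odd_of_ne_two h2).pow (n := α))
    have h6 := Nat.one_lt_pow hα (Fact.out : p.Prime).one_lt
    rcases e.om h h4 a0 h3 with ⟨rfl, e1, e2⟩ | e
    · have := dvd_pow_self 5 hα
      obtain rfl | hα : α = 1 ∨ 2 ≤ α := by omega
      · omega
      · have := Nat.pow_le_pow_right (n := 5) (by norm_num) hα
        omega
    · grind
  · exact absurd h2' h2

end SL

theorem slHe [Finite Γ] (H : ρ.TW (rat (FB k p 1)) R) (hc : ρ.Irr → ρ.Cl p Q) (h1 : p % 3 = 1)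
    {x c : Γ} (h : ρ.HeM a x c) : (RR x c).Normal ∨ ρ.FullL p 1 := by
  rcases hc h.rp.irr with e | e | e | ⟨m, h3, e⟩ | ⟨-, -, R, e⟩ | e | ⟨h2, e⟩
  · exact absurd e h.mono
  · exact Or.inl (h.hess e)
  · obtain ⟨γ, -, -, -, -, e3⟩ := lin_data p e
    exact Or.inr (e3 1 (one_dvd _))
  · obtain ⟨h0, -, -, e2, -⟩ := uni_data p h3 e
    have := Nat.le_of_dvd one_pos (e2 1 _ H)
    omega
  · have := e.pr_frm h.pr
    have := h.o1
    have := h.o2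
    simp only [iterateFrobenius_zero, RingHom.id_apply] at *
    grind
  · rcases e.ord with ⟨rfl, -⟩ | ⟨-, -, -, e, -⟩
    · omega
    · exact absurd e h.noQ
  · omega

theorem UniM.cl [Finite Γ] {β : ℕ} (h0 : β ≠ 0) (h : ρ.UniM (FB k p β)) (hc : ρ.Irr → ρ.Cl p Q) :
    ∃ a, a ≠ 1 ∧ ρ.DM a ∧ IsPrimitiveRoot a (p ^ β + 1) ∧
      ((∀ Φ, (∀ A, A.det = 1 → (A.map (FB k p β))ᵀ * A = 1 → Fx Φ 1 A) → ρ.TW Φ 1) ∨
      (ρ.Sm fun τ => ∃ F0, τ.Lin F0) ∨ ∃ n, 3 ≤ p ^ n ∧ ρ.Sm fun τ => τ.Uni (FB k p n)) := by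
  have hp := (Fact.out : p.Prime).one_lt
  have hq := Nat.one_lt_pow h0 hp
  obtain ⟨a, ha, h1⟩ := root_add k p h0
  have hD := h.dm h1
  have a1 : a ≠ 1 := by simpa using root_ne ha one_pos (by omega)
  have nsa : ¬ ρ.SA := by
    obtain ⟨x, hx⟩ := IsAlgClosed.exists_pow_nat_eq (-1 : k) (n := p ^ β + 1) (by omega)
    obtain ⟨d, hd⟩ := IsAlgClosed.exists_pow_nat_eq (-1 : k) (n := p ^ β - 1) (by omega)
    refine h.nsa (a := x) (d := d) (by rw [fb_def, ← pow_succ', hx]) ?_ ?_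
    · rintro rfl
      rw [zero_pow (by omega)] at hd
      simp at hd
    · rw [fb_def, ← Nat.sub_add_cancel hq.le, pow_succ, hd, neg_one_mul]
  have k2 : p ^ β = 2 → ∃ ω x c, ρ.HeM ω x c ∧ FB k p β ω = ω ^ 2 := fun e => by
    obtain rfl : p = 2 := (Nat.prime_dvd_prime_iff_eq Fact.out Nat.prime_two).1
      (e ▸ dvd_pow_self p h0)
    have : ∀ a : k, FB k 2 β a = a ^ 2 := fun a => by rw [fb_def, e]
    obtain ⟨ω, x, c, h⟩ := h.hem two_eq this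
    exact ⟨ω, x, c, h, this ω⟩
  have k3 : a ^ 3 = 1 → p ^ β = 2 := fun e => by
    have := Nat.le_of_dvd three_pos (ha.dvd_of_pow_eq_one _ e)
    omega
  refine ⟨a, a1, hD, ha, ?_⟩
  rcases hc (hD.irr a1) with e | e | e | e | ⟨-, e, -⟩ | e | ⟨h2, e⟩
  · by_cases h2 : p ^ β = 2
    · obtain ⟨ω, x, c, h, -⟩ := k2 h2
      exact absurd e h.mono
    obtain ⟨t, t0, h3, h4⟩ := root_sub k p h0
    have t1 : t ≠ 1 := by simpa using root_ne h3 one_pos (by omega)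
    have nm : ∀ t, t ≠ 0 → FB k p β t = t → ∃ x, x ≠ 0 ∧ FB k p β (FB k p β x) = x ∧
        x * FB k p β x = t := fun t t0 ht => by
      obtain ⟨x, hx⟩ := IsAlgClosed.exists_pow_nat_eq t (n := p ^ β + 1) (by omega)
      rw [pow_succ', ← fb_def] at hx
      have h5 := congrArg (FB k p β) hx
      rw [map_mul, ht] at h5
      exact ⟨x, by grind, by grind, hx⟩
    obtain ⟨x, x0, x1, x2⟩ := nm t t0 h4
    obtain ⟨y, y0, y1, y2⟩ := nm (1 - t) (sub_ne_zero.2 t1.symm) (by rw [map_sub, h4, map_one])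
    exact absurd (hD.mono (mt k3 h2) e) (h.nmono x0 y0 x1 y1 (by rw [x2, y2]; ring))
  · obtain ⟨ω, x, c, h, e1⟩ := k2 (k3 (hD.hess e))
    have := h.o2
    have := h.o1
    exact Or.inl fun Φ hΦ => h.tw (h.hess e) (hΦ _ (by (simp only [mul_fin_three, one_fin_three, em3, sm3, mv3, vm3, sv3, ev3, dot3, dm3, trm3, tm3, zv3, adjugate_fin_three_of, map3, map_zero, map_one, map_neg, map_ofNat] <;> grind)) (by simp only [map3, map_pow, e1]; (simp only [mul_fin_three, one_fin_three, em3, sm3, mv3, vm3, sv3, ev3, dot3, dm3, trm3, tm3, zv3, adjugate_fin_three_of, map3, map_zero, map_one, map_neg, map_ofNat] <;> grind)))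
      (hΦ _ (by (simp only [mul_fin_three, one_fin_three, em3, sm3, mv3, vm3, sv3, ev3, dot3, dm3, trm3, tm3, zv3, adjugate_fin_three_of, map3, map_zero, map_one, map_neg, map_ofNat] <;> grind)) (by (simp only [mul_fin_three, one_fin_three, em3, sm3, mv3, vm3, sv3, ev3, dot3, dm3, trm3, tm3, zv3, adjugate_fin_three_of, map3, map_zero, map_one, map_neg, map_ofNat] <;> grind)))
  · exact Or.inr (Or.inl e)
  · exact Or.inr (Or.inr e)
  · exact absurd e nsa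
  · exact absurd e.sa nsa
  · obtain ⟨R, e1⟩ := e.tw
    have := Nat.le_of_dvd (by simp [h2]) (dvd_sub_of p hD.ne ha (hD.rat e1))
    obtain ⟨ω, x, c, h, -⟩ := k2 (by subst h2; omega)
    obtain ⟨K, e1, e2⟩ := e.six
    exact absurd (h.six e1) e2

theorem slU [Finite Γ] {β : ℕ} (h0 : β ≠ 0) (H : ρ.TW (rat (FB k p (2 * β))) R)
    (hc : ρ.Irr → ρ.Cl p Q) (h : ρ.UniM (FB k p β)) :
    ρ.TW (frm (FB k p β)) 1 ∨ ρ.FullL p (2 * β) := by
  obtain ⟨a, a1, hD, ha, e | e | ⟨m, h3, e⟩⟩ := h.cl h0 hc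
  · exact Or.inl (e _ fun A d e => (fx_frm d).2 (by rwa [mul_one]))
  · obtain ⟨γ, -, ⟨R, e1⟩, -, -, e3⟩ := lin_data p e
    exact Or.inr (e3 _ (hD.dvd_rat ha h0 e1))
  · obtain ⟨-, ⟨R, e1⟩, -, e2, -⟩ := uni_data p h3 e
    obtain rfl := Nat.dvd_antisymm (hD.dvd_frm ha h0 e1)
      (Nat.dvd_of_mul_dvd_mul_left two_pos (e2 _ _ H))
    exact Or.inl (hD.frm1 a1 e1)

section SU

theorem Cl.su (H : ρ.TW (frm (FB k p n)) R) (hc : ρ.Cl p Q) : ρ.Sm Mono ∨ ρ.Hess ∨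
    (∃ m R, 3 ≤ p ^ m ∧ m ∣ n ∧ ρ.TW (frm (FB k p m)) R ∧ (n ∣ m → ρ.FullU p n)) ∨
    (p ≠ 2 ∧ ∃ R, ρ.TW (frm (FB k p 0)) R) ∨ ρ.Exc p Q := by
  rcases hc with e | e | e | ⟨m, h3, e⟩ | ⟨h2, -, e⟩ | e | ⟨h2, e⟩
  · exact Or.inl e
  · exact Or.inr (Or.inl e)
  · obtain ⟨γ, -, -, e, -⟩ := lin_data p e
    exact absurd (H.opp p) e
  · obtain ⟨-, ⟨R, e1⟩, -, -, e2, e3⟩ := uni_data p h3 e
    exact Or.inr (Or.inr (Or.inl ⟨m, R, h3, e2 n _ H, e1, fun e =>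
      Nat.dvd_antisymm (e2 n _ H) e ▸ e3⟩))
  · exact Or.inr (Or.inr (Or.inr (Or.inl ⟨h2, e⟩)))
  · exact Or.inr (Or.inr (Or.inr (Or.inr e)))
  · exact absurd (H.opp p) e.nopp

variable (H : ρ.TW (frm (FB k p n)) R) (hc : ρ.Irr → ρ.Cl p Q) (hq : 3 ≤ p ^ n)
include H hc hq

theorem suD (h5 : p ^ n ≠ 5) (ha : IsPrimitiveRoot a (p ^ n + 1)) (h : ρ.DM a) :
    ρ.Mono ∨ ρ.FullU p n := by
  have a3 := root_ne ha three_pos (by omega)
  have hn : n ≠ 0 := by rintro rfl; simp at hq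
  rcases (hc (h.irr (by rintro rfl; simp at a3))).su H with
    e | e | ⟨m, R, -, -, e1, e2⟩ | ⟨-, R, e⟩ | e
  · exact Or.inl (h.mono a3 e)
  · exact absurd (h.hess e) a3
  · exact Or.inr (e2 (h.dvd_frm ha hn e1))
  · exact absurd (by simpa [sq] using h.frm e) (root_ne ha two_pos (by omega))
  · have h1 := ha.dvd_of_pow_eq_one _ (h.sa e.sa)
    have h2 := Nat.le_of_dvd (by norm_num) h1
    generalize p ^ n = Q at *
    have : Q ≤ 5 := by omega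
    interval_cases Q <;> simp_all

theorem suS {R' : Mt k} (H' : ρ.TW (rat (FB k p (2 * n))) R') (h3 : p ^ n ≠ 3) (h5 : p ^ n ≠ 5)
    (h : ρ.SiM a ((p ^ n - 1) ^ 2 + (p ^ n - 1) + 1) (p ^ (2 * n))) : ρ.Mono ∨ ρ.FullU p n := by
  have hp := (Fact.out : p.Prime).one_lt
  have hn : n ≠ 0 := by rintro rfl; simp at hq
  have k2 : ∀ γ R, ρ.TW (frm (FB k p γ)) R → 3 * p ^ γ ≤ p ^ n → False := fun γ R e h6 => by
    have h7 := Nat.one_le_pow γ p (by omega)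
    have := h.frm e
    rw [mul_comm 2, pow_mul] at this
    generalize p ^ γ = x at *
    obtain ⟨q, hq⟩ : ∃ q, p ^ n = q + 1 := ⟨p ^ n - 1, by omega⟩
    simp only [hq, Nat.add_sub_cancel] at *
    have : 3 ≤ q := by omega
    have h8 : 3 * x + 2 * q < q ^ 2 + 1 := by
      by_cases q = 3
      · subst_vars; omega
      · nlinarith [show 4 ≤ q by omega]
    rename' this => h9
    zify at *
    rcases this with e | e | e
    · exact ndvd e 0 (by nlinarith) (by nlinarith)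
    · exact ndvd e 3 (by nlinarith) (by nlinarith)
    · exact ndvd e (3 * (q ^ 2 + 3 * q + 2) - 1) (by nlinarith) (by nlinarith)
  by_cases hi : ρ.Irr
  swap
  · exact Or.inl (h.red H' hi)
  rcases (hc hi).su H with e | e | ⟨m, R, h6, h7, e1, e2⟩ | ⟨-, R, e⟩ | e
  · exact Or.inl (h.mono e)
  · have := dvd21 (h.hess e); omega
  · refine Or.inr (e2 (by_contra fun e => k2 m R e1 ?_))
    have := sq_le_of_dvd hp h7 hn (by rintro rfl; simp at e)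
    nlinarith
  · exact (k2 0 R e (by simpa)).elim
  · obtain ⟨m, h1, h2, h6⟩ := h.exc e
    have h7 := Nat.le_of_dvd (by omega) h6
    have h8 := (((Fact.out : p.Prime).odd_of_ne_two e.two).pow (n := n))
    have : 6 ≤ p ^ n - 1 := by grind
    nlinarith

omit hq in
theorem suSub [Finite Γ] {β r : ℕ} (hr : r.Prime) (h0 : β ≠ 0) (hn : n = β * r)
    (h : ρ.UniM (FB k p β)) : ρ.TW (rat (FB k p (2 * β))) 1 ∨ ρ.FullU p n := by
  obtain ⟨a, a1, hD, ha, e | e | ⟨m, h3, e⟩⟩ := h.cl h0 hc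
  · refine Or.inl (e _ fun A d e => fx_rat ?_)
    have e1 := congrArg (fun X => (X.map (FB k p β))ᵀ) e
    simp only [Matrix.map_mul, transpose_mul, map_one', transpose_one, transpose_map,
      transpose_transpose] at e1
    rw [← fb_two]
    exact cancel_left (det_of_mul e).1 (e1.trans e.symm)
  · obtain ⟨γ, -, -, e, -⟩ := lin_data p e
    exact absurd (H.opp p) e
  · obtain ⟨-, ⟨R, e1⟩, ⟨R', e2⟩, -, e3, e4⟩ := uni_data p h3 e
    rcases eq_or_of_prime hr h0 (hD.dvd_frm ha h0 e1) (hn ▸ e3 n _ H) with rfl | e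
    · exact Or.inl (hD.rat1 a1 e2)
    · exact Or.inr (hn ▸ e ▸ e4)

omit hq in
theorem suO (h2 : p ≠ 2) (h7 : 7 ≤ p ^ n) (h : ρ.OM (FF.Fix k p n)) :
    ρ.TW (rat (FB k p n)) 1 ∨ ρ.FullU p n := by
  have t := two_ne (k := k) h2
  have hn : n ≠ 0 := by rintro rfl; simp at h7
  obtain ⟨a, a0, h3, h4⟩ := root_sub k p hn
  rcases (hc (h.irr t)).su H with e | e | ⟨m, R, -, -, e1, e2⟩ | ⟨-, R, e⟩ | e
  · have := h.mono p t e h4
    exact absurd (by grind) (root_ne h3 two_pos (by omega))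
  · exact absurd e (h.hess t)
  · exact Or.inr (e2 (dvd_of_fix p hn fun a ha => h.frm p e1 ha))
  · exact Or.inl (TW.rat_of (iterateFrobenius_zero k p ▸ h.frm1 p t e) (h.frm1 p t H))
  · have h5 := (((Fact.out : p.Prime).odd_of_ne_two h2).pow (n := n))
    rcases e.om h h4 a0 h3 with ⟨rfl, e1, e2⟩ | e
    · obtain rfl | hα : n = 1 ∨ 2 ≤ n := by omega
      · omega
      · have := Nat.pow_le_pow_right (n := 5) (by norm_num) hα
        omega
    · grind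

end SU

theorem suHe [Finite Γ] (H : ρ.TW (frm (FB k p 1)) R) (hc : ρ.Irr → ρ.Cl p Q) (h1 : p ≠ 5)
    {x c : Γ} (h : ρ.HeM a x c) : (RR x c).Normal ∨ ρ.FullU p 1 := by
  rcases (hc h.rp.irr).su H with e | e | ⟨m, R, -, -, e1, e2⟩ | ⟨-, R, e⟩ | e
  · exact absurd e h.mono
  · exact Or.inl (h.hess e)
  · exact Or.inr (e2 (one_dvd _))
  · have := e.pr_frm h.pr
    have := h.o1
    have := h.o2
    simp only [iterateFrobenius_zero, RingHom.id_apply] at *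
    grind
  · rcases e.ord with ⟨e, -⟩ | ⟨-, -, -, e, -⟩
    · exact absurd e h1
    · exact absurd e h.noQ

theorem suRed [Finite Γ] (H : ρ.TW (frm (FB k p n)) R) (hq : 3 ≤ p ^ n) {v φ : Vc k} (h1 : v ≠ 0)
    (h2 : φ ≠ 0) (h : ∀ a, FB k p n a = a → ρ.El (a • v) φ) (hi : ρ.NoPt) : ρ.FullU p n := by
  have hn : n ≠ 0 := by rintro rfl; simp at hq
  have e := h 1 (map_one _)
  rw [one_smul] at e
  obtain ⟨a, a0, h3, h4⟩ := root_sub k p hn
  obtain ⟨m, h5, h6⟩ := uni_of_opp p (H.irr (fun x => IsAlgClosed.exists_pow_nat_eq x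
    (Nat.pos_of_ne_zero (by have := (Fact.out : p.Prime).pos; positivity))) hi) (H.opp p)
    ⟨v, φ, h1, h2, e⟩ fun hs => (hs v φ a h1 h2 e (h a h4)).elim a0
      (by simpa using root_ne h3 one_pos (by omega))
  obtain ⟨-, ⟨R, e1⟩, -, -, e2, e3⟩ := uni_data p h5 h6
  exact Nat.dvd_antisymm (e2 n _ H) (dvd_of_fix p hn fun a ha => e1.el_frm p h1 h2 e (h a ha)) ▸ e3

end PR

end Cfsg.Agent.H6.M3
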