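import Cfsg.Agent.H6.T7
import Cfsg.Agent.H5.SLThree
import Cfsg.Agent.H5.SUSinger

/-! From projective representations to maximal subgroups. -/

set_option autoImplicit false

namespace Cfsg.Agent.H6.M3

open Matrix Subgroup Cfsg.Geo Cfsg.Agent.Asch PR
open scoped MatrixGroups

variable {k : Type*} [Field k] {F : Type*} [Field F] (ι : F →+* k)

theorem uni_rat {θ : k →+* k} {A : Mt k} (e : (A.map θ)ᵀ * A = 1) : A.map (θ.comp θ) = A := by
  have e1 := congrArg (fun X => (X.map θ)ᵀ) e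
  simp only [Matrix.map_mul, transpose_mul, map_one', transpose_one, transpose_map,
    transpose_transpose] at e1
  exact cancel_left (det_of_mul e).1 (e1.trans e.symm)

theorem fr_inv (P : GL (Fin 3) F) : P.1.map ι * (P⁻¹).1.map ι = 1 := by
  rw [← Matrix.map_mul, Units.mul_inv, map_one']

/-- the projective representation over the large field -/
abbrev rho (K : Subgroup (GL (Fin 3) F)) := (quo K).up ι

/-- the representation in a rational frame -/
abbrev fr (K : Subgroup (GL (Fin 3) F)) (P : GL (Fin 3) F) := (rho ι K).cj (fr_inv ι P)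

variable {ι} {K M X : Subgroup (GL (Fin 3) F)} {P y : GL (Fin 3) F} {A : Mt k}

theorem fr_L (h : P * y * P⁻¹ ∈ K) : (fr ι K P).L (⟨_, h⟩ : K) (y.1.map ι) := by
  rw [cj_L, ← Matrix.map_mul, ← Matrix.map_mul]
  exact up_of (quo_L ⟨_, h⟩)

theorem fr_in (h : P * y * P⁻¹ ∈ K) : (fr ι K P).In (y.1.map ι) := ⟨_, fr_L h⟩

theorem fr_le (h : ∀ y : GL (Fin 3) F, (fr ι K P).In (y.1.map ι) → P * y * P⁻¹ ∈ M) : K ≤ M :=
  fun x hx => by simpa [mul_assoc] using h (P⁻¹ * x * P) (fr_in (by simpa [mul_assoc]))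

theorem mem_sl : y ∈ specialLinear (Fin 3) F ↔ y.1.det = 1 := Units.ext_iff

theorem det_conj : (P * y * P⁻¹).1.det = y.1.det := det_units_conj P y.1

theorem max_of (hM : ¬ X ≤ M) (h : ∀ K, M ⊓ X ≤ K → K ≤ X → K ≤ M ∨ X ≤ K) :
    IsMaximalIn X (M ⊓ X) :=
  ⟨inf_lt_right.2 hM, fun K h1 h2 => (h K h1 h2).imp
    (fun e => le_antisymm (le_inf e h2) h1) (le_antisymm h2)⟩

theorem mon_map {σ : Equiv.Perm (Fin 3)} {y : Mt F} (h : Mon (y.map ι) σ) : Mon y σ :=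
  fun i j e => h i j ((map_ne_zero ι).2 e)

theorem dec_frame {D : Fin 3 → Submodule F (Vc F)} (hD : IsMDecomposition 1 D) {b : Fin 3 → Vc F}
    (hb : ∀ i, b i ∈ D i) (h0 : ∀ i, b i ≠ 0) : ∃ P : GL (Fin 3) F, P.1 = (of b)ᵀ ∧
      ∀ (y : GL (Fin 3) F) σ, Mon (y.1.map ι) σ → P * y * P⁻¹ ∈ decompositionStabilizer D := by
  have h1 := (linearIndependent_cols_iff_isUnit (A := (of b)ᵀ)).1 (hD.indep.linearIndependent _ hb h0)
  have h2 : ∀ i, D i = F ∙ b i := fun i => (Submodule.eq_of_le_of_finrank_eq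
    ((Submodule.span_singleton_le_iff_mem _ _).2 (hb i))
    (by rw [finrank_span_singleton (h0 i), hD.finrank_eq])).symm
  refine ⟨h1.unit, rfl, fun y σ h => ⟨σ, fun i => ?_⟩⟩
  have h := mon_map h
  have n0 : y.1 (σ i) i ≠ 0 := fun e => y.det_ne_zero
    (det_eq_zero_of_column_eq_zero i fun j => by_contra fun h' => h' (h j i h' ▸ e))
  have e : ∀ i, b i = h1.unit.1 *ᵥ Pi.single i 1 := fun i => by ext j; simp
  rw [h2, h2, Submodule.map_span, Set.image_singleton, toLin'_apply,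
    ← Submodule.span_singleton_smul_eq n0.isUnit (b (σ i)), e, e, mulVec_mulVec, ← Units.val_mul,
    inv_mul_cancel_right, Units.val_mul, ← mulVec_mulVec, ← mulVec_smul]
  congr 3
  ext j
  by_cases hj : j = σ i
  · simp [hj]
  · simpa [hj] using not_not.1 (mt (h j i) hj)

theorem sub_mem {F₀ : Subfield F} {c : F} (hc : c ≠ 0) (h : ∀ i j, c⁻¹ * y.1 i j ∈ F₀) :
    P * y * P⁻¹ ∈ subfieldSubgroup F₀ P :=
  H5.SL.mem_subfieldSubgroup_of_entries hc (by
    rwa [show cj P⁻¹ (P * y * P⁻¹).1 = y.1 from congrArg Units.val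
      (show P⁻¹ * (P * y * P⁻¹) * P⁻¹⁻¹ = y by group)])

theorem sim_mem {σ : F ≃+* F} {G J : Mt F} (hP : P.1ᵀ * G * P.1.map σ = J) {c : F}
    (h : y.1ᵀ * J * y.1.map σ = c • J) (hJ : J.det ≠ 0) : P * y * P⁻¹ ∈ similarityGroup (gf σ G) := by
  have c0 : c ≠ 0 := by
    rintro rfl
    have := congrArg Matrix.det h
    erw [det_mul, det_map (σ : F →+* F)] at this
    simp [hJ, y.det_ne_zero] at this
  refine (trGL_mem_similarityGroup (Equiv.refl _) P (g := y)).2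
    (mem_similarityGroup_gf.2 ⟨Units.mk0 c c0, ?_⟩)
  rwa [show pbG σ (Equiv.refl _) P G = J from hP]

variable (p : ℕ) [Fact p.Prime] [CharP F p] [CharP k p] {α n : ℕ}

theorem map_fb (n : ℕ) (y : Mt F) : (y.map ι).map (FB k p n) = (y.map (FB F p n)).map ι := by
  ext i j; exact (frob_map p n _).symm

theorem su_map (h : (y.1.map (FB F p n))ᵀ * y.1 = 1) :
    ((y.1.map ι).map (FB k p n))ᵀ * y.1.map ι = 1 := by
  rw [map_fb, ← transpose_map, ← Matrix.map_mul, h, map_one']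

theorem rho_frm (hK : K ≤ GU 3 F (p ^ n) ⊓ specialLinear (Fin 3) F) :
    (rho ι K).TW (frm (FB k p n)) 1 := TW.of_form (by simp) fun g => by
  obtain ⟨x, rfl⟩ := QuotientGroup.mk_surjective g
  exact ⟨_, 1, up_of (quo_L x), by rw [mul_one, su_map p ((mem_su p n _).1 (hK x.2)).2, one_smul]⟩

theorem conj_su {J : Mt F} (hP : (P.1.map (FB F p n))ᵀ * P.1 = J) (d : y.1.det = 1)
    (h : ((y.1.map ι).map (FB k p n))ᵀ * J.map ι * y.1.map ι = J.map ι) :
    P * y * P⁻¹ ∈ GU 3 F (p ^ n) ⊓ specialLinear (Fin 3) F := by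
  rw [map_fb, ← transpose_map, ← Matrix.map_mul, ← Matrix.map_mul] at h
  have h := map_inj ι h
  refine (mem_su p n _).2 ⟨det_conj.trans d, ?_⟩
  have e : ((P⁻¹).1.map (FB F p n))ᵀ * (P.1.map (FB F p n))ᵀ = 1 := by
    rw [← transpose_mul, fr_inv, transpose_one]
  calc _ = ((P⁻¹).1.map (FB F p n))ᵀ * ((y.1.map (FB F p n))ᵀ * ((P.1.map (FB F p n))ᵀ * P.1) * y.1) *
      (P⁻¹).1 := by simp only [Units.val_mul, Matrix.map_mul, transpose_mul, mul_assoc]
    _ = 1 := by rw [hP, h, ← hP, ← mul_assoc, e, one_mul, Units.mul_inv]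

variable [Finite F]

omit [CharP F p] in
theorem mem_sub {F₀ : Subfield F} {β : ℕ} (h : Nat.card F₀ = p ^ β) {a : F} :
    a ∈ F₀ ↔ FB k p β (ι a) = ι a := by
  rw [mem_iff_pow, h, fb_def, ← map_pow, ι.injective.eq_iff]

omit [CharP F p] in
theorem sub_of_tw {F₀ : Subfield F} {β : ℕ} (h : Nat.card F₀ = p ^ β)
    (H : (fr ι K P).TW (rat (FB k p β)) 1) : K ≤ subfieldSubgroup F₀ P := fr_le fun y hy => by
  obtain ⟨η, e⟩ := H.ex _ hy
  obtain ⟨i, j, h0⟩ : ∃ i j, y.1 i j ≠ 0 := by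
    by_contra hc
    push Not at hc
    exact y.ne_zero (Matrix.ext hc)
  have e1 := fun i j => congrFun (congrFun e i) j
  simp only [mul_one, one_mul, rat_f, map_apply, Matrix.smul_apply, smul_eq_mul] at e1
  refine sub_mem h0 fun l m => (mem_sub (ι := ι) p h).2 ?_
  have h1 := (map_ne_zero ι).2 h0
  have h2 := (map_ne_zero (FB k p β)).2 h1
  rw [map_mul, map_inv₀, map_mul, map_inv₀, e1 l, e1 i] at *
  grind

variable (hF : Nat.card F = p ^ α)
include hF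

omit [CharP F p] in
theorem fix_map (a : F) : FB k p α (ι a) = ι a :=
  (mem_sub p (F₀ := ⊤) (FF.card_top.trans hF)).1 trivial

omit [CharP F p] in
theorem map_fix (y : Mt F) : (y.map ι).map (FB k p α) = y.map ι := by
  ext i j; exact fix_map p hF _

omit [CharP F p] in
theorem exists_pre {a : k} (h : FB k p α a = a) : ∃ b, ι b = a := by
  haveI : Finite ι.fieldRange := Finite.Set.finite_range ι
  exact (mem_iff_pow (L := ι.fieldRange)).2 (by
    rw [← Nat.card_congr ι.rangeRestrictFieldEquiv.toEquiv, hF, ← fb_def, h])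

omit [CharP F p] in
theorem descend (h : A.map (FB k p α) = A) (d : A.det = 1) :
    ∃ y : GL (Fin 3) F, y.1.map ι = A ∧ y.1.det = 1 := by
  choose f hf using fun i j => exists_pre (ι := ι) p hF (congrFun (congrFun h i) j)
  have e : (of f).map ι = A := Matrix.ext hf
  have d' : (of f).det = 1 := ι.injective (by rw [← det_map, e, d, map_one])
  exact ⟨.mkOfDetNeZero _ (d'.trans_ne one_ne_zero), e, d'⟩

omit [CharP F p] in
theorem rho_rat : (rho ι K).TW (rat (FB k p α)) 1 := TW.of_lift (by simp) fun g => by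
  obtain ⟨x, rfl⟩ := QuotientGroup.mk_surjective g
  exact ⟨_, 1, up_of (quo_L x), by rw [rat_f, map_fix p hF]; simp⟩

omit [CharP F p] in
theorem fr_rat : (fr ι K P).TW (rat (FB k p α)) 1 := by
  have := (rho_rat (ι := ι) (K := K) p hF).cj (fr_inv ι P)
  rwa [rat_f, map_fix p hF, mul_one, mul_eq_one_comm.1 (fr_inv ι P)] at this

omit [CharP F p] in
theorem in_sl (hK : M ⊓ specialLinear (Fin 3) F ≤ K) (d : A.det = 1) (h : A.map (FB k p α) = A)
    (hM : ∀ y : GL (Fin 3) F, y.1.map ι = A → P * y * P⁻¹ ∈ M) : (fr ι K P).In A := by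
  obtain ⟨y, rfl, d'⟩ := descend (ι := ι) p hF h d
  exact fr_in (hK ⟨hM y rfl, mem_sl.2 (det_conj.trans d')⟩)

theorem in_su (hK : M ⊓ (GU 3 F (p ^ n) ⊓ specialLinear (Fin 3) F) ≤ K) {J : Mt F}
    (hP : (P.1.map (FB F p n))ᵀ * P.1 = J) (d : A.det = 1) (h : A.map (FB k p α) = A)
    (h' : (A.map (FB k p n))ᵀ * J.map ι * A = J.map ι)
    (hM : ∀ y : GL (Fin 3) F, y.1.map ι = A → P * y * P⁻¹ ∈ M) : (fr ι K P).In A := by
  obtain ⟨y, rfl, d'⟩ := descend (ι := ι) p hF h d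
  exact fr_in (hK ⟨hM y rfl, conj_su p hP d' h'⟩)

theorem in_su1 (hα : α = 2 * n) (hK : M ⊓ (GU 3 F (p ^ n) ⊓ specialLinear (Fin 3) F) ≤ K)
    (hP : (P.1.map (FB F p n))ᵀ * P.1 = 1) (d : A.det = 1) (h : (A.map (FB k p n))ᵀ * A = 1)
    (hM : ∀ y : GL (Fin 3) F, y.1.map ι = A → P * y * P⁻¹ ∈ M) : (fr ι K P).In A :=
  in_su p hF hK hP d (by rw [hα, ← fb_two, uni_rat h]) (by rw [map_one', mul_one, h]) hM

variable [IsAlgClosed k]

theorem rho_cl (hK : K ≤ specialLinear (Fin 3) F) {B B' : Mt k} (hB : B * B' = 1)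
    (h : ((rho ι K).cj hB).Irr) : ((rho ι K).cj hB).Cl p (p ^ α) :=
  hF ▸ (classify p (quo_cov fun _ hx => mem_sl.1 (hK hx)).slr ι (h.of_cj hB)).cj p hB

omit [CharP F p] [IsAlgClosed k] in
theorem max_sl (hM : ¬ specialLinear (Fin 3) F ≤ M) (h : ∀ K, M ⊓ specialLinear (Fin 3) F ≤ K →
    K ≤ specialLinear (Fin 3) F → K ≤ M ∨ (rho ι K).FullL p α) :
    IsMaximalIn (specialLinear (Fin 3) F) (M ⊓ specialLinear (Fin 3) F) := by
  refine max_of hM fun K h1 h2 => (h K h1 h2).imp_right fun ⟨B, B', hB, e⟩ => ?_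
  refine (quo_cov fun x hx => mem_sl.1 (h2 hx)).le_of (ι := ι) h2 (fun x => mem_sl.1)
    (fun c hc _ => ?_) ⟨.mkOfDetNeZero (cyc F) (by simp [dm3]), mem_sl.2 (by simp [dm3]), rfl⟩
    fun y hy => e _ (fun i j => fix_map p hF _) (by rw [det_map, mem_sl.1 hy, map_one])
  have : (dg 1 c (c ^ 2)).det = 1 := by rw [dm3]; linear_combination hc
  exact ⟨.mkOfDetNeZero _ (this.trans_ne one_ne_zero), mem_sl.2 this, rfl⟩

omit hF [IsAlgClosed k] in
theorem max_su (hM : ¬ GU 3 F (p ^ n) ⊓ specialLinear (Fin 3) F ≤ M)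
    (h : ∀ K, M ⊓ (GU 3 F (p ^ n) ⊓ specialLinear (Fin 3) F) ≤ K →
      K ≤ GU 3 F (p ^ n) ⊓ specialLinear (Fin 3) F → K ≤ M ∨ (rho ι K).FullU p n) :
    IsMaximalIn (GU 3 F (p ^ n) ⊓ specialLinear (Fin 3) F)
      (M ⊓ (GU 3 F (p ^ n) ⊓ specialLinear (Fin 3) F)) := by
  refine max_of hM fun K h1 h2 => (h K h1 h2).imp_right fun ⟨B, B', hB, e⟩ => ?_
  refine (quo_cov fun x hx => mem_sl.1 (h2 hx).2).le_of (ι := ι) h2 (fun x hx => mem_sl.1 hx.2)
    (fun c hc ⟨x, hx, e⟩ => ?_) ⟨.mkOfDetNeZero (cyc F) (by simp [dm3]), (mem_su p n _).2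
      ⟨by simp [dm3], by simp [eq9, mul_apply, Fin.sum_univ_three]⟩, rfl⟩
    fun y hy => e _ (by rw [det_map, mem_sl.1 hy.2, map_one]) (su_map p ((mem_su p n _).1 hy).2)
  have : (dg 1 c (c ^ 2)).det = 1 := by rw [dm3]; linear_combination hc
  have h1 := congrFun (congrFun ((mem_su p n x).1 hx).2 0) 0
  simp [e, mul_apply, Fin.sum_univ_three] at h1
  refine ⟨.mkOfDetNeZero _ (this.trans_ne one_ne_zero), (mem_su p n _).2 ⟨this, ?_⟩, rfl⟩
  simp [eq9, mul_apply, Fin.sum_univ_three, h1, ← mul_pow]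

end Cfsg.Agent.H6.M3
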