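import Cfsg.Agent.H6.T8

/-! Maximality of imprimitive, subfield and classical subgroups in dimension three. -/

set_option autoImplicit false

namespace Cfsg.Agent.H6.M3

open Matrix Subgroup Cfsg.Geo Cfsg.Agent.Asch PR
open scoped MatrixGroups

variable {k : Type*} [Field k] {F : Type*} [Field F] {ι : F →+* k}
  {K M X : Subgroup (GL (Fin 3) F)} {P y : GL (Fin 3) F} {A : Mt k}

theorem dm_of {Γ : Type*} [Group Γ] {ρ : PR Γ k} {a : k} (a0 : a ≠ 0) {S : Mt k → Prop}
    (h : ∀ A σ, Mon A σ → A.det = 1 → S A → ρ.In A) (h1 : S (dg a a⁻¹ 1)) (h2 : S (cyc k))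
    (h3 : S !![0, -1, 0; -1, 0, 0; 0, 0, -1]) : ρ.DM a :=
  ⟨a0, h _ _ (mon_dg _ _ _) (by (simp only [mul_fin_three, one_fin_three, em3, sm3, mv3, vm3, sv3, ev3, dot3, dm3, trm3, tm3, zv3, adjugate_fin_three_of, map3, map_zero, map_one, map_neg, map_ofNat] <;> grind)) h1,
    h _ (finRotate 3) (fun i j => by fin_cases i <;> fin_cases j <;> simp) (by (simp only [mul_fin_three, one_fin_three, em3, sm3, mv3, vm3, sv3, ev3, dot3, dm3, trm3, tm3, zv3, adjugate_fin_three_of, map3, map_zero, map_one, map_neg, map_ofNat] <;> grind)) h2,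
    h _ (Equiv.swap 0 1) (fun i j => by fin_cases i <;> fin_cases j <;> simp <;> decide) (by (simp only [mul_fin_three, one_fin_three, em3, sm3, mv3, vm3, sv3, ev3, dot3, dm3, trm3, tm3, zv3, adjugate_fin_three_of, map3, map_zero, map_one, map_neg, map_ofNat] <;> grind)) h3⟩

theorem sim_of {σ : F ≃+* F} {θ : k →+* k} (hθ : ∀ a, ι (σ a) = θ (ι a)) {G J : Mt F} {d : F}
    (hP : P.1ᵀ * G * P.1.map σ = d • J) (d0 : d ≠ 0) (hJ : Jᵀ = J) (hJ' : J.det ≠ 0) {c : k}
    (h : ((y.1.map ι).map θ)ᵀ * J.map ι * y.1.map ι = c • J.map ι) :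
    P * y * P⁻¹ ∈ similarityGroup (gf σ G) := by
  rw [show (y.1.map ι).map θ = (y.1.map σ).map ι from Matrix.ext fun i j => (hθ _).symm,
    ← transpose_map, ← Matrix.map_mul, ← Matrix.map_mul] at h
  obtain ⟨c, -, e⟩ := exists_scal ι (ne_zero_of_det hJ') h
  refine sim_mem hP (c := c) ?_ (by simp [d0, hJ'])
  have := congrArg transpose e
  rw [transpose_mul, transpose_mul, transpose_transpose, transpose_smul, hJ, ← mul_assoc] at this
  rw [mul_smul_comm, smul_mul_assoc, this, smul_comm]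

theorem sub_eq (F₀ : Subfield F) (P : GL (Fin 3) F) (B : GL (Fin 3) F₀) :
    subfieldSubgroup F₀ (P * GeneralLinearGroup.map F₀.subtype B) = subfieldSubgroup F₀ P := by
  ext g
  rw [subfieldSubgroup, subfieldSubgroup, mem_map_equiv, mem_map_equiv, MulAut.conj_symm_apply,
    MulAut.conj_symm_apply, _root_.mul_inv_rev, ← mul_assoc, mul_assoc _ P⁻¹, mul_assoc _ _ P]
  have := mem_sup_left (T := scalars (Fin 3) F) (MonoidHom.mem_range.2 ⟨B, rfl⟩ :
    GeneralLinearGroup.map F₀.subtype B ∈ _)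
  exact (mul_mem_cancel_right this).trans (mul_mem_cancel_left (inv_mem this))

theorem jj_map : (jj F).map ι = jj k := by simp [eq9, map_ofNat]

theorem su_eq [Fintype F] {q : ℕ} (hF : Fintype.card F = q ^ 2) :
    GU 3 F q ⊓ specialLinear (Fin 3) F = H5.SU.SUG (qInv hF) 1 := H5.SU.SUn_eq hF

variable (k) (p : ℕ) [Fact p.Prime] [CharP F p] [CharP k p] [IsAlgClosed k] [Fintype F] (ι) {α n : ℕ}

section SL

variable (hF : Nat.card F = p ^ α)
include hF ι

omit [IsAlgClosed k] [CharP F p] [CharP k p] [Fact p.Prime] ι in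
theorem exp_ne : α ≠ 0 := by
  rintro rfl
  exact Finite.one_lt_card.ne' hF

theorem sl_dec (h5 : 5 ≤ p ^ α) {D : Fin 3 → Submodule F (Vc F)} (hD : IsMDecomposition 1 D) :
    IsMaximalIn (specialLinear (Fin 3) F) (decompositionStabilizer D ⊓ specialLinear (Fin 3) F) := by
  choose b hb h0 using fun i => Submodule.exists_mem_ne_zero_of_ne_bot (H5.SU.ne_bot_of_decomp hD i)
  obtain ⟨P, -, hP⟩ := dec_frame (ι := ι) hD hb h0
  obtain ⟨a, a0, ha, e⟩ := root_sub k p (exp_ne p hF)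
  refine max_sl (ι := ι) p hF (H5.SL.not_le_decompositionStabilizer hD) fun K h1 h2 =>
    (slD (fr_rat (P := P) p hF) (rho_cl p hF h2 _) h5 ha (dm_of a0
      (S := fun A => A.map (FB k p α) = A) (fun A σ hA d h => in_sl p hF h1 d h
        fun y e => hP y σ (e ▸ hA)) ?_ ?_ ?_)).imp
      (fun e => fr_le fun y hy => (e _ hy).elim (hP y)) (Sm.of_cj _) <;>
    simp [map3, e]

theorem sl_sub {F₀ : Subfield F} {r : ℕ} (hr : r.Prime) (h : Nat.card F = Nat.card F₀ ^ r)
    (P : GL (Fin 3) F) :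
    IsMaximalIn (specialLinear (Fin 3) F) (subfieldSubgroup F₀ P ⊓ specialLinear (Fin 3) F) := by
  obtain ⟨β, h0, hβ⟩ := FF.card_eq_pow (F := F₀) p
  have hα : α = β * r := Nat.pow_right_injective (Fact.out : p.Prime).two_le
    (by simp only [← hF, h, hβ, pow_mul])
  exact max_sl (ι := ι) p hF (H5.SL.not_le_subfieldSubgroup (by simp) (FF.ne_top_of_card hr h) P)
    fun K h1 h2 => (slSub (fr_rat (P := P) p hF) (rho_cl p hF h2 _) hr h0 hα fun A hA d =>
      in_sl p hF h1 d (Matrix.ext fun i j => fb_fix p (hA i j) ⟨r, hα⟩) fun y e =>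
        sub_mem one_ne_zero fun i j => by
          subst e; simpa using (mem_sub p hβ).2 (hA i j)).imp (sub_of_tw p hβ) (Sm.of_cj _)

theorem sl_quad (h2 : p ≠ 2) {Q : Vc F → F} (hQ : IsNondegenerateQuadraticForm Q) :
    IsMaximalIn (specialLinear (Fin 3) F) (quadSimilarityGroup Q ⊓ specialLinear (Fin 3) F) := by
  have t := two_ne (k := F) h2
  have hs := sesq_of_bilinear hQ.polar_bilinear
  obtain ⟨B, d, hB, d0, e⟩ := exists_conic t (G := gramMatrix (QuadraticMap.polar Q))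
    (Matrix.ext fun i j => QuadraticMap.polar_comm ..)
    ((isUnit_iff_isUnit_det _).1 (hs.isUnit_gram hQ.nondegenerate)).ne_zero
  have key : ∀ (y : GL (Fin 3) F) (c : k), ((y.1.map ι).map (RingHom.id k))ᵀ * jj k * y.1.map ι =
      c • jj k → .mkOfDetNeZero B hB * y * (.mkOfDetNeZero B hB)⁻¹ ∈ quadSimilarityGroup Q :=
    fun y c h => by
    obtain ⟨c, hc⟩ := hs.eq_gf ▸ sim_of (ι := ι) (P := .mkOfDetNeZero B hB) (σ := .refl F)
      (fun _ => rfl) e d0 (by (simp only [mul_fin_three, one_fin_three, em3, sm3, mv3, vm3, sv3, ev3, dot3, dm3, trm3, tm3, zv3, adjugate_fin_three_of, map3, map_zero, map_one, map_neg, map_ofNat] <;> grind)) (by (simp only [mul_fin_three, one_fin_three, em3, sm3, mv3, vm3, sv3, ev3, dot3, dm3, trm3, tm3, zv3, adjugate_fin_three_of, map3, map_zero, map_one, map_neg, map_ofNat] <;> grind)) (jj_map (ι := ι) ▸ h)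
    refine ⟨c, fun x => mul_left_cancel₀ t ?_⟩
    have h := hc x x
    simp only [← hs.eq_gf, QuadraticMap.polar, ← two_smul F, hQ.smul] at h
    linear_combination h
  exact max_sl (ι := ι) p hF (H5.SL.not_le_quad (by simp) hQ) fun K h1 h2' =>
    (slO (fr_rat p hF) (rho_cl p hF h2' _) (exp_ne p hF) h2 rfl fun A hA d h =>
      in_sl p hF h1 d (Matrix.ext hA) fun y e => key y 1 (by rw [e, one_smul]; exact h)).imp
      (fun e => fr_le fun y hy => let ⟨c, _, h⟩ := e.form hy; key y c h) (Sm.of_cj _)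

omit hF in
include p in
theorem sl_uni {σ : F ≃+* F} {f : Vc F → Vc F → F} (hf : IsUnitaryForm σ f) :
    IsMaximalIn (specialLinear (Fin 3) F) (similarityGroup f ⊓ specialLinear (Fin 3) F) := by
  have hs := sesq_of_unitary hf
  obtain ⟨P, hP⟩ := Herm.exists_pbG_one (G := gramMatrix f) ⟨hf.involutive,
    hs.isUnit_gram hf.nondegenerate, Matrix.ext fun i j => by
      simpa [gramMatrix] using (hf.herm _ _).symm, Or.inl rfl⟩ hf.ne_refl (Equiv.refl _)
  have h1 := card_eq_card_fixSub_sq hf.involutive hf.ne_refl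
  obtain ⟨β, h0, hβ⟩ := FF.card_eq_pow (F := fixSub σ) p
  have hF : Nat.card F = p ^ (2 * β) := by
    rw [Nat.card_eq_fintype_card, h1, hβ, ← pow_mul, mul_comm]
  have key : ∀ (y : GL (Fin 3) F) (c : k), ((y.1.map ι).map (FB k p β))ᵀ * 1 * y.1.map ι =
      c • 1 → P * y * P⁻¹ ∈ similarityGroup f := fun y c h =>
    hs.eq_gf ▸ sim_of (ι := ι) (d := 1) (J := 1) (fun a => by
      rw [invol_eq_pow hf.involutive hf.ne_refl h1, hβ, fb_def, map_pow])
      (hP.trans (one_smul _ _).symm) one_ne_zero (by simp) (by simp) (map_one' ι ▸ h)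
  exact max_sl (ι := ι) p hF (H5.SL.not_le_unitary (by simp) hf) fun K h1 h2 =>
    (slU h0 (fr_rat p hF) (rho_cl p hF h2 _) fun A d h =>
      in_sl p hF h1 d (fb_two (k := k) p β ▸ uni_rat h) fun y e => key y 1 (by
        rw [e, mul_one, one_smul, h])).imp
      (fun e => fr_le fun y hy => let ⟨c, _, h⟩ := e.form hy; key y c h) (Sm.of_cj _)

end SL

section SU

variable (hF : Fintype.card F = (p ^ n) ^ 2)
include hF

omit [IsAlgClosed k] [CharP F p] [CharP k p] [Fact p.Prime] in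
theorem card_su : Nat.card F = p ^ (2 * n) := by
  rw [Nat.card_eq_fintype_card, hF, ← pow_mul, mul_comm]

omit [IsAlgClosed k] [CharP k p] in
theorem map_q (y : Mt F) : y.map (qInv hF) = y.map (FB F p n) :=
  Matrix.ext fun _ _ => (qInv_apply hF _).trans (fb_def ..).symm

omit [IsAlgClosed k] [CharP k p] in
theorem gram_su {B J : Mt F} (h : Bᵀ * 1 * B.map (qInv hF) = J) (hJ : Jᵀ = J) :
    (B.map (FB F p n))ᵀ * B = J := by
  rw [← hJ, ← h, mul_one, transpose_mul, map_q, transpose_transpose]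

include ι

theorem su_dec (hq : 3 ≤ p ^ n) (h5 : p ^ n ≠ 5) {D : Fin 3 → Submodule F (Vc F)}
    (hD : IsNondegenerateMDecomposition (hermForm 3 F (p ^ n)) 1 D) :
    IsMaximalIn (GU 3 F (p ^ n) ⊓ specialLinear (Fin 3) F)
      (decompositionStabilizer D ⊓ (GU 3 F (p ^ n) ⊓ specialLinear (Fin 3) F)) := by
  obtain ⟨b, hb, h0⟩ := H5.SU.exists_on_decomp (herm_one hF) (qInv_ne hF) (hermForm_eq hF 3 ▸ hD)
  obtain ⟨P, e0, hP⟩ := dec_frame (ι := ι) hD.decomp (fun i => hb i 0) fun i => h0.ne_zero _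
  have hP' := gram_su p hF (B := P.1) (J := 1) (Matrix.ext fun i j => by
    simpa [e0, gf, mul_apply, dotProduct, one_apply] using h0 (i, 0) (j, 0)) transpose_one
  obtain ⟨a, ha, e⟩ := root_add k p (α := n) (by rintro rfl; simp at hq)
  have a0 : a ≠ 0 := right_ne_zero_of_mul_eq_one e
  have hF' := card_su p hF
  refine max_su (ι := ι) p (su_eq hF ▸ H5.SU.not_le_decompositionStabilizer (herm_one hF)
    (qInv_ne hF) hD.decomp (Or.inr (by nlinarith))) fun K h1 h2 =>
    (suD ((rho_frm p h2).cj _) (rho_cl p hF' (h2.trans inf_le_right) _) hq h5 ha (dm_of a0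
      (S := fun A => (A.map (FB k p n))ᵀ * A = 1) (fun A σ hA d h => in_su1 p hF' rfl h1 hP' d h
        fun y e => hP y σ (e ▸ hA)) ?_ (by (simp only [mul_fin_three, one_fin_three, em3, sm3, mv3, vm3, sv3, ev3, dot3, dm3, trm3, tm3, zv3, adjugate_fin_three_of, map3, map_zero, map_one, map_neg, map_ofNat] <;> grind)) (by (simp only [mul_fin_three, one_fin_three, em3, sm3, mv3, vm3, sv3, ev3, dot3, dm3, trm3, tm3, zv3, adjugate_fin_three_of, map3, map_zero, map_one, map_neg, map_ofNat] <;> grind)))).imp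
      (fun e => fr_le fun y hy => (e _ hy).elim (hP y)) (Sm.of_cj _)
  simp only [map3, map_inv₀]; (simp only [mul_fin_three, one_fin_three, em3, sm3, mv3, vm3, sv3, ev3, dot3, dm3, trm3, tm3, zv3, adjugate_fin_three_of, map3, map_zero, map_one, map_neg, map_ofNat] <;> grind)

omit ι [IsAlgClosed k] [CharP k p] in
theorem sub_gram {F₀ : Subfield F} (hP : IsFormRationalStructure (hermForm 3 F (p ^ n)) F₀ 1 P) :
    ∃ G : Mt F₀, G.det ≠ 0 ∧ (∀ i j, qInv hF (G j i) = G i j) ∧ ∀ B : GL (Fin 3) F₀,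
      (P * GeneralLinearGroup.map F₀.subtype B).1ᵀ * 1 *
        (P * GeneralLinearGroup.map F₀.subtype B).1.map (qInv hF) =
      (B.1.map F₀.subtype)ᵀ * G.map F₀.subtype * (B.1.map F₀.subtype).map (qInv hF) := by
  have H := (herm_one hF (ι := Fin 3)).pbG (Equiv.refl _) P
  have h : ∀ i j, pbG (qInv hF) (Equiv.refl _) P 1 i j ∈ F₀ := fun i j => by
    rw [pbG_apply, ← hermForm_eq hF, ← one_mul (hermForm ..)]
    exact hP _ _ (fun l => by simp [Pi.single_apply, apply_ite (· ∈ F₀)])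
      fun l => by simp [Pi.single_apply, apply_ite (· ∈ F₀)]
  refine ⟨of fun i j => ⟨_, h i j⟩, fun e => H.det_ne_zero ?_, fun i j => by
    simpa using congrFun (congrFun H.star i) j, fun B => ?_⟩
  · exact (det_map F₀.subtype _).trans (by rw [e, map_zero])
  · change _ = _ * (P.1ᵀ * 1 * P.1.map (qInv hF)) * _
    simp only [Units.val_mul, transpose_mul, map_mul_equiv, mul_assoc]
    rfl

theorem su_sub {F₀ : Subfield F} {r : ℕ} (hr : r.Prime) (ho : Odd r)
    (h : Fintype.card F = Nat.card F₀ ^ r) (P : GL (Fin 3) F)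
    (hP : IsFormRationalStructure (hermForm 3 F (p ^ n)) F₀ 1 P) :
    IsMaximalIn (GU 3 F (p ^ n) ⊓ specialLinear (Fin 3) F)
      (subfieldSubgroup F₀ P ⊓ (GU 3 F (p ^ n) ⊓ specialLinear (Fin 3) F)) := by
  obtain ⟨G, h1, h2, h3⟩ := sub_gram p hF hP
  let τ : F₀ →+* F₀ := (qInv hF : F →+* F).restrict F₀ F₀ fun _ => map_mem_subfield _
  have hτ : Function.Involutive τ := fun a => Subtype.ext (qInv_qInv hF a)
  obtain ⟨B, hB⟩ := Herm.exists_pbG_one (σ := .ofBijective τ hτ.bijective) (G := G) ⟨hτ,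
    (isUnit_iff_isUnit_det _).2 h1.isUnit, Matrix.ext fun i j => Subtype.ext ((h2 i j).trans (by simp)),
    Or.inl rfl⟩ (fun e => by
      obtain ⟨a, ha, e'⟩ := exists_ne_of_odd_index (qInv_qInv hF) (qInv_ne hF) ho h
      exact e' (show (τ ⟨a, ha⟩ : F) = a from congrArg Subtype.val (DFunLike.congr_fun e ⟨a, ha⟩))) (Equiv.refl _)
  have hP' := gram_su p hF (J := 1) ((h3 B).trans (by
    rw [← map_one' F₀.subtype, ← hB]
    change _ = (B.1ᵀ * G * B.1.map τ).map F₀.subtype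
    rw [Matrix.map_mul, Matrix.map_mul]; rfl)) transpose_one
  have hF' := card_su p hF
  obtain ⟨γ, h0, hγ⟩ := FF.card_eq_pow (F := F₀) p
  have h4 : 2 * n = γ * r := Nat.pow_right_injective (Fact.out : p.Prime).two_le
    (by simp only [← hF', Nat.card_eq_fintype_card, h, hγ, pow_mul])
  obtain ⟨β, rfl⟩ : 2 ∣ γ := (Nat.coprime_two_left.2 ho).dvd_of_dvd_mul_right ⟨n, h4.symm⟩
  have h5 : n = β * r := by nlinarith
  rw [← sub_eq F₀ P B]
  refine max_su (ι := ι) p (su_eq hF ▸ H5.SU.not_le_subfieldSubgroup (herm_one hF)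
    (qInv_ne hF) (by simp) (H5.SL.ne_top_of_card hr h) _) fun K h1 h2 =>
    (suSub ((rho_frm p h2).cj _) (rho_cl p hF' (h2.trans inf_le_right) _) hr (by omega) h5
      fun A d e => ?_).imp (sub_of_tw p hγ) (Sm.of_cj _)
  have e1 := fun i j => congrFun (congrFun (fb_two (k := k) p β ▸ uni_rat e) i) j
  refine in_su1 p hF' rfl h1 hP' d ?_ fun y e => sub_mem one_ne_zero fun i j => by
    subst e; simpa using (mem_sub p hγ).2 (e1 i j)
  obtain ⟨s, rfl⟩ := ho
  rw [← e]
  congr 2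
  ext i j
  rw [map_apply, map_apply, h5, show β * (2 * s + 1) = β + 2 * β * s by ring,
    iterateFrobenius_add_apply]
  exact congrArg _ (fb_fix p (e1 i j) (dvd_mul_right _ _))

theorem su_orth (h2 : p ≠ 2) (h7 : 7 ≤ p ^ n) {F₀ : Subfield F}
    (h : Fintype.card F = Nat.card F₀ ^ 2) (P : GL (Fin 3) F)
    (hP : IsFormRationalStructure (hermForm 3 F (p ^ n)) F₀ 1 P) :
    IsMaximalIn (GU 3 F (p ^ n) ⊓ specialLinear (Fin 3) F)
      (subfieldSubgroup F₀ P ⊓ (GU 3 F (p ^ n) ⊓ specialLinear (Fin 3) F)) := by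
  obtain ⟨G, h1, h3, h4⟩ := sub_gram p hF hP
  have hγ : Nat.card F₀ = p ^ n := Nat.pow_left_injective two_ne_zero (h.symm.trans hF)
  have fx : ∀ a : F₀, qInv hF a = a := fun a => by
    rw [qInv_apply, ← hγ]; exact mem_iff_pow.1 a.2
  obtain ⟨B, d, hB, d0, e⟩ := exists_conic (two_ne (k := F₀) h2) (G := G)
    (Matrix.ext fun i j => Subtype.ext ((fx _).symm.trans (h3 i j))) h1
  have hP' := gram_su p hF (J := (d : F) • jj F) ((h4 (.mkOfDetNeZero B hB)).trans (by
    rw [← jj_map (ι := F₀.subtype), ← F₀.coe_subtype, ← map_smul', ← e, Matrix.map_mul,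
      Matrix.map_mul]
    congr 1
    exact Matrix.ext fun i j => fx _)) (by (simp only [mul_fin_three, one_fin_three, em3, sm3, mv3, vm3, sv3, ev3, dot3, dm3, trm3, tm3, zv3, adjugate_fin_three_of, map3, map_zero, map_one, map_neg, map_ofNat] <;> grind))
  have hF' := card_su p hF
  rw [← sub_eq F₀ P (.mkOfDetNeZero B hB)]
  refine max_su (ι := ι) p (su_eq hF ▸ H5.SU.not_le_subfieldSubgroup (herm_one hF)
    (qInv_ne hF) (by simp) (H5.SL.ne_top_of_card Nat.prime_two h) _) fun K h1 h3 =>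
    (suO ((rho_frm p h3).cj _) (rho_cl p hF' (h3.trans inf_le_right) _) h2 h7
      fun A hA d e => ?_).imp (sub_of_tw p hγ) (Sm.of_cj _)
  refine in_su p hF' h1 hP' d (Matrix.ext fun i j => fb_fix p (hA i j) (dvd_mul_left _ _)) ?_
    fun y e => sub_mem one_ne_zero fun i j => by subst e; simpa using (mem_sub p hγ).2 (hA i j)
  rw [show A.map (FB k p n) = A from Matrix.ext hA, map_smul', jj_map, mul_smul_comm,
    smul_mul_assoc, e]

end SU

end Cfsg.Agent.H6.M3
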