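import Cfsg.Agent.H6.Wreath

/-! Stabilizers of uniform partitions in alternating groups. -/

set_option autoImplicit false

namespace Cfsg.Agent.H6.Wreath

open Equiv MulAction
open scoped Pointwise

variable {Ω ι : Type*} [Fintype Ω] [DecidableEq Ω]

theorem exists_free_pair [Finite ι] {f : Ω → ι} {a : ℕ}
    (hf : ∀ i, Nat.card {x : Ω // f x = i} = a) (ha : 2 ≤ a) (hb : 2 ≤ Nat.card ι)
    (hab : 3 ≤ a ∨ 3 ≤ Nat.card ι) (x y : Ω) :
    ∃ u v, u ≠ v ∧ f u = f v ∧ u ≠ x ∧ u ≠ y ∧ v ≠ x ∧ v ≠ y := by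
  classical
  have aux : ∀ i, i ≠ f x → i ≠ f y →
      ∃ u v, u ≠ v ∧ f u = f v ∧ u ≠ x ∧ u ≠ y ∧ v ≠ x ∧ v ≠ y := by
    intro i h1 h2
    obtain ⟨u, v, huv, hu, hv⟩ := exists_two hf ha i
    refine ⟨u, v, huv, hu.trans hv.symm, ?_, ?_, ?_, ?_⟩ <;> rintro rfl
    exacts [h1 hu.symm, h2 hu.symm, h1 hv.symm, h2 hv.symm]
  by_cases hxy : f x = f y
  · have : Nontrivial ι := Finite.one_lt_card_iff_nontrivial.1 hb
    obtain ⟨i, hi⟩ := exists_ne (f x)
    exact aux i hi (hxy ▸ hi)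
  rcases hab with h | h
  · obtain ⟨u, v, huv, hu, hv, h1, h2⟩ := exists_two_ne hf h x
    refine ⟨u, v, huv, h1.trans h2.symm, hu, ?_, hv, ?_⟩ <;> rintro rfl
    exacts [hxy h1.symm, hxy h2.symm]
  · have := Fintype.ofFinite ι
    rw [Nat.card_eq_fintype_card] at h
    obtain ⟨i, j, k, h1, h2, h3⟩ := Fintype.two_lt_card_iff.1 h
    by_cases hi : i ≠ f x ∧ i ≠ f y
    · exact aux i hi.1 hi.2
    by_cases hj : j ≠ f x ∧ j ≠ f y
    · exact aux j hj.1 hj.2
    refine aux k ?_ ?_ <;> grind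

theorem exists_even [Finite ι] {f : Ω → ι} {a : ℕ}
    (hf : ∀ i, Nat.card {x : Ω // f x = i} = a) (ha : 2 ≤ a) (hb : 2 ≤ Nat.card ι)
    (hab : 3 ≤ a ∨ 3 ≤ Nat.card ι) (x y : Ω) {w : Perm Ω} (hw : w ∈ partStab f) :
    ∃ w' ∈ partStab f ⊓ alternatingGroup Ω, w' x = w x ∧ w' y = w y := by
  rcases Int.units_eq_one_or (Perm.sign w) with h | h
  · exact ⟨w, ⟨hw, h⟩, rfl, rfl⟩
  · obtain ⟨u, v, huv, h1, h2, h3, h4, h5⟩ := exists_free_pair hf ha hb hab x y
    refine ⟨w * swap u v, ⟨mul_mem hw (swap_mem h1), ?_⟩, ?_, ?_⟩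
    · show Perm.sign _ = 1
      rw [map_mul, h, Perm.sign_swap huv]; simp
    · rw [Perm.mul_apply, swap_apply_of_ne_of_ne h2.symm h4.symm]
    · rw [Perm.mul_apply, swap_apply_of_ne_of_ne h3.symm h5.symm]

theorem isPreprimitive_of_not_le [Finite ι] {f : Ω → ι} {a : ℕ}
    (hf : ∀ i, Nat.card {x : Ω // f x = i} = a) (ha : 2 ≤ a) (hb : 2 ≤ Nat.card ι)
    (hab : 3 ≤ a ∨ 3 ≤ Nat.card ι) {G : Subgroup (Perm Ω)}
    (hG : partStab f ⊓ alternatingGroup Ω ≤ G) (hG' : ¬ G ≤ partStab f) :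
    IsPreprimitive G Ω := by
  have : Nontrivial ι := Finite.one_lt_card_iff_nontrivial.1 hb
  have hother : ∀ x : Ω, ∃ y, f x ≠ f y := by
    intro x
    obtain ⟨i, hi⟩ := exists_ne (f x)
    obtain ⟨u, _, _, hu, _⟩ := exists_two hf ha i
    exact ⟨u, by rw [hu]; exact hi.symm⟩
  have h2 : ∀ x y x' y', f x ≠ f y → f x' ≠ f y' → ∃ g : G, g • x = x' ∧ g • y = y' := by
    intro x y x' y' h h'
    obtain ⟨w, hw, h1, h2⟩ := exists_map_two hf h h'
    obtain ⟨w', hw', h3, h4⟩ := exists_even hf ha hb hab x y hw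
    exact ⟨⟨w', hG hw'⟩, h3.trans h1, h4.trans h2⟩
  have h3 : ∀ x y z, f y = f z → y ≠ x → z ≠ x → ∃ g : G, g • x = x ∧ g • y = z := by
    intro x y z h hy hz
    obtain ⟨w', hw', h3, h4⟩ := exists_even hf ha hb hab x y (swap_mem h)
    exact ⟨⟨w', hG hw'⟩, h3.trans (swap_apply_of_ne_of_ne hy.symm hz.symm),
      h4.trans (swap_apply_left _ _)⟩
  have htr : IsPretransitive G Ω := by
    refine ⟨fun x x' => ?_⟩
    obtain ⟨y, hy⟩ := hother x
    obtain ⟨y', hy'⟩ := hother x'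
    obtain ⟨g, hg, _⟩ := h2 x y x' y' hy hy'
    exact ⟨g, hg⟩
  refine ⟨fun {B} hB => ?_⟩
  by_contra hnt
  rw [IsTrivialBlock, not_or] at hnt
  obtain ⟨hns, hnu⟩ := hnt
  have hmove : ∀ (g : G) (B' : Set Ω), IsBlock G B' → ∀ x ∈ B', g • x ∈ B' → ∀ y ∈ B',
      g • y ∈ B' := by
    intro g B' hB' x hx hx' y hy
    have := isBlock_iff_smul_eq_of_mem.1 hB' hx hx'
    rw [← this]
    exact Set.smul_mem_smul_set hy
  have hin : ∀ x ∈ B, ∀ y ∈ B, f x = f y := by
    intro x hx y hy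
    by_contra hne
    apply hnu
    rw [Set.eq_univ_iff_forall]
    intro z
    by_cases hz : f x = f z
    · obtain ⟨g, e1, e2⟩ := h2 y x y z (Ne.symm hne) (fun h => hne (hz.trans h.symm))
      rw [← e2]
      exact hmove g B hB y hy (by rwa [e1]) x hx
    · obtain ⟨g, e1, e2⟩ := h2 x y x z hne hz
      rw [← e2]
      exact hmove g B hB x hx (by rwa [e1]) y hy
  obtain ⟨x, hx, y, hy, hxy⟩ := Set.not_subsingleton_iff.1 hns
  have hBeq : ∀ z, z ∈ B ↔ f z = f x := by
    intro z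
    refine ⟨fun hz => hin z hz x hx, fun hz => ?_⟩
    by_cases hzx : z = x
    · rwa [hzx]
    obtain ⟨g, e1, e2⟩ := h3 x y z ((hin y hy x hx).trans hz.symm) hxy.symm hzx
    rw [← e2]
    exact hmove g B hB x hx (by rwa [e1]) y hy
  apply hG'
  have aux : ∀ g : G, ∀ u v, f u = f v → f (g • u) = f (g • v) := by
    intro g u v huv
    have tr : ∀ t, ∃ h : G, (h : Perm Ω) ∈ partStab f ∧ h • t = x := by
      intro t
      obtain ⟨y, hy⟩ := hother t
      obtain ⟨y', hy'⟩ := hother x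
      obtain ⟨w, hw, h1, _⟩ := exists_map_two hf hy hy'
      obtain ⟨w', hw', h3, _⟩ := exists_even hf ha hb hab t t hw
      exact ⟨⟨w', hG hw'⟩, hw'.1, h3.trans h1⟩
    obtain ⟨h, hh, e1⟩ := tr u
    obtain ⟨k, hk, e2⟩ := tr (g • u)
    have m1 : h • v ∈ B := by
      rw [hBeq, ← e1]
      exact ((hh u v).1 huv).symm
    have m2 : (k * g * h⁻¹) • x ∈ B := by
      rw [← e1, mul_smul, inv_smul_smul, mul_smul, e2]; exact hx
    have m3 := hmove (k * g * h⁻¹) B hB x hx m2 _ m1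
    rw [mul_smul, inv_smul_smul, mul_smul, hBeq, ← e2] at m3
    exact ((hk _ _).2 m3).symm
  intro g hg u v
  refine ⟨aux ⟨g, hg⟩ u v, fun h => ?_⟩
  have := aux (⟨g, hg⟩ : G)⁻¹ _ _ h
  simpa [Subgroup.smul_def] using this

theorem exists_partner {f : Ω → ι} (hf : ∀ i, Nat.card {x : Ω // f x = i} = 2) :
    ∃ m : Ω → Ω, (∀ x, m x ≠ x) ∧ (∀ x, f (m x) = f x) ∧ ∀ x y, f y = f x → y = x ∨ y = m x := by
  have : ∀ x, ∃ y, y ≠ x ∧ f y = f x ∧ ∀ z, f z = f x → z = x ∨ z = y := by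
    intro x
    obtain ⟨y, hy, hy'⟩ := (Nat.card_eq_two_iff' (⟨x, rfl⟩ : {z : Ω // f z = f x})).1 (hf (f x))
    refine ⟨y.1, fun h => hy (Subtype.ext h), y.2, fun z hz => ?_⟩
    by_cases h : z = x
    · exact Or.inl h
    · exact Or.inr (congrArg Subtype.val (hy' ⟨z, hz⟩ fun h' => h (congrArg Subtype.val h')))
  choose m h1 h2 h3 using this
  exact ⟨m, h1, h2, h3⟩

theorem exists_threeCycle_two [Finite ι] {f : Ω → ι}
    (hf : ∀ i, Nat.card {x : Ω // f x = i} = 2) (hb : 3 ≤ Nat.card ι) (hb4 : Nat.card ι ≠ 4)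
    {G : Subgroup (Perm Ω)}
    (hG : partStab f ⊓ alternatingGroup Ω ≤ G) (hG' : ¬ G ≤ partStab f) :
    ∃ g ∈ G, g.IsThreeCycle := by
  classical
  obtain ⟨m, m1, m2, m3⟩ := exists_partner hf
  have mm : ∀ x, m (m x) = x := fun x =>
    ((m3 (m x) x (m2 x).symm).resolve_left (m1 x).symm).symm
  have hlab : ∀ l : List ι, l.length < Nat.card ι → ∃ x, f x ∉ l := by
    intro l hl
    have := Fintype.ofFinite ι
    obtain ⟨i, hi⟩ : ∃ i, i ∉ l := by
      by_contra hc
      push Not at hc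
      have h1 : l.toFinset = Finset.univ := by
        ext x; simp [hc x]
      have h2 := l.toFinset_card_le
      rw [h1, Finset.card_univ, ← Nat.card_eq_fintype_card] at h2
      omega
    obtain ⟨u, _, _, hu, _⟩ := exists_two hf le_rfl i
    exact ⟨u, hu ▸ hi⟩
  obtain ⟨g, hg, p, hp⟩ : ∃ g ∈ G, ∃ p, f (g p) ≠ f (g (m p)) := by
    by_contra hc
    push Not at hc
    apply hG'
    have aux : ∀ g ∈ G, ∀ u v, f u = f v → f (g u) = f (g v) := by
      intro g hg u v h
      rcases m3 v u h with rfl | rfl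
      · rfl
      · exact (hc g hg v).symm
    intro g hg u v
    refine ⟨aux g hg u v, fun h => ?_⟩
    simpa using aux g⁻¹ (inv_mem hg) _ _ h
  have s1 : ∀ z w, swap z (m z) * swap w (m w) ∈ G := by
    intro z w
    refine hG ⟨mul_mem (swap_mem (m2 z).symm) (swap_mem (m2 w).symm), ?_⟩
    show Perm.sign _ = 1
    rw [map_mul, Perm.sign_swap (m1 z).symm, Perm.sign_swap (m1 w).symm]; simp
  let n : Ω → Ω := fun z => g (m (g⁻¹ z))
  have n1 : ∀ z, n z ≠ z := fun z h => m1 (g⁻¹ z) (g.injective (by simpa [n] using h))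
  have nn : ∀ z, n (n z) = z := fun z => by simp [n, mm]
  have s2 : ∀ z w, swap z (n z) * swap w (n w) ∈ G := by
    intro z w
    have := mul_mem (mul_mem hg (s1 (g⁻¹ z) (g⁻¹ w))) (inv_mem hg)
    convert this using 1
    have e1 := swap_apply_apply g (g⁻¹ z) (m (g⁻¹ z))
    have e2 := swap_apply_apply g (g⁻¹ w) (m (g⁻¹ w))
    rw [show g (g⁻¹ z) = z by simp] at e1
    rw [show g (g⁻¹ w) = w by simp] at e2
    simp only [n, e1, e2]
    group
  obtain ⟨x, hx⟩ : ∃ x, f x ≠ f (n x) := ⟨g p, by simpa [n] using hp⟩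
  set y := n x with hy
  have s3 : swap x y * swap (m x) (m y) ∈ G := by
    refine hG ⟨?_, ?_⟩
    · have key : ∀ z, f ((swap x y * swap (m x) (m y)) z) = swap (f x) (f y) (f z) := by
        intro z
        have a1 := m1 x
        have a2 := m1 y
        have a3 := m2 x
        have a4 := m2 y
        have a5 := m3 x z
        have a6 := m3 y z
        simp only [Perm.mul_apply, swap_apply_def]
        grind
      intro u v
      rw [key, key, (swap (f x) (f y)).injective.eq_iff]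
    · show Perm.sign _ = 1
      rw [map_mul, Perm.sign_swap (fun h => hx (by rw [h])),
        Perm.sign_swap (fun h => hx (by rw [← m2 x, h, m2]))]
      simp
  by_cases hA : n (m x) = m y
  · obtain ⟨u, hu⟩ := hlab [f x, f y] (by simp; omega)
    simp only [List.mem_cons, List.not_mem_nil, or_false, not_or] at hu
    have hv : f (n u) ≠ f x ∧ f (n u) ≠ f y := by
      have a3 := m2 x
      have a4 := m2 y
      have a5 := m3 x (n u)
      have a6 := m3 y (n u)
      have a7 := nn u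
      have a8 := nn x
      have a9 := nn (m x)
      grind
    obtain ⟨w, hw1, hw2, hw3⟩ : ∃ w, f w ≠ f x ∧ f w ≠ f y ∧
        swap (swap w (m w) u) (swap w (m w) (n u)) = swap u (n u) := by
      by_cases hB : f (n u) = f u
      · refine ⟨u, hu.1, hu.2, ?_⟩
        rw [(m3 u (n u) hB).resolve_left (n1 u), swap_apply_left, swap_apply_right, swap_comm]
      · have : 4 < Nat.card ι := by
          have := Fintype.ofFinite ι
          have h1 : ({f x, f y, f u, f (n u)} : Finset ι).card = 4 := by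
            rw [Finset.card_eq_four]
            refine ⟨f x, f y, f u, f (n u), hx, Ne.symm hu.1, hv.1.symm, Ne.symm hu.2,
              hv.2.symm, Ne.symm hB, rfl⟩
          have h2 := Finset.card_le_univ ({f x, f y, f u, f (n u)} : Finset ι)
          rw [← Nat.card_eq_fintype_card] at h2
          omega
        obtain ⟨w, hw⟩ := hlab [f x, f y, f u, f (n u)] (by simpa)
        simp only [List.mem_cons, List.not_mem_nil, or_false, not_or] at hw
        refine ⟨w, hw.1, hw.2.1, ?_⟩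
        have a3 := m2 w
        rw [swap_apply_of_ne_of_ne, swap_apply_of_ne_of_ne] <;> grind
    set h := swap y (m y) * swap w (m w) with hh
    have hhG : h ∈ G := s1 y w
    have e1 : h x = x := by
      have a3 := m2 w
      have a4 := m2 y
      simp only [hh, Perm.mul_apply, swap_apply_def]
      grind
    have e2 : h y = m y := by
      have a3 := m2 w
      have a4 := m2 y
      simp only [hh, Perm.mul_apply, swap_apply_def]
      grind
    have e3 : swap (h u) (h (n u)) = swap u (n u) := by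
      rw [hh, Perm.mul_apply, Perm.mul_apply, swap_apply_apply, hw3, ← swap_apply_apply,
        swap_apply_of_ne_of_ne, swap_apply_of_ne_of_ne]
      all_goals
        have a4 := m2 y
        grind
    have t1 := s2 x u
    have t2 : swap x (m y) * swap u (n u) ∈ G := by
      have := mul_mem (mul_mem hhG t1) (inv_mem hhG)
      convert this using 1
      have f1 := swap_apply_apply h x y
      have f2 := swap_apply_apply h u (n u)
      rw [e1, e2] at f1
      rw [e3] at f2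
      calc swap x (m y) * swap u (n u) = (h * swap x y * h⁻¹) * (h * swap u (n u) * h⁻¹) := by
            rw [← f1, ← f2]
        _ = _ := by rw [← hy]; group
    refine ⟨swap x y * swap x (m y), ?_, Perm.isThreeCycle_swap_mul_swap_same
      (fun h => hx (by rw [h])) (fun h => hx (by rw [← m2 y, ← h])) (m1 y).symm⟩
    have := mul_mem t1 (inv_mem t2)
    convert this using 1
    simp [mul_assoc, hy]
  · refine ⟨swap (m x) (n (m x)) * swap (m x) (m y), ?_, Perm.isThreeCycle_swap_mul_swap_same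
      (n1 _).symm (fun h => hx (by rw [← m2 x, h, m2])) hA⟩
    have := mul_mem (inv_mem (s2 x (m x))) s3
    convert this using 1
    simp [mul_assoc, hy]

theorem alt_le_of_not_le [Finite ι] {f : Ω → ι} {a : ℕ}
    (hf : ∀ i, Nat.card {x : Ω // f x = i} = a) (ha : 2 ≤ a) (hb : 2 ≤ Nat.card ι)
    (hab : 3 ≤ a ∨ (3 ≤ Nat.card ι ∧ Nat.card ι ≠ 4)) {G : Subgroup (Perm Ω)}
    (hG : partStab f ⊓ alternatingGroup Ω ≤ G) (hG' : ¬ G ≤ partStab f) :
    alternatingGroup Ω ≤ G := by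
  have hp := isPreprimitive_of_not_le hf ha hb (hab.imp id And.left) hG hG'
  suffices ∃ g ∈ G, g.IsThreeCycle by
    obtain ⟨g, hg, hg'⟩ := this
    exact Perm.alternatingGroup_le_of_isPreprimitive_of_isThreeCycle_mem hp hg' hg
  by_cases h3 : 3 ≤ a
  · have : Nontrivial ι := Finite.one_lt_card_iff_nontrivial.1 hb
    obtain ⟨i⟩ : Nonempty ι := inferInstance
    obtain ⟨x, _, _, _, _⟩ := exists_two hf ha i
    obtain ⟨u, v, huv, hu, hv, h1, h2⟩ := exists_two_ne hf h3 x
    have := Perm.isThreeCycle_swap_mul_swap_same hu.symm hv.symm huv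
    exact ⟨_, hG ⟨mul_mem (swap_mem h1.symm) (swap_mem h2.symm), this.mem_alternatingGroup⟩, this⟩
  · obtain rfl : a = 2 := by omega
    obtain ⟨h1, h2⟩ := hab.resolve_left h3
    exact exists_threeCycle_two hf h1 h2 hG hG'

theorem isCoatom_partStab_alt [Finite ι] {f : Ω → ι} {a : ℕ}
    (hf : ∀ i, Nat.card {x : Ω // f x = i} = a) (ha : 2 ≤ a) (hb : 2 ≤ Nat.card ι)
    (hab : 3 ≤ a ∨ (3 ≤ Nat.card ι ∧ Nat.card ι ≠ 4)) :
    IsCoatom ((partStab f ⊓ alternatingGroup Ω).subgroupOf (alternatingGroup Ω)) := by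
  have : Nontrivial ι := Finite.one_lt_card_iff_nontrivial.1 hb
  constructor
  · rw [Ne, Subgroup.subgroupOf_eq_top]
    intro h
    obtain ⟨i, j, hij⟩ := exists_pair_ne ι
    obtain ⟨u, v, huv, hu, hv⟩ := exists_two hf ha i
    obtain ⟨w, _, _, hw, _⟩ := exists_two hf ha j
    have hwu : w ≠ u := fun h => hij (by rw [← hu, ← hw, h])
    have hwv : w ≠ v := fun h => hij (by rw [← hv, ← hw, h])
    have h3 := (h (Perm.isThreeCycle_swap_mul_swap_same hwu hwv huv).mem_alternatingGroup).1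
    have h4 := (h3 u v).1 (hu.trans hv.symm)
    simp [swap_apply_def, huv, hwu, hwv, hwu.symm, hwv.symm, huv.symm, hw, hu, hv] at h4
    exact hij h4.symm
  · intro G hG
    have h1 : partStab f ⊓ alternatingGroup Ω ≤ G.map (alternatingGroup Ω).subtype := by
      intro g hg
      exact ⟨⟨g, hg.2⟩, hG.le hg, rfl⟩
    have h2 : ¬ G.map (alternatingGroup Ω).subtype ≤ partStab f := by
      intro h
      apply hG.not_ge
      intro g hg
      exact ⟨h ⟨g, hg, rfl⟩, g.2⟩
    have h3 := alt_le_of_not_le hf ha hb hab h1 h2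
    rw [eq_top_iff]
    intro g _
    obtain ⟨g', hg', e⟩ := h3 g.2
    rwa [← Subtype.ext e]

theorem card_eq_mul [Finite ι] {f : Ω → ι} {a : ℕ}
    (hf : ∀ i, Nat.card {x : Ω // f x = i} = a) : Nat.card Ω = Nat.card ι * a := by
  have := Fintype.ofFinite ι
  rw [← Nat.card_congr (Equiv.sigmaFiberEquiv f), Nat.card_sigma]
  simp [hf]

end Cfsg.Agent.H6.Wreath
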